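import Cfsg.Statements.S0175
import Mathlib
import Cfsg.Agent.Lib.Helper2.PermChar
import Cfsg.Agent.Lib.Helper2.CharMore

set_option autoImplicit false
open Cfsg

namespace Cfsg.Agent.S0175

open Cfsg.Agent.Lib.Helper2
open scoped commutatorElement

theorem indFun_one {G : Type*} [Group G] [Fintype G] (H : Subgroup G) (θ : H → ℂ) :
    Cfsg.indFun H θ 1 = (Nat.card H : ℂ)⁻¹ * ((Nat.card G : ℂ) * θ 1) := by
  unfold Cfsg.indFun
  congr 1
  have : ∀ x : G, Cfsg.extendByZero H θ (x⁻¹ * 1 * x) = θ 1 := by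
    intro x
    have e : x⁻¹ * 1 * x = ((1 : H) : G) := by simp
    rw [e, extendByZero_coe]
  simp_rw [this]
  rw [Finset.sum_const, Finset.card_univ, nsmul_eq_mul, Nat.card_eq_fintype_card]

theorem indFun_eq_one_of_forall {G : Type*} [Group G] [Fintype G] (H : Subgroup G) (θ : H → ℂ) (n : G)
    (h : ∀ x : G, ∃ hx : x⁻¹ * n * x ∈ H, θ ⟨_, hx⟩ = θ 1) :
    Cfsg.indFun H θ n = Cfsg.indFun H θ 1 := by
  rw [indFun_one]
  unfold Cfsg.indFun
  congr 1
  have : ∀ x : G, Cfsg.extendByZero H θ (x⁻¹ * n * x) = θ 1 := by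
    intro x
    obtain ⟨hx, hx'⟩ := h x
    rw [extendByZero_mem H θ hx, hx']
  simp_rw [this]
  rw [Finset.sum_const, Finset.card_univ, nsmul_eq_mul, Nat.card_eq_fintype_card]

theorem mem_of_indFun_one_eq {G : Type*} [Group G] [Fintype G] (H : Subgroup G) (g : G)
    (h : Cfsg.indFun H (fun _ => 1) g = Cfsg.indFun H (fun _ => 1) 1) : g ∈ H := by
  classical
  rw [indFun_one] at h
  unfold Cfsg.indFun at h
  have hH : (Nat.card H : ℂ)⁻¹ ≠ 0 := inv_ne_zero (card_subgroup_ne_zero H)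
  have h1 := mul_left_cancel₀ hH h
  have h2 : ∀ x : G, Cfsg.extendByZero H (fun _ => (1 : ℂ)) (x⁻¹ * g * x) =
      if x⁻¹ * g * x ∈ H then 1 else 0 := by
    intro x
    split_ifs with hx
    · rw [extendByZero_mem H _ hx]
    · rw [extendByZero_not_mem H _ hx]
  simp_rw [h2] at h1
  rw [Finset.sum_boole, mul_one, Nat.card_eq_fintype_card] at h1
  have h3 : (Finset.univ.filter (fun x : G => x⁻¹ * g * x ∈ H)).card = Fintype.card G := by
    exact_mod_cast h1
  rw [Finset.card_eq_iff_eq_univ] at h3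
  have h4 : (1 : G) ∈ Finset.univ.filter (fun x : G => x⁻¹ * g * x ∈ H) := by
    rw [h3]
    exact Finset.mem_univ _
  simpa using h4

/-- A character of degree `d` is constant on `D` as soon as all irreducible characters of degree
at most `d` are. -/
theorem char_const_of_irr_const {G : Type*} [Group G] [Fintype G] {θ : G → ℂ}
    (hθ : Cfsg.IsCharacter G θ) (d : ℕ) (hd : θ 1 = d) (g : G)
    (h : ∀ ψ : G → ℂ, Cfsg.IsIrrCharacter G ψ → (∃ m : ℕ, m ≤ d ∧ ψ 1 = m) → ψ g = ψ 1) :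
    θ g = θ 1 := by
  classical
  haveI := finite_irr (G := G)
  cases nonempty_fintype (Cfsg.IrrCharacter G)
  obtain ⟨n, hn⟩ := IsCharacter.exists_eq_sum hθ
  have hdeg : ∀ χ : Cfsg.IrrCharacter G, ∃ n : ℕ, (χ : G → ℂ) 1 = n :=
    fun χ => IsCharacter.apply_one (IsIrrCharacter.isCharacter χ.2)
  choose e he using hdeg
  have hsum : ∑ ψ : Cfsg.IrrCharacter G, n ψ * e ψ = d := by
    have h1 : θ 1 = ∑ ψ : Cfsg.IrrCharacter G, (n ψ : ℂ) * (ψ : G → ℂ) 1 := by
      rw [hn]
      simp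
    rw [hd] at h1
    simp_rw [he] at h1
    exact_mod_cast h1.symm
  rw [hn]
  simp only [Finset.sum_apply, Pi.smul_apply, smul_eq_mul]
  apply Finset.sum_congr rfl
  intro ψ _
  by_cases hn0 : n ψ = 0
  · rw [hn0]
    simp
  · rw [h ψ ψ.2 ⟨e ψ, ?_, he ψ⟩]
    have h1 : n ψ * e ψ ≤ d := by
      rw [← hsum]
      exact Finset.single_le_sum (f := fun ψ => n ψ * e ψ) (fun _ _ => Nat.zero_le _) (Finset.mem_univ ψ)
    have h2 : e ψ ≤ n ψ * e ψ := Nat.le_mul_of_pos_left _ (Nat.pos_of_ne_zero hn0)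
    omega

theorem key {G : Type*} [Group G] [Fintype G]
    (hM : ∀ χ : G → ℂ, Cfsg.IsIrrCharacter G χ → ∃ (H : Subgroup G) (lam : H →* ℂˣ),
      χ = Cfsg.indFun H (fun h => (lam h : ℂ))) (d : ℕ) :
    ∃ i : ℕ, ∀ χ : G → ℂ, Cfsg.IsIrrCharacter G χ → (∃ m : ℕ, m ≤ d ∧ χ 1 = m) →
      ∀ g ∈ derivedSeries G i, χ g = χ 1 := by
  classical
  induction d with
  | zero =>
    refine ⟨0, ?_⟩
    rintro χ hχ ⟨m, hm, hχm⟩
    exfalso
    obtain ⟨n, ρ, hρ, rfl⟩ := hχ
    haveI := hρ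
    have hpos := finrank_pos_of_isIrreducible ρ
    rw [Representation.char_one] at hχm
    have : Module.finrank ℂ (Fin n → ℂ) = m := by exact_mod_cast hχm
    omega
  | succ d ih =>
    obtain ⟨i, hi⟩ := ih
    refine ⟨i + 1, ?_⟩
    rintro χ hχ ⟨m, hm, hχm⟩ g hg
    have hanti : derivedSeries G (i + 1) ≤ derivedSeries G i := derivedSeries_antitone G (Nat.le_succ i)
    by_cases hmd : m ≤ d
    · exact hi χ hχ ⟨m, hmd, hχm⟩ g (hanti hg)
    have hm1 : m = d + 1 := by omega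
    subst hm1
    obtain ⟨H, lam, rfl⟩ := hM χ hχ
    -- the permutation character
    set θ := Cfsg.indFun H (fun _ => (1 : ℂ)) with hθdef
    have hθ : Cfsg.IsCharacter G θ := IsCharacter.indFun H (IsIrrCharacter.isCharacter isIrrCharacter_one)
    have hθ1 : θ 1 = ((d + 1 : ℕ) : ℂ) := by
      rw [← hχm, hθdef, indFun_one, indFun_one]
      simp
    have hinner : Cfsg.classInner θ (fun _ => 1) = 1 := by
      rw [hθdef, frobenius_reciprocity H _ _ (IsCharacter.isClassFunction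
        (IsIrrCharacter.isCharacter isIrrCharacter_one))]
      have := classInner_irr (G := H) isIrrCharacter_one isIrrCharacter_one
      rw [if_pos rfl] at this
      exact this
    have hθ' : Cfsg.IsCharacter G (θ - fun _ => 1) :=
      IsCharacter.sub_irr hθ isIrrCharacter_one (by rw [hinner]; exact one_ne_zero)
    have hθ'1 : (θ - (fun _ => 1 : G → ℂ)) 1 = (d : ℂ) := by
      simp only [Pi.sub_apply, hθ1]
      push_cast
      ring
    have hDH : derivedSeries G i ≤ H := by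
      intro y hy
      apply mem_of_indFun_one_eq
      have h1 := char_const_of_irr_const hθ' d hθ'1 y (fun ψ hψ hψd => hi ψ hψ hψd y hy)
      simp only [Pi.sub_apply] at h1
      exact sub_left_injective h1
    have hker : derivedSeries G (i + 1) ≤ (lam.ker).map H.subtype := by
      rw [derivedSeries_succ, Subgroup.commutator_le]
      intro a ha b hb
      refine ⟨⁅(⟨a, hDH ha⟩ : H), (⟨b, hDH hb⟩ : H)⁆, ?_, rfl⟩
      show lam ⁅(⟨a, hDH ha⟩ : H), (⟨b, hDH hb⟩ : H)⁆ = 1
      rw [map_commutatorElement]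
      exact commutatorElement_eq_one_iff_mul_comm.mpr (mul_comm _ _)
    apply indFun_eq_one_of_forall
    intro x
    have hnorm : (derivedSeries G (i + 1)).Normal := inferInstance
    have h1 : x⁻¹ * g * x ∈ derivedSeries G (i + 1) := by
      have := hnorm.conj_mem g hg x⁻¹
      rwa [inv_inv] at this
    obtain ⟨y, hy, hyx⟩ := hker h1
    have hmem : x⁻¹ * g * x ∈ H := hyx ▸ y.2
    refine ⟨hmem, ?_⟩
    have hyeq : (⟨x⁻¹ * g * x, hmem⟩ : H) = y := Subtype.ext hyx.symm
    rw [hyeq, map_one]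
    have : lam y = 1 := hy
    rw [this]

/-- Taketa's Theorem on M-groups: if every irreducible complex character of a finite group is induced from a linear character (a homomorphism to ℂˣ) of some subgroup, the group is solvable. -/
theorem result {G : Type*} [Group G] [Fintype G] (hM : ∀ χ : G → ℂ, Cfsg.IsIrrCharacter G χ → ∃ (H : Subgroup G) (lam : H →* ℂˣ), χ = Cfsg.indFun H (fun h => (lam h : ℂ))) : Group.IsSolvable G := by
  classical
  haveI := finite_irr (G := G)
  cases nonempty_fintype (Cfsg.IrrCharacter G)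
  have hdeg : ∀ χ : Cfsg.IrrCharacter G, ∃ n : ℕ, (χ : G → ℂ) 1 = n :=
    fun χ => IsCharacter.apply_one (IsIrrCharacter.isCharacter χ.2)
  choose e he using hdeg
  obtain ⟨i, hi⟩ := key hM (Finset.univ.sup e)
  rw [Group.isSolvable_def]
  refine ⟨i, ?_⟩
  rw [eq_bot_iff]
  intro g hg
  rw [Subgroup.mem_bot]
  by_contra hg1
  have h1 := sum_degree_mul_irr (G := G) g
  rw [if_neg hg1] at h1
  have h2 := sum_degree_sq (G := G)
  have h3 : ∑ χ : Cfsg.IrrCharacter G, (χ : G → ℂ) 1 * (χ : G → ℂ) g =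
      ∑ χ : Cfsg.IrrCharacter G, (χ : G → ℂ) 1 ^ 2 :=
    Finset.sum_congr rfl fun χ _ => by
      rw [hi χ χ.2 ⟨e χ, Finset.le_sup (Finset.mem_univ χ), he χ⟩ g hg, pow_two]
  rw [h3, h2] at h1
  exact card_ne_zero_complex h1

end Cfsg.Agent.S0175
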