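import Cfsg.Statements.S2162
import Cfsg.Agent.Lib.Helper14.SqZero

set_option autoImplicit false
open Cfsg

namespace Cfsg.Agent.S2162

/-- Conjugacy of involutions in the special linear group over a finite field of characteristic two, in dimension at least 3: two elements of order 2 of SL_n(F) are conjugate in SL_n(F) exactly when the matrices a − 1 and b − 1 have the same rank (the rank of a − 1 is the dimension of the commutator space [V, a]). -/
theorem result {F : Type*} [Field F] [Fintype F] [CharP F 2] {n : ℕ} (hn : 3 ≤ n) (a b : Matrix.SpecialLinearGroup (Fin n) F) (ha : orderOf a = 2) (hb : orderOf b = 2) :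
    IsConj a b ↔ ((a : Matrix (Fin n) (Fin n) F) - 1).rank = ((b : Matrix (Fin n) (Fin n) F) - 1).rank := by
  classical
  have hsq : ∀ c : Matrix.SpecialLinearGroup (Fin n) F, orderOf c = 2 →
      ((c : Matrix (Fin n) (Fin n) F) - 1) * ((c : Matrix (Fin n) (Fin n) F) - 1) = 0 := by
    intro c hc
    have h1 : c ^ 2 = 1 := by rw [← hc, pow_orderOf_eq_one]
    have h2 : (c : Matrix (Fin n) (Fin n) F) * (c : Matrix (Fin n) (Fin n) F) = 1 := by
      have := congrArg (fun x : Matrix.SpecialLinearGroup (Fin n) F => (x : Matrix (Fin n) (Fin n) F)) h1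
      simpa [sq] using this
    have h3 : ∀ M : Matrix (Fin n) (Fin n) F, M + M = 0 := by
      intro M; ext i j; exact CharTwo.add_self_eq_zero _
    have h4 : ((c : Matrix (Fin n) (Fin n) F) - 1) * ((c : Matrix (Fin n) (Fin n) F) - 1)
        = ((1 : Matrix (Fin n) (Fin n) F) + 1) - ((c : Matrix (Fin n) (Fin n) F) + (c : Matrix (Fin n) (Fin n) F)) := by
      rw [sub_mul, mul_sub, mul_sub, h2]; simp; abel
    rw [h4, h3, h3, sub_zero]
  constructor
  · intro h
    obtain ⟨c, hc⟩ := isConj_iff.mp h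
    have h1 : (b : Matrix (Fin n) (Fin n) F) - 1 = (c : Matrix (Fin n) (Fin n) F) *
        ((a : Matrix (Fin n) (Fin n) F) - 1) * ((c⁻¹ : Matrix.SpecialLinearGroup (Fin n) F) : Matrix (Fin n) (Fin n) F) := by
      rw [← hc, mul_sub, sub_mul, mul_one]
      have : (c : Matrix (Fin n) (Fin n) F) * ((c⁻¹ : Matrix.SpecialLinearGroup (Fin n) F) : Matrix (Fin n) (Fin n) F) = 1 := by
        rw [← Matrix.SpecialLinearGroup.coe_mul, mul_inv_cancel]; rfl
      rw [this]; rfl
    rw [h1, Matrix.rank_mul_eq_left_of_isUnit_det _ _ (by rw [(c⁻¹).2]; exact isUnit_one),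
      Matrix.rank_mul_eq_right_of_isUnit_det _ _ (by rw [c.2]; exact isUnit_one)]
  · intro h
    have hNa : ∀ v, ((a : Matrix (Fin n) (Fin n) F) - 1).mulVecLin (((a : Matrix (Fin n) (Fin n) F) - 1).mulVecLin v) = 0 := by
      intro v
      simp only [Matrix.mulVecLin_apply, Matrix.mulVec_mulVec, hsq a ha, Matrix.zero_mulVec]
    have hNb : ∀ v, ((b : Matrix (Fin n) (Fin n) F) - 1).mulVecLin (((b : Matrix (Fin n) (Fin n) F) - 1).mulVecLin v) = 0 := by
      intro v
      simp only [Matrix.mulVecLin_apply, Matrix.mulVec_mulVec, hsq b hb, Matrix.zero_mulVec]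
    obtain ⟨g, hg⟩ := Cfsg.Agent.Lib.Helper14.SqZero.exists_conj _ _ hNa hNb h
    have hδ : LinearMap.det (g : (Fin n → F) →ₗ[F] (Fin n → F)) ≠ 0 := (LinearEquiv.isUnit_det' g).ne_zero
    obtain ⟨d, hd⟩ := FiniteField.isSquare_of_char_two (ringChar.eq F 2)
      (LinearMap.det (g : (Fin n → F) →ₗ[F] (Fin n → F)))⁻¹
    have hbne : ((b : Matrix (Fin n) (Fin n) F) - 1).mulVecLin ≠ 0 := by
      intro h0
      have h1 : (b : Matrix (Fin n) (Fin n) F) - 1 = 0 := by
        have := congrArg LinearMap.toMatrix' h0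
        rw [← Matrix.toLin'_apply', LinearMap.toMatrix'_toLin'] at this
        simpa using this
      have h2 : b = 1 := Subtype.ext (sub_eq_zero.mp h1)
      rw [h2, orderOf_one] at hb
      norm_num at hb
    obtain ⟨z, hz1, hz2⟩ := Cfsg.Agent.Lib.Helper14.SqZero.exists_commute_det_sq _ hNb hbne d
    have hdet : (LinearMap.toMatrix' (z ∘ₗ (g : (Fin n → F) →ₗ[F] (Fin n → F)))).det = 1 := by
      rw [LinearMap.det_toMatrix', LinearMap.det_comp, hz2, sq, ← hd, inv_mul_cancel₀ hδ]
    obtain ⟨c, hc⟩ : ∃ c : Matrix.SpecialLinearGroup (Fin n) F, (c : Matrix (Fin n) (Fin n) F) =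
      LinearMap.toMatrix' (z ∘ₗ (g : (Fin n → F) →ₗ[F] (Fin n → F))) := ⟨⟨_, hdet⟩, rfl⟩
    have hcomm : (z ∘ₗ (g : (Fin n → F) →ₗ[F] (Fin n → F))) ∘ₗ ((a : Matrix (Fin n) (Fin n) F) - 1).mulVecLin
        = ((b : Matrix (Fin n) (Fin n) F) - 1).mulVecLin ∘ₗ (z ∘ₗ (g : (Fin n → F) →ₗ[F] (Fin n → F))) := by
      apply LinearMap.ext
      intro v
      show z (g (((a : Matrix (Fin n) (Fin n) F) - 1).mulVecLin v)) =
        ((b : Matrix (Fin n) (Fin n) F) - 1).mulVecLin (z (g v))
      rw [hg, hz1]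
    have hmat : (c : Matrix (Fin n) (Fin n) F) * ((a : Matrix (Fin n) (Fin n) F) - 1)
        = ((b : Matrix (Fin n) (Fin n) F) - 1) * (c : Matrix (Fin n) (Fin n) F) := by
      have := congrArg LinearMap.toMatrix' hcomm
      rw [LinearMap.toMatrix'_comp, LinearMap.toMatrix'_comp _ (z ∘ₗ _), ← Matrix.toLin'_apply', ← Matrix.toLin'_apply',
        LinearMap.toMatrix'_toLin', LinearMap.toMatrix'_toLin', ← hc] at this
      exact this
    rw [isConj_iff]
    refine ⟨c, ?_⟩
    rw [mul_inv_eq_iff_eq_mul]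
    apply Subtype.ext
    rw [Matrix.SpecialLinearGroup.coe_mul, Matrix.SpecialLinearGroup.coe_mul]
    rw [mul_sub, sub_mul, mul_one, one_mul] at hmat
    exact sub_left_injective hmat

end Cfsg.Agent.S2162
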