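import Cfsg.Statements.S1326
import Mathlib
import Cfsg.Agent.Lib.Helper9.Layer

set_option autoImplicit false
open Cfsg

namespace Cfsg.Agent.S1326

open Cfsg.Agent.Lib.Helper8 Cfsg.Agent.Lib.Helper9

/-- For a finite group X: the Fitting subgroup contains its centralizer if and only if the layer of X is trivial. -/
theorem result {X : Type*} [Group X] [Finite X] : Subgroup.centralizer (Cfsg.fittingSubgroup X : Set X) ≤ Cfsg.fittingSubgroup X ↔ Cfsg.layer X = ⊥ := by
  constructor
  · intro h
    rw [layer_eq_bot_iff]
    intro L hL
    apply comp_not_solvable hL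
    have h1 := comp_comm_fitting hL
    rw [Subgroup.commutator_eq_bot_iff_le_centralizer] at h1
    have := fitting_solvable (G := X)
    exact Group.isSolvable_of_isSolvable_injective (Subgroup.inclusion_injective (h1.trans h))
  · intro h
    have h1 := centralizer_generalizedFitting_le (G := X)
    unfold Cfsg.generalizedFittingSubgroup at h1
    rw [h, bot_sup_eq] at h1
    exact h1

end Cfsg.Agent.S1326
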