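import Cfsg.Statements.S1327
import Mathlib
import Cfsg.Agent.Lib.Helper9.Layer
import Cfsg.Agent.Lib.Helper8.FStarP
import Cfsg.Agent.Lib.Helper1.Cores
import Cfsg.Agent.S1326

set_option autoImplicit false
open Cfsg

namespace Cfsg.Agent.S1327

open Cfsg.Agent.Lib.Helper8

theorem pLayer_eq_bot_iff {X : Type*} [Group X] [Finite X] (p : ℕ) :
    Cfsg.pLayer p X = ⊥ ↔ Cfsg.layer (X ⧸ Cfsg.pPrimeCore p X) = ⊥ := by
  constructor
  · intro h
    rw [Cfsg.Agent.Lib.Helper9.layer_eq_bot_iff]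
    intro K hK
    have hπ : Function.Surjective (QuotientGroup.mk' (Cfsg.pPrimeCore p X)) := QuotientGroup.mk'_surjective _
    let 𝒮 : Set (Subgroup X) := {H | H.IsSubnormal ∧ H.map (QuotientGroup.mk' (Cfsg.pPrimeCore p X)) = K}
    have hne : 𝒮.Nonempty := ⟨K.comap (QuotientGroup.mk' (Cfsg.pPrimeCore p X)), hK.1.comap _,
      Subgroup.map_comap_eq_self_of_surjective hπ K⟩
    obtain ⟨H, hHmin⟩ := (Set.toFinite 𝒮).exists_minimal hne
    have hH : H.IsSubnormal ∧ H.map (QuotientGroup.mk' (Cfsg.pPrimeCore p X)) = K := hHmin.prop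
    have hcomp : Cfsg.IsPComponent p H := by
      refine ⟨hH.1, ?_, ?_⟩
      · rw [hH.2]
        exact hK
      · intro H' hsn hle heq
        exact le_antisymm hle (hHmin.le_of_le (show H' ∈ 𝒮 from ⟨hsn, heq.trans hH.2⟩) hle)
    have hle : H ≤ Cfsg.pLayer p X := le_sSup hcomp
    rw [h, le_bot_iff] at hle
    have hKbot : K = ⊥ := by rw [← hH.2, hle, Subgroup.map_bot]
    exact ((isComponent_iff K).mp hK).2.2.1 hKbot
  · intro h
    rw [Cfsg.Agent.Lib.Helper9.layer_eq_bot_iff] at h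
    rw [eq_bot_iff]
    apply sSup_le
    intro K hK
    exact absurd hK.2.1 (h _)

theorem sylow_sup_eq_aux {X : Type*} [Group X] [Finite X] (p : ℕ) [Fact p.Prime] (M N : Subgroup X) [N.Normal]
    (hNM : N ≤ M) (hpq : IsPGroup p (M ⧸ N.subgroupOf M)) (P : Sylow p M) :
    (P : Subgroup M).map M.subtype ⊔ N = M := by
  have hp : p.Prime := Fact.out
  have hidx : ((P : Subgroup M) ⊔ N.subgroupOf M).index = 1 := by
    obtain ⟨n, hn⟩ := IsPGroup.iff_card.mp hpq
    have h1 : ((P : Subgroup M) ⊔ N.subgroupOf M).index ∣ p ^ n := by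
      rw [← hn, ← Subgroup.index_eq_card]
      exact Subgroup.index_dvd_of_le le_sup_right
    obtain ⟨k, -, hk⟩ := (Nat.dvd_prime_pow hp).mp h1
    rcases Nat.eq_zero_or_pos k with rfl | hpos
    · simpa using hk
    · exfalso
      apply P.not_dvd_index
      refine dvd_trans ?_ (Subgroup.index_dvd_of_le (le_sup_left : (P : Subgroup M) ≤ (P : Subgroup M) ⊔ N.subgroupOf M))
      rw [hk]
      exact dvd_pow_self p hpos.ne'
  rw [Subgroup.index_eq_one] at hidx
  have h3 := congrArg (Subgroup.map M.subtype) hidx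
  rw [Subgroup.map_sup, Subgroup.map_subgroupOf_eq_of_le hNM, ← MonoidHom.range_eq_map,
    Subgroup.range_subtype] at h3
  exact h3

theorem sylow_sup_eq {X : Type*} [Group X] [Finite X] (p : ℕ) [Fact p.Prime]
    (P : Sylow p ↥(Cfsg.pPrimePCore p X)) :
    (P : Subgroup ↥(Cfsg.pPrimePCore p X)).map (Cfsg.pPrimePCore p X).subtype ⊔ Cfsg.pPrimeCore p X
      = Cfsg.pPrimePCore p X := by
  apply sylow_sup_eq_aux
  · intro x hx
    show QuotientGroup.mk' (Cfsg.pPrimeCore p X) x ∈ Cfsg.pCore p (X ⧸ (Cfsg.pPrimeCore p X))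
    have h : QuotientGroup.mk' (Cfsg.pPrimeCore p X) x = 1 := (QuotientGroup.eq_one_iff x).mpr hx
    rw [h]
    exact Subgroup.one_mem _
  · intro q
    obtain ⟨x, rfl⟩ := QuotientGroup.mk_surjective q
    have hx : QuotientGroup.mk' (Cfsg.pPrimeCore p X) x.1 ∈ Cfsg.pCore p (X ⧸ (Cfsg.pPrimeCore p X)) := x.2
    obtain ⟨k, hk⟩ := (isPGroup_pCore (G := X ⧸ (Cfsg.pPrimeCore p X)) p) ⟨_, hx⟩
    refine ⟨k, ?_⟩
    have hk' : (QuotientGroup.mk' (Cfsg.pPrimeCore p X) x.1) ^ p ^ k = 1 := congrArg Subtype.val hk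
    rw [← map_pow] at hk'
    have h2 : x.1 ^ p ^ k ∈ (Cfsg.pPrimeCore p X) := (QuotientGroup.eq_one_iff _).mp hk'
    rw [← QuotientGroup.mk_pow]
    exact (QuotientGroup.eq_one_iff _).mpr h2

/-- A finite group X is p-constrained if and only if its p-layer L_{p'}(X) is trivial (equivalently X / O_{p'}(X) has trivial layer). -/
theorem result {X : Type*} [Group X] [Finite X] (p : ℕ) [Fact p.Prime] : Cfsg.IsPConstrained p X ↔ Cfsg.pLayer p X = ⊥ := by
  have hp : p.Prime := Fact.out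
  rw [pLayer_eq_bot_iff, ← Cfsg.Agent.S1326.result]
  have hbot := Cfsg.Agent.Lib.Helper1.pPrimeCore_quotient_eq_bot (G := X) p
  rw [fitting_eq_pCore_of_pPrimeCore_eq_bot p hbot]
  have hπ : Function.Surjective (QuotientGroup.mk' (Cfsg.pPrimeCore p X)) := QuotientGroup.mk'_surjective _
  have hMn : (Cfsg.pPrimePCore p X).Normal := by
    unfold Cfsg.pPrimePCore
    infer_instance
  have himg : ∀ P : Sylow p ↥(Cfsg.pPrimePCore p X),
      ((P : Subgroup ↥(Cfsg.pPrimePCore p X)).map (Cfsg.pPrimePCore p X).subtype).map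
        (QuotientGroup.mk' (Cfsg.pPrimeCore p X)) = Cfsg.pCore p (X ⧸ Cfsg.pPrimeCore p X) := by
    intro P
    have h1 := congrArg (Subgroup.map (QuotientGroup.mk' (Cfsg.pPrimeCore p X))) (sylow_sup_eq p P)
    rw [Subgroup.map_sup, QuotientGroup.map_mk'_self, sup_bot_eq] at h1
    rw [h1]
    exact Subgroup.map_comap_eq_self_of_surjective hπ _
  constructor
  · intro hc xbar hx
    obtain ⟨x, rfl⟩ := hπ xbar
    let P : Sylow p ↥(Cfsg.pPrimePCore p X) := default
    set P' := (P : Subgroup ↥(Cfsg.pPrimePCore p X)).map (Cfsg.pPrimePCore p X).subtype with hP'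
    have hfr : Subgroup.normalizer (P' : Set X) ⊔ Cfsg.pPrimeCore p X = ⊤ := by
      have h1 := Sylow.normalizer_sup_eq_top P
      have h2 : P' ⊔ Cfsg.pPrimeCore p X = Cfsg.pPrimePCore p X := sylow_sup_eq p P
      calc Subgroup.normalizer (P' : Set X) ⊔ Cfsg.pPrimeCore p X
          = (Subgroup.normalizer (P' : Set X) ⊔ P') ⊔ Cfsg.pPrimeCore p X := by
            rw [sup_eq_left.mpr Subgroup.le_normalizer]
        _ = Subgroup.normalizer (P' : Set X) ⊔ (P' ⊔ Cfsg.pPrimeCore p X) := sup_assoc _ _ _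
        _ = Subgroup.normalizer (P' : Set X) ⊔ Cfsg.pPrimePCore p X := by rw [h2]
        _ = ⊤ := h1
    obtain ⟨y, hy, n, hn, rfl⟩ := Subgroup.mem_sup_of_normal_right.mp (hfr ▸ Subgroup.mem_top x)
    have hπn : QuotientGroup.mk' (Cfsg.pPrimeCore p X) n = 1 := (QuotientGroup.eq_one_iff n).mpr hn
    rw [map_mul, hπn, mul_one] at hx ⊢
    have hdisj : P' ⊓ Cfsg.pPrimeCore p X = ⊥ := by
      rw [← disjoint_iff]
      apply Subgroup.disjoint_of_coprime_natCard
      obtain ⟨k, hk⟩ := IsPGroup.iff_card.mp (P.2.map (Cfsg.pPrimePCore p X).subtype)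
      rw [hk]
      exact (Nat.Coprime.pow_right k (coprime_card_pPrimeCore p)).symm
    have hyC : y ∈ Subgroup.centralizer (P' : Set X) := by
      rw [Subgroup.mem_centralizer_iff]
      intro u hu
      have h1 : y * u * y⁻¹ * u⁻¹ ∈ P' :=
        P'.mul_mem ((Subgroup.mem_normalizer_iff.mp hy u).mp hu) (P'.inv_mem hu)
      have h2 : y * u * y⁻¹ * u⁻¹ ∈ Cfsg.pPrimeCore p X := by
        rw [← QuotientGroup.eq_one_iff]
        have hu' : QuotientGroup.mk' (Cfsg.pPrimeCore p X) u ∈ Cfsg.pCore p (X ⧸ Cfsg.pPrimeCore p X) := by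
          rw [← himg P]
          exact ⟨u, hu, rfl⟩
        rw [Subgroup.mem_centralizer_iff] at hx
        have h3 := hx _ hu'
        have h4 : (QuotientGroup.mk u : X ⧸ Cfsg.pPrimeCore p X) * QuotientGroup.mk y
            = QuotientGroup.mk y * QuotientGroup.mk u := h3
        simp only [QuotientGroup.mk_mul, QuotientGroup.mk_inv]
        rw [← h4]; group
      have h3 : y * u * y⁻¹ * u⁻¹ ∈ P' ⊓ Cfsg.pPrimeCore p X := Subgroup.mem_inf.mpr ⟨h1, h2⟩
      rw [hdisj, Subgroup.mem_bot] at h3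
      calc u * y = (y * u * y⁻¹ * u⁻¹)⁻¹ * (y * u) := by group
        _ = y * u := by rw [h3, inv_one, one_mul]
    exact hc P hyC
  · intro hc P x hx
    show QuotientGroup.mk' (Cfsg.pPrimeCore p X) x ∈ Cfsg.pCore p (X ⧸ Cfsg.pPrimeCore p X)
    apply hc
    rw [Subgroup.mem_centralizer_iff]
    intro ubar hu
    have hu2 : ubar ∈ Cfsg.pCore p (X ⧸ Cfsg.pPrimeCore p X) := hu
    rw [← himg P] at hu2
    obtain ⟨u, hu', rfl⟩ := hu2
    rw [Subgroup.mem_centralizer_iff] at hx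
    rw [← map_mul, ← map_mul, hx u hu']

end Cfsg.Agent.S1327
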