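import Cfsg.Statements.S4425
import Mathlib
import Cfsg.Agent.Lib.Helper23.RegInner

set_option autoImplicit false
open Cfsg

namespace Cfsg.Agent.S4425

open Cfsg.Agent.Lib.Helper2 Cfsg.Agent.Lib.Helper6 Cfsg.Agent.Lib.Helper23.RegInner
open Cfsg.Agent.Lib.Helper23.IndTools Cfsg.Agent.Lib.Lead
attribute [local instance] irrFintype

/-- Let χ be an irreducible character of the finite group G, p a prime, p^a the p-part of the order of G and p^b the p-part of the degree χ(1). Let χ̃ be the class function equal to p^a · χ on p-regular elements and zero on p-singular elements. Then p^(−b) · χ̃ is a generalized character of G, while p^(−(b+1)) · χ̃ is not. -/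
theorem result {G : Type*} [Group G] [Finite G] (p : ℕ) [Fact p.Prime] (χ : Cfsg.IrrCharacter G) : Cfsg.IsGeneralizedCharacter G (fun x : G => if p ∣ orderOf x then (0 : ℂ) else ((p ^ ((Nat.card G).factorization p - (Cfsg.charDegree (χ : G → ℂ)).factorization p) : ℕ) : ℂ) * (χ : G → ℂ) x) ∧ ¬ Cfsg.IsGeneralizedCharacter G (fun x : G => if p ∣ orderOf x then (0 : ℂ) else ((p ^ (Nat.card G).factorization p : ℕ) : ℂ) / ((p ^ ((Cfsg.charDegree (χ : G → ℂ)).factorization p + 1) : ℕ) : ℂ) * (χ : G → ℂ) x) := by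
  classical
  cases nonempty_fintype G
  have hpr : p.Prime := Fact.out
  set a := (Nat.card G).factorization p with ha
  set b := (Cfsg.charDegree (χ : G → ℂ)).factorization p with hb
  have hpos := Cfsg.Agent.Lib.Helper24.charDegree_pos χ.2
  have hba : b ≤ a :=
    (Nat.factorization_le_iff_dvd hpos.ne' Nat.card_pos.ne').2
      (Cfsg.Agent.Lib.Helper24.degree_dvd_card χ.2) p
  have hp0 : ∀ k : ℕ, ((p ^ k : ℕ) : ℂ) ≠ 0 := by
    intro k
    have : 0 < p ^ k := pow_pos hpr.pos k
    exact_mod_cast this.ne'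
  constructor
  · choose k hk using fun ψ => pow_dvd_nn p χ ψ
    have h1 : (fun x : G => if p ∣ orderOf x then (0 : ℂ) else ((p ^ (a - b) : ℕ) : ℂ) *
        (χ : G → ℂ) x) = ∑ ψ : Cfsg.IrrCharacter G, (k ψ : ℂ) • (ψ : G → ℂ) := by
      funext x
      apply mul_left_cancel₀ (hp0 b)
      have h2 := congrFun (tilde_eq_sum p χ) x
      simp only [Finset.sum_apply, Pi.smul_apply, smul_eq_mul] at h2 ⊢
      rw [Finset.mul_sum]
      have h3 : ∀ ψ : Cfsg.IrrCharacter G, ((p ^ b : ℕ) : ℂ) * ((k ψ : ℂ) * (ψ : G → ℂ) x)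
          = (nn p χ ψ : ℂ) * (ψ : G → ℂ) x := by
        intro ψ
        rw [hk ψ]
        push_cast
        ring
      simp only [h3]
      rw [← h2]
      unfold tilde
      split_ifs
      · rw [mul_zero]
      · rw [← mul_assoc, ← Nat.cast_mul, ← pow_add, Nat.add_sub_cancel' hba]
    rw [h1]
    apply genChar_sum
    intro ψ _
    exact genChar_zsmul _ (genChar_of_char (IsIrrCharacter.isCharacter ψ.2))
  · intro hgen
    obtain ⟨c, hc⟩ := genChar_exists_eq_sum hgen
    obtain ⟨ψ, hψ⟩ := exists_not_dvd_nn p χ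
    apply hψ
    refine ⟨c ψ, ?_⟩
    have h1 : tilde p (χ : G → ℂ) = ((p ^ (b + 1) : ℕ) : ℂ) •
        ∑ ψ : Cfsg.IrrCharacter G, (c ψ : ℂ) • (ψ : G → ℂ) := by
      rw [← hc]
      funext x
      simp only [tilde, Pi.smul_apply, smul_eq_mul]
      split_ifs
      · rw [mul_zero]
      · have := hp0 (b + 1)
        field_simp
        rw [mul_comm]
    have h2 := nn_spec p χ ψ
    rw [h1, classInner_smul_left, classInner_sum_irr_left] at h2
    exact_mod_cast h2.symm

end Cfsg.Agent.S4425
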