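import Mathlib
import Cfsg.Statements.S0969
import Cfsg.Agent.Lib.Helper6.CentralProd3
import Cfsg.Agent.Lib.Helper6.PrincipalCol
import Cfsg.Agent.S4425
import Cfsg.Agent.S4426

set_option autoImplicit false
open Cfsg
open Cfsg.Agent.Lib.Helper6 Cfsg.Agent.Lib.Helper2
open scoped ComplexConjugate Classical

attribute [local instance] irrFintype

namespace Cfsg.Agent.S0969

/-- Let D be a central p-subgroup of the finite group G and χ an irreducible character with the exponent of p in χ(1) equal to the exponent of p in the index of D; fix a maximal ideal M of the algebraic integers containing p. Then D is a defect group of the block of χ, and χ g = 0 whenever the p-part of g does not lie in D. -/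
theorem result {G : Type*} [Group G] [Finite G] (p : ℕ) [Fact p.Prime] (M : Ideal Cfsg.AlgInt) (hM : Cfsg.IsPModular p M) (D : Subgroup G) (hD : IsPGroup p D) (hDZ : D ≤ Subgroup.center G) (χ : Cfsg.IrrCharacter G) (hdeg : (Cfsg.charDegree (χ : G → ℂ)).factorization p = D.index.factorization p) : Cfsg.IsDefectGroup p M (Cfsg.blockOf M (χ : G → ℂ)) D ∧ ∀ g x : G, Cfsg.IsPPart p g x → x ∉ D → (χ : G → ℂ) g = 0 := by
  let _ := Fintype.ofFinite G
  have hp : p.Prime := hM.1
  have hn := normal_of_le_center hDZ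
  have hreg : RegCent p D := regCent_of_le_center hDZ
  have hG0 : (Nat.card G : ℂ) ≠ 0 := card_ne_zero_complex
  have hD0 : (Nat.card D : ℂ) ≠ 0 := card_subgroup_ne_zero _
  obtain ⟨δ, hδ⟩ := IsPGroup.iff_card.mp hD
  set a := (Nat.card G).factorization p with ha
  set b := (Cfsg.charDegree (χ : G → ℂ)).factorization p with hb
  have hab : a = b + δ := by
    rw [ha, ← D.index_mul_card, Nat.factorization_mul Subgroup.index_ne_zero_of_finite
      Nat.card_pos.ne', hδ, Nat.factorization_pow, hp.factorization, hdeg]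
    simp
  -- the integer `n`
  obtain ⟨n, hn'⟩ : ∃ n : ℤ, (Nat.card D : ℂ) *
      classInner (regPart p (χ : G → ℂ)) (χ : G → ℂ) = n := by
    obtain ⟨α, β, hα, hβ, h⟩ := (Cfsg.Agent.S4425.result p χ).1
    obtain ⟨m₁, hm₁⟩ := IsCharacter.classInner_nat hα (IsIrrCharacter.isCharacter χ.2)
    obtain ⟨m₂, hm₂⟩ := IsCharacter.classInner_nat hβ (IsIrrCharacter.isCharacter χ.2)
    refine ⟨(m₁ : ℤ) - m₂, ?_⟩
    have h1 : (Nat.card D : ℂ) • regPart p (χ : G → ℂ) = α - β := by
      rw [← h]
      funext x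
      rw [Pi.smul_apply, smul_eq_mul, regPart_apply, ← ha, ← hb, hab, Nat.add_sub_cancel_left, hδ]
      split_ifs
      · rw [mul_zero]
      · rfl
    rw [← classInner_smul_left, h1, classInner_sub_left, hm₁, hm₂]
    push_cast
    rfl
  set Fr : G → ℝ := fun g => if ∃ z, IsPPart p g z ∧ z ∈ D then Complex.normSq ((χ : G → ℂ) g)
    else 0 with hFr
  have hsumF : ((∑ g, Fr g : ℝ) : ℂ) = (Nat.card G : ℂ) * n := by
    push_cast
    rw [sum_eq_sum_prod hp hD hreg (fun g => ((Fr g : ℝ) : ℂ))]
    · have h1 : ∀ y : D, ∑ x : G, (if p ∣ orderOf x then 0 else ((Fr ((y : G) * x) : ℝ) : ℂ)) =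
          ∑ x : G, regPart p (χ : G → ℂ) x * conj ((χ : G → ℂ) x) := by
        intro y
        refine Finset.sum_congr rfl fun x _ => ?_
        rw [regPart_apply]
        split_ifs with hx
        · rw [zero_mul]
        · rw [hFr]
          simp only
          rw [if_pos ⟨y, isPPart_of_regCent hp hD hreg y hx, y.2⟩, ← Complex.mul_conj,
            irr_central_mul_conj χ.2 (hDZ y.2)]
      rw [Finset.sum_congr rfl (fun y _ => h1 y), Finset.sum_const, Finset.card_univ,
        ← Nat.card_eq_fintype_card, nsmul_eq_mul, ← hn', classInner]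
      field_simp
    · intro g z hz hzD
      rw [hFr]
      simp only
      rw [if_neg, Complex.ofReal_zero]
      rintro ⟨z', hz', hz'D⟩
      rw [IsPPart.unique hp hz hz'] at hzD
      exact hzD hz'D
  have hsumA : ((∑ g, Complex.normSq ((χ : G → ℂ) g) : ℝ) : ℂ) = (Nat.card G : ℂ) := by
    have h1 := classInner_irr χ.2 χ.2
    rw [if_pos rfl, classInner] at h1
    push_cast
    simp only [← Complex.mul_conj]
    field_simp at h1
    exact h1
  have hsumF' : ∑ g, Fr g = (Nat.card G : ℝ) * n := by exact_mod_cast hsumF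
  have hsumA' : ∑ g, Complex.normSq ((χ : G → ℂ) g) = (Nat.card G : ℝ) := by exact_mod_cast hsumA
  have hFle : ∀ g, Fr g ≤ Complex.normSq ((χ : G → ℂ) g) := by
    intro g
    rw [hFr]
    simp only
    split_ifs
    · exact le_rfl
    · exact Complex.normSq_nonneg _
  have hF0 : ∀ g, 0 ≤ Fr g := by
    intro g
    rw [hFr]
    simp only
    split_ifs
    · exact Complex.normSq_nonneg _
    · exact le_rfl
  have hGpos : (0 : ℝ) < Nat.card G := by exact_mod_cast Nat.card_pos
  have hpos : 0 < ∑ g, Fr g := by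
    apply Finset.sum_pos' (fun g _ => hF0 g)
    refine ⟨1, Finset.mem_univ _, ?_⟩
    rw [hFr]
    simp only
    rw [if_pos ⟨1, ⟨1, one_mul _, Commute.one_left _, ⟨0, by simp⟩, not_dvd_orderOf_one hp⟩,
      D.one_mem⟩]
    exact Complex.normSq_pos.mpr (irr_one_ne_zero χ.2)
  have hle : ∑ g, Fr g ≤ ∑ g, Complex.normSq ((χ : G → ℂ) g) :=
    Finset.sum_le_sum fun g _ => hFle g
  rw [hsumF'] at hpos
  rw [hsumF', hsumA'] at hle
  have hn1 : n = 1 := by
    have h1 : (0 : ℝ) < n := by
      by_contra hcon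
      push Not at hcon
      nlinarith
    have h2 : (n : ℝ) ≤ 1 := by
      by_contra hcon
      push Not at hcon
      nlinarith
    have h1' : 0 < n := by exact_mod_cast h1
    have h2' : n ≤ 1 := by exact_mod_cast h2
    omega
  rw [hn1] at hn' hsumF'
  have hvan : ∀ g x : G, Cfsg.IsPPart p g x → x ∉ D → (χ : G → ℂ) g = 0 := by
    intro g x hx hxD
    have h1 : ∑ g, (Complex.normSq ((χ : G → ℂ) g) - Fr g) = 0 := by
      rw [Finset.sum_sub_distrib, hsumA', hsumF']
      simp
    have h2 := (Finset.sum_eq_zero_iff_of_nonneg (fun g _ => sub_nonneg.mpr (hFle g))).mp h1 g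
      (Finset.mem_univ _)
    rw [hFr] at h2
    simp only at h2
    rw [if_neg, sub_zero] at h2
    · exact Complex.normSq_eq_zero.mp h2
    · rintro ⟨z', hz', hz'D⟩
      rw [IsPPart.unique hp hx hz'] at hxD
      exact hxD hz'D
  refine ⟨?_, hvan⟩
  have := IsPModular.isPrime hM
  set B := Cfsg.blockOf M (χ : G → ℂ) with hBdef
  have hB : IsPBlock M B := ⟨χ, rfl⟩
  have hχ : χ ∈ B := mem_blockOf_self χ
  obtain ⟨Q, hQ⟩ := exists_isDefectGroup hM hB
  have hDQ : D ≤ Q := normal_le_defectGroup hM hB hQ hn hD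
  have hh0 : Cfsg.blockHeight p B (χ : G → ℂ) = 0 := by
    refine ((Cfsg.Agent.S4426.result p M hM B hB χ hχ).1).mpr ⟨χ, hχ, ((p ^ b : ℕ) : ℤ), ?_, ?_, ?_⟩
    · have h1 : (fun x : G => if p ∣ orderOf x then (0 : ℂ) else
          ((p ^ (Nat.card G).factorization p : ℕ) : ℂ) * (χ : G → ℂ) x) =
          ((p ^ a : ℕ) : ℂ) • regPart p (χ : G → ℂ) := by
        funext x
        rw [Pi.smul_apply, smul_eq_mul, regPart_apply]
        split_ifs
        · rw [mul_zero]
        · rfl
      rw [h1, classInner_smul_left, hab, pow_add]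
      rw [hδ] at hn'
      push_cast at hn' ⊢
      rw [mul_assoc, hn', mul_one]
    · exact_mod_cast (pow_pos hp.pos b).ne'
    · rw [padicValInt.of_nat, padicValNat.prime_pow]
  have hsInf : sInf ((fun χ : IrrCharacter G => (charDegree (χ : G → ℂ)).factorization p) '' B)
      = b := by
    rw [blockHeight] at hh0
    have h1 : sInf ((fun ψ : IrrCharacter G => (charDegree (ψ : G → ℂ)).factorization p) '' B) ≤
      (charDegree (χ : G → ℂ)).factorization p := Nat.sInf_le ⟨χ, hχ, rfl⟩
    omega
  have hcard : Nat.card Q = Nat.card D := by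
    rw [IsDefectGroup.card_eq hM hB hQ, blockDefect, hsInf, hδ, ← ha, hab, Nat.add_sub_cancel_left]
  have hEq : D = Q := Subgroup.eq_of_le_of_card_ge hDQ hcard.le
  rw [hEq]
  exact hQ

end Cfsg.Agent.S0969
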