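import Cfsg.Statements.S4447
import Cfsg.Agent.Lib.Helper21.GlaubQuot
import Cfsg.Agent.Lib.Helper13.Clifford1
import Cfsg.Agent.Lib.Helper24.BlockTransport
import Cfsg.Agent.Lib.Helper24.Constituent

set_option autoImplicit false
open Cfsg

namespace Cfsg.Agent.S4447

open Cfsg.Agent.Lib.Helper2 Cfsg.Agent.Lib.Helper13 Cfsg.Agent.Lib.Helper1
open scoped ComplexConjugate

/-- two irreducible constituents of the restriction to a normal subgroup are conjugate -/
theorem conj_of_constituents {G : Type*} [Group G] [Fintype G] (N : Subgroup G) [Fintype N]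
    [hN : N.Normal] {θ : G → ℂ} (hθ : Cfsg.IsIrrCharacter G θ) {χ φ : N → ℂ}
    (hχ : Cfsg.IsIrrCharacter N χ) (hφ : Cfsg.IsIrrCharacter N φ)
    (h1 : Cfsg.classInner (fun n : N => θ n) χ ≠ 0)
    (h2 : Cfsg.classInner (fun n : N => θ n) φ ≠ 0) : ∃ x : G, φ = conjFun N x χ := by
  classical
  by_contra hcon
  push Not at hcon
  have hθcl := IsCharacter.isClassFunction (IsIrrCharacter.isCharacter hθ)
  have h0 : Cfsg.classInner (Cfsg.indFun N χ) (Cfsg.indFun N φ) = 0 := by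
    rw [classInner_indFun_indFun]
    apply mul_eq_zero_of_right
    apply Finset.sum_eq_zero
    intro x _
    rw [classInner_irr hχ (IsIrrCharacter.conjFun N hφ x), if_neg]
    intro hx
    apply hcon x⁻¹
    rw [hx, ← conjFun_mul, inv_mul_cancel, conjFun_one]
  rcases IsCharacter.constituent_eq_zero_of_orthogonal
    (IsCharacter.indFun N (IsIrrCharacter.isCharacter hχ))
    (IsCharacter.indFun N (IsIrrCharacter.isCharacter hφ)) h0 hθ with h | h
  · rw [frobenius_reciprocity N χ θ hθcl, ← classInner_conj_symm] at h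
    exact h1 ((map_eq_zero _).mp h)
  · rw [frobenius_reciprocity N _ θ hθcl, ← classInner_conj_symm] at h
    exact h2 ((map_eq_zero _).mp h)

theorem classInner_comp_equiv {H : Type*} [Group H] [Fintype H] (e : H ≃* H) (a b : H → ℂ) :
    Cfsg.classInner (a ∘ e) (b ∘ e) = Cfsg.classInner a b := by
  simp only [Cfsg.classInner]
  congr 1
  exact Fintype.sum_equiv e.toEquiv _ _ fun g => rfl

/-- Inside a finite group Γ let S normalise G and also normalise a normal subgroup N of G, with the order of S coprime to the index of N in G and S or G/N solvable. Then for every S-invariant irreducible character χ of G, the restriction of χ to N has an S-invariant irreducible constituent. -/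
theorem result {Γ : Type*} [Group Γ] [Fintype Γ] (G S N : Subgroup Γ) [Fintype G] [Fintype N] (hnorm : ∀ s ∈ S, ∀ g ∈ G, s * g * s⁻¹ ∈ G) (hNG : N ≤ G) [hNn : (N.subgroupOf G).Normal] (hNS : ∀ s ∈ S, ∀ n ∈ N, s * n * s⁻¹ ∈ N) (hcop : (N.relIndex G).Coprime (Nat.card S)) (hsolv : Group.IsSolvable S ∨ Group.IsSolvable (G ⧸ N.subgroupOf G)) (χ : Cfsg.IrrCharacter G) (hinv : (∀ s ∈ S, ∀ g g' : G, (g' : Γ) = s * g * s⁻¹ → (χ : G → ℂ) g' = (χ : G → ℂ) g)) : ∃ θ : Cfsg.IrrCharacter N, Cfsg.classInner (fun n : N => (χ : G → ℂ) ⟨n, hNG n.2⟩) (θ : N → ℂ) ≠ 0 ∧ (∀ s ∈ S, ∀ g g' : N, (g' : Γ) = s * g * s⁻¹ → (θ : N → ℂ) g' = (θ : N → ℂ) g) := by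
  classical
  obtain ⟨χ, hχ⟩ := χ
  simp only at hinv ⊢
  have hχc := IsIrrCharacter.isCharacter hχ
  have hχcl := IsCharacter.isClassFunction hχc
  have hGN : ∀ g ∈ G, ∀ n ∈ N, g * n * g⁻¹ ∈ N := by
    intro g hg n hn
    exact hNn.conj_mem ⟨n, hNG hn⟩ hn ⟨g, hg⟩
  have hGY : G ≤ Subgroup.normalizer (N : Set Γ) := le_normalizer_of_forall_conj_mem hGN
  have hSY : S ≤ Subgroup.normalizer (N : Set Γ) := le_normalizer_of_forall_conj_mem hNS
  set ρ : N → ℂ := fun n : N => χ ⟨n, hNG n.2⟩ with hρ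
  have hρc : Cfsg.IsCharacter N ρ := IsCharacter.comp_hom (Subgroup.inclusion hNG) hχc
  have hρ1 : ρ 1 ≠ 0 := by
    have h1 : ρ 1 = χ 1 := rfl
    rw [h1]
    intro h0
    have h2 := classInner_irr hχ hχ
    rw [if_pos rfl] at h2
    obtain ⟨n, σ, hσ, rfl⟩ := hχ
    have hn : (n : ℂ) = 0 := by
      rw [← h0, Representation.char_one]; simp
    have hn0 : n = 0 := by exact_mod_cast hn
    subst hn0
    have : σ.character = 0 := by
      funext g
      rw [Representation.character]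
      have : σ g = 0 := by
        apply LinearMap.ext; intro v; exact Subsingleton.elim _ _
      rw [this]; simp
    rw [this] at h2
    simp [Cfsg.classInner] at h2
  obtain ⟨⟨θ₀, hθ₀⟩, hne⟩ := Cfsg.Agent.Lib.Helper24.exists_constituent hρc hρ1
  simp only at hne
  -- invariance of ρ under elements leaving χ invariant
  have hρinv : ∀ x (hx : x ∈ Subgroup.normalizer (N : Set Γ)),
      (∀ g g' : G, (g' : Γ) = x * g * x⁻¹ → χ g' = χ g) → ρ ∘ conjNormalizer x hx = ρ := by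
    intro x hx hxχ
    funext n
    exact hxχ ⟨n, hNG n.2⟩ ⟨_, hNG (conjNormalizer x hx n).2⟩ rfl
  have htw : ∀ x (hx : x ∈ Subgroup.normalizer (N : Set Γ)),
      (∀ g g' : G, (g' : Γ) = x * g * x⁻¹ → χ g' = χ g) → ∀ θ : N → ℂ,
      Cfsg.classInner ρ (θ ∘ conjNormalizer x hx) = Cfsg.classInner ρ θ := by
    intro x hx hxχ θ
    conv_lhs => rw [← hρinv x hx hxχ]
    exact classInner_comp_equiv _ _ _
  have hGχ : ∀ k ∈ G, ∀ g g' : G, (g' : Γ) = k * g * k⁻¹ → χ g' = χ g := by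
    intro k hk g g' hg
    have : g' = ⟨k, hk⟩ * g * ⟨k, hk⟩⁻¹ := Subtype.ext hg
    rw [this]; exact hχcl g ⟨k, hk⟩
  -- the inertia group
  let R : Subgroup Γ :=
    { carrier := {x | x ∈ Subgroup.normalizer (N : Set Γ) ∧
        ∀ n n' : N, (n' : Γ) = x * n * x⁻¹ → θ₀ n' = θ₀ n}
      one_mem' := ⟨one_mem _, fun n n' h => by
        have : n' = n := Subtype.ext (by simpa using h)
        rw [this]⟩
      mul_mem' := by
        rintro x y ⟨hx, hx'⟩ ⟨hy, hy'⟩
        refine ⟨mul_mem hx hy, fun n n' h => ?_⟩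
        rw [hx' (conjNormalizer y hy n) n' (by
          rw [h]; change _ = x * (y * n * y⁻¹) * x⁻¹; group)]
        exact hy' n _ rfl
      inv_mem' := by
        rintro x ⟨hx, hx'⟩
        refine ⟨inv_mem hx, fun n n' h => ?_⟩
        exact (hx' n' n (by rw [h]; group)).symm }
  have hmemR : ∀ x, x ∈ R ↔ x ∈ Subgroup.normalizer (N : Set Γ) ∧
      ∀ n n' : N, (n' : Γ) = x * n * x⁻¹ → θ₀ n' = θ₀ n := fun x => Iff.rfl
  have hθ₀cl := IsCharacter.isClassFunction (IsIrrCharacter.isCharacter hθ₀)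
  have hNR : N ≤ R := by
    intro m hm
    refine ⟨Subgroup.le_normalizer hm, fun n n' h => ?_⟩
    have : n' = ⟨m, hm⟩ * n * ⟨m, hm⟩⁻¹ := Subtype.ext h
    rw [this]; exact hθ₀cl n ⟨m, hm⟩
  haveI : Fintype (N.subgroupOf G) := Fintype.ofFinite _
  have hR : ∀ s ∈ S, ∃ k ∈ G, k * s ∈ R := by
    intro s hs
    have hθ₁ : Cfsg.IsIrrCharacter N (θ₀ ∘ conjNormalizer s (hSY hs)) :=
      Cfsg.Agent.Lib.Helper24.isIrrCharacter_comp_equiv hθ₀ _
    have hne₁ : Cfsg.classInner ρ (θ₀ ∘ conjNormalizer s (hSY hs)) ≠ 0 := by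
      rw [htw s (hSY hs) (hinv s hs)]; exact hne
    obtain ⟨g, hg⟩ := conj_of_constituents (N.subgroupOf G) hχ
      (IsIrrCharacter.toSubgroupOf hNG hθ₀) (IsIrrCharacter.toSubgroupOf hNG hθ₁)
      (by
        have : (fun n : N.subgroupOf G => χ n) = toSubgroupOf N G ρ := rfl
        rw [this, classInner_toSubgroupOf hNG]; exact hne)
      (by
        have : (fun n : N.subgroupOf G => χ n) = toSubgroupOf N G ρ := rfl
        rw [this, classInner_toSubgroupOf hNG]; exact hne₁)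
    have hkey : ∀ m : N, θ₀ (conjNormalizer s (hSY hs) m) =
        θ₀ (conjNormalizer (g : Γ)⁻¹ (inv_mem (hGY g.2)) m) := by
      intro m
      have := congrFun hg ⟨⟨m, hNG m.2⟩, m.2⟩
      rw [conjFun_apply] at this
      simp only [toSubgroupOf, Function.comp] at this
      rw [this]
      congr 1
      apply Subtype.ext
      change _ = (g : Γ)⁻¹ * m * ((g : Γ)⁻¹)⁻¹
      simp
    refine ⟨s * g * s⁻¹, hnorm s hs g g.2, ?_⟩
    rw [hmemR]
    refine ⟨mul_mem (hGY (hnorm s hs g g.2)) (hSY hs), fun n n' h => ?_⟩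
    have h1 := hkey (conjNormalizer (g : Γ) (hGY g.2) n)
    have e1 : n' = conjNormalizer s (hSY hs) (conjNormalizer (g : Γ) (hGY g.2) n) := by
      apply Subtype.ext
      rw [h]
      change _ = s * ((g : Γ) * n * (g : Γ)⁻¹) * s⁻¹
      group
    have e2 : conjNormalizer (g : Γ)⁻¹ (inv_mem (hGY g.2)) (conjNormalizer (g : Γ) (hGY g.2) n) = n := by
      apply Subtype.ext
      change (g : Γ)⁻¹ * ((g : Γ) * n * (g : Γ)⁻¹) * ((g : Γ)⁻¹)⁻¹ = n
      group
    rw [e1, h1, e2]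
  obtain ⟨k, hk, hkS⟩ := Cfsg.Agent.Lib.Helper21.coprime_exists_conj_le_rel G S N R hnorm hNG hNS hNR
    hcop hsolv hR
  refine ⟨⟨θ₀ ∘ conjNormalizer k (hGY hk), Cfsg.Agent.Lib.Helper24.isIrrCharacter_comp_equiv hθ₀ _⟩,
    ?_, ?_⟩
  · change Cfsg.classInner ρ (θ₀ ∘ conjNormalizer k (hGY hk)) ≠ 0
    rw [htw k (hGY hk) (hGχ k hk)]; exact hne
  · intro s hs n n' h
    change θ₀ (conjNormalizer k (hGY hk) n') = θ₀ (conjNormalizer k (hGY hk) n)
    refine ((hmemR _).mp (hkS s hs)).2 _ _ ?_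
    change k * n' * k⁻¹ = k * s * k⁻¹ * (k * n * k⁻¹) * (k * s * k⁻¹)⁻¹
    rw [h]; group

end Cfsg.Agent.S4447
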