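import Cfsg.Statements.S2231
import Cfsg.Agent.Lib.Helper5.Qd8
import Cfsg.Agent.Lib.Helper1.TA6
import Cfsg.Agent.Lib.Helper13.SL2

set_option autoImplicit false
open Cfsg

namespace Cfsg.Agent.S2231

open Cfsg.Agent.Lib.Helper5.Dk Cfsg.Agent.Lib.Helper1
open scoped Pointwise

/-- all `p`-subgroups are commutative -/
def AbP (p : ℕ) (G : Type*) [Group G] : Prop :=
  ∀ S : Subgroup G, IsPGroup p S → ∀ x ∈ S, ∀ y ∈ S, x * y = y * x

theorem AbP.of_section {p : ℕ} [Fact p.Prime] {G H : Type*} [Group G] [Finite G] [Group H]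
    (h : AbP p G) (K : Subgroup G) (f : K →* H) (hf : Function.Surjective f) : AbP p H := by
  intro Q hQ x hx y hy
  have hf' : Function.Surjective (f.subgroupComap Q) :=
    f.subgroupComap_surjective_of_surjective Q hf
  obtain ⟨P⟩ : Nonempty (Sylow p (Q.comap f)) := inferInstance
  have htop : (P.mapSurjective hf' : Subgroup Q) = ⊤ := by
    have := (P.mapSurjective hf').is_maximal' (Q := ⊤) (hQ.to_subgroup ⊤) le_top
    exact this.symm
  rw [Sylow.coe_mapSurjective] at htop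
  obtain ⟨x', hx', hxx⟩ : (⟨x, hx⟩ : Q) ∈ (P : Subgroup (Q.comap f)).map (f.subgroupComap Q) := by
    rw [htop]; trivial
  obtain ⟨y', hy', hyy⟩ : (⟨y, hy⟩ : Q) ∈ (P : Subgroup (Q.comap f)).map (f.subgroupComap Q) := by
    rw [htop]; trivial
  have hS : IsPGroup p (((P : Subgroup (Q.comap f)).map (Q.comap f).subtype).map K.subtype) :=
    (P.isPGroup'.map _).map _
  have hc := h _ hS ((x' : K) : G) ⟨(x' : K), ⟨x', hx', rfl⟩, rfl⟩ ((y' : K) : G)
    ⟨(y' : K), ⟨y', hy', rfl⟩, rfl⟩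
  have hc' : x' * y' = y' * x' := by
    apply Subtype.ext
    apply Subtype.ext
    exact hc
  have := congrArg (fun z => ((f.subgroupComap Q z : Q) : H)) hc'
  simp only [map_mul, hxx, hyy, Subgroup.coe_mul] at this
  exact this

theorem Us_comm {F : Type*} [Field F] {x y : S2 F} (hx : x ∈ (Us : Subgroup (S2 F)))
    (hy : y ∈ (Us : Subgroup (S2 F))) : x * y = y * x := by
  rw [eq_xx_of_mem_Us hx, eq_xx_of_mem_Us hy, ← xx_add, ← xx_add, add_comm]

theorem card_Us {F : Type*} [Field F] : Nat.card (Us : Subgroup (S2 F)) = Nat.card F := by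
  refine (Nat.card_congr (Equiv.ofBijective (fun s : F => (⟨xx s, xx_mem_Us s⟩ : (Us : Subgroup (S2 F))))
    ⟨?_, ?_⟩)).symm
  · intro s t h
    exact xx_injective (congrArg Subtype.val h)
  · rintro ⟨g, hg⟩
    exact ⟨be g, Subtype.ext (eq_xx_of_mem_Us hg).symm⟩

theorem abP_SL2 {p : ℕ} [Fact p.Prime] {K : Type*} [Field K] [Fintype K] [CharP K p] :
    AbP p (S2 K) := by
  have hpp : p.Prime := Fact.out
  obtain ⟨n, -, hn⟩ := FiniteField.card K p
  have hcard : Nat.card (Us : Subgroup (S2 K)) = p ^ (Nat.card (S2 K)).factorization p := by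
    rw [card_Us, Cfsg.Agent.Lib.Helper13.card_SL2, Nat.card_eq_fintype_card, hn]
    have h1 : (p ^ (n : ℕ)) ^ 2 - 1 ≠ 0 := by
      have : 1 < (p ^ (n : ℕ)) ^ 2 := Nat.one_lt_pow two_ne_zero (Nat.one_lt_pow n.ne_zero hpp.one_lt)
      omega
    have h2 : ¬ p ∣ (p ^ (n : ℕ)) ^ 2 - 1 := by
      intro h
      have h3 : p ∣ (p ^ (n : ℕ)) ^ 2 := dvd_pow (dvd_pow_self p n.ne_zero) two_ne_zero
      have h4 : p ∣ 1 := by
        have := (Nat.dvd_sub h3 h)
        rwa [Nat.sub_sub_self (Nat.one_le_pow _ _ (pow_pos hpp.pos _))] at this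
      exact hpp.one_lt.ne' (Nat.dvd_one.mp h4)
    rw [Nat.factorization_mul (pow_ne_zero _ hpp.ne_zero) h1, Finsupp.add_apply,
      Nat.factorization_eq_zero_of_not_dvd h2, add_zero, hpp.factorization_pow]
    simp
  let P : Sylow p (S2 K) := Sylow.ofCard Us hcard
  intro S hS x hx y hy
  obtain ⟨Q, hQ⟩ := hS.exists_le_sylow
  obtain ⟨g, hg⟩ := MulAction.exists_smul_eq (S2 K) P Q
  have key : ∀ z ∈ S, g⁻¹ * z * g ∈ (Us : Subgroup (S2 K)) := by
    intro z hz
    have h1 : z ∈ (g • P : Sylow p (S2 K)) := by rw [hg]; exact hQ hz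
    have h2 : z ∈ (MulAut.conj g • (P : Subgroup (S2 K))) := h1
    rw [Subgroup.mem_pointwise_smul_iff_inv_smul_mem] at h2
    have h3 : (MulAut.conj g)⁻¹ • z = g⁻¹ * z * g := by
      simp [MulAut.smul_def, MulAut.conj_inv_apply]
    rw [h3] at h2
    exact h2
  have := Us_comm (key x hx) (key y hy)
  have h2 : g⁻¹ * (x * y) * g = g⁻¹ * (y * x) * g := by
    calc g⁻¹ * (x * y) * g = (g⁻¹ * x * g) * (g⁻¹ * y * g) := by group
      _ = (g⁻¹ * y * g) * (g⁻¹ * x * g) := this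
      _ = g⁻¹ * (y * x) * g := by group
  exact mul_left_cancel (mul_right_cancel h2)

theorem not_abP_qd {p : ℕ} [Fact p.Prime] : ¬ AbP p ↥(Cfsg.qd p) := by
  intro h
  let C : QdC p ↥(Cfsg.qd p) := QdC.ofEquiv (MulEquiv.refl _)
  have hU : IsPGroup p (Us : Subgroup (S2 (ZMod p))) := by
    rintro ⟨g, hg⟩
    refine ⟨1, Subtype.ext ?_⟩
    show g ^ p ^ 1 = 1
    rw [pow_one, eq_xx_of_mem_Us hg, xx_pow]
    simp [xx_zero]
  have hT : IsPGroup p ((Us : Subgroup (S2 (ZMod p))).comap C.lin) :=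
    hU.comap_of_ker_isPGroup C.lin C.ker_isPGroup
  have h1 := h _ hT (C.m 1 0 1) (by simp [Subgroup.mem_comap, one_mem]) (C.m (xx 1) 0 0)
    (by simp [Subgroup.mem_comap, xx_mem_Us])
  have h2 := C.comm_trans_g 0 1 1
  rw [commutatorElement_eq_one_iff_mul_comm.mpr h1, ← C.one] at h2
  have := (C.inj h2).2.1
  simp at this


/-- Let p be an odd prime and K a finite field of characteristic p. Then Qd(p) (the natural semidirect product of an elementary abelian group of order p² by SL₂(p)) is not involved in the projective special linear group PSL₂(K). -/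
theorem result {p : ℕ} [Fact p.Prime] (hp : p ≠ 2) {K : Type*} [Field K] [Fintype K] [CharP K p] : ¬ Cfsg.Involves ↥(Cfsg.qd p) (Matrix.ProjectiveSpecialLinearGroup (Fin 2) K) := by
  intro h
  have h1 : Cfsg.Involves ↥(Cfsg.qd p) (S2 K) := Involves.of_quotient _ h
  obtain ⟨X, f, hf⟩ := involves_iff.mp h1
  exact not_abP_qd ((abP_SL2 (p := p) (K := K)).of_section X f hf)


end Cfsg.Agent.S2231
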