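import Cfsg.Statements.S4741
import Mathlib
import Cfsg.Agent.Lib.Helper23.Separated

set_option autoImplicit false
open Cfsg

namespace Cfsg.Agent.S4741

open Cfsg.Agent.Lib.Helper2 Cfsg.Agent.Lib.Helper6 Cfsg.Agent.Lib.Helper24
open Cfsg.Agent.Lib.Helper23.Separated
open scoped ComplexConjugate
attribute [local instance] irrFintype

/-- Let p be a prime, M a maximal ideal of the algebraic integers containing p, and D a subgroup of the finite group G. Let x₁, …, x_r be pairwise non-conjugate elements of G such that D is a Sylow p-subgroup of the centralizer of each xᵢ, and such that for any conjugates g of some xᵢ and h of some xⱼ the element g h⁻¹ is never a non-identity p-element. Then there are r distinct p-blocks B₁, …, B_r of G, each having D as a defect group, such that for every choice of characters χᵢ ∈ Bᵢ of height zero the determinant of the r × r matrix (χᵢ(xⱼ)) does not lie in the local ideal at M. -/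
theorem result {G : Type*} [Group G] [Finite G] (p : ℕ) [Fact p.Prime] (M : Ideal Cfsg.AlgInt) (hM : Cfsg.IsPModular p M) (D : Subgroup G) {r : ℕ} (x : Fin r → G) (hx : ∀ i j : Fin r, IsConj (x i) (x j) → i = j) (hD : ∀ i : Fin r, ∃ S : Sylow p ↥(Subgroup.centralizer ({x i} : Set G)), (S : Subgroup ↥(Subgroup.centralizer ({x i} : Set G))).map (Subgroup.centralizer ({x i} : Set G)).subtype = D) (hsep : ∀ i j : Fin r, ∀ g h : G, IsConj (x i) g → IsConj (x j) h → ∀ k : ℕ, 0 < k → orderOf (g * h⁻¹) ≠ p ^ k) : ∃ B : Fin r → Set (Cfsg.IrrCharacter G), Function.Injective B ∧ (∀ i : Fin r, Cfsg.IsPBlock M (B i) ∧ Cfsg.IsDefectGroup p M (B i) D) ∧ ∀ χ : Fin r → Cfsg.IrrCharacter G, (∀ i : Fin r, χ i ∈ B i ∧ Cfsg.blockHeight p (B i) (χ i : G → ℂ) = 0) → ¬ Cfsg.MemLocalIdeal M (Matrix.det (Matrix.of fun i j : Fin r => (χ i : G → ℂ) (x j))) := by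
  classical
  cases nonempty_fintype G
  have := IsPModular.isPrime hM
  have hpr : p.Prime := Fact.out
  have hD' : ∀ i, IsSylIn p (cen (x i)) D := by
    intro i
    obtain ⟨S, hS⟩ := hD i
    exact ⟨S, hS.symm⟩
  obtain ⟨f, hdet, hf⟩ := exists_selection hM x hx hsep
  have hloc : ∀ (χ : Cfsg.IrrCharacter G) (g : G), Cfsg.MemLocalRing M (Cfsg.centralChar (χ : G → ℂ) g) :=
    fun χ g => memLocalRing_of_isIntegral (centralChar_isIntegral χ.2 _)
  have hdg : ∀ k, Cfsg.IsDefectGroup p M (Cfsg.blockOf M (f k : G → ℂ)) D := by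
    intro k
    have h1 : ∃ i, ¬ Cfsg.MemLocalIdeal M (Cfsg.centralChar (f k : G → ℂ) (x i)) := by
      by_contra hc
      push Not at hc
      exact hdet (det_memLocalIdeal_of_col (fun i j => hloc _ _) k hc)
    obtain ⟨i, hi⟩ := h1
    exact isDefectGroup_of_units hM (f k) hi (hD' i) (hf k) (hD' k)
  refine ⟨fun k => Cfsg.blockOf M (f k : G → ℂ), ?_, fun k => ⟨⟨f k, rfl⟩, hdg k⟩, ?_⟩
  · intro k k' hkk
    by_contra hne
    apply hdet
    apply det_memLocalIdeal_of_col_congr (fun i j => hloc _ _) hne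
    intro i
    have h1 : f k' ∈ Cfsg.blockOf M (f k : G → ℂ) := by
      have : Cfsg.blockOf M (f k : G → ℂ) = Cfsg.blockOf M (f k' : G → ℂ) := hkk
      rw [this]
      exact mem_blockOf_self _
    exact h1 (x i)
  · intro χ hχ hbad
    apply hdet
    have h1 : Cfsg.MemLocalIdeal M
        ((Matrix.of fun i k => Cfsg.centralChar (f k : G → ℂ) (x i)).det
          - (Matrix.of fun i k => Cfsg.centralChar (χ k : G → ℂ) (x i)).det) := by
      apply det_congr_mod (fun i j => hloc _ _) (fun i j => hloc _ _)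
      intro i k
      exact (hχ k).1 (x i)
    rw [memLocalIdeal_congr h1]
    have h2 : (Matrix.of fun i k => Cfsg.centralChar (χ k : G → ℂ) (x i))
        = Matrix.of fun i k => (((cen (x i)).index : ℕ) : ℂ) *
          (Matrix.of fun i k => ((Cfsg.charDegree (χ k : G → ℂ) : ℕ) : ℂ)⁻¹ *
            (Matrix.of fun i j : Fin r => (χ i : G → ℂ) (x j)).transpose i k) i k := by
      ext i k
      simp only [Matrix.of_apply, Matrix.transpose_apply]
      rw [centralChar_eq_div]
      ring
    rw [h2, Matrix.det_mul_column, Matrix.det_mul_row, Matrix.det_transpose, ← mul_assoc,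
      ← Finset.prod_mul_distrib]
    apply MemLocalIdeal.mul_left _ hbad
    apply MemLocalRing.prod
    intro i _
    rw [← div_eq_mul_inv]
    apply memLocalRing_natCast_div hM (index_cen_ne_zero _) (charDegree_pos (χ i).2).ne'
    have hB : Cfsg.IsPBlock M (Cfsg.blockOf M (f i : G → ℂ)) := ⟨f i, rfl⟩
    have hc1 := IsDefectGroup.card_eq hM hB (hdg i)
    have hc2 := (hD' i).card
    rw [hc1] at hc2
    have h3 : Cfsg.blockDefect p (Cfsg.blockOf M (f i : G → ℂ)) = (Nat.card (cen (x i))).factorization p := Nat.pow_right_injective hpr.two_le hc2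
    have h4 := factorization_card_eq (p := p) (x i)
    have h5 : Cfsg.blockHeight p (Cfsg.blockOf M (f i : G → ℂ)) (χ i : G → ℂ) = 0 := (hχ i).2
    unfold Cfsg.blockHeight at h5
    unfold Cfsg.blockDefect at h3
    have h6 : sInf ((fun ψ : Cfsg.IrrCharacter G => (Cfsg.charDegree (ψ : G → ℂ)).factorization p) ''
        (Cfsg.blockOf M (f i : G → ℂ))) ≤ (Cfsg.charDegree (χ i : G → ℂ)).factorization p :=
      Nat.sInf_le ⟨χ i, (hχ i).1, rfl⟩
    have h7 : (Cfsg.charDegree (χ i : G → ℂ)).factorization p ≤ (Nat.card G).factorization p :=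
      (Nat.factorization_le_iff_dvd (charDegree_pos (χ i).2).ne'
        Nat.card_pos.ne').2 (degree_dvd_card (χ i).2) p
    omega

end Cfsg.Agent.S4741
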