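import Mathlib
import Cfsg.Statements.S0043

set_option autoImplicit false
open Cfsg

namespace Cfsg.Agent.S0043

/-- A minimal normal subgroup of a finite solvable group is abelian, and for some prime p all of its elements have order dividing p. -/
theorem result {G : Type*} [Group G] [Finite G] [Group.IsSolvable G]
    (N : Subgroup G) [N.Normal] (hN : N ≠ ⊥) (hmin : ∀ M : Subgroup G, M.Normal → M ≤ N → M = ⊥ ∨ M = N) :
    IsMulCommutative N ∧ ∃ p : ℕ, p.Prime ∧ ∀ x ∈ N, x ^ p = 1 := by
  have hcomm : ⁅N, N⁆ = ⊥ := by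
    have hnor : (⁅N, N⁆ : Subgroup G).Normal := inferInstance
    have hle : ⁅N, N⁆ ≤ N := Subgroup.commutator_le_left N N
    rcases hmin _ hnor hle with h | h
    · exact h
    · exfalso
      have key : ∀ n, N ≤ derivedSeries G n := by
        intro n
        induction n with
        | zero => simp
        | succ n ih =>
          rw [derivedSeries_succ]
          calc N = ⁅N, N⁆ := h.symm
            _ ≤ _ := Subgroup.commutator_mono ih ih
      obtain ⟨n, hn⟩ := (Group.isSolvable_def G).mp inferInstance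
      exact hN (le_bot_iff.mp (hn ▸ key n))
  have hc : ∀ a ∈ N, ∀ b ∈ N, a * b = b * a := by
    intro a ha b hb
    have := (Subgroup.commutator_eq_bot_iff_le_centralizer).mp hcomm
    exact ((Subgroup.mem_centralizer_iff.mp (this ha)) b hb).symm
  refine ⟨⟨⟨fun a b => Subtype.ext (hc a a.2 b b.2)⟩⟩, ?_⟩
  have hcard : Nat.card N ≠ 1 := by
    intro h
    exact hN ((Subgroup.card_eq_one).mp h)
  obtain ⟨p, hp, hpd⟩ := Nat.exists_prime_and_dvd hcard
  refine ⟨p, hp, ?_⟩
  let M : Subgroup G :=
    { carrier := {x | x ∈ N ∧ x ^ p = 1}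
      mul_mem' := by
        rintro a b ⟨ha, ha'⟩ ⟨hb, hb'⟩
        refine ⟨N.mul_mem ha hb, ?_⟩
        rw [(show Commute a b from hc a ha b hb).mul_pow, ha', hb', one_mul]
      one_mem' := ⟨N.one_mem, one_pow _⟩
      inv_mem' := by
        rintro a ⟨ha, ha'⟩
        exact ⟨N.inv_mem ha, by rw [inv_pow, ha', inv_one]⟩ }
  have hMn : M.Normal := by
    constructor
    rintro a ⟨ha, ha'⟩ g
    refine ⟨‹N.Normal›.conj_mem a ha g, ?_⟩
    rw [conj_pow, ha']; simp
  have hMle : M ≤ N := fun x hx => hx.1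
  haveI : Fact p.Prime := ⟨hp⟩
  obtain ⟨x, hx⟩ := exists_prime_orderOf_dvd_card' (G := N) p hpd
  rcases hmin M hMn hMle with h | h
  · exfalso
    have hxM : (x : G) ∈ M := by
      refine ⟨x.2, ?_⟩
      have : x ^ p = 1 := by rw [← hx]; exact pow_orderOf_eq_one x
      exact_mod_cast congrArg Subtype.val this
    rw [h, Subgroup.mem_bot] at hxM
    have : x = 1 := Subtype.ext hxM
    rw [this, orderOf_one] at hx
    exact hp.one_lt.ne hx
  · intro y hy
    have : y ∈ M := h ▸ hy
    exact this.2

end Cfsg.Agent.S0043
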