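import Mathlib
import Cfsg.Statements.S0048
import Cfsg.Agent.S0043
import Cfsg.Agent.Lib.Lead.Basic

set_option autoImplicit false
open Cfsg

namespace Cfsg.Agent.S0048

open Cfsg.Agent.Lib.Lead

universe u

theorem aux : ∀ n : ℕ, ∀ (G : Type u) [Group G] [Finite G] [Group.IsSolvable G], Nat.card G = n →
    ∀ M : Subgroup G, IsCoatom M → IsPrimePow M.index := by
  intro n
  induction n using Nat.strong_induction_on with
  | _ n ih =>
    intro G _ _ _ hn M hM
    have hnt : Nontrivial G := by
      by_contra h
      rw [not_nontrivial_iff_subsingleton] at h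
      exact hM.1 (Subsingleton.elim _ _)
    obtain ⟨N, hNn, hNb, hmin⟩ := exists_minimal_normal G
    obtain ⟨-, p, hp, hexp⟩ := Cfsg.Agent.S0043.result N hNb hmin
    have : Fact p.Prime := ⟨hp⟩
    by_cases hNM : N ≤ M
    · have hker : (QuotientGroup.mk' N).ker ≤ M := by rw [QuotientGroup.ker_mk']; exact hNM
      have hco := isCoatom_map_of_surjective (QuotientGroup.mk' N) (QuotientGroup.mk'_surjective N) M hM hker
      have hidx : (M.map (QuotientGroup.mk' N)).index = M.index :=
        Subgroup.index_map_eq M (QuotientGroup.mk'_surjective N) hker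
      have hlt : Nat.card (G ⧸ N) < n := by
        rw [← hn, ← Subgroup.index_eq_card, ← N.card_mul_index]
        have h1 : 1 < Nat.card N := by
          rcases Nat.lt_or_ge 1 (Nat.card N) with h | h
          · exact h
          · exfalso
            have hpos : 0 < Nat.card N := Nat.card_pos
            exact hNb (Subgroup.card_eq_one.mp (by omega))
        have h2 : 0 < N.index := Nat.pos_of_ne_zero Subgroup.index_ne_zero_of_finite
        nlinarith
      rw [← hidx]
      exact ih _ hlt (G ⧸ N) rfl _ hco
    · have hsup : N ⊔ M = ⊤ := hM.2 _ (lt_of_le_of_ne le_sup_right (fun h => hNM (h ▸ le_sup_left)))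
      have hdvd := index_dvd_card_of_sup_eq_top N M hsup
      have hpg : IsPGroup p N := by
        intro x
        refine ⟨1, ?_⟩
        apply Subtype.ext
        simpa using hexp x x.2
      obtain ⟨k, hk⟩ := hpg.exists_card_eq
      rw [hk] at hdvd
      obtain ⟨j, -, hj⟩ := (Nat.dvd_prime_pow hp).mp hdvd
      rw [hj]
      have hj0 : j ≠ 0 := by
        rintro rfl
        rw [pow_zero, Subgroup.index_eq_one] at hj
        exact hM.1 hj
      exact hp.isPrimePow.pow hj0

/-- In a finite solvable group every maximal subgroup has index a prime power. -/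
theorem result {G : Type*} [Group G] [Finite G] [Group.IsSolvable G]
    (M : Subgroup G) (hM : IsCoatom M) : IsPrimePow M.index := by
  exact aux _ G rfl M hM

end Cfsg.Agent.S0048
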