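import Mathlib
import Cfsg.Statements.S0060

set_option autoImplicit false
open Cfsg
open scoped Pointwise

namespace Cfsg.Agent.S0060

theorem mem_smul_sylow {G : Type*} [Group G] {p : ℕ} (g x : G) (P : Sylow p G) :
    x ∈ ((g • P : Sylow p G) : Subgroup G) ↔ g⁻¹ * x * g ∈ (P : Subgroup G) := by
  rw [Sylow.smul_def, Sylow.pointwise_smul_def, Subgroup.mem_pointwise_smul_iff_inv_smul_mem]
  simp [MulAut.smul_def, MulAut.conj_inv_apply]

/-- Brodkey's Theorem: in a finite group with abelian Sylow p-subgroups and no nontrivial normal p-subgroup, some conjugate of a Sylow p-subgroup meets it trivially. -/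
theorem result {G : Type*} [Group G] [Finite G] (p : ℕ) [Fact p.Prime]
    (S : Sylow p G) (hS : IsMulCommutative S) (hOp : Cfsg.pCore p G = ⊥) :
    ∃ g : G, (S : Subgroup G) ⊓ MulAut.conj g • (S : Subgroup G) = ⊥ := by
  classical
  have hab : ∀ R : Sylow p G, ∀ x ∈ (R : Subgroup G), ∀ y ∈ (R : Subgroup G), x * y = y * x := by
    intro R x hx y hy
    obtain ⟨g, rfl⟩ := MulAction.exists_smul_eq G S R
    rw [mem_smul_sylow] at hx hy
    have this : (g⁻¹ * x * g) * (g⁻¹ * y * g) = (g⁻¹ * y * g) * (g⁻¹ * x * g) :=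
      congrArg Subtype.val (mul_comm' (⟨_, hx⟩ : S) ⟨_, hy⟩)
    calc x * y = g * ((g⁻¹ * x * g) * (g⁻¹ * y * g)) * g⁻¹ := by group
      _ = g * ((g⁻¹ * y * g) * (g⁻¹ * x * g)) * g⁻¹ := by rw [this]
      _ = y * x := by group
  obtain ⟨⟨P, Q⟩, hmin⟩ := Finite.exists_min
    (fun PQ : Sylow p G × Sylow p G => Nat.card ((PQ.1 : Subgroup G) ⊓ (PQ.2 : Subgroup G) : Subgroup G))
  simp only at hmin
  set D : Subgroup G := (P : Subgroup G) ⊓ (Q : Subgroup G) with hD
  set N : Subgroup G := Subgroup.normalizer (D : Set G) with hN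
  have hPN : (P : Subgroup G) ≤ N := by
    refine le_trans ?_ (Subgroup.centralizer_le_normalizer (D : Set G))
    intro x hx
    rw [Subgroup.mem_centralizer_iff]
    intro d hd
    exact hab P d (Subgroup.mem_inf.mp hd).1 x hx
  have hQN : (Q : Subgroup G) ≤ N := by
    refine le_trans ?_ (Subgroup.centralizer_le_normalizer (D : Set G))
    intro x hx
    rw [Subgroup.mem_centralizer_iff]
    intro d hd
    exact hab Q d (Subgroup.mem_inf.mp hd).2 x hx
  have hDR : ∀ R : Sylow p G, D ≤ (R : Subgroup G) := by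
    intro R
    have hpg : IsPGroup p (((R : Subgroup G) ⊓ N).subgroupOf N) := by
      have h1 : IsPGroup p ((R : Subgroup G) ⊓ N : Subgroup G) := R.2.to_le inf_le_left
      exact h1.comap_of_injective N.subtype N.subtype_injective
    obtain ⟨Q', hQ'⟩ := hpg.exists_le_sylow
    obtain ⟨n, hn⟩ := MulAction.exists_smul_eq N Q' (P.subtype hPN)
    have hmove : ∀ x ∈ (R : Subgroup G), x ∈ N → (n : G) * x * (n : G)⁻¹ ∈ (P : Subgroup G) := by
      intro x hxR hxN
      have h1 : (⟨x, hxN⟩ : N) ∈ (Q' : Subgroup N) := hQ' (by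
        rw [Subgroup.mem_subgroupOf]; exact Subgroup.mem_inf.mpr ⟨hxR, hxN⟩)
      have h2 : n * ⟨x, hxN⟩ * n⁻¹ ∈ ((n • Q' : Sylow p N) : Subgroup N) := by
        rw [mem_smul_sylow]
        convert h1 using 1
        group
      rw [hn] at h2
      have h3 : n * ⟨x, hxN⟩ * n⁻¹ ∈ (P : Subgroup G).subgroupOf N := h2
      rw [Subgroup.mem_subgroupOf] at h3
      simpa using h3
    let R' : Sylow p G := (n : G) • R
    have hle : (R' : Subgroup G) ⊓ (Q : Subgroup G) ≤ D := by
      intro y hy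
      obtain ⟨hy1, hy2⟩ := Subgroup.mem_inf.mp hy
      rw [mem_smul_sylow] at hy1
      have hyN : y ∈ N := hQN hy2
      have hxN : (n : G)⁻¹ * y * n ∈ N := N.mul_mem (N.mul_mem (N.inv_mem n.2) hyN) n.2
      have := hmove _ hy1 hxN
      have e : (n : G) * ((n : G)⁻¹ * y * n) * (n : G)⁻¹ = y := by group
      rw [e] at this
      exact Subgroup.mem_inf.mpr ⟨this, hy2⟩
    have hcard := hmin (R', Q)
    simp only at hcard
    have heq : (R' : Subgroup G) ⊓ (Q : Subgroup G) = D := Subgroup.eq_of_le_of_card_ge hle hcard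
    intro d hd
    have hnd : (n : G) * d * (n : G)⁻¹ ∈ D := (Subgroup.mem_normalizer_iff.mp n.2 d).mp hd
    rw [← heq] at hnd
    have := (Subgroup.mem_inf.mp hnd).1
    rw [mem_smul_sylow] at this
    convert this using 1
    group
  let I : Subgroup G := ⨅ R : Sylow p G, (R : Subgroup G)
  have hIn : I.Normal := by
    constructor
    intro x hx g
    rw [Subgroup.mem_iInf] at hx ⊢
    intro R
    have := hx (g⁻¹ • R)
    rw [mem_smul_sylow] at this
    simpa using this
  have hIp : IsPGroup p I := S.2.to_le (iInf_le _ S)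
  have hI : I ≤ Cfsg.pCore p G := le_sSup ⟨hIn, hIp⟩
  have hDbot : D = ⊥ := by
    rw [eq_bot_iff, ← hOp]
    exact le_trans (le_iInf hDR) hI
  obtain ⟨x, rfl⟩ := MulAction.exists_smul_eq G S P
  obtain ⟨y, rfl⟩ := MulAction.exists_smul_eq G S Q
  refine ⟨x⁻¹ * y, ?_⟩
  rw [eq_bot_iff]
  intro z hz
  obtain ⟨hz1, hz2⟩ := Subgroup.mem_inf.mp hz
  rw [Subgroup.mem_pointwise_smul_iff_inv_smul_mem] at hz2
  simp only [MulAut.smul_def, MulAut.conj_inv_apply] at hz2
  have : x * z * x⁻¹ ∈ D := by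
    rw [hD]
    refine Subgroup.mem_inf.mpr ⟨?_, ?_⟩
    · rw [mem_smul_sylow]
      convert hz1 using 1
      group
    · rw [mem_smul_sylow]
      convert hz2 using 1
      group
  rw [hDbot, Subgroup.mem_bot] at this
  rw [Subgroup.mem_bot]
  calc z = x⁻¹ * (x * z * x⁻¹) * x := by group
    _ = 1 := by rw [this]; group

end Cfsg.Agent.S0060
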