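import Cfsg.Statements.S0111
import Mathlib

set_option autoImplicit false
open Cfsg

namespace Cfsg.Agent.S0111

/-- The Thompson transfer lemma states that an involution of a Sylow 2-subgroup P lying outside a subgroup Q of index 2 in P either lies outside some normal subgroup of index 2 in G or is conjugate to an element of Q. -/
theorem result {G : Type*} [Group G] [Finite G] (P : Sylow 2 G) (Q : Subgroup G) (hQP : Q ≤ (P : Subgroup G)) (hQi : Q.relIndex (P : Subgroup G) = 2) (u : G) (hu : orderOf u = 2) (huP : u ∈ (P : Subgroup G)) (huQ : u ∉ Q) : (∃ M : Subgroup G, M.Normal ∧ M.index = 2 ∧ u ∉ M) ∨ ∃ g : G, g * u * g⁻¹ ∈ Q := by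
  classical
  by_cases hconj : ∃ g : G, g * u * g⁻¹ ∈ Q
  · exact Or.inr hconj
  left
  push Not at hconj
  have : Fintype (G ⧸ Q) := Fintype.ofFinite _
  set σ : Equiv.Perm (G ⧸ Q) := MulAction.toPermHom G (G ⧸ Q) u with hσ
  have hfix : ∀ x : G ⧸ Q, σ x ≠ x := by
    intro x
    obtain ⟨g, rfl⟩ := QuotientGroup.mk_surjective x
    intro h
    have h1 : ((u * g : G) : G ⧸ Q) = (g : G ⧸ Q) := h
    rw [eq_comm, QuotientGroup.eq] at h1
    apply hconj g⁻¹
    simpa [mul_assoc] using h1
  have hsupp : σ.support = Finset.univ := by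
    ext x; simp [Equiv.Perm.mem_support, hfix x]
  have hσ2 : σ ^ 2 = 1 := by
    rw [hσ, ← map_pow, ← hu, pow_orderOf_eq_one, map_one]
  have hσ1 : σ ≠ 1 := by
    intro h
    exact hfix ((1 : G) : G ⧸ Q) (by rw [h]; rfl)
  have hord : orderOf σ = 2 := orderOf_eq_prime hσ2 hσ1
  obtain ⟨n, hn⟩ := Equiv.Perm.cycleType_prime_order (σ := σ) (by rw [hord]; exact Nat.prime_two)
  rw [hord] at hn
  have hsum := Equiv.Perm.sum_cycleType σ
  rw [hn, hsupp, Multiset.sum_replicate, Finset.card_univ, ← Nat.card_eq_fintype_card,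
    ← Subgroup.index_eq_card, ← Subgroup.relIndex_mul_index hQP, hQi, smul_eq_mul] at hsum
  have hodd : ¬ 2 ∣ (P : Subgroup G).index := P.not_dvd_index
  have hn1 : Odd (n + 1) := by
    have : n + 1 = (P : Subgroup G).index := by omega
    rw [this]; exact Nat.odd_iff.mpr (by omega)
  have hsign : Equiv.Perm.sign σ = -1 := by
    rw [Equiv.Perm.sign_of_cycleType, hn, Multiset.sum_replicate, Multiset.card_replicate,
      smul_eq_mul]
    have : Odd ((n + 1) * 2 + (n + 1)) := by
      obtain ⟨k, hk⟩ := hn1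
      exact ⟨3 * k + 1, by omega⟩
    exact this.neg_one_pow
  set f : G →* ℤˣ := Equiv.Perm.sign.comp (MulAction.toPermHom G (G ⧸ Q)) with hf
  have hfu : f u = -1 := hsign
  refine ⟨f.ker, inferInstance, ?_, ?_⟩
  · rw [Subgroup.index_ker]
    have : f.range = ⊤ := by
      rw [eq_top_iff]
      intro ε _
      rcases Int.units_eq_one_or ε with rfl | rfl
      · exact one_mem _
      · exact ⟨u, hfu⟩
    rw [this, Subgroup.card_top]
    simp
  · rw [MonoidHom.mem_ker, hfu]
    decide

end Cfsg.Agent.S0111
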