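import Cfsg.Statements.S0115
import Mathlib
import Cfsg.Agent.Lib.Helper23.MaxClass

set_option autoImplicit false
open Cfsg

namespace Cfsg.Agent.S0115

open Cfsg.Agent.Lib.Helper23

theorem sq_eq_one_quot {X : Type*} [Group X] [Finite X] (h2 : IsPGroup 2 X)
    (h4 : (commutator X).index = 4) (hna : commutator X ≠ ⊥) (q : X ⧸ commutator X) :
    q ^ 2 = 1 := by
  obtain ⟨m, a, g, hm2, hm, hcard, hg, hidx, hfix, hgg, hconj⟩ := taussky h2 h4 hna
  have hcommQ : ∀ u v : X ⧸ commutator X, u * v = v * u := fun u v =>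
    mul_comm (G := Abelianization X) u v
  have hcardQ : Nat.card (X ⧸ commutator X) = 4 := h4
  have hpow4 : ∀ u : X ⧸ commutator X, u ^ 4 = 1 := fun u => by
    rw [← hcardQ]; exact pow_card_eq_one'
  set α : X ⧸ commutator X := QuotientGroup.mk a with hα
  set γ : X ⧸ commutator X := QuotientGroup.mk g with hγ
  have hconjQ : (QuotientGroup.mk (g * a * g⁻¹) : X ⧸ commutator X) = α := by
    rw [QuotientGroup.mk_mul, QuotientGroup.mk_mul, QuotientGroup.mk_inv, ← hα, ← hγ,
      hcommQ γ α, mul_inv_cancel_right]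
  have hα2 : α ^ 2 = 1 := by
    rcases hconj with hconj | ⟨hm3, hconj⟩
    · rw [hconj, QuotientGroup.mk_inv, ← hα] at hconjQ
      rw [sq]
      nth_rewrite 1 [← hconjQ]
      exact inv_mul_cancel α
    · rw [hconj, QuotientGroup.mk_mul, QuotientGroup.mk_inv, QuotientGroup.mk_pow, ← hα] at hconjQ
      have h1 : α ^ 2 ^ (m - 1) = 1 := by
        obtain ⟨j, hj⟩ : ∃ j, m - 1 = j + 2 := ⟨m - 3, by omega⟩
        rw [hj, pow_add, mul_comm, pow_mul]
        norm_num [hpow4]
      rw [h1, one_mul] at hconjQ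
      rw [sq]
      nth_rewrite 1 [← hconjQ]
      exact inv_mul_cancel α
  have hγ2 : γ ^ 2 = 1 := by
    rw [sq, hγ, ← QuotientGroup.mk_mul]
    rcases hgg with hgg | hgg
    · rw [hgg]; rfl
    · rw [hgg, QuotientGroup.mk_pow, ← hα]
      obtain ⟨j, hj⟩ : ∃ j, m - 1 = j + 1 := ⟨m - 2, by omega⟩
      rw [hj, pow_succ, mul_comm, pow_mul, hα2, one_pow]
  obtain ⟨x, rfl⟩ := QuotientGroup.mk_surjective q
  by_cases hx : x ∈ Subgroup.zpowers a
  · obtain ⟨k, rfl⟩ := Subgroup.mem_zpowers_iff.mp hx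
    rw [QuotientGroup.mk_zpow, ← hα, ← zpow_natCast, ← zpow_mul, mul_comm, zpow_mul]
    have : α ^ ((2 : ℕ) : ℤ) = 1 := by exact_mod_cast hα2
    rw [this, one_zpow]
  · have hc : g⁻¹ * x ∈ Subgroup.zpowers a := by
      rw [Subgroup.mul_mem_iff_of_index_two hidx, inv_mem_iff]
      exact ⟨fun h => absurd h hg, fun h => absurd h hx⟩
    obtain ⟨k, hk⟩ := Subgroup.mem_zpowers_iff.mp hc
    have hx' : x = g * a ^ k := by rw [hk]; group
    rw [hx', QuotientGroup.mk_mul, QuotientGroup.mk_zpow, ← hα, ← hγ,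
      (show Commute γ (α ^ k) from hcommQ _ _).mul_pow, hγ2, one_mul,
      ← zpow_natCast, ← zpow_mul, mul_comm, zpow_mul]
    have : α ^ ((2 : ℕ) : ℤ) = 1 := by exact_mod_cast hα2
    rw [this, one_zpow]

/-- A 2-group of order 2^n, n ≥ 3, is of maximal class exactly when its commutator quotient is a Klein four-group. -/
theorem result {X : Type*} [Group X] [Finite X] (n : ℕ) (hn : 3 ≤ n) (hX : Nat.card X = 2 ^ n) : Group.nilpotencyClass X = n - 1 ↔ IsKleinFour (X ⧸ commutator X) := by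
  have h2 : IsPGroup 2 X := IsPGroup.of_card hX
  constructor
  · intro hc
    have h4 := index_commutator_of_nilpotencyClass n (by omega) X hX hc
    have hna : commutator X ≠ ⊥ := by
      intro h
      have h1 := Subgroup.card_mul_index (commutator X)
      rw [h4, hX, h] at h1
      simp only [Subgroup.card_bot, one_mul] at h1
      have : 2 ^ 3 ≤ 2 ^ n := Nat.pow_le_pow_right (by norm_num) hn
      omega
    refine ⟨h4, ?_⟩
    have h1 : Monoid.exponent (X ⧸ commutator X) ∣ 2 :=
      Monoid.exponent_dvd_of_forall_pow_eq_one (sq_eq_one_quot h2 h4 hna)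
    rcases (Nat.dvd_prime Nat.prime_two).mp h1 with h | h
    · exfalso
      rw [Monoid.exp_eq_one_iff] at h
      have h5 : Nat.card (X ⧸ commutator X) = 4 := h4
      have := Nat.card_eq_one_iff_unique.mpr ⟨h, ⟨1⟩⟩
      omega
    · exact h
  · intro hK
    exact nilpotencyClass_of_index_commutator n (by omega) X hX hK.card_four

end Cfsg.Agent.S0115
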