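import Cfsg.Statements.S0228
import Mathlib
import Cfsg.Agent.Lib.Helper2.AltEmbed

set_option autoImplicit false
open Cfsg

namespace Cfsg.Agent.S0228

/-- A group of order 12 in which no involution is central is isomorphic to the alternating group on four letters. -/
theorem result {G : Type*} [Group G] [Finite G] (hG : Nat.card G = 12) (hz : ∀ z : G, orderOf z = 2 → z ∉ Subgroup.center G) : Nonempty (G ≃* alternatingGroup (Fin 4)) := by
  haveI : Fact (Nat.Prime 3) := ⟨Nat.prime_three⟩
  haveI : Fact (Nat.Prime 2) := ⟨Nat.prime_two⟩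
  obtain ⟨P, hP⟩ := Sylow.exists_subgroup_card_pow_prime (G := G) 3 (n := 1) (by rw [hG]; norm_num)
  obtain ⟨Q, hQ⟩ := Sylow.exists_subgroup_card_pow_prime (G := G) 2 (n := 2) (by rw [hG]; norm_num)
  rw [pow_one] at hP
  have hQ4 : Nat.card Q = 4 := by rw [hQ]; norm_num
  have hidx : P.index = 4 := by
    have := P.card_mul_index
    rw [hP, hG] at this
    omega
  by_cases hcore : P.normalCore = ⊥
  · exact Lib.Helper2.nonempty_mulEquiv_alternatingGroup_of_index P 4 hidx hcore (by rw [hG]; rfl)
  exfalso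
  have hPn : P.Normal := by
    have h1 : Nat.card P.normalCore ∣ 3 := hP ▸ Subgroup.card_dvd_of_le (Subgroup.normalCore_le P)
    rcases (Nat.dvd_prime Nat.prime_three).mp h1 with h | h
    · exact absurd (Subgroup.card_eq_one.mp h) hcore
    · have : P.normalCore = P :=
        Subgroup.eq_of_le_of_card_ge (Subgroup.normalCore_le P) (by rw [h, hP])
      rw [← this]
      exact Subgroup.normalCore_normal P
  let f : Q →* MulAut P := (MulAut.conjNormal).comp Q.subtype
  haveI : IsCyclic P := isCyclic_of_prime_card hP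
  have hAut : Nat.card (MulAut P) = 2 := by
    rw [IsCyclic.card_mulAut, hP, Nat.totient_prime Nat.prime_three]
  have hker : 2 ∣ Nat.card f.ker := by
    have h1 := f.ker.card_mul_index
    rw [Subgroup.index_ker, hQ4] at h1
    have h2 : Nat.card f.range ∣ 2 := hAut ▸ Subgroup.card_subgroup_dvd_card f.range
    rcases (Nat.dvd_prime Nat.prime_two).mp h2 with h | h
    · rw [h] at h1
      omega
    · rw [h] at h1
      omega
  obtain ⟨⟨⟨z, hzQ⟩, hzk⟩, hz2⟩ := exists_prime_orderOf_dvd_card' 2 hker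
  rw [Subgroup.orderOf_mk, Subgroup.orderOf_mk] at hz2
  apply hz z hz2
  have hPle : P ≤ Subgroup.centralizer ({z} : Set G) := by
    intro p hp
    rw [Subgroup.mem_centralizer_singleton_iff]
    have h1 : f ⟨z, hzQ⟩ = 1 := hzk
    have h2 : ((f ⟨z, hzQ⟩) ⟨p, hp⟩ : G) = z * p * z⁻¹ := MulAut.conjNormal_apply z ⟨p, hp⟩
    rw [h1] at h2
    have h3 : p = z * p * z⁻¹ := h2
    calc p * z = (z * p * z⁻¹) * z := by rw [← h3]
      _ = z * p := by group
  have hQle : Q ≤ Subgroup.centralizer ({z} : Set G) := by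
    intro q hq
    rw [Subgroup.mem_centralizer_singleton_iff]
    have hcomm := IsPGroup.isMulCommutative_of_card_eq_prime_sq (p := 2) (G := Q) hQ
    exact congrArg Subtype.val (hcomm.is_comm.comm ⟨q, hq⟩ ⟨z, hzQ⟩)
  have htop : Subgroup.centralizer ({z} : Set G) = ⊤ := by
    apply Subgroup.eq_top_of_card_eq
    have h3 : 3 ∣ Nat.card (Subgroup.centralizer ({z} : Set G)) := hP ▸ Subgroup.card_dvd_of_le hPle
    have h4 : 4 ∣ Nat.card (Subgroup.centralizer ({z} : Set G)) := hQ4 ▸ Subgroup.card_dvd_of_le hQle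
    have h12 : Nat.card (Subgroup.centralizer ({z} : Set G)) ∣ 12 :=
      hG ▸ Subgroup.card_subgroup_dvd_card _
    have hle := Nat.le_of_dvd (by norm_num) h12
    have hpos : 0 < Nat.card (Subgroup.centralizer ({z} : Set G)) := Nat.card_pos
    rw [hG]
    omega
  rw [Subgroup.mem_center_iff]
  intro g
  have : g ∈ Subgroup.centralizer ({z} : Set G) := htop ▸ Subgroup.mem_top g
  rwa [Subgroup.mem_centralizer_singleton_iff] at this

end Cfsg.Agent.S0228
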