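import Cfsg.Statements.S0276
import Mathlib
import Cfsg.Agent.Lib.Helper2.PSL2Small
import Cfsg.Agent.S0251
import Cfsg.Agent.S2475

set_option autoImplicit false
open Cfsg

namespace Cfsg.Agent.S0276

set_option maxRecDepth 100000 in
theorem a4_aux : ∀ x : Equiv.Perm (Fin 4), Equiv.Perm.sign x = 1 → x ^ 4 = 1 → x ^ 2 = 1 := by decide

theorem no_order_four {F : Type*} [Field F] [Fintype F] {q : ℕ} (hF : Fintype.card F = q)
    (hq : q % 8 = 3 ∨ q % 8 = 5) (x : Matrix.ProjectiveSpecialLinearGroup (Fin 2) F)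
    (hx : x ^ 4 = 1) : x ^ 2 = 1 := by
  by_cases h4 : 4 ≤ q
  · obtain ⟨p, hp⟩ := CharP.exists F
    haveI := hp
    haveI : Fact p.Prime := ⟨CharP.char_is_prime F p⟩
    have hspec := S2475.result (F := F) p (by rw [hF]; exact h4)
    have hdvd : orderOf x ∣ 4 := orderOf_dvd_of_pow_eq_one hx
    have hmem : orderOf x ∈ Set.range (orderOf : Matrix.ProjectiveSpecialLinearGroup (Fin 2) F → ℕ) :=
      ⟨x, rfl⟩
    rw [hspec, hF] at hmem
    have hgcd : Nat.gcd 2 (q - 1) = 2 := Nat.gcd_eq_left (by omega)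
    rw [hgcd] at hmem
    have hne4 : orderOf x ≠ 4 := by
      intro h
      rw [h] at hmem
      rcases hmem with h1 | h1 | h1
      · have hpp : p.Prime := Fact.out
        rcases (Nat.dvd_prime hpp).mp h1 with h2 | h2
        · omega
        · rw [← h2] at hpp
          exact absurd hpp (by norm_num)
      · omega
      · omega
    have hle : orderOf x ≤ 4 := Nat.le_of_dvd (by norm_num) hdvd
    have h2 : orderOf x ∣ 2 := by
      generalize orderOf x = o at *
      interval_cases o <;> omega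
    exact orderOf_dvd_iff_pow_eq_one.mp h2
  · have hq3 : q = 3 := by omega
    obtain ⟨e⟩ := S0251.result (F := F) (by rw [hF, hq3])
    apply e.injective
    rw [map_pow, map_one]
    apply Subtype.ext
    have h1 : ((e x : alternatingGroup (Fin 4)) : Equiv.Perm (Fin 4)) ^ 4 = 1 := by
      have : (e x) ^ 4 = 1 := by rw [← map_pow, hx, map_one]
      exact congrArg Subtype.val this
    exact a4_aux _ (Equiv.Perm.mem_alternatingGroup.mp (e x).2) h1

/-- For q = 3 or 5 mod 8 the Sylow 2-subgroups of PSL_2(q) are elementary abelian of order 4. -/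
theorem result {F : Type*} [Field F] [Fintype F] {q : ℕ} (hF : Fintype.card F = q) (hq : q % 8 = 3 ∨ q % 8 = 5) (P : Sylow 2 (Matrix.ProjectiveSpecialLinearGroup (Fin 2) F)) : IsKleinFour (P : Subgroup (Matrix.ProjectiveSpecialLinearGroup (Fin 2) F)) := by
  have hN : ∃ m, Odd m ∧ Nat.card (Matrix.ProjectiveSpecialLinearGroup (Fin 2) F) = 4 * m := by
    have h := Lib.Helper2.card_PSL2_mul (F := F)
    rw [hF] at h
    have hgcd : Nat.gcd 2 (q - 1) = 2 := Nat.gcd_eq_left (by omega)
    rw [hgcd] at h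
    set N := Nat.card (Matrix.ProjectiveSpecialLinearGroup (Fin 2) F) with hNdef
    rcases hq with hq | hq
    · obtain ⟨k, rfl⟩ : ∃ k, q = 8 * k + 3 := ⟨q / 8, by omega⟩
      refine ⟨(8 * k + 3) * ((4 * k + 1) * (2 * k + 1)), ?_, ?_⟩
      · refine Odd.mul ⟨4 * k + 1, by ring⟩ (Odd.mul ⟨2 * k, by ring⟩ ⟨k, by ring⟩)
      · have e1 : 8 * k + 3 - 1 = 8 * k + 2 := by omega
        have e2 : (8 * k + 3) ^ 2 - 1 = (8 * k + 2) * (8 * k + 4) := by
          have : (8 * k + 3) ^ 2 = (8 * k + 2) * (8 * k + 4) + 1 := by ring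
          omega
        have e3 : (8 * k + 3) ^ 2 - (8 * k + 3) = (8 * k + 3) * (8 * k + 2) := by
          have : (8 * k + 3) ^ 2 = (8 * k + 3) * (8 * k + 2) + (8 * k + 3) := by ring
          omega
        rw [e1, e2, e3] at h
        have hpos : 0 < 2 * (8 * k + 2) := by omega
        apply Nat.eq_of_mul_eq_mul_left hpos
        rw [mul_assoc, h]
        ring
    · obtain ⟨k, rfl⟩ : ∃ k, q = 8 * k + 5 := ⟨q / 8, by omega⟩
      refine ⟨(8 * k + 5) * ((2 * k + 1) * (4 * k + 3)), ?_, ?_⟩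
      · refine Odd.mul ⟨4 * k + 2, by ring⟩ (Odd.mul ⟨k, by ring⟩ ⟨2 * k + 1, by ring⟩)
      · have e1 : 8 * k + 5 - 1 = 8 * k + 4 := by omega
        have e2 : (8 * k + 5) ^ 2 - 1 = (8 * k + 4) * (8 * k + 6) := by
          have : (8 * k + 5) ^ 2 = (8 * k + 4) * (8 * k + 6) + 1 := by ring
          omega
        have e3 : (8 * k + 5) ^ 2 - (8 * k + 5) = (8 * k + 5) * (8 * k + 4) := by
          have : (8 * k + 5) ^ 2 = (8 * k + 5) * (8 * k + 4) + (8 * k + 5) := by ring
          omega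
        rw [e1, e2, e3] at h
        have hpos : 0 < 2 * (8 * k + 4) := by omega
        apply Nat.eq_of_mul_eq_mul_left hpos
        rw [mul_assoc, h]
        ring
  obtain ⟨m, hm, hN⟩ := hN
  have hP4 : Nat.card (P : Subgroup (Matrix.ProjectiveSpecialLinearGroup (Fin 2) F)) = 4 := by
    obtain ⟨k, hk⟩ := P.2.exists_card_eq
    have h1 := (P : Subgroup (Matrix.ProjectiveSpecialLinearGroup (Fin 2) F)).card_mul_index
    have h2 := P.not_dvd_index
    rw [hN] at h1
    have hk' : Nat.card (P : Subgroup (Matrix.ProjectiveSpecialLinearGroup (Fin 2) F)) = 2 ^ k := hk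
    rw [hk'] at h1 ⊢
    obtain ⟨j, hj⟩ := hm
    rcases k with _ | _ | _ | k
    · simp at h1
      omega
    · simp at h1
      omega
    · norm_num
    · exfalso
      have : 2 ^ (k + 1 + 1 + 1) = 8 * 2 ^ k := by ring
      rw [this, mul_assoc] at h1
      omega
  refine ⟨hP4, ?_⟩
  have hdvd : Monoid.exponent (P : Subgroup (Matrix.ProjectiveSpecialLinearGroup (Fin 2) F)) ∣ 2 := by
    apply Monoid.exponent_dvd_of_forall_pow_eq_one
    rintro ⟨x, hx⟩
    apply Subtype.ext
    show x ^ 2 = 1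
    apply no_order_four hF hq
    have h1 : (⟨x, hx⟩ : (P : Subgroup (Matrix.ProjectiveSpecialLinearGroup (Fin 2) F))) ^ 4 = 1 := by
      rw [← hP4]
      exact pow_card_eq_one'
    exact congrArg Subtype.val h1
  rcases (Nat.dvd_prime Nat.prime_two).mp hdvd with h | h
  · exfalso
    rw [Monoid.exp_eq_one_iff] at h
    have := Nat.card_eq_one_iff_unique.mpr ⟨h, ⟨1⟩⟩
    omega
  · exact h

end Cfsg.Agent.S0276
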