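import Cfsg.Statements.S0721
import Mathlib
import Cfsg.Agent.Lib.Helper20.Subnormal

set_option autoImplicit false
open Cfsg Cfsg.Agent.Lib.Helper20

namespace Cfsg.Agent.S0721


universe u

theorem sup_equiv_prod {G : Type*} [Group G] (M K : Subgroup G) (hc : ∀ a ∈ M, ∀ b ∈ K, Commute a b)
    (hd : M ⊓ K = ⊥) : Nonempty (↥(M ⊔ K) ≃* (M × K)) := by
  let φ : M × K →* G := MonoidHom.noncommCoprod M.subtype K.subtype (fun a b => hc a a.2 b b.2)
  have hinj : Function.Injective φ := by
    refine (MonoidHom.noncommCoprod_injective _ _ _).2 ⟨Subtype.val_injective, Subtype.val_injective, ?_⟩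
    rw [Subgroup.range_subtype, Subgroup.range_subtype, disjoint_iff]; exact hd
  have hr : φ.range = M ⊔ K := by
    have := MonoidHom.noncommCoprod_range M.subtype K.subtype (fun a b => hc a a.2 b b.2)
    rw [Subgroup.range_subtype, Subgroup.range_subtype] at this
    exact this
  exact ⟨((MonoidHom.ofInjective hinj).trans (MulEquiv.subgroupCongr hr)).symm⟩

theorem le_normalizer_of_conj {G : Type*} [Group G] (S L : Subgroup G)
    (h : ∀ g ∈ S, ∀ x ∈ L, g * x * g⁻¹ ∈ L) : S ≤ Subgroup.normalizer (L : Set G) := by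
  intro g hg
  rw [Subgroup.mem_normalizer_iff]
  intro x
  refine ⟨h g hg x, fun hx => ?_⟩
  have := h g⁻¹ (S.inv_mem hg) _ hx
  simpa [mul_assoc] using this

theorem conj_mem_of_le_normalizer {G : Type*} [Group G] {S L : Subgroup G}
    (h : S ≤ Subgroup.normalizer (L : Set G)) {g x : G} (hg : g ∈ S) (hx : x ∈ L) : g * x * g⁻¹ ∈ L :=
  (Subgroup.mem_normalizer_iff.1 (h hg) x).1 hx

theorem commute_of_normalize {G : Type*} [Group G] (M K : Subgroup G)
    (h1 : K ≤ Subgroup.normalizer (M : Set G)) (h2 : M ≤ Subgroup.normalizer (K : Set G))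
    (hd : M ⊓ K = ⊥) : ∀ a ∈ M, ∀ b ∈ K, Commute a b := by
  intro a ha b hb
  have h3 : a * b * a⁻¹ * b⁻¹ ∈ M ⊓ K := by
    constructor
    · have := conj_mem_of_le_normalizer h1 hb (M.inv_mem ha)
      have h4 := M.mul_mem ha this
      simpa [mul_assoc] using h4
    · have := conj_mem_of_le_normalizer h2 ha hb
      exact K.mul_mem this (K.inv_mem hb)
  rw [hd, Subgroup.mem_bot] at h3
  have : a * b = b * a := by
    have h5 : a * b * a⁻¹ * b⁻¹ * (b * a) = b * a := by rw [h3, one_mul]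
    rw [← h5]; group
  exact this

def piSnoc (T : Type*) [Group T] (m : ℕ) : ((Fin m → T) × T) ≃* (Fin (m + 1) → T) :=
  { toEquiv := (Equiv.prodComm _ _).trans (Fin.consEquiv (fun _ : Fin (m + 1) => T))
    map_mul' := by
      intro a b
      funext i
      refine Fin.cases ?_ (fun j => ?_) i <;> simp [Fin.consEquiv] }

theorem main_aux {H : Type u} [Group H] [Finite H] (N T0 : Subgroup H) [hNn : N.Normal] (hT : IsMinNormalIn T0 N)
    (hmin : ∀ M : Subgroup H, M.Normal → M ≤ N → M = ⊥ ∨ M = N) :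
    ∀ k : ℕ, ∀ M : Subgroup H, ∀ m : ℕ, Nat.card N - Nat.card M = k → T0 ≤ M → M ≤ N →
      N ≤ Subgroup.normalizer (M : Set H) → M ≤ T0 ⊔ Subgroup.centralizer (T0 : Set H) → 0 < m →
      Nonempty (M ≃* (Fin m → T0)) →
      N ≤ T0 ⊔ Subgroup.centralizer (T0 : Set H) ∧ ∃ m', 0 < m' ∧ Nonempty (N ≃* (Fin m' → T0)) := by
  intro k
  induction k using Nat.strong_induction_on with
  | _ k ih =>
    intro M m hk hTM hMN hNM hMC hm hiso
    by_cases hMeq : M = N
    · subst hMeq
      exact ⟨hMC, m, hm, hiso⟩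
    obtain ⟨h, hh⟩ : ∃ h : H, ¬ cj h T0 ≤ M := by
      by_contra hcon
      push Not at hcon
      apply hMeq
      have h1 : Subgroup.normalClosure (T0 : Set H) ≤ M := by
        unfold Subgroup.normalClosure
        rw [Subgroup.closure_le]
        intro x hx
        rw [Group.mem_conjugatesOfSet_iff] at hx
        obtain ⟨a, ha, hax⟩ := hx
        rw [isConj_iff] at hax
        obtain ⟨c, rfl⟩ := hax
        exact hcon c (cj_mem_cj ha)
      have h2 : Subgroup.normalClosure (T0 : Set H) ≤ N := h1.trans hMN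
      rcases hmin _ Subgroup.normalClosure_normal h2 with h3 | h3
      · exfalso
        apply hT.2.1
        rw [eq_bot_iff, ← h3]
        exact Subgroup.le_normalClosure
      · exact le_antisymm hMN (h3 ▸ h1)
    have hK : IsMinNormalIn (cj h T0) N := hT.conj (by rw [Subgroup.normalizer_eq_top]; trivial)
    set K := cj h T0 with hKdef
    have hd : M ⊓ K = ⊥ := by
      by_contra hne
      apply hh
      have h1 : N ≤ Subgroup.normalizer ((M ⊓ K : Subgroup H) : Set H) := by
        apply le_normalizer_of_conj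
        intro g hg x hx
        exact ⟨conj_mem_of_le_normalizer hNM hg hx.1, conj_mem_of_le_normalizer hK.2.2.1 hg hx.2⟩
      have h2 := hK.2.2.2 (M ⊓ K) inf_le_right hne h1
      rw [← h2]; exact inf_le_left
    have hc := commute_of_normalize M K (hK.1.trans hNM) (hMN.trans hK.2.2.1) hd
    obtain ⟨e1⟩ := sup_equiv_prod M K hc hd
    obtain ⟨e2⟩ := hiso
    have e3 : T0 ≃* K := (MulAut.conj h).subgroupMap T0
    have hcard : Nat.card ↥(M ⊔ K) = Nat.card M * Nat.card K := by
      rw [Nat.card_congr e1.toEquiv, Nat.card_prod]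
    have hK2 : 1 < Nat.card K := (Subgroup.one_lt_card_iff_ne_bot K).2 hK.2.1
    have hM0 : 0 < Nat.card M := Nat.card_pos
    have hlt : Nat.card M < Nat.card ↥(M ⊔ K) := by rw [hcard]; nlinarith
    have hle : M ⊔ K ≤ N := sup_le hMN hK.1
    have hle' : Nat.card ↥(M ⊔ K) ≤ Nat.card N := Subgroup.card_le_of_le hle
    refine ih (Nat.card N - Nat.card ↥(M ⊔ K)) (by omega) (M ⊔ K) (m + 1) rfl (hTM.trans le_sup_left) hle ?_ ?_
      (Nat.succ_pos m) ⟨e1.trans ((MulEquiv.prodCongr e2 e3.symm).trans (piSnoc T0 m))⟩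
    · intro n hn
      rw [Subgroup.mem_normalizer_iff_map_conj_eq, Subgroup.map_sup]
      rw [Subgroup.mem_normalizer_iff_map_conj_eq.1 (hNM hn), Subgroup.mem_normalizer_iff_map_conj_eq.1 (hK.2.2.1 hn)]
    · refine sup_le hMC (le_trans ?_ le_sup_right)
      intro b hb
      rw [Subgroup.mem_centralizer_iff]
      intro a ha
      exact (hc a (hTM ha) b hb).eq

theorem simple_aux {H : Type u} [Group H] (N T0 : Subgroup H) (hT : IsMinNormalIn T0 N)
    (hN : N ≤ T0 ⊔ Subgroup.centralizer (T0 : Set H)) : IsSimpleGroup T0 := by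
  haveI : Nontrivial T0 := (Subgroup.nontrivial_iff_ne_bot _).2 hT.2.1
  refine ⟨fun A hA => ?_⟩
  have hle : A.map T0.subtype ≤ T0 := by
    rintro _ ⟨x, -, rfl⟩; exact x.2
  have h1 : N ≤ Subgroup.normalizer ((A.map T0.subtype : Subgroup H) : Set H) := by
    refine hN.trans (sup_le ?_ ?_)
    · apply le_normalizer_of_conj
      rintro g hg _ ⟨x, hx, rfl⟩
      exact ⟨⟨g, hg⟩ * x * ⟨g, hg⟩⁻¹, hA.conj_mem x hx _, rfl⟩
    · apply le_normalizer_of_conj
      intro g hg x hx
      rw [Subgroup.mem_centralizer_iff] at hg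
      have := hg x (hle hx)
      rw [← this]; simpa using hx
  by_cases hb : A.map T0.subtype = ⊥
  · left
    exact (Subgroup.map_eq_bot_iff_of_injective A Subtype.val_injective).1 hb
  · right
    have h2 := hT.2.2.2 _ hle hb h1
    rw [eq_top_iff]
    intro x _
    have : (x : H) ∈ A.map T0.subtype := by rw [h2]; exact x.2
    obtain ⟨y, hy, hyx⟩ := this
    have : y = x := Subtype.ext hyx
    exact this ▸ hy


/-- A minimal normal subgroup of a finite group is isomorphic to a direct power `T ^ m` of a simple group `T` (possibly of prime order). -/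
theorem result {H : Type*} [Group H] [Finite H] (N : Subgroup H) [N.Normal] (hN : N ≠ ⊥) (hmin : ∀ M : Subgroup H, M.Normal → M ≤ N → M = ⊥ ∨ M = N) : ∃ (T : Type) (_ : Group T) (m : ℕ), IsSimpleGroup T ∧ 0 < m ∧ Nonempty (N ≃* (Fin m → T)) := by
  obtain ⟨T0, -, hT⟩ := exists_minNormalIn (le_refl N) hN Subgroup.le_normalizer
  obtain ⟨h1, m, hm, ⟨e⟩⟩ := main_aux N T0 hT hmin _ T0 1 rfl le_rfl hT.1 hT.2.2.1 le_sup_left Nat.one_pos
    ⟨(MulEquiv.funUnique (Fin 1) T0).symm⟩
  haveI := simple_aux N T0 hT h1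
  let e0 : Shrink.{0} T0 ≃* T0 := Shrink.mulEquiv
  exact ⟨Shrink.{0} T0, inferInstance, m, e0.isSimpleGroup, hm,
    ⟨e.trans (MulEquiv.piCongrRight (fun _ => e0.symm))⟩⟩

end Cfsg.Agent.S0721
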