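import Mathlib
import Cfsg.Statements.S0928
import Cfsg.Agent.Lib.Helper6.OrderP
import Cfsg.Agent.Lib.Helper24.DefectZero

set_option autoImplicit false
open Cfsg
open Cfsg.Agent.Lib.Helper6 Cfsg.Agent.Lib.Helper2
open scoped ComplexConjugate Classical

attribute [local instance] irrFintype

namespace Cfsg.Agent.S0928

/-- Let χ be an irreducible character of the finite group G and p a prime. If χ g = 0 for every element g of order p, then the exponent of p in the degree χ(1) equals the exponent of p in the order of G (χ has p-defect zero). -/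
theorem result {G : Type*} [Group G] [Finite G] (p : ℕ) [Fact p.Prime] (χ : Cfsg.IrrCharacter G) (hvan : ∀ g : G, orderOf g = p → (χ : G → ℂ) g = 0) : (Cfsg.charDegree (χ : G → ℂ)).factorization p = (Nat.card G).factorization p := by
  let _ := Fintype.ofFinite G
  have hp : p.Prime := Fact.out
  obtain ⟨M, hM⟩ := Cfsg.Agent.Lib.Helper24.exists_isPModular hp
  have := IsPModular.isPrime hM
  have hB : IsPBlock M (blockOf M (χ : G → ℂ)) := ⟨χ, rfl⟩
  have hχB : χ ∈ blockOf M (χ : G → ℂ) := mem_blockOf_self χ
  obtain ⟨D, hD⟩ := exists_isDefectGroup hM hB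
  have hcD := IsDefectGroup.card_eq hM hB hD
  have hom : om (χ : G → ℂ) (ePow p) = 1 := by
    rw [om, Finset.sum_eq_single (1 : G)]
    · rw [ePow_apply, if_pos (one_pow p), one_mul, div_self (irr_one_ne_zero χ.2)]
    · intro g _ hg
      rw [ePow_apply]
      by_cases h : g ^ p = 1
      · rw [hvan g (orderOf_eq_prime h hg), mul_zero]
      · rw [if_neg h, zero_mul]
    · intro h; exact absurd (Finset.mem_univ _) h
  have hDbot : D = ⊥ := by
    by_contra hne
    have h1 := om_ePow_memLocalIdeal hM hB hD hne hχB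
    rw [hom] at h1
    exact not_memLocalIdeal_one h1
  rw [hDbot, Subgroup.card_bot] at hcD
  have hd0 : blockDefect p (blockOf M (χ : G → ℂ)) = 0 := by
    by_contra hne
    have := Nat.one_lt_pow hne hp.one_lt
    omega
  rw [blockDefect] at hd0
  have h1 : sInf ((fun ψ : IrrCharacter G => (charDegree (ψ : G → ℂ)).factorization p) ''
      blockOf M (χ : G → ℂ)) ≤ (charDegree (χ : G → ℂ)).factorization p :=
    Nat.sInf_le ⟨χ, hχB, rfl⟩
  have h2 : (charDegree (χ : G → ℂ)).factorization p ≤ (Nat.card G).factorization p :=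
    (Nat.factorization_le_iff_dvd (Cfsg.Agent.Lib.Helper24.charDegree_pos χ.2).ne'
      Nat.card_pos.ne').mpr (Cfsg.Agent.Lib.Helper24.degree_dvd_card χ.2) p
  omega

end Cfsg.Agent.S0928
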