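import Mathlib
import Cfsg.Statements.S0948
import Cfsg.Agent.S0947
import Cfsg.Agent.Lib.Helper6.KleinBlock
import Cfsg.Agent.Lib.Helper6.SubSum
import Cfsg.Agent.Lib.Helper6.PrincipalSection2
import Cfsg.Agent.Lib.Helper6.NormalIdem

set_option autoImplicit false
open Cfsg
open Cfsg.Agent.Lib.Helper6 Cfsg.Agent.Lib.Helper2
open scoped ComplexConjugate Classical

attribute [local instance] irrFintype

namespace Cfsg.Agent.S0948

/-- Let the finite group G have a Sylow 2-subgroup P that is a Klein four-group, suppose all involutions of G are conjugate, and fix a maximal ideal M of the algebraic integers containing 2. Then the principal block consists of exactly four irreducible characters, the principal character and ζ₂, ζ₃, ζ₄, and there is a sign ε such that for every involution z: ζ₂ z = 1, ζ₃ z = ε, ζ₄ z = -1; moreover ζ₂ 1 ≡ 1, ζ₃ 1 ≡ ε, ζ₄ 1 ≡ -1 (mod 4), and 1 + ζ₂ y + ε ζ₃ y - ζ₄ y = 0 for every y of odd order. -/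
theorem result {G : Type*} [Group G] [Finite G] (M : Ideal Cfsg.AlgInt) (hM : Cfsg.IsPModular 2 M) (P : Sylow 2 G) (hP : IsKleinFour (P : Subgroup G)) (hone : ∀ s t : G, orderOf s = 2 → orderOf t = 2 → IsConj s t) : ∃ ζ₂ ζ₃ ζ₄ : Cfsg.IrrCharacter G, ∃ ε : ℤ, (ε = 1 ∨ ε = -1) ∧ (ζ₂ : G → ℂ) ≠ (fun _ => 1) ∧ (ζ₃ : G → ℂ) ≠ (fun _ => 1) ∧ ζ₂ ≠ ζ₃ ∧ ζ₂ ≠ ζ₄ ∧ ζ₃ ≠ ζ₄ ∧ Cfsg.principalBlock M G = {χ : Cfsg.IrrCharacter G | (χ : G → ℂ) = (fun _ => 1) ∨ χ = ζ₂ ∨ χ = ζ₃ ∨ χ = ζ₄} ∧ (∀ z : G, orderOf z = 2 → (ζ₂ : G → ℂ) z = 1 ∧ (ζ₃ : G → ℂ) z = (ε : ℂ) ∧ (ζ₄ : G → ℂ) z = -1) ∧ (4 : ℤ) ∣ (Cfsg.charDegree (ζ₂ : G → ℂ) : ℤ) - 1 ∧ (4 : ℤ) ∣ (Cfsg.charDegree (ζ₃ : G → ℂ) : ℤ) - ε ∧ (4 : ℤ) ∣ (Cfsg.charDegree (ζ₄ : G → ℂ) : ℤ) + 1 ∧ ∀ y : G, Odd (orderOf y) → 1 + (ζ₂ : G → ℂ) y + (ε : ℂ) * (ζ₃ : G → ℂ) y - (ζ₄ : G → ℂ) y = 0 := by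
  let _ := Fintype.ofFinite G
  have hp : (2 : ℕ).Prime := Nat.prime_two
  have := IsPModular.isPrime hM
  obtain ⟨z, w, hz, hw, hz1, hw1, hzw⟩ := klein_exists P hP
  have hzo : orderOf z = 2 := klein_orderOf P hP hz hz1
  obtain ⟨hle, hidx, hfac⟩ := klein_cen_index P hP hz hz1
  have hcol := (Cfsg.Agent.S0947.result 2 M hM z ⟨1, by rw [hzo, pow_one]⟩ hz1 1
    (by rw [orderOf_one]; norm_num)).2 hidx
  have hfac' : (Nat.card (Subgroup.centralizer ({z} : Set G))).factorization 2 = 2 := hfac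
  rw [hfac'] at hcol
  have hcol2 := congrArg Complex.ofReal hcol
  rw [finsum_mem_normSq] at hcol2
  simp only [Subgroup.coe_one, mul_one] at hcol2
  -- integer values
  have hint : ∀ ζ : IrrCharacter G, ∃ n : ℤ, (ζ : G → ℂ) z = n := fun ζ =>
    exists_int_of_orderOf_two (IsIrrCharacter.isCharacter ζ.2) hzo
  choose f hf using hint
  set B0 := principalBlock M G with hB0
  have hB0b : IsPBlock M B0 := isPBlock_principalBlock
  set S : Finset (IrrCharacter G) := Finset.univ.filter (· ∈ B0) with hS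
  have hmemS : ∀ ζ, ζ ∈ S ↔ ζ ∈ B0 := fun ζ => by simp [hS]
  have hsumS : ∀ F : IrrCharacter G → ℂ, ∑ ζ : IrrCharacter G, B0.indicator 1 ζ * F ζ =
      ∑ ζ ∈ S, F ζ := by
    intro F
    rw [hS, Finset.sum_filter]
    refine Finset.sum_congr rfl fun ζ _ => ?_
    by_cases h : ζ ∈ B0
    · rw [Set.indicator_of_mem h, if_pos h, Pi.one_apply, one_mul]
    · rw [Set.indicator_of_notMem h, if_neg h, zero_mul]
  rw [hsumS] at hcol2
  have hsq : ∑ ζ ∈ S, (f ζ) ^ 2 = 4 := by
    have : ((∑ ζ ∈ S, (f ζ) ^ 2 : ℤ) : ℂ) = ((4 : ℤ) : ℂ) := by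
      push_cast
      push_cast at hcol2
      rw [← hcol2]
      refine Finset.sum_congr rfl fun ζ _ => ?_
      rw [hf ζ, map_intCast]; ring
    exact_mod_cast this
  let triv : IrrCharacter G := ⟨fun _ => 1, isIrrCharacter_one⟩
  have htrivS : triv ∈ S := (hmemS triv).mpr (mem_blockOf_self triv)
  have hftriv : f triv = 1 := by
    have : ((f triv : ℤ) : ℂ) = ((1 : ℤ) : ℂ) := by rw [← hf triv]; simp [triv]
    exact_mod_cast this
  -- non vanishing
  have hodd : ¬ 2 ∣ (cen z).index := by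
    intro hd
    exact P.not_dvd_index (hd.trans (Subgroup.index_dvd_of_le hle))
  have hne : ∀ ζ ∈ S, f ζ ≠ 0 := by
    intro ζ hζ h0
    have h1 : SameBlock M (fun _ : G => (1 : ℂ)) (ζ : G → ℂ) := (hmemS ζ).mp hζ
    have h2 := h1 z
    unfold centralChar at h2
    rw [hf ζ, h0] at h2
    simp only [Int.cast_zero, mul_zero, zero_div, sub_zero, mul_one, div_one] at h2
    exact hodd ((memLocalIdeal_natCast_iff hM _).mp h2)
  have hpm : ∀ ζ ∈ S, f ζ = 1 ∨ f ζ = -1 := by
    intro ζ hζ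
    by_contra hcon
    push Not at hcon
    have h0 := hne ζ hζ
    have h4 : 4 ≤ (f ζ) ^ 2 := by
      have : 2 ≤ |f ζ| := by
        by_contra hlt
        push Not at hlt
        have h5 : |f ζ| = 1 := by
          have := abs_pos.mpr h0
          omega
        rcases abs_eq (by norm_num : (0 : ℤ) ≤ 1) |>.mp h5 with h6 | h6
        · exact hcon.1 h6
        · exact hcon.2 h6
      have h7 : (f ζ) ^ 2 = |f ζ| ^ 2 := (sq_abs _).symm
      rw [h7]; nlinarith
    have hζt : ζ ≠ triv := by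
      intro h; rw [h] at hcon; exact hcon.1 hftriv
    have hsub : ({ζ, triv} : Finset (IrrCharacter G)) ⊆ S := by
      intro x hx
      rcases Finset.mem_insert.mp hx with rfl | hx
      · exact hζ
      · rw [Finset.mem_singleton.mp hx]; exact htrivS
    have h8 := Finset.sum_le_sum_of_subset_of_nonneg (f := fun ζ => (f ζ) ^ 2) hsub
      (fun i _ _ => sq_nonneg _)
    rw [Finset.sum_pair hζt, hsq, hftriv] at h8
    linarith
  have hcard : S.card = 4 := by
    have h1 : ∑ ζ ∈ S, (f ζ) ^ 2 = ∑ ζ ∈ S, (1 : ℤ) := by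
      refine Finset.sum_congr rfl fun ζ hζ => ?_
      rcases hpm ζ hζ with h | h <;> rw [h] <;> norm_num
    rw [hsq] at h1
    simp at h1
    exact_mod_cast h1.symm
  -- orthogonality
  have horth : ∀ y : G, ¬ 2 ∣ orderOf y → ∑ ζ ∈ S, (ζ : G → ℂ) y * (f ζ : ℂ) = 0 := by
    intro y hy
    have h1 := weak_block_orthogonality hM hB0b hy (y := z) (by rw [hzo])
    rw [hsumS] at h1
    rw [← h1]
    refine Finset.sum_congr rfl fun ζ _ => ?_
    rw [hf ζ, map_intCast]
  have hdeg : ∑ ζ ∈ S, (charDegree (ζ : G → ℂ) : ℤ) * f ζ = 0 := by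
    have h1 := horth 1 (by rw [orderOf_one]; norm_num)
    have : ((∑ ζ ∈ S, (charDegree (ζ : G → ℂ) : ℤ) * f ζ : ℤ) : ℂ) = ((0 : ℤ) : ℂ) := by
      push_cast
      rw [← h1]
      refine Finset.sum_congr rfl fun ζ _ => ?_
      rw [Cfsg.Agent.Lib.Helper24.charDegree_cast (IsIrrCharacter.isCharacter ζ.2)]
    exact_mod_cast this
  have hdpos : ∀ ζ : IrrCharacter G, (1 : ℤ) ≤ (charDegree (ζ : G → ℂ) : ℤ) := fun ζ => by
    exact_mod_cast Cfsg.Agent.Lib.Helper24.charDegree_pos ζ.2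
  have hdtriv : (charDegree (triv : G → ℂ) : ℤ) = 1 := by
    have h1 := Cfsg.Agent.Lib.Helper24.charDegree_cast (IsIrrCharacter.isCharacter triv.2)
    have : ((charDegree (triv : G → ℂ) : ℤ) : ℂ) = ((1 : ℤ) : ℂ) := by
      push_cast; rw [h1]
    exact_mod_cast this
  set T := S.erase triv with hT
  have hTcard : T.card = 3 := by rw [hT, Finset.card_erase_of_mem htrivS, hcard]
  have hST : S = insert triv T := (Finset.insert_erase htrivS).symm
  have htT : triv ∉ T := Finset.notMem_erase _ _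
  have hTS : ∀ ζ ∈ T, ζ ∈ S := fun ζ hζ => Finset.mem_of_mem_erase hζ
  rw [hST, Finset.sum_insert htT, hdtriv, hftriv] at hdeg
  obtain ⟨a, haT, hfa⟩ : ∃ a ∈ T, f a = 1 := by
    by_contra hcon
    push Not at hcon
    have h1 : ∑ ζ ∈ T, (charDegree (ζ : G → ℂ) : ℤ) * f ζ ≤ ∑ ζ ∈ T, (-1 : ℤ) := by
      refine Finset.sum_le_sum fun ζ hζ => ?_
      rw [(hpm ζ (hTS ζ hζ)).resolve_left (hcon ζ hζ)]
      linarith [hdpos ζ]
    simp only [Finset.sum_const, hTcard] at h1
    simp at h1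
    linarith
  obtain ⟨c, hcT, hfc⟩ : ∃ c ∈ T, f c = -1 := by
    by_contra hcon
    push Not at hcon
    have h1 : ∑ ζ ∈ T, (0 : ℤ) ≤ ∑ ζ ∈ T, (charDegree (ζ : G → ℂ) : ℤ) * f ζ := by
      refine Finset.sum_le_sum fun ζ hζ => ?_
      rw [(hpm ζ (hTS ζ hζ)).resolve_right (hcon ζ hζ)]
      linarith [hdpos ζ]
    simp only [Finset.sum_const_zero] at h1
    linarith
  have hac : a ≠ c := by
    intro h; rw [h, hfc] at hfa; norm_num at hfa
  have hcTa : c ∈ T.erase a := Finset.mem_erase.mpr ⟨hac.symm, hcT⟩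
  have hU : ((T.erase a).erase c).card = 1 := by
    rw [Finset.card_erase_of_mem hcTa, Finset.card_erase_of_mem haT, hTcard]
  obtain ⟨b, hb⟩ := Finset.card_eq_one.mp hU
  have hTa : T = insert a (insert c {b}) := by
    rw [← hb, Finset.insert_erase hcTa, Finset.insert_erase haT]
  have hbU : b ∈ (T.erase a).erase c := by rw [hb]; exact Finset.mem_singleton_self b
  have hbc : b ≠ c := (Finset.mem_erase.mp hbU).1
  have hba : b ≠ a := (Finset.mem_erase.mp (Finset.mem_erase.mp hbU).2).1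
  have hbT : b ∈ T := (Finset.mem_erase.mp (Finset.mem_erase.mp hbU).2).2
  have hne_triv : ∀ ζ ∈ T, (ζ : G → ℂ) ≠ fun _ => 1 := by
    intro ζ hζ h
    exact (Finset.mem_erase.mp hζ).1 (Subtype.ext h)
  have hval : ∀ (ζ : IrrCharacter G) (z' : G), orderOf z' = 2 → (ζ : G → ℂ) z' = f ζ := by
    intro ζ z' hz'
    rw [← hf ζ]
    exact Cfsg.Agent.Lib.Helper6.IsClassFunction.eq_of_isConj (irr_isClassFunction ζ.2)
      (hone z' z hz' hzo)
  have hmod : ∀ ζ : IrrCharacter G, (4 : ℤ) ∣ (charDegree (ζ : G → ℂ) : ℤ) - f ζ := by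
    intro ζ
    have h1 := card_dvd_degree_sub (IsIrrCharacter.isCharacter ζ.2) (P : Subgroup G) (f ζ)
      (fun x hx hx1 => hval ζ x (klein_orderOf P hP hx hx1))
    have h2 : Nat.card (P : Subgroup G) = 4 := hP.card_four
    rw [h2] at h1
    exact_mod_cast h1
  refine ⟨a, b, c, f b, hpm b (hTS b hbT), hne_triv a haT, hne_triv b hbT, hba.symm, hac, hbc,
    ?_, ?_, ?_, hmod b, ?_, ?_⟩
  · ext χ
    rw [← hmemS χ, hST, hTa]
    simp only [Finset.mem_insert, Finset.mem_singleton, Set.mem_ofPred_eq]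
    constructor
    · rintro (h | h | h | h)
      · left; rw [h]
      · right; left; exact h
      · right; right; right; exact h
      · right; right; left; exact h
    · rintro (h | h | h | h)
      · left; exact Subtype.ext h
      · right; left; exact h
      · right; right; right; exact h
      · right; right; left; exact h
  · intro z' hz'
    refine ⟨?_, hval b z' hz', ?_⟩
    · rw [hval a z' hz', hfa]; simp
    · rw [hval c z' hz', hfc]; simp
  · have := hmod a; rwa [hfa] at this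
  · have := hmod c
    rw [hfc] at this
    simpa using this
  · intro y hy
    have h1 := horth y hy.not_two_dvd_nat
    rw [hST, hTa, Finset.sum_insert (by rw [← hTa]; exact htT),
      Finset.sum_insert (by
        simp only [Finset.mem_insert, Finset.mem_singleton]
        rintro (h | h)
        · exact hac h
        · exact hba h.symm),
      Finset.sum_insert (by
        simp only [Finset.mem_singleton]
        exact hbc.symm), Finset.sum_singleton, hftriv, hfa, hfc] at h1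
    simp only [triv] at h1
    push_cast at h1
    linear_combination h1

end Cfsg.Agent.S0948
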