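import Mathlib
import Cfsg.Statements.S0953
import Cfsg.Agent.Lib.Helper6.SylowBlocks

set_option autoImplicit false
open Cfsg
open Cfsg.Agent.Lib.Helper6 Cfsg.Agent.Lib.Helper2
open scoped ComplexConjugate Classical

attribute [local instance] irrFintype

namespace Cfsg.Agent.S0953

/-- Let P be a Sylow p-subgroup of the finite group G with normalizer N, and fix a maximal ideal M of the algebraic integers containing p. The number of blocks of G having P as a defect group equals the number of conjugacy classes of N consisting of elements of order prime to p that centralize P. -/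
theorem result {G : Type*} [Group G] [Finite G] (p : ℕ) [Fact p.Prime] (M : Ideal Cfsg.AlgInt) (hM : Cfsg.IsPModular p M) (P : Sylow p G) : Nat.card {B : Set (Cfsg.IrrCharacter G) // Cfsg.IsPBlock M B ∧ Cfsg.IsDefectGroup p M B (P : Subgroup G)} = Nat.card {C : ConjClasses (Subgroup.normalizer ((P : Subgroup G) : Set G)) // ∀ n : Subgroup.normalizer ((P : Subgroup G) : Set G), ConjClasses.mk n = C → ¬ p ∣ orderOf n ∧ (n : G) ∈ Subgroup.centralizer ((P : Subgroup G) : Set G)} := by
  let _ := Fintype.ofFinite G
  have hPp : IsPGroup p (P : Subgroup G) := P.2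
  have hn : ((P : Subgroup G).subgroupOf (nor (P : Subgroup G))).Normal :=
    Subgroup.normal_in_normalizer
  have hQ : IsPGroup p ((P : Subgroup G).subgroupOf (nor (P : Subgroup G))) :=
    hPp.of_equiv (Subgroup.subgroupOfEquivOfLe (le_nor (P : Subgroup G))).symm
  have hidx : ¬ p ∣ ((P : Subgroup G).subgroupOf (nor (P : Subgroup G))).index := by
    intro h
    apply P.not_dvd_index
    rw [← Subgroup.relIndex_mul_index (le_nor (P : Subgroup G))]
    exact Dvd.dvd.mul_right h _
  rw [card_blocks_defect_eq_nor hM hPp, card_blocks_normal_sylow _ hM hQ hidx]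
  refine Nat.card_congr (Equiv.subtypeEquivRight fun C => ?_)
  refine forall_congr' fun n => imp_congr_right fun _ => and_congr_right fun _ => ?_
  rw [le_cen_iff, mem_centralizer_subgroupOf_iff (le_nor (P : Subgroup G))]

end Cfsg.Agent.S0953
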