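import Mathlib
import Cfsg.Statements.S1225
import Cfsg.Agent.Lib.Helper8.StrEmb

set_option autoImplicit false
open Cfsg
open Cfsg.Agent.Lib.Helper8

namespace Cfsg.Agent.S1225

/-- Let H be a strongly embedded subgroup of the finite group G, u an involution outside H and D = H ∩ uHu⁻¹. Then any two involutions of H are conjugate by an element of D, and any two involutions of G are conjugate in G. -/
theorem result {G : Type*} [Group G] [Finite G] (H : Subgroup G) (hH : Cfsg.IsStronglyEmbedded H) (u : G) (hu : orderOf u = 2) (huH : u ∉ H) (s t : G) (hs : orderOf s = 2) (hsH : s ∈ H) (ht : orderOf t = 2) (htH : t ∈ H) : (∃ d ∈ (H ⊓ H.map (MulAut.conj u).toMonoidHom), d * s * d⁻¹ = t) ∧ ∀ a b : G, orderOf a = 2 → orderOf b = 2 → IsConj a b := by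
  have hU := strEmb_uniqueFix hH
  constructor
  · have hux : u • (QuotientGroup.mk 1 : G ⧸ H) ≠ QuotientGroup.mk 1 := by
      rw [Ne, smul_mk_one_eq_iff]; exact huH
    obtain ⟨d, hd1, hd2, -, hd3⟩ := hU.exists_conj_of_swap hu hux ht ((smul_mk_one_eq_iff H t).mpr htH) hs
      ((smul_mk_one_eq_iff H s).mpr hsH)
    refine ⟨d, Subgroup.mem_inf.mpr ⟨(smul_mk_one_eq_iff H d).mp hd1, ?_⟩, hd3⟩
    rw [mem_conjMap]
    have : u • (QuotientGroup.mk 1 : G ⧸ H) = QuotientGroup.mk u := by
      rw [MulAction.Quotient.smul_mk, smul_eq_mul, mul_one]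
    rw [this, smul_mk_eq_iff] at hd2
    exact hd2
  · -- all involutions are conjugate
    have key : ∀ a b : G, orderOf a = 2 → orderOf b = 2 → ∀ p q : G ⧸ H, a • p = p → b • q = q → p ≠ q →
        IsConj a b := by
      intro a b ha hb p q hp hq hpq
      obtain ⟨j, -, hj⟩ := exists_conj_of_odd (sq_of_orderOf_two ha) (sq_of_orderOf_two hb)
        (hU.odd_mul ha hb hp hq hpq)
      exact isConj_iff.mpr ⟨_, hj⟩
    intro a b ha hb
    obtain ⟨p, hp, -⟩ := hU a ha
    obtain ⟨q, hq, -⟩ := hU b hb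
    by_cases hpq : p = q
    · -- find a third involution with another fixed point
      have hex : ∃ c : G, orderOf c = 2 ∧ ∃ r : G ⧸ H, c • r = r ∧ r ≠ p := by
        by_cases hp1 : p = QuotientGroup.mk 1
        · obtain ⟨r, hr, -⟩ := hU u hu
          refine ⟨u, hu, r, hr, ?_⟩
          intro hrp
          rw [hrp, hp1, smul_mk_one_eq_iff] at hr
          exact huH hr
        · exact ⟨s, hs, QuotientGroup.mk 1, (smul_mk_one_eq_iff H s).mpr hsH, Ne.symm hp1⟩
      obtain ⟨c, hc, r, hr, hrp⟩ := hex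
      exact (key a c ha hc p r hp hr (Ne.symm hrp)).trans (key c b hc hb r q hr hq (hpq ▸ hrp))
    · exact key a b ha hb p q hp hq hpq

end Cfsg.Agent.S1225
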