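import Cfsg.Statements.S1313
import Mathlib
import Cfsg.Agent.Lib.Helper9.Layer

set_option autoImplicit false
open Cfsg

namespace Cfsg.Agent.S1313

open Cfsg.Agent.Lib.Helper8 Cfsg.Agent.Lib.Helper9

/-- For a finite group H, |H| ≤ |F*(H)|!. -/
theorem result {H : Type*} [Group H] [Finite H] : Nat.card H ≤ Nat.factorial (Nat.card ↥(Cfsg.generalizedFittingSubgroup H)) := by
  have hn := generalizedFittingSubgroup_normal (G := H)
  set N := Cfsg.generalizedFittingSubgroup H with hN
  let φ : H →* MulAut N := MulAut.conjNormal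
  have hker : φ.ker ≤ N := by
    refine le_trans ?_ (centralizer_generalizedFitting_le (G := H))
    intro c hc
    rw [Subgroup.mem_centralizer_iff]
    intro y hy
    have h1 : φ c = 1 := hc
    have h2 : φ c ⟨y, hy⟩ = ⟨y, hy⟩ := by rw [h1]; rfl
    have h3 := congrArg Subtype.val h2
    rw [MulAut.conjNormal_apply] at h3
    have h4 : c * y * c⁻¹ = y := h3
    calc y * c = (c * y * c⁻¹) * c := by rw [h4]
      _ = c * y := by group
  let g : (H ⧸ φ.ker) × φ.ker → Equiv.Perm N := fun qc =>
    (QuotientGroup.kerLift φ qc.1).toEquiv.trans (Equiv.mulLeft (⟨qc.2.1, hker qc.2.2⟩ : N))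
  have hg : Function.Injective g := by
    rintro ⟨q, c⟩ ⟨q', c'⟩ h
    have h1 : ∀ x : N, (⟨c.1, hker c.2⟩ : N) * (QuotientGroup.kerLift φ q) x
        = (⟨c'.1, hker c'.2⟩ : N) * (QuotientGroup.kerLift φ q') x := fun x => congrFun (congrArg DFunLike.coe h) x
    have h2 := h1 1
    rw [map_one, map_one, mul_one, mul_one] at h2
    have hc : c = c' := Subtype.ext (congrArg (fun z : N => z.1) h2)
    subst hc
    have h3 : QuotientGroup.kerLift φ q = QuotientGroup.kerLift φ q' := by
      ext x
      exact congrArg Subtype.val (mul_left_cancel (h1 x))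
    rw [QuotientGroup.kerLift_injective φ h3]
  have h1 := Nat.card_le_card_of_injective g hg
  rw [Nat.card_prod, ← Subgroup.card_eq_card_quotient_mul_card_subgroup, Nat.card_perm] at h1
  exact h1

end Cfsg.Agent.S1313
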