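import Cfsg.Statements.S1349
import Cfsg.Agent.Lib.Helper9.DihLemma
import Cfsg.Agent.Lib.Helper3.Dih

set_option autoImplicit false
open Cfsg

namespace Cfsg.Agent.S1349

open Cfsg.Agent.Lib.Helper9

/-- Let G be finite, L ≤ G solvable of odd order, and A an elementary abelian 2-subgroup of order 2^d (d ≥ 1) normalizing L with C_A(L) = 1. Then there are subgroups A_1, …, A_d of A of order 2 generating A and subgroups L_1, …, L_d of L such that each A_i ⊔ L_i is dihedral of order 2 n_i with n_i odd and at least 3, and A_i ⊔ L_i commutes elementwise with A_j ⊔ L_j for i ≠ j. -/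
theorem result {G : Type*} [Group G] [Finite G] (L A : Subgroup G) (hLs : Group.IsSolvable ↥L) (hLodd : Odd (Nat.card ↥L)) (hA : Cfsg.IsElementaryAbelian 2 A) (d : ℕ) (hd : 1 ≤ d) (hAd : Nat.card ↥A = 2 ^ d) (hAL : A ≤ Subgroup.normalizer (L : Set G)) (hfaith : A ⊓ Subgroup.centralizer (L : Set G) = ⊥) : ∃ (Ai : Fin d → Subgroup G) (Li : Fin d → Subgroup G) (n : Fin d → ℕ), (∀ i, Ai i ≤ A ∧ Nat.card ↥(Ai i) = 2 ∧ Li i ≤ L ∧ Odd (n i) ∧ 3 ≤ n i ∧ Nonempty (↥(Ai i ⊔ Li i) ≃* DihedralGroup (n i))) ∧ (⨆ i, Ai i) = A ∧ ∀ i j, i ≠ j → ∀ x ∈ Ai i ⊔ Li i, ∀ y ∈ Ai j ⊔ Li j, x * y = y * x := by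
  obtain ⟨F, hFL, hFnil, hAF, hfF⟩ := faithful_fitting A L hA hLs hLodd hAL hfaith
  have hFodd : Odd (Nat.card F) := Odd.of_dvd_nat hLodd (Subgroup.card_dvd_of_le hFL)
  obtain ⟨X, hXF, hAX, hfX, hXab⟩ := exists_abelian A F hA hFnil hFodd hAF hfF
  have hXodd : Odd (Nat.card X) := Odd.of_dvd_nat hFodd (Subgroup.card_dvd_of_le hXF)
  obtain ⟨x, a, hD⟩ := exists_dualSys A X hA hXodd hAX hXab hfX d A le_rfl hAd
  have hx1 : ∀ i, x i ≠ 1 := by
    intro i h
    have := hD.prime i
    rw [h, orderOf_one] at this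
    exact Nat.not_prime_one this
  have hncomm : ∀ i, a i * x i * (a i)⁻¹ ≠ x i := by
    intro i h
    rw [hD.inv i] at h
    exact hx1 i (eq_one_of_eq_inv_odd hXodd (hD.memX i) h.symm)
  refine ⟨fun i => Subgroup.zpowers (a i), fun i => Subgroup.zpowers (x i), fun i => orderOf (x i),
    ?_, hD.iSup_eq le_rfl, ?_⟩
  · intro i
    have ha1 : a i ≠ 1 := by
      intro h
      apply hncomm i
      rw [h]; group
    have hodd : Odd (orderOf (x i)) := by
      have h4 : orderOf (x i) ∣ Nat.card X := by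
        have := orderOf_dvd_natCard (⟨x i, hD.memX i⟩ : X)
        rwa [Subgroup.orderOf_mk] at this
      exact Odd.of_dvd_nat hXodd h4
    refine ⟨(Subgroup.zpowers_le).mpr (hD.memB i), ?_, (Subgroup.zpowers_le).mpr (hFL (hXF (hD.memX i))),
      hodd, ?_, ?_⟩
    · rw [Nat.card_zpowers]
      exact orderOf_eq_prime (hA.2 _ (hD.memB i)) ha1
    · have h2 := (hD.prime i).two_le
      rcases hodd with ⟨m, hm⟩
      show 3 ≤ orderOf (x i)
      omega
    · have e : Subgroup.zpowers (a i) ⊔ Subgroup.zpowers (x i) = Subgroup.closure ({x i, a i} : Set G) := by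
        rw [Subgroup.zpowers_eq_closure, Subgroup.zpowers_eq_closure, sup_comm, ← Subgroup.closure_union]
        rfl
      show Nonempty (↥(Subgroup.zpowers (a i) ⊔ Subgroup.zpowers (x i)) ≃* DihedralGroup (orderOf (x i)))
      rw [e]
      apply Cfsg.Agent.Lib.Helper3.closure_pair_equiv_dihedral (orderOf (x i)) (x i) (a i) rfl
        (elemAb2_mul_self hA (hD.memB i)) (hD.inv i)
      rintro ⟨k, hk⟩
      apply hncomm i
      rw [← hk]
      show x i ^ k * x i * (x i ^ k)⁻¹ = x i
      group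
  · intro i j hij
    have hgen : ∀ g : G, g * a j = a j * g → g * x j = x j * g →
        g ∈ Subgroup.centralizer ((Subgroup.zpowers (a j) ⊔ Subgroup.zpowers (x j) : Subgroup G) : Set G) := by
      intro g h1 h2
      have h3 : Subgroup.zpowers (a j) ⊔ Subgroup.zpowers (x j) ≤ Subgroup.centralizer ({g} : Set G) := by
        apply sup_le
        · rw [Subgroup.zpowers_le, Subgroup.mem_centralizer_singleton_iff]; exact h1.symm
        · rw [Subgroup.zpowers_le, Subgroup.mem_centralizer_singleton_iff]; exact h2.symm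
      rw [Subgroup.mem_centralizer_iff]
      intro z hz
      have := h3 hz
      rw [Subgroup.mem_centralizer_singleton_iff] at this
      exact this
    have hle : Subgroup.zpowers (a i) ⊔ Subgroup.zpowers (x i) ≤
        Subgroup.centralizer ((Subgroup.zpowers (a j) ⊔ Subgroup.zpowers (x j) : Subgroup G) : Set G) := by
      apply sup_le
      · rw [Subgroup.zpowers_le]
        apply hgen
        · exact elemAb_comm hA (hD.memB i) (hD.memB j)
        · exact conj_eq_iff_comm.mp (hD.cen i j hij)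
      · rw [Subgroup.zpowers_le]
        apply hgen
        · exact (conj_eq_iff_comm.mp (hD.cen j i (Ne.symm hij))).symm
        · exact hXab _ (hD.memX i) _ (hD.memX j)
    intro u hu v hv
    have := hle hu
    rw [Subgroup.mem_centralizer_iff] at this
    exact (this v hv).symm

end Cfsg.Agent.S1349
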