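import Cfsg.Statements.S1894
import Cfsg.Agent.Lib.Helper20.Fitting

set_option autoImplicit false
open Cfsg

namespace Cfsg.Agent.S1894

theorem result {P : Type*} [Group P] [Finite P] {p : ℕ} [Fact p.Prime] (hP : IsPGroup p P)
    (A : Subgroup P) [A.Normal] (B : Subgroup P) [B.Normal] (hBA : B ≤ A) (hB : IsMulCommutative B) :
    ∃ C : Subgroup P, C.Normal ∧ B ≤ C ∧ Cfsg.IsSCN A C := by
  have hBc : ∀ x ∈ B, ∀ y ∈ B, x * y = y * x := fun x hx y hy =>
    congrArg Subtype.val (mul_comm' (⟨x, hx⟩ : ↥B) ⟨y, hy⟩)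
  obtain ⟨C, ⟨hCn, hBC, hCA, hCc⟩, hmax⟩ := exists_maximal_of_wellFoundedGT
    (fun C : Subgroup P => C.Normal ∧ B ≤ C ∧ C ≤ A ∧ ∀ x ∈ C, ∀ y ∈ C, x * y = y * x)
    ⟨B, inferInstance, le_rfl, hBA, hBc⟩
  refine ⟨C, hCn, hBC, hCA, ?_, ?_⟩
  · rw [Subgroup.normalizer_eq_top]; exact le_top
  apply le_antisymm
  swap
  · intro x hx
    refine Subgroup.mem_inf.mpr ⟨hCA hx, ?_⟩
    rw [Subgroup.mem_centralizer_iff]
    intro y hy
    exact hCc y hy x hx
  by_contra hcon
  set D : Subgroup P := A ⊓ Subgroup.centralizer (C : Set P) with hD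
  have hDn : D.Normal := inferInstance
  let π := QuotientGroup.mk' C
  have hπ : Function.Surjective π := QuotientGroup.mk'_surjective C
  have hDbar : (D.map π).Normal := hDn.map π hπ
  have hne : D.map π ≠ ⊥ := by
    intro h
    apply hcon
    rw [Subgroup.map_eq_bot_iff, QuotientGroup.ker_mk'] at h
    exact h
  have hnil : Group.IsNilpotent (P ⧸ C) := (hP.to_quotient C).isNilpotent
  obtain ⟨xb, ⟨x, hxD, rfl⟩, hxc, hx1⟩ := Cfsg.Agent.Lib.Helper20.normal_inf_center_ne_bot (D.map π) hne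
  have hxC : x ∉ C := by
    intro h
    apply hx1
    exact (QuotientGroup.eq_one_iff x).mpr h
  have hzn : (Subgroup.zpowers (π x)).Normal := by
    constructor
    intro n hn g
    obtain ⟨k, rfl⟩ := Subgroup.mem_zpowers_iff.mp hn
    have : g * π x ^ k * g⁻¹ = π x ^ k := by
      have h1 : π x ^ k ∈ Subgroup.center (P ⧸ C) := Subgroup.zpow_mem _ hxc k
      rw [Subgroup.mem_center_iff] at h1
      rw [h1 g]; group
    rw [this]; exact Subgroup.zpow_mem _ (Subgroup.mem_zpowers _) k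
  set E : Subgroup P := (Subgroup.zpowers (π x)).comap π with hE
  have hEn : E.Normal := hzn.comap π
  have hCE : C ≤ E := by
    intro c hc
    rw [hE, Subgroup.mem_comap]
    have : π c = 1 := (QuotientGroup.eq_one_iff c).mpr hc
    rw [this]; exact Subgroup.one_mem _
  have hxE : x ∈ E := by
    rw [hE, Subgroup.mem_comap]; exact Subgroup.mem_zpowers _
  have hEform : ∀ y ∈ E, ∃ k : ℤ, ∃ c ∈ C, y = x ^ k * c := by
    intro y hy
    rw [hE, Subgroup.mem_comap] at hy
    obtain ⟨k, hk⟩ := Subgroup.mem_zpowers_iff.mp hy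
    refine ⟨k, (x ^ k)⁻¹ * y, ?_, by group⟩
    rw [← QuotientGroup.eq_one_iff]
    have : π ((x ^ k)⁻¹ * y) = 1 := by
      rw [map_mul, map_inv, map_zpow, hk, inv_mul_cancel]
    exact this
  have hxcent : ∀ c ∈ C, c * x = x * c := by
    have := (Subgroup.mem_inf.mp hxD).2
    rw [Subgroup.mem_centralizer_iff] at this
    exact this
  have hxk : ∀ k : ℤ, ∀ c ∈ C, c * x ^ k = x ^ k * c := by
    intro k c hc
    exact ((Commute.zpow_right (hxcent c hc) k) : c * x ^ k = x ^ k * c)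
  have hEA : E ≤ A := by
    intro y hy
    obtain ⟨k, c, hc, rfl⟩ := hEform y hy
    exact A.mul_mem (A.zpow_mem hxD.1 k) (hCA hc)
  have hEc : ∀ u ∈ E, ∀ v ∈ E, u * v = v * u := by
    intro u hu v hv
    obtain ⟨k, c, hc, rfl⟩ := hEform u hu
    obtain ⟨l, d, hd, rfl⟩ := hEform v hv
    calc x ^ k * c * (x ^ l * d) = x ^ k * (c * x ^ l) * d := by group
      _ = x ^ k * (x ^ l * c) * d := by rw [hxk l c hc]
      _ = x ^ (k + l) * (c * d) := by rw [zpow_add]; group
      _ = x ^ (l + k) * (d * c) := by rw [add_comm, hCc c hc d hd]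
      _ = x ^ l * (x ^ k * d) * c := by rw [zpow_add]; group
      _ = x ^ l * (d * x ^ k) * c := by rw [hxk k d hd]
      _ = x ^ l * d * (x ^ k * c) := by group
  have := hmax ⟨hEn, hBC.trans hCE, hEA, hEc⟩ hCE
  exact hxC (this hxE)

end Cfsg.Agent.S1894
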