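import Cfsg.Statements.S1452
import Cfsg.Agent.S0100
import Cfsg.Agent.S1894
import Cfsg.Agent.Lib.Helper4.Basic
import Cfsg.Agent.Lib.Helper20.Fitting

set_option autoImplicit false
open Cfsg

namespace Cfsg.Agent.S1452
open Cfsg.Agent.Lib.Helper4

theorem card_le_mul {G : Type*} [Group G] [Finite G] (B : Subgroup G) (e : G) (T : Set G)
    (hT : ∀ b ∈ B, b * e * b⁻¹ ∈ T) :
    Nat.card B ≤ Nat.card T * Nat.card ↥(B ⊓ Subgroup.centralizer ({e} : Set G)) := by
  classical
  let rep : G → G := fun t => if h : ∃ b ∈ B, b * e * b⁻¹ = t then h.choose else 1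
  have hrep : ∀ b ∈ B, rep (b * e * b⁻¹) ∈ B ∧ rep (b * e * b⁻¹) * e * (rep (b * e * b⁻¹))⁻¹ = b * e * b⁻¹ := by
    intro b hb
    have h : ∃ b' ∈ B, b' * e * b'⁻¹ = b * e * b⁻¹ := ⟨b, hb, rfl⟩
    have : rep (b * e * b⁻¹) = h.choose := dif_pos h
    rw [this]
    exact h.choose_spec
  let g : B → T × ↥(B ⊓ Subgroup.centralizer ({e} : Set G)) := fun b =>
    (⟨b.1 * e * b.1⁻¹, hT b.1 b.2⟩, ⟨(rep (b.1 * e * b.1⁻¹))⁻¹ * b.1, by
      obtain ⟨h1, h2⟩ := hrep b.1 b.2
      generalize rep (b.1 * e * b.1⁻¹) = r at h1 h2 ⊢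
      refine Subgroup.mem_inf.mpr ⟨Subgroup.mul_mem _ (Subgroup.inv_mem _ h1) b.2, ?_⟩
      rw [Subgroup.mem_centralizer_singleton_iff]
      have h3 : r⁻¹ * (b.1 * e * b.1⁻¹) * r = e := by
        rw [← h2]; group
      calc r⁻¹ * b.1 * e = (r⁻¹ * (b.1 * e * b.1⁻¹) * r) * (r⁻¹ * b.1) := by group
        _ = e * (r⁻¹ * b.1) := by rw [h3]⟩)
  have hg : Function.Injective g := by
    intro b b' h
    have h1 : b.1 * e * b.1⁻¹ = b'.1 * e * b'.1⁻¹ := congrArg (fun w => (w.1 : G)) h
    have h2 : (rep (b.1 * e * b.1⁻¹))⁻¹ * b.1 = (rep (b'.1 * e * b'.1⁻¹))⁻¹ * b'.1 :=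
      congrArg (fun w => (w.2 : G)) h
    rw [h1] at h2
    exact Subtype.ext (mul_left_cancel h2)
  have := Nat.card_le_card_of_injective g hg
  rwa [Nat.card_prod] at this



/-- Let p be an odd prime and R a finite p-group containing an elementary abelian subgroup of order p ^ 3. If E is a normal elementary abelian subgroup of R of order p ^ 2, then E ≤ A for some normal subgroup A of R with C_R(A) = A that contains an elementary abelian subgroup of order p ^ 3. -/
theorem result {R : Type*} [Group R] [Finite R] (p : ℕ) [Fact p.Prime] (hp : p ≠ 2) (hR : IsPGroup p R) (hr : ¬ Cfsg.PRankLE p 2 R)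
    (E : Subgroup R) [E.Normal] (hE : Cfsg.IsElementaryAbelian p E) (hE2 : Nat.card E = p ^ 2) :
    ∃ A : Subgroup R, E ≤ A ∧ A.Normal ∧ Subgroup.centralizer (A : Set R) = A ∧ ¬ Cfsg.PRankLE p 2 A := by
  have hpp : p.Prime := Fact.out
  have hnil : Group.IsNilpotent R := hR.isNilpotent
  -- a normal elementary abelian subgroup of order p^3
  obtain ⟨B, hBn, hBc, hBe, hB3⟩ : ∃ B : Subgroup R, B.Normal ∧ IsMulCommutative B ∧ (∀ a ∈ B, a ^ p = 1) ∧
      Nat.card B = p ^ 3 := by
    by_contra hcon
    push Not at hcon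
    apply hr
    intro E' hE' hEe'
    exact Cfsg.Agent.S0100.result hp hR (fun A h1 h2 h3 => hcon A h1 h2 h3) E' hE' hEe'
  have hBel : Cfsg.IsElementaryAbelian p B := ⟨hBc, hBe⟩
  have hCn : (Subgroup.centralizer (E : Set R)).Normal := inferInstance
  obtain ⟨D, hD⟩ : ∃ D, D = B ⊓ Subgroup.centralizer (E : Set R) := ⟨_, rfl⟩
  have hDn : D.Normal := by rw [hD]; infer_instance
  have hDel : Cfsg.IsElementaryAbelian p D := elemAb_of_le (hD ▸ inf_le_left) hBel
  -- |D| ≥ p^2
  have hDcard : p ^ 2 ≤ Nat.card D := by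
    by_cases hEZ : E ≤ Subgroup.center R
    · have : D = B := by
        rw [hD]; apply inf_eq_left.mpr
        intro b _
        rw [Subgroup.mem_centralizer_iff]
        intro x hx
        exact (Subgroup.mem_center_iff.mp (hEZ hx) b).symm
      rw [this, hB3]
      exact Nat.pow_le_pow_right hpp.pos (by norm_num)
    · obtain ⟨e, he, heZ⟩ := SetLike.not_le_iff_exists.mp hEZ
      have hE1 : E ≠ ⊥ := by
        rintro rfl
        exact heZ ((Subgroup.mem_bot.mp he) ▸ Subgroup.one_mem _)
      obtain ⟨z, hzE, hzZ, hz1⟩ := Cfsg.Agent.Lib.Helper20.normal_inf_center_ne_bot E hE1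
      -- centralizing e implies centralizing E
      have hcent : Subgroup.centralizer ({e} : Set R) ≤ Subgroup.centralizer (E : Set R) := by
        intro x hx
        have hx' := Subgroup.mem_centralizer_singleton_iff.mp hx
        obtain ⟨U, hU⟩ : ∃ U, U = E ⊓ Subgroup.centralizer ({x} : Set R) := ⟨_, rfl⟩
        have hUE : U ≤ E := hU ▸ inf_le_left
        have h1 : Nat.card U ∣ p ^ 2 := hE2 ▸ Subgroup.card_dvd_of_le hUE
        obtain ⟨j, hj2, hj⟩ := (Nat.dvd_prime_pow hpp).mp h1
        have hzU : z ∈ U := by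
          rw [hU]
          refine Subgroup.mem_inf.mpr ⟨hzE, ?_⟩
          rw [Subgroup.mem_centralizer_singleton_iff]
          exact (Subgroup.mem_center_iff.mp hzZ x).symm
        have heU : e ∈ U := by
          rw [hU]
          refine Subgroup.mem_inf.mpr ⟨he, ?_⟩
          rw [Subgroup.mem_centralizer_singleton_iff]
          exact hx'.symm
        have hlt : Subgroup.zpowers z < U := by
          refine lt_of_le_of_ne (Subgroup.zpowers_le.mpr hzU) ?_
          intro h
          apply heZ
          have h2 : e ∈ Subgroup.zpowers z := h ▸ heU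
          exact (Subgroup.zpowers_le.mpr hzZ) h2
        have hzp : Nat.card (Subgroup.zpowers z) = p := by
          rw [Nat.card_zpowers]
          exact orderOf_eq_prime (hE.2 z hzE) hz1
        have hlt' : p < Nat.card U := by
          rw [← hzp]
          by_contra hcon
          push Not at hcon
          exact hlt.ne (Subgroup.eq_of_le_of_card_ge hlt.le hcon)
        have hj' : j = 2 := by
          rw [hj] at hlt'
          have : 1 < j := by
            by_contra hcon
            push Not at hcon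
            have := Nat.pow_le_pow_right hpp.pos hcon
            rw [pow_one] at this
            omega
          omega
        have hUeq : U = E := Subgroup.eq_of_le_of_card_ge hUE (by rw [hE2, hj, hj'])
        rw [Subgroup.mem_centralizer_iff]
        intro y hy
        have : y ∈ U := hUeq ▸ hy
        rw [hU] at this
        exact (Subgroup.mem_centralizer_singleton_iff.mp this.2)
      have hDeq : B ⊓ Subgroup.centralizer ({e} : Set R) ≤ D := by
        rw [hD]; exact inf_le_inf le_rfl hcent
      have he1 : e ≠ 1 := by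
        rintro rfl; exact heZ (Subgroup.one_mem _)
      have h1 := card_le_mul B e ((E : Set R) \ {1}) (by
        intro b _
        refine ⟨‹E.Normal›.conj_mem e he b, ?_⟩
        intro h
        apply he1
        have h2 : b * e * b⁻¹ = 1 := h
        have h3 : e = b⁻¹ * (b * e * b⁻¹) * b := by group
        rw [h3, h2]; group)
      have h2 : Nat.card ((E : Set R) \ {1} : Set R) < p ^ 2 := by
        rw [← hE2]
        have h3 : ((E : Set R) \ {1}).ncard < (E : Set R).ncard := by
          apply Set.ncard_lt_ncard _ (Set.toFinite _)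
          refine ⟨Set.sdiff_subset, ?_⟩
          intro h
          exact (h (Subgroup.one_mem E)).2 rfl
        exact h3
      have h3 : Nat.card ↥(B ⊓ Subgroup.centralizer ({e} : Set R)) ≤ Nat.card D :=
        Subgroup.card_le_of_le hDeq
      obtain ⟨j, hj⟩ := (elemAb_isPGroup hDel).exists_card_eq
      rw [hj]
      apply Nat.pow_le_pow_right hpp.pos
      by_contra hcon
      push Not at hcon
      have h4 : Nat.card D ≤ p := by
        rw [hj]
        calc p ^ j ≤ p ^ 1 := Nat.pow_le_pow_right hpp.pos (by omega)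
          _ = p := pow_one p
      have h5 : p ^ 3 < p ^ 2 * p := by
        calc p ^ 3 = Nat.card B := hB3.symm
          _ ≤ _ := h1
          _ ≤ Nat.card ((E : Set R) \ {1} : Set R) * p := Nat.mul_le_mul le_rfl (h3.trans h4)
          _ < p ^ 2 * p := Nat.mul_lt_mul_of_pos_right h2 hpp.pos
      have h6 : p ^ 2 * p = p ^ 3 := by ring
      omega
  -- Y = E ⊔ D
  have hYel : Cfsg.IsElementaryAbelian p (E ⊔ D : Subgroup R) := by
    apply elemAb_sup hE hDel
    intro a ha b hb
    rw [hD] at hb
    exact Subgroup.mem_centralizer_iff.mp hb.2 a ha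
  have hYn : (E ⊔ D).Normal := inferInstance
  have hYcard : p ^ 2 < Nat.card (E ⊔ D : Subgroup R) := by
    by_contra hcon
    push Not at hcon
    have h1 : E = E ⊔ D := Subgroup.eq_of_le_of_card_ge le_sup_left (by rw [hE2]; exact hcon)
    have h2 : D ≤ E := h1 ▸ le_sup_right
    have h3 : D = E := Subgroup.eq_of_le_of_card_ge h2 (by rw [hE2]; exact hDcard)
    have h4 : E ≤ B := by rw [← h3, hD]; exact inf_le_left
    have h5 : D = B := by
      rw [hD]; apply inf_eq_left.mpr
      intro b hb
      rw [Subgroup.mem_centralizer_iff]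
      intro x hx
      exact (isMulCommutative_iff B).mp hBc x (h4 hx) b hb
    have h6 : p ^ 3 = p ^ 2 := by rw [← hB3, ← h5, h3, hE2]
    have := Nat.pow_right_injective hpp.two_le h6
    omega
  obtain ⟨A, hAn, hYA, hA1, hA2, hA3⟩ := Cfsg.Agent.S1894.result hR ⊤ (E ⊔ D) le_top hYel.1
  refine ⟨A, le_sup_left.trans hYA, hAn, ?_, ?_⟩
  · rw [top_inf_eq] at hA3; exact hA3
  · intro h
    have h1 := h ((E ⊔ D).subgroupOf A) (elemAb_subgroupOf A hYel).1 (elemAb_subgroupOf A hYel).2
    have h2 : Nat.card ((E ⊔ D).subgroupOf A) = Nat.card (E ⊔ D : Subgroup R) :=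
      Nat.card_congr (Subgroup.subgroupOfEquivOfLe hYA).toEquiv
    omega

end Cfsg.Agent.S1452
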