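import Cfsg.Statements.S1453
import Cfsg.Agent.S0126
import Cfsg.Agent.S1452
import Cfsg.Agent.Lib.Helper1.RankTwo
import Cfsg.Agent.Lib.Helper9.Omega
import Cfsg.Agent.Lib.Helper4.Basic

set_option autoImplicit false
open Cfsg

namespace Cfsg.Agent.S1453
open Cfsg.Agent.Lib.Helper4

theorem comm_props {R : Type*} [Group R] {p : ℕ} {w : R} (hw : w ∈ Subgroup.upperCentralSeries R 2)
    (hwp : w ^ p = 1) (r : R) :
    w * r * w⁻¹ * r⁻¹ ∈ Subgroup.center R ∧ (w * r * w⁻¹ * r⁻¹) ^ p = 1 := by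
  have h1 : w * r * w⁻¹ * r⁻¹ ∈ Subgroup.center R := by
    rw [Subgroup.mem_upperCentralSeries_succ_iff] at hw
    have := hw r
    rwa [Subgroup.upperCentralSeries_one] at this
  refine ⟨h1, ?_⟩
  obtain ⟨c, hc⟩ : ∃ c, c = w * r * w⁻¹ * r⁻¹ := ⟨_, rfl⟩
  rw [← hc] at h1 ⊢
  have hcc : ∀ y, Commute c y := fun y => (Subgroup.mem_center_iff.mp h1 y).symm
  have hwr : w * r = c * r * w := by rw [hc]; group
  have := Cfsg.Agent.Lib.Helper9.pow_mul_comm_of_central hwr (hcc r) (hcc w) p
  rw [hwp, one_mul, mul_one] at this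
  exact mul_right_cancel (this.symm.trans (one_mul r).symm)

theorem mem_W {R : Type*} [Group R] {p : ℕ} [Fact p.Prime] (hp : p ≠ 2) (x : R) :
    x ∈ Subgroup.closure {x : R | x ∈ Subgroup.upperCentralSeries R 2 ∧ x ^ p = 1} ↔
      x ∈ Subgroup.upperCentralSeries R 2 ∧ x ^ p = 1 := by
  have hpp : p.Prime := Fact.out
  constructor
  · intro hx
    induction hx using Subgroup.closure_induction with
    | mem z hz => exact hz
    | one => exact ⟨Subgroup.one_mem _, one_pow p⟩
    | mul a b _ _ iha ihb =>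
      refine ⟨Subgroup.mul_mem _ iha.1 ihb.1, ?_⟩
      obtain ⟨h1, h2⟩ := comm_props ihb.1 ihb.2 a
      have hcc : ∀ y, Commute (b * a * b⁻¹ * a⁻¹) y := fun y => (Subgroup.mem_center_iff.mp h1 y).symm
      have hba : b * a = (b * a * b⁻¹ * a⁻¹) * a * b := by group
      rw [Cfsg.Agent.Lib.Helper9.mul_pow_of_central hba (hcc a) (hcc b) p, iha.2, ihb.2, mul_one, mul_one]
      have h2p : 2 < p := lt_of_le_of_ne hpp.two_le (Ne.symm hp)
      obtain ⟨m, hm⟩ := hpp.dvd_choose_self (by norm_num) h2p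
      rw [hm, pow_mul, h2, one_pow]
    | inv a _ iha => exact ⟨Subgroup.inv_mem _ iha.1, by rw [inv_pow, iha.2, inv_one]⟩
  · intro hx
    exact Subgroup.subset_closure hx

theorem mem_Zc {R : Type*} [Group R] {p : ℕ} (x : R) :
    x ∈ Subgroup.closure {x : R | x ∈ Subgroup.center R ∧ x ^ p = 1} ↔
      x ∈ Subgroup.center R ∧ x ^ p = 1 := by
  constructor
  · intro hx
    induction hx using Subgroup.closure_induction with
    | mem z hz => exact hz
    | one => exact ⟨Subgroup.one_mem _, one_pow p⟩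
    | mul a b _ _ iha ihb =>
      refine ⟨Subgroup.mul_mem _ iha.1 ihb.1, ?_⟩
      have : Commute a b := (Subgroup.mem_center_iff.mp iha.1 b).symm
      rw [this.mul_pow, iha.2, ihb.2, one_mul]
    | inv a _ iha => exact ⟨Subgroup.inv_mem _ iha.1, by rw [inv_pow, iha.2, inv_one]⟩
  · intro hx
    exact Subgroup.subset_closure hx

theorem eq_of_mem_not_mem {R : Type*} [Group R] [Finite R] {p : ℕ} [Fact p.Prime] {B D Z : Subgroup R}
    (hB : Nat.card B = p ^ 2) (hZ : Nat.card Z = p) (hZD : Z ≤ D) (hDB : D ≤ B) {b : R} (hbD : b ∈ D)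
    (hbZ : b ∉ Z) : D = B := by
  have hpp : p.Prime := Fact.out
  obtain ⟨i, hi, hic⟩ := (Nat.dvd_prime_pow hpp).mp (hB ▸ Subgroup.card_dvd_of_le hDB)
  have hi2 : i = 2 := by
    by_contra hne
    have hi1 : i ≤ 1 := by omega
    have : Nat.card D ≤ Nat.card Z := by
      rw [hic, hZ]
      calc p ^ i ≤ p ^ 1 := Nat.pow_le_pow_right hpp.pos hi1
        _ = p := pow_one p
    have h2 := Subgroup.eq_of_le_of_card_ge hZD this
    exact hbZ (h2 ▸ hbD)
  apply Subgroup.eq_of_le_of_card_ge hDB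
  rw [hB, hic, hi2]

theorem card_coset {R : Type*} [Group R] (Z : Subgroup R) (e : R) :
    Nat.card ({t : R | t * e⁻¹ ∈ Z} : Set R) = Nat.card Z :=
  Nat.card_congr (Equiv.subtypeEquiv (Equiv.mulRight e⁻¹) (fun _ => Iff.rfl))


/-- Let p be an odd prime and R a finite p-group with an elementary abelian subgroup of order p ^ 3 and an elementary abelian subgroup E of order p ^ 2 contained in no larger elementary abelian subgroup. Let Z₂ be the second centre of R, W the subgroup generated by the elements of Z₂ of order dividing p, and T = C_R(W). Then E is not contained in T; the elements of order dividing p of the centre of R generate a group of order p; W is elementary abelian of order p ^ 2; and T is characteristic in R of index p. -/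
theorem result {R : Type*} [Group R] [Finite R] (p : ℕ) [Fact p.Prime] (hp : p ≠ 2) (hR : IsPGroup p R) (hr : ¬ Cfsg.PRankLE p 2 R)
    (E : Subgroup R) (hE : Cfsg.IsElementaryAbelian p E) (hE2 : Nat.card E = p ^ 2)
    (hEmax : ∀ B : Subgroup R, Cfsg.IsElementaryAbelian p B → E ≤ B → B = E) :
    ¬ E ≤ Subgroup.centralizer ((Subgroup.closure {x : R | x ∈ Subgroup.upperCentralSeries R 2 ∧ x ^ p = 1} : Subgroup R) : Set R) ∧
      Nat.card ↥(Subgroup.closure {x : R | x ∈ Subgroup.center R ∧ x ^ p = 1}) = p ∧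
      (Cfsg.IsElementaryAbelian p (Subgroup.closure {x : R | x ∈ Subgroup.upperCentralSeries R 2 ∧ x ^ p = 1}) ∧
        Nat.card ↥(Subgroup.closure {x : R | x ∈ Subgroup.upperCentralSeries R 2 ∧ x ^ p = 1}) = p ^ 2) ∧
      (Subgroup.centralizer ((Subgroup.closure {x : R | x ∈ Subgroup.upperCentralSeries R 2 ∧ x ^ p = 1} : Subgroup R) : Set R)).Characteristic ∧
      (Subgroup.centralizer ((Subgroup.closure {x : R | x ∈ Subgroup.upperCentralSeries R 2 ∧ x ^ p = 1} : Subgroup R) : Set R)).index = p := by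
  have hpp : p.Prime := Fact.out
  obtain ⟨W, hW⟩ : ∃ W, W = Subgroup.closure {x : R | x ∈ Subgroup.upperCentralSeries R 2 ∧ x ^ p = 1} :=
    ⟨_, rfl⟩
  obtain ⟨Z, hZ⟩ : ∃ Z, Z = Subgroup.closure {x : R | x ∈ Subgroup.center R ∧ x ^ p = 1} := ⟨_, rfl⟩
  rw [← hW, ← hZ]
  have mW : ∀ x, x ∈ W ↔ x ∈ Subgroup.upperCentralSeries R 2 ∧ x ^ p = 1 := by
    intro x; rw [hW]; exact mem_W hp x
  have mZ : ∀ x, x ∈ Z ↔ x ∈ Subgroup.center R ∧ x ^ p = 1 := by
    intro x; rw [hZ]; exact mem_Zc x
  obtain ⟨A, hAc, hAe, hA⟩ : ∃ A : Subgroup R, IsMulCommutative A ∧ (∀ a ∈ A, a ^ p = 1) ∧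
      p ^ 2 < Nat.card A := by
    unfold Cfsg.PRankLE at hr
    push Not at hr
    exact hr
  have hEc : ∀ a ∈ E, ∀ b ∈ E, a * b = b * a := (isMulCommutative_iff E).mp hE.1
  have hE1 : ∀ x, x ^ p = 1 → (∀ e ∈ E, x * e = e * x) → x ∈ E := by
    intro x hx hc
    have hB : Cfsg.IsElementaryAbelian p (E ⊔ Subgroup.zpowers x) := by
      apply elemAb_sup hE (elemAb_zpowers hx)
      intro a ha b hb
      obtain ⟨n, rfl⟩ := Subgroup.mem_zpowers_iff.mp hb
      have h1 : Commute x a := hc a ha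
      exact (h1.zpow_left n).symm.eq
    have := hEmax _ hB le_sup_left
    rw [← this]
    exact (le_sup_right : Subgroup.zpowers x ≤ _) (Subgroup.mem_zpowers x)
  have hZcomm : ∀ z ∈ Z, ∀ y : R, z * y = y * z := by
    intro z hz y
    exact (Subgroup.mem_center_iff.mp ((mZ z).mp hz).1 y).symm
  have hZE : Z ≤ E := by
    intro z hz
    exact hE1 z ((mZ z).mp hz).2 (fun e _ => hZcomm z hz e)
  have hZW : Z ≤ W := by
    intro z hz
    rw [mW]
    refine ⟨?_, ((mZ z).mp hz).2⟩
    have : Subgroup.upperCentralSeries R 1 ≤ Subgroup.upperCentralSeries R 2 :=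
      Subgroup.upperCentralSeries_mono R (by norm_num)
    apply this
    rw [Subgroup.upperCentralSeries_one]
    exact ((mZ z).mp hz).1
  have hRnt : Nontrivial R := by
    by_contra hcon
    rw [not_nontrivial_iff_subsingleton] at hcon
    have : Nat.card E = 1 := Nat.card_eq_one_iff_unique.mpr ⟨inferInstance, ⟨1⟩⟩
    rw [hE2] at this
    have h4 : 2 ^ 2 ≤ p ^ 2 := Nat.pow_le_pow_left hpp.two_le 2
    omega
  have hZne : Z ≠ ⊥ := by
    have h1 : Nontrivial (Subgroup.center R) := hR.center_nontrivial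
    obtain ⟨k, hk⟩ := IsPGroup.iff_card.mp (hR.to_subgroup (Subgroup.center R))
    have hk0 : k ≠ 0 := by
      rintro rfl
      rw [pow_zero] at hk
      have := Finite.one_lt_card (α := Subgroup.center R)
      omega
    have hdvd : p ∣ Nat.card (Subgroup.center R) := by
      rw [hk]; exact dvd_pow_self p hk0
    obtain ⟨x, hx⟩ := exists_prime_orderOf_dvd_card' p hdvd
    intro hbot
    have hxZ : (x : R) ∈ Z := by
      rw [mZ]
      refine ⟨x.2, ?_⟩
      have : x ^ p = 1 := by rw [← hx]; exact pow_orderOf_eq_one x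
      have h2 := congrArg Subtype.val this
      simpa using h2
    rw [hbot, Subgroup.mem_bot] at hxZ
    have : x = 1 := Subtype.ext hxZ
    rw [this, orderOf_one] at hx
    exact hpp.one_lt.ne hx
  have hZp : Nat.card Z = p := by
    obtain ⟨i, hi, hic⟩ := (Nat.dvd_prime_pow hpp).mp (hE2 ▸ Subgroup.card_dvd_of_le hZE)
    have hi0 : i ≠ 0 := by
      rintro rfl
      rw [pow_zero] at hic
      exact hZne (Subgroup.card_eq_one.mp hic)
    have hi2 : i ≠ 2 := by
      rintro rfl
      have hZEeq : Z = E := Subgroup.eq_of_le_of_card_ge hZE (by rw [hE2, hic])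
      have hAE : A ≤ E := by
        intro a ha
        apply hE1 a (hAe a ha)
        intro e he
        exact (hZcomm e (hZEeq ▸ he) a).symm
      have := Subgroup.card_le_of_le hAE
      omega
    have : i = 1 := by omega
    rw [hic, this, pow_one]
  -- commutators
  have hcomm1 : ∀ w ∈ W, ∀ r : R, w * r * w⁻¹ * r⁻¹ ∈ Z := by
    intro w hw r
    rw [mZ]
    exact comm_props ((mW w).mp hw).1 ((mW w).mp hw).2 r
  have hcomm2 : ∀ w ∈ W, ∀ r : R, r * w * r⁻¹ * w⁻¹ ∈ Z := by
    intro w hw r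
    have := Z.inv_mem (hcomm1 w hw r)
    have e : (w * r * w⁻¹ * r⁻¹)⁻¹ = r * w * r⁻¹ * w⁻¹ := by group
    rwa [e] at this
  obtain ⟨e₀, he₀E, he₀Z⟩ : ∃ e₀ ∈ E, e₀ ∉ Z := by
    by_contra hcon
    push Not at hcon
    have : Nat.card E ≤ Nat.card Z := Subgroup.card_le_of_le hcon
    rw [hE2, hZp] at this
    have : p * p ≤ p * 1 := by rw [mul_one, ← pow_two]; exact this
    have := Nat.le_of_mul_le_mul_left this hpp.pos
    exact absurd hpp.one_lt (by omega)
  -- things commuting with e₀ of order p lie in E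
  have hE3 : ∀ x, x ^ p = 1 → x * e₀ = e₀ * x → x ∈ E := by
    intro x hx hc
    apply hE1 x hx
    have hD : E ⊓ Subgroup.centralizer ({x} : Set R) = E := by
      apply eq_of_mem_not_mem hE2 hZp (le_inf hZE ?_) inf_le_left (b := e₀) ?_ he₀Z
      · intro z hz
        rw [Subgroup.mem_centralizer_singleton_iff]
        exact hZcomm z hz x
      · refine Subgroup.mem_inf.mpr ⟨he₀E, ?_⟩
        rw [Subgroup.mem_centralizer_singleton_iff]
        exact hc.symm
    intro e he
    have : e ∈ E ⊓ Subgroup.centralizer ({x} : Set R) := by rw [hD]; exact he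
    exact (Subgroup.mem_centralizer_singleton_iff.mp (Subgroup.mem_inf.mp this).2).symm
  have hX : ¬ E ≤ W := by
    intro hEW
    have h1 := Cfsg.Agent.S1452.card_le_mul A e₀ {t : R | t * e₀⁻¹ ∈ Z}
      (fun b _ => hcomm2 e₀ (hEW he₀E) b)
    rw [card_coset, hZp] at h1
    have h2 : A ⊓ Subgroup.centralizer ({e₀} : Set R) ≤ E := by
      intro a ha
      exact hE3 a (hAe a ha.1) (Subgroup.mem_centralizer_singleton_iff.mp ha.2)
    obtain ⟨j, hj⟩ := IsPGroup.iff_card.mp (hR.to_subgroup A)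
    have hj3 : 3 ≤ j := by
      rw [hj] at hA
      have := (Nat.pow_lt_pow_iff_right hpp.one_lt).mp hA
      omega
    have h3 : p ^ 3 ≤ Nat.card A := by
      rw [hj]; exact Nat.pow_le_pow_right hpp.pos hj3
    have h4 : p ^ 2 ≤ Nat.card ↥(A ⊓ Subgroup.centralizer ({e₀} : Set R)) := by
      have : p * p ^ 2 ≤ p * Nat.card ↥(A ⊓ Subgroup.centralizer ({e₀} : Set R)) := by
        calc p * p ^ 2 = p ^ 3 := by ring
          _ ≤ _ := h3.trans h1
      exact Nat.le_of_mul_le_mul_left this hpp.pos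
    have h5 : A ⊓ Subgroup.centralizer ({e₀} : Set R) = E :=
      Subgroup.eq_of_le_of_card_ge h2 (by rw [hE2]; exact h4)
    have h6 : E ≤ A := h5 ▸ inf_le_left
    have h7 := hEmax A ⟨hAc, hAe⟩ h6
    rw [h7, hE2] at hA
    exact lt_irrefl _ hA
  -- a normal elementary abelian subgroup of order p^2
  have hnc : ¬ IsCyclic R := by
    intro hcyc
    have hEcyc : IsCyclic E := inferInstance
    obtain ⟨g, hg⟩ := hEcyc.exists_generator
    have h1 : orderOf g = Nat.card E := orderOf_eq_card_of_forall_mem_zpowers hg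
    have h2 : g ^ p = 1 := Subtype.ext (by simpa using hE.2 g g.2)
    have h3 := orderOf_le_of_pow_eq_one hpp.pos h2
    rw [h1, hE2] at h3
    have : p * p ≤ p * 1 := by rw [mul_one, ← pow_two]; exact h3
    have := Nat.le_of_mul_le_mul_left this hpp.pos
    exact absurd hpp.one_lt (by omega)
  obtain ⟨V, hVn, hVe, hV2⟩ := Cfsg.Agent.S0126.result hp hR hnc
  have hVW : V ≤ W := by
    intro v hv
    rw [mW]
    exact ⟨Cfsg.Agent.Lib.Helper1.le_upperCentralSeries_of_card hR 2 V hVn (le_of_eq hV2) hv, hVe.2 v hv⟩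
  have hWle : Nat.card W ≤ p ^ 2 := by
    have h1 := Cfsg.Agent.S1452.card_le_mul W e₀ {t : R | t * e₀⁻¹ ∈ Z}
      (fun b hb => hcomm1 b hb e₀)
    rw [card_coset, hZp] at h1
    have h2 : W ⊓ Subgroup.centralizer ({e₀} : Set R) ≤ E := by
      intro a ha
      exact hE3 a ((mW a).mp ha.1).2 (Subgroup.mem_centralizer_singleton_iff.mp ha.2)
    obtain ⟨i, hi, hic⟩ := (Nat.dvd_prime_pow hpp).mp (hE2 ▸ Subgroup.card_dvd_of_le h2)
    have hi2 : i ≠ 2 := by
      rintro rfl
      have h3 : W ⊓ Subgroup.centralizer ({e₀} : Set R) = E :=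
        Subgroup.eq_of_le_of_card_ge h2 (by rw [hE2, hic])
      exact hX (h3 ▸ inf_le_left)
    have hi1 : i ≤ 1 := by omega
    calc Nat.card W ≤ p * Nat.card ↥(W ⊓ Subgroup.centralizer ({e₀} : Set R)) := h1
      _ = p * p ^ i := by rw [hic]
      _ ≤ p * p ^ 1 := Nat.mul_le_mul_left p (Nat.pow_le_pow_right hpp.pos hi1)
      _ = p ^ 2 := by ring
  have hVWeq : V = W := Subgroup.eq_of_le_of_card_ge hVW (by rw [hV2]; exact hWle)
  have hW2 : Nat.card W = p ^ 2 := by rw [← hVWeq]; exact hV2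
  have hWe : Cfsg.IsElementaryAbelian p W := by rw [← hVWeq]; exact hVe
  have hWchar : W.Characteristic := by
    rw [Subgroup.characteristic_iff_le_comap]
    intro φ x hx
    rw [Subgroup.mem_comap, mW]
    rw [mW] at hx
    constructor
    · have h1 : (Subgroup.upperCentralSeries R 2).comap φ.toMonoidHom = Subgroup.upperCentralSeries R 2 :=
        Subgroup.Characteristic.fixed inferInstance φ
      have h2 : x ∈ (Subgroup.upperCentralSeries R 2).comap φ.toMonoidHom := by rw [h1]; exact hx.1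
      exact h2
    · show (φ x) ^ p = 1
      rw [← map_pow, hx.2, map_one]
  obtain ⟨w₁, hw₁W, hw₁Z⟩ : ∃ w₁ ∈ W, w₁ ∉ Z := by
    by_contra hcon
    push Not at hcon
    have : Nat.card W ≤ Nat.card Z := Subgroup.card_le_of_le hcon
    rw [hW2, hZp] at this
    have : p * p ≤ p * 1 := by rw [mul_one, ← pow_two]; exact this
    have := Nat.le_of_mul_le_mul_left this hpp.pos
    exact absurd hpp.one_lt (by omega)
  refine ⟨?_, hZp, ⟨hWe, hW2⟩, inferInstance, ?_⟩
  · intro hET
    have hWE : W ≤ E := by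
      intro w hw
      apply hE1 w ((mW w).mp hw).2
      intro e he
      exact Subgroup.mem_centralizer_iff.mp (hET he) w hw
    have : W = E := Subgroup.eq_of_le_of_card_ge hWE (by rw [hE2, hW2])
    exact hX (this ▸ le_refl _)
  · have h1 := Cfsg.Agent.S1452.card_le_mul (⊤ : Subgroup R) w₁ {t : R | t * w₁⁻¹ ∈ Z}
      (fun b _ => hcomm2 w₁ hw₁W b)
    rw [card_coset, hZp] at h1
    have h2 : (⊤ : Subgroup R) ⊓ Subgroup.centralizer ({w₁} : Set R) ≤ Subgroup.centralizer (W : Set R) := by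
      intro r hr
      have hrw : r * w₁ = w₁ * r := Subgroup.mem_centralizer_singleton_iff.mp hr.2
      have hD : W ⊓ Subgroup.centralizer ({r} : Set R) = W := by
        apply eq_of_mem_not_mem hW2 hZp (le_inf hZW ?_) inf_le_left (b := w₁) ?_ hw₁Z
        · intro z hz
          rw [Subgroup.mem_centralizer_singleton_iff]
          exact hZcomm z hz r
        · refine Subgroup.mem_inf.mpr ⟨hw₁W, ?_⟩
          rw [Subgroup.mem_centralizer_singleton_iff]
          exact hrw.symm
      rw [Subgroup.mem_centralizer_iff]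
      intro w hw
      have : w ∈ W ⊓ Subgroup.centralizer ({r} : Set R) := by rw [hD]; exact hw
      exact Subgroup.mem_centralizer_singleton_iff.mp (Subgroup.mem_inf.mp this).2
    have h3 : Nat.card R ≤ p * Nat.card ↥(Subgroup.centralizer (W : Set R)) := by
      calc Nat.card R = Nat.card (⊤ : Subgroup R) := (Subgroup.card_top).symm
        _ ≤ _ := h1
        _ ≤ _ := Nat.mul_le_mul_left p (Subgroup.card_le_of_le h2)
    have h4 : (Subgroup.centralizer (W : Set R)).index ≤ p := by
      rw [← (Subgroup.centralizer (W : Set R)).card_mul_index, mul_comm p] at h3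
      exact Nat.le_of_mul_le_mul_left h3 Nat.card_pos
    have h5 : (Subgroup.centralizer (W : Set R)).index ≠ 1 := by
      intro h
      rw [Subgroup.index_eq_one] at h
      apply hw₁Z
      rw [mZ]
      refine ⟨?_, ((mW w₁).mp hw₁W).2⟩
      rw [Subgroup.mem_center_iff]
      intro g
      have : g ∈ Subgroup.centralizer (W : Set R) := by rw [h]; exact Subgroup.mem_top g
      exact (Subgroup.mem_centralizer_iff.mp this w₁ hw₁W).symm
    obtain ⟨n, hn⟩ := hR.index (Subgroup.centralizer (W : Set R))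
    rw [hn] at h4 h5 ⊢
    have hn0 : n ≠ 0 := by
      rintro rfl
      exact h5 (pow_zero p)
    have hn1 : n ≤ 1 := by
      by_contra hcon
      have : p ^ 2 ≤ p ^ n := Nat.pow_le_pow_right hpp.pos (by omega)
      have h6 : p * p ≤ p * 1 := by rw [mul_one, ← pow_two]; exact this.trans h4
      have := Nat.le_of_mul_le_mul_left h6 hpp.pos
      exact absurd hpp.one_lt (by omega)
    have : n = 1 := by omega
    rw [this, pow_one]

end Cfsg.Agent.S1453
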