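import Cfsg.Statements.S4584
import Cfsg.Agent.Lib.Helper17.AbIndexP
import Cfsg.Agent.Lib.Helper22.Basic

set_option autoImplicit false
open Cfsg

namespace Cfsg.Agent.S4584

open Cfsg.Agent.Lib.Helper17 Cfsg.Agent.Lib.Helper4
open scoped commutatorElement

theorem exp_lt {P : Type*} [Group P] [Finite P] {p : ℕ} (hpp : p.Prime) {H K : Subgroup P} {i j : ℕ}
    (hH : Nat.card H = p ^ i) (hK : Nat.card K = p ^ j) (hle : H ≤ K) (hne : H ≠ K) : i < j := by
  by_contra h
  apply hne
  apply Subgroup.eq_of_le_of_card_ge hle
  rw [hH, hK]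
  exact Nat.pow_le_pow_right hpp.pos (by omega)

theorem zp_comm {P : Type*} [Group P] (x : P) : IsMulCommutative ↥(Subgroup.zpowers x) := by
  rw [Cfsg.Agent.Lib.Helper4.isMulCommutative_iff]
  intro a ha b hb
  obtain ⟨i, rfl⟩ := Subgroup.mem_zpowers_iff.mp ha
  obtain ⟨j, rfl⟩ := Subgroup.mem_zpowers_iff.mp hb
  exact zpow_mul_comm x i j

theorem ab_of {P : Type*} [Group P] [Finite P] {p : ℕ} (hpp : p.Prime) (n : ℕ)
    (hP : Nat.card P = p ^ n) (M W : Subgroup P)
    (hM : Nat.card M = p ^ 3) (hWM : W ≤ M) (hW : p ^ 2 ≤ Nat.card W)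
    (hc : ∀ w ∈ W, ∀ m ∈ M, w * m = m * w) : IsMulCommutative ↥M := by
  by_cases hle : M ≤ W
  · rw [Cfsg.Agent.Lib.Helper4.isMulCommutative_iff]
    intro a ha b hb
    exact hc a (hle ha) b hb
  · obtain ⟨m, hmM, hmW⟩ := SetLike.not_le_iff_exists.mp hle
    have hWc : IsMulCommutative ↥W := by
      rw [Cfsg.Agent.Lib.Helper4.isMulCommutative_iff]
      intro a ha b hb
      exact hc a ha b (hWM hb)
    have hcomm : ∀ a ∈ W, ∀ b ∈ Subgroup.zpowers m, a * b = b * a := by
      intro a ha b hb
      exact hc a ha b (Subgroup.zpowers_le.mpr hmM hb)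
    have hU := isMulCommutative_sup hWc (zp_comm m) hcomm
    have hUM : W ⊔ Subgroup.zpowers m ≤ M := sup_le hWM (Subgroup.zpowers_le.mpr hmM)
    obtain ⟨i, _, hi⟩ := (Nat.dvd_prime_pow hpp).mp (hP ▸ Subgroup.card_subgroup_dvd_card W)
    obtain ⟨j, _, hj⟩ := (Nat.dvd_prime_pow hpp).mp
      (hP ▸ Subgroup.card_subgroup_dvd_card (W ⊔ Subgroup.zpowers m))
    have h1 : i < j := exp_lt hpp hi hj le_sup_left (by
      intro h
      apply hmW
      rw [h]
      exact (le_sup_right : Subgroup.zpowers m ≤ _) (Subgroup.mem_zpowers m))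
    have h2 : 2 ≤ i := by
      rw [hi] at hW
      exact (Nat.pow_le_pow_iff_right hpp.one_lt).mp hW
    have h3 : W ⊔ Subgroup.zpowers m = M := by
      apply Subgroup.eq_of_le_of_card_ge hUM
      rw [hM, hj]
      exact Nat.pow_le_pow_right hpp.pos (by omega)
    rw [← h3]; exact hU

theorem key {P : Type*} [Group P] [Finite P] (p : ℕ) [hp : Fact p.Prime] (hP : Nat.card P = p ^ 4)
    (x : P) (hx : x ∉ Subgroup.center P)
    (hM : Nat.card (Subgroup.centralizer ({x} : Set P)) = p ^ 3) :
    (Subgroup.center P).index = p * Nat.card (commutator P) := by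
  have hpp := hp.out
  have hPp : IsPGroup p P := IsPGroup.of_card hP
  have hna : ¬ IsMulCommutative P := by
    intro h
    apply hx
    rw [Subgroup.mem_center_iff]
    intro g
    exact h.is_comm.comm g x
  haveI : Nontrivial P := by
    rw [← Finite.one_lt_card_iff_nontrivial, hP]
    exact Nat.one_lt_pow (by norm_num) hpp.one_lt
  haveI := hPp.center_nontrivial
  obtain ⟨i, _, hi⟩ := (Nat.dvd_prime_pow hpp).mp
    (hP ▸ Subgroup.card_subgroup_dvd_card (Subgroup.center P))
  have hi1 : 1 ≤ i := by
    by_contra h
    have h0 : i = 0 := by omega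
    rw [h0, pow_zero, Subgroup.card_eq_one] at hi
    exact (Subgroup.nontrivial_iff_ne_bot _).mp this hi
  obtain ⟨j, _, hj⟩ := (Nat.dvd_prime_pow hpp).mp
    (hP ▸ Subgroup.card_subgroup_dvd_card (Subgroup.center P ⊔ Subgroup.zpowers x))
  have hij : i < j := exp_lt hpp hi hj le_sup_left (by
    intro h
    apply hx
    rw [h]
    exact (le_sup_right : Subgroup.zpowers x ≤ _) (Subgroup.mem_zpowers x))
  have hWM : Subgroup.center P ⊔ Subgroup.zpowers x ≤ Subgroup.centralizer ({x} : Set P) := by
    apply sup_le
    · intro z hz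
      rw [Subgroup.mem_centralizer_singleton_iff]
      exact (Subgroup.mem_center_iff.mp hz x).symm
    · rw [Subgroup.zpowers_le, Subgroup.mem_centralizer_singleton_iff]
  have hc : ∀ w ∈ Subgroup.center P ⊔ Subgroup.zpowers x,
      ∀ m ∈ Subgroup.centralizer ({x} : Set P), w * m = m * w := by
    have h1 : Subgroup.center P ⊔ Subgroup.zpowers x
        ≤ Subgroup.centralizer ((Subgroup.centralizer ({x} : Set P) : Subgroup P) : Set P) := by
      apply sup_le
      · intro z hz
        rw [Subgroup.mem_centralizer_iff]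
        intro m _
        exact Subgroup.mem_center_iff.mp hz m
      · rw [Subgroup.zpowers_le, Subgroup.mem_centralizer_iff]
        intro m hm
        exact Subgroup.mem_centralizer_singleton_iff.mp hm
    intro w hw m hm
    exact (Subgroup.mem_centralizer_iff.mp (h1 hw) m hm).symm
  have hab := ab_of hpp 4 hP _ _ hM hWM (by
    rw [hj]; exact Nat.pow_le_pow_right hpp.pos (by omega)) hc
  have hidx : (Subgroup.centralizer ({x} : Set P)).index = p := by
    have h1 := Subgroup.card_mul_index (Subgroup.centralizer ({x} : Set P))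
    rw [hM, hP] at h1
    have h2 : p ^ 3 * (Subgroup.centralizer ({x} : Set P)).index = p ^ 3 * p := by rw [h1]; ring
    exact Nat.eq_of_mul_eq_mul_left (pow_pos hpp.pos 3) h2
  exact index_center_eq p hPp hna _ hab hidx

/-- Let p be a prime and P a group of order p^4. Then the derived subgroup P' has order p if and only if the centre Z(P) has index p^2 in P. -/
theorem result {P : Type*} [Group P] [Finite P] (p : ℕ) [Fact p.Prime] (hP : Nat.card P = p ^ 4) :
    Nat.card (commutator P) = p ↔ (Subgroup.center P).index = p ^ 2 := by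
  have hpp : p.Prime := Fact.out
  have hPp : IsPGroup p P := IsPGroup.of_card hP
  constructor
  · intro hD
    have hD1 : commutator P ≠ ⊥ := by
      intro h
      rw [h, Subgroup.card_bot] at hD
      exact hpp.one_lt.ne hD
    obtain ⟨x, hx⟩ : ∃ x, x ∉ Subgroup.center P := by
      by_contra hcon
      push Not at hcon
      apply hD1
      rw [eq_bot_iff, commutator_def, Subgroup.commutator_le]
      intro a _ b _
      rw [Subgroup.mem_bot, commutatorElement_eq_one_iff_mul_comm]
      exact (Subgroup.mem_center_iff.mp (hcon a) b).symm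
    have hidx : (Subgroup.centralizer ({x} : Set P)).index ≤ p := by
      rw [Cfsg.Agent.Lib.Helper22.index_centralizer_eq_card_isConj, ← hD]
      apply Nat.card_le_card_of_injective
        (fun y : {y : P // IsConj x y} => (⟨y.1 * x⁻¹, by
          obtain ⟨c, hc⟩ := isConj_iff.mp y.2
          rw [← hc]
          exact Subgroup.commutator_mem_commutator (Subgroup.mem_top c) (Subgroup.mem_top x)⟩ :
            ↥(commutator P)))
      intro a b hab
      have h1 := congrArg Subtype.val hab
      exact Subtype.ext (mul_right_cancel h1)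
    have hM : Nat.card (Subgroup.centralizer ({x} : Set P)) = p ^ 3 := by
      obtain ⟨k, hk, hkc⟩ := (Nat.dvd_prime_pow hpp).mp
        (hP ▸ Subgroup.card_subgroup_dvd_card (Subgroup.centralizer ({x} : Set P)))
      have h1 := Subgroup.card_mul_index (Subgroup.centralizer ({x} : Set P))
      have hk4 : k ≠ 4 := by
        rintro rfl
        apply hx
        have h2 : Subgroup.centralizer ({x} : Set P) = ⊤ :=
          Subgroup.eq_top_of_card_eq _ (by rw [hkc, hP])
        rw [Subgroup.mem_center_iff]
        intro g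
        have h3 : g ∈ Subgroup.centralizer ({x} : Set P) := by rw [h2]; trivial
        exact Subgroup.mem_centralizer_singleton_iff.mp h3
      have hk3 : 3 ≤ k := by
        by_contra h
        have h2 : p ^ 4 ≤ p ^ k * p := by
          rw [← hP, ← h1, hkc]
          exact Nat.mul_le_mul_left _ hidx
        rw [← pow_succ] at h2
        have h3 := (Nat.pow_le_pow_iff_right hpp.one_lt).mp h2
        omega
      have : k = 3 := by omega
      rw [hkc, this]
    rw [key p hP x hx hM, hD]; ring
  · intro hZ
    have hZc : Nat.card (Subgroup.center P) = p ^ 2 := by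
      have h1 := Subgroup.card_mul_index (Subgroup.center P)
      rw [hZ, hP] at h1
      have h2 : Nat.card (Subgroup.center P) * p ^ 2 = p ^ 2 * p ^ 2 := by rw [h1]; ring
      exact Nat.eq_of_mul_eq_mul_right (pow_pos hpp.pos 2) h2
    obtain ⟨x, hx⟩ : ∃ x, x ∉ Subgroup.center P := by
      by_contra hcon
      push Not at hcon
      have h1 : Subgroup.center P = ⊤ := eq_top_iff.mpr fun y _ => hcon y
      rw [h1, Subgroup.index_top] at hZ
      have := Nat.one_lt_pow (n := 2) (by norm_num) hpp.one_lt
      omega
    have hM : Nat.card (Subgroup.centralizer ({x} : Set P)) = p ^ 3 := by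
      obtain ⟨k, hk, hkc⟩ := (Nat.dvd_prime_pow hpp).mp
        (hP ▸ Subgroup.card_subgroup_dvd_card (Subgroup.centralizer ({x} : Set P)))
      have hk4 : k ≠ 4 := by
        rintro rfl
        apply hx
        have h2 : Subgroup.centralizer ({x} : Set P) = ⊤ :=
          Subgroup.eq_top_of_card_eq _ (by rw [hkc, hP])
        rw [Subgroup.mem_center_iff]
        intro g
        have h3 : g ∈ Subgroup.centralizer ({x} : Set P) := by rw [h2]; trivial
        exact Subgroup.mem_centralizer_singleton_iff.mp h3
      have hk3 : 2 < k := by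
        apply exp_lt hpp hZc hkc
        · intro z hz
          rw [Subgroup.mem_centralizer_singleton_iff]
          exact (Subgroup.mem_center_iff.mp hz x).symm
        · intro h
          apply hx
          rw [h, Subgroup.mem_centralizer_singleton_iff]
      have : k = 3 := by omega
      rw [hkc, this]
    have h1 := key p hP x hx hM
    rw [hZ] at h1
    have h2 : p * p = p * Nat.card (commutator P) := by rw [← h1]; ring
    exact (Nat.eq_of_mul_eq_mul_left hpp.pos h2).symm

end Cfsg.Agent.S4584
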