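import Cfsg.Statements.S4585
import Cfsg.Agent.S4584

set_option autoImplicit false
open Cfsg

namespace Cfsg.Agent.S4585

open Cfsg.Agent.Lib.Helper17 Cfsg.Agent.Lib.Helper4
open scoped commutatorElement

theorem comm_le_of_sup {P : Type*} [Group P] {E : Subgroup P} (hE : IsMulCommutative ↥E)
    (hsup : E ⊔ commutator P = ⊤) : commutator P ≤ (⊤ : Subgroup P).lowerCentralSeries 2 := by
  haveI hTn : ((⊤ : Subgroup P).lowerCentralSeries 2).Normal := inferInstance
  have hcen : ∀ c ∈ commutator P, ∀ g : P,
      Commute (QuotientGroup.mk' ((⊤ : Subgroup P).lowerCentralSeries 2) c)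
        (QuotientGroup.mk' ((⊤ : Subgroup P).lowerCentralSeries 2) g) := by
    intro c hc g
    have h1 : ⁅c, g⁆ ∈ (⊤ : Subgroup P).lowerCentralSeries 2 :=
      Subgroup.commutator_mem_commutator (by rw [Subgroup.top_lowerCentralSeries_one]; exact hc)
        (Subgroup.mem_top g)
    have h2 : QuotientGroup.mk' ((⊤ : Subgroup P).lowerCentralSeries 2) ⁅c, g⁆ = 1 :=
      (QuotientGroup.eq_one_iff _).mpr h1
    rw [map_commutatorElement, commutatorElement_eq_one_iff_mul_comm] at h2
    exact h2
  rw [commutator_def, Subgroup.commutator_le]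
  intro x _ y _
  have hx' : x ∈ ((E ⊔ commutator P : Subgroup P) : Set P) := by rw [hsup]; trivial
  have hy' : y ∈ ((E ⊔ commutator P : Subgroup P) : Set P) := by rw [hsup]; trivial
  rw [Subgroup.mul_normal] at hx' hy'
  obtain ⟨e1, he1, c1, hc1, rfl⟩ := Set.mem_mul.mp hx'
  obtain ⟨e2, he2, c2, hc2, rfl⟩ := Set.mem_mul.mp hy'
  rw [← QuotientGroup.eq_one_iff]
  change QuotientGroup.mk' ((⊤ : Subgroup P).lowerCentralSeries 2) _ = 1
  rw [map_commutatorElement, commutatorElement_eq_one_iff_mul_comm, map_mul, map_mul]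
  have hee : Commute (QuotientGroup.mk' ((⊤ : Subgroup P).lowerCentralSeries 2) e1)
      (QuotientGroup.mk' ((⊤ : Subgroup P).lowerCentralSeries 2) e2) := by
    have h3 : e1 * e2 = e2 * e1 := by
      have := hE.is_comm.comm (⟨e1, he1⟩ : ↥E) ⟨e2, he2⟩
      exact congrArg Subtype.val this
    have h4 : Commute e1 e2 := h3
    exact h4.map _
  exact Commute.mul_left (Commute.mul_right hee (hcen c2 hc2 e1).symm)
    (Commute.mul_right (hcen c1 hc1 e2) (hcen c1 hc1 c2))

theorem lcs_strict {P : Type*} [Group P] [Group.IsNilpotent P] (i : ℕ)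
    (h : (⊤ : Subgroup P).lowerCentralSeries (i + 1) = (⊤ : Subgroup P).lowerCentralSeries i) :
    (⊤ : Subgroup P).lowerCentralSeries i = ⊥ := by
  have h1 : ∀ k : ℕ, (⊤ : Subgroup P).lowerCentralSeries (i + k)
      = (⊤ : Subgroup P).lowerCentralSeries i := by
    intro k
    induction k with
    | zero => rfl
    | succ k ih =>
      rw [← add_assoc, Subgroup.lowerCentralSeries_succ, ih, ← Subgroup.lowerCentralSeries_succ, h]
  rw [← h1 (Group.nilpotencyClass P), eq_bot_iff,
    ← Subgroup.lowerCentralSeries_nilpotencyClass (G := P)]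
  exact (⊤ : Subgroup P).lowerCentralSeries_antitone (Nat.le_add_left _ _)

/-- Let p be a prime and P a group of order p^4. Then P' has index p^2 in P if and only if P has maximal nilpotency class, that is, nilpotency class exactly 3. -/
theorem result {P : Type*} [Group P] [Finite P] (p : ℕ) [Fact p.Prime] (hP : Nat.card P = p ^ 4) :
    (commutator P).index = p ^ 2 ↔ Group.nilpotencyClass P = 3 := by
  have hpp : p.Prime := Fact.out
  have hPp : IsPGroup p P := IsPGroup.of_card hP
  haveI : Group.IsNilpotent P := hPp.isNilpotent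
  have hexp : ∀ H : Subgroup P, ∃ e, e ≤ 4 ∧ Nat.card H = p ^ e := fun H =>
    (Nat.dvd_prime_pow hpp).mp (hP ▸ Subgroup.card_subgroup_dvd_card H)
  obtain ⟨e1, he1, hc1⟩ := hexp ((⊤ : Subgroup P).lowerCentralSeries 1)
  obtain ⟨e2, he2, hc2⟩ := hexp ((⊤ : Subgroup P).lowerCentralSeries 2)
  obtain ⟨e3, he3, hc3⟩ := hexp ((⊤ : Subgroup P).lowerCentralSeries 3)
  have hanti := (⊤ : Subgroup P).lowerCentralSeries_antitone
  have hbot : ∀ (H : Subgroup P) (e : ℕ), Nat.card H = p ^ e → (H = ⊥ ↔ e = 0) := by
    intro H e he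
    constructor
    · intro h
      rw [h, Subgroup.card_bot] at he
      by_contra h0
      have := Nat.one_lt_pow h0 hpp.one_lt
      omega
    · rintro rfl
      rw [pow_zero] at he
      exact Subgroup.card_eq_one.mp he
  have hidx : (commutator P).index = p ^ 2 ↔ e1 = 2 := by
    rw [← Subgroup.top_lowerCentralSeries_one]
    have h1 := Subgroup.card_mul_index ((⊤ : Subgroup P).lowerCentralSeries 1)
    rw [hc1, hP] at h1
    constructor
    · intro h
      rw [h, ← pow_add] at h1
      have := Nat.pow_right_injective hpp.two_le h1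
      omega
    · rintro rfl
      have h2 : p ^ 2 * ((⊤ : Subgroup P).lowerCentralSeries 1).index = p ^ 2 * p ^ 2 := by
        rw [h1]; ring
      exact Nat.eq_of_mul_eq_mul_left (pow_pos hpp.pos 2) h2
  have hcls : Group.nilpotencyClass P = 3 ↔ (e3 = 0 ∧ e2 ≠ 0) := by
    rw [← hbot _ _ hc3, Ne, ← hbot _ _ hc2, Subgroup.lowerCentralSeries_eq_bot_iff_nilpotencyClass_le,
      Subgroup.lowerCentralSeries_eq_bot_iff_nilpotencyClass_le]
    omega
  have hstep12 : e1 ≠ 0 → e2 < e1 := by
    intro h
    apply Cfsg.Agent.S4584.exp_lt hpp hc2 hc1 (hanti (by norm_num))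
    intro heq
    exact h ((hbot _ _ hc1).mp (lcs_strict 1 heq))
  have hstep23 : e2 ≠ 0 → e3 < e2 := by
    intro h
    apply Cfsg.Agent.S4584.exp_lt hpp hc3 hc2 (hanti (by norm_num))
    intro heq
    exact h ((hbot _ _ hc2).mp (lcs_strict 2 heq))
  have hle23 : e3 ≤ e2 := by
    have h1 := Subgroup.card_le_of_le (hanti (show 2 ≤ 3 by norm_num))
    rw [hc3, hc2] at h1
    exact (Nat.pow_le_pow_iff_right hpp.one_lt).mp h1
  have hle12 : e2 ≤ e1 := by
    have h1 := Subgroup.card_le_of_le (hanti (show 1 ≤ 2 by norm_num))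
    rw [hc2, hc1] at h1
    exact (Nat.pow_le_pow_iff_right hpp.one_lt).mp h1
  rw [hidx, hcls]
  constructor
  · rintro rfl
    have h2 : e2 < 2 := hstep12 (by norm_num)
    have he20 : e2 ≠ 0 := by
      intro h0
      have hb : (⊤ : Subgroup P).lowerCentralSeries 2 = ⊥ := (hbot _ _ hc2).mpr h0
      have hDZ : commutator P ≤ Subgroup.center P := by
        intro d hd
        rw [Subgroup.mem_center_iff]
        intro g
        have h3 : ⁅d, g⁆ ∈ (⊤ : Subgroup P).lowerCentralSeries 2 :=
          Subgroup.commutator_mem_commutator (by rw [Subgroup.top_lowerCentralSeries_one]; exact hd)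
            (Subgroup.mem_top g)
        rw [hb, Subgroup.mem_bot, commutatorElement_eq_one_iff_mul_comm] at h3
        exact h3.symm
      have hDc : Nat.card (commutator P) = p ^ 2 := by
        rw [← Subgroup.top_lowerCentralSeries_one]; exact hc1
      have hna : ¬ IsMulCommutative P := by
        intro h
        have h4 : commutator P = ⊥ := by
          rw [eq_bot_iff, commutator_def, Subgroup.commutator_le]
          intro a _ b _
          rw [Subgroup.mem_bot, commutatorElement_eq_one_iff_mul_comm]
          exact h.is_comm.comm a b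
        rw [h4, Subgroup.card_bot] at hDc
        have := Nat.one_lt_pow (n := 2) (by norm_num) hpp.one_lt
        omega
      have h5 : (Subgroup.center P).index ∣ p ^ 2 := by
        have h6 := Subgroup.index_dvd_of_le hDZ
        rwa [hidx.mpr rfl] at h6
      obtain ⟨i, hi, hic⟩ := (Nat.dvd_prime_pow hpp).mp h5
      have hcases : i = 0 ∨ i = 1 ∨ i = 2 := by omega
      rcases hcases with rfl | rfl | rfl
      · rw [pow_zero, Subgroup.index_eq_one] at hic
        apply hna
        refine ⟨⟨fun a b => ?_⟩⟩
        have h7 : b ∈ Subgroup.center P := by rw [hic]; trivial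
        exact Subgroup.mem_center_iff.mp h7 a
      · rw [pow_one] at hic
        apply hna
        haveI : IsCyclic (P ⧸ Subgroup.center P) :=
          isCyclic_of_prime_card (p := p) (by rw [← Subgroup.index_eq_card]; exact hic)
        exact isMulCommutative_of_isCyclic_quotient_center_self P
      · have h8 := (Cfsg.Agent.S4584.result p hP).mpr hic
        rw [hDc] at h8
        have h9 : p ^ 2 = p ^ 1 := by rw [pow_one]; exact h8
        have := Nat.pow_right_injective hpp.two_le h9
        omega
    have h3 := hstep23 he20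
    exact ⟨by omega, he20⟩
  · rintro ⟨rfl, he20⟩
    have he10 : e1 ≠ 0 := by omega
    have h12 := hstep12 he10
    have he14 : e1 ≠ 4 := by
      rintro rfl
      have h1 : (⊤ : Subgroup P).lowerCentralSeries 1 = ⊤ :=
        Subgroup.eq_top_of_card_eq _ (by rw [hc1, hP])
      have h2 := lcs_strict (P := P) 0 (by rw [zero_add, h1]; rfl)
      rw [Subgroup.lowerCentralSeries_zero] at h2
      exact he10 ((hbot _ _ hc1).mp (h1.trans h2))
    have he13 : e1 ≠ 3 := by
      rintro rfl
      have hDi : (commutator P).index = p := by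
        rw [← Subgroup.top_lowerCentralSeries_one]
        have h1 := Subgroup.card_mul_index ((⊤ : Subgroup P).lowerCentralSeries 1)
        rw [hc1, hP] at h1
        have h2 : p ^ 3 * ((⊤ : Subgroup P).lowerCentralSeries 1).index = p ^ 3 * p := by
          rw [h1]; ring
        exact Nat.eq_of_mul_eq_mul_left (pow_pos hpp.pos 3) h2
      obtain ⟨x, hx⟩ : ∃ x, x ∉ commutator P := by
        by_contra hcon
        push Not at hcon
        have : commutator P = ⊤ := eq_top_iff.mpr fun y _ => hcon y
        rw [this, Subgroup.index_top] at hDi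
        exact hpp.one_lt.ne hDi
      have hsup := sup_zpowers_eq_top (commutator P) hDi hx
      rw [sup_comm] at hsup
      have h3 := comm_le_of_sup (Cfsg.Agent.S4584.zp_comm x) hsup
      rw [← Subgroup.top_lowerCentralSeries_one] at h3
      have h4 := Subgroup.card_le_of_le h3
      rw [hc1, hc2] at h4
      have := (Nat.pow_le_pow_iff_right hpp.one_lt).mp h4
      omega
    omega

end Cfsg.Agent.S4585
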