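import Cfsg.Statements.S1459
import Cfsg.Agent.S4585
import Cfsg.Agent.S0055
import Cfsg.Agent.Lib.Helper1.Coprime
import Cfsg.Agent.Lib.Helper17.Cores

set_option autoImplicit false
open Cfsg

namespace Cfsg.Agent.S1459

open Cfsg.Agent.Lib.Helper17 Cfsg.Agent.Lib.Helper4
open scoped commutatorElement

theorem comm_prod {Q : Type*} [Group Q] {a b c d : Q} (cba : Commute b a) (cbc : Commute b c)
    (cda : Commute d a) (cdc : Commute d c) : ⁅a * b, c * d⁆ = ⁅a, c⁆ * ⁅b, d⁆ := by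
  have h1 : (b * d * b⁻¹) * a⁻¹ = a⁻¹ * (b * d * b⁻¹) :=
    ((cba.mul_left cda).mul_left cba.inv_left).inv_right
  have h2 : (b * d * b⁻¹ * d⁻¹) * c⁻¹ = c⁻¹ * (b * d * b⁻¹ * d⁻¹) :=
    (((cbc.mul_left cdc).mul_left cbc.inv_left).mul_left cdc.inv_left).inv_right
  have hbc : b * c = c * b := cbc
  simp only [commutatorElement_def]
  calc a * b * (c * d) * (a * b)⁻¹ * (c * d)⁻¹
      = a * (b * c) * (d * b⁻¹) * a⁻¹ * d⁻¹ * c⁻¹ := by group
    _ = a * (c * b) * (d * b⁻¹) * a⁻¹ * d⁻¹ * c⁻¹ := by rw [hbc]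
    _ = a * c * ((b * d * b⁻¹) * a⁻¹) * d⁻¹ * c⁻¹ := by group
    _ = a * c * (a⁻¹ * (b * d * b⁻¹)) * d⁻¹ * c⁻¹ := by rw [h1]
    _ = a * c * a⁻¹ * ((b * d * b⁻¹ * d⁻¹) * c⁻¹) := by group
    _ = a * c * a⁻¹ * (c⁻¹ * (b * d * b⁻¹ * d⁻¹)) := by rw [h2]
    _ = a * c * a⁻¹ * c⁻¹ * (b * d * b⁻¹ * d⁻¹) := by group

theorem partA1 {G : Type*} [Group G] [Finite G] [Group.IsSolvable G] (H K : Subgroup G)
    [hHn : H.Normal] (hsup : H ⊔ K = ⊤) (hcop : (Nat.card H).Coprime (Nat.card K))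
    (hHG : H ≤ commutator G) : H ≤ ⁅H, K⁆ := by
  have hKH : K ≤ Subgroup.normalizer (H : Set G) := by
    rw [Subgroup.normalizer_eq_top_iff.mpr hHn]; exact le_top
  haveI hRn : (⁅H, K⁆).Normal :=
    normal_of_normalizer_ge (Cfsg.Agent.Lib.Helper1.le_normalizer_commutator_left H K)
      (Cfsg.Agent.Lib.Helper1.le_normalizer_commutator_right hKH) hsup
  have hsurj := QuotientGroup.mk'_surjective ⁅H, K⁆
  obtain ⟨Hb, hHb⟩ : ∃ Hb, Hb = H.map (QuotientGroup.mk' ⁅H, K⁆) := ⟨_, rfl⟩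
  obtain ⟨Kb, hKb⟩ : ∃ Kb, Kb = K.map (QuotientGroup.mk' ⁅H, K⁆) := ⟨_, rfl⟩
  haveI hHbn : Hb.Normal := by rw [hHb]; exact Subgroup.Normal.map hHn _ hsurj
  have hcomm : ∀ a ∈ Hb, ∀ b ∈ Kb, Commute b a := by
    rw [hHb, hKb]
    rintro _ ⟨h, hh, rfl⟩ _ ⟨k, hk, rfl⟩
    have h1 : ⁅h, k⁆ ∈ ⁅H, K⁆ := Subgroup.commutator_mem_commutator hh hk
    have h2 : QuotientGroup.mk' ⁅H, K⁆ ⁅h, k⁆ = 1 := (QuotientGroup.eq_one_iff _).mpr h1
    rw [map_commutatorElement, commutatorElement_eq_one_iff_mul_comm] at h2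
    exact h2.symm
  have htop : ∀ x : G ⧸ ⁅H, K⁆, ∃ a ∈ Hb, ∃ b ∈ Kb, x = a * b := by
    intro x
    obtain ⟨g, rfl⟩ := hsurj x
    have hg : g ∈ ((H ⊔ K : Subgroup G) : Set G) := by rw [hsup]; trivial
    rw [Subgroup.normal_mul] at hg
    obtain ⟨h, hh, k, hk, rfl⟩ := Set.mem_mul.mp hg
    exact ⟨_, hHb ▸ ⟨h, hh, rfl⟩, _, hKb ▸ ⟨k, hk, rfl⟩, map_mul _ h k⟩
  have hcq : commutator (G ⧸ ⁅H, K⁆) ≤ ⁅Hb, Hb⁆ ⊔ Kb := by
    rw [commutator_def, Subgroup.commutator_le]
    intro x _ y _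
    obtain ⟨a, ha, b, hb, rfl⟩ := htop x
    obtain ⟨c, hc, d, hd, rfl⟩ := htop y
    rw [comm_prod (hcomm a ha b hb) (hcomm c hc b hb) (hcomm a ha d hd) (hcomm c hc d hd)]
    apply Subgroup.mul_mem_sup (Subgroup.commutator_mem_commutator ha hc)
    rw [commutatorElement_def]
    exact Kb.mul_mem (Kb.mul_mem (Kb.mul_mem hb hd) (Kb.inv_mem hb)) (Kb.inv_mem hd)
  have hHq : Hb ≤ commutator (G ⧸ ⁅H, K⁆) := by
    have h1 : commutator (G ⧸ ⁅H, K⁆) = (commutator G).map (QuotientGroup.mk' ⁅H, K⁆) := by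
      rw [commutator_def, commutator_def, Subgroup.map_commutator,
        Subgroup.map_top_of_surjective _ hsurj]
    rw [h1, hHb]; exact Subgroup.map_mono hHG
  have hdisj : Hb ⊓ Kb = ⊥ := by
    apply Disjoint.eq_bot
    apply Subgroup.disjoint_of_coprime_natCard
    rw [hHb, hKb]
    exact Nat.Coprime.of_dvd (Subgroup.card_map_dvd _ _) (Subgroup.card_map_dvd _ _) hcop
  have hded := inf_sup_eq_of_le_of_normal ⁅Hb, Hb⁆ Hb Kb (Subgroup.commutator_le_self Hb)
  rw [hdisj, sup_bot_eq] at hded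
  have hle : Hb ≤ ⁅Hb, Hb⁆ := by
    rw [← hded]; exact le_inf le_rfl (hHq.trans hcq)
  have hbot : Hb = ⊥ := by
    by_contra hne
    exact absurd hle (not_le_of_gt (Group.IsSolvable.commutator_lt_of_ne_bot hne))
  rw [hHb, Subgroup.map_eq_bot_iff, QuotientGroup.ker_mk'] at hbot
  exact hbot

theorem partA2 {G : Type*} [Group G] [Finite G] (H K : Subgroup G)
    [hHn : H.Normal] (hcop : (Nat.card H).Coprime (Nat.card K))
    (hHK : H = ⁅H, K⁆) : H ⊓ Subgroup.centralizer (K : Set G) ≤ ⁅H, H⁆ := by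
  have hsurj := QuotientGroup.mk'_surjective ⁅H, H⁆
  obtain ⟨V, hV⟩ : ∃ V, V = H.map (QuotientGroup.mk' ⁅H, H⁆) := ⟨_, rfl⟩
  obtain ⟨A, hA⟩ : ∃ A, A = K.map (QuotientGroup.mk' ⁅H, H⁆) := ⟨_, rfl⟩
  haveI hVn : V.Normal := by rw [hV]; exact Subgroup.Normal.map hHn _ hsurj
  haveI hVc : IsMulCommutative ↥V := by
    rw [Cfsg.Agent.Lib.Helper4.isMulCommutative_iff, hV]
    rintro _ ⟨n, hn, rfl⟩ _ ⟨m, hm, rfl⟩
    have h1 : ⁅n, m⁆ ∈ ⁅H, H⁆ := Subgroup.commutator_mem_commutator hn hm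
    have h2 : QuotientGroup.mk' ⁅H, H⁆ ⁅n, m⁆ = 1 := (QuotientGroup.eq_one_iff _).mpr h1
    rw [map_commutatorElement, commutatorElement_eq_one_iff_mul_comm] at h2
    exact h2
  have hAV : A ≤ Subgroup.normalizer (V : Set (G ⧸ ⁅H, H⁆)) := by
    rw [Subgroup.normalizer_eq_top_iff.mpr hVn]; exact le_top
  have hcop' : (Nat.card A).Coprime (Nat.card V) := by
    rw [hA, hV]
    exact Nat.Coprime.of_dvd (Subgroup.card_map_dvd _ _) (Subgroup.card_map_dvd _ _) hcop.symm
  have h55 := (Cfsg.Agent.S0055.result A V hAV hcop').1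
  have hVA : ⁅V, A⁆ = V := by
    rw [hV, hA, ← Subgroup.map_commutator, ← hHK]
  rw [hVA] at h55
  intro c hc
  obtain ⟨hcH, hcK⟩ := Subgroup.mem_inf.mp hc
  have h1 : QuotientGroup.mk' ⁅H, H⁆ c ∈ (V ⊓ Subgroup.centralizer (A : Set (G ⧸ ⁅H, H⁆))) ⊓ V := by
    have hcV : QuotientGroup.mk' ⁅H, H⁆ c ∈ V := hV ▸ ⟨c, hcH, rfl⟩
    refine Subgroup.mem_inf.mpr ⟨Subgroup.mem_inf.mpr ⟨hcV, ?_⟩, hcV⟩
    rw [Subgroup.mem_centralizer_iff, hA]
    rintro _ ⟨k, hk, rfl⟩
    rw [← map_mul, ← map_mul, Subgroup.mem_centralizer_iff.mp hcK k hk]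
  rw [h55, Subgroup.mem_bot] at h1
  exact (QuotientGroup.eq_one_iff c).mp h1

theorem comm_eq_bot {X : Type*} [Group X] [Finite X] {q : ℕ} [hq : Fact q.Prime] (hX : IsPGroup q X)
    (hidx : (commutator X).index ∣ q) : commutator X = ⊥ := by
  haveI : Group.IsNilpotent X := hX.isNilpotent
  rcases (Nat.dvd_prime hq.out).mp hidx with h | h
  · rw [Subgroup.index_eq_one] at h
    have h2 := Cfsg.Agent.S4585.lcs_strict (P := X) 0 (by
      rw [zero_add, Subgroup.top_lowerCentralSeries_one, h]; rfl)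
    rw [Subgroup.lowerCentralSeries_zero] at h2
    rw [h, h2]
  · obtain ⟨x, hx⟩ : ∃ x, x ∉ commutator X := by
      by_contra hcon
      push Not at hcon
      have : commutator X = ⊤ := eq_top_iff.mpr fun y _ => hcon y
      rw [this, Subgroup.index_top] at h
      exact hq.out.one_lt.ne h
    have hsup := sup_zpowers_eq_top (commutator X) h hx
    rw [sup_comm] at hsup
    have h3 := Cfsg.Agent.S4585.comm_le_of_sup (Cfsg.Agent.S4584.zp_comm x) hsup
    rw [← Subgroup.top_lowerCentralSeries_one] at h3 ⊢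
    apply Cfsg.Agent.S4585.lcs_strict 1
    exact le_antisymm ((⊤ : Subgroup X).lowerCentralSeries_antitone (by norm_num)) h3

theorem partB1 {G : Type*} [Group G] [Finite G] (hnil : Group.IsNilpotent ↥(commutator G))
    (hprime : (commutator G).index.Prime) :
    (Nat.card ↥(commutator G)).Coprime (commutator G).index := by
  obtain ⟨q, hqdef⟩ : ∃ q, q = (commutator G).index := ⟨_, rfl⟩
  rw [← hqdef] at hprime ⊢
  haveI : Fact q.Prime := ⟨hprime⟩
  haveI hKn : (Cfsg.pPrimeCore q G).Normal :=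
    haveI := pPrimeCore_characteristic (G := G) q
    inferInstance
  -- the index of the `q'`-core of the derived group is a power of `q`
  have hpow : ∃ a, (Cfsg.pPrimeCore q ↥(commutator G)).index = q ^ a := by
    refine ⟨_, Nat.eq_prime_pow_of_unique_prime_dvd Subgroup.index_ne_zero_of_finite ?_⟩
    intro r hr hrd
    by_contra hrq
    haveI : Fact r.Prime := ⟨hr⟩
    obtain ⟨R⟩ : Nonempty (Sylow r ↥(commutator G)) := inferInstance
    have hRn : (R : Subgroup ↥(commutator G)).Normal := Sylow.normal_of_all_max_subgroups_normal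
      (fun M hM => Subgroup.NormalizerCondition.normal_of_coatom M
        (normalizerCondition_of_isNilpotent) hM) R
    have hRc : (Nat.card (R : Subgroup ↥(commutator G))).Coprime q := by
      obtain ⟨k, hk⟩ := IsPGroup.iff_card.mp R.2
      rw [hk]
      exact Nat.Coprime.pow_left k ((Nat.coprime_primes hr hprime).mpr hrq)
    have hle := le_pPrimeCore hRn hRc
    exact R.not_dvd_index (hrd.trans (Subgroup.index_dvd_of_le hle))
  obtain ⟨a, ha⟩ := hpow
  have hR0 := pPrimeCore_normal_le q (commutator G)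
  have hidx : (Cfsg.pPrimeCore q G).index ∣ q ^ (a + 1) := by
    have h1 := Subgroup.index_dvd_of_le hR0
    rw [Subgroup.index_map_subtype, ha, ← hqdef, ← pow_succ] at h1
    exact h1
  obtain ⟨b, _, hb⟩ := (Nat.dvd_prime_pow hprime).mp hidx
  have hX : IsPGroup q (G ⧸ Cfsg.pPrimeCore q G) :=
    IsPGroup.of_card (n := b) (by rw [← Subgroup.index_eq_card]; exact hb)
  have hsurj := QuotientGroup.mk'_surjective (Cfsg.pPrimeCore q G)
  have hcq : commutator (G ⧸ Cfsg.pPrimeCore q G)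
      = (commutator G).map (QuotientGroup.mk' (Cfsg.pPrimeCore q G)) := by
    rw [commutator_def, commutator_def, Subgroup.map_commutator,
      Subgroup.map_top_of_surjective _ hsurj]
  have h2 : commutator (G ⧸ Cfsg.pPrimeCore q G) = ⊥ := by
    apply comm_eq_bot hX
    rw [hcq]
    have h3 := Subgroup.index_map_dvd (commutator G) hsurj
    rw [← hqdef] at h3
    exact h3
  rw [hcq, Subgroup.map_eq_bot_iff, QuotientGroup.ker_mk'] at h2
  exact Nat.Coprime.of_dvd_left (Subgroup.card_dvd_of_le h2) (pPrimeCore_coprime q)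

/-- Let G be a finite solvable group. (a) If H is a normal subgroup of order coprime to its index, K is a complement to H, and H ≤ G', then H = [H, K] and H ∩ C_G(K) ≤ [H, H]. (b) If G' is nilpotent and has prime index in G, then the order of G' is coprime to its index and G' = [G, K] (the subgroup generated by commutators of elements of G with elements of K) for every complement K of G'. -/
theorem result {G : Type*} [Group G] [Finite G] [Group.IsSolvable G] :
    (∀ (H K : Subgroup G), H.Normal → (Nat.card H).Coprime H.index → Subgroup.IsComplement' H K → H ≤ commutator G →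
        H = ⁅H, K⁆ ∧ H ⊓ Subgroup.centralizer (K : Set G) ≤ ⁅H, H⁆) ∧
      (Group.IsNilpotent ↥(commutator G) → (commutator G).index.Prime →
        (Nat.card ↥(commutator G)).Coprime (commutator G).index ∧
        ∀ K : Subgroup G, Subgroup.IsComplement' (commutator G) K → commutator G = ⁅(⊤ : Subgroup G), K⁆) := by
  have hA : ∀ (H K : Subgroup G), H.Normal → (Nat.card H).Coprime H.index →
      Subgroup.IsComplement' H K → H ≤ commutator G →
        H = ⁅H, K⁆ ∧ H ⊓ Subgroup.centralizer (K : Set G) ≤ ⁅H, H⁆ := by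
    intro H K hHn hcop hc hHG
    haveI := hHn
    have hcard : H.index = Nat.card K := hc.symm.index_eq_card
    rw [hcard] at hcop
    have hKH : K ≤ Subgroup.normalizer (H : Set G) := by
      rw [Subgroup.normalizer_eq_top_iff.mpr hHn]; exact le_top
    have h1 : H = ⁅H, K⁆ := le_antisymm (partA1 H K hc.sup_eq_top hcop hHG)
      (Cfsg.Agent.Lib.Helper1.commutator_le_of_le_normalizer hKH)
    exact ⟨h1, partA2 H K hcop h1⟩
  refine ⟨hA, ?_⟩
  intro hnil hprime
  have hcop := partB1 hnil hprime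
  refine ⟨hcop, ?_⟩
  intro K hK
  have h1 := (hA (commutator G) K inferInstance hcop hK le_rfl).1
  apply le_antisymm
  · calc commutator G = ⁅commutator G, K⁆ := h1
      _ ≤ ⁅(⊤ : Subgroup G), K⁆ := Subgroup.commutator_mono le_top le_rfl
  · rw [commutator_def]
    exact Subgroup.commutator_mono le_rfl le_top

end Cfsg.Agent.S1459
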