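import Cfsg.Statements.S1892
import Cfsg.Agent.Lib.Helper29.PSolvable
import Cfsg.Agent.Lib.Helper8.FStar

set_option autoImplicit false
open Cfsg

namespace Cfsg.Agent.S1892

open Cfsg.Agent.Lib.Helper29 Cfsg.Agent.Lib.Helper8
open scoped commutatorElement

theorem result {S : Type*} [Group S] [Finite S] {p : ℕ} [Fact p.Prime]
    (hS : Cfsg.IsPSolvable p S) (hred : Cfsg.pPrimeCore p S = ⊥)
    (A Q : Subgroup S) (hA : IsPGroup p A) (hQ : ¬ p ∣ Nat.card Q) (hQ1 : Q ≠ ⊥)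
    (hinv : ∀ a ∈ A, ∀ x ∈ Q, a * x * a⁻¹ ∈ Q) (hAQ : ⁅A, Q⁆ = Q) :
    ⁅⁅Cfsg.pCore p S, A⁆, Q⁆ ≠ ⊥ := by
  intro hbot
  set P := Cfsg.pCore p S with hP
  set R := ⁅P, A⁆ with hR
  have hPn : P.Normal := inferInstance
  have hPp : IsPGroup p P := isPGroup_pCore p
  rw [Subgroup.commutator_eq_bot_iff_le_centralizer] at hbot
  have hRQ : ∀ r ∈ R, ∀ q ∈ Q, q * r = r * q := fun r hr q hq =>
    Subgroup.mem_centralizer_iff.mp (hbot hr) q hq
  have hRP : R ≤ P := Subgroup.commutator_le_left P A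
  have hAR : ∀ a ∈ A, ∀ r ∈ R, a * r * a⁻¹ ∈ R := by
    intro a ha r hr
    have h1 : A ≤ Subgroup.normalizer (R : Set S) :=
      le_normalizer_commutator (by rw [Subgroup.normalizer_eq_top]; exact le_top) Subgroup.le_normalizer
    exact (Subgroup.mem_normalizer_iff.mp (h1 ha) r).mp hr
  have hax : ∀ a ∈ A, ∀ x ∈ P, a * x * a⁻¹ * x⁻¹ ∈ R := by
    intro a ha x hx
    have h1 : ⁅x, a⁆ ∈ R := Subgroup.commutator_mem_commutator hx ha
    have h2 := R.inv_mem h1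
    rw [commutatorElement_inv, commutatorElement_def] at h2
    exact h2
  -- Step 1
  have step1 : ∀ g ∈ Q, ∀ x ∈ P, g * x * g⁻¹ * x⁻¹ ∈ R := by
    intro g hg
    rw [← hAQ] at hg
    have hcl : ∀ g ∈ ⁅A, Q⁆, g ∈ Q := fun g hg => hAQ ▸ hg
    rw [Subgroup.commutator_def] at hg
    induction hg using Subgroup.closure_induction with
    | mem g hg =>
      obtain ⟨a, ha, q, hq, rfl⟩ := hg
      intro x hx
      rw [commutatorElement_def]
      have hx' : q⁻¹ * x * q ∈ P := by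
        have := hPn.conj_mem x hx q⁻¹
        simpa using this
      have h1 : a⁻¹ * (q⁻¹ * x * q) * a⁻¹⁻¹ * (q⁻¹ * x * q)⁻¹ ∈ R := hax a⁻¹ (A.inv_mem ha) _ hx'
      have h2 := hRQ _ h1 q hq
      have h3 : q * a⁻¹ * q⁻¹ * x * (q * a⁻¹ * q⁻¹)⁻¹ * x⁻¹ ∈ R := by
        have e : q * a⁻¹ * q⁻¹ * x * (q * a⁻¹ * q⁻¹)⁻¹ * x⁻¹
            = q * (a⁻¹ * (q⁻¹ * x * q) * a⁻¹⁻¹ * (q⁻¹ * x * q)⁻¹) * q⁻¹ := by group
        rw [e, h2, mul_inv_cancel_right]
        exact h1
      have h4 := R.mul_mem (hAR a ha _ h3) (hax a ha x hx)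
      have e : a * q * a⁻¹ * q⁻¹ * x * (a * q * a⁻¹ * q⁻¹)⁻¹ * x⁻¹
          = a * (q * a⁻¹ * q⁻¹ * x * (q * a⁻¹ * q⁻¹)⁻¹ * x⁻¹) * a⁻¹ * (a * x * a⁻¹ * x⁻¹) := by group
      rw [e]; exact h4
    | one => intro x _; simp
    | mul g h hg hh ihg ihh =>
      intro x hx
      have hgQ : g ∈ Q := hcl g (by rw [Subgroup.commutator_def]; exact hg)
      have h1 := ihh x hx
      have h2 := hRQ _ h1 g hgQ
      have e : g * h * x * (g * h)⁻¹ * x⁻¹ = g * (h * x * h⁻¹ * x⁻¹) * g⁻¹ * (g * x * g⁻¹ * x⁻¹) := by group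
      rw [e, h2, mul_inv_cancel_right]
      exact R.mul_mem h1 (ihg x hx)
    | inv g hg ihg =>
      intro x hx
      have hgQ : g ∈ Q := hcl g (by rw [Subgroup.commutator_def]; exact hg)
      have h1 := R.inv_mem (ihg x hx)
      have h2 := hRQ _ h1 g hgQ
      have e : g⁻¹ * x * g⁻¹⁻¹ * x⁻¹ = g⁻¹ * ((g * x * g⁻¹ * x⁻¹)⁻¹ * g) := by group
      rw [e, ← h2, inv_mul_cancel_left]
      exact h1
  -- Step 2
  have step2 : Q ≤ Subgroup.centralizer (P : Set S) := by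
    intro q hq
    rw [Subgroup.mem_centralizer_iff]
    intro x hx
    set r := q * x * q⁻¹ * x⁻¹ with hr
    have hrR : r ∈ R := step1 q hq x hx
    have hqr : q * r = r * q := hRQ r hrR q hq
    have hpow : ∀ k : ℕ, q ^ k * x * (q ^ k)⁻¹ = r ^ k * x := by
      intro k
      induction k with
      | zero => simp
      | succ k ih =>
        have hqrk : q * r ^ k = r ^ k * q := (Commute.pow_right (show Commute q r from hqr) k)
        calc q ^ (k + 1) * x * (q ^ (k + 1))⁻¹ = q * (q ^ k * x * (q ^ k)⁻¹) * q⁻¹ := by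
              rw [pow_succ']; group
          _ = q * r ^ k * x * q⁻¹ := by rw [ih]; group
          _ = r ^ k * (q * x * q⁻¹ * x⁻¹) * x := by rw [hqrk]; group
          _ = r ^ (k + 1) * x := by rw [← hr, pow_succ]
    have h1 : r ^ orderOf q = 1 := by
      have := hpow (orderOf q)
      rw [pow_orderOf_eq_one] at this
      simpa using this.symm
    have h2 : orderOf r ∣ orderOf q := orderOf_dvd_of_pow_eq_one h1
    have h3 : orderOf q ∣ Nat.card Q := Subgroup.orderOf_dvd_natCard Q hq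
    obtain ⟨k, hk⟩ := (IsPGroup.iff_orderOf.mp hPp) ⟨r, hRP hrR⟩
    rw [Subgroup.orderOf_mk] at hk
    have h4 : r = 1 := by
      rcases Nat.eq_zero_or_pos k with rfl | hkpos
      · rw [pow_zero] at hk; exact orderOf_eq_one_iff.mp hk
      · exfalso
        apply hQ
        have : p ∣ orderOf r := by rw [hk]; exact dvd_pow_self p hkpos.ne'
        exact this.trans (h2.trans h3)
    have : q * x * q⁻¹ * x⁻¹ = 1 := h4
    calc x * q = (q * x * q⁻¹ * x⁻¹)⁻¹ * (q * x) := by group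
      _ = q * x := by rw [this]; simp
  have hQP : Q ≤ P := step2.trans (centralizer_pCore_le hS hred)
  apply hQ1
  rw [Subgroup.eq_bot_iff_forall]
  intro q hq
  obtain ⟨k, hk⟩ := (IsPGroup.iff_orderOf.mp hPp) ⟨q, hQP hq⟩
  rw [Subgroup.orderOf_mk] at hk
  rcases Nat.eq_zero_or_pos k with rfl | hkpos
  · rw [pow_zero] at hk; exact orderOf_eq_one_iff.mp hk
  · exfalso
    apply hQ
    have : p ∣ orderOf q := by rw [hk]; exact dvd_pow_self p hkpos.ne'
    exact this.trans (Subgroup.orderOf_dvd_natCard Q hq)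

end Cfsg.Agent.S1892
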