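import Cfsg.Statements.S1897
import Cfsg.Agent.Lib.Helper3.U33.Psu
import Cfsg.Agent.Lib.Helper3.L27u.Sub
import Cfsg.Agent.Lib.Helper3.L27.Psl
import Cfsg.Agent.Lib.Helper3.ExcIso
import Cfsg.Agent.Lib.Helper3.ExcIso2
import Cfsg.Agent.Lib.Helper3.SubIso

set_option autoImplicit false
open Cfsg

namespace Cfsg.Agent.S1897

/-- The projective special unitary group PSU₃(3) (realised over the field with 9 elements) has a subgroup isomorphic to PSL₂(7). -/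
theorem result {F : Type*} [Field F] [Fintype F] (hF : Fintype.card F = 9)
    {K : Type*} [Field K] [Fintype K] (hK : Fintype.card K = 7) :
    ∃ H : Subgroup (Cfsg.PSU 3 F 3), Nonempty (H ≃* Matrix.ProjectiveSpecialLinearGroup (Fin 2) K) := by
  have : Fact (Nat.Prime 7) := ⟨by norm_num⟩
  obtain ⟨e1⟩ := Cfsg.Agent.Lib.Helper3.psu_of_card (n := 3) (q := 3) (F := F)
    (K := Cfsg.Agent.Lib.Helper3.F9) (by rw [hF, Cfsg.Agent.Lib.Helper3.F9.card_eq])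
  obtain ⟨e2⟩ := Cfsg.Agent.Lib.Helper3.U33.psu_iso
  obtain ⟨H, ⟨e3⟩⟩ := Cfsg.Agent.Lib.Helper3.exists_subgroup_iso _ _ (e1.trans e2)
    Cfsg.Agent.Lib.Helper3.L27u.le
  obtain ⟨e4⟩ := Cfsg.Agent.Lib.Helper3.L27u.iso
  obtain ⟨e5⟩ := Cfsg.Agent.Lib.Helper3.L27.iso
  obtain ⟨e6⟩ := Cfsg.Agent.Lib.Helper3.L27.psl_iso
  obtain ⟨e7⟩ := Cfsg.Agent.Lib.Helper3.psl_of_card (n := Fin 2) (F := K) (K := ZMod 7)
    (by rw [hK, ZMod.card])
  exact ⟨H, ⟨e3.trans (e4.trans (e5.symm.trans (e6.symm.trans e7.symm)))⟩⟩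

end Cfsg.Agent.S1897
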