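import Cfsg.Statements.S1899

set_option autoImplicit false
open Cfsg

namespace Cfsg.Agent.S1899

theorem result {A : Type*} [CommGroup A] [Finite A] (hA : IsPGroup 2 A)
    {n : ℕ} (hn : Odd n) (hn1 : 1 < n) (d t : MulAut A) (hd : d ^ n = 1) (ht : t ^ 2 = 1) (hdt : t * d * t⁻¹ = d⁻¹)
    (hfix : ∀ a : A, d a = a → a = 1) :
    (MulEquiv.toMonoidHom t).eqLocus (MonoidHom.id A) ⊓ ((MulEquiv.toMonoidHom t).eqLocus (MonoidHom.id A)).map d.toMonoidHom = ⊥ ∧
      (MulEquiv.toMonoidHom t).eqLocus (MonoidHom.id A) ⊔ ((MulEquiv.toMonoidHom t).eqLocus (MonoidHom.id A)).map d.toMonoidHom = ⊤ := by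
  set C : Subgroup A := (MulEquiv.toMonoidHom t).eqLocus (MonoidHom.id A) with hC
  have memC : ∀ x : A, x ∈ C ↔ t x = x := fun x => Iff.rfl
  have htt : ∀ x : A, t (t x) = x := by
    intro x
    have := congrArg (fun f : MulAut A => f x) ht
    simpa [pow_two] using this
  -- t d⁻¹ = d t
  have h1 : ∀ x : A, t (d⁻¹ x) = d (t x) := by
    intro x
    have e : t * d⁻¹ = d * t := by
      have : (t * d * t⁻¹)⁻¹ = d := by rw [hdt, inv_inv]
      calc t * d⁻¹ = (t * d * t⁻¹)⁻¹ * t := by group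
        _ = d * t := by rw [this]
    exact congrArg (fun f : MulAut A => f x) e
  have hdd : ∀ x : A, d (d⁻¹ x) = x := fun x => by
    have : d * d⁻¹ = 1 := mul_inv_cancel d
    exact congrArg (fun f : MulAut A => f x) this
  -- Lemma F
  have lemF : ∀ x : A, d (d x) = x → x = 1 := by
    intro x hx
    apply hfix
    obtain ⟨m, hm⟩ := hn
    have hpow : ∀ k : ℕ, ((d * d) ^ k) x = x := by
      intro k
      induction k with
      | zero => simp
      | succ k ih => rw [pow_succ, MulAut.mul_apply, MulAut.mul_apply, hx, ih]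
    have e : (d * d) ^ (m + 1) = d := by
      calc (d * d) ^ (m + 1) = d ^ n * d := by rw [hm, ← pow_two, ← pow_mul, ← pow_succ]; congr 1
        _ = d := by rw [hd, one_mul]
    have := hpow (m + 1)
    rwa [e] at this
  have hxC : ∀ x : A, x * t x ∈ C := by
    intro x
    rw [memC, map_mul, htt, mul_comm]
  constructor
  · rw [Subgroup.eq_bot_iff_forall]
    rintro x ⟨hx1, c, hc, rfl⟩
    have hx1' : t (d c) = d c := hx1
    have hc' : t c = c := hc
    show d c = 1
    have h2 : d (d (d c)) = d c := by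
      have h3 := h1 (d c)
      have h4 : d⁻¹ (d c) = c := by
        have : d⁻¹ * d = 1 := inv_mul_cancel d
        exact congrArg (fun f : MulAut A => f c) this
      rw [h4, hc', hx1'] at h3
      rw [← h3]
    exact lemF _ h2
  · rw [eq_top_iff]
    intro y _
    have hinj : Function.Injective (fun x : A => d (d x) * x⁻¹) := by
      intro x y hxy
      have hxy' : d (d x) * x⁻¹ = d (d y) * y⁻¹ := hxy
      have : x * y⁻¹ = 1 := by
        apply lemF
        rw [map_mul, map_mul, map_inv, map_inv]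
        calc d (d x) * (d (d y))⁻¹ = (d (d x) * x⁻¹) * x * (d (d y))⁻¹ := by group
          _ = x * y⁻¹ := by
            rw [hxy', mul_comm (d (d y) * y⁻¹ * x) (d (d y))⁻¹, mul_assoc, inv_mul_cancel_left, mul_comm]
      exact mul_inv_eq_one.mp this
    obtain ⟨x, rfl⟩ := (Finite.injective_iff_surjective.mp hinj) y
    show d (d x) * x⁻¹ ∈ C ⊔ C.map d.toMonoidHom
    have ha : x * t x ∈ C ⊔ C.map d.toMonoidHom := (le_sup_left : C ≤ _) (hxC x)
    have hb : t x * d (d x) ∈ C ⊔ C.map d.toMonoidHom := by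
      apply (le_sup_right : C.map d.toMonoidHom ≤ _)
      refine ⟨d⁻¹ (t x) * t (d⁻¹ (t x)), hxC _, ?_⟩
      show d (d⁻¹ (t x) * t (d⁻¹ (t x))) = _
      rw [map_mul, hdd, h1, htt]
    have := Subgroup.mul_mem _ hb (Subgroup.inv_mem _ ha)
    have e : t x * d (d x) * (x * t x)⁻¹ = d (d x) * x⁻¹ := by
      rw [mul_inv, mul_comm (t x) (d (d x))]
      rw [mul_comm x⁻¹ (t x)⁻¹]; group
    rwa [e] at this

end Cfsg.Agent.S1899
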