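import Cfsg.Statements.S1901
import Cfsg.Agent.Lib.Helper29.PSolvable

set_option autoImplicit false
open Cfsg

namespace Cfsg.Agent.S1901

open Cfsg.Agent.Lib.Helper29 Cfsg.Agent.Lib.Helper8

universe u

/-- an element whose order divides a power of `p` and the order of a `p'`-group is trivial -/
theorem eq_one_of_pow {G : Type*} [Group G] {p : ℕ} [hp : Fact p.Prime] (Q : Subgroup G)
    (hQ : ¬ p ∣ Nat.card Q) {c : G} (hc : c ∈ Q) {k : ℕ} (hk : c ^ p ^ k = 1) : c = 1 := by
  have h1 : orderOf c ∣ p ^ k := orderOf_dvd_of_pow_eq_one hk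
  have h2 : orderOf c ∣ Nat.card Q := Subgroup.orderOf_dvd_natCard Q hc
  have hcop : Nat.Coprime (p ^ k) (Nat.card Q) :=
    Nat.Coprime.pow_left k ((Nat.Prime.coprime_iff_not_dvd hp.out).mpr hQ)
  exact orderOf_eq_one_iff.mp (Nat.eq_one_of_dvd_coprimes hcop h1 h2)

theorem main (p : ℕ) [hp : Fact p.Prime] : ∀ n : ℕ, ∀ (G : Type u) [Group G] [Finite G], Nat.card G = n →
    IsPSolvable p G → ∀ (Q : Subgroup G) (P : Sylow p G), ¬ p ∣ Nat.card Q →
    Q ≤ Subgroup.normalizer ((P : Subgroup G) : Set G) →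
    ∀ x ∈ Subgroup.normalizer (Q : Set G), (∃ k : ℕ, x ^ p ^ k = 1) → ∀ q ∈ Q, x * q = q * x := by
  intro n
  induction n using Nat.strong_induction_on with
  | _ n ih =>
    intro G _ _ hn hG Q P hQ hQP x hx hxp q hq
    rcases subsingleton_or_nontrivial G with hsub | hnt
    · rw [Subsingleton.elim x 1, one_mul, mul_one]
    obtain ⟨M, hMn, hMne, hPP⟩ := psol_exists_normal hG
    let π := QuotientGroup.mk' M
    have hπ : Function.Surjective π := QuotientGroup.mk'_surjective M
    have hcard : Nat.card (G ⧸ M) < n := by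
      have h1 := M.card_mul_index
      rw [Subgroup.index_eq_card, hn] at h1
      have h2 : 1 < Nat.card M := M.one_lt_card_iff_ne_bot.mpr hMne
      have h3 : 0 < Nat.card (G ⧸ M) := Nat.card_pos
      nlinarith
    -- x commutes with Q modulo M
    have hmod : ∀ q ∈ Q, x * q * x⁻¹ * q⁻¹ ∈ M := by
      intro q hq
      have := ih _ hcard (G ⧸ M) rfl (psol_quotient hG M) (Q.map π) (P.mapSurjective hπ)
        (fun hd => hQ (hd.trans (Subgroup.card_map_dvd Q π)))
        (by
          rw [Sylow.coe_mapSurjective]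
          exact (Subgroup.map_mono hQP).trans (Subgroup.le_normalizer_map π))
        (π x) (Subgroup.le_normalizer_map π ⟨x, hx, rfl⟩)
        (by
          obtain ⟨k, hk⟩ := hxp
          exact ⟨k, by rw [← map_pow, hk, map_one]⟩)
        (π q) ⟨q, hq, rfl⟩
      rw [← QuotientGroup.eq_one_iff]
      have e : π (x * q * x⁻¹ * q⁻¹) = 1 := by
        rw [map_mul, map_mul, map_mul, this, map_inv, map_inv]; group
      exact e
    have hxQ : ∀ q ∈ Q, x * q * x⁻¹ ∈ Q := fun q hq => (Subgroup.mem_normalizer_iff.mp hx q).mp hq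
    have hxQ' : ∀ q ∈ Q, x⁻¹ * q * x ∈ Q := fun q hq => by
      rw [Subgroup.mem_normalizer_iff.mp hx]
      have : x * (x⁻¹ * q * x) * x⁻¹ = q := by group
      rwa [this]
    -- x centralises Q ⊓ M
    have hx0 : ∀ c ∈ Q, c ∈ M → x * c = c * x := by
      rcases hPP with ⟨m, hm⟩ | hcop
      · intro c hcQ hcM
        have : c = 1 := by
          apply eq_one_of_pow Q hQ hcQ (k := m)
          rw [← hm]
          have := pow_card_eq_one' (x := (⟨c, hcM⟩ : M))
          exact congrArg Subtype.val this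
        rw [this, mul_one, one_mul]
      · -- P centralises Q ⊓ M
        have hPc : ∀ y ∈ (P : Subgroup G), ∀ c ∈ Q, c ∈ M → y * c = c * y := by
          intro y hy c hcQ hcM
          have h1 : c * y * c⁻¹ * y⁻¹ ∈ (P : Subgroup G) :=
            (P : Subgroup G).mul_mem ((Subgroup.mem_normalizer_iff.mp (hQP hcQ) y).mp hy)
              ((P : Subgroup G).inv_mem hy)
          have h2 : c * y * c⁻¹ * y⁻¹ ∈ M := by
            have := M.mul_mem hcM (hMn.conj_mem c⁻¹ (M.inv_mem hcM) y)
            simpa [mul_assoc] using this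
          obtain ⟨k, hk⟩ := P.isPGroup' ⟨_, h1⟩
          have h3 : c * y * c⁻¹ * y⁻¹ = 1 := by
            apply eq_one_of_pow M (fun hd => ?_) h2 (k := k) (by simpa using congrArg Subtype.val hk)
            exact (Nat.Prime.coprime_iff_not_dvd hp.out).mp hcop.symm hd
          calc y * c = (c * y * c⁻¹ * y⁻¹)⁻¹ * (c * y) := by group
            _ = c * y := by rw [h3]; simp
        set Q0 : Subgroup G := Q ⊓ M with hQ0
        have hxN0 : x ∈ Subgroup.normalizer (Q0 : Set G) := by
          apply mem_normalizer_of_conj_mem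
          intro c hc
          exact ⟨hxQ c hc.1, hMn.conj_mem c hc.2 x⟩
        have hPN0 : (P : Subgroup G) ≤ Subgroup.normalizer (Q0 : Set G) := by
          intro y hy
          apply mem_normalizer_of_conj_mem
          intro c hc
          rw [hPc y hy c hc.1 hc.2, mul_inv_cancel_right]
          exact hc
        have hxpg : IsPGroup p (Subgroup.zpowers x) := by
          obtain ⟨k, hk⟩ := hxp
          obtain ⟨j, -, hj⟩ := (Nat.dvd_prime_pow hp.out).mp (orderOf_dvd_of_pow_eq_one hk)
          apply IsPGroup.of_card (n := j)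
          rw [Nat.card_zpowers, hj]
        obtain ⟨c, hc, hpg, -⟩ := exists_conj_sup_isPGroup (Subgroup.normalizer (Q0 : Set G))
          (P : Subgroup G) (Subgroup.zpowers x) P.isPGroup' hxpg hPN0 (by rwa [Subgroup.zpowers_le])
        have heq := P.is_maximal' hpg le_sup_left
        have h1 : c * x * c⁻¹ ∈ (P : Subgroup G) := by
          rw [← heq]
          exact (le_sup_right : _ ≤ (P : Subgroup G) ⊔ _) (conj_mem_conjMap (Subgroup.mem_zpowers _))
        intro d hdQ hdM
        have hd' : c * d * c⁻¹ ∈ Q0 := (Subgroup.mem_normalizer_iff.mp hc d).mp ⟨hdQ, hdM⟩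
        have h2 := hPc _ h1 _ hd'.1 hd'.2
        calc x * d = c⁻¹ * ((c * x * c⁻¹) * (c * d * c⁻¹)) * c := by group
          _ = d * x := by rw [h2]; group
    -- conclusion
    set c := x * q * x⁻¹ * q⁻¹ with hc
    have hcQ : c ∈ Q := Q.mul_mem (hxQ q hq) (Q.inv_mem hq)
    have hcM : c ∈ M := hmod q hq
    have hxc : x * c = c * x := hx0 c hcQ hcM
    have hpow : ∀ k : ℕ, x ^ k * q * (x ^ k)⁻¹ = c ^ k * q := by
      intro k
      induction k with
      | zero => simp
      | succ k ih2 =>
        have hxck : x * c ^ k = c ^ k * x := (Commute.pow_right (show Commute x c from hxc) k)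
        calc x ^ (k + 1) * q * (x ^ (k + 1))⁻¹ = x * (x ^ k * q * (x ^ k)⁻¹) * x⁻¹ := by
              rw [pow_succ']; group
          _ = x * c ^ k * q * x⁻¹ := by rw [ih2]; group
          _ = c ^ k * (x * q * x⁻¹ * q⁻¹) * q := by rw [hxck]; group
          _ = c ^ (k + 1) * q := by rw [← hc, pow_succ]
    obtain ⟨k, hk⟩ := hxp
    have h1 : c ^ p ^ k = 1 := by
      have := hpow (p ^ k)
      rw [hk] at this
      simpa using this.symm
    have h2 : c = 1 := eq_one_of_pow Q hQ hcQ h1
    calc x * q = (x * q * x⁻¹ * q⁻¹) * (q * x) := by group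
      _ = q * x := by rw [← hc, h2, one_mul]

theorem result {G : Type*} [Group G] [Finite G] {p : ℕ} [Fact p.Prime]
    (hG : Cfsg.IsPSolvable p G) (Q : Subgroup G) (hQ : ¬ p ∣ Nat.card Q)
    (hA : p ∣ (Subgroup.centralizer (Q : Set G)).relIndex (Subgroup.normalizer (Q : Set G)))
    (P : Sylow p G) : ¬ Q ≤ Subgroup.normalizer ((P : Subgroup G) : Set G) := by
  intro hQP
  have key := main p _ G rfl hG Q P hQ hQP
  let R : Sylow p (Subgroup.normalizer (Q : Set G)) := default
  have hle : (R : Subgroup (Subgroup.normalizer (Q : Set G))) ≤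
      (Subgroup.centralizer (Q : Set G)).subgroupOf (Subgroup.normalizer (Q : Set G)) := by
    intro x hx
    rw [Subgroup.mem_subgroupOf, Subgroup.mem_centralizer_iff]
    intro q hq
    obtain ⟨k, hk⟩ := R.isPGroup' ⟨x, hx⟩
    have hk' : (x : G) ^ p ^ k = 1 := by
      have h1 : x ^ p ^ k = 1 := by simpa using congrArg Subtype.val hk
      simpa using congrArg Subtype.val h1
    exact (key x x.2 ⟨k, hk'⟩ q hq).symm
  exact R.not_dvd_index (hA.trans (Subgroup.index_dvd_of_le hle))

end Cfsg.Agent.S1901
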