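import Cfsg.Statements.S1902
import Cfsg.Agent.Lib.Helper29.TransTH
import Cfsg.Agent.Lib.Helper29.PSolvable2
import Cfsg.Agent.Lib.Helper4.Basic
-- import your own Cfsg.Agent.* helpers here

set_option autoImplicit false
open Cfsg

namespace Cfsg.Agent.S1902

/-- Let p be an odd prime, G a finite p-solvable group, and B an elementary abelian subgroup of order p² such that B is the subgroup generated by the elements of order p of some Sylow p-subgroup of C_G(b₀), for some nontrivial b₀ ∈ B. Then every B-invariant subgroup of G of order prime to p lies in O_{p'}(G). -/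
theorem result {G : Type*} [Group G] [Finite G] {p : ℕ} [Fact p.Prime] (hp : p ≠ 2)
    (hG : Cfsg.IsPSolvable p G) (B : Subgroup G) (hB : Cfsg.IsElementaryAbelian p B) (hBc : Nat.card B = p ^ 2)
    (b₀ : G) (hb₀ : b₀ ∈ B) (hb₁ : b₀ ≠ 1) (P : Sylow p ↥(Subgroup.centralizer ({b₀} : Set G)))
    (hBP : B = Subgroup.closure {x : G | x ∈ ((P : Subgroup ↥(Subgroup.centralizer ({b₀} : Set G))).map
      (Subgroup.centralizer ({b₀} : Set G)).subtype : Subgroup G) ∧ orderOf x = p})
    (Q : Subgroup G) (hQ : ¬ p ∣ Nat.card Q) (hinv : ∀ b ∈ B, ∀ x ∈ Q, b * x * b⁻¹ ∈ Q) :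
    Q ≤ Cfsg.pPrimeCore p G := by
  open Cfsg.Agent.Lib.Helper29 Cfsg.Agent.Lib.Helper12 Cfsg.Agent.Lib.Helper4 in
  have hcon : Cfsg.IsPConstrained p G := isPConstrained_of_quot p (centralizer_pCore_quotient_le hG)
  have hpp : p.Prime := Fact.out
  have hBp : IsPGroup p B := elemAb_isPGroup hB
  have hcomm : ∀ a ∈ B, ∀ b ∈ B, a * b = b * a := (isMulCommutative_iff B).mp hB.1
  refine inv_le_pPrimeCore_odd p hp hcon B hBp ?_ Q hQ ?_
  · intro x hx hxo
    have hsyl := isSylIn_of_sylow P
    have hxp : x ^ p = 1 := by rw [← hxo]; exact pow_orderOf_eq_one x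
    have hY : Cfsg.IsElementaryAbelian p (B ⊔ Subgroup.zpowers x) := by
      apply elemAb_sup hB (elemAb_zpowers hxp)
      intro a ha b hb
      obtain ⟨n, rfl⟩ := Subgroup.mem_zpowers_iff.mp hb
      have h1 : Commute x a := ((Subgroup.mem_centralizer_iff.mp hx) a ha).symm
      exact (h1.zpow_left n).symm.eq
    have hYC : B ⊔ Subgroup.zpowers x ≤ Subgroup.centralizer ({b₀} : Set G) := by
      apply sup_le
      · intro b hb
        rw [Subgroup.mem_centralizer_singleton_iff]
        exact hcomm b hb b₀ hb₀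
      · rw [Subgroup.zpowers_le, Subgroup.mem_centralizer_singleton_iff]
        exact ((Subgroup.mem_centralizer_iff.mp hx) b₀ hb₀).symm
    obtain ⟨c, hc, hcY⟩ := hsyl.exists_conj_le hYC (elemAb_isPGroup hY)
    have hkey : ∀ y ∈ B ⊔ Subgroup.zpowers x, c * y * c⁻¹ ∈ B := by
      intro y hy
      by_cases hy1 : y = 1
      · rw [hy1]; simp
      have h1 := hcY (conj_mem_cj (g := c) hy)
      have h2 : orderOf (c * y * c⁻¹) = p := by
        have h3 : orderOf (c * y * c⁻¹) = orderOf y := by
          have := orderOf_injective (MulAut.conj c).toMonoidHom (MulAut.conj c).injective y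
          simpa [MulAut.conj_apply] using this
        rw [h3]
        exact orderOf_eq_prime (hY.2 y hy) hy1
      rw [hBP]
      exact Subgroup.subset_closure ⟨h1, h2⟩
    have hcB : cj c B ≤ B := by
      rintro _ ⟨b, hb, rfl⟩
      exact hkey b (Subgroup.mem_sup_left hb)
    have hcB' : cj c B = B := Subgroup.eq_of_le_of_card_ge hcB (by rw [card_cj])
    have h4 : c * x * c⁻¹ ∈ cj c B := by
      rw [hcB']
      exact hkey x (Subgroup.mem_sup_right (Subgroup.mem_zpowers x))
    exact conj_mem_cj_iff.mp h4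
  · intro b hb
    exact Cfsg.Agent.Lib.Helper1.mem_normalizer_of_conj_mem (hinv b hb)

end Cfsg.Agent.S1902
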