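import Mathlib
import Cfsg.Statements.S1905
import Cfsg.Agent.S1225
import Cfsg.Agent.Lib.Helper27.Basic

set_option autoImplicit false
open Cfsg
open Cfsg.Agent.Lib.Helper27

namespace Cfsg.Agent.S1905

/-- two involutions: either conjugate or a common commuting involution. -/
theorem conj_or_central {S : Type*} [Group S] [Finite S] (a b : S) (ha : orderOf a = 2) (hb : orderOf b = 2) :
    IsConj a b ∨ ∃ z : S, orderOf z = 2 ∧ Commute a z ∧ Commute b z := by
  have haa := sq_of_orderOf_two ha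
  have hbb := sq_of_orderOf_two hb
  rcases Nat.even_or_odd' (orderOf (a * b)) with ⟨m, hm | hm⟩
  · right
    have hpos : 0 < orderOf (a * b) := orderOf_pos _
    have hm0 : m ≠ 0 := by rintro rfl; omega
    refine ⟨(a * b) ^ m, ?_, dih_central a b haa hbb m (by rw [← hm]; exact pow_orderOf_eq_one _)⟩
    rw [orderOf_pow_of_dvd hm0 (by rw [hm]; exact Dvd.intro_left 2 rfl), hm]
    exact Nat.mul_div_left 2 (Nat.pos_of_ne_zero hm0)
  · left
    have := dih_odd a b haa hbb m
    rw [← hm, pow_orderOf_eq_one, mul_one] at this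
    rw [isConj_iff]
    generalize (a * b) ^ m = c at this
    exact ⟨c, by rw [← this]; group⟩

/-- Sylow conjugation inside a subgroup, stated in the big group. -/
theorem exists_conj_le {S : Type*} [Group S] [Finite S] (M : Subgroup S) (X : Sylow 2 M) (Q : Subgroup S)
    (hQM : Q ≤ M) (hQ : IsPGroup 2 Q) :
    ∃ m ∈ M, ∀ q ∈ Q, m * q * m⁻¹ ∈ (X : Subgroup M).map M.subtype := by
  have hQ' : IsPGroup 2 (Q.subgroupOf M) := hQ.comap_of_injective M.subtype M.subtype_injective
  obtain ⟨Y, hY⟩ := hQ'.exists_le_sylow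
  obtain ⟨m, hm⟩ := MulAction.exists_smul_eq M Y X
  refine ⟨m, m.2, fun q hq => ?_⟩
  have h1 : (⟨q, hQM hq⟩ : M) ∈ Y := hY (by rw [Subgroup.mem_subgroupOf]; exact hq)
  have h2 : m * (⟨q, hQM hq⟩ : M) * m⁻¹ ∈ X := by
    rw [← hm]
    show m * (⟨q, hQM hq⟩ : M) * m⁻¹ ∈ ((m • Y : Sylow 2 M) : Subgroup M)
    rw [Sylow.coe_subgroup_smul, Subgroup.mem_pointwise_smul_iff_inv_smul_mem, MulAut.smul_def, MulAut.conj_inv_apply]
    have e : m⁻¹ * (m * (⟨q, hQM hq⟩ : M) * m⁻¹) * m = ⟨q, hQM hq⟩ := by group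
    rw [e]; exact h1
  exact ⟨_, h2, by simp⟩

theorem result {S : Type*} [Group S] [Finite S] (M : Subgroup S) (hM : Even (Nat.card M))
    (hC : ∀ i ∈ M, orderOf i = 2 → Subgroup.centralizer ({i} : Set S) ≤ M) (hcore : Odd (Nat.card M.normalCore)) :
    (∀ x y : S, orderOf x = 2 → orderOf y = 2 → IsConj x y) ∧
      ∀ (X : Sylow 2 M) (I : M), I ∈ (Subgroup.center ↥(X : Subgroup ↥M)).map (X : Subgroup ↥M).subtype → orderOf I = 2 →
        Subgroup.normalizer (((X : Subgroup M).map M.subtype : Subgroup S) : Set S) ≤ M →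
        (∀ x y : M, orderOf x = 2 → orderOf y = 2 → IsConj x y) ∧
          ∃ M₀ : Subgroup M, Odd (Nat.card M₀) ∧
            ∀ m : M, ∃ a ∈ M₀, ∃ c ∈ Subgroup.centralizer ({I} : Set M), m = a * c := by
  classical
  obtain ⟨i0, hi0⟩ : ∃ i : M, orderOf i = 2 := exists_prime_orderOf_dvd_card' 2 hM.two_dvd
  have hi0' : orderOf (i0 : S) = 2 := by rw [Subgroup.orderOf_coe]; exact hi0
  have hout : ∃ j : S, orderOf j = 2 ∧ j ∉ M := by
    by_contra hcon
    push Not at hcon
    have hmem : (i0 : S) ∈ M.normalCore := by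
      intro g
      exact hcon _ (by rw [orderOf_conj']; exact hi0')
    have h2 : 2 ∣ Nat.card M.normalCore := by
      have := orderOf_dvd_natCard (⟨i0, hmem⟩ : M.normalCore)
      rwa [Subgroup.orderOf_mk, hi0'] at this
    exact (Nat.not_even_iff_odd.mpr hcore) (even_iff_two_dvd.mpr h2)
  obtain ⟨j, hj, hjM⟩ := hout
  have key : ∀ i ∈ M, orderOf i = 2 → ∀ k : S, orderOf k = 2 → k ∉ M → IsConj i k := by
    intro i hiM hi k hk hkM
    rcases conj_or_central i k hi hk with h | ⟨z, hz, h1, h2⟩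
    · exact h
    · exfalso
      have hzM : z ∈ M := hC i hiM hi (Subgroup.mem_centralizer_singleton_iff.mpr h1.symm.eq)
      exact hkM (hC z hzM hz (Subgroup.mem_centralizer_singleton_iff.mpr h2.eq))
  have all : ∀ x y : S, orderOf x = 2 → orderOf y = 2 → IsConj x y := by
    intro x y hx hy
    by_cases hxM : x ∈ M <;> by_cases hyM : y ∈ M
    · exact (key x hxM hx j hj hjM).trans (key y hyM hy j hj hjM).symm
    · exact key x hxM hx y hy hyM
    · exact (key y hyM hy x hx hxM).symm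
    · exact (key i0 i0.2 hi0' x hx hxM).symm.trans (key i0 i0.2 hi0' y hy hyM)
  refine ⟨all, ?_⟩
  intro X I hI hIo hN
  set X' : Subgroup S := (X : Subgroup M).map M.subtype with hX'
  have hX'M : X' ≤ M := by
    rintro _ ⟨x, _, rfl⟩; exact x.2
  have hX'p : IsPGroup 2 X' := X.2.map M.subtype
  have hIo' : orderOf (I : S) = 2 := by rw [Subgroup.orderOf_coe]; exact hIo
  -- I commutes with X'
  have hIc : ∀ x ∈ X', (I : S) * x = x * I := by
    rintro _ ⟨x, hx, rfl⟩
    obtain ⟨c, hc, rfl⟩ := hI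
    have := Subgroup.mem_center_iff.mp hc ⟨x, hx⟩
    have h3 := congrArg (fun y : (X : Subgroup M) => ((y : M) : S)) this
    simpa using h3.symm
  -- control
  have ctrl0 : ∀ s ∈ X', orderOf s = 2 → ∀ g : S, g * s * g⁻¹ ∈ M → g ∈ M := by
    intro s hs hso g hg
    have hz'M : g * I * g⁻¹ ∈ M := by
      refine hC (g * s * g⁻¹) hg (by rw [orderOf_conj']; exact hso) ?_
      rw [Subgroup.mem_centralizer_singleton_iff]
      have := hIc s hs
      calc g * I * g⁻¹ * (g * s * g⁻¹) = g * (I * s) * g⁻¹ := by group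
        _ = g * (s * I) * g⁻¹ := by rw [this]
        _ = g * s * g⁻¹ * (g * I * g⁻¹) := by group
    have hQM : X'.map (MulAut.conj g).toMonoidHom ≤ M := by
      rintro _ ⟨x, hx, rfl⟩
      refine hC (g * I * g⁻¹) hz'M (by rw [orderOf_conj']; exact hIo') ?_
      rw [Subgroup.mem_centralizer_singleton_iff]
      have := hIc x hx
      show g * x * g⁻¹ * (g * I * g⁻¹) = g * I * g⁻¹ * (g * x * g⁻¹)
      calc g * x * g⁻¹ * (g * I * g⁻¹) = g * (x * I) * g⁻¹ := by group
        _ = g * (I * x) * g⁻¹ := by rw [this]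
        _ = g * I * g⁻¹ * (g * x * g⁻¹) := by group
    obtain ⟨m, hmM, hm⟩ := exists_conj_le M X _ hQM (hX'p.map _)
    have hle : ∀ x ∈ X', (m * g) * x * (m * g)⁻¹ ∈ X' := by
      intro x hx
      have := hm (g * x * g⁻¹) ⟨x, hx, rfl⟩
      have e : (m * g) * x * (m * g)⁻¹ = m * (g * x * g⁻¹) * m⁻¹ := by group
      rw [e]; exact this
    have hnorm : m * g ∈ Subgroup.normalizer (X' : Set S) := by
      have hmap : X'.map (MulAut.conj (m * g)).toMonoidHom = X' := by
        apply Subgroup.eq_of_le_of_card_ge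
        · rintro _ ⟨x, hx, rfl⟩; exact hle x hx
        · have hinj : Function.Injective (MulAut.conj (m * g)).toMonoidHom := (MulAut.conj (m * g)).injective
          exact (Subgroup.card_map_of_injective (K := X') hinj).ge
      rw [Subgroup.mem_normalizer_iff]
      intro h
      constructor
      · intro hh; exact hle h hh
      · intro hh
        rw [← hmap] at hh
        obtain ⟨x, hx, hxe⟩ := hh
        have : x = h := by
          have : (m * g) * x * (m * g)⁻¹ = (m * g) * h * (m * g)⁻¹ := hxe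
          simpa using this
        rw [← this]; exact hx
    have := hN hnorm
    have h4 : g = m⁻¹ * (m * g) := by group
    rw [h4]; exact M.mul_mem (M.inv_mem hmM) this
  have ctrl : ∀ s ∈ M, orderOf s = 2 → ∀ g : S, g * s * g⁻¹ ∈ M → g ∈ M := by
    intro s hs hso g hg
    obtain ⟨m, hmM, hm⟩ := exists_conj_le M X (Subgroup.zpowers s) (by rwa [Subgroup.zpowers_le])
      (isPGroup_zpowers (p := 2) s 1 (by rw [hso]; norm_num))
    have h1 := hm s (Subgroup.mem_zpowers s)
    have h2 : g * m⁻¹ ∈ M := by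
      refine ctrl0 (m * s * m⁻¹) h1 (by rw [orderOf_conj']; exact hso) (g * m⁻¹) ?_
      have e : g * m⁻¹ * (m * s * m⁻¹) * (g * m⁻¹)⁻¹ = g * s * g⁻¹ := by group
      rw [e]; exact hg
    have e : g = g * m⁻¹ * m := by group
    rw [e]; exact M.mul_mem h2 hmM
  have hSE : Cfsg.IsStronglyEmbedded M := by
    refine ⟨fun h => hjM (h ▸ Subgroup.mem_top j), hM, fun g hg => ?_⟩
    by_contra hodd
    rw [Nat.not_odd_iff_even] at hodd
    obtain ⟨t, ht⟩ := exists_prime_orderOf_dvd_card' (G := ↥(M ⊓ M.map (MulAut.conj g).toMonoidHom)) 2 hodd.two_dvd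
    have ht' : orderOf (t : S) = 2 := by rw [Subgroup.orderOf_coe]; exact ht
    have h1 : (t : S) ∈ M := t.2.1
    have h2 : g⁻¹ * (t : S) * g ∈ M := (mem_map_conj M g t).mp t.2.2
    refine hg (ctrl (g⁻¹ * t * g) h2 ?_ g ?_)
    · have := orderOf_conj' g⁻¹ (t : S)
      rw [inv_inv] at this; rw [this]; exact ht'
    · have e : g * (g⁻¹ * (t : S) * g) * g⁻¹ = t := by group
      rw [e]; exact h1
  constructor
  · intro x y hx hy
    have hx' : orderOf (x : S) = 2 := by rw [Subgroup.orderOf_coe]; exact hx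
    have hy' : orderOf (y : S) = 2 := by rw [Subgroup.orderOf_coe]; exact hy
    obtain ⟨d, hd, hde⟩ := (Cfsg.Agent.S1225.result M hSE j hj hjM x y hx' x.2 hy' y.2).1
    rw [isConj_iff]
    exact ⟨⟨d, hd.1⟩, Subtype.ext (by simpa using hde)⟩
  · refine ⟨(M ⊓ M.map (MulAut.conj j).toMonoidHom).subgroupOf M, ?_, ?_⟩
    · rw [Nat.card_congr (Subgroup.subgroupOfEquivOfLe (inf_le_left : M ⊓ M.map (MulAut.conj j).toMonoidHom ≤ M)).toEquiv]
      exact hSE.2.2 j hjM
    · intro m
      have h1 : orderOf ((m : S) * I * (m : S)⁻¹) = 2 := by rw [orderOf_conj']; exact hIo'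
      obtain ⟨d, hd, hde⟩ := (Cfsg.Agent.S1225.result M hSE j hj hjM I ((m : S) * I * (m : S)⁻¹) hIo' I.2 h1
        (M.mul_mem (M.mul_mem m.2 I.2) (M.inv_mem m.2))).1
      refine ⟨⟨d, hd.1⟩, by rw [Subgroup.mem_subgroupOf]; exact hd, (⟨d, hd.1⟩ : M)⁻¹ * m, ?_, by group⟩
      rw [Subgroup.mem_centralizer_singleton_iff]
      apply Subtype.ext
      show d⁻¹ * (m : S) * I = I * (d⁻¹ * m)
      have : (m : S) * I = d * I * d⁻¹ * m := by rw [hde]; group
      calc d⁻¹ * (m : S) * I = d⁻¹ * ((m : S) * I) := by group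
        _ = d⁻¹ * (d * I * d⁻¹ * m) := by rw [this]
        _ = I * (d⁻¹ * m) := by group

end Cfsg.Agent.S1905
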