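import Mathlib
import Cfsg.Statements.S1907
import Cfsg.Agent.Lib.Helper4.PFusion
import Cfsg.Agent.Lib.Helper9.ExtLayer
import Cfsg.Agent.Lib.Helper9.Cores


set_option autoImplicit false
open Cfsg

namespace Cfsg.Agent.S1907

open Cfsg.Agent.Lib.Helper4


/-- Let P be a Sylow p-subgroup of a finite group G, H = P ∩ O_{p',p}(G), N = N_G(H) and D = O_{p'}(G). (a) If y is an element of p-power order of N and d ∈ D with d⁻¹ y d ∈ N, then d = d₁ d₂ with d₁ ∈ C_D(y) and d₂ ∈ C_D(H). (b) Two elements of P that are conjugate in G are conjugate in N. -/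
theorem result {G : Type*} [Group G] [Finite G] {p : ℕ} [Fact p.Prime] (P : Sylow p G) :
    (∀ y ∈ Subgroup.normalizer (((P : Subgroup G) ⊓ Cfsg.pPrimePCore p G : Subgroup G) : Set G), (∃ k : ℕ, orderOf y = p ^ k) →
      ∀ d ∈ Cfsg.pPrimeCore p G, d⁻¹ * y * d ∈ Subgroup.normalizer (((P : Subgroup G) ⊓ Cfsg.pPrimePCore p G : Subgroup G) : Set G) →
        ∃ d₁ ∈ Cfsg.pPrimeCore p G ⊓ Subgroup.centralizer ({y} : Set G),
          ∃ d₂ ∈ Cfsg.pPrimeCore p G ⊓ Subgroup.centralizer (((P : Subgroup G) ⊓ Cfsg.pPrimePCore p G : Subgroup G) : Set G), d = d₁ * d₂) ∧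
    ∀ x y : G, x ∈ (P : Subgroup G) → y ∈ (P : Subgroup G) → IsConj x y →
      ∃ n ∈ Subgroup.normalizer (((P : Subgroup G) ⊓ Cfsg.pPrimePCore p G : Subgroup G) : Set G), n * x * n⁻¹ = y := by
  have hp : p.Prime := Fact.out
  have hDp := Cfsg.Agent.Lib.Helper9.pPrimeCore_coprime p hp G
  have hLn := Cfsg.Agent.Lib.Helper9.pPrimePCore_normal (G := G) p
  constructor
  · intro y hy hyo d hd hdy
    exact factor_of_conj_mem_normalizer (Cfsg.pPrimeCore p G) _ hDp (P.2.to_le inf_le_left) y hy hyo d hd hdy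
  · intro x y hx hy hxy
    exact conj_in_normalizer_of_conj P (Cfsg.pPrimeCore p G) (Cfsg.pPrimePCore p G) hDp
      (fun y hy => Cfsg.Agent.Lib.Helper9.exists_pow_mem_of_mem_pPrimePCore p hy) x y hx hy hxy

end Cfsg.Agent.S1907
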