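import Cfsg.Statements.S1924
import Mathlib
import Cfsg.Agent.Lib.Helper1.Transfer
import Cfsg.Agent.Lib.Helper18.Transfer

set_option autoImplicit false
open Cfsg Subgroup MulAction

namespace Cfsg.Agent.S1924


theorem card_mul_relIndex' {G : Type*} [Group G] {H K : Subgroup G} (h : H ≤ K) :
    Nat.card H * H.relIndex K = Nat.card K := by
  rw [← relIndex_bot_left, ← relIndex_bot_left, relIndex_mul_relIndex _ _ _ bot_le h]

theorem sign_semiregular {X : Type*} [Group X] [Finite X] (Q : Subgroup X) [Fintype (X ⧸ Q)]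
    [DecidableEq (X ⧸ Q)] (c : X) (k m : ℕ)
    (hc : orderOf c = 2 ^ (k + 1)) (hfree : ∀ g : X, g * c ^ (2 ^ k) * g⁻¹ ∉ Q) (hm : Odd m)
    (hidx : Q.index = 2 ^ (k + 1) * m) :
    Equiv.Perm.sign (MulAction.toPermHom X (X ⧸ Q) c) = -1 := by
  set σ : Equiv.Perm (X ⧸ Q) := MulAction.toPermHom X (X ⧸ Q) c with hσ
  have hfix : ∀ x : X ⧸ Q, (σ ^ (2 ^ k)) x ≠ x := by
    intro x
    obtain ⟨g, rfl⟩ := QuotientGroup.mk_surjective x
    intro h
    rw [hσ, ← map_pow] at h
    have h1 : ((c ^ (2 ^ k) * g : X) : X ⧸ Q) = (g : X ⧸ Q) := h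
    rw [eq_comm, QuotientGroup.eq] at h1
    apply hfree g⁻¹
    simpa [mul_assoc] using h1
  have hfix1 : ∀ x : X ⧸ Q, σ x ≠ x := by
    intro x h
    exact hfix x (Equiv.Perm.pow_apply_eq_self_of_apply_eq_self h _)
  have hsupp : σ.support = Finset.univ := by
    ext x; simp [Equiv.Perm.mem_support, hfix1 x]
  have hσord : σ ^ (2 ^ (k + 1)) = 1 := by
    rw [hσ, ← map_pow, ← hc, pow_orderOf_eq_one, map_one]
  have hall : ∀ b ∈ σ.cycleType, b = 2 ^ (k + 1) := by
    intro b hb
    have h1 : b ∣ 2 ^ (k + 1) :=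
      (Equiv.Perm.dvd_of_mem_cycleType hb).trans (orderOf_dvd_of_pow_eq_one hσord)
    obtain ⟨j, hj, rfl⟩ := (Nat.dvd_prime_pow Nat.prime_two).mp h1
    by_contra hne
    have hjk : j ≤ k := by
      rcases Nat.lt_or_ge k j with h | h
      · exfalso; apply hne
        have : j = k + 1 := by omega
        rw [this]
      · exact h
    obtain ⟨d, τ, hdτ, hdisj, hcyc, hcard⟩ := Equiv.Perm.mem_cycleType_iff.mp hb
    obtain ⟨x, hx, -⟩ := id hcyc
    have hτx : τ x = x := by
      rcases hdisj x with h | h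
      · exact absurd h hx
      · exact h
    have hd : d ^ (2 ^ k) = 1 := by
      have h2 : orderOf d = 2 ^ j := by rw [← hcard]; exact Equiv.Perm.IsCycle.orderOf hcyc
      apply orderOf_dvd_iff_pow_eq_one.mp
      rw [h2]
      exact pow_dvd_pow 2 hjk
    apply hfix x
    rw [hdτ, hdisj.commute.mul_pow, hd, one_mul]
    exact Equiv.Perm.pow_apply_eq_self_of_apply_eq_self hτx _
  have hrep := Multiset.eq_replicate_of_mem hall
  have hsum := Equiv.Perm.sum_cycleType σ
  rw [hsupp, Finset.card_univ, ← Nat.card_eq_fintype_card, ← Subgroup.index_eq_card, hidx] at hsum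
  set N := Multiset.card σ.cycleType with hN
  rw [hrep, Multiset.sum_replicate, smul_eq_mul] at hsum
  have hNm : N = m := by
    have : 0 < 2 ^ (k + 1) := by positivity
    rw [mul_comm] at hsum
    exact Nat.eq_of_mul_eq_mul_left this hsum
  rw [Equiv.Perm.sign_of_cycleType, ← hN, hrep, Multiset.sum_replicate, smul_eq_mul, hNm]
  have : Odd (m * 2 ^ (k + 1) + m) := by
    apply Even.add_odd _ hm
    rw [pow_succ]
    exact ⟨m * 2 ^ k, by ring⟩
  exact this.neg_one_pow

theorem units_eq_one_of_odd {X : Type*} [Group X] (f : X →* ℤˣ) (g : X)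
    (hg : Nat.Coprime (orderOf g) 2) : f g = 1 := by
  rcases Int.units_eq_one_or (f g) with h | h
  · exact h
  · exfalso
    have h1 : (f g) ^ (orderOf g) = 1 := by rw [← map_pow, pow_orderOf_eq_one, map_one]
    have h2 : Odd (orderOf g) := Nat.Coprime.odd_of_right hg
    rw [h, h2.neg_one_pow] at h1
    exact absurd h1 (by decide)

theorem chain {G : Type*} [Group G] [Finite G] (T : Subgroup G) (hTO : T ≤ Cfsg.pResidual 2 G) :
    ∀ (k : ℕ) (X : Subgroup G) (c : G) (m : ℕ), Cfsg.pResidual 2 G ≤ X → c ∈ X →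
      orderOf c = 2 ^ k → (∀ e ∈ zpowers c, orderOf e = 2 → ∀ g : G, g * e * g⁻¹ ∉ T) → Odd m →
      Nat.card X = Nat.card T * 2 ^ k * m →
      ∃ Y : Subgroup G, Cfsg.pResidual 2 G ≤ Y ∧ Nat.card Y = Nat.card T * m := by
  classical
  intro k
  induction k with
  | zero =>
    intro X c m hOX _ _ _ _ hcard
    exact ⟨X, hOX, by simpa using hcard⟩
  | succ k ih =>
    intro X c m hOX hcX hc hfree hm hcard
    have : Fintype (↥X ⧸ T.subgroupOf X) := Fintype.ofFinite _
    set f : ↥X →* ℤˣ := Equiv.Perm.sign.comp (MulAction.toPermHom ↥X (↥X ⧸ T.subgroupOf X)) with hf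
    have hTX : T ≤ X := hTO.trans hOX
    have hidx : (T.subgroupOf X).index = 2 ^ (k + 1) * m := by
      have h1 : Nat.card T * T.relIndex X = Nat.card X := card_mul_relIndex' hTX
      have h2 : 0 < Nat.card T := Nat.card_pos
      show T.relIndex X = _
      rw [hcard] at h1
      have : Nat.card T * T.relIndex X = Nat.card T * (2 ^ (k + 1) * m) := by
        rw [h1, mul_assoc]
      exact Nat.eq_of_mul_eq_mul_left h2 this
    have hfc : f ⟨c, hcX⟩ = -1 := by
      apply sign_semiregular (T.subgroupOf X) ⟨c, hcX⟩ k m _ _ hm hidx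
      · rw [← hc]
        exact Subgroup.orderOf_mk c hcX
      · intro g hg
        rw [Subgroup.mem_subgroupOf] at hg
        refine hfree (c ^ (2 ^ k)) (Subgroup.pow_mem _ (mem_zpowers c) _) ?_ (g : G) (by simpa using hg)
        rw [orderOf_pow' _ (by positivity), hc, Nat.gcd_eq_right (pow_dvd_pow 2 (Nat.le_succ k)),
          pow_succ, Nat.mul_div_cancel_left _ (by positivity)]
    have hker : f.ker.index = 2 := Cfsg.Agent.Lib.Helper18.index_ker_of_apply_eq_neg_one f _ hfc
    set Y : Subgroup G := f.ker.map X.subtype with hY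
    have hYcard : Nat.card Y = Nat.card T * 2 ^ k * m := by
      have h1 : Nat.card Y = Nat.card f.ker :=
        Subgroup.card_map_of_injective (Subgroup.subtype_injective _)
      have h2 := f.ker.card_mul_index
      rw [hker, hcard, ← h1] at h2
      have : Nat.card T * 2 ^ (k + 1) * m = (Nat.card T * 2 ^ k * m) * 2 := by ring
      rw [this] at h2
      exact Nat.eq_of_mul_eq_mul_right (by norm_num) h2
    have hOY : Cfsg.pResidual 2 G ≤ Y := by
      unfold Cfsg.pResidual
      rw [Subgroup.closure_le]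
      intro g hg
      have hgX : g ∈ X := hOX (Subgroup.subset_closure hg)
      refine ⟨⟨g, hgX⟩, ?_, rfl⟩
      apply units_eq_one_of_odd
      rw [Subgroup.orderOf_mk]
      exact hg
    have hc2Y : c ^ 2 ∈ Y := by
      refine ⟨⟨c, hcX⟩ ^ 2, ?_, rfl⟩
      show f _ = 1
      rw [map_pow, hfc]; rfl
    refine ih Y (c ^ 2) m hOY hc2Y ?_ ?_ hm hYcard
    · rw [orderOf_pow' _ (by norm_num), hc, Nat.gcd_eq_right (Dvd.intro_left _ (pow_succ 2 k).symm),
        pow_succ, Nat.mul_div_cancel _ (by norm_num)]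
    · intro e he
      apply hfree e
      exact (Subgroup.zpowers_le.mpr (Subgroup.pow_mem _ (mem_zpowers c) 2)) he

theorem dih_invol {n : ℕ} (hn : 2 ≤ n) (C : Subgroup (DihedralGroup n)) (hC : IsCyclic C)
    (hcard : Nat.card C = n) (x : DihedralGroup n) (hx : x ∉ C) : orderOf x = 2 := by
  haveI : NeZero n := ⟨by omega⟩
  cases x with
  | sr i => exact DihedralGroup.orderOf_sr i
  | r i =>
    obtain ⟨⟨c, hcC⟩, hgen⟩ := hC.exists_generator
    have hord : orderOf c = n := by
      have := orderOf_eq_card_of_forall_mem_zpowers hgen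
      rw [Subgroup.orderOf_mk] at this
      exact this.trans hcard
    have hzC : zpowers c ≤ C := Subgroup.zpowers_le.mpr hcC
    cases c with
    | sr j =>
      rw [DihedralGroup.orderOf_sr] at hord
      subst hord
      have hi : ∀ i : ZMod 2, i = 0 ∨ i = 1 := by decide
      rcases hi i with rfl | rfl
      · exact absurd (one_mem C) hx
      · exact DihedralGroup.orderOf_r_one
    | r j =>
      exfalso
      apply hx
      apply hzC
      have h1 : zpowers (DihedralGroup.r j : DihedralGroup n) ≤ zpowers (DihedralGroup.r 1) := by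
        rw [Subgroup.zpowers_le]
        refine ⟨(j.val : ℤ), ?_⟩
        simp [DihedralGroup.r_one_pow]
      have h2 : zpowers (DihedralGroup.r j : DihedralGroup n) = zpowers (DihedralGroup.r 1) := by
        apply Subgroup.eq_of_le_of_card_ge h1
        rw [Nat.card_zpowers, Nat.card_zpowers, hord, DihedralGroup.orderOf_r_one]
      rw [h2]
      refine ⟨(i.val : ℤ), ?_⟩
      simp [DihedralGroup.r_one_pow]


/-- A consequence of Thompson's transfer lemma. Let G be a finite group, L a subgroup with O²(L) = L, T a Sylow 2-subgroup of L and S a Sylow 2-subgroup of G containing T. Suppose D ≤ S is a dihedral subgroup of order at least 4 (the four-group counts) with D ∩ T = 1 and S = TD as a set of products (so |S| = |T|·|D|), and C ≤ D is cyclic of index 2 in D. If no involution of D outside C is G-conjugate to an involution of the subgroup generated by T and C, and the involution of C is not G-conjugate to any involution of T, then G has a normal subgroup K, containing every Sylow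 2-subgroup of L as a Sylow 2-subgroup, with G = KD. -/
theorem result {G : Type*} [Group G] [Finite G] (L T S D C : Subgroup G) (hL : Cfsg.pResidual 2 ↥L = ⊤)
    (hTL : T ≤ L) (hT2 : IsPGroup 2 T) (hTsyl : ¬ 2 ∣ T.relIndex L)
    (hS2 : IsPGroup 2 S) (hSsyl : ¬ 2 ∣ S.index) (hTS : T ≤ S)
    (hDS : D ≤ S) (hDih : ∃ n : ℕ, 2 ≤ n ∧ Nonempty (↥D ≃* DihedralGroup n)) (hDT : D ⊓ T = ⊥) (hTD : T ⊔ D = S) (hTDc : Nat.card T * Nat.card D = Nat.card S)
    (hCD : C ≤ D) (hC : IsCyclic ↥C) (hCi : C.relIndex D = 2)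
    (h1 : ∀ x ∈ D, x ∉ C → orderOf x = 2 → ∀ g : G, g * x * g⁻¹ ∈ T ⊔ C → False)
    (h2 : ∀ c ∈ C, orderOf c = 2 → ∀ g : G, g * c * g⁻¹ ∈ T → False) :
    ∃ K : Subgroup G, K.Normal ∧ K ⊔ D = ⊤ ∧
      ∀ T' : Subgroup G, T' ≤ L → IsPGroup 2 T' → ¬ 2 ∣ T'.relIndex L → T' ≤ K ∧ ¬ 2 ∣ T'.relIndex K := by
  classical
  haveI : Fact (Nat.Prime 2) := ⟨Nat.prime_two⟩
  set O : Subgroup G := Cfsg.pResidual 2 G with hO
  haveI hOn : O.Normal := Cfsg.Agent.Lib.Helper1.pResidual_normal 2
  -- L ≤ O
  have hLO : L ≤ O := by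
    intro x hx
    have h1 : (⟨x, hx⟩ : ↥L) ∈ Cfsg.pResidual 2 ↥L := by rw [hL]; trivial
    have h2 : Cfsg.pResidual 2 ↥L ≤ O.subgroupOf L := by
      unfold Cfsg.pResidual
      rw [Subgroup.closure_le]
      intro g hg
      rw [SetLike.mem_coe, Subgroup.mem_subgroupOf]
      apply Subgroup.subset_closure
      show Nat.Coprime (orderOf (g : G)) 2
      rw [Subgroup.orderOf_coe]
      exact hg
    exact Subgroup.mem_subgroupOf.mp (h2 h1)
  have hTO : T ≤ O := hTL.trans hLO
  obtain ⟨n, hn, ⟨e⟩⟩ := hDih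
  haveI : NeZero n := ⟨by omega⟩
  have hDcard : Nat.card D = 2 * n := by rw [Nat.card_congr e.toEquiv, DihedralGroup.nat_card]
  have hCcard : Nat.card C * 2 = Nat.card D := by rw [← hCi]; exact card_mul_relIndex' hCD
  have hCn : Nat.card C = n := by omega
  have hinv : ∀ x ∈ D, x ∉ C → orderOf x = 2 := by
    intro x hxD hxC
    let C' : Subgroup (DihedralGroup n) := (C.subgroupOf D).map e.toMonoidHom
    let e1 : ↥C ≃* ↥C' := (Subgroup.subgroupOfEquivOfLe hCD).symm.trans
      ((C.subgroupOf D).equivMapOfInjective e.toMonoidHom e.injective)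
    have hC'cyc : IsCyclic C' := (MulEquiv.isCyclic e1).mp hC
    have hC'card : Nat.card C' = n := by rw [← Nat.card_congr e1.toEquiv, hCn]
    have h3 := dih_invol hn C' hC'cyc hC'card (e ⟨x, hxD⟩) (by
      rintro ⟨w, hw, hwe⟩
      have : w = ⟨x, hxD⟩ := e.injective hwe
      rw [this] at hw
      exact hxC (Subgroup.mem_subgroupOf.mp hw))
    rw [MulEquiv.orderOf_eq, Subgroup.orderOf_mk] at h3
    exact h3
  obtain ⟨x0, hx0D, hx0C⟩ : ∃ x0 ∈ D, x0 ∉ C := by
    have : ¬ D ≤ C := by
      intro h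
      rw [Subgroup.relIndex_eq_one.mpr h] at hCi
      omega
    exact SetLike.not_le_iff_exists.mp this
  set Q : Subgroup G := T ⊔ C with hQ
  have hQS : Q ≤ S := sup_le hTS (hCD.trans hDS)
  have hTpos : 0 < Nat.card T := Nat.card_pos
  have hCpos : 0 < Nat.card C := Nat.card_pos
  have hQge : Nat.card T * Nat.card C ≤ Nat.card Q := by
    rw [← Nat.card_prod]
    apply Nat.card_le_card_of_injective
      (fun tc : T × C => (⟨(tc.1 : G) * tc.2, mul_mem ((le_sup_left : T ≤ Q) tc.1.2)
        ((le_sup_right : C ≤ Q) tc.2.2)⟩ : Q))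
    rintro ⟨t, c⟩ ⟨t', c'⟩ h
    have h1 : (t : G) * c = t' * c' := congrArg Subtype.val h
    have h2 : (t' : G)⁻¹ * t = c' * (c : G)⁻¹ := by
      calc (t' : G)⁻¹ * t = (t' : G)⁻¹ * (t * c) * (c : G)⁻¹ := by group
        _ = (t' : G)⁻¹ * (t' * c') * (c : G)⁻¹ := by rw [h1]
        _ = _ := by group
    have h3 : (t' : G)⁻¹ * t ∈ D ⊓ T := by
      refine Subgroup.mem_inf.mpr ⟨?_, mul_mem (inv_mem t'.2) t.2⟩
      rw [h2]
      exact hCD (mul_mem c'.2 (inv_mem c.2))
    rw [hDT, Subgroup.mem_bot] at h3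
    have h4 : (t : G) = t' := by
      have := inv_mul_eq_one.mp h3
      exact this.symm
    have h5 : (c : G) = c' := by
      rw [h4] at h1
      exact mul_left_cancel h1
    exact Prod.ext (Subtype.ext h4) (Subtype.ext h5)
  have hQne : Nat.card Q ≠ Nat.card S := by
    intro h
    have : Q = S := Subgroup.eq_of_le_of_card_ge hQS h.ge
    apply h1 x0 hx0D hx0C (hinv x0 hx0D hx0C) 1
    rw [this]
    simpa using hDS hx0D
  have hQcard : Nat.card Q = Nat.card T * Nat.card C := by
    obtain ⟨j, hj⟩ := Subgroup.card_dvd_of_le hQS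
    have hS2a : Nat.card S = 2 * (Nat.card T * Nat.card C) := by
      rw [← hTDc, ← hCcard]; ring
    have hj0 : j ≠ 0 := by
      rintro rfl
      have : 0 < Nat.card S := Nat.card_pos
      omega
    have hj1 : j ≠ 1 := by
      rintro rfl
      apply hQne; omega
    have hj2 : 2 ≤ j := by omega
    have : Nat.card Q * 2 ≤ Nat.card Q * j := Nat.mul_le_mul_left _ hj2
    omega
  set m := S.index with hm
  have hmodd : Odd m := Nat.odd_iff.mpr (by omega)
  have hGcard : Nat.card G = Nat.card T * Nat.card C * 2 * m := by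
    rw [← S.card_mul_index, ← hTDc, ← hCcard]; ring
  have hQidx : Q.index = 2 ^ (0 + 1) * m := by
    have h3 := Q.card_mul_index
    rw [hQcard, hGcard] at h3
    have h4 : 0 < Nat.card T * Nat.card C := by positivity
    have : Nat.card T * Nat.card C * Q.index = Nat.card T * Nat.card C * (2 ^ (0 + 1) * m) := by
      rw [h3]; ring
    exact Nat.eq_of_mul_eq_mul_left h4 this
  have : Fintype (G ⧸ Q) := Fintype.ofFinite _
  set f : G →* ℤˣ := Equiv.Perm.sign.comp (MulAction.toPermHom G (G ⧸ Q)) with hf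
  have hfx : ∀ x ∈ D, x ∉ C → f x = -1 := by
    intro x hxD hxC
    apply sign_semiregular Q x 0 m _ _ hmodd hQidx
    · simpa using hinv x hxD hxC
    · intro g hg
      apply h1 x hxD hxC (hinv x hxD hxC) g
      simpa using hg
  have hker : f.ker.index = 2 :=
    Cfsg.Agent.Lib.Helper18.index_ker_of_apply_eq_neg_one f _ (hfx x0 hx0D hx0C)
  have hCM : C ≤ f.ker := by
    intro c hc
    have h3 : f (x0 * c) = -1 := by
      apply hfx _ (mul_mem hx0D (hCD hc))
      intro h
      apply hx0C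
      have := mul_mem h (inv_mem hc)
      simpa using this
    rw [map_mul, hfx x0 hx0D hx0C] at h3
    show f c = 1
    have : f c = (-1) * ((-1) * f c) := by simp
    rw [this, h3]; rfl
  have hOM : O ≤ f.ker := by
    rw [hO]
    unfold Cfsg.pResidual
    rw [Subgroup.closure_le]
    intro g hg
    exact units_eq_one_of_odd f g hg
  have hMcard : ∀ k, Nat.card C = 2 ^ k → Nat.card f.ker = Nat.card T * 2 ^ k * m := by
    intro k hk
    have h3 := f.ker.card_mul_index
    rw [hker, hGcard, hk] at h3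
    have : Nat.card T * 2 ^ k * 2 * m = (Nat.card T * 2 ^ k * m) * 2 := by ring
    rw [this] at h3
    exact Nat.eq_of_mul_eq_mul_right (by norm_num) h3
  obtain ⟨k, hk⟩ := (IsPGroup.iff_card).mp (hS2.to_le (hCD.trans hDS))
  obtain ⟨⟨c0, hc0C⟩, hgen⟩ := hC.exists_generator
  have hc0ord : orderOf c0 = 2 ^ k := by
    have := orderOf_eq_card_of_forall_mem_zpowers hgen
    rw [Subgroup.orderOf_mk] at this
    exact this.trans hk
  obtain ⟨Y, hOY, hYcard⟩ := chain T hTO k f.ker c0 m hOM (hCM hc0C) hc0ord (by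
    intro e' he' hord g hg
    exact h2 e' ((Subgroup.zpowers_le.mpr hc0C) he') hord g hg) hmodd (hMcard k hk)
  refine ⟨O, hOn, ?_, ?_⟩
  · have h3 := Cfsg.Agent.Lib.Helper1.sylow_sup_eq_top_of_isPGroup_quotient (hS2.toSylow hSsyl)
      (N := O) (Cfsg.Agent.Lib.Helper1.isPGroup_quotient_pResidual 2)
    rw [IsPGroup.toSylow_coe, ← hTD] at h3
    rw [eq_top_iff, ← h3]
    exact sup_le (sup_le (hTO.trans le_sup_left) le_sup_right) le_sup_left
  · intro T' hT'L hT'2 hT'idx
    refine ⟨hT'L.trans hLO, ?_⟩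
    have hcardTT' : Nat.card T' = Nat.card T := by
      obtain ⟨s, hs⟩ := (IsPGroup.iff_card).mp hT2
      obtain ⟨s', hs'⟩ := (IsPGroup.iff_card).mp hT'2
      have e1 := card_mul_relIndex' hTL
      have e2 := card_mul_relIndex' hT'L
      have c1 : Nat.Coprime (2 ^ s') (T.relIndex L) :=
        Nat.Coprime.pow_left _ ((Nat.Prime.coprime_iff_not_dvd Nat.prime_two).mpr hTsyl)
      have c2 : Nat.Coprime (2 ^ s) (T'.relIndex L) :=
        Nat.Coprime.pow_left _ ((Nat.Prime.coprime_iff_not_dvd Nat.prime_two).mpr hT'idx)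
      rw [hs, hs']
      rw [hs] at e1
      rw [hs'] at e2
      apply Nat.dvd_antisymm
      · apply c1.dvd_of_dvd_mul_right
        rw [e1, ← e2]
        exact Dvd.intro _ rfl
      · apply c2.dvd_of_dvd_mul_right
        rw [e2, ← e1]
        exact Dvd.intro _ rfl
    have e3 := card_mul_relIndex' (hT'L.trans hLO)
    have e4 : Nat.card O ∣ Nat.card Y := Subgroup.card_dvd_of_le hOY
    rw [← e3, hYcard, hcardTT'] at e4
    have e5 : T'.relIndex O ∣ m := Nat.dvd_of_mul_dvd_mul_left hTpos e4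
    intro h
    have := h.trans e5
    exact hSsyl this

end Cfsg.Agent.S1924
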