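import Cfsg.Statements.S1939
import Cfsg.Agent.Lib.Helper12.Conj

set_option autoImplicit false
open Cfsg
open Cfsg.Agent.Lib.Helper12

namespace Cfsg.Agent.S1939

/-- Let S be a Sylow p-subgroup of the finite group G and a an element of S that is the only G-conjugate of a lying in S. Then every power of a has the same property: for every n, the only G-conjugate of a^n lying in S is a^n. -/
theorem result {G : Type*} [Group G] [Finite G] {p : ℕ} [Fact p.Prime] (S : Sylow p G) (a : G)
    (haS : a ∈ (S : Subgroup G)) (hwc : ∀ g : G, g * a * g⁻¹ ∈ (S : Subgroup G) → g * a * g⁻¹ = a) (n : ℕ) :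
    ∀ g : G, g * a ^ n * g⁻¹ ∈ (S : Subgroup G) → g * a ^ n * g⁻¹ = a ^ n := by
  intro g hy
  set y := g * a ^ n * g⁻¹ with hydef
  have hcent : ∀ s ∈ (S : Subgroup G), s * a = a * s := by
    intro s hs
    have h1 := hwc s (Subgroup.mul_mem _ (Subgroup.mul_mem _ hs haS) (Subgroup.inv_mem _ hs))
    calc s * a = (s * a * s⁻¹) * s := by group
      _ = a * s := by rw [h1]
  have hcentn : ∀ s ∈ (S : Subgroup G), s * a ^ n = a ^ n * s := by
    intro s hs
    exact ((Commute.pow_right (hcent s hs : Commute s a) n) : Commute s (a ^ n))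
  set C := Subgroup.centralizer ({y} : Set G) with hC
  have haC : a ∈ C := by
    rw [hC, Subgroup.mem_centralizer_singleton_iff]
    exact (hcent y hy).symm
  have hgS : cj g (S : Subgroup G) ≤ C := by
    rintro _ ⟨s, hs, rfl⟩
    rw [hC, Subgroup.mem_centralizer_singleton_iff]
    have := hcentn s hs
    simp only [MulEquiv.coe_toMonoidHom, MulAut.conj_apply, hydef]
    calc g * s * g⁻¹ * (g * a ^ n * g⁻¹) = g * (s * a ^ n) * g⁻¹ := by group
      _ = g * (a ^ n * s) * g⁻¹ := by rw [this]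
      _ = g * a ^ n * g⁻¹ * (g * s * g⁻¹) := by group
  have hsyl : IsSylIn p (cj g (S : Subgroup G)) C := by
    have h1 := (isSylIn_top S).cj g
    rw [cj_top] at h1
    exact h1.of_le hgS le_top
  have hza : IsPGroup p (Subgroup.zpowers a) := S.2.to_le (by rw [Subgroup.zpowers_le]; exact haS)
  obtain ⟨c, hc, hc'⟩ := hsyl.exists_conj_le (R := Subgroup.zpowers a)
    (by rw [Subgroup.zpowers_le]; exact haC) hza
  have h1 : c * a * c⁻¹ ∈ cj g (S : Subgroup G) := hc' (conj_mem_cj (Subgroup.mem_zpowers a))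
  rw [mem_cj] at h1
  have h2 := hwc (g⁻¹ * c) (by
    have e : g⁻¹ * c * a * (g⁻¹ * c)⁻¹ = g⁻¹ * (c * a * c⁻¹) * g := by group
    rw [e]; exact h1)
  have h3 : g * a * g⁻¹ = c * a * c⁻¹ := by
    calc g * a * g⁻¹ = g * (g⁻¹ * c * a * (g⁻¹ * c)⁻¹) * g⁻¹ := by rw [h2]
      _ = c * a * c⁻¹ := by group
  have h4 : y = c * a ^ n * c⁻¹ := by
    rw [hydef, ← conj_pow, ← conj_pow, h3]
  rw [hC, Subgroup.mem_centralizer_singleton_iff] at hc
  calc y = c⁻¹ * (c * y) := by group
    _ = c⁻¹ * (y * c) := by rw [hc]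
    _ = c⁻¹ * (c * a ^ n * c⁻¹ * c) := by rw [← h4]
    _ = a ^ n := by group

end Cfsg.Agent.S1939
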