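import Mathlib
import Cfsg.Statements.S1940

set_option autoImplicit false
open Cfsg

namespace Cfsg.Agent.S1940

/-- Let the finite group L act by automorphisms on the finite abelian group M, and let N be an L-invariant subgroup of M such that M/N is a p-group on which L acts trivially (every l • m lies in the coset mN). If every element of M is a product of an element of N and an element fixed by a Sylow p-subgroup T of L, then every element of M is a product of an element of N and an element fixed by all of L. -/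
theorem result {L : Type*} [Group L] [Finite L] {M : Type*} [CommGroup M] [Finite M] [MulDistribMulAction L M]
    {p : ℕ} [Fact p.Prime] (N : Subgroup M) (hN : ∀ (l : L) (m : M), m ∈ N → l • m ∈ N)
    (hquot : IsPGroup p (M ⧸ N)) (htriv : ∀ (l : L) (m : M), (l • m) * m⁻¹ ∈ N) (T : Sylow p L)
    (hT : ∀ m : M, ∃ n ∈ N, ∃ c : M, (∀ t ∈ (T : Subgroup L), t • c = c) ∧ m = n * c) :
    ∀ m : M, ∃ n ∈ N, ∃ c : M, (∀ l : L, l • c = c) ∧ m = n * c := by
  classical
  have hp : p.Prime := Fact.out
  intro m
  obtain ⟨n, hn, c, hc, rfl⟩ := hT m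
  haveI : Fintype (L ⧸ (T : Subgroup L)) := Fintype.ofFinite _
  let F : L ⧸ (T : Subgroup L) → M := Quotient.lift (fun l : L => l • c) (by
    intro a b hab
    have h1 : a⁻¹ * b ∈ (T : Subgroup L) := QuotientGroup.leftRel_apply.1 hab
    have h2 := hc _ h1
    change a • c = b • c
    calc a • c = a • ((a⁻¹ * b) • c) := by rw [h2]
      _ = b • c := by rw [smul_smul]; simp)
  have hF : ∀ l : L, F (QuotientGroup.mk l) = l • c := fun l => rfl
  set c' : M := ∏ q : L ⧸ (T : Subgroup L), F q with hc'
  have hfix : ∀ l : L, l • c' = c' := by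
    intro l
    rw [hc', Finset.smul_prod']
    refine Fintype.prod_equiv (MulAction.toPerm l) _ _ ?_
    intro q
    induction q using QuotientGroup.induction_on with
    | H a =>
      rw [hF, MulAction.toPerm_apply]
      change l • a • c = F (QuotientGroup.mk (l * a))
      rw [hF, smul_smul]
  set k : ℕ := Fintype.card (L ⧸ (T : Subgroup L)) with hk
  have hkidx : k = (T : Subgroup L).index := by
    rw [hk, Subgroup.index, Nat.card_eq_fintype_card]
  have hkp : ¬ p ∣ k := by rw [hkidx]; exact T.not_dvd_index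
  have hmod : c' * (c ^ k)⁻¹ ∈ N := by
    have h1 : c' * (c ^ k)⁻¹ = ∏ q : L ⧸ (T : Subgroup L), (F q * c⁻¹) := by
      rw [Finset.prod_mul_distrib, Finset.prod_const, Finset.card_univ, inv_pow]
    rw [h1]
    apply Subgroup.prod_mem
    intro q _
    induction q using QuotientGroup.induction_on with
    | H a => rw [hF]; exact htriv a c
  obtain ⟨a, ha⟩ := hquot (QuotientGroup.mk c)
  have hcN : c ^ (p ^ a) ∈ N := by
    rw [← QuotientGroup.eq_one_iff]
    exact ha
  have hcop : Nat.Coprime k (p ^ a) :=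
    Nat.Coprime.pow_right _ ((Nat.Prime.coprime_iff_not_dvd hp).2 hkp).symm
  have hb : (k : ℤ) * Nat.gcdA k (p ^ a) + ((p ^ a : ℕ) : ℤ) * Nat.gcdB k (p ^ a) = 1 := by
    have := Nat.gcd_eq_gcd_ab k (p ^ a)
    rw [hcop.gcd_eq_one] at this
    exact_mod_cast this.symm
  set u := Nat.gcdA k (p ^ a)
  set v := Nat.gcdB k (p ^ a)
  have hcexp : c = (c ^ k) ^ u * (c ^ (p ^ a)) ^ v := by
    rw [← zpow_natCast, ← zpow_natCast, ← zpow_mul, ← zpow_mul, ← zpow_add, hb, zpow_one]
  refine ⟨n * (((c' * (c ^ k)⁻¹) ^ u)⁻¹ * (c ^ (p ^ a)) ^ v), ?_, c' ^ u, ?_, ?_⟩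
  · exact N.mul_mem hn (N.mul_mem (N.inv_mem (N.zpow_mem hmod _)) (N.zpow_mem hcN _))
  · intro l
    have := map_zpow (MulDistribMulAction.toMonoidHom M l) c' u
    simp only [MulDistribMulAction.toMonoidHom_apply] at this
    rw [this, hfix]
  · conv_lhs => rw [hcexp]
    rw [mul_zpow, inv_zpow]
    simp only [mul_inv, inv_inv]
    have : ∀ A B C D : M, A * (B * C) = A * (D⁻¹ * B * C) * D := by
      intro A B C D
      calc A * (B * C) = A * (B * C) * (D⁻¹ * D) := by simp
        _ = _ := by
          simp only [mul_assoc, mul_comm, mul_left_comm]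
    exact this _ _ _ _

end Cfsg.Agent.S1940
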