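import Cfsg.Statements.S1941
import Cfsg.Agent.Lib.Helper8.LBalance3
import Cfsg.Agent.Lib.Helper16.Cores

set_option autoImplicit false
open Cfsg

namespace Cfsg.Agent.S1941

open Cfsg.Agent.Lib.Helper8


/-- Let G be a finite group with no nontrivial normal subgroup of order prime to p, T a Sylow p-subgroup of G and E(G) the layer of G (the subgroup generated by its components). An automorphism of G of p-power order that fixes T and E(G) elementwise is inner. -/
theorem result {G : Type*} [Group G] [Finite G] {p : ℕ} [Fact p.Prime] (hcore : Cfsg.pPrimeCore p G = ⊥)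
    (T : Sylow p G) (α : MulAut G) (hα : ∃ j : ℕ, orderOf α = p ^ j) (hfixT : ∀ x ∈ (T : Subgroup G), α x = x)
    (hfixE : ∀ x ∈ Cfsg.layer G, α x = x) : ∃ g : G, ∀ x : G, α x = g * x * g⁻¹ := by
  classical
  haveI := generalizedFittingSubgroup_normal (G := G)
  obtain ⟨Z, hZ⟩ : ∃ Z, Z = Subgroup.centralizer (Cfsg.generalizedFittingSubgroup G : Set G) := ⟨_, rfl⟩
  haveI hZn : Z.Normal := by rw [hZ]; infer_instance
  have hZF : Z ≤ Cfsg.generalizedFittingSubgroup G := hZ ▸ centralizer_generalizedFitting_le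
  have hZp : IsPGroup p Z :=
    (isPGroup_pCore p).to_le (hZ ▸ centralizer_generalizedFitting_le_pCore p hcore)
  have hZc : ∀ a b : Z, a * b = b * a := by
    intro a b
    apply Subtype.ext
    have h0 : (a : G) ∈ Subgroup.centralizer (Cfsg.generalizedFittingSubgroup G : Set G) := hZ ▸ a.2
    exact ((Subgroup.mem_centralizer_iff.mp h0) b (hZF b.2)).symm
  -- `α` fixes `F*(G)` elementwise
  have hfix : ∀ x ∈ Cfsg.generalizedFittingSubgroup G, α x = x := by
    have : Cfsg.generalizedFittingSubgroup G ≤ α.toMonoidHom.eqLocus (MonoidHom.id G) := by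
      unfold Cfsg.generalizedFittingSubgroup
      apply sup_le
      · intro x hx; exact hfixE x hx
      · rw [fitting_eq_pCore_of_pPrimeCore_eq_bot p hcore]
        intro x hx
        exact hfixT x (Cfsg.Agent.Lib.Helper16.pCore_le_sylow T hx)
    intro x hx
    exact this hx
  have hd : ∀ g : G, α g * g⁻¹ ∈ Z := by
    intro g
    rw [hZ, Subgroup.mem_centralizer_iff]
    intro x hx
    have h1 : g⁻¹ * x * g ∈ Cfsg.generalizedFittingSubgroup G := by
      have := (inferInstance : (Cfsg.generalizedFittingSubgroup G).Normal).conj_mem x hx g⁻¹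
      rwa [inv_inv] at this
    have h2 := hfix _ h1
    rw [map_mul, map_mul, map_inv, hfix x hx] at h2
    have h3 : x * α g = α g * (g⁻¹ * x * g) := by rw [← h2]; group
    calc x * (α g * g⁻¹) = (x * α g) * g⁻¹ := by group
      _ = α g * (g⁻¹ * x * g) * g⁻¹ := by rw [h3]
      _ = α g * g⁻¹ * x := by group
  letI : CommGroup Z := { (inferInstance : Group Z) with mul_comm := hZc }
  let d : G → Z := fun g => ⟨α g * g⁻¹, hd g⟩
  have hdT : ∀ (g : G) (t : (T : Subgroup G)), d (g * t) = d g := by
    intro g t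
    apply Subtype.ext
    show α (g * t) * (g * t)⁻¹ = α g * g⁻¹
    rw [map_mul, hfixT t t.2]
    group
  have hdmul : ∀ h g : G, d (h * g) = d h * MulAut.conjNormal h (d g) := by
    intro h g
    apply Subtype.ext
    show α (h * g) * (h * g)⁻¹ = (α h * h⁻¹) * (h * (α g * g⁻¹) * h⁻¹)
    rw [map_mul]
    group
  haveI := Fintype.ofFinite (G ⧸ (T : Subgroup G))
  let f : G ⧸ (T : Subgroup G) → Z := fun q => d q.out
  have hf : ∀ g : G, f (QuotientGroup.mk g) = d g := by
    intro g
    obtain ⟨t, ht⟩ := QuotientGroup.mk_out_eq_mul (T : Subgroup G) g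
    show d (QuotientGroup.mk g : G ⧸ (T : Subgroup G)).out = d g
    rw [ht, hdT]
  have hfsmul : ∀ (h : G) (q : G ⧸ (T : Subgroup G)), f (h • q) = d h * MulAut.conjNormal h (f q) := by
    intro h q
    induction q using QuotientGroup.induction_on with
    | H g =>
      rw [hf g, ← hdmul, ← hf (h * g)]
      rfl
  obtain ⟨P, hP⟩ : ∃ P : Z, P = ∏ q : G ⧸ (T : Subgroup G), f q := ⟨_, rfl⟩
  have hmain : ∀ h : G, P = d h ^ (T : Subgroup G).index * MulAut.conjNormal h P := by
    intro h
    have h1 : ∏ q : G ⧸ (T : Subgroup G), f (h • q) = P := by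
      rw [hP]
      exact Equiv.prod_comp (MulAction.toPerm h) f
    have h2 : ∏ q : G ⧸ (T : Subgroup G), f (h • q) =
        d h ^ (T : Subgroup G).index * MulAut.conjNormal h P := by
      simp only [hfsmul]
      rw [Finset.prod_mul_distrib, Finset.prod_const, Finset.card_univ, ← Nat.card_eq_fintype_card,
        ← map_prod, ← hP]
      rfl
    rw [← h2, h1]
  have hcop : (Nat.card Z).Coprime (T : Subgroup G).index := by
    obtain ⟨k, hk⟩ := hZp.exists_card_eq
    rw [hk]
    apply Nat.Coprime.pow_left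
    exact (Nat.Prime.coprime_iff_not_dvd Fact.out).mpr T.not_dvd_index
  obtain ⟨u, hu⟩ := (Nat.Coprime.pow_left_bijective hcop).2 P
  have hu' : u ^ (T : Subgroup G).index = P := hu
  have hfinal : ∀ h : G, d h = u * (MulAut.conjNormal h u)⁻¹ := by
    intro h
    apply (Nat.Coprime.pow_left_bijective hcop).1
    show d h ^ (T : Subgroup G).index = (u * (MulAut.conjNormal h u)⁻¹) ^ (T : Subgroup G).index
    rw [mul_pow, inv_pow, ← map_pow, hu']
    have := hmain h
    rw [eq_mul_inv_iff_mul_eq]
    exact this.symm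
  refine ⟨u, fun x => ?_⟩
  have h1 := congrArg Subtype.val (hfinal x)
  have h2 : α x * x⁻¹ = (u : G) * (x * u * x⁻¹)⁻¹ := h1
  calc α x = (α x * x⁻¹) * x := by group
    _ = (u : G) * (x * u * x⁻¹)⁻¹ * x := by rw [h2]
    _ = u * x * (u : G)⁻¹ := by group

end Cfsg.Agent.S1941
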