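import Cfsg.Statements.S1948
import Cfsg.Agent.S0629
import Cfsg.Agent.Lib.Helper12.Rel
import Cfsg.Agent.Lib.Helper17.Cores
import Cfsg.Agent.Lib.Helper29.PSolvable2

set_option autoImplicit false
open Cfsg

namespace Cfsg.Agent.S1948

open Cfsg.Agent.Lib.Helper12

theorem core_normal {G : Type*} [Group G] (p : ℕ) : (Cfsg.pPrimeCore p G).Normal :=
  haveI := Cfsg.Agent.Lib.Helper17.pPrimeCore_characteristic (G := G) p
  inferInstance

theorem pp_normal {G : Type*} [Group G] (p : ℕ) : (Cfsg.pPrimePCore p G).Normal := by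
  haveI := core_normal (G := G) p
  haveI := Cfsg.Agent.Lib.Helper17.pCore_characteristic (G := G ⧸ Cfsg.pPrimeCore p G) p
  exact Subgroup.Normal.comap inferInstance _

theorem pp_le {G : Type*} [Group G] [Finite G] {p : ℕ} [Fact p.Prime] (S : Sylow p G) :
    Cfsg.pPrimePCore p G ≤ (S : Subgroup G) ⊔ Cfsg.pPrimeCore p G := by
  haveI := core_normal (G := G) p
  intro l hl
  have h1 : QuotientGroup.mk' (Cfsg.pPrimeCore p G) l ∈ Cfsg.pCore p (G ⧸ Cfsg.pPrimeCore p G) := hl
  have h2 := Cfsg.Agent.Lib.Helper17.pCore_le_sylow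
    (S.mapSurjective (QuotientGroup.mk'_surjective (Cfsg.pPrimeCore p G))) h1
  obtain ⟨s, hs, hsl⟩ := h2
  have h3 : s⁻¹ * l ∈ Cfsg.pPrimeCore p G := by
    rw [← QuotientGroup.eq_one_iff]
    have : ((s⁻¹ * l : G) : G ⧸ Cfsg.pPrimeCore p G)
      = (QuotientGroup.mk' (Cfsg.pPrimeCore p G) s)⁻¹ * QuotientGroup.mk' (Cfsg.pPrimeCore p G) l := rfl
    rw [this, hsl]; group
  have h4 : l = s * (s⁻¹ * l) := by group
  rw [h4]
  exact Subgroup.mul_mem_sup hs h3

theorem psol_of {G : Type*} [Group G] [Finite G] {p : ℕ} [hp : Fact p.Prime] (S : Sylow p G)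
    (h : Subgroup.normalizer ((S : Subgroup G) : Set G) ⊔ Cfsg.pPrimeCore p G = ⊤) :
    Cfsg.IsPSolvable p G := by
  haveI hKn := core_normal (G := G) p
  have hSKn : ((S : Subgroup G) ⊔ Cfsg.pPrimeCore p G).Normal := by
    rw [← Subgroup.normalizer_eq_top_iff, eq_top_iff, ← h]
    apply sup_le
    · intro n hn
      apply Cfsg.Agent.Lib.Helper17.mem_normalizer_of_map_conj_le
      rw [Subgroup.map_sup]
      apply sup_le_sup
      · exact (mem_normalizer_iff_cj.mp hn).le
      · rintro _ ⟨y, hy, rfl⟩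
        exact hKn.conj_mem y hy n
    · exact le_sup_right.trans Subgroup.le_normalizer
  refine ⟨3, ![⊥, Cfsg.pPrimeCore p G, (S : Subgroup G) ⊔ Cfsg.pPrimeCore p G, ⊤], rfl, rfl, ?_, ?_, ?_⟩
  · rw [Fin.monotone_iff_le_succ]
    intro i
    fin_cases i
    · exact bot_le
    · exact le_sup_right
    · exact le_top
  · intro i
    fin_cases i
    · exact (inferInstance : (⊥ : Subgroup G).Normal)
    · exact hKn
    · exact hSKn
    · exact (inferInstance : (⊤ : Subgroup G).Normal)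
  · intro i
    fin_cases i
    · right
      show ((⊥ : Subgroup G).relIndex (Cfsg.pPrimeCore p G)).Coprime p
      rw [Subgroup.relIndex_bot_left]
      exact Cfsg.Agent.Lib.Helper17.pPrimeCore_coprime p
    · left
      show ∃ m : ℕ, (Cfsg.pPrimeCore p G).relIndex ((S : Subgroup G) ⊔ Cfsg.pPrimeCore p G) = p ^ m
      rw [Subgroup.relIndex_sup_right]
      obtain ⟨a, ha⟩ := IsPGroup.iff_card.mp S.2
      obtain ⟨m, _, hm⟩ := (Nat.dvd_prime_pow hp.out).mp
        (ha ▸ Subgroup.relIndex_dvd_card (Cfsg.pPrimeCore p G) (S : Subgroup G))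
      exact ⟨m, hm⟩
    · right
      show (((S : Subgroup G) ⊔ Cfsg.pPrimeCore p G).relIndex ⊤).Coprime p
      rw [Subgroup.relIndex_top_right]
      have h1 : ((S : Subgroup G) ⊔ Cfsg.pPrimeCore p G).index ∣ (S : Subgroup G).index :=
        Subgroup.index_dvd_of_le le_sup_left
      have h2 : ¬ p ∣ ((S : Subgroup G) ⊔ Cfsg.pPrimeCore p G).index :=
        fun h3 => S.not_dvd_index (h3.trans h1)
      exact ((Nat.Prime.coprime_iff_not_dvd hp.out).mpr h2).symm

/-- Let S be a Sylow p-subgroup of the finite group G. Then G = N_G(S)·O_{p'}(G) if and only if G is p-constrained and N_G(S) controls fusion in S, in the sense that whenever a subgroup Q of S has a conjugate g Q g⁻¹ inside S, the element g is a product n c with n normalizing S and c centralizing Q. -/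
theorem result {G : Type*} [Group G] [Finite G] {p : ℕ} [Fact p.Prime] (S : Sylow p G) :
    Subgroup.normalizer ((S : Subgroup G) : Set G) ⊔ Cfsg.pPrimeCore p G = ⊤ ↔
      (Cfsg.IsPConstrained p G ∧
        ∀ Q : Subgroup G, Q ≤ (S : Subgroup G) → ∀ g : G, Q.map (MulAut.conj g).toMonoidHom ≤ (S : Subgroup G) →
          ∃ n ∈ Subgroup.normalizer ((S : Subgroup G) : Set G), ∃ c ∈ Subgroup.centralizer (Q : Set G), g = n * c) := by
  haveI hKn := core_normal (G := G) p
  haveI hLn := pp_normal (G := G) p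
  constructor
  · intro h
    refine ⟨?_, ?_⟩
    · obtain ⟨P⟩ : Nonempty (Sylow p ↥(Cfsg.pPrimePCore p G)) := inferInstance
      exact Cfsg.Agent.S0629.result P (Cfsg.Agent.Lib.Helper29.psol_subgroup (psol_of S h) _)
    · intro Q hQ g hg
      have hgm : g ∈ ((Subgroup.normalizer ((S : Subgroup G) : Set G) ⊔ Cfsg.pPrimeCore p G : Subgroup G) : Set G) := by
        rw [h]; trivial
      rw [Subgroup.mul_normal] at hgm
      obtain ⟨n, hn, k, hk, rfl⟩ := Set.mem_mul.mp hgm
      refine ⟨n, hn, k, ?_, rfl⟩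
      rw [Subgroup.mem_centralizer_iff]
      intro x hx
      have h1 : n * k * x * (n * k)⁻¹ ∈ (S : Subgroup G) := hg ⟨x, hx, by simp [mul_assoc]⟩
      have h2 : k * x * k⁻¹ ∈ (S : Subgroup G) := by
        have h3 := (Subgroup.mem_normalizer_iff.mp (Subgroup.inv_mem _ hn) _).mp h1
        have h4 : n⁻¹ * (n * k * x * (n * k)⁻¹) * n⁻¹⁻¹ = k * x * k⁻¹ := by group
        rwa [h4] at h3
      have h5 : k * x * k⁻¹ * x⁻¹ ∈ (S : Subgroup G) ⊓ Cfsg.pPrimeCore p G := by
        refine Subgroup.mem_inf.mpr ⟨Subgroup.mul_mem _ h2 (Subgroup.inv_mem _ (hQ hx)), ?_⟩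
        have h6 : k * x * k⁻¹ * x⁻¹ = k * (x * k⁻¹ * x⁻¹) := by group
        rw [h6]
        exact Subgroup.mul_mem _ hk (hKn.conj_mem _ (Subgroup.inv_mem _ hk) x)
      have h7 : (S : Subgroup G) ⊓ Cfsg.pPrimeCore p G = ⊥ := by
        apply Disjoint.eq_bot
        apply Subgroup.disjoint_of_coprime_natCard
        obtain ⟨a, ha⟩ := IsPGroup.iff_card.mp S.2
        rw [ha]
        exact Nat.Coprime.pow_left a (Cfsg.Agent.Lib.Helper17.pPrimeCore_coprime p).symm
      rw [h7, Subgroup.mem_bot] at h5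
      calc x * k = (k * x * k⁻¹ * x⁻¹)⁻¹ * (k * x) := by group
        _ = k * x := by rw [h5]; group
  · rintro ⟨hcon, hfus⟩
    have hP : IsSylIn p ((S : Subgroup G) ⊓ Cfsg.pPrimePCore p G) (Cfsg.pPrimePCore p G) :=
      (isSylIn_top S).inf_normal le_top (by rw [Subgroup.normalizer_eq_top_iff.mpr hLn])
    have hC : Subgroup.centralizer ((((S : Subgroup G) ⊓ Cfsg.pPrimePCore p G : Subgroup G)) : Set G)
        ≤ Cfsg.pPrimePCore p G := by
      have h1 := hcon hP.toSylow
      rw [hP.coe_toSylow, Subgroup.map_subgroupOf_eq_of_le inf_le_right] at h1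
      exact h1
    have hL : Cfsg.pPrimePCore p G ≤
        Subgroup.normalizer ((S : Subgroup G) : Set G) ⊔ Cfsg.pPrimeCore p G :=
      (pp_le S).trans (sup_le_sup_right Subgroup.le_normalizer _)
    rw [eq_top_iff]
    intro g _
    obtain ⟨k, hk, n, hn, rfl⟩ := frattini_rel (p := p) (le_top : Cfsg.pPrimePCore p G ≤ ⊤)
      (by rw [Subgroup.normalizer_eq_top_iff.mpr hLn]) hP (Subgroup.mem_top g)
    have hn2 := (Subgroup.mem_inf.mp hn).2
    obtain ⟨n', hn', c, hc, rfl⟩ := hfus _ inf_le_left n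
      ((mem_normalizer_iff_cj.mp hn2).le.trans inf_le_left)
    exact Subgroup.mul_mem _ (hL hk) (Subgroup.mul_mem _ ((le_sup_left : _ ≤
      Subgroup.normalizer ((S : Subgroup G) : Set G) ⊔ Cfsg.pPrimeCore p G) hn') (hL (hC hc)))

end Cfsg.Agent.S1948
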