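import Cfsg.Statements.S1956
import Cfsg.Agent.Lib.Helper12.Conj

set_option autoImplicit false
open Cfsg
open Cfsg.Agent.Lib.Helper12

namespace Cfsg.Agent.S1956

/-- Let P be a Sylow p-subgroup of the finite group G such that every element of P of order dividing p (dividing 4 when p = 2) is central in P. Then the fusion of these elements is controlled by N_G(P): if such an element a of P has g a g⁻¹ in P, then g = n c with n normalizing P and c commuting with a. -/
theorem result {G : Type*} [Group G] [Finite G] {p : ℕ} [Fact p.Prime] (P : Sylow p G)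
    (hcen : ∀ a ∈ (P : Subgroup G), (a ^ p = 1 ∨ (p = 2 ∧ a ^ 4 = 1)) → ∀ y ∈ (P : Subgroup G), a * y = y * a) :
    ∀ a ∈ (P : Subgroup G), (a ^ p = 1 ∨ (p = 2 ∧ a ^ 4 = 1)) → ∀ g : G, g * a * g⁻¹ ∈ (P : Subgroup G) →
      ∃ n ∈ Subgroup.normalizer ((P : Subgroup G) : Set G), ∃ c : G, c * a = a * c ∧ g = n * c := by
  intro a ha hsmall g hb
  set b := g * a * g⁻¹ with hbdef
  have hbsmall : b ^ p = 1 ∨ (p = 2 ∧ b ^ 4 = 1) := by
    rcases hsmall with h | ⟨h2, h⟩
    · left; rw [hbdef, conj_pow, h]; group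
    · right; refine ⟨h2, ?_⟩; rw [hbdef, conj_pow, h]; group
  set C := Subgroup.centralizer ({b} : Set G) with hC
  have hPC : (P : Subgroup G) ≤ C := by
    intro y hy
    rw [hC, Subgroup.mem_centralizer_singleton_iff]
    exact (hcen b hb hbsmall y hy).symm
  have hgPC : cj g (P : Subgroup G) ≤ C := by
    rintro _ ⟨y, hy, rfl⟩
    rw [hC, Subgroup.mem_centralizer_singleton_iff]
    have := hcen a ha hsmall y hy
    simp only [MulEquiv.coe_toMonoidHom, MulAut.conj_apply, hbdef]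
    calc g * y * g⁻¹ * (g * a * g⁻¹) = g * (y * a) * g⁻¹ := by group
      _ = g * (a * y) * g⁻¹ := by rw [this]
      _ = g * a * g⁻¹ * (g * y * g⁻¹) := by group
  have hs1 : IsSylIn p (P : Subgroup G) C := (isSylIn_top P).of_le hPC le_top
  have hs2 : IsSylIn p (cj g (P : Subgroup G)) C := by
    have h1 := (isSylIn_top P).cj g
    rw [cj_top] at h1
    exact h1.of_le hgPC le_top
  obtain ⟨c, hc, hc'⟩ := hs1.exists_conj_eq hs2
  rw [← cj_mul] at hc'
  refine ⟨c * g, mem_normalizer_iff_cj.mpr hc', g⁻¹ * c⁻¹ * g, ?_, by group⟩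
  rw [hC, Subgroup.mem_centralizer_singleton_iff] at hc
  have h5 : c⁻¹ * b = b * c⁻¹ := by
    calc c⁻¹ * b = c⁻¹ * (b * c) * c⁻¹ := by group
      _ = c⁻¹ * (c * b) * c⁻¹ := by rw [hc]
      _ = b * c⁻¹ := by group
  calc g⁻¹ * c⁻¹ * g * a = g⁻¹ * (c⁻¹ * (g * a * g⁻¹)) * g := by group
    _ = g⁻¹ * ((g * a * g⁻¹) * c⁻¹) * g := by rw [← hbdef, h5]
    _ = a * (g⁻¹ * c⁻¹ * g) := by group

end Cfsg.Agent.S1956
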