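import Cfsg.Statements.S2002
import Cfsg.Agent.Lib.Helper12.WVChain

set_option autoImplicit false
open Cfsg
open Cfsg.Agent.Lib.Helper12

namespace Cfsg.Agent.S2002

/-- Let p be a prime dividing the order of the finite group G, P a Sylow p-subgroup, W a conjugacy functor for p on G with Z(H) ≤ W(H) for every nontrivial p-subgroup H, and V a central functor (a conjugacy functor with V(H) ≤ Z(H), and V(H) ≤ V(K) whenever Z(H) ≤ Z(K)). Say that W with V controls strong fusion in a subgroup L when some Sylow p-subgroup Q of L has the property: whenever X ⊆ Q and a ∈ L with a⁻¹Xa ⊆ Q, then a = c b with c ∈ C_L(X) and b = b₁ ⋯ bₙ a product of elements each in N_L(W(Q)) or in C_L(V(Q)) such that every partial conjugate (b₁ ⋯ bₖ)⁻¹ X (b₁ ⋯ bₖ) lies in Q. If W with V controls strong fusion in N_G(H) for every subgroup H with Z(P) ≤ H ≤ P, then W with V controls strong fusion in G. -/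
theorem result {G : Type*} [Group G] [Finite G] {p : ℕ} [Fact p.Prime] (hdiv : p ∣ Nat.card G) (P : Sylow p G) (W V : Subgroup G → Subgroup G) (hW : Cfsg.IsConjugacyFunctor p W) (hV : Cfsg.IsConjugacyFunctor p V) (hWZ : ∀ H : Subgroup G, IsPGroup p ↥H → H ⊓ Subgroup.centralizer ((H : Subgroup G) : Set G) ≤ W H) (hVZ : ∀ H : Subgroup G, IsPGroup p ↥H → V H ≤ H ⊓ Subgroup.centralizer ((H : Subgroup G) : Set G)) (hVmono : ∀ H K : Subgroup G, IsPGroup p ↥H → IsPGroup p ↥K → H ≠ ⊥ → K ≠ ⊥ → H ⊓ Subgroup.centralizer ((H : Subgroup G) : Set G) ≤ K ⊓ Subgroup.centralizer ((K : Subgroup G) : Set G) → V H ≤ V K) (hloc : ∀ H : Subgroup G, (P : Subgroup G) ⊓ Subgroup.centralizer (((P : Subgroup G) : Subgroup G) : Set G) ≤ H → H ≤ (P : Subgroup G) → ∃ Q : Subgroup G, Q ≤ Subgroup.normalizer ((H : Subgroup G) : Set G) ∧ IsPGroup p ↥Q ∧ ¬ p ∣ (Q).relIndex (Subgroup.normalizer ((H : Subgroup G) : Set G)) ∧ ∀ (X : Set G) (a : G), X ⊆ Q → a ∈ Subgroup.normalizer ((H : Subgroup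 G) : Set G) → (fun x => a⁻¹ * x * a) '' X ⊆ Q → ∃ c ∈ Subgroup.normalizer ((H : Subgroup G) : Set G) ⊓ Subgroup.centralizer X, ∃ (n : ℕ) (b : Fin n → G), (∀ i, b i ∈ Subgroup.normalizer ((H : Subgroup G) : Set G) ⊓ Subgroup.normalizer ((W Q : Subgroup G) : Set G) ∨ b i ∈ Subgroup.normalizer ((H : Subgroup G) : Set G) ⊓ Subgroup.centralizer ((V Q : Subgroup G) : Set G)) ∧ a = c * (List.ofFn b).prod ∧ ∀ k : ℕ, k ≤ n → (fun x => (((List.ofFn b).take k).prod)⁻¹ * x * ((List.ofFn b).take k).prod) '' ((fun x => c⁻¹ * x * c) '' X) ⊆ Q) : ∃ Q : Subgroup G, IsPGroup p ↥Q ∧ ¬ p ∣ Q.index ∧ ∀ (X : Set G) (a : G), X ⊆ Q → (fun x => a⁻¹ * x * a) '' X ⊆ Q → ∃ c ∈ Subgroup.centralizer X, ∃ (n : ℕ) (b : Fin n → G), (∀ i, b i ∈ ⊤ ⊓ Subgroup.normalizer ((W Q : Subgroup G) : Set G) ∨ b i ∈ ⊤ ⊓ Subgroup.centralizer ((V Q : Subgroup G) : Set G)) ∧ a = c * (List.ofFn b).prod ∧ ∀ k : ℕ, k ≤ n → (fun x => (((List.ofFn b).take k).prod)⁻¹ * x * ((List.ofFn b).take k).prod) '' ((fun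 x => c⁻¹ * x * c) '' X) ⊆ Q := by
  classical
  have hP : IsPGroup p (P : Subgroup G) := P.2
  have hPne : (P : Subgroup G) ≠ ⊥ := P.ne_bot_of_dvd_card hdiv
  have hgood : FusionClosed (UpTo (Chain (StWV W V ⊤ (P : Subgroup G)))) :=
    (chain_fusionClosed (StWV_symm W V ⊤ (P : Subgroup G))).upTo
  have main : ∀ A : Set G, A ⊆ (P : Subgroup G) → ∀ g : G, rc g A ⊆ (P : Subgroup G) →
      UpTo (Chain (StWV W V ⊤ (P : Subgroup G))) A g := by
    refine loc_glob_wpZ P hgood hW hWZ ?_ ?_ ?_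
    · intro B c hc
      refine ⟨1, Chain.nil B, ?_⟩
      intro a ha
      have := (Subgroup.mem_centralizer_iff.mp hc) a ha
      rw [mul_assoc c⁻¹, this]; group
    · intro d hd B hB hB'
      exact upTo_of (Chain.single (T := (P : Subgroup G)) ⟨rfl, Or.inl ⟨Subgroup.mem_top _, hd⟩⟩ hB hB')
    · intro T hZT hwp hsteps x hx B hB hB'
      have hsyl := IsWellPlaced.isSylIn P.2 hwp
      set N := Subgroup.normalizer (T : Set G) with hN
      set P₁ := (P : Subgroup G) ⊓ N with hP₁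
      have hP₁p : IsPGroup p P₁ := hP.to_le inf_le_left
      obtain ⟨Q, hQN, hQp, hQs, hQ⟩ := hloc T hZT hwp.1
      obtain ⟨y, hy, hyQ⟩ := hsyl.exists_conj_eq ⟨hQN, hQp, hQs⟩
      have hCQ : CWV W V N Q := by
        intro X a ha hX hX'
        obtain ⟨c, hc, n, b, hb, hab, hk⟩ := hQ X a hX ha hX'
        have hcX : rc c X = X := rc_eq_of_mem_centralizer hc.2
        refine ⟨(List.ofFn b).prod, chainWV_of_list W V N Q (List.ofFn b) X ?_ ?_, ?_⟩
        · intro z hz
          obtain ⟨i, rfl⟩ := (List.mem_ofFn' _ _).mp hz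
          exact hb i
        · intro k hkl
          have := hk k (by simpa using hkl)
          rw [show (fun x => c⁻¹ * x * c) '' X = X from hcX] at this
          exact this
        · intro z hz
          have hcz := (Subgroup.mem_centralizer_iff.mp hc.2) z hz
          rw [hab]
          have : c⁻¹ * z * c = z := by rw [mul_assoc, hcz]; group
          calc ((List.ofFn b).prod)⁻¹ * z * (List.ofFn b).prod
              = ((List.ofFn b).prod)⁻¹ * (c⁻¹ * z * c) * (List.ofFn b).prod := by rw [this]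
            _ = (c * (List.ofFn b).prod)⁻¹ * z * (c * (List.ofFn b).prod) := by group
      have hCP : CWV W V N P₁ := by
        rw [← hyQ]
        exact hCQ.conj hW hV hQp hy
      obtain ⟨g', hc, hagree⟩ := hCP B x hx hB hB'
      have hP₁ne : P₁ ≠ ⊥ := by
        by_cases hT : T = ⊥
        · have : N = ⊤ := by
            rw [hN, hT]
            exact Subgroup.normalizer_eq_top_iff.mpr inferInstance
          rw [hP₁, this, inf_top_eq]; exact hPne
        · intro h
          apply hT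
          rw [eq_bot_iff, ← h]
          exact le_inf hwp.1 Subgroup.le_normalizer
      have hZZ : (P : Subgroup G) ⊓ Subgroup.centralizer ((P : Subgroup G) : Set G) ≤
          P₁ ⊓ Subgroup.centralizer (P₁ : Set G) := by
        intro w hw
        refine ⟨⟨hw.1, Subgroup.le_normalizer (hZT hw)⟩, ?_⟩
        exact Subgroup.centralizer_le (SetLike.coe_subset_coe.mpr (inf_le_left : P₁ ≤ _)) hw.2
      have hVV : V (P : Subgroup G) ≤ V P₁ := hVmono _ _ hP hP₁p hPne hP₁ne hZZ
      have hg' : UpTo (Chain (StWV W V ⊤ (P : Subgroup G))) B g' := by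
        refine hc.to_good hgood ?_
        rintro T' z ⟨rfl, hz | hz⟩ _ B' hB1 hB2
        · exact hsteps z hz B' hB1 hB2
        · refine upTo_of (Chain.single (T := (P : Subgroup G)) ⟨rfl, Or.inr ⟨Subgroup.mem_top _, ?_⟩⟩
            (hB1.trans (SetLike.coe_subset_coe.mpr inf_le_left))
            (hB2.trans (SetLike.coe_subset_coe.mpr inf_le_left)))
          exact Subgroup.centralizer_le (SetLike.coe_subset_coe.mpr hVV) hz.2
      exact upTo_congr hg' (fun a ha => (hagree a ha).symm)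
  refine ⟨P, hP, P.not_dvd_index, ?_⟩
  intro X a hX hX'
  obtain ⟨g', hc, hagree⟩ := main X hX a hX'
  obtain ⟨l, hl, hmem, hk⟩ := list_of_chainWV W V ⊤ (P : Subgroup G) hc hX
  have hcc : a * g'⁻¹ ∈ Subgroup.centralizer X := by
    rw [Subgroup.mem_centralizer_iff]
    intro z hz
    have := hagree z hz
    have e : z = a * (g'⁻¹ * z * g') * a⁻¹ := by rw [this]; group
    calc z * (a * g'⁻¹) = a * (g'⁻¹ * z * g') * a⁻¹ * (a * g'⁻¹) := by rw [← e]
      _ = a * g'⁻¹ * z := by group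
  refine ⟨a * g'⁻¹, hcc, l.length, l.get, ?_, ?_, ?_⟩
  · intro i
    exact hmem _ (List.get_mem l i)
  · rw [List.ofFn_get, hl]; group
  · intro k hkl
    rw [List.ofFn_get, show (fun x => (a * g'⁻¹)⁻¹ * x * (a * g'⁻¹)) '' X = X from
      rc_eq_of_mem_centralizer hcc]
    exact hk k hkl

end Cfsg.Agent.S2002
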