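import Cfsg.Statements.S2163

set_option autoImplicit false
open Cfsg

namespace Cfsg.Agent.S2163

theorem rank_eq_of_factor {F : Type*} [Field F] {n ℓ : ℕ} (M : Matrix (Fin n) (Fin n) F)
    (A : Matrix (Fin n) (Fin ℓ) F) (B : Matrix (Fin ℓ) (Fin n) F)
    (A' : Matrix (Fin ℓ) (Fin n) F) (B' : Matrix (Fin n) (Fin ℓ) F)
    (hM : M = A * B) (hA : A' * A = 1) (hB : B * B' = 1) : M.rank = ℓ := by
  apply le_antisymm
  · rw [hM]
    calc (A * B).rank ≤ A.rank := Matrix.rank_mul_le_left A B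
      _ ≤ ℓ := Matrix.rank_le_width A
  · have h1 : A' * M * B' = 1 := by
      rw [hM, ← Matrix.mul_assoc, hA, Matrix.one_mul, hB]
    calc ℓ = Fintype.card (Fin ℓ) := (Fintype.card_fin ℓ).symm
      _ = (1 : Matrix (Fin ℓ) (Fin ℓ) F).rank := Matrix.rank_one.symm
      _ = (A' * M * B').rank := by rw [h1]
      _ ≤ (A' * M).rank := Matrix.rank_mul_le_left _ _
      _ ≤ M.rank := Matrix.rank_mul_le_right _ _

/-- the nilpotent part -/
def nil (F : Type*) [Field F] (n ℓ : ℕ) : Matrix (Fin n) (Fin n) F :=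
  Matrix.of (fun i j : Fin n => if j.val < ℓ ∧ i.val = j.val + (n - ℓ) then (1 : F) else 0)

theorem nil_apply (F : Type*) [Field F] (n ℓ : ℕ) (i j : Fin n) :
    nil F n ℓ i j = if j.val < ℓ ∧ i.val = j.val + (n - ℓ) then (1 : F) else 0 := rfl

theorem nil_sq (F : Type*) [Field F] (n ℓ : ℕ) (h2 : 2 * ℓ ≤ n) : nil F n ℓ * nil F n ℓ = 0 := by
  ext i j
  rw [Matrix.mul_apply]
  apply Finset.sum_eq_zero
  intro k _
  simp only [nil_apply]
  by_cases h : k.val < ℓ ∧ i.val = k.val + (n - ℓ)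
  · have : ¬ (j.val < ℓ ∧ k.val = j.val + (n - ℓ)) := by omega
    rw [if_neg this, mul_zero]
  · rw [if_neg h, zero_mul]

theorem nil_rank (F : Type*) [Field F] (n ℓ : ℕ) (h2 : 2 * ℓ ≤ n) : (nil F n ℓ).rank = ℓ := by
  refine rank_eq_of_factor (nil F n ℓ)
    (Matrix.of fun (i : Fin n) (k : Fin ℓ) => if i.val = k.val + (n - ℓ) then 1 else 0)
    (Matrix.of fun (k : Fin ℓ) (j : Fin n) => if j.val = k.val then 1 else 0)
    (Matrix.of fun (k : Fin ℓ) (i : Fin n) => if i.val = k.val + (n - ℓ) then 1 else 0)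
    (Matrix.of fun (j : Fin n) (k : Fin ℓ) => if j.val = k.val then 1 else 0) ?_ ?_ ?_
  · ext i j
    rw [Matrix.mul_apply, nil_apply]
    simp only [Matrix.of_apply]
    by_cases h : j.val < ℓ
    · rw [Finset.sum_eq_single (⟨j.val, h⟩ : Fin ℓ)]
      · simp [h]
      · intro b _ hb
        have : j.val ≠ b.val := fun hh => hb (Fin.ext hh.symm)
        simp [this]
      · simp
    · rw [if_neg (by tauto)]
      symm
      apply Finset.sum_eq_zero
      intro k _
      have : j.val ≠ k.val := by have := k.2; omega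
      simp [this]
  · ext k k'
    rw [Matrix.mul_apply]
    simp only [Matrix.of_apply]
    have hlt : k.val + (n - ℓ) < n := by have := k.2; omega
    rw [Finset.sum_eq_single (⟨k.val + (n - ℓ), hlt⟩ : Fin n)]
    · by_cases hk : k = k'
      · subst hk; simp
      · have : k.val ≠ k'.val := fun hh => hk (Fin.ext hh)
        simp [Matrix.one_apply, hk, this]
    · intro b _ hb
      have : b.val ≠ k.val + (n - ℓ) := fun hh => hb (Fin.ext hh)
      simp [this]
    · simp
  · ext k k'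
    rw [Matrix.mul_apply]
    simp only [Matrix.of_apply]
    have hlt : k.val < n := by have := k.2; omega
    rw [Finset.sum_eq_single (⟨k.val, hlt⟩ : Fin n)]
    · by_cases hk : k = k'
      · subst hk; simp
      · have : k.val ≠ k'.val := fun hh => hk (Fin.ext hh)
        simp [Matrix.one_apply, hk, this]
    · intro b _ hb
      have : b.val ≠ k.val := fun hh => hb (Fin.ext hh)
      simp [this]
    · simp

theorem det_one_add_nil (F : Type*) [Field F] (n ℓ : ℕ) (h1 : 1 ≤ ℓ) (h2 : 2 * ℓ ≤ n) : (1 + nil F n ℓ).det = 1 := by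
  rw [Matrix.det_of_isLowerTriangular]
  · apply Finset.prod_eq_one
    intro i _
    rw [Matrix.add_apply, nil_apply, Matrix.one_apply_eq, if_neg (by omega), add_zero]
  · intro i j hij
    have hij' : i.val < j.val := hij
    rw [Matrix.add_apply, nil_apply, Matrix.one_apply_ne (by intro h; subst h; omega), if_neg (by omega), add_zero]

theorem result {F : Type*} [Field F] [Fintype F] [CharP F 2] {n : ℕ} (hn : 3 ≤ n) (ℓ : ℕ) (h1 : 1 ≤ ℓ) (h2 : 2 * ℓ ≤ n) :
    ∃ a : Matrix.SpecialLinearGroup (Fin n) F, (a : Matrix (Fin n) (Fin n) F) = 1 + Matrix.of (fun i j : Fin n => if j.val < ℓ ∧ i.val = j.val + (n - ℓ) then (1 : F) else 0) ∧ orderOf a = 2 ∧ ((a : Matrix (Fin n) (Fin n) F) - 1).rank = ℓ := by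
  obtain ⟨a, ha⟩ : ∃ a : Matrix.SpecialLinearGroup (Fin n) F, (a : Matrix (Fin n) (Fin n) F) = 1 + nil F n ℓ :=
    ⟨⟨1 + nil F n ℓ, det_one_add_nil F n ℓ h1 h2⟩, rfl⟩
  refine ⟨a, ha, ?_, ?_⟩
  · apply orderOf_eq_prime
    · rw [pow_two]
      apply Matrix.SpecialLinearGroup.ext_iff _ _ |>.mpr
      intro i j
      rw [Matrix.SpecialLinearGroup.coe_mul, ha, Matrix.SpecialLinearGroup.coe_one]
      rw [mul_add, add_mul, add_mul, nil_sq F n ℓ h2, one_mul, mul_one, one_mul, add_zero, add_assoc,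
        ← two_smul F (nil F n ℓ)]
      have : (2 : F) = 0 := CharTwo.two_eq_zero
      rw [this, zero_smul, add_zero]
    · intro h
      have h3 : (a : Matrix (Fin n) (Fin n) F) ⟨n - ℓ, by omega⟩ ⟨0, by omega⟩ = (1 : Matrix (Fin n) (Fin n) F) ⟨n - ℓ, by omega⟩ ⟨0, by omega⟩ := by
        rw [h, Matrix.SpecialLinearGroup.coe_one]
      rw [ha, Matrix.add_apply, nil_apply, Matrix.one_apply_ne (by simp [Fin.ext_iff]; omega), if_pos (by simp; omega)] at h3
      simp at h3
  · rw [ha, add_sub_cancel_left]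
    exact nil_rank F n ℓ h2

end Cfsg.Agent.S2163
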