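import Cfsg.Statements.S2165
import Cfsg.Agent.S2163

set_option autoImplicit false
open Cfsg

namespace Cfsg.Agent.S2165

/-- the underlying involution on indices -/
def swapFun (n ℓ : ℕ) (h2 : 2 * ℓ ≤ n) (i : Fin n) : Fin n :=
  if h : i.val < ℓ then ⟨i.val + (n - ℓ), by omega⟩
  else if h' : n - ℓ ≤ i.val then ⟨i.val - (n - ℓ), by omega⟩ else i

theorem swapFun_val (n ℓ : ℕ) (h2 : 2 * ℓ ≤ n) (i : Fin n) :
    (swapFun n ℓ h2 i).val = if i.val < ℓ then i.val + (n - ℓ) else if n - ℓ ≤ i.val then i.val - (n - ℓ) else i.val := by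
  unfold swapFun
  split_ifs <;> rfl

theorem swapFun_invol (n ℓ : ℕ) (h2 : 2 * ℓ ≤ n) : Function.Involutive (swapFun n ℓ h2) := by
  intro i
  apply Fin.ext
  rw [swapFun_val, swapFun_val]
  have := i.2
  split_ifs <;> omega

/-- the matrix -/
def mat (F : Type*) [Field F] (n ℓ : ℕ) : Matrix (Fin n) (Fin n) F :=
  Matrix.of (fun i j : Fin n => if (j.val < ℓ ∧ i.val = j.val + (n - ℓ)) ∨ (i.val < ℓ ∧ j.val = i.val + (n - ℓ)) ∨ (i = j ∧ ℓ ≤ i.val ∧ i.val < n - ℓ) then (1 : F) else 0)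

theorem mat_apply (F : Type*) [Field F] (n ℓ : ℕ) (h2 : 2 * ℓ ≤ n) (i j : Fin n) :
    mat F n ℓ i j = if swapFun n ℓ h2 i = j then 1 else 0 := by
  unfold mat
  rw [Matrix.of_apply]
  congr 1
  simp only [Fin.ext_iff, swapFun_val]
  have := i.2
  have := j.2
  apply propext
  split_ifs <;> omega

theorem mat_eq_perm (F : Type*) [Field F] (n ℓ : ℕ) (h2 : 2 * ℓ ≤ n) :
    mat F n ℓ = ((swapFun_invol n ℓ h2).toPerm).permMatrix F := by
  ext i j
  rw [mat_apply F n ℓ h2]
  simp [Equiv.Perm.permMatrix, PEquiv.toMatrix_apply]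

theorem mat_mulVec (F : Type*) [Field F] (n ℓ : ℕ) (h2 : 2 * ℓ ≤ n) (u : Fin n → F) (i : Fin n) :
    (mat F n ℓ).mulVec u i = u (swapFun n ℓ h2 i) := by
  simp [Matrix.mulVec, dotProduct, mat_apply F n ℓ h2]

theorem mat_det (F : Type*) [Field F] [CharP F 2] (n ℓ : ℕ) (h2 : 2 * ℓ ≤ n) : (mat F n ℓ).det = 1 := by
  rw [mat_eq_perm F n ℓ h2, Matrix.det_permutation]
  rcases Int.units_eq_one_or (Equiv.Perm.sign (swapFun_invol n ℓ h2).toPerm) with h | h <;> rw [h]
  · simp
  · simp [CharTwo.neg_eq]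

theorem mat_sq (F : Type*) [Field F] (n ℓ : ℕ) (h2 : 2 * ℓ ≤ n) : mat F n ℓ * mat F n ℓ = 1 := by
  ext i j
  rw [Matrix.mul_apply]
  simp only [mat_apply F n ℓ h2]
  rw [Finset.sum_eq_single (swapFun n ℓ h2 i)]
  · rw [if_pos rfl, one_mul, swapFun_invol n ℓ h2 i, Matrix.one_apply]
  · intro b _ hb
    rw [if_neg (Ne.symm hb), zero_mul]
  · simp

theorem mat_sub_one_rank (F : Type*) [Field F] [CharP F 2] (n ℓ : ℕ) (h2 : 2 * ℓ ≤ n) : (mat F n ℓ - 1).rank = ℓ := by
  refine S2163.rank_eq_of_factor (mat F n ℓ - 1)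
    (Matrix.of fun (i : Fin n) (k : Fin ℓ) => if i.val = k.val ∨ i.val = k.val + (n - ℓ) then 1 else 0)
    (Matrix.of fun (k : Fin ℓ) (j : Fin n) => if j.val = k.val ∨ j.val = k.val + (n - ℓ) then 1 else 0)
    (Matrix.of fun (k : Fin ℓ) (i : Fin n) => if i.val = k.val then 1 else 0)
    (Matrix.of fun (j : Fin n) (k : Fin ℓ) => if j.val = k.val then 1 else 0) ?_ ?_ ?_
  · ext i j
    rw [Matrix.mul_apply, Matrix.sub_apply, mat_apply F n ℓ h2, Matrix.one_apply]
    simp only [Matrix.of_apply]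
    have hi := i.2
    have hj := j.2
    by_cases h : j.val < ℓ ∨ n - ℓ ≤ j.val
    · have hk : (if j.val < ℓ then j.val else j.val - (n - ℓ)) < ℓ := by split_ifs <;> omega
      rw [Finset.sum_eq_single (⟨_, hk⟩ : Fin ℓ)]
      · simp only [Fin.ext_iff, swapFun_val]
        have h11 : (1 : F) - 1 = 0 := sub_self 1
        have h01 : (0 : F) - 1 = 1 := by rw [zero_sub, CharTwo.neg_eq]
        split_ifs <;> first | omega | simp [h01]
      · intro b _ hb
        have hb' : b.val ≠ (if j.val < ℓ then j.val else j.val - (n - ℓ)) := fun hh => hb (Fin.ext hh)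
        have hb2 := b.2
        have : ¬ (j.val = b.val ∨ j.val = b.val + (n - ℓ)) := by
          split_ifs at hb' <;> omega
        rw [if_neg this, mul_zero]
      · simp
    · rw [Finset.sum_eq_zero]
      · simp only [Fin.ext_iff, swapFun_val]
        split_ifs <;> first | omega | simp
      · intro k _
        have := k.2
        rw [if_neg (by omega : ¬ (j.val = k.val ∨ j.val = k.val + (n - ℓ))), mul_zero]
  · ext k k'
    rw [Matrix.mul_apply]
    simp only [Matrix.of_apply]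
    have hlt : k.val < n := by have := k.2; omega
    have hk2 := k.2
    have hk2' := k'.2
    rw [Finset.sum_eq_single (⟨k.val, hlt⟩ : Fin n)]
    · by_cases hk : k = k'
      · subst hk; simp
      · have : k.val ≠ k'.val := fun hh => hk (Fin.ext hh)
        rw [Matrix.one_apply_ne hk, if_pos rfl, one_mul, if_neg]
        simp only; omega
    · intro b _ hb
      have : b.val ≠ k.val := fun hh => hb (Fin.ext hh)
      simp [this]
    · simp
  · ext k k'
    rw [Matrix.mul_apply]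
    simp only [Matrix.of_apply]
    have hlt : k'.val < n := by have := k'.2; omega
    have hk2 := k.2
    have hk2' := k'.2
    rw [Finset.sum_eq_single (⟨k'.val, hlt⟩ : Fin n)]
    · by_cases hk : k = k'
      · subst hk; simp
      · have : k.val ≠ k'.val := fun hh => hk (Fin.ext hh)
        rw [Matrix.one_apply_ne hk, if_pos rfl, mul_one, if_neg]
        simp only; omega
    · intro b _ hb
      have : b.val ≠ k'.val := fun hh => hb (Fin.ext hh)
      simp [this]
    · simp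

theorem result {F : Type*} [Field F] [Fintype F] [CharP F 2] {n q : ℕ} (hF : Fintype.card F = q ^ 2) (hn : 3 ≤ n) (ℓ : ℕ) (h1 : 1 ≤ ℓ) (h2 : 2 * ℓ ≤ n) :
    ∃ a : ↥(Cfsg.SU n F q), (((a : Matrix.SpecialLinearGroup (Fin n) F) : Matrix (Fin n) (Fin n) F) = Matrix.of (fun i j : Fin n => if (j.val < ℓ ∧ i.val = j.val + (n - ℓ)) ∨ (i.val < ℓ ∧ j.val = i.val + (n - ℓ)) ∨ (i = j ∧ ℓ ≤ i.val ∧ i.val < n - ℓ) then (1 : F) else 0)) ∧ orderOf a = 2 ∧ ((((a : Matrix.SpecialLinearGroup (Fin n) F) : Matrix (Fin n) (Fin n) F)) - 1).rank = ℓ := by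
  obtain ⟨a0, ha0⟩ : ∃ a : Matrix.SpecialLinearGroup (Fin n) F, (a : Matrix (Fin n) (Fin n) F) = mat F n ℓ :=
    ⟨⟨mat F n ℓ, mat_det F n ℓ h2⟩, rfl⟩
  have hmem : a0 ∈ Cfsg.SU n F q := by
    intro u v
    have : (slToMat n F) a0 = mat F n ℓ := by rw [← ha0]; rfl
    rw [this]
    unfold hermForm
    simp only [mat_mulVec F n ℓ h2]
    exact Equiv.sum_comp (swapFun_invol n ℓ h2).toPerm (fun i => u i * v i ^ q)
  refine ⟨⟨a0, hmem⟩, ha0, ?_, ?_⟩
  · apply orderOf_eq_prime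
    · rw [pow_two]
      apply Subtype.ext
      apply Matrix.SpecialLinearGroup.ext_iff _ _ |>.mpr
      intro i j
      change ((a0 * a0 : Matrix.SpecialLinearGroup (Fin n) F) : Matrix (Fin n) (Fin n) F) i j = (1 : Matrix.SpecialLinearGroup (Fin n) F).1 i j
      rw [Matrix.SpecialLinearGroup.coe_mul, ha0, mat_sq F n ℓ h2]
      rfl
    · intro h
      have h' : a0 = 1 := congrArg Subtype.val h
      have h3 : (a0 : Matrix (Fin n) (Fin n) F) ⟨n - ℓ, by omega⟩ ⟨0, by omega⟩ = (1 : Matrix (Fin n) (Fin n) F) ⟨n - ℓ, by omega⟩ ⟨0, by omega⟩ := by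
        rw [h', Matrix.SpecialLinearGroup.coe_one]
      rw [ha0, mat_apply F n ℓ h2, Matrix.one_apply_ne (by simp [Fin.ext_iff]; omega), if_pos (by
        apply Fin.ext; rw [swapFun_val]; simp only; split_ifs <;> omega)] at h3
      simp at h3
  · change ((a0 : Matrix (Fin n) (Fin n) F) - 1).rank = ℓ
    rw [ha0]
    exact mat_sub_one_rank F n ℓ h2

end Cfsg.Agent.S2165
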