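import Cfsg.Statements.S2178
import Cfsg.Agent.Lib.Helper7.RS4

set_option autoImplicit false
open Cfsg

namespace Cfsg.Agent.S2178

/-- Centralizers of the long and the short root involutions in the Chevalley group G of type F₄ over a finite field F of characteristic two (this problem's root numbering for type F₄, from the Chevalley data module: fundamental roots p₁, p₂ short, p₃, p₄ long, with indices 33, 27, 25, 24, their negatives 14, 20, 22, 23; highest root 47, highest short root 44; U the subgroup generated by the positive root subgroups). For an element t of G with matrix x_47(1): the centralizer of t in G is the subgroup generated by U and the root subgroups X_{−p₁}, X_{−p₂}, X_{−p₃} (the unipotent radical of the maximal parabolic subgroup whose Levi factor has fundamental roots p₁, p₂, p₃, together with that Levi factor's root subgroups; the Levi factor is of type C₃). For an element u of G with matrix x_44(1): the centralizer of u in G is generated by U and X_{−p₂}, X_{−p₃},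 X_{−p₄} (the same construction for the Levi factor with fundamental roots p₂, p₃, p₄, of type B₃). -/
theorem result {F : Type*} [Field F] [Fintype F] [CharP F 2] (t u : GL Cfsg.Lie.chevF4.Idx F) (ht : (t : Matrix Cfsg.Lie.chevF4.Idx Cfsg.Lie.chevF4.Idx F) = Cfsg.Lie.chevF4.x F 47 1) (hu : (u : Matrix Cfsg.Lie.chevF4.Idx Cfsg.Lie.chevF4.Idx F) = Cfsg.Lie.chevF4.x F 44 1) :
    Cfsg.Lie.chevF4.group F ⊓ Subgroup.centralizer {t} = Cfsg.Lie.chevF4.posUnipotent F ⊔ Cfsg.Lie.chevF4.rootSubgroup F 14 ⊔ Cfsg.Lie.chevF4.rootSubgroup F 20 ⊔ Cfsg.Lie.chevF4.rootSubgroup F 22 ∧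
    Cfsg.Lie.chevF4.group F ⊓ Subgroup.centralizer {u} = Cfsg.Lie.chevF4.posUnipotent F ⊔ Cfsg.Lie.chevF4.rootSubgroup F 20 ⊔ Cfsg.Lie.chevF4.rootSubgroup F 22 ⊔ Cfsg.Lie.chevF4.rootSubgroup F 23 := by
  have key : ∀ a b c : ℕ, Subgroup.closure (Lib.Helper7.sys5F4.cenSet (F := F) [a, b, c]) =
      Cfsg.Lie.chevF4.posUnipotent F ⊔ Cfsg.Lie.chevF4.rootSubgroup F a ⊔ Cfsg.Lie.chevF4.rootSubgroup F b ⊔
        Cfsg.Lie.chevF4.rootSubgroup F c := by
    intro a b c
    rw [Lib.Helper7.sys5F4.cenSet_closure, sup_assoc, sup_assoc]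
    congr 1
    apply le_antisymm
    · rw [Subgroup.closure_le]
      rintro g ⟨s, hs, t, hg⟩
      simp only [List.mem_cons, List.mem_nil_iff, or_false] at hs
      rw [Lib.Helper7.sys5F4.eq_xg.1 hg]
      rcases hs with rfl | rfl | rfl
      · exact Subgroup.mem_sup_left (Lib.Helper7.sys5F4.xg_mem_rootSubgroup _ _)
      · exact Subgroup.mem_sup_right (Subgroup.mem_sup_left (Lib.Helper7.sys5F4.xg_mem_rootSubgroup _ _))
      · exact Subgroup.mem_sup_right (Subgroup.mem_sup_right (Lib.Helper7.sys5F4.xg_mem_rootSubgroup _ _))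
    · have h1 : ∀ s ∈ [a, b, c], Cfsg.Lie.chevF4.rootSubgroup F s ≤ Subgroup.closure {g : GL Cfsg.Lie.chevF4.Idx F |
          ∃ s ∈ [a, b, c], ∃ c : F, (g : Matrix Cfsg.Lie.chevF4.Idx Cfsg.Lie.chevF4.Idx F) = Cfsg.Lie.chevF4.x F s c} := by
        intro s hs g hg
        obtain ⟨t, rfl⟩ := Lib.Helper7.sys5F4.mem_rootSubgroup.1 hg
        exact Subgroup.subset_closure ⟨s, hs, t, rfl⟩
      exact sup_le (h1 a (by simp)) (sup_le (h1 b (by simp)) (h1 c (by simp)))
  have hr : 47 < Cfsg.Lie.chevF4.nroots := by decide +kernel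
  have hr' : 44 < Cfsg.Lie.chevF4.nroots := by decide +kernel
  rw [Lib.Helper7.sys5F4.eq_xg.1 ht, Lib.Helper7.sys5F4.eq_xg.1 hu, ← key, ← key]
  constructor
  · exact Lib.Helper7.sys5F4.cen_root (F := F) hr (Lib.Helper7.sys5F4.CZ_of_chk 2 hr Lib.Helper7.topCzF4)
      (Lib.Helper7.sys5F4.CZ_of_list 2 hr Lib.Helper7.cenCzF4) (i0 := 3) (by decide +kernel) (by decide +kernel)
      (by decide +kernel) (by decide +kernel)
  · exact Lib.Helper7.sys5F4.cen_root (F := F) hr' (Lib.Helper7.sys5F4.CZ_of_chk 2 hr' Lib.Helper7.topCzF4s)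
      (Lib.Helper7.sys5F4.CZ_of_list 2 hr' Lib.Helper7.cenCzF4s) (i0 := 0) (by decide +kernel) (by decide +kernel)
      (by decide +kernel) (by decide +kernel)

end Cfsg.Agent.S2178
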