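import Cfsg.Statements.S2186
import Cfsg.Agent.Lib.Helper7.RS2

set_option autoImplicit false
open Cfsg

namespace Cfsg.Agent.S2186

/-- Let G be the Chevalley group of type G₂ (over a field with at least four elements), D₄, E₆, E₇ or E₈ over a finite field F of characteristic two, and let X be the root subgroup of the highest root (the last root index) — a long root subgroup, of order |F|. For every g in G, the subgroup generated by X and its conjugate g X g⁻¹ is either a 2-group or is conjugate by an element of G to the subgroup generated by X and the root subgroup of the lowest root (index 0, the negative of the highest root), which is a copy of SL₂(F). -/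
theorem result {F : Type*} [Field F] [Fintype F] [CharP F 2] (D : Cfsg.Lie.ChevalleyDatum) (hD : D ∈ [Cfsg.Lie.chevG2, Cfsg.Lie.chevD4, Cfsg.Lie.chevE6, Cfsg.Lie.chevE7, Cfsg.Lie.chevE8]) (hF : D = Cfsg.Lie.chevG2 → 4 ≤ Fintype.card F) (g : GL D.Idx F) (hg : g ∈ D.group F) :
    IsPGroup 2 ↥(D.rootSubgroup F (D.nroots - 1) ⊔ (D.rootSubgroup F (D.nroots - 1)).map (MulAut.conj g).toMonoidHom) ∨
    ∃ h ∈ D.group F, (D.rootSubgroup F (D.nroots - 1) ⊔ (D.rootSubgroup F (D.nroots - 1)).map (MulAut.conj g).toMonoidHom).map (MulAut.conj h).toMonoidHom = D.rootSubgroup F (D.nroots - 1) ⊔ D.rootSubgroup F 0 := by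
  haveI : Fact (Nat.Prime 2) := ⟨Nat.prime_two⟩
  simp only [List.mem_cons, List.mem_nil_iff, or_false] at hD
  rcases hD with rfl | rfl | rfl | rfl | rfl
  · have hn : Cfsg.Lie.chevG2.nroots - 1 = 11 := by decide +kernel
    have h0 : Cfsg.Lie.chevG2.neg 11 = 0 := by decide +kernel
    have hr : 11 < Cfsg.Lie.chevG2.nroots := by decide +kernel
    have := Lib.Helper7.sys5G2.top_pair (F := F) (r := 11) hr (Lib.Helper7.sys5G2.CZ_of_chk 2 hr Lib.Helper7.topCzG2)
      (Lib.Helper7.sys5G2.cert_of_chk hr Lib.Helper7.topPairG2) 2 hg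
    rw [h0] at this
    rw [hn]
    exact this
  · have hn : Cfsg.Lie.chevD4.nroots - 1 = 23 := by decide +kernel
    have h0 : Cfsg.Lie.chevD4.neg 23 = 0 := by decide +kernel
    have hr : 23 < Cfsg.Lie.chevD4.nroots := by decide +kernel
    have := Lib.Helper7.sys5D4.top_pair (F := F) (r := 23) hr (Lib.Helper7.sys5D4.CZ_of_chk 2 hr Lib.Helper7.topCzD4)
      (Lib.Helper7.sys5D4.cert_of_chk hr Lib.Helper7.topPairD4) 2 hg
    rw [h0] at this
    rw [hn]
    exact this
  · have hn : Cfsg.Lie.chevE6.nroots - 1 = 71 := by decide +kernel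
    have h0 : Cfsg.Lie.chevE6.neg 71 = 0 := by decide +kernel
    have hr : 71 < Cfsg.Lie.chevE6.nroots := by decide +kernel
    have := Lib.Helper7.sys5E6.top_pair (F := F) (r := 71) hr (Lib.Helper7.sys5E6.CZ_of_chk 2 hr Lib.Helper7.topCzE6)
      (Lib.Helper7.sys5E6.cert_of_chk hr Lib.Helper7.topPairE6) 2 hg
    rw [h0] at this
    rw [hn]
    exact this
  · have hn : Cfsg.Lie.chevE7.nroots - 1 = 125 := by decide +kernel
    have h0 : Cfsg.Lie.chevE7.neg 125 = 0 := by decide +kernel
    have hr : 125 < Cfsg.Lie.chevE7.nroots := by decide +kernel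
    have := Lib.Helper7.sys5E7.top_pair (F := F) (r := 125) hr (Lib.Helper7.sys5E7.CZ_of_chk 2 hr Lib.Helper7.topCzE7)
      (Lib.Helper7.sys5E7.cert_of_chk hr Lib.Helper7.topPairE7) 2 hg
    rw [h0] at this
    rw [hn]
    exact this
  · have hn : Cfsg.Lie.chevE8.nroots - 1 = 239 := by decide +kernel
    have h0 : Cfsg.Lie.chevE8.neg 239 = 0 := by decide +kernel
    have hr : 239 < Cfsg.Lie.chevE8.nroots := by decide +kernel
    have := Lib.Helper7.sys5E8.top_pair (F := F) (r := 239) hr (Lib.Helper7.sys5E8.CZ_of_chk 2 hr Lib.Helper7.topCzE8)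
      (Lib.Helper7.sys5E8.cert_of_chk hr Lib.Helper7.topPairE8) 2 hg
    rw [h0] at this
    rw [hn]
    exact this

end Cfsg.Agent.S2186
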