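import Cfsg.Statements.S2209
import Cfsg.Agent.Lib.Helper7.RS4

set_option autoImplicit false
open Cfsg

namespace Cfsg.Agent.S2209

/-- Centralizer of a long root involution in the Chevalley groups of type E₆, E₇, E₈ over a finite field F of characteristic two. Let G be the group generated by the root elements, U the subgroup generated by the positive root subgroups, r the highest root (the last root index: 71, 125, 239 respectively), and t the element of G with matrix x_r(1). Then the centralizer of t in G is the subgroup generated by U together with the root subgroups X_{−p} for the fundamental roots p orthogonal to r — all fundamental roots except p₂ for E₆, except p₁ for E₇, except p₈ for E₈ (numbering with p₁–p₃–p₄–…–p_l the long chain and p₂ joined to p₄); the indices of these negative fundamental roots are 15, 29, 32, 34, 35 (E₆), 47, 52, 56, 59, 61, 62 (E₇), 77, 98, 104, 109, 113, 116, 118 (E₈). (This is the unipotent radical of the corresponding maximal parabolic subgroup extended by the root subgroups of its Levi factor,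 of type A₅, D₆, E₇ respectively.) -/
theorem result {F : Type*} [Field F] [Fintype F] [CharP F 2] (d : Cfsg.Lie.ChevalleyDatum × List ℕ)
    (hd : d ∈ [(Cfsg.Lie.chevE6, [15, 29, 32, 34, 35]), (Cfsg.Lie.chevE7, [47, 52, 56, 59, 61, 62]), (Cfsg.Lie.chevE8, [77, 98, 104, 109, 113, 116, 118])])
    (t : GL d.1.Idx F) (ht : (t : Matrix d.1.Idx d.1.Idx F) = d.1.x F (d.1.nroots - 1) 1) :
    d.1.group F ⊓ Subgroup.centralizer {t} = d.1.posUnipotent F ⊔ Subgroup.closure {g : GL d.1.Idx F | ∃ s ∈ d.2, ∃ c : F, (g : Matrix d.1.Idx d.1.Idx F) = d.1.x F s c} := by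
  simp only [List.mem_cons, List.mem_nil_iff, or_false] at hd
  rcases hd with rfl | rfl | rfl
  · have hn : Cfsg.Lie.chevE6.nroots - 1 = 71 := by decide +kernel
    have hr : 71 < Cfsg.Lie.chevE6.nroots := by decide +kernel
    dsimp only at ht ⊢
    rw [hn] at ht
    rw [Lib.Helper7.sys5E6.eq_xg.1 ht, ← Lib.Helper7.sys5E6.cenSet_closure]
    exact Lib.Helper7.sys5E6.cen_root (F := F) hr (Lib.Helper7.sys5E6.CZ_of_chk 2 hr Lib.Helper7.topCzE6)
      (Lib.Helper7.sys5E6.CZ_of_list 2 hr Lib.Helper7.cenCzE6) (i0 := 1) (by decide +kernel) (by decide +kernel)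
      (by decide +kernel) (by decide +kernel)
  · have hn : Cfsg.Lie.chevE7.nroots - 1 = 125 := by decide +kernel
    have hr : 125 < Cfsg.Lie.chevE7.nroots := by decide +kernel
    dsimp only at ht ⊢
    rw [hn] at ht
    rw [Lib.Helper7.sys5E7.eq_xg.1 ht, ← Lib.Helper7.sys5E7.cenSet_closure]
    exact Lib.Helper7.sys5E7.cen_root (F := F) hr (Lib.Helper7.sys5E7.CZ_of_chk 2 hr Lib.Helper7.topCzE7)
      (Lib.Helper7.sys5E7.CZ_of_list 2 hr Lib.Helper7.cenCzE7) (i0 := 0) (by decide +kernel) (by decide +kernel)
      (by decide +kernel) (by decide +kernel)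
  · have hn : Cfsg.Lie.chevE8.nroots - 1 = 239 := by decide +kernel
    have hr : 239 < Cfsg.Lie.chevE8.nroots := by decide +kernel
    dsimp only at ht ⊢
    rw [hn] at ht
    rw [Lib.Helper7.sys5E8.eq_xg.1 ht, ← Lib.Helper7.sys5E8.cenSet_closure]
    exact Lib.Helper7.sys5E8.cen_root (F := F) hr (Lib.Helper7.sys5E8.CZ_of_chk 2 hr Lib.Helper7.topCzE8)
      (Lib.Helper7.sys5E8.CZ_of_list 2 hr Lib.Helper7.cenCzE8) (i0 := 7) (by decide +kernel) (by decide +kernel)
      (by decide +kernel) (by decide +kernel)

end Cfsg.Agent.S2209
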