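import Cfsg.Statements.S2214
import Cfsg.Agent.Lib.Helper7.CK2
import Cfsg.Agent.Lib.Helper7.Sys5All

set_option autoImplicit false
open Cfsg

namespace Cfsg.Agent.S2214

/-- Let k be an algebraically closed field of prime characteristic p, G the adjoint Chevalley group of type G₂, B₂, D₄, F₄, E₆, E₇ or E₈ over k (the matrix group generated by the root elements x_s(t), t ∈ k, acting on the Lie algebra), q = p^a with a ≥ 1, and K a subgroup of G containing every root element x_s(t) with t^q = t and consisting of matrices all of whose entries c satisfy c^q = c. Then the centralizer of K in G is trivial, and the normalizer of K in G is exactly the set of elements of G all of whose entries c satisfy c^q = c. -/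
theorem result {k : Type*} [Field k] [IsAlgClosed k] (p : ℕ) [Fact p.Prime] [CharP k p] (D : Cfsg.Lie.ChevalleyDatum) (hD : D ∈ [Cfsg.Lie.chevG2, Cfsg.Lie.chevB2, Cfsg.Lie.chevD4, Cfsg.Lie.chevF4, Cfsg.Lie.chevE6, Cfsg.Lie.chevE7, Cfsg.Lie.chevE8]) (a : ℕ) (ha : 1 ≤ a) (K : Subgroup (GL D.Idx k)) (hKG : K ≤ D.group k)
    (hLK : Subgroup.closure {g : GL D.Idx k | ∃ (s : ℕ) (t : k), t ^ (p ^ a) = t ∧ (g : Matrix D.Idx D.Idx k) = D.x k s t} ≤ K)
    (hKfix : ∀ g ∈ K, ∀ i j : D.Idx, ((g : Matrix D.Idx D.Idx k) i j) ^ (p ^ a) = (g : Matrix D.Idx D.Idx k) i j) :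
    D.group k ⊓ Subgroup.centralizer (K : Set (GL D.Idx k)) = ⊥ ∧
    ∀ g : GL D.Idx k, g ∈ D.group k → (g ∈ Subgroup.normalizer (K : Set (GL D.Idx k)) ↔ ∀ i j : D.Idx, ((g : Matrix D.Idx D.Idx k) i j) ^ (p ^ a) = (g : Matrix D.Idx D.Idx k) i j) := by
  have main : ∀ S : Lib.Helper7.Sys5 D,
      D.group k ⊓ Subgroup.centralizer (K : Set (GL D.Idx k)) = ⊥ ∧
      ∀ g : GL D.Idx k, g ∈ D.group k → (g ∈ Subgroup.normalizer (K : Set (GL D.Idx k)) ↔
        ∀ i j : D.Idx, ((g : Matrix D.Idx D.Idx k) i j) ^ (p ^ a) = (g : Matrix D.Idx D.Idx k) i j) := by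
    intro S
    have hf : ∀ t : k, iterateFrobeniusEquiv k p a t = t ^ p ^ a := iterateFrobeniusEquiv_def k p a
    have hfix : ∀ g : GL D.Idx k, g ∈ (S.fieldTw k (iterateFrobeniusEquiv k p a)).Fix ↔
        ∀ i j : D.Idx, ((g : Matrix D.Idx D.Idx k) i j) ^ (p ^ a) = (g : Matrix D.Idx D.Idx k) i j := by
      intro g
      constructor
      · intro hg i j
        have h1 : Cfsg.Agent.S1080.glEquiv D (iterateFrobeniusEquiv k p a) g = g := hg
        have h2 : ((Cfsg.Agent.S1080.glEquiv D (iterateFrobeniusEquiv k p a) g : GL D.Idx k) :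
            Matrix D.Idx D.Idx k) i j = (g : Matrix D.Idx D.Idx k) i j := by rw [h1]
        rw [Cfsg.Agent.S1080.glEquiv_coe] at h2
        rw [← hf]
        exact h2
      · intro hg
        show Cfsg.Agent.S1080.glEquiv D (iterateFrobeniusEquiv k p a) g = g
        apply Units.ext
        rw [Cfsg.Agent.S1080.glEquiv_coe]
        ext i j
        show iterateFrobeniusEquiv k p a _ = _
        rw [hf]
        exact hg i j
    have := S.between (iterateFrobeniusEquiv k p a) K
      (fun r _ t ht => hLK (Subgroup.subset_closure ⟨r, t, by rw [← hf]; exact ht, rfl⟩))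
      (fun g hg => ⟨hKG hg, (hfix g).2 (hKfix g hg)⟩)
    refine ⟨this.1, fun g hg => ?_⟩
    rw [this.2 g hg, hfix]
  simp only [List.mem_cons, List.mem_nil_iff, or_false] at hD
  rcases hD with rfl | rfl | rfl | rfl | rfl | rfl | rfl
  · exact main Lib.Helper7.sys5G2
  · exact main Lib.Helper7.sys5B2
  · exact main Lib.Helper7.sys5D4
  · exact main Lib.Helper7.sys5F4
  · exact main Lib.Helper7.sys5E6
  · exact main Lib.Helper7.sys5E7
  · exact main Lib.Helper7.sys5E8

end Cfsg.Agent.S2214
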