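import Cfsg.Statements.S2238
import Cfsg.Agent.Lib.Helper19.TorE

set_option autoImplicit false
open Cfsg

namespace Cfsg.Agent.S2238

open Cfsg.Agent.Lib.Helper19.Suz

/-- The partition of the Suzuki group: with q = 2^(2m+1), m ≥ 1, r = 2^m and the Suzuki group realised as the stabiliser in SL₄ of the Suzuki–Tits ovoid, every non-identity element lies in exactly one subgroup that is either a Sylow 2-subgroup or a cyclic subgroup of order q − 1, q + 2r + 1 or q − 2r + 1. -/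
theorem result {F : Type*} [Field F] [Fintype F] {m : ℕ} (hm : 1 ≤ m) (hF : Fintype.card F = 2 ^ (2 * m + 1)) (g : ↥(Cfsg.Sz F m)) (hg : g ≠ 1) :
    ∃! U : Subgroup ↥(Cfsg.Sz F m), ((∃ P : Sylow 2 ↥(Cfsg.Sz F m), U = (P : Subgroup ↥(Cfsg.Sz F m))) ∨
      (IsCyclic ↥U ∧ Nat.card ↥U ∈ ({2 ^ (2 * m + 1) - 1, 2 ^ (2 * m + 1) + 2 ^ (m + 1) + 1, 2 ^ (2 * m + 1) - 2 ^ (m + 1) + 1} : Set ℕ))) ∧ g ∈ U := by
  haveI : Hyp F m := ⟨hm, hF⟩
  haveI : CharP F 2 := Hyp.charP (F := F) (m := m)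
  haveI : Fact (Nat.Prime 2) := ⟨Nat.prime_two⟩
  obtain ⟨h1, ⟨x, hx, hxc⟩, ⟨y, hy, hyc⟩⟩ := tori_main (F := F) m
  rw [← hF]
  have hr0 : 0 < 2 ^ (m + 1) := by positivity
  have hcopT : Nat.Coprime (Fintype.card F + 2 ^ (m + 1) + 1) (Fintype.card F - 2 ^ (m + 1) + 1) := by
    rw [← hxc, ← hyc]
    exact hx.coprime hy (by rw [hxc, hyc]; omega)
  have hd1 : (Fintype.card F + 2 ^ (m + 1) + 1) ∣ Fintype.card F ^ 2 + 1 := ⟨_, (tor_mul m).symm⟩
  have hd2 : (Fintype.card F - 2 ^ (m + 1) + 1) ∣ Fintype.card F ^ 2 + 1 :=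
    ⟨_, by rw [mul_comm]; exact (tor_mul m).symm⟩
  have h5x : 5 ≤ Fintype.card F + 2 ^ (m + 1) + 1 := hxc ▸ hx.five_le
  have h5y : 5 ≤ Fintype.card F - 2 ^ (m + 1) + 1 := hyc ▸ hy.five_le
  have cand : ∀ U' : Subgroup ↥(Cfsg.Sz F m),
      ((∃ P : Sylow 2 ↥(Cfsg.Sz F m), U' = (P : Subgroup ↥(Cfsg.Sz F m))) ∨
      (IsCyclic ↥U' ∧ Nat.card ↥U' ∈ ({Fintype.card F - 1, Fintype.card F + 2 ^ (m + 1) + 1,
        Fintype.card F - 2 ^ (m + 1) + 1} : Set ℕ))) → g ∈ U' →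
      (∃ P : Sylow 2 ↥(Cfsg.Sz F m), U' = (P : Subgroup ↥(Cfsg.Sz F m)) ∧ g ^ (2 ^ 2) = 1) ∨
      (IsCyclic ↥U' ∧ Nat.card ↥U' = Fintype.card F - 1 ∧ g ^ (Fintype.card F - 1) = 1) ∨
      (IsCyclic ↥U' ∧ (Nat.card ↥U' = Fintype.card F + 2 ^ (m + 1) + 1 ∨
        Nat.card ↥U' = Fintype.card F - 2 ^ (m + 1) + 1) ∧ g ^ (Fintype.card F ^ 2 + 1) = 1) := by
    rintro U' (⟨P, rfl⟩ | ⟨hc, hcard⟩) hgU
    · exact Or.inl ⟨P, rfl, sylow_pow_four m P hgU⟩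
    · have hp := pow_card_of_mem hgU
      rcases hcard with e | e | e
      · exact Or.inr (Or.inl ⟨hc, e, e ▸ hp⟩)
      · exact Or.inr (Or.inr ⟨hc, Or.inl e, pow_of_dvd hd1 (e ▸ hp)⟩)
      · rw [Set.mem_singleton_iff] at e
        exact Or.inr (Or.inr ⟨hc, Or.inr e, pow_of_dvd hd2 (e ▸ hp)⟩)
  by_cases hFF : FF m g
  · refine ⟨Cen m g, ⟨Or.inr ⟨hFF.cyclic, ?_⟩, self_mem_Cen g⟩, ?_⟩
    · rcases (h1 g hFF).1 with e | e
      · right; left; exact e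
      · right; right; exact e
    · rintro U' ⟨hU', hgU'⟩
      rcases cand U' hU' hgU' with ⟨P, rfl, h4⟩ | ⟨hc, hcard, hp⟩ | ⟨hc, hcard, hp⟩
      · exact absurd (eq_one_of_coprime_pow (cop_of_odd (not_two_dvd (F := F) m) 2) h4 hFF.pow) hg
      · exact absurd (eq_one_of_coprime_pow (cop_a (F := F) m) hp hFF.pow) hg
      · have hle : U' ≤ Cen m g := le_cen_of_cyclic hgU'
        apply Subgroup.eq_of_le_of_card_ge hle
        have hdvd := Subgroup.card_dvd_of_le hle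
        rcases (h1 g hFF).1 with e | e <;> rcases hcard with e' | e'
        · rw [e, e']
        · exfalso
          rw [e, e'] at hdvd
          have := Nat.Coprime.eq_one_of_dvd hcopT.symm hdvd
          omega
        · exfalso
          rw [e, e'] at hdvd
          have := Nat.Coprime.eq_one_of_dvd hcopT hdvd
          omega
        · rw [e, e']
  · unfold FF at hFF
    push Not at hFF
    obtain ⟨p, hp, hfix⟩ := hFF
    rcases classify_fixed m hp hfix with ⟨k, a, b, e⟩ | ⟨k, u, hu, e⟩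
    · obtain ⟨P, hP⟩ := exists_sylow_of_conj m e
      have h4 : g ^ (2 ^ 2) = 1 := pow_of_conj_t m e
      refine ⟨P, ⟨Or.inl ⟨P, rfl⟩, hP⟩, ?_⟩
      rintro U' ⟨hU', hgU'⟩
      rcases cand U' hU' hgU' with ⟨P', rfl, -⟩ | ⟨hc, hcard, hp⟩ | ⟨hc, hcard, hp⟩
      · rw [sylow_ti m P' P hg hgU' hP]
      · exact absurd (eq_one_of_coprime_pow (cop_of_odd (odd_pred (F := F) m) 2) h4 hp) hg
      · exact absurd (eq_one_of_coprime_pow (cop_of_odd (not_two_dvd (F := F) m) 2) h4 hp) hg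
    · obtain ⟨hcyc, hcard0⟩ := type_d m hu e
      have hpd := pow_of_conj_d m e
      refine ⟨Cen m g, ⟨Or.inr ⟨hcyc, Or.inl hcard0⟩, self_mem_Cen g⟩, ?_⟩
      rintro U' ⟨hU', hgU'⟩
      rcases cand U' hU' hgU' with ⟨P', rfl, h4⟩ | ⟨hc, hcard, hp⟩ | ⟨hc, hcard, hp⟩
      · exact absurd (eq_one_of_coprime_pow (cop_of_odd (odd_pred (F := F) m) 2) h4 hpd) hg
      · have hle : U' ≤ Cen m g := le_cen_of_cyclic hgU'
        apply Subgroup.eq_of_le_of_card_ge hle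
        rw [hcard, hcard0]
      · exact absurd (eq_one_of_coprime_pow (cop_a (F := F) m) hpd hp) hg

end Cfsg.Agent.S2238
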