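import Cfsg.Statements.S2268

set_option autoImplicit false
open Cfsg

namespace Cfsg.Agent.S2268

theorem le_cent {G : Type*} [Group G] {p : ℕ}
    (P : Sylow p G) (hP : IsMulCommutative (P : Subgroup G)) (Q : Subgroup G) (hQ : Q ≤ (P : Subgroup G)) :
    (P : Subgroup G) ≤ Subgroup.centralizer (Q : Set G) := by
  intro x hx
  rw [Subgroup.mem_centralizer_iff]
  intro y hy
  have := hP.is_comm.comm ⟨y, hQ hy⟩ ⟨x, hx⟩
  exact congrArg Subtype.val this

theorem conj_mem_cent {G : Type*} [Group G] (Q : Subgroup G) (g : G)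
    (hg : g ∈ Subgroup.normalizer (Q : Set G)) (x : G) (hx : x ∈ Subgroup.centralizer (Q : Set G)) :
    g * x * g⁻¹ ∈ Subgroup.centralizer (Q : Set G) := by
  rw [Subgroup.mem_centralizer_iff] at hx ⊢
  intro y hy
  have hy' : g⁻¹ * y * g ∈ Q := (Subgroup.mem_normalizer_iff''.mp hg y).mp hy
  have := hx _ hy'
  calc y * (g * x * g⁻¹) = g * ((g⁻¹ * y * g) * x) * g⁻¹ := by group
    _ = g * (x * (g⁻¹ * y * g)) * g⁻¹ := by rw [this]
    _ = g * x * g⁻¹ * y := by group

theorem norm_le_norm_cent {G : Type*} [Group G] (Q : Subgroup G) :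
    Subgroup.normalizer (Q : Set G) ≤ Subgroup.normalizer ((Subgroup.centralizer (Q : Set G) : Subgroup G) : Set G) := by
  intro g hg
  rw [Subgroup.mem_normalizer_iff]
  intro x
  constructor
  · exact conj_mem_cent Q g hg x
  · intro hx
    have := conj_mem_cent Q g⁻¹ (inv_mem hg) _ hx
    simpa [mul_assoc] using this

theorem frattini_part {G : Type*} [Group G] [Finite G] {p : ℕ} [Fact p.Prime]
    (P : Sylow p G) (hP : IsMulCommutative (P : Subgroup G)) (Q : Subgroup G) (hQ : Q ≤ (P : Subgroup G)) :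
    Subgroup.normalizer (Q : Set G) =
      (Subgroup.normalizer (Q : Set G) ⊓ Subgroup.normalizer ((P : Subgroup G) : Set G)) ⊔ Subgroup.centralizer (Q : Set G) := by
  have hPC : (P : Subgroup G) ≤ Subgroup.centralizer (Q : Set G) := le_cent P hP Q hQ
  apply le_antisymm
  · intro g hg
    -- conjugate of P by g lies in C
    set C := Subgroup.centralizer (Q : Set G) with hC
    have hgC : ∀ x ∈ C, g * x * g⁻¹ ∈ C := conj_mem_cent Q g hg
    have hgP : (g • P : Sylow p G) ≤ C := by
      intro x hx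
      rw [Sylow.smul_def, Sylow.pointwise_smul_def] at hx
      obtain ⟨y, hy, rfl⟩ := hx
      exact hgC y (hPC hy)
    obtain ⟨c, hc⟩ := MulAction.exists_smul_eq C ((g • P : Sylow p G).subtype hgP) (P.subtype hPC)
    simp_rw [Sylow.smul_subtype, Subgroup.smul_def, smul_smul] at hc
    have h4 : (c : G) * g ∈ Subgroup.normalizer ((P : Subgroup G) : Set G) :=
      Sylow.smul_eq_iff_mem_normalizer.mp (Sylow.subtype_injective hc)
    have hcN : (c : G) ∈ Subgroup.normalizer (Q : Set G) := Subgroup.centralizer_le_normalizer _ c.2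
    have : g = (c : G)⁻¹ * ((c : G) * g) := by group
    rw [this, sup_comm]
    exact Subgroup.mul_mem_sup (inv_mem c.2) ⟨mul_mem hcN hg, h4⟩
  · exact sup_le inf_le_left (Subgroup.centralizer_le_normalizer _)

/-- For a Sylow p-subgroup P of G that is abelian and a subgroup Q of P. -/
theorem result {G : Type*} [Group G] [Finite G] {p : ℕ} [Fact p.Prime]
    (P : Sylow p G) (hP : IsMulCommutative (P : Subgroup G)) (Q : Subgroup G) (hQ : Q ≤ (P : Subgroup G)) :
    Subgroup.normalizer (Q : Set G) =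
      (Subgroup.normalizer (Q : Set G) ⊓ Subgroup.normalizer ((P : Subgroup G) : Set G)) ⊔ Subgroup.centralizer (Q : Set G) ∧
    ((Subgroup.centralizer (Q : Set G)).subgroupOf (Subgroup.normalizer (Q : Set G))).index ∣ ((Subgroup.centralizer ((P : Subgroup G) : Set G)).subgroupOf (Subgroup.normalizer ((P : Subgroup G) : Set G))).index := by
  refine ⟨frattini_part P hP Q hQ, ?_⟩
  set NQ := Subgroup.normalizer (Q : Set G) with hNQ
  set NP := Subgroup.normalizer ((P : Subgroup G) : Set G) with hNP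
  set CQ := Subgroup.centralizer (Q : Set G) with hCQ
  set CP := Subgroup.centralizer ((P : Subgroup G) : Set G) with hCP
  change CQ.relIndex NQ ∣ CP.relIndex NP
  have h1 : NQ = (NQ ⊓ NP) ⊔ CQ := frattini_part P hP Q hQ
  have hle : NQ ⊓ NP ≤ Subgroup.normalizer (CQ : Set G) := by
    intro g hg
    exact norm_le_norm_cent Q hg.1
  have h2 : CQ.relIndex NQ = CQ.relIndex (NQ ⊓ NP) := by
    conv_lhs => rw [h1]
    letI := Subgroup.normal_subgroupOf_of_le_normalizer hle
    letI := Subgroup.normal_subgroupOf_sup_of_le_normalizer hle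
    exact Nat.card_congr (QuotientGroup.quotientInfEquivProdNormalizerQuotient (NQ ⊓ NP) CQ hle).toEquiv.symm
  have hCPQ : CP ≤ CQ := Subgroup.centralizer_le hQ
  have hCPNP : CP ≤ NP := Subgroup.centralizer_le_normalizer _
  have hCQNQ : CQ ≤ NQ := Subgroup.centralizer_le_normalizer _
  -- CP ≤ CQ ⊓ NP ≤ NQ ⊓ NP ≤ NP
  have h3 : CQ.relIndex (NQ ⊓ NP) = (CQ ⊓ NP).relIndex (NQ ⊓ NP) := by
    rw [← Subgroup.inf_relIndex_right CQ (NQ ⊓ NP), ← Subgroup.inf_relIndex_right (CQ ⊓ NP) (NQ ⊓ NP)]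
    congr 1
    apply le_antisymm
    · exact le_inf (le_inf inf_le_left (inf_le_right.trans inf_le_right)) inf_le_right
    · exact le_inf (inf_le_left.trans inf_le_left) inf_le_right
  rw [h2, h3]
  have h4 : (CQ ⊓ NP).relIndex (NQ ⊓ NP) * (NQ ⊓ NP).relIndex NP = (CQ ⊓ NP).relIndex NP :=
    Subgroup.relIndex_mul_relIndex _ _ _ (inf_le_inf_right _ hCQNQ) inf_le_right
  have h5 : CP.relIndex (CQ ⊓ NP) * (CQ ⊓ NP).relIndex NP = CP.relIndex NP :=
    Subgroup.relIndex_mul_relIndex _ _ _ (le_inf hCPQ hCPNP) inf_le_right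
  rw [← h5, ← h4]
  exact Dvd.dvd.mul_left (Dvd.intro _ rfl) _

end Cfsg.Agent.S2268
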