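import Cfsg.Statements.S2270

set_option autoImplicit false
open Cfsg

namespace Cfsg.Agent.S2270

/-- General statement: if an abelian Sylow `p`-subgroup (`p` odd) contains a non-identity element conjugate in `G`
to its inverse then the automizer has even order. -/
theorem even_automizer {G : Type*} [Group G] [Finite G] {p : ℕ} [Fact p.Prime] (hp : p ≠ 2)
    (P : Sylow p G) (hP : IsMulCommutative (P : Subgroup G)) (x : G) (hx : x ∈ P) (hx1 : x ≠ 1)
    (hconj : IsConj x x⁻¹) :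
    2 ∣ ((Subgroup.centralizer ((P : Subgroup G) : Set G)).subgroupOf (Subgroup.normalizer ((P : Subgroup G) : Set G))).index := by
  obtain ⟨g, hg⟩ := isConj_iff.mp hconj
  have hg' : g⁻¹⁻¹ * x * g⁻¹ = x⁻¹ := by simpa using hg
  have : IsMulCommutative P := hP
  obtain ⟨n, hn, hn'⟩ := P.conj_eq_normalizer_conj_of_mem x g⁻¹ hx (by rw [hg']; exact inv_mem hx)
  rw [hg'] at hn'
  -- n⁻¹ x n = x⁻¹
  have hxx : x⁻¹ ≠ x := by
    intro h
    have h2 : x ^ 2 = 1 := by
      rw [pow_two]; nth_rewrite 1 [← h]; simp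
    have hpd : p ∣ orderOf (⟨x, hx⟩ : (P : Subgroup G)) := P.2.dvd_orderOf (by
      intro h; exact hx1 (congrArg Subtype.val h))
    rw [Subgroup.orderOf_mk] at hpd
    have h3 : p ∣ 2 := hpd.trans (orderOf_dvd_of_pow_eq_one h2)
    exact hp ((Nat.prime_dvd_prime_iff_eq Fact.out Nat.prime_two).mp h3)
  rw [← Subgroup.normalizerMonoidHom_ker, Subgroup.index_ker]
  set φ := (P : Subgroup G).normalizerMonoidHom with hφ
  set ψ : MulAut (P : Subgroup G) := φ ⟨n, hn⟩ with hψ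
  have hψx : ψ ⟨x, hx⟩ = ⟨x, hx⟩⁻¹ := by
    apply Subtype.ext
    change n * x * n⁻¹ = x⁻¹
    have : x = n * x⁻¹ * n⁻¹ := by rw [hn']; group
    calc n * x * n⁻¹ = (n * x⁻¹ * n⁻¹)⁻¹ := by group
      _ = x⁻¹ := by rw [← this]
  have hodd : ∀ k : ℕ, (ψ ^ (2 * k + 1)) ⟨x, hx⟩ = ⟨x, hx⟩⁻¹ := by
    intro k
    induction k with
    | zero => simpa using hψx
    | succ k ih =>
      have : 2 * (k + 1) + 1 = 2 + (2 * k + 1) := by ring
      rw [this, pow_add, MulAut.mul_apply, ih, pow_two, MulAut.mul_apply, map_inv, hψx, map_inv, map_inv, hψx, inv_inv]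
  have heven : 2 ∣ orderOf ψ := by
    by_contra h
    obtain ⟨k, hk⟩ := Nat.odd_iff.mpr (Nat.two_dvd_ne_zero.mp h)
    have h1 := hodd k
    rw [← hk, pow_orderOf_eq_one] at h1
    exact hxx (congrArg Subtype.val h1).symm
  have hmem : ψ ∈ φ.range := ⟨_, rfl⟩
  have := orderOf_dvd_natCard (⟨ψ, hmem⟩ : φ.range)
  rw [Subgroup.orderOf_mk] at this
  exact heven.trans this

theorem result (n : ℕ) (hn : 3 ≤ n) {p : ℕ} [Fact p.Prime] (hp : p ≠ 2) (hpn : p ≤ n)
    (P : Sylow p (Equiv.Perm (Fin n))) (hP : IsMulCommutative (P : Subgroup (Equiv.Perm (Fin n)))) :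
    2 ∣ ((Subgroup.centralizer ((P : Subgroup (Equiv.Perm (Fin n))) : Set (Equiv.Perm (Fin n)))).subgroupOf (Subgroup.normalizer ((P : Subgroup (Equiv.Perm (Fin n))) : Set (Equiv.Perm (Fin n))))).index := by
  have hdvd : p ∣ Nat.card (Equiv.Perm (Fin n)) := by
    rw [Nat.card_eq_fintype_card, Fintype.card_perm, Fintype.card_fin]
    exact Nat.dvd_factorial (Fact.out : p.Prime).pos hpn
  have hne : (P : Subgroup (Equiv.Perm (Fin n))) ≠ ⊥ := P.ne_bot_of_dvd_card hdvd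
  obtain ⟨x, hx1⟩ := (Subgroup.ne_bot_iff_exists_ne_one).mp hne
  refine even_automizer hp P hP x x.2 (fun h => hx1 (Subtype.ext h)) ?_
  rw [Equiv.Perm.isConj_iff_cycleType_eq, Equiv.Perm.cycleType_inv]

end Cfsg.Agent.S2270
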