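import Cfsg.Statements.S2337
import Cfsg.Agent.Lib.Helper19.RepB

set_option autoImplicit false
open Cfsg

namespace Cfsg.Agent.S2337

/-- For the Suzuki group Sz(q), q = 2^(2m+1) with m ≥ 1 (realised inside Sp₄ over the field with q elements), every irreducible complex representation of degree at least 2 has degree at least 2^m·(q − 1). -/
theorem result {F : Type*} [Field F] [Fintype F] (m : ℕ) (hm : 1 ≤ m) (hF : Fintype.card F = 2 ^ (2 * m + 1)) :
    (∀ (k : ℕ) (ρ : Representation ℂ (Cfsg.Lie.Sz F (2 ^ (m + 1))) (Fin k → ℂ)), ρ.IsIrreducible → 2 ≤ k → 2 ^ m * (2 ^ (2 * m + 1) - 1) ≤ k) := by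
  intro k ρ hirr hk
  haveI : Cfsg.Agent.Lib.Helper19.Suz.Hyp F m := ⟨hm, hF⟩
  haveI : CharP F 2 := Cfsg.Agent.Lib.Helper19.Suz.Hyp.charP (F := F) (m := m)
  let ρ' : Representation ℂ (Cfsg.Sz F m) (Fin k → ℂ) :=
    ρ.comp (Cfsg.Agent.Lib.Helper19.Suz.lieEquiv (F := F) m).toMonoidHom
  have hmain := Cfsg.Agent.Lib.Helper19.Suz.rep_main m ρ' ?_
  · rw [Module.finrank_fin_fun, hF] at hmain
    exact hmain
  · intro h1
    have hker : ρ'.ker = ⊤ := Cfsg.Agent.Lib.Helper19.Suz.normal_eq_top m ρ'.ker (by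
      intro hbot
      have h2 : Cfsg.Agent.Lib.Helper19.Suz.tG m (0 : F) 1 ∈ ρ'.ker := h1
      rw [hbot, Subgroup.mem_bot] at h2
      exact Cfsg.Agent.Lib.Helper19.Suz.tG0_ne_one m one_ne_zero h2)
    have htriv : ∀ g, ρ g = 1 := by
      intro g
      obtain ⟨g', rfl⟩ := (Cfsg.Agent.Lib.Helper19.Suz.lieEquiv (F := F) m).surjective g
      have h3 : g' ∈ ρ'.ker := by rw [hker]; exact Subgroup.mem_top g'
      exact h3
    let U : Subrepresentation ρ :=
      ⟨Submodule.span ℂ {(Pi.single (⟨0, by omega⟩ : Fin k) (1 : ℂ) : Fin k → ℂ)}, by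
        intro g v hv
        rw [htriv g]
        exact hv⟩
    have he0 : (Pi.single (⟨0, by omega⟩ : Fin k) (1 : ℂ) : Fin k → ℂ) ∈ U.toSubmodule :=
      Submodule.subset_span rfl
    rcases hirr.eq_bot_or_eq_top U with hU | hU
    · rw [hU] at he0
      have h4 : (Pi.single (⟨0, by omega⟩ : Fin k) (1 : ℂ) : Fin k → ℂ) = 0 := he0
      have h5 := congrFun h4 ⟨0, by omega⟩
      simp at h5
    · have h6 : (Pi.single (⟨1, by omega⟩ : Fin k) (1 : ℂ) : Fin k → ℂ) ∈ U.toSubmodule := by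
        rw [hU]
        trivial
      obtain ⟨c, hc⟩ := Submodule.mem_span_singleton.1 h6
      have h7 := congrFun hc ⟨1, by omega⟩
      simp [Pi.single_apply] at h7

end Cfsg.Agent.S2337
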