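import Cfsg.Statements.S2355
import Cfsg.Agent.Lib.Helper19.LawG
import Cfsg.Agent.Lib.Helper19.LawH

set_option autoImplicit false
open Cfsg

namespace Cfsg.Agent.S2355

open Cfsg.Agent.Lib.Helper19.Law

theorem card_bound {G Γ : Type*} [Group Γ] (N : Subgroup Γ) (e : G ≃ Γ ⧸ N)
    {ι : Type} [Fintype ι] {F : Type} [Fintype F] (j : Γ → Matrix ι ι F)
    (hj : Function.Injective j) {a b : ℕ} (ha : Fintype.card F ≤ a) (hb : Fintype.card ι ≤ b)
    (ha1 : 1 ≤ a) :
    Nat.card G ≤ a ^ (b ^ 2) := by
  classical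
  haveI : Finite Γ := Finite.of_injective j hj
  have h1 : Nat.card G = Nat.card (Γ ⧸ N) := Nat.card_congr e
  have h2 : Nat.card (Γ ⧸ N) ≤ Nat.card Γ :=
    Nat.card_le_card_of_surjective _ (QuotientGroup.mk_surjective)
  have h3 : Nat.card Γ ≤ Nat.card (Matrix ι ι F) := Nat.card_le_card_of_injective j hj
  have h4 : Nat.card (Matrix ι ι F) = Fintype.card F ^ (Fintype.card ι ^ 2) := by
    rw [Nat.card_eq_fintype_card]
    show Fintype.card (ι → ι → F) = _
    rw [Fintype.card_fun, Fintype.card_fun, ← pow_mul, sq]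
  rw [h1]
  refine (h2.trans h3).trans ?_
  rw [h4]
  exact (Nat.pow_le_pow_left ha _).trans (Nat.pow_le_pow_right ha1 (Nat.pow_le_pow_left hb 2))

theorem omega_inj {ι : Type} [Fintype ι] [DecidableEq ι] {F : Type} [Field F] (Q : (ι → F) → F) :
    Function.Injective (fun g : Cfsg.Omega F Q => (g.1.1.1 : Matrix ι ι F)) := by
  intro a b h
  exact Subtype.ext (Subtype.ext (Units.ext h))

/-- A non-trivial law is satisfied by only finitely many finite simple groups that are alternating or classical, up to isomorphism: for every non-trivial element w of the free group on countably many generators there is a bound N such that every alternating group of degree ≥ 5 and every simple classical group (linear, symplectic, unitary or orthogonal, in this problem's sense) in which w is a law has order at most N. -/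
theorem result (w : FreeGroup ℕ) (hw : w ≠ 1) :
    ∃ N : ℕ, ∀ (G : Type*) [Group G] [Finite G],
      (Cfsg.IsAlternating G ∨ Cfsg.IsPSL G ∨ Cfsg.IsPSp G ∨ Cfsg.IsPSU G ∨ Cfsg.IsPOmegaOdd G ∨
          Cfsg.IsPOmegaPlus G ∨ Cfsg.IsPOmegaMinus G) →
      (∀ f : ℕ → G, FreeGroup.lift f w = 1) → Nat.card G ≤ N := by
  obtain ⟨N2, hN2⟩ := psl2_law.{0} w hw
  obtain ⟨p, hp, hpp⟩ := Nat.exists_infinite_primes N2
  haveI : Fact p.Prime := ⟨hpp⟩
  have hH0 : Bad w (Matrix.SpecialLinearGroup (Fin 2) (ZMod p)) :=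
    Bad.of_quot (hN2 (ZMod p) (by rw [ZMod.card]; exact hp))
  set n1 := 2 * Nat.card (Matrix.SpecialLinearGroup (Fin 2) (ZMod p)) with hn1
  have halt : ∀ n, n1 ≤ n → Bad w (alternatingGroup (Fin n)) := by
    intro n hn
    obtain ⟨ψ, hψ⟩ := embed_alt _ n hn
    exact hH0.of_injective ψ hψ
  have hSL : ∀ (F : Type) [Field F] [Fintype F] (n : ℕ), 2 ≤ n →
      (N2 ≤ Fintype.card F ∨ n1 ≤ n) → Bad w (Matrix.SpecialLinearGroup (Fin n) F) := by
    intro F _ _ n hn h
    rcases h with h | h
    · exact (Bad.of_quot (hN2 F h)).of_injective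
        (embSL (Jm F (Fin.castLE hn)) _ (Jm_mul _ (Fin.castLE_injective hn)))
        (embSL_injective _ _ _)
    · exact (halt n h).of_injective (altSL n F) altSL_injective
  refine ⟨(N2 ^ 2 + 1) ^ ((2 * n1 + 1) ^ 2) + n1.factorial, ?_⟩
  intro G _ _ hG hlaw
  have hsq : N2 ≤ N2 ^ 2 + 1 := by nlinarith
  rcases hG with ⟨n, hn, ⟨e⟩⟩ | ⟨F, _, _, n, hn, -, ⟨e⟩⟩ | ⟨F, _, _, m, hm, -, ⟨e⟩⟩ |
    ⟨F, _, _, n, q, hF, hn, -, ⟨e⟩⟩ | ⟨F, _, _, m, hm, -, ⟨e⟩⟩ | ⟨F, _, _, m, hm, ⟨e⟩⟩ |
    ⟨F, _, _, m, a, b, hm, -, ⟨e⟩⟩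
  · -- alternating
    by_cases h : n1 ≤ n
    · exact absurd hlaw ((halt n h).not_law' e)
    · refine le_trans ?_ (Nat.le_add_left _ _)
      rw [Nat.card_congr e.toEquiv]
      refine (Nat.card_le_card_of_injective _ Subtype.val_injective).trans ?_
      rw [Nat.card_eq_fintype_card, Fintype.card_perm, Fintype.card_fin]
      exact Nat.factorial_le (by omega)
  · -- PSL
    by_cases h : N2 ≤ Fintype.card F ∨ n1 ≤ n
    · exact absurd hlaw ((hSL F n hn h).not_law e)
    · push Not at h
      refine le_trans ?_ (Nat.le_add_right _ _)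
      exact card_bound _ e.toEquiv (fun g : Matrix.SpecialLinearGroup (Fin n) F => g.1)
        Subtype.val_injective (by omega) (by rw [Fintype.card_fin]; omega) (by omega)
  · -- PSp
    by_cases h : N2 ≤ Fintype.card F ∨ n1 ≤ m
    · exact absurd hlaw ((hSL F m hm h).sp.not_law e)
    · push Not at h
      refine le_trans ?_ (Nat.le_add_right _ _)
      exact card_bound _ e.toEquiv (fun g : Matrix.symplecticGroup (Fin m) F => g.1)
        Subtype.val_injective (by omega)
        (by rw [Fintype.card_sum, Fintype.card_fin]; omega) (by omega)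
  · -- PSU
    by_cases h : N2 ≤ q ∨ n1 ≤ n
    · rcases h with h | h
      · obtain ⟨K, _, _, hK⟩ := exists_field hF
        exact absurd hlaw ((Bad.su_of_sl hF (by omega) hK
          (Bad.of_quot (hN2 K (by omega)))).not_law e)
      · exact absurd hlaw ((Bad.su_of_alt (halt n h)).not_law e)
    · push Not at h
      refine le_trans ?_ (Nat.le_add_right _ _)
      exact card_bound _ e.toEquiv (fun g : Cfsg.SU n F q => g.1.1)
        (fun a b hab => Subtype.ext (Subtype.ext hab))
        (by rw [hF]; exact (Nat.pow_le_pow_left h.1.le 2).trans (Nat.le_succ _))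
        (by rw [Fintype.card_fin]; omega) (by omega)
  · -- odd
    by_cases h : N2 ≤ Fintype.card F ∨ n1 ≤ m
    · exact absurd hlaw (((hSL F m (by omega) h).odd (by omega)).not_law e)
    · push Not at h
      refine le_trans ?_ (Nat.le_add_right _ _)
      exact card_bound _ e.toEquiv _ (omega_inj _) (by omega)
        (by simp only [Fintype.card_sum, Fintype.card_fin, Fintype.card_unit]; omega) (by omega)
  · -- plus
    by_cases h : N2 ≤ Fintype.card F ∨ n1 ≤ m
    · exact absurd hlaw (((hSL F m (by omega) h).plus (by omega)).not_law e)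
    · push Not at h
      refine le_trans ?_ (Nat.le_add_right _ _)
      exact card_bound _ e.toEquiv _ (omega_inj _) (by omega)
        (by simp only [Fintype.card_sum, Fintype.card_fin]; omega) (by omega)
  · -- minus
    by_cases h : N2 ≤ Fintype.card F ∨ n1 ≤ m - 1
    · exact absurd hlaw (((hSL F (m - 1) (by omega) h).minus a b (by omega)).not_law e)
    · push Not at h
      refine le_trans ?_ (Nat.le_add_right _ _)
      exact card_bound _ e.toEquiv _ (omega_inj _) (by omega)
        (by simp only [Fintype.card_sum, Fintype.card_fin]; omega) (by omega)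

end Cfsg.Agent.S2355
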