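import Cfsg.Statements.S2394
import Cfsg.Agent.Lib.Helper14.SpOrder
import Cfsg.Agent.S2904

set_option autoImplicit false
open scoped MatrixGroups
open Cfsg

namespace Cfsg.Agent.S2394

/-- The smallest degree of a faithful representation of the symplectic group `Sp_{2n}(q)` over its own field `F_q` is `2n`: every injective homomorphism from `Sp_{2n}(F)` to `GL_d(F)`, `F` the field with `q` elements, has `d ≥ 2n`. -/
theorem result {F : Type*} [Field F] [Fintype F] (n : ℕ) {d : ℕ}
    (ρ : ↥(Matrix.symplecticGroup (Fin n) F) →* GL (Fin d) F) (hρ : Function.Injective ρ) : 2 * n ≤ d := by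
  classical
  by_contra hlt
  push Not at hlt
  set q := Fintype.card F with hq
  have hq1 : 1 < q := Fintype.one_lt_card
  have hdvd : Nat.card (Matrix.symplecticGroup (Fin n) F) ∣ Nat.card (GL (Fin d) F) :=
    Subgroup.card_dvd_of_injective ρ hρ
  rw [Cfsg.Agent.Lib.Helper14.card_sp, Matrix.card_GL_field, ← hq] at hdvd
  obtain ⟨k, rfl⟩ : ∃ k, n = k + 1 := ⟨n - 1, by omega⟩
  have hfac : q ^ (2 * (k + 1)) - 1 ∣ ∏ i : Fin d, (q ^ d - q ^ (i : ℕ)) := by
    refine dvd_trans ?_ hdvd
    refine dvd_trans ?_ (dvd_mul_left _ _)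
    exact Finset.dvd_prod_of_mem (fun i => q ^ (2 * (i + 1)) - 1) (Finset.mem_range.2 (Nat.lt_succ_self k))
  have key : ∀ r : ℕ, r.Prime → r ∣ q ^ (2 * (k + 1)) - 1 →
      (∀ j : ℕ, 0 < j → j < 2 * (k + 1) → ¬ r ∣ q ^ j - 1) → False := by
    intro r hr hr1 hr2
    have h1 := dvd_trans hr1 hfac
    obtain ⟨i, -, hi⟩ := (Prime.dvd_finset_prod_iff hr.prime _).1 h1
    have h2 : q ^ d - q ^ (i : ℕ) = q ^ (i : ℕ) * (q ^ (d - i) - 1) := by
      rw [Nat.mul_sub, mul_one, ← pow_add, Nat.add_sub_cancel' i.2.le]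
    rw [h2] at hi
    rcases (Nat.Prime.dvd_mul hr).1 hi with h | h
    · have h3 : r ∣ q := hr.dvd_of_dvd_pow h
      have h4 : r ∣ q ^ (2 * (k + 1)) := dvd_pow h3 (by omega)
      have h5 : 1 ≤ q ^ (2 * (k + 1)) := Nat.one_le_pow _ _ (by omega)
      have h6 : r ∣ 1 := by
        have := (Nat.dvd_sub h4 hr1)
        rwa [Nat.sub_sub_self h5] at this
      exact hr.one_lt.ne' (Nat.dvd_one.1 h6)
    · exact hr2 (d - i) (by have := i.2; omega) (by omega) h
  rcases Nat.eq_zero_or_pos k with rfl | hk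
  · -- n = 1
    have hd : d = 0 ∨ d = 1 := by omega
    have h3 : q ^ (2 * (0 + 1)) - 1 ≤ q - 1 := by
      rcases hd with rfl | rfl
      · have := Nat.le_of_dvd (by simp) hfac
        simp only [Finset.univ_eq_empty, Finset.prod_empty] at this
        omega
      · have := Nat.le_of_dvd (by simp; omega) hfac
        simpa using this
    have h4 : q < q ^ (2 * (0 + 1)) := by
      calc q = q ^ 1 := (pow_one q).symm
        _ < q ^ (2 * (0 + 1)) := Nat.pow_lt_pow_right hq1 (by norm_num)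
    omega
  · by_cases h6 : q = 2 ∧ 2 * (k + 1) = 6
    · obtain ⟨hq2, hk2⟩ := h6
      have hk' : k = 2 := by omega
      subst hk'
      rw [hq2] at hdvd
      have hd5 : d < 6 := by omega
      interval_cases d <;> simp [Fin.prod_univ_succ, Finset.prod_range_succ] at hdvd <;> omega
    · obtain ⟨r, hr, hr1, hr2⟩ := Cfsg.Agent.S2904.result q (2 * (k + 1)) hq1 (by omega) h6 (by
        rintro ⟨h, -⟩; omega)
      exact key r hr hr1 hr2

end Cfsg.Agent.S2394
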