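import Cfsg.Statements.S2450
import Cfsg.Agent.Lib.Helper14.PSL2Trace
open Cfsg.Agent.Lib.Helper14.PSL2Trace

set_option autoImplicit false
open Cfsg

namespace Cfsg.Agent.S2450

/-- The Arad–Herzog conjecture for PSL(2,q): let F be a finite field with q ≥ 4 elements. For any two non-identity elements a, b of PSL(2,F), the set of products of a conjugate of a with a conjugate of b is not a single conjugacy class. -/
theorem result {F : Type*} [Field F] [Fintype F] (h4 : 4 ≤ Fintype.card F)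
    (a b : Matrix.ProjectiveSpecialLinearGroup (Fin 2) F) (ha : a ≠ 1) (hb : b ≠ 1) (c : Matrix.ProjectiveSpecialLinearGroup (Fin 2) F) :
    {g : Matrix.ProjectiveSpecialLinearGroup (Fin 2) F | ∃ u v : Matrix.ProjectiveSpecialLinearGroup (Fin 2) F, g = (u * a * u⁻¹) * (v * b * v⁻¹)} ≠ {g | IsConj c g} := by
  intro hset
  obtain ⟨A, rfl⟩ := QuotientGroup.mk_surjective a
  obtain ⟨B, rfl⟩ := QuotientGroup.mk_surjective b
  obtain ⟨C, rfl⟩ := QuotientGroup.mk_surjective c
  have hA : A ∉ Subgroup.center (SL2 F) := fun h => ha ((QuotientGroup.eq_one_iff _).2 h)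
  have hB : B ∉ Subgroup.center (SL2 F) := fun h => hb ((QuotientGroup.eq_one_iff _).2 h)
  obtain ⟨u, hu⟩ := exists_conj_ne_zero A hA
  obtain ⟨v, hv⟩ := exists_conj_ne_zero B hB
  have key : ∀ x : F, ((u * A * u⁻¹) * (uEl x * (v * B * v⁻¹) * (uEl x)⁻¹)).1.trace ^ 2 = C.1.trace ^ 2 := by
    intro x
    symm
    apply trace_sq_eq_of_isConj
    have h1 : (QuotientGroup.mk ((u * A * u⁻¹) * (uEl x * (v * B * v⁻¹) * (uEl x)⁻¹)) :
        Matrix.ProjectiveSpecialLinearGroup (Fin 2) F) ∈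
        {g : Matrix.ProjectiveSpecialLinearGroup (Fin 2) F | ∃ u v : Matrix.ProjectiveSpecialLinearGroup (Fin 2) F, g = (u * QuotientGroup.mk A * u⁻¹) * (v * QuotientGroup.mk B * v⁻¹)} := by
      refine ⟨QuotientGroup.mk u, QuotientGroup.mk (uEl x * v), ?_⟩
      simp only [QuotientGroup.mk_mul, QuotientGroup.mk_inv, mul_inv_rev, mul_assoc]
    rw [hset] at h1
    exact h1
  simp only [trace_formula] at key
  exact quad_sq_not_const h4 _ _ _ _ (neg_ne_zero.2 (mul_ne_zero hu hv)) key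

end Cfsg.Agent.S2450
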