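import Cfsg.Statements.S2466
import Cfsg.Agent.Lib.Helper14.AltOrd

set_option autoImplicit false
open Cfsg

namespace Cfsg.Agent.S2466

/-- Adjacency of odd primes in the prime graph of the alternating groups: let r ≠ s be odd primes at most n. The alternating group of degree n has an element of order r·s if and only if r + s ≤ n. -/
theorem result (n r s : ℕ) (hr : r.Prime) (hs : s.Prime) (hr2 : r ≠ 2) (hs2 : s ≠ 2) (hrs : r ≠ s) (hrn : r ≤ n) (hsn : s ≤ n) :
    (r * s ∈ Set.range (orderOf : alternatingGroup (Fin n) → ℕ)) ↔ r + s ≤ n := by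
  rw [Cfsg.Agent.Lib.Helper14.AltOrd.mem_range_iff]
  have hr3 : 3 ≤ r := by
    have := hr.two_le
    omega
  have hs3 : 3 ≤ s := by
    have := hs.two_le
    omega
  have hro : ¬ Even r := fun h => hr2 ((Nat.Prime.even_iff hr).1 h)
  have hso : ¬ Even s := fun h => hs2 ((Nat.Prime.even_iff hs).1 h)
  constructor
  · rintro ⟨σ, -, h⟩
    have hsum : σ.cycleType.sum ≤ n := by
      have := σ.sum_cycleType_le
      simpa using this
    obtain ⟨a, ha, hra⟩ := Cfsg.Agent.Lib.Helper14.AltOrd.exists_dvd_of_prime_dvd_lcm hr σ.cycleType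
      (by rw [h]; exact dvd_mul_right r s)
    obtain ⟨b, hb, hsb⟩ := Cfsg.Agent.Lib.Helper14.AltOrd.exists_dvd_of_prime_dvd_lcm hs σ.cycleType
      (by rw [h]; exact dvd_mul_left s r)
    have ha2 := Equiv.Perm.two_le_of_mem_cycleType ha
    have hb2 := Equiv.Perm.two_le_of_mem_cycleType hb
    by_cases hab : a = b
    · subst hab
      have hcop : Nat.Coprime r s := (Nat.coprime_primes hr hs).2 hrs
      have hd : r * s ∣ a := hcop.mul_dvd_of_dvd_of_dvd hra hsb
      have h1 := Nat.le_of_dvd (by omega) hd
      have h2 := Multiset.le_sum_of_mem ha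
      nlinarith
    · have h1 := Cfsg.Agent.Lib.Helper14.AltOrd.add_le_sum ha hb hab
      have h2 := Nat.le_of_dvd (by omega) hra
      have h3 := Nat.le_of_dvd (by omega) hsb
      omega
  · intro h
    obtain ⟨σ, hσ⟩ := (Equiv.Perm.exists_with_cycleType_iff (Fin n) (m := {r, s})).2
      ⟨by simpa using h, by
        intro a ha
        simp at ha
        rcases ha with rfl | rfl <;> omega⟩
    refine ⟨σ, ?_, ?_⟩
    · rw [hσ]
      have : Multiset.filter Even ({r, s} : Multiset ℕ) = 0 := by
        rw [Multiset.filter_eq_nil]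
        intro a ha
        simp at ha
        rcases ha with rfl | rfl <;> assumption
      rw [this]
      simp
    · rw [hσ]
      have hcop : Nat.Coprime r s := (Nat.coprime_primes hr hs).2 hrs
      simp
      exact hcop.lcm_eq_mul

end Cfsg.Agent.S2466
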