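import Cfsg.Statements.S2467
import Cfsg.Agent.Lib.Helper14.AltOrd

set_option autoImplicit false
open Cfsg

namespace Cfsg.Agent.S2467

/-- Adjacency of 2 and an odd prime in the prime graph of the alternating groups: let r be an odd prime at most n, with n ≥ 4. The alternating group of degree n has an element of order 2r if and only if r + 4 ≤ n. -/
theorem result (n r : ℕ) (hn : 4 ≤ n) (hr : r.Prime) (hr2 : r ≠ 2) (hrn : r ≤ n) :
    (2 * r ∈ Set.range (orderOf : alternatingGroup (Fin n) → ℕ)) ↔ r + 4 ≤ n := by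
  rw [Cfsg.Agent.Lib.Helper14.AltOrd.mem_range_iff]
  have hr3 : 3 ≤ r := by
    have := hr.two_le
    omega
  have hro : ¬ Even r := fun h => hr2 ((Nat.Prime.even_iff hr).1 h)
  have hcop : Nat.Coprime 2 r := (Nat.coprime_primes Nat.prime_two hr).2 (Ne.symm hr2)
  constructor
  · rintro ⟨σ, hev, h⟩
    have hsum : σ.cycleType.sum ≤ n := by
      have := σ.sum_cycleType_le
      simpa using this
    obtain ⟨a, ha, hra⟩ := Cfsg.Agent.Lib.Helper14.AltOrd.exists_dvd_of_prime_dvd_lcm hr σ.cycleType
      (by rw [h]; exact dvd_mul_left r 2)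
    obtain ⟨b, hb, hsb⟩ := Cfsg.Agent.Lib.Helper14.AltOrd.exists_dvd_of_prime_dvd_lcm Nat.prime_two
      σ.cycleType (by rw [h]; exact dvd_mul_right 2 r)
    have ha2 := Equiv.Perm.two_le_of_mem_cycleType ha
    have hbE : b ∈ σ.cycleType.filter Even := Multiset.mem_filter.2 ⟨hb, even_iff_two_dvd.2 hsb⟩
    have hsplit : (σ.cycleType.filter Even).sum + (σ.cycleType.filter (fun x => ¬ Even x)).sum =
        σ.cycleType.sum := by
      rw [← Multiset.sum_add, Multiset.filter_add_not]
    have hpos : 0 < Multiset.card (σ.cycleType.filter Even) := Multiset.card_pos_iff_exists_mem.2 ⟨b, hbE⟩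
    have hc2 : 2 ≤ Multiset.card (σ.cycleType.filter Even) := by
      obtain ⟨k, hk⟩ := hev
      omega
    have hge : ∀ x ∈ σ.cycleType.filter Even, 2 ≤ x := fun x hx =>
      Equiv.Perm.two_le_of_mem_cycleType (Multiset.mem_filter.1 hx).1
    by_cases hae : Even a
    · have haE : a ∈ σ.cycleType.filter Even := Multiset.mem_filter.2 ⟨ha, hae⟩
      have hd : 2 * r ∣ a := hcop.mul_dvd_of_dvd_of_dvd (even_iff_two_dvd.1 hae) hra
      have h1 := Nat.le_of_dvd (by omega) hd
      obtain ⟨t, ht⟩ := Multiset.exists_cons_of_mem haE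
      rw [ht] at hc2 hsplit hge
      rw [Multiset.card_cons] at hc2
      rw [Multiset.sum_cons] at hsplit
      have h2 := Multiset.card_nsmul_le_sum (s := t) (a := 2)
        (fun x hx => hge x (Multiset.mem_cons_of_mem hx))
      rw [smul_eq_mul] at h2
      omega
    · have haO : a ∈ σ.cycleType.filter (fun x => ¬ Even x) := Multiset.mem_filter.2 ⟨ha, hae⟩
      have h1 := Multiset.le_sum_of_mem haO
      have h2 := Multiset.card_nsmul_le_sum (s := σ.cycleType.filter Even) (a := 2) hge
      rw [smul_eq_mul] at h2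
      have h3 := Nat.le_of_dvd (by omega) hra
      omega
  · intro h
    obtain ⟨σ, hσ⟩ := (Equiv.Perm.exists_with_cycleType_iff (Fin n) (m := {r, 2, 2})).2
      ⟨by simpa using h, by
        intro a ha
        simp at ha
        rcases ha with rfl | rfl <;> omega⟩
    refine ⟨σ, ?_, ?_⟩
    · rw [hσ]
      have : Multiset.filter Even ({r, 2, 2} : Multiset ℕ) = {2, 2} := by
        change Multiset.filter Even (r ::ₘ {2, 2}) = {2, 2}
        rw [Multiset.filter_cons_of_neg _ hro]
        rfl
      rw [this]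
      decide
    · rw [hσ]
      simp
      rw [lcm_comm]
      exact hcop.lcm_eq_mul

end Cfsg.Agent.S2467
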