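import Cfsg.Statements.S2471
import Cfsg.Agent.Lib.Helper19.PSL2Spec

set_option autoImplicit false
open Cfsg

namespace Cfsg.Agent.S2471

/-- In PSL(2,q) with q odd, the characteristic p is isolated from 2 in the prime graph: for F a finite field of odd characteristic p with at least 5 elements, PSL(2,F) has no element of order 2p. -/
theorem result {F : Type*} [Field F] [Fintype F] (p : ℕ) [Fact p.Prime] [CharP F p] (hp : p ≠ 2) (h5 : 5 ≤ Fintype.card F) (g : Matrix.ProjectiveSpecialLinearGroup (Fin 2) F) :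
    orderOf g ≠ 2 * p := by
  intro hg
  have h := Cfsg.Agent.Lib.Helper19.psl2_spectrum (F := F) p
    (by rw [Nat.card_eq_fintype_card]; omega)
  rw [Nat.card_eq_fintype_card] at h
  have hmem : 2 * p ∈ Set.range (orderOf : Matrix.ProjectiveSpecialLinearGroup (Fin 2) F → ℕ) :=
    ⟨g, hg⟩
  rw [h] at hmem
  have hpp : p.Prime := Fact.out
  have hpq : p ∣ Fintype.card F := (CharP.cast_eq_zero_iff F p _).mp (Nat.cast_card_eq_zero F)
  have hd1 : Nat.gcd 2 (Fintype.card F - 1) ∣ Fintype.card F - 1 := Nat.gcd_dvd_right _ _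
  have hd2 : Nat.gcd 2 (Fintype.card F - 1) ∣ Fintype.card F + 1 := by
    have e : Fintype.card F + 1 = (Fintype.card F - 1) + 2 := by omega
    rw [e]
    exact dvd_add hd1 (Nat.gcd_dvd_left _ _)
  rcases hmem with h1 | h1 | h1
  · have := Nat.le_of_dvd hpp.pos h1
    have := hpp.pos
    omega
  · have h2 : p ∣ Fintype.card F - 1 :=
      ((dvd_mul_left p 2).trans h1).trans (Nat.div_dvd_of_dvd hd1)
    have h3 : p ∣ 1 := by
      have := (Nat.dvd_sub hpq h2)
      have e : Fintype.card F - (Fintype.card F - 1) = 1 := by omega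
      rwa [e] at this
    exact hpp.one_lt.ne' (Nat.dvd_one.mp h3)
  · have h2 : p ∣ Fintype.card F + 1 :=
      ((dvd_mul_left p 2).trans h1).trans (Nat.div_dvd_of_dvd hd2)
    have h3 : p ∣ 1 := (Nat.dvd_add_right hpq).mp h2
    exact hpp.one_lt.ne' (Nat.dvd_one.mp h3)

end Cfsg.Agent.S2471
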