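import Cfsg.Statements.S2485
import Cfsg.Agent.Lib.Helper13.GL2

set_option autoImplicit false
set_option linter.unusedSimpArgs false
open scoped Pointwise
open Cfsg

namespace Cfsg.Agent.S2485

open Matrix Cfsg.Agent.Lib.Helper13

section aux

variable {q : ℕ} [Fact q.Prime]

local notation "Mat" => Matrix (Fin 2) (Fin 2) (ZMod q)

/-- the standard element of square `-1`. -/
def G0 (q : ℕ) : Matrix (Fin 2) (Fin 2) (ZMod q) := !![0, -1; 1, 0]

theorem G0_sq : G0 q * G0 q = -1 := by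
  unfold G0
  rw [Matrix.mul_fin_two, Matrix.one_fin_two]
  ext i j
  fin_cases i <;> fin_cases j <;> simp

theorem G0_nonScal : NonScal (G0 q) := by
  right; left
  simp [G0]

theorem G0_det : (G0 q).det = 1 := by
  simp [G0, Matrix.det_fin_two_of]

theorem G0_pow_aux (m : ℕ) : G0 q ^ (4 * m + 3) = -G0 q := by
  have h4 : G0 q ^ 4 = 1 := by
    have : G0 q ^ 4 = (G0 q * G0 q) * (G0 q * G0 q) := by
      simp only [pow_succ, pow_zero, one_mul, mul_assoc]
    rw [this, G0_sq]; simp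
  have h3 : G0 q ^ 3 = -G0 q := by
    have : G0 q ^ 3 = (G0 q * G0 q) * G0 q := by
      simp only [pow_succ, pow_zero, one_mul, mul_assoc]
    rw [this, G0_sq]; simp
  rw [pow_add, pow_mul, h4, one_pow, one_mul, h3]

theorem G0_pow (hq : q % 4 = 3) : G0 q ^ q = -G0 q := by
  have := G0_pow_aux (q := q) (q / 4)
  have e : 4 * (q / 4) + 3 = q := by omega
  rwa [e] at this

theorem pow_succ_card (hq : q % 4 = 3) (a b : ZMod q) :
    (a • (1 : Mat) + b • G0 q) ^ (q + 1) = (a ^ 2 + b ^ 2) • (1 : Mat) := by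
  have hc : Commute (a • (1 : Mat)) (b • G0 q) := by
    show _ * _ = _ * _
    simp only [smul_mul_assoc, mul_smul_comm, one_mul, mul_one]
    exact smul_comm _ _ _
  rw [pow_succ, add_pow_char_of_commute q hc, smul_pow, smul_pow, one_pow, ZMod.pow_card,
    ZMod.pow_card, G0_pow hq]
  simp only [add_mul, mul_add, smul_mul_assoc, mul_smul_comm, one_mul, mul_one, neg_mul, mul_neg,
    G0_sq, smul_smul, smul_neg, neg_neg]
  module

/-- elements commuting with `G0` up to a scalar have a power which is scalar. -/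
theorem lemP (hq : q % 4 = 3) (H : Mat) (hH : H.det ≠ 0) (u : ZMod q)
    (hu : G0 q * H = u • (H * G0 q)) : ∃ c : ZMod q, (H * H) ^ (q + 1) = c • (1 : Mat) := by
  have hu2 : u ^ 2 = 1 := by
    have := congrArg Matrix.det hu
    rw [Matrix.det_smul, Matrix.det_mul, Matrix.det_mul, G0_det, Fintype.card_fin] at this
    have h1 : (u ^ 2 - 1) * H.det = 0 := by linear_combination -this
    exact sub_eq_zero.1 ((mul_eq_zero.1 h1).resolve_right hH)
  have hK : (H * H) * G0 q = G0 q * (H * H) := by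
    symm
    calc G0 q * (H * H) = (G0 q * H) * H := (mul_assoc _ _ _).symm
      _ = (u • (H * G0 q)) * H := by rw [hu]
      _ = u • (H * (G0 q * H)) := by rw [smul_mul_assoc, mul_assoc]
      _ = u • (H * (u • (H * G0 q))) := by rw [hu]
      _ = (u ^ 2) • (H * (H * G0 q)) := by rw [mul_smul_comm, smul_smul, pow_two]
      _ = (H * H) * G0 q := by rw [hu2, one_smul, mul_assoc]
  obtain ⟨a, b, hab⟩ := (commute_iff_of_nonScal _ _ G0_nonScal).mp hK
  exact ⟨a ^ 2 + b ^ 2, by rw [hab, pow_succ_card hq]⟩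

theorem lemN (hq : q % 4 = 3) (g : Mat) (hg : g * g = -1) :
    (G0 q * g - g * G0 q) * G0 q = -(G0 q * (G0 q * g - g * G0 q)) ∧
    (G0 q * g - g * G0 q) * g = -(g * (G0 q * g - g * G0 q)) ∧
    (G0 q * g - g * G0 q = 0 ∨ (G0 q * g - g * G0 q).det ≠ 0) := by
  refine ⟨?_, ?_, ?_⟩
  · have e1 : g * G0 q * G0 q = -g := by rw [mul_assoc, G0_sq]; simp
    have e2 : G0 q * (G0 q * g) = -g := by rw [← mul_assoc, G0_sq]; simp
    rw [sub_mul, mul_sub, e1, e2, mul_assoc]
    abel
  · have e1 : G0 q * g * g = -G0 q := by rw [mul_assoc, hg]; simp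
    have e2 : g * (g * G0 q) = -G0 q := by rw [← mul_assoc, hg]; simp
    rw [sub_mul, mul_sub, e1, e2, mul_assoc]
    abel
  · have hns : ¬ IsSquare (-1 : ZMod q) := by
      rw [ZMod.exists_sq_eq_neg_one_iff]
      omega
    have hn : G0 q * g - g * G0 q = !![-(g 1 0) - g 0 1, g 0 0 - g 1 1; g 0 0 - g 1 1, g 0 1 + g 1 0] := by
      ext i j
      fin_cases i <;> fin_cases j <;>
        simp only [Matrix.sub_apply, Matrix.mul_apply, Fin.sum_univ_two] <;> simp [G0] <;> ring
    by_cases hd : (G0 q * g - g * G0 q).det = 0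
    · left
      rw [hn, Matrix.det_fin_two_of] at hd
      have hx : g 0 0 - g 1 1 = 0 := by
        by_contra hx
        apply hns
        refine ⟨(g 0 1 + g 1 0) / (g 0 0 - g 1 1), ?_⟩
        field_simp
        linear_combination hd
      have hy : g 0 1 + g 1 0 = 0 := by
        rw [hx] at hd
        have : (g 0 1 + g 1 0) ^ 2 = 0 := by linear_combination -hd
        simpa using this
      rw [hn, hx, hy]
      have : -(g 1 0) - g 0 1 = 0 := by linear_combination -hy
      rw [this]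
      ext i j
      fin_cases i <;> fin_cases j <;> simp
    · exact Or.inr hd

local notation "GLq" => GL (Fin 2) (ZMod q)
local notation "PG" => GL (Fin 2) (ZMod q) ⧸ Subgroup.center (GL (Fin 2) (ZMod q))
local notation "π" => QuotientGroup.mk' (Subgroup.center (GL (Fin 2) (ZMod q)))

/-- `G0` as an invertible matrix. -/
noncomputable def g0 (q : ℕ) [Fact q.Prime] : GL (Fin 2) (ZMod q) :=
  Matrix.GeneralLinearGroup.mkOfDetNeZero (G0 q) (by rw [G0_det]; exact one_ne_zero)

theorem g0_val : ((g0 q : GLq) : Mat) = G0 q := rfl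

theorem mem_center_of_val (z : GLq) (c : ZMod q) (hz : (z : Mat) = c • (1 : Mat)) :
    z ∈ Subgroup.center GLq := by
  rw [Subgroup.mem_center_iff]
  intro g
  apply Units.ext
  simp [hz]

theorem exists_of_mem_center (z : GLq) (hz : z ∈ Subgroup.center GLq) :
    ∃ c : ZMod q, (z : Mat) = c • (1 : Mat) := by
  rw [Matrix.GeneralLinearGroup.center_eq_range_scalar] at hz
  obtain ⟨u, rfl⟩ := hz
  exact ⟨u, by rw [Matrix.GeneralLinearGroup.coe_scalar, Matrix.smul_one_eq_diagonal]; rfl⟩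

theorem det_ne_zero' (h : GLq) : (h : Mat).det ≠ 0 := by
  rw [← Matrix.GeneralLinearGroup.val_det_apply]
  exact Units.ne_zero _

theorem isPGroup_cent {k : ℕ} (hk : q + 1 = 2 ^ k) (hq : q % 4 = 3) :
    IsPGroup 2 (Subgroup.centralizer ({π (g0 q)} : Set PG)) := by
  rintro ⟨y, hy⟩
  refine ⟨k + 1, ?_⟩
  apply Subtype.ext
  show y ^ (2 ^ (k + 1)) = 1
  obtain ⟨h, rfl⟩ := QuotientGroup.mk'_surjective _ y
  rw [Subgroup.mem_centralizer_singleton_iff, ← map_mul, ← map_mul, QuotientGroup.mk'_eq_mk'] at hy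
  obtain ⟨z, hz, hzz⟩ := hy
  obtain ⟨c, hc⟩ := exists_of_mem_center z hz
  have hu : G0 q * (h : Mat) = c • ((h : Mat) * G0 q) := by
    have := congrArg Units.val hzz
    simp only [Units.val_mul, hc, g0_val, mul_smul_comm, mul_one] at this
    exact this.symm
  obtain ⟨d, hd⟩ := lemP hq (h : Mat) (det_ne_zero' h) c hu
  rw [← map_pow, QuotientGroup.mk'_apply, QuotientGroup.eq_one_iff]
  apply mem_center_of_val _ d
  rw [pow_succ 2 k, ← hk, mul_comm, pow_mul, Units.val_pow_eq_pow_val, pow_two, Units.val_mul]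
  exact hd

theorem comm_of_anti (h g : GLq) (hm : (h : Mat) * (g : Mat) = -((g : Mat) * (h : Mat))) :
    π h * π g = π g * π h := by
  rw [← map_mul, ← map_mul, QuotientGroup.mk'_eq_mk']
  refine ⟨-1, mem_center_of_val _ (-1) (by simp), ?_⟩
  apply Units.ext
  simp [hm]

theorem two_ne_zero' (hq : q % 4 = 3) : (2 : ZMod q) ≠ 0 := by
  intro h
  have h' : ((2 : ℕ) : ZMod q) = 0 := by exact_mod_cast h
  rw [ZMod.natCast_eq_zero_iff] at h'
  have := Nat.le_of_dvd (by norm_num) h'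
  have : q = 1 ∨ q = 2 ∨ q = 0 := by omega
  rcases this with rfl | rfl | rfl <;> omega

theorem exists_common (hq : q % 4 = 3) (b : GLq) :
    ∃ h : GLq, π h ≠ 1 ∧ π h * π (g0 q) = π (g0 q) * π h ∧
      π h * (π b * π (g0 q) * (π b)⁻¹) = (π b * π (g0 q) * (π b)⁻¹) * π h := by
  set g2 : GLq := b * g0 q * b⁻¹ with hg2
  have hπ : π b * π (g0 q) * (π b)⁻¹ = π g2 := by rw [hg2, map_mul, map_mul, map_inv]
  rw [hπ]
  have hsq : (g2 : Mat) * (g2 : Mat) = -1 := by
    have e : g2 * g2 = b * (g0 q * g0 q) * b⁻¹ := by rw [hg2]; group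
    have := congrArg Units.val e
    simp only [Units.val_mul, g0_val, G0_sq, mul_neg, mul_one, neg_mul, Units.mul_inv] at this
    exact this
  obtain ⟨a1, a2, a3⟩ := lemN hq (g2 : Mat) hsq
  rcases a3 with a3 | a3
  · refine ⟨g0 q, ?_, rfl, ?_⟩
    · rw [Ne, QuotientGroup.mk'_apply, QuotientGroup.eq_one_iff]
      intro hc
      obtain ⟨c, hc⟩ := exists_of_mem_center _ hc
      have := congrFun (congrFun hc 1) 0
      simp [g0_val, G0] at this
    · rw [← map_mul, ← map_mul]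
      congr 1
      apply Units.ext
      simp only [Units.val_mul, g0_val]
      exact sub_eq_zero.1 a3
  · refine ⟨Matrix.GeneralLinearGroup.mkOfDetNeZero _ a3, ?_, comm_of_anti _ _ a1, comm_of_anti _ _ a2⟩
    rw [Ne, QuotientGroup.mk'_apply, QuotientGroup.eq_one_iff]
    intro hc
    obtain ⟨c, hc⟩ := exists_of_mem_center _ hc
    have hc' : G0 q * (g2 : Mat) - (g2 : Mat) * G0 q = c • (1 : Mat) := hc
    rw [hc'] at a1 a3
    have h10 := congrFun (congrFun a1 1) 0
    simp [G0] at h10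
    have hc0 : c = 0 := by
      have : 2 * c = 0 := by linear_combination h10
      exact (mul_eq_zero.1 this).resolve_left (two_ne_zero' hq)
    rw [hc0] at a3
    simp at a3

end aux

/-- Let q = 2^k − 1 ≥ 7 be a prime and let G = PGL(2,q), the general linear group of degree 2 over the field with q elements modulo its centre. Then any two Sylow 2-subgroups of G have a non-trivial intersection: for a Sylow 2-subgroup H and every x ∈ G, H ∩ H^x ≠ 1. -/
theorem result {q k : ℕ} [Fact q.Prime] (hk : q + 1 = 2 ^ k) (hq : 7 ≤ q)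
    (H : Sylow 2 (GL (Fin 2) (ZMod q) ⧸ Subgroup.center (GL (Fin 2) (ZMod q))))
    (x : GL (Fin 2) (ZMod q) ⧸ Subgroup.center (GL (Fin 2) (ZMod q))) :
    (H : Subgroup (GL (Fin 2) (ZMod q) ⧸ Subgroup.center (GL (Fin 2) (ZMod q)))) ⊓ MulAut.conj x • (H : Subgroup _) ≠ ⊥ := by
  have hq4 : q % 4 = 3 := by
    have hk2 : 2 ≤ k := by
      by_contra hk2
      have : k = 0 ∨ k = 1 := by omega
      rcases this with rfl | rfl <;> omega
    obtain ⟨m, hm⟩ : 2 ^ 2 ∣ 2 ^ k := pow_dvd_pow 2 hk2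
    omega
  have hP := isPGroup_cent hk hq4
  obtain ⟨H₀, hH₀⟩ := hP.exists_le_sylow
  obtain ⟨a, rfl⟩ := MulAction.exists_smul_eq
    (GL (Fin 2) (ZMod q) ⧸ Subgroup.center (GL (Fin 2) (ZMod q))) H₀ H
  obtain ⟨b, hb⟩ := QuotientGroup.mk'_surjective _ (a⁻¹ * x * a)
  obtain ⟨h, h1, h2, h3⟩ := exists_common hq4 b
  rw [hb] at h3
  set w := QuotientGroup.mk' (Subgroup.center (GL (Fin 2) (ZMod q))) h with hw
  set t := QuotientGroup.mk' (Subgroup.center (GL (Fin 2) (ZMod q))) (g0 q) with ht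
  intro hbot
  have hwH : w ∈ (H₀ : Subgroup _) := by
    apply hH₀
    rw [Subgroup.mem_centralizer_singleton_iff]
    exact h2
  have hwH2 : (a⁻¹ * x * a)⁻¹ * w * (a⁻¹ * x * a) ∈ (H₀ : Subgroup _) := by
    apply hH₀
    rw [Subgroup.mem_centralizer_singleton_iff]
    calc (a⁻¹ * x * a)⁻¹ * w * (a⁻¹ * x * a) * t
        = (a⁻¹ * x * a)⁻¹ * (w * ((a⁻¹ * x * a) * t * (a⁻¹ * x * a)⁻¹)) * (a⁻¹ * x * a) := by group
      _ = (a⁻¹ * x * a)⁻¹ * ((a⁻¹ * x * a) * t * (a⁻¹ * x * a)⁻¹ * w) * (a⁻¹ * x * a) := by rw [h3]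
      _ = t * ((a⁻¹ * x * a)⁻¹ * w * (a⁻¹ * x * a)) := by group
  have hmem : a * w * a⁻¹ ∈ ((a • H₀ : Sylow 2 _) : Subgroup
      (GL (Fin 2) (ZMod q) ⧸ Subgroup.center (GL (Fin 2) (ZMod q)))) ⊓
      MulAut.conj x • ((a • H₀ : Sylow 2 _) : Subgroup _) := by
    rw [Sylow.smul_def, Sylow.pointwise_smul_def]
    refine Subgroup.mem_inf.2 ⟨?_, ?_⟩
    · rw [Subgroup.mem_pointwise_smul_iff_inv_smul_mem]
      have : (MulAut.conj a)⁻¹ • (a * w * a⁻¹) = w := by
        rw [← map_inv, MulAut.smul_def, MulAut.conj_apply]; group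
      rw [this]
      exact hwH
    · rw [Subgroup.mem_pointwise_smul_iff_inv_smul_mem, Subgroup.mem_pointwise_smul_iff_inv_smul_mem]
      have : (MulAut.conj a)⁻¹ • (MulAut.conj x)⁻¹ • (a * w * a⁻¹) =
          (a⁻¹ * x * a)⁻¹ * w * (a⁻¹ * x * a) := by
        rw [← map_inv, ← map_inv, MulAut.smul_def, MulAut.smul_def, MulAut.conj_apply,
          MulAut.conj_apply]
        group
      rw [this]
      exact hwH2
  rw [hbot, Subgroup.mem_bot] at hmem
  apply h1
  have : w = a⁻¹ * (a * w * a⁻¹) * a := by group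
  rw [this, hmem]
  group

end Cfsg.Agent.S2485
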