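import Cfsg.Statements.S2505
import Mathlib

set_option autoImplicit false
open Cfsg

namespace Cfsg.Agent.S2505

open Equiv Equiv.Perm MulAction

def gg : ℕ → ℕ
  | 0 => 1
  | 1 => 1
  | 2 => 2
  | 3 => 3
  | 4 => 4
  | (n + 5) => 3 * gg (n + 2)

lemma gg_add3 (n : ℕ) (h : 2 ≤ n) : gg (n + 3) = 3 * gg n := by
  obtain ⟨m, rfl⟩ := Nat.exists_eq_add_of_le h
  rw [show 2 + m + 3 = m + 5 by omega, show 2 + m = m + 2 by omega, gg]

lemma gg_step (c j : ℕ) (h0 : c * gg 0 ≤ gg (0 + j)) (h1 : c * gg 1 ≤ gg (1 + j))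
    (h2 : c * gg 2 ≤ gg (2 + j)) (h3 : c * gg 3 ≤ gg (3 + j)) (h4 : c * gg 4 ≤ gg (4 + j)) :
    ∀ r, c * gg r ≤ gg (r + j) := by
  intro r
  induction r using Nat.strong_induction_on with
  | _ r ih =>
    by_cases hr : r < 5
    · interval_cases r <;> assumption
    · obtain ⟨m, rfl⟩ : ∃ m, r = m + 3 := ⟨r - 3, by omega⟩
      have := ih m (by omega)
      rw [gg_add3 m (by omega), show m + 3 + j = (m + j) + 3 by omega, gg_add3 (m + j) (by omega)]
      nlinarith

lemma gg1 : ∀ r, 1 * gg r ≤ gg (r + 1) := gg_step 1 1 (by decide) (by decide) (by decide)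
  (by decide) (by decide)
lemma gg2 : ∀ r, 2 * gg r ≤ gg (r + 2) := gg_step 2 2 (by decide) (by decide) (by decide)
  (by decide) (by decide)
lemma gg3 : ∀ r, 3 * gg r ≤ gg (r + 3) := gg_step 3 3 (by decide) (by decide) (by decide)
  (by decide) (by decide)
lemma gg4 : ∀ r, 4 * gg r ≤ gg (r + 4) := gg_step 4 4 (by decide) (by decide) (by decide)
  (by decide) (by decide)

lemma gg_mul (m : ℕ) (hm : 1 ≤ m) (r : ℕ) : m * gg r ≤ gg (r + m) := by
  induction m using Nat.strong_induction_on with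
  | _ m ih =>
    by_cases h5 : m < 5
    · interval_cases m
      · exact gg1 r
      · exact gg2 r
      · exact gg3 r
      · exact gg4 r
    · obtain ⟨k, rfl⟩ : ∃ k, m = k + 3 := ⟨m - 3, by omega⟩
      have := ih k (by omega) (by omega)
      rw [show r + (k + 3) = (r + k) + 3 by omega, gg_add3 (r + k) (by omega)]
      have hk : k + 3 ≤ 3 * k := by omega
      calc (k + 3) * gg r ≤ 3 * k * gg r := Nat.mul_le_mul_right _ hk
        _ = 3 * (k * gg r) := by ring
        _ ≤ 3 * gg (r + k) := Nat.mul_le_mul_left _ this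

lemma gg_pos (n : ℕ) : 1 ≤ gg n := by
  induction n with
  | zero => decide
  | succ n ih => have := gg1 n; omega

lemma gg_3k (k : ℕ) : gg (3 * k) = 3 ^ k := by
  induction k with
  | zero => rfl
  | succ k ih =>
    rcases Nat.eq_zero_or_pos k with rfl | hk
    · rfl
    · rw [show 3 * (k + 1) = 3 * k + 3 by ring, gg_add3 _ (by omega), ih, pow_succ]; ring

lemma gg_3k2 (k : ℕ) : gg (3 * k + 2) = 2 * 3 ^ k := by
  induction k with
  | zero => rfl
  | succ k ih =>
    rw [show 3 * (k + 1) + 2 = (3 * k + 2) + 3 by ring, gg_add3 _ (by omega), ih, pow_succ]; ring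

lemma gg_3k4 (k : ℕ) : gg (3 * k + 4) = 4 * 3 ^ k := by
  induction k with
  | zero => rfl
  | succ k ih =>
    rw [show 3 * (k + 1) + 4 = (3 * k + 4) + 3 by ring, gg_add3 _ (by omega), ih, pow_succ]; ring

section UB
variable {α : Type*} [Fintype α] [DecidableEq α]

lemma bound (k : ℕ) : ∀ (B : Subgroup (Perm α)) (F : Finset α), (∀ a ∈ B, ∀ b ∈ B, a * b = b * a) →
    (∀ b ∈ B, ∀ y ∈ F, b y = y) → F.card + k = Fintype.card α → Nat.card B ≤ gg k := by
  classical
  induction k using Nat.strong_induction_on with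
  | _ k ih =>
    intro B F hcomm hfix hk
    by_cases hF : ∃ x, x ∉ F
    · obtain ⟨x, hx⟩ := hF
      set B' : Subgroup (Perm α) := B ⊓ stabilizer (Perm α) x with hB'
      set O : Finset α := (orbit B x).toFinset with hO
      have hOmem : ∀ y, y ∈ O ↔ ∃ c ∈ B, c x = y := by
        intro y
        rw [hO, Set.mem_toFinset, mem_orbit_iff]
        constructor
        · rintro ⟨c, rfl⟩; exact ⟨c, c.2, rfl⟩
        · rintro ⟨c, hc, rfl⟩; exact ⟨⟨c, hc⟩, rfl⟩
      have hdisj : Disjoint F O := by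
        rw [Finset.disjoint_left]
        intro y hyF hyO
        obtain ⟨c, hc, rfl⟩ := (hOmem y).1 hyO
        have := hfix c hc _ hyF
        exact hx (c.injective this ▸ hyF)
      have hxO : x ∈ O := (hOmem x).2 ⟨1, B.one_mem, rfl⟩
      have hm : 1 ≤ O.card := Finset.card_pos.2 ⟨x, hxO⟩
      have hcardU : (F ∪ O).card = F.card + O.card := Finset.card_union_of_disjoint hdisj
      have hle : (F ∪ O).card ≤ Fintype.card α := Finset.card_le_univ _
      have h1 : Nat.card B' ≤ gg (k - O.card) := by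
        apply ih (k - O.card) (by omega) B' (F ∪ O)
        · intro a ha b hb; exact hcomm a ha.1 b hb.1
        · intro b hb y hy
          rcases Finset.mem_union.1 hy with h | h
          · exact hfix b hb.1 y h
          · obtain ⟨c, hc, rfl⟩ := (hOmem y).1 h
            have hbx : b x = x := hb.2
            rw [← Perm.mul_apply, hcomm b hb.1 c hc, Perm.mul_apply, hbx]
        · omega
      have h2 : Nat.card B = O.card * Nat.card B' := by
        have e1 := (stabilizer B x).card_mul_index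
        rw [index_stabilizer] at e1
        have e2 : (orbit B x).ncard = O.card := by
          rw [hO, Set.ncard_eq_toFinset_card']
        have e3 : Nat.card (stabilizer B x) = Nat.card B' := by
          apply Nat.card_congr
          exact
            { toFun := fun b => ⟨b.1.1, b.1.2, b.2⟩
              invFun := fun b => ⟨⟨b.1, b.2.1⟩, b.2.2⟩
              left_inv := fun _ => rfl
              right_inv := fun _ => rfl }
        rw [← e1, e2, e3, mul_comm]
      rw [h2]
      calc O.card * Nat.card B' ≤ O.card * gg (k - O.card) := Nat.mul_le_mul_left _ h1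
        _ ≤ gg (k - O.card + O.card) := gg_mul _ hm _
        _ = gg k := by congr 1; omega
    · push Not at hF
      have : B = ⊥ := by
        rw [eq_bot_iff]
        intro b hb
        rw [Subgroup.mem_bot]
        ext y
        exact hfix b hb y (hF y)
      rw [this]
      simpa using gg_pos k

end UB

def Ex (n c : ℕ) : Prop := ∃ A : Subgroup (Perm (Fin n)), IsMulCommutative A ∧ Nat.card A = c

lemma Ex_add {a b u v : ℕ} (h1 : Ex a u) (h2 : Ex b v) : Ex (a + b) (u * v) := by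
  obtain ⟨A, hA, hAc⟩ := h1
  obtain ⟨B, hB, hBc⟩ := h2
  let φ : Perm (Fin a) × Perm (Fin b) →* Perm (Fin (a + b)) :=
    (finSumFinEquiv.permCongrHom).toMonoidHom.comp (sumCongrHom (Fin a) (Fin b))
  have hφ : Function.Injective φ :=
    (finSumFinEquiv.permCongrHom).injective.comp sumCongrHom_injective
  refine ⟨(A.prod B).map φ, ⟨⟨?_⟩⟩, ?_⟩
  · rintro ⟨_, ⟨x, hx, rfl⟩⟩ ⟨_, ⟨y, hy, rfl⟩⟩
    apply Subtype.ext
    change φ x * φ y = φ y * φ x
    rw [← map_mul, ← map_mul]
    congr 1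
    have e1 := congrArg Subtype.val (hA.is_comm.comm ⟨x.1, hx.1⟩ ⟨y.1, hy.1⟩)
    have e2 := congrArg Subtype.val (hB.is_comm.comm ⟨x.2, hx.2⟩ ⟨y.2, hy.2⟩)
    exact Prod.ext e1 e2
  · rw [Nat.card_congr ((A.prod B).equivMapOfInjective φ hφ).symm.toEquiv,
      Nat.card_congr (Subgroup.prodEquiv A B).toEquiv, Nat.card_prod, hAc, hBc]

lemma Ex_cyc (n : ℕ) : Ex (n + 2) (n + 2) := by
  refine ⟨Subgroup.zpowers (finRotate (n + 2)), inferInstance, ?_⟩
  rw [Nat.card_zpowers, ← lcm_cycleType, cycleType_finRotate]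
  simp

lemma Ex_3k (k : ℕ) : Ex (3 * k) (3 ^ k) := by
  induction k with
  | zero => exact ⟨⊥, inferInstance, by simp⟩
  | succ k ih =>
    have := Ex_add ih (Ex_cyc 1)
    rw [show 3 * (k + 1) = 3 * k + (1 + 2) by ring, pow_succ]
    exact this

lemma ub (n : ℕ) (A : Subgroup (Perm (Fin n))) (hA : IsMulCommutative A) : Nat.card A ≤ gg n := by
  apply bound n A ∅
  · intro a ha b hb
    exact congrArg Subtype.val (hA.is_comm.comm ⟨a, ha⟩ ⟨b, hb⟩)
  · intro b _ y hy; simp at hy
  · simp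

/-- The largest order of an abelian subgroup of the symmetric group of degree n is 3^k when n = 3k, 4·3^(k−1) when n = 3k + 1, and 2·3^k when n = 3k + 2, for every k ≥ 1. -/
theorem result (k : ℕ) (hk : 1 ≤ k) :
    IsGreatest {c : ℕ | ∃ A : Subgroup (Equiv.Perm (Fin (3 * k))), IsMulCommutative A ∧ Nat.card A = c} (3 ^ k) ∧
    IsGreatest {c : ℕ | ∃ A : Subgroup (Equiv.Perm (Fin (3 * k + 1))), IsMulCommutative A ∧ Nat.card A = c}
      (4 * 3 ^ (k - 1)) ∧
    IsGreatest {c : ℕ | ∃ A : Subgroup (Equiv.Perm (Fin (3 * k + 2))), IsMulCommutative A ∧ Nat.card A = c}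
      (2 * 3 ^ k) := by
  obtain ⟨j, rfl⟩ : ∃ j, k = j + 1 := ⟨k - 1, by omega⟩
  refine ⟨⟨Ex_3k _, ?_⟩, ⟨?_, ?_⟩, ⟨?_, ?_⟩⟩
  · rintro c ⟨A, hA, rfl⟩
    rw [← gg_3k]
    exact ub _ A hA
  · have := Ex_add (Ex_3k j) (Ex_cyc 2)
    rw [show 3 * j + (2 + 2) = 3 * (j + 1) + 1 by ring, show 3 ^ j * (2 + 2) = 4 * 3 ^ j by ring] at this
    rw [Nat.add_sub_cancel]
    exact this
  · rintro c ⟨A, hA, rfl⟩
    rw [Nat.add_sub_cancel, ← gg_3k4, show 3 * j + 4 = 3 * (j + 1) + 1 by ring]
    exact ub _ A hA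
  · have := Ex_add (Ex_3k (j + 1)) (Ex_cyc 0)
    rw [show 3 ^ (j + 1) * (0 + 2) = 2 * 3 ^ (j + 1) by ring] at this
    exact this
  · rintro c ⟨A, hA, rfl⟩
    rw [← gg_3k2]
    exact ub _ A hA

end Cfsg.Agent.S2505
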