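import Cfsg.Statements.S2504
import Mathlib
import Cfsg.Agent.S2505

set_option autoImplicit false
open Cfsg

namespace Cfsg.Agent.S2504

open Equiv Equiv.Perm MulAction
open Cfsg.Agent.S2505 (gg gg_mul gg_pos gg_3k gg_3k2 gg_3k4 gg_add3 bound)

def g3 : ℕ → ℕ
  | 0 => 1
  | 1 => 0
  | 2 => 0
  | 3 => 3
  | 4 => 4
  | 5 => 5
  | 6 => 9
  | 7 => 12
  | 8 => 16
  | (n + 9) => 3 * g3 (n + 6)

lemma g3_add3 (n : ℕ) (h : 6 ≤ n) : g3 (n + 3) = 3 * g3 n := by
  obtain ⟨m, rfl⟩ := Nat.exists_eq_add_of_le h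
  rw [show 6 + m + 3 = m + 9 by omega, show 6 + m = m + 6 by omega, g3]

lemma g3_step (c j : ℕ) (h : ∀ r < 9, c * g3 r ≤ g3 (r + j)) : ∀ r, c * g3 r ≤ g3 (r + j) := by
  intro r
  induction r using Nat.strong_induction_on with
  | _ r ih =>
    by_cases hr : r < 9
    · exact h r hr
    · obtain ⟨m, rfl⟩ : ∃ m, r = m + 3 := ⟨r - 3, by omega⟩
      have := ih m (by omega)
      rw [g3_add3 m (by omega), show m + 3 + j = (m + j) + 3 by omega, g3_add3 (m + j) (by omega)]
      nlinarith

lemma g3_mul (m : ℕ) (r : ℕ) (hm : 3 ≤ m) : m * g3 r ≤ g3 (r + m) := by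
  induction m using Nat.strong_induction_on with
  | _ m ih =>
    by_cases h5 : m < 9
    · interval_cases m
      · exact g3_step 3 3 (by decide) r
      · exact g3_step 4 4 (by decide) r
      · exact g3_step 5 5 (by decide) r
      · exact g3_step 6 6 (by decide) r
      · exact g3_step 7 7 (by decide) r
      · exact g3_step 8 8 (by decide) r
    · obtain ⟨k, rfl⟩ : ∃ k, m = k + 3 := ⟨m - 3, by omega⟩
      have := ih k (by omega) (by omega)
      rw [show r + (k + 3) = (r + k) + 3 by omega, g3_add3 (r + k) (by omega)]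
      have hk : k + 3 ≤ 3 * k := by omega
      calc (k + 3) * g3 r ≤ 3 * k * g3 r := Nat.mul_le_mul_right _ hk
        _ = 3 * (k * g3 r) := by ring
        _ ≤ 3 * g3 (r + k) := Nat.mul_le_mul_left _ this

lemma g3_3k8 (k : ℕ) : g3 (3 * k + 8) = 16 * 3 ^ k := by
  induction k with
  | zero => rfl
  | succ k ih =>
    rw [show 3 * (k + 1) + 8 = (3 * k + 8) + 3 by ring, g3_add3 _ (by omega), ih, pow_succ]; ring

section UB
variable {α : Type*} [Fintype α] [DecidableEq α]

lemma gen (f : ℕ → ℕ) (s : ℕ) (hf0 : 1 ≤ f 0) (hmul : ∀ m r, s ≤ m → m * f r ≤ f (r + m))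
    (B : Subgroup (Perm α)) (hcomm : ∀ a ∈ B, ∀ b ∈ B, a * b = b * a) (E : Finset α)
    (hEinv : ∀ b ∈ B, ∀ y ∈ E, b y ∈ E) (hE2 : ∀ b ∈ B, (∀ y, y ∉ E → b y = y) → b = 1)
    (hs : ∀ x, x ∉ E → s ≤ (orbit B x).ncard) (k : ℕ) :
    ∀ (K : Subgroup (Perm α)) (F : Finset α), K ≤ B → (∀ b ∈ B, ∀ y ∈ F, b y ∈ F) →
    (∀ b ∈ K, ∀ y ∈ F, b y = y) → Disjoint F E → F.card + E.card + k = Fintype.card α →
    Nat.card K ≤ f k := by
  classical
  induction k using Nat.strong_induction_on with
  | _ k ih =>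
    intro K F hKB hFinv hfix hFE hk
    by_cases hF : ∃ x, x ∉ F ∧ x ∉ E
    · obtain ⟨x, hx, hxE⟩ := hF
      set K' : Subgroup (Perm α) := K ⊓ stabilizer (Perm α) x with hK'
      set O : Finset α := (orbit B x).toFinset with hO
      have hOmem : ∀ y, y ∈ O ↔ ∃ c ∈ B, c x = y := by
        intro y
        rw [hO, Set.mem_toFinset, mem_orbit_iff]
        constructor
        · rintro ⟨c, rfl⟩; exact ⟨c, c.2, rfl⟩
        · rintro ⟨c, hc, rfl⟩; exact ⟨⟨c, hc⟩, rfl⟩
      have hdisj : Disjoint F O := by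
        rw [Finset.disjoint_left]
        intro y hyF hyO
        obtain ⟨c, hc, rfl⟩ := (hOmem y).1 hyO
        have := hFinv c⁻¹ (B.inv_mem hc) _ hyF
        rw [← Perm.mul_apply, inv_mul_cancel, Perm.one_apply] at this
        exact hx this
      have hdisjE : Disjoint E O := by
        rw [Finset.disjoint_left]
        intro y hyF hyO
        obtain ⟨c, hc, rfl⟩ := (hOmem y).1 hyO
        have := hEinv c⁻¹ (B.inv_mem hc) _ hyF
        rw [← Perm.mul_apply, inv_mul_cancel, Perm.one_apply] at this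
        exact hxE this
      have hOc : O.card = (orbit B x).ncard := by
        rw [hO, Set.ncard_eq_toFinset_card']
      have hm : s ≤ O.card := by rw [hOc]; exact hs x hxE
      have hcardU : (F ∪ O).card = F.card + O.card := Finset.card_union_of_disjoint hdisj
      have hdisj2 : Disjoint (F ∪ O) E := by
        rw [Finset.disjoint_union_left]
        exact ⟨hFE, hdisjE.symm⟩
      have hle : ((F ∪ O) ∪ E).card ≤ Fintype.card α := Finset.card_le_univ _
      rw [Finset.card_union_of_disjoint hdisj2, hcardU] at hle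
      have h1 : Nat.card K' ≤ f (k - O.card) := by
        apply ih (k - O.card) ?_ K' (F ∪ O) (inf_le_left.trans hKB)
        · intro b hb y hy
          rcases Finset.mem_union.1 hy with h | h
          · exact Finset.mem_union_left _ (hFinv b hb y h)
          · obtain ⟨c, hc, rfl⟩ := (hOmem y).1 h
            exact Finset.mem_union_right _ ((hOmem _).2 ⟨b * c, B.mul_mem hb hc, rfl⟩)
        · intro b hb y hy
          rcases Finset.mem_union.1 hy with h | h
          · exact hfix b hb.1 y h
          · obtain ⟨c, hc, rfl⟩ := (hOmem y).1 h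
            have hbx : b x = x := hb.2
            rw [← Perm.mul_apply, hcomm b (hKB hb.1) c hc, Perm.mul_apply, hbx]
        · exact hdisj2
        · omega
        · have : 1 ≤ O.card := Finset.card_pos.2 ⟨x, (hOmem x).2 ⟨1, B.one_mem, rfl⟩⟩
          omega
      have h2 : Nat.card K = (orbit K x).ncard * Nat.card K' := by
        have e1 := (stabilizer K x).card_mul_index
        rw [index_stabilizer] at e1
        have e3 : Nat.card (stabilizer K x) = Nat.card K' := by
          apply Nat.card_congr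
          exact
            { toFun := fun b => ⟨b.1.1, b.1.2, b.2⟩
              invFun := fun b => ⟨⟨b.1, b.2.1⟩, b.2.2⟩
              left_inv := fun _ => rfl
              right_inv := fun _ => rfl }
        rw [← e1, e3, mul_comm]
      have h3 : (orbit K x).ncard ≤ O.card := by
        rw [hOc]
        apply Set.ncard_le_ncard _ (Set.toFinite _)
        rintro _ ⟨c, rfl⟩
        exact ⟨⟨c.1, hKB c.2⟩, rfl⟩
      rw [h2]
      calc (orbit K x).ncard * Nat.card K' ≤ O.card * f (k - O.card) := Nat.mul_le_mul h3 h1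
        _ ≤ f (k - O.card + O.card) := hmul _ _ hm
        _ = f k := by congr 1; omega
    · push Not at hF
      have : K = ⊥ := by
        rw [eq_bot_iff]
        intro b hb
        rw [Subgroup.mem_bot]
        apply hE2 b (hKB hb)
        intro y hy
        apply hfix b hb y
        by_contra hyF
        exact hy (hF y hyF)
      have hk0 : k = 0 := by
        have hU : F ∪ E = Finset.univ := by
          ext y
          simp only [Finset.mem_union, Finset.mem_univ, iff_true]
          by_cases hy : y ∈ F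
          · exact Or.inl hy
          · exact Or.inr (hF y hy)
        have := Finset.card_union_of_disjoint hFE
        rw [hU, Finset.card_univ] at this
        omega
      rw [this, hk0]
      simpa using hf0

lemma even_ub (j : ℕ) (hα : Fintype.card α = 3 * j + 8) (B : Subgroup (Perm α))
    (hcomm : ∀ a ∈ B, ∀ b ∈ B, a * b = b * a) (heven : ∀ b ∈ B, sign b = 1) :
    Nat.card B ≤ 16 * 3 ^ j := by
  classical
  by_cases h1 : ∃ x, ∀ b ∈ B, b x = x
  · obtain ⟨x, hx⟩ := h1
    have := bound (3 * j + 7) B {x} hcomm (by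
      intro b hb y hy
      rw [Finset.mem_singleton] at hy
      subst hy
      exact hx b hb) (by rw [Finset.card_singleton, hα]; omega)
    rw [show 3 * j + 7 = 3 * (j + 1) + 4 by ring, gg_3k4, pow_succ] at this
    omega
  · push Not at h1
    have hne1 : ∀ x : α, (orbit B x).ncard ≠ 1 := by
      intro x hx
      obtain ⟨a, ha⟩ := Set.ncard_eq_one.1 hx
      obtain ⟨b, hb, hbx⟩ := h1 x
      have e1 : x ∈ orbit B x := mem_orbit_self x
      have e2 : b x ∈ orbit B x := ⟨⟨b, hb⟩, rfl⟩
      rw [ha, Set.mem_singleton_iff] at e1 e2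
      exact hbx (e2.trans e1.symm)
    have hne0 : ∀ x : α, (orbit B x).ncard ≠ 0 := by
      intro x hx
      rw [Set.ncard_eq_zero (Set.toFinite _)] at hx
      have e1 : x ∈ orbit B x := mem_orbit_self x
      rw [hx] at e1
      exact e1
    by_cases h2 : ∃ x : α, (orbit B x).ncard = 2
    · obtain ⟨x, hx⟩ := h2
      set E : Finset α := (orbit B x).toFinset with hE
      have hEc : E.card = 2 := by rw [hE, ← Set.ncard_eq_toFinset_card', hx]
      have := gen gg 1 (by decide) (fun m r hm => gg_mul m hm r) B hcomm E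
        (by
          intro b hb y hy
          rw [hE, Set.mem_toFinset] at hy ⊢
          obtain ⟨c, rfl⟩ := hy
          exact ⟨⟨b, hb⟩ * c, rfl⟩)
        (by
          intro b hb hfix
          by_contra hb1
          have hsupp : b.support ⊆ E := by
            intro y hy
            by_contra hyE
            exact (Perm.mem_support.1 hy) (hfix y hyE)
          have hc := Finset.card_le_card hsupp
          rw [hEc] at hc
          have h0 : b.support.card ≠ 0 := by
            rw [Ne, Finset.card_eq_zero, Perm.support_eq_empty_iff]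
            exact hb1
          have h1' := Perm.card_support_ne_one b
          have h2' : b.support.card = 2 := by omega
          have := (Perm.card_support_eq_two.1 h2').sign_eq
          rw [heven b hb] at this
          exact absurd this (by decide))
        (by
          intro y _
          have := hne0 y
          omega)
        (3 * j + 6) B ∅ le_rfl (by intro b _ y hy; simp at hy) (by intro b _ y hy; simp at hy)
        (Finset.disjoint_empty_left _) (by rw [hEc, hα, Finset.card_empty]; omega)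
      rw [show 3 * j + 6 = 3 * (j + 2) by ring, gg_3k, pow_succ, pow_succ] at this
      omega
    · push Not at h2
      have := gen g3 3 (by decide) (fun m r hm => g3_mul m r hm) B hcomm ∅
        (by intro b _ y hy; simp at hy)
        (by
          intro b _ hfix
          ext y
          exact hfix y (by simp))
        (by
          intro y _
          have e0 := hne0 y
          have e1 := hne1 y
          have e2 := h2 y
          omega)
        (3 * j + 8) B ∅ le_rfl (by intro b _ y hy; simp at hy) (by intro b _ y hy; simp at hy)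
        (Finset.disjoint_empty_left _) (by rw [hα, Finset.card_empty]; omega)
      rw [g3_3k8] at this
      exact this

end UB

def ExA (n c : ℕ) : Prop := ∃ A : Subgroup (Perm (Fin n)), (∀ a ∈ A, ∀ b ∈ A, a * b = b * a) ∧
  (∀ a ∈ A, sign a = 1) ∧ Nat.card A = c

lemma ExA_add {a b u v : ℕ} (h1 : ExA a u) (h2 : ExA b v) : ExA (a + b) (u * v) := by
  obtain ⟨A, hA, hAs, hAc⟩ := h1
  obtain ⟨B, hB, hBs, hBc⟩ := h2
  let φ : Perm (Fin a) × Perm (Fin b) →* Perm (Fin (a + b)) :=
    (finSumFinEquiv.permCongrHom).toMonoidHom.comp (sumCongrHom (Fin a) (Fin b))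
  have hφ : Function.Injective φ :=
    (finSumFinEquiv.permCongrHom).injective.comp sumCongrHom_injective
  refine ⟨(A.prod B).map φ, ?_, ?_, ?_⟩
  · rintro _ ⟨x, hx, rfl⟩ _ ⟨y, hy, rfl⟩
    rw [← map_mul, ← map_mul]
    congr 1
    exact Prod.ext (hA _ hx.1 _ hy.1) (hB _ hx.2 _ hy.2)
  · rintro _ ⟨x, hx, rfl⟩
    change sign (finSumFinEquiv.permCongr (Perm.sumCongr x.1 x.2)) = 1
    rw [sign_permCongr, sign_sumCongr, hAs _ hx.1, hBs _ hx.2, one_mul]
  · rw [Nat.card_congr ((A.prod B).equivMapOfInjective φ hφ).symm.toEquiv,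
      Nat.card_congr (Subgroup.prodEquiv A B).toEquiv, Nat.card_prod, hAc, hBc]

lemma ExA_c3 : ExA 3 3 := by
  refine ⟨Subgroup.zpowers (finRotate 3), ?_, ?_, ?_⟩
  · intro a ha b hb
    obtain ⟨i, rfl⟩ := Subgroup.mem_zpowers_iff.1 ha
    obtain ⟨l, rfl⟩ := Subgroup.mem_zpowers_iff.1 hb
    exact ((Commute.refl _).zpow_zpow i l)
  · intro a ha
    obtain ⟨i, rfl⟩ := Subgroup.mem_zpowers_iff.1 ha
    rw [map_zpow, sign_finRotate]
    simp
  · rw [Nat.card_zpowers, ← lcm_cycleType, cycleType_finRotate]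
    simp

def V4 : Subgroup (Perm (Fin 4)) where
  carrier := {g | g = 1 ∨ g = swap 0 1 * swap 2 3 ∨ g = swap 0 2 * swap 1 3 ∨
    g = swap 0 3 * swap 1 2}
  mul_mem' := by
    rintro a b (rfl | rfl | rfl | rfl) (rfl | rfl | rfl | rfl) <;>
      simp only [Set.mem_setOf_eq] <;> decide
  one_mem' := Or.inl rfl
  inv_mem' := by
    rintro a (rfl | rfl | rfl | rfl) <;> simp only [Set.mem_setOf_eq] <;> decide

lemma ExA_v4 : ExA 4 4 := by
  refine ⟨V4, ?_, ?_, ?_⟩
  · rintro a (rfl | rfl | rfl | rfl) b (rfl | rfl | rfl | rfl) <;> decide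
  · rintro a (rfl | rfl | rfl | rfl) <;> decide
  · have : (V4 : Set (Perm (Fin 4))) = (({1, swap 0 1 * swap 2 3, swap 0 2 * swap 1 3,
        swap 0 3 * swap 1 2} : Finset (Perm (Fin 4))) : Set (Perm (Fin 4))) := by
      ext g
      simp only [Finset.coe_insert, Finset.coe_singleton, Set.mem_insert_iff,
        Set.mem_singleton_iff]
      rfl
    rw [← SetLike.coe_sort_coe, Nat.card_coe_set_eq, this, Set.ncard_coe_finset]
    decide

lemma ExA_3k (k : ℕ) : ExA (3 * k) (3 ^ k) := by
  induction k with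
  | zero => exact ⟨⊥, by simp, by simp, by simp⟩
  | succ k ih =>
    have := ExA_add ih ExA_c3
    rw [show 3 * (k + 1) = 3 * k + 3 by ring, pow_succ]
    exact this

lemma toAlt {n c : ℕ} (h : ExA n c) :
    ∃ A : Subgroup (alternatingGroup (Fin n)), IsMulCommutative A ∧ Nat.card A = c := by
  obtain ⟨A, hA, hAs, hAc⟩ := h
  have hle : A ≤ alternatingGroup (Fin n) := fun a ha => mem_alternatingGroup.2 (hAs a ha)
  refine ⟨A.subgroupOf (alternatingGroup (Fin n)), ⟨⟨fun a b => ?_⟩⟩, ?_⟩
  · apply Subtype.ext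
    apply Subtype.ext
    exact hA _ a.2 _ b.2
  · rw [Nat.card_congr (Subgroup.subgroupOfEquivOfLe hle).toEquiv, hAc]

lemma fromAlt {n : ℕ} (A : Subgroup (alternatingGroup (Fin n))) (hA : IsMulCommutative A) :
    ∃ B : Subgroup (Perm (Fin n)), (∀ a ∈ B, ∀ b ∈ B, a * b = b * a) ∧
      (∀ a ∈ B, sign a = 1) ∧ Nat.card B = Nat.card A := by
  refine ⟨A.map (alternatingGroup (Fin n)).subtype, ?_, ?_, ?_⟩
  · rintro _ ⟨x, hx, rfl⟩ _ ⟨y, hy, rfl⟩
    rw [← map_mul, ← map_mul]
    congr 1
    exact congrArg Subtype.val (hA.is_comm.comm ⟨x, hx⟩ ⟨y, hy⟩)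
  · rintro _ ⟨x, hx, rfl⟩
    exact mem_alternatingGroup.1 x.2
  · exact Nat.card_congr (A.equivMapOfInjective _ (Subgroup.subtype_injective _)).symm.toEquiv

/-- The largest order of an abelian subgroup of the alternating group of degree n is 3^k when n = 3k, 4·3^(k−1) when n = 3k + 1, and 16·3^(k−2) when n = 3k + 2, for every k ≥ 2 (so for all degrees n ≥ 6). -/
theorem result (k : ℕ) (hk : 2 ≤ k) :
    IsGreatest {c : ℕ | ∃ A : Subgroup (alternatingGroup (Fin (3 * k))), IsMulCommutative A ∧ Nat.card A = c} (3 ^ k) ∧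
    IsGreatest {c : ℕ | ∃ A : Subgroup (alternatingGroup (Fin (3 * k + 1))), IsMulCommutative A ∧ Nat.card A = c}
      (4 * 3 ^ (k - 1)) ∧
    IsGreatest {c : ℕ | ∃ A : Subgroup (alternatingGroup (Fin (3 * k + 2))), IsMulCommutative A ∧ Nat.card A = c}
      (16 * 3 ^ (k - 2)) := by
  obtain ⟨j, rfl⟩ : ∃ j, k = j + 2 := ⟨k - 2, by omega⟩
  refine ⟨⟨toAlt (ExA_3k _), ?_⟩, ⟨?_, ?_⟩, ⟨?_, ?_⟩⟩
  · rintro c ⟨A, hA, rfl⟩
    obtain ⟨B, hB, _, hBc⟩ := fromAlt A hA
    rw [← hBc, ← gg_3k]
    exact bound _ B ∅ hB (by intro b _ y hy; simp at hy) (by simp)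
  · have := ExA_add (ExA_3k (j + 1)) ExA_v4
    rw [show 3 * (j + 1) + 4 = 3 * (j + 2) + 1 by ring,
      show 3 ^ (j + 1) * 4 = 4 * 3 ^ (j + 1) by ring] at this
    rw [show j + 2 - 1 = j + 1 by omega]
    exact toAlt this
  · rintro c ⟨A, hA, rfl⟩
    obtain ⟨B, hB, _, hBc⟩ := fromAlt A hA
    rw [← hBc, show j + 2 - 1 = j + 1 by omega, ← gg_3k4,
      show 3 * (j + 1) + 4 = 3 * (j + 2) + 1 by ring]
    exact bound _ B ∅ hB (by intro b _ y hy; simp at hy) (by simp)
  · have := ExA_add (ExA_add (ExA_3k j) ExA_v4) ExA_v4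
    rw [show 3 * j + 4 + 4 = 3 * (j + 2) + 2 by ring,
      show 3 ^ j * 4 * 4 = 16 * 3 ^ j by ring] at this
    rw [Nat.add_sub_cancel]
    exact toAlt this
  · rintro c ⟨A, hA, rfl⟩
    obtain ⟨B, hB, hBs, hBc⟩ := fromAlt A hA
    rw [← hBc, Nat.add_sub_cancel]
    exact even_ub j (by rw [Fintype.card_fin]; ring) B hB hBs

end Cfsg.Agent.S2504
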