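import Cfsg.Statements.S2513
import Cfsg.Agent.Lib.Helper14.GLExponent

set_option autoImplicit false
open Cfsg

namespace Cfsg.Agent.S2513

open Cfsg.Agent.Lib.Helper14 Polynomial

/-- spectra of direct powers, once one element of the `k₀`-th power has order a multiple of the exponent -/
theorem range_orderOf_pi {G : Type*} [Group G] [Finite G] {k₀ k : ℕ} (hk : k₀ ≤ k) (e : Fin k₀ → G)
    (he : ∀ g : G, g ^ orderOf e = 1) :
    Set.range (orderOf : (Fin k → G) → ℕ) = {m | m ∣ orderOf e} := by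
  ext m
  constructor
  · rintro ⟨x, rfl⟩
    apply orderOf_dvd_of_pow_eq_one
    funext i
    exact he (x i)
  · intro hm
    let e' : Fin k → G := fun i => if h : i.val < k₀ then e ⟨i.val, h⟩ else 1
    have he' : orderOf e' = orderOf e := by
      rw [orderOf_eq_orderOf_iff]
      intro t
      constructor
      · intro h
        funext j
        have := congrFun h ⟨j.val, lt_of_lt_of_le j.2 hk⟩
        simpa [e', j.2] using this
      · intro h
        funext i
        by_cases hi : i.val < k₀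
        · have := congrFun h ⟨i.val, hi⟩
          simpa [e', hi] using this
        · simp [e', hi]
    refine ⟨e' ^ (orderOf e' / m), ?_⟩
    apply orderOf_pow_orderOf_div (orderOf_pos e').ne'
    rw [he']; exact hm

section

variable {F : Type*} [Field F] [Fintype F]

theorem eq_zero_or_one (hF : Fintype.card F = 2) (x : F) : x = 0 ∨ x = 1 := by
  classical
  by_contra h
  rw [not_or] at h
  have : 3 ≤ Fintype.card F := by
    have h3 : ({0, 1, x} : Finset F).card = 3 := by
      rw [Finset.card_insert_of_notMem, Finset.card_insert_of_notMem, Finset.card_singleton]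
      · simpa using (Ne.symm h.2)
      · simp only [Finset.mem_insert, Finset.mem_singleton, not_or]
        exact ⟨zero_ne_one, Ne.symm h.1⟩
    rw [← h3]; exact Finset.card_le_univ _
  omega

theorem charP_two (hF : Fintype.card F = 2) : CharP F 2 := by
  apply CharTwo.of_one_ne_zero_of_two_eq_zero one_ne_zero
  rcases eq_zero_or_one hF (2 : F) with h | h
  · exact h
  · exfalso
    have : (1 : F) + 1 = 1 := by rw [one_add_one_eq_two]; exact h
    simp at this

/-- a unit of an `n`-dimensional algebra over the field with two elements gives an element of `PSL_n` of the same order -/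
theorem exists_psl_of_algebra_unit (hF : Fintype.card F = 2) {R : Type*} [Ring R] [Algebra F R] [FiniteDimensional F R]
    {n : ℕ} (hn : Module.finrank F R = n) (r : R) (hr : IsUnit r) :
    ∃ g : Matrix.ProjectiveSpecialLinearGroup (Fin n) F, orderOf g = orderOf r := by
  obtain ⟨M, hM, hpow⟩ := exists_matrix_of_algebra_unit hn r hr
  have hdet : M.det = 1 := by
    rcases eq_zero_or_one hF M.det with h | h
    · exact absurd h ((Matrix.isUnit_iff_isUnit_det M).mp hM).ne_zero
    · exact h
  let A : Matrix.SpecialLinearGroup (Fin n) F := ⟨M, hdet⟩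
  refine ⟨QuotientGroup.mk A, ?_⟩
  rw [orderOf_eq_orderOf_iff]
  intro m
  rw [← hpow, ← QuotientGroup.mk_pow, QuotientGroup.eq_one_iff, Matrix.SpecialLinearGroup.mem_center_iff]
  have hAm : ((A ^ m : Matrix.SpecialLinearGroup (Fin n) F) : Matrix (Fin n) (Fin n) F) = M ^ m := by
    rw [Matrix.SpecialLinearGroup.coe_pow]
  constructor
  · rintro ⟨c, hc, hcA⟩
    rw [hAm] at hcA
    rcases eq_zero_or_one hF c with h | h
    · rw [h] at hcA
      have h0 : M ^ m = 0 := by rw [← hcA]; simp
      have hu : IsUnit (M ^ m) := hM.pow m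
      rw [h0, isUnit_zero_iff] at hu
      rw [h0, hu]
    · rw [← hcA, h]; simp
  · intro h
    refine ⟨1, one_pow _, ?_⟩
    rw [hAm, h]; simp

/-- a generator of the multiplicative group of the extension of degree `a` -/
theorem exists_singer (hF : Fintype.card F = 2) (a : ℕ) (ha : 1 ≤ a) :
    ∃ (K : Type) (_ : Field K) (_ : Algebra F K) (_ : FiniteDimensional F K) (z : K),
      Module.finrank F K = a ∧ IsUnit z ∧ orderOf z = 2 ^ a - 1 := by
  have := charP_two hF
  have : NeZero a := ⟨by omega⟩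
  have : Fact (Nat.Prime 2) := ⟨Nat.prime_two⟩
  refine ⟨FiniteField.Extension F 2 a, inferInstance, inferInstance, inferInstance, ?_⟩
  obtain ⟨z, hz⟩ := IsCyclic.exists_ofOrder_eq_natCard (α := (FiniteField.Extension F 2 a)ˣ)
  refine ⟨(z : FiniteField.Extension F 2 a), FiniteField.finrank_extension F 2 a, z.isUnit, ?_⟩
  rw [orderOf_units, hz]
  have h1 := Nat.card_eq_card_units_add_one (FiniteField.Extension F 2 a)
  rw [FiniteField.natCard_extension, Nat.card_eq_fintype_card, hF] at h1
  omega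

theorem exists_psl_single (hF : Fintype.card F = 2) (n : ℕ) (hn : 1 ≤ n) :
    ∃ g : Matrix.ProjectiveSpecialLinearGroup (Fin n) F, 2 ^ n - 1 ∣ orderOf g := by
  obtain ⟨K, _, _, _, z, hfin, hz, hord⟩ := exists_singer hF n hn
  obtain ⟨g, hg⟩ := exists_psl_of_algebra_unit hF hfin z hz
  exact ⟨g, by rw [hg, hord]⟩

theorem exists_psl_pair (hF : Fintype.card F = 2) (n a b : ℕ) (ha : 1 ≤ a) (hb : 1 ≤ b) (hab : a + b = n) :
    ∃ g : Matrix.ProjectiveSpecialLinearGroup (Fin n) F, 2 ^ a - 1 ∣ orderOf g ∧ 2 ^ b - 1 ∣ orderOf g := by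
  obtain ⟨K, _, _, _, z, hfin, hz, hord⟩ := exists_singer hF a ha
  obtain ⟨K', _, _, _, z', hfin', hz', hord'⟩ := exists_singer hF b hb
  have hfinrank : Module.finrank F (K × K') = n := by
    rw [Module.finrank_prod, hfin, hfin', hab]
  have hunit : IsUnit ((z, z') : K × K') := by
    rw [Prod.isUnit_iff]; exact ⟨hz, hz'⟩
  obtain ⟨g, hg⟩ := exists_psl_of_algebra_unit hF hfinrank ((z, z') : K × K') hunit
  refine ⟨g, ?_, ?_⟩
  · rw [hg, ← hord, Prod.orderOf]; exact Nat.dvd_lcm_left _ _
  · rw [hg, ← hord', Prod.orderOf]; exact Nat.dvd_lcm_right _ _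

theorem exists_psl_unipotent (hF : Fintype.card F = 2) (n : ℕ) (hn : 2 ≤ n) :
    ∃ g : Matrix.ProjectiveSpecialLinearGroup (Fin n) F, ∃ t : ℕ, n ≤ 2 ^ t ∧ 2 ^ t ∣ orderOf g := by
  have := charP_two hF
  have : Fact (Nat.Prime 2) := ⟨Nat.prime_two⟩
  have hmonic : (X ^ n : F[X]).Monic := monic_X_pow n
  have : FiniteDimensional F (AdjoinRoot (X ^ n : F[X])) := (AdjoinRoot.powerBasis' hmonic).finite
  have hfin : Module.finrank F (AdjoinRoot (X ^ n : F[X])) = n := by
    rw [(AdjoinRoot.powerBasis' hmonic).finrank]; simp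
  set r : AdjoinRoot (X ^ n : F[X]) := AdjoinRoot.mk (X ^ n) (1 + X) with hr
  have hpow : ∀ s : ℕ, r ^ (2 ^ s) = 1 ↔ n ≤ 2 ^ s := by
    intro s
    rw [hr, ← map_pow, add_pow_char_pow, one_pow, map_add, map_one]
    rw [add_eq_left, AdjoinRoot.mk_eq_zero]
    exact pow_dvd_pow_iff X_ne_zero not_isUnit_X
  set t := Nat.clog 2 n with ht
  have ht1 : n ≤ 2 ^ t := Nat.le_pow_clog (by norm_num) n
  have ht2 : 2 ^ (t - 1) < n := by
    have := Nat.pow_pred_clog_lt_self (b := 2) (by norm_num) (x := n) (by omega)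
    simpa [ht] using this
  have ht0 : 1 ≤ t := Nat.clog_pos (by norm_num) hn
  have hord : orderOf r = 2 ^ t := by
    have h1 : ¬ r ^ 2 ^ (t - 1) = 1 := by rw [hpow]; omega
    have h2 : r ^ 2 ^ (t - 1 + 1) = 1 := by rw [hpow, Nat.sub_add_cancel ht0]; exact ht1
    have := orderOf_eq_prime_pow h1 h2
    rwa [Nat.sub_add_cancel ht0] at this
  have hunit : IsUnit r := by
    apply IsUnit.of_pow_eq_one ((hpow t).mpr ht1)
    positivity
  obtain ⟨g, hg⟩ := exists_psl_of_algebra_unit hF hfin r hunit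
  exact ⟨g, t, ht1, by rw [hg, hord]⟩

theorem psl_pow_eq_one (hF : Fintype.card F = 2) (n : ℕ) (E : ℕ)
    (hE1 : ∀ i, 1 ≤ i → i ≤ n → 2 ^ i - 1 ∣ E) (hE2 : ∃ t, n ≤ 2 ^ t ∧ 2 ^ t ∣ E)
    (g : Matrix.ProjectiveSpecialLinearGroup (Fin n) F) : g ^ E = 1 := by
  have := charP_two hF
  have : Fact (Nat.Prime 2) := ⟨Nat.prime_two⟩
  obtain ⟨t, ht, E₁, rfl⟩ := hE2
  obtain ⟨A, rfl⟩ := QuotientGroup.mk_surjective g
  have hA : IsUnit (A : Matrix (Fin n) (Fin n) F) := by
    rw [Matrix.isUnit_iff_isUnit_det, A.2]; exact isUnit_one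
  have key := matrix_pow_eq_one_of_exponent 2 (A : Matrix (Fin n) (Fin n) F) hA E₁ t (by
    intro i hi1 hin
    rw [Nat.card_eq_fintype_card, hF]
    have h := hE1 i hi1 hin
    have hcop : Nat.Coprime (2 ^ i - 1) (2 ^ t) := by
      apply Nat.Coprime.pow_right
      rw [Nat.coprime_two_right]
      have : 2 ^ i = 2 * 2 ^ (i - 1) := by
        rw [← pow_succ', Nat.sub_add_cancel hi1]
      have hpos : 0 < 2 ^ (i - 1) := by positivity
      exact ⟨2 ^ (i - 1) - 1, by omega⟩
    exact hcop.dvd_of_dvd_mul_left h) ht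
  rw [← QuotientGroup.mk_pow]
  have : A ^ (2 ^ t * E₁) = 1 := by
    apply Subtype.ext
    rw [Matrix.SpecialLinearGroup.coe_pow, mul_comm]
    exact key
  rw [this]; rfl

end

/-- Let F be the field with two elements, n ≥ 2, L = PSL(n, F) and k₀ = ⌊(n + 3)/2⌋. Then for every k ≥ k₀ the direct product of k copies of L has the same set of element orders as the direct product of k₀ copies of L. -/
theorem result {F : Type*} [Field F] [Fintype F] (hF : Fintype.card F = 2) (n k : ℕ) (hn : 2 ≤ n) (hk : (n + 3) / 2 ≤ k) :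
    Set.range (orderOf : (Fin k → Matrix.ProjectiveSpecialLinearGroup (Fin n) F) → ℕ) = Set.range (orderOf : (Fin ((n + 3) / 2) → Matrix.ProjectiveSpecialLinearGroup (Fin n) F) → ℕ) := by
  have hex : ∀ j : Fin ((n + 3) / 2), ∃ g : Matrix.ProjectiveSpecialLinearGroup (Fin n) F,
      (j.val = 0 → ∃ t : ℕ, n ≤ 2 ^ t ∧ 2 ^ t ∣ orderOf g) ∧
      (j.val = 1 → 2 ^ n - 1 ∣ orderOf g) ∧
      (2 ≤ j.val → 2 ^ (j.val - 1) - 1 ∣ orderOf g ∧ 2 ^ (n - (j.val - 1)) - 1 ∣ orderOf g) := by
    intro j
    have hj := j.2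
    rcases Nat.lt_or_ge j.val 1 with h0 | h1
    · obtain ⟨g, hg⟩ := exists_psl_unipotent hF n hn
      exact ⟨g, fun _ => hg, fun h => by omega, fun h => by omega⟩
    · rcases Nat.lt_or_ge j.val 2 with h1' | h2
      · obtain ⟨g, hg⟩ := exists_psl_single hF n (by omega)
        exact ⟨g, fun h => by omega, fun _ => hg, fun h => by omega⟩
      · obtain ⟨g, hg⟩ := exists_psl_pair hF n (j.val - 1) (n - (j.val - 1)) (by omega) (by omega) (by omega)
        exact ⟨g, fun h => by omega, fun h => by omega, fun _ => hg⟩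
  choose e he using hex
  have hdvd : ∀ j, orderOf (e j) ∣ orderOf e := by
    intro j
    apply orderOf_dvd_of_pow_eq_one
    have := congrFun (pow_orderOf_eq_one e) j
    simpa using this
  have hexp : ∀ g : Matrix.ProjectiveSpecialLinearGroup (Fin n) F, g ^ orderOf e = 1 := by
    apply psl_pow_eq_one hF n
    · intro i hi1 hin
      have hn1 : 2 ^ n - 1 ∣ orderOf e := ((he ⟨1, by omega⟩).2.1 rfl).trans (hdvd _)
      rcases lt_trichotomy (2 * i) n with h | h | h
      · have := ((he ⟨i + 1, by omega⟩).2.2 (by simp; omega)).1.trans (hdvd _)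
        simpa using this
      · refine Dvd.dvd.trans ?_ hn1
        rw [← h, pow_mul']
        have := Nat.sub_dvd_pow_sub_pow (2 ^ i) 1 2
        simpa using this
      · by_cases hin' : i = n
        · rw [hin']; exact hn1
        · have := ((he ⟨n - i + 1, by omega⟩).2.2 (by simp; omega)).2.trans (hdvd _)
          have h2 : n - (n - i + 1 - 1) = i := by omega
          simp only [h2] at this
          exact this
    · obtain ⟨t, ht1, ht2⟩ := (he ⟨0, by omega⟩).1 rfl
      exact ⟨t, ht1, ht2.trans (hdvd _)⟩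
  rw [range_orderOf_pi hk e hexp, range_orderOf_pi le_rfl e hexp]

end Cfsg.Agent.S2513
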