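import Cfsg.Statements.S2514
import Mathlib

set_option autoImplicit false
open Cfsg

namespace Cfsg.Agent.S2514

theorem exists_max {X : Type*} [Group X] [Finite X] (n : ℕ) (hn : n ∈ Set.range (orderOf : X → ℕ)) :
    ∃ m, (m ∈ Set.range (orderOf : X → ℕ) ∧ ∀ m' ∈ Set.range (orderOf : X → ℕ), m ∣ m' → m' = m) ∧ n ∣ m := by
  have hfin : ({m | m ∈ Set.range (orderOf : X → ℕ) ∧ n ∣ m} : Set ℕ).Finite :=
    (Set.finite_range _).subset (fun m hm => hm.1)
  obtain ⟨a, ha, hmax⟩ := Set.exists_max_image _ id hfin ⟨n, hn, dvd_rfl⟩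
  refine ⟨a, ⟨ha.1, ?_⟩, ha.2⟩
  intro m' hm' ham
  have h1 : m' ≤ a := hmax m' ⟨hm', ha.2.trans ham⟩
  obtain ⟨x, rfl⟩ := hm'
  exact le_antisymm h1 (Nat.le_of_dvd (orderOf_pos x) ham)

theorem exists_of_dvd {X : Type*} [Group X] [Finite X] (x : X) (d : ℕ) (hd : d ∣ orderOf x) :
    ∃ y : X, orderOf y = d := by
  have hpos := orderOf_pos x
  have hdpos : 0 < d := Nat.pos_of_dvd_of_pos hd hpos
  refine ⟨x ^ (orderOf x / d), ?_⟩
  rw [orderOf_pow_of_dvd (Nat.div_pos (Nat.le_of_dvd hpos hd) hdpos).ne' (Nat.div_dvd_of_dvd hd)]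
  exact Nat.div_div_self hd hpos.ne'

theorem orderOf_split {G H : Type*} [Group G] [Group H] {k : ℕ} (f : Fin (k + 1) → G) (i : Fin (k + 1))
    (h : H) (hh : orderOf h = orderOf (f i)) :
    orderOf (((fun t => f (i.succAbove t)), h) : (Fin k → G) × H) = orderOf f := by
  rw [orderOf_eq_orderOf_iff]
  intro n
  rw [Prod.ext_iff, funext_iff, funext_iff, Fin.forall_iff_succAbove i]
  simp only [Prod.pow_fst, Prod.pow_snd, Prod.fst_one, Prod.snd_one, Pi.pow_apply, Pi.one_apply]
  rw [← orderOf_dvd_iff_pow_eq_one (x := h), hh, orderOf_dvd_iff_pow_eq_one]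
  exact and_comm

/-- For a finite group X write μ(X) for the set of element orders of X that are maximal under divisibility. Let G and H be finite groups and k ≥ 1 such that μ(H) ⊆ μ(G) and μ(G) has fewer than k elements outside μ(H). Then the direct product of k copies of G has the same set of element orders as the direct product of k − 1 copies of G with H. -/
theorem result {G H : Type*} [Group G] [Finite G] [Group H] [Finite H] (k : ℕ) (hk : 1 ≤ k)
    (hsub : {n : ℕ | n ∈ Set.range (orderOf : H → ℕ) ∧ ∀ m ∈ Set.range (orderOf : H → ℕ), n ∣ m → m = n} ⊆ {n : ℕ | n ∈ Set.range (orderOf : G → ℕ) ∧ ∀ m ∈ Set.range (orderOf : G → ℕ), n ∣ m → m = n})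
    (hfew : ({n : ℕ | n ∈ Set.range (orderOf : G → ℕ) ∧ ∀ m ∈ Set.range (orderOf : G → ℕ), n ∣ m → m = n} \ {n : ℕ | n ∈ Set.range (orderOf : H → ℕ) ∧ ∀ m ∈ Set.range (orderOf : H → ℕ), n ∣ m → m = n}).ncard < k) :
    Set.range (orderOf : (Fin k → G) → ℕ) = Set.range (orderOf : (Fin (k - 1) → G) × H → ℕ) := by
  obtain ⟨k, rfl⟩ : ∃ k', k = k' + 1 := ⟨k - 1, by omega⟩
  show Set.range (orderOf : (Fin (k + 1) → G) → ℕ) = Set.range (orderOf : (Fin k → G) × H → ℕ)
  apply Set.Subset.antisymm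
  · rintro _ ⟨f, rfl⟩
    have hm : ∀ i, ∃ m, (m ∈ Set.range (orderOf : G → ℕ) ∧ ∀ m' ∈ Set.range (orderOf : G → ℕ), m ∣ m' → m' = m) ∧ orderOf (f i) ∣ m :=
      fun i => exists_max _ ⟨f i, rfl⟩
    choose m hm1 hm2 using hm
    by_cases hA : ∃ i, (m i ∈ Set.range (orderOf : H → ℕ) ∧ ∀ m' ∈ Set.range (orderOf : H → ℕ), m i ∣ m' → m' = m i)
    · obtain ⟨i, ⟨h0, hh0⟩, -⟩ := hA
      obtain ⟨h, hh⟩ := exists_of_dvd h0 (orderOf (f i)) (hh0 ▸ hm2 i)
      exact ⟨_, orderOf_split f i h hh⟩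
    · push Not at hA
      have hfin : ({n : ℕ | n ∈ Set.range (orderOf : G → ℕ) ∧ ∀ m ∈ Set.range (orderOf : G → ℕ), n ∣ m → m = n} \ {n : ℕ | n ∈ Set.range (orderOf : H → ℕ) ∧ ∀ m ∈ Set.range (orderOf : H → ℕ), n ∣ m → m = n}).Finite :=
        (Set.finite_range (orderOf : G → ℕ)).subset (fun x hx => hx.1.1)
      haveI := hfin.to_subtype
      letI := Fintype.ofFinite ↥({n : ℕ | n ∈ Set.range (orderOf : G → ℕ) ∧ ∀ m ∈ Set.range (orderOf : G → ℕ), n ∣ m → m = n} \ {n : ℕ | n ∈ Set.range (orderOf : H → ℕ) ∧ ∀ m ∈ Set.range (orderOf : H → ℕ), n ∣ m → m = n})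
      have hmem : ∀ i, m i ∈ ({n : ℕ | n ∈ Set.range (orderOf : G → ℕ) ∧ ∀ m ∈ Set.range (orderOf : G → ℕ), n ∣ m → m = n} \ {n : ℕ | n ∈ Set.range (orderOf : H → ℕ) ∧ ∀ m ∈ Set.range (orderOf : H → ℕ), n ∣ m → m = n}) := by
        intro i
        refine ⟨hm1 i, ?_⟩
        rintro ⟨h1, h2⟩
        obtain ⟨m', hm', hd, hne⟩ := hA i h1
        exact hne (h2 m' hm' hd)
      obtain ⟨i, j, hij, he⟩ := Fintype.exists_ne_map_eq_of_card_lt
        (fun i => (⟨m i, hmem i⟩ : ↥({n : ℕ | n ∈ Set.range (orderOf : G → ℕ) ∧ ∀ m ∈ Set.range (orderOf : G → ℕ), n ∣ m → m = n} \ {n : ℕ | n ∈ Set.range (orderOf : H → ℕ) ∧ ∀ m ∈ Set.range (orderOf : H → ℕ), n ∣ m → m = n})))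
        (by rw [← Nat.card_eq_fintype_card, ← Nat.card_eq_fintype_card, Nat.card_coe_set_eq, Nat.card_fin]; exact hfew)
      have he' : m i = m j := congrArg Subtype.val he
      obtain ⟨g0, hg0⟩ := (hm1 i).1
      obtain ⟨y, hy⟩ := exists_of_dvd g0 (Nat.lcm (orderOf (f i)) (orderOf (f j)))
        (hg0 ▸ Nat.lcm_dvd (hm2 i) (he' ▸ hm2 j))
      have hkey : orderOf (Function.update (Function.update f i y) j 1) = orderOf f := by
        rw [orderOf_eq_orderOf_iff]
        intro n
        rw [funext_iff, funext_iff]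
        simp only [Pi.pow_apply, Pi.one_apply]
        constructor
        · intro h t
          have hyn : y ^ n = 1 := by
            have := h i
            rwa [Function.update_of_ne hij, Function.update_self] at this
          rw [← orderOf_dvd_iff_pow_eq_one, hy] at hyn
          by_cases htj : t = j
          · subst htj
            exact orderOf_dvd_iff_pow_eq_one.1 ((Nat.dvd_lcm_right _ _).trans hyn)
          · by_cases hti : t = i
            · subst hti
              exact orderOf_dvd_iff_pow_eq_one.1 ((Nat.dvd_lcm_left _ _).trans hyn)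
            · have := h t
              rwa [Function.update_of_ne htj, Function.update_of_ne hti] at this
        · intro h t
          by_cases htj : t = j
          · subst htj
            rw [Function.update_self, one_pow]
          · rw [Function.update_of_ne htj]
            by_cases hti : t = i
            · subst hti
              rw [Function.update_self, ← orderOf_dvd_iff_pow_eq_one, hy]
              exact Nat.lcm_dvd (orderOf_dvd_iff_pow_eq_one.2 (h _)) (orderOf_dvd_iff_pow_eq_one.2 (h _))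
            · rw [Function.update_of_ne hti]
              exact h t
      refine ⟨_, (orderOf_split (Function.update (Function.update f i y) j 1) j (1 : H) ?_).trans hkey⟩
      rw [Function.update_self, orderOf_one, orderOf_one]
  · rintro _ ⟨⟨q, h⟩, rfl⟩
    obtain ⟨m, hm1, hm2⟩ := exists_max (X := H) _ ⟨h, rfl⟩
    obtain ⟨⟨g0, hg0⟩, -⟩ := hsub hm1
    obtain ⟨g, hg⟩ := exists_of_dvd g0 (orderOf h) (hg0 ▸ hm2)
    refine ⟨Fin.cons g q, ?_⟩
    have := orderOf_split (Fin.cons g q : Fin (k + 1) → G) 0 h (by simp [hg])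
    rw [← this]
    simp

end Cfsg.Agent.S2514
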