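import Cfsg.Statements.S2516
import Mathlib

set_option autoImplicit false
open Cfsg

namespace Cfsg.Agent.S2516

theorem pow_formula {F : Type*} [Field F] {V : Type*} [AddCommGroup V] [Module F V]
    {G : Type*} [Group G] (ρ : Representation F G V)
    (x : Multiplicative V ⋊[(MulAutMultiplicative V).symm.toMonoidHom.comp
        ((DistribMulAction.toAddAut ((V →ₗ[F] V)ˣ) V).comp ρ.asGroupHom)] G) (n : ℕ) :
    (x ^ n).left = Multiplicative.ofAdd ((∑ i ∈ Finset.range n, (ρ x.right) ^ i) (Multiplicative.toAdd x.left)) := by
  induction n with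
  | zero => rw [pow_zero]; simp
  | succ n ih =>
    rw [pow_succ, SemidirectProduct.mul_left, ih, Finset.sum_range_succ, LinearMap.add_apply, ofAdd_add]
    congr 1
    have h1 : (x ^ n).right = x.right ^ n := map_pow SemidirectProduct.rightHom x n
    rw [h1]
    show Multiplicative.ofAdd (ρ (x.right ^ n) (Multiplicative.toAdd x.left)) = _
    rw [map_pow]

/-- Let F be a field of characteristic p > 0, V a non-zero finite-dimensional F-vector space, G a finite group and ρ a representation of G on V; form the semidirect product V ⋊ G. For g ∈ G of order k, the coset Vg contains an element of order pk if and only if the minimal polynomial of ρ(g) does not divide 1 + X + ⋯ + X^(k−1). -/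
theorem result {F : Type*} [Field F] (p : ℕ) [Fact p.Prime] [CharP F p] {V : Type*} [AddCommGroup V] [Module F V] [FiniteDimensional F V] [Nontrivial V]
    {G : Type*} [Group G] [Finite G] (ρ : Representation F G V) (g : G) :
    (∃ x : Multiplicative V ⋊[(MulAutMultiplicative V).symm.toMonoidHom.comp
        ((DistribMulAction.toAddAut ((V →ₗ[F] V)ˣ) V).comp ρ.asGroupHom)] G,
        x.right = g ∧ orderOf x = p * orderOf g) ↔
      ¬ (minpoly F (ρ g) ∣ ∑ i ∈ Finset.range (orderOf g), (Polynomial.X : Polynomial F) ^ i) := by
  classical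
  have hp : p.Prime := Fact.out
  set k := orderOf g with hk
  have hkpos : 0 < k := orderOf_pos g
  set N : V →ₗ[F] V := ∑ i ∈ Finset.range k, (ρ g) ^ i with hN
  have haeval : Polynomial.aeval (ρ g) (∑ i ∈ Finset.range k, (Polynomial.X : Polynomial F) ^ i) = N := by
    simp [hN]
  rw [minpoly.dvd_iff, haeval]
  have hkey : ∀ x : Multiplicative V ⋊[(MulAutMultiplicative V).symm.toMonoidHom.comp
        ((DistribMulAction.toAddAut ((V →ₗ[F] V)ˣ) V).comp ρ.asGroupHom)] G, x.right = g →
        (orderOf x = p * k ↔ N (Multiplicative.toAdd x.left) ≠ 0) := by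
    intro x hx
    have hright : ∀ n, (x ^ n).right = g ^ n := fun n => by
      rw [← hx]; exact map_pow SemidirectProduct.rightHom x n
    have hxk : x ^ k = SemidirectProduct.inl (Multiplicative.ofAdd (N (Multiplicative.toAdd x.left))) := by
      apply SemidirectProduct.ext
      · rw [pow_formula, hx, SemidirectProduct.left_inl]
      · rw [hright, SemidirectProduct.right_inl, hk, pow_orderOf_eq_one]
    have h1 : k ∣ orderOf x := by
      have := orderOf_map_dvd SemidirectProduct.rightHom x
      rwa [SemidirectProduct.rightHom_eq_right, hx] at this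
    have h2 : orderOf x ∣ p * k := by
      rw [orderOf_dvd_iff_pow_eq_one, mul_comm, pow_mul, hxk, ← map_pow, ← ofAdd_nsmul]
      have : p • N (Multiplicative.toAdd x.left) = 0 := by
        rw [← Nat.cast_smul_eq_nsmul F, CharP.cast_eq_zero, zero_smul]
      rw [this, ofAdd_zero, map_one]
    have h3 : x ^ k = 1 ↔ N (Multiplicative.toAdd x.left) = 0 := by
      rw [hxk]
      constructor
      · intro h
        have := congrArg SemidirectProduct.left h
        rw [SemidirectProduct.left_inl, SemidirectProduct.one_left] at this
        exact this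
      · intro h
        rw [h, ofAdd_zero, map_one]
    constructor
    · intro ho h0
      have := orderOf_dvd_of_pow_eq_one (h3.2 h0)
      rw [ho] at this
      have h4 := Nat.le_of_dvd hkpos this
      have := hp.two_le
      nlinarith
    · intro hne
      obtain ⟨t, ht⟩ := h1
      rw [ht, mul_comm p k] at h2
      have h5 : t ∣ p := Nat.dvd_of_mul_dvd_mul_left hkpos h2
      rcases (Nat.dvd_prime hp).1 h5 with h6 | h6
      · exfalso
        apply hne
        apply h3.1
        rw [h6, mul_one] at ht
        rw [← ht, pow_orderOf_eq_one]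
      · rw [ht, h6, mul_comm]
  constructor
  · rintro ⟨x, hx, ho⟩ h0
    apply (hkey x hx).1 ho
    rw [h0, LinearMap.zero_apply]
  · intro hne
    obtain ⟨v, hv⟩ : ∃ v, N v ≠ 0 := by
      by_contra hcon
      push Not at hcon
      exact hne (LinearMap.ext hcon)
    exact ⟨⟨Multiplicative.ofAdd v, g⟩, rfl, (hkey ⟨Multiplicative.ofAdd v, g⟩ rfl).2 hv⟩

end Cfsg.Agent.S2516
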