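import Cfsg.Statements.S2532
import Mathlib
import Cfsg.Agent.Lib.Helper5.AltC

set_option autoImplicit false
open Cfsg

namespace Cfsg.Agent.S2532

open Cfsg.Agent.Lib.Helper5.AltC

/-- There is a function `f` of two natural-number arguments such that, whenever `m ≥ f(n, r)`, every subgroup of order `n` of the alternating group of degree `m` centralizes some subgroup of that alternating group isomorphic to the alternating group of degree `r`. -/
theorem result :
    ∃ f : ℕ → ℕ → ℕ, ∀ (m r : ℕ) (H : Subgroup ↥(alternatingGroup (Fin m))), f (Nat.card H) r ≤ m →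
      ∃ K : Subgroup ↥(alternatingGroup (Fin m)), Nonempty (↥K ≃* ↥(alternatingGroup (Fin r))) ∧
        K ≤ Subgroup.centralizer (H : Set ↥(alternatingGroup (Fin m))) := by
  refine ⟨fun n r => n * (2 ^ n * (r + 1)), ?_⟩
  intro m r H hm
  obtain ⟨Ψ, hinj, hsign, hcomm⟩ := exists_centralizing_hom (H := ↥H) (m := m) (r := r) hm
  let ψ : ↥(alternatingGroup (Fin r)) →* ↥(alternatingGroup (Fin m)) :=
    (Ψ.comp (alternatingGroup (Fin r)).subtype).codRestrict (alternatingGroup (Fin m))
      (fun σ => Equiv.Perm.mem_alternatingGroup.mpr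
        (hsign _ (Equiv.Perm.mem_alternatingGroup.mp σ.2)))
  have hψ : Function.Injective ψ := by
    intro σ τ h
    exact Subtype.ext (hinj (congrArg Subtype.val h))
  refine ⟨ψ.range, ⟨(MonoidHom.ofInjective hψ).symm⟩, ?_⟩
  rintro _ ⟨σ, rfl⟩
  rw [Subgroup.mem_centralizer_iff]
  intro h hh
  apply Subtype.ext
  ext z
  have := hcomm (σ : Equiv.Perm (Fin r)) ⟨h, hh⟩ z
  exact congrArg Fin.val this.symm

end Cfsg.Agent.S2532
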