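import Cfsg.Statements.S2897
import Cfsg.Agent.Lib.Helper16.FS

set_option autoImplicit false
open Cfsg

namespace Cfsg.Agent.S2897

open Cfsg.Agent.Lib.Helper16
open Cfsg.Agent.Lib.Helper8 (SubnIn subnIn_top)
open scoped commutatorElement


/-- Let p be a prime dividing the order of the finite group G, suppose G has parabolic characteristic p, let S be a Sylow p-subgroup of G and G₁ a normal subgroup of G. If Ω₁(Z(S ∩ G₁)) is nontrivial and contained in Ω₁(Z(S)), then G₁ has parabolic characteristic p. -/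
theorem result {G : Type*} [Group G] [Finite G] {p : ℕ} [Fact p.Prime] (hdiv : p ∣ Nat.card G) (hG : Cfsg.IsOfParabolicCharacteristic p G) (S : Sylow p G) (G₁ : Subgroup G) [G₁.Normal] (hne : Cfsg.omegaOne p (((S : Subgroup G) ⊓ G₁) ⊓ Subgroup.centralizer (((S : Subgroup G) ⊓ G₁ : Subgroup G) : Set G)) ≠ ⊥) (hle : Cfsg.omegaOne p (((S : Subgroup G) ⊓ G₁) ⊓ Subgroup.centralizer (((S : Subgroup G) ⊓ G₁ : Subgroup G) : Set G)) ≤ Cfsg.omegaOne p ((S : Subgroup G) ⊓ Subgroup.centralizer ((S : Subgroup G) : Set G))) : Cfsg.IsOfParabolicCharacteristic p ↥G₁ := by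
  have hS1 : SylIn p ((S : Subgroup G) ⊓ G₁) G₁ :=
    (sylIn_top S).inf_normal le_top (by rw [Subgroup.normalizer_eq_top])
  obtain ⟨S₁, hS₁⟩ := hS1.exists_sylow
  rw [parabolicChar_iff S₁]
  intro z hz1 hz
  have hzp : z ^ p = 1 := pow_eq_one_of_mem_omegaOne center_commute hz
  have hzc := omegaOne_le _ _ hz
  rw [hS₁] at hzc
  have h1 : (z : G) ∈ omegaOne p (((S : Subgroup G) ⊓ G₁) ⊓
      Subgroup.centralizer (((S : Subgroup G) ⊓ G₁ : Subgroup G) : Set G)) := by
    apply mem_omegaOne
    · refine Subgroup.mem_inf.mpr ⟨hzc.1, ?_⟩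
      rw [mem_centralizer_iff_commute]
      intro y hy
      have := mem_centralizer_iff_commute.mp hzc.2 ⟨y, hy.2⟩ hy
      exact congrArg Subtype.val this
    · have := congrArg Subtype.val hzp
      simpa using this
  have h2 : CharP p (Subgroup.centralizer ({(z : G)} : Set G)) :=
    (parabolicChar_iff S).mp hG z (fun e => hz1 (Subtype.ext e)) (hle h1)
  have h3 : CharP p (G₁ ⊓ Subgroup.centralizer ({(z : G)} : Set G)) := by
    apply h2.of_normal inf_le_right
    apply le_normalizer_inf _ Subgroup.le_normalizer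
    rw [Subgroup.normalizer_eq_top]
    exact le_top
  rw [← charP_map_iff G₁.subtype G₁.subtype_injective, map_centralizer_singleton_subtype]
  exact h3

end Cfsg.Agent.S2897
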