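import Cfsg.Statements.S2898
import Cfsg.Agent.Lib.Helper16.FS

set_option autoImplicit false
open Cfsg

namespace Cfsg.Agent.S2898

open Cfsg.Agent.Lib.Helper16
open Cfsg.Agent.Lib.Helper8 (SubnIn subnIn_top)
open scoped commutatorElement


/-- Let G be a finite group of even order with parabolic characteristic 2. If the centre of G ⧸ O(G) is trivial, then O(G) = 1. -/
theorem result {G : Type*} [Group G] [Finite G] (h2 : 2 ∣ Nat.card G) (hG : Cfsg.IsOfParabolicCharacteristic 2 G) [hN : (Cfsg.oddCore G).Normal] (hZ : Subgroup.center (G ⧸ Cfsg.oddCore G) = ⊥) : Cfsg.oddCore G = ⊥ := by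
  by_contra hne
  have hp2 : Fact (Nat.Prime 2) := ⟨Nat.prime_two⟩
  obtain ⟨S⟩ : Nonempty (Sylow 2 G) := inferInstance
  have hNc : (Nat.card (oddCore G)).Coprime 2 := Cfsg.Agent.Lib.Helper8.coprime_card_pPrimeCore 2
  have hord : ∀ x ∈ oddCore G, (orderOf x).Coprime 2 := by
    intro x hx
    have h1 : orderOf (⟨x, hx⟩ : ↥(oddCore G)) ∣ Nat.card (oddCore G) := orderOf_dvd_natCard _
    rw [Subgroup.orderOf_mk] at h1
    exact Nat.Coprime.of_dvd_left h1 hNc
  have hpar := (parabolicChar_iff S).mp hG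
  -- fixed points
  have hK : ∀ t : G, t ≠ 1 →
      t ∈ omegaOne 2 ((S : Subgroup G) ⊓ Subgroup.centralizer ((S : Subgroup G) : Set G)) →
      ∀ x ∈ oddCore G, x * t = t * x → x = 1 := by
    intro t ht1 ht x hx hxt
    have hX := hpar t ht1 ht
    have hxX : x ∈ Subgroup.centralizer ({t} : Set G) := by
      rw [Subgroup.mem_centralizer_singleton_iff]; exact hxt
    apply hX.eq_one_of_coprime hxX (hord x hx)
    intro u hu
    have h1 : x * u * x⁻¹ * u⁻¹ ∈ oddCore G := by
      have := (oddCore G).mul_mem hx (hN.conj_mem x⁻¹ ((oddCore G).inv_mem hx) u)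
      simpa [mul_assoc] using this
    have h2 : x * u * x⁻¹ * u⁻¹ ∈ pCoreOf 2 (Subgroup.centralizer ({t} : Set G)) :=
      Subgroup.mul_mem _ (conj_mem_of_le_normalizer (le_normalizer_pCoreOf _) hxX hu) (Subgroup.inv_mem _ hu)
    have h3 := eq_one_of_coprime_of_pgroup (hord _ h1)
      (IsPGroup.exists_pow_eq_one' (pCoreOf_isPGroup _) h2)
    have h4 : x * u = u * x := by
      have := congrArg (fun w => w * u * x) h3
      simpa [mul_assoc] using this
    exact h4
  have hS1 : (S : Subgroup G) ≠ ⊥ := by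
    intro e
    have := S.not_dvd_index
    rw [e, Subgroup.index_bot] at this
    exact this h2
  have hCn : (Subgroup.centralizer (oddCore G : Set G)).Normal := inferInstance
  -- Step 1
  have hSC : (S : Subgroup G) ⊓ Subgroup.centralizer (oddCore G : Set G) = ⊥ := by
    by_contra hb
    have h1 := inf_centralizer_ne_bot (S.2.to_le inf_le_left) S.2
      (le_normalizer_inf Subgroup.le_normalizer (by rw [Subgroup.normalizer_eq_top]; exact le_top)) hb
    obtain ⟨t, ht, hto⟩ := exists_orderOf_eq_of_ne_bot ((S.2.to_le inf_le_left).to_le inf_le_left) h1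
    have ht1 : t ≠ 1 := by
      intro e; rw [e, orderOf_one] at hto; omega
    have htO : t ∈ omegaOne 2 ((S : Subgroup G) ⊓ Subgroup.centralizer ((S : Subgroup G) : Set G)) :=
      mem_omegaOne ⟨ht.1.1, ht.2⟩ (by rw [← hto, pow_orderOf_eq_one])
    apply hne
    rw [eq_bot_iff]
    intro x hx
    rw [Subgroup.mem_bot]
    exact hK t ht1 htO x hx (mem_centralizer_iff_commute.mp ht.1.2 x hx).symm.eq
  -- Step 2
  have hCN : Subgroup.centralizer (oddCore G : Set G) ≤ oddCore G := by
    apply Cfsg.Agent.Lib.Helper8.le_pPrimeCore_of_normal hCn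
    have h1 : SylIn 2 ((S : Subgroup G) ⊓ Subgroup.centralizer (oddCore G : Set G))
        (Subgroup.centralizer (oddCore G : Set G)) :=
      (sylIn_top S).inf_normal le_top (by rw [Subgroup.normalizer_eq_top])
    have h3 := h1.2.2
    rw [hSC, Subgroup.relIndex_bot_left] at h3
    exact (Nat.Prime.coprime_iff_not_dvd Nat.prime_two).mpr h3 |>.symm
  -- Step 3
  obtain ⟨z, hz, hzo⟩ := exists_orderOf_eq_of_ne_bot (S.2.to_le inf_le_left) (center_ne_bot S.2 hS1)
  have hz1 : z ≠ 1 := by
    intro e; rw [e, orderOf_one] at hzo; omega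
  have hz2 : z ^ 2 = 1 := by rw [← hzo, pow_orderOf_eq_one]
  have hzinv : z⁻¹ = z := by
    rw [inv_eq_iff_mul_eq_one, ← sq, hz2]
  have hzO : z ∈ omegaOne 2 ((S : Subgroup G) ⊓ Subgroup.centralizer ((S : Subgroup G) : Set G)) :=
    mem_omegaOne hz hz2
  have hinv : ∀ n ∈ oddCore G, z * n * z⁻¹ = n⁻¹ := by
    let φ : ↥(oddCore G) →* ↥(oddCore G) := (MulAut.conjNormal z : MulAut ↥(oddCore G)).toMonoidHom
    have hφ : ∀ n : ↥(oddCore G), ((φ n : ↥(oddCore G)) : G) = z * n * z⁻¹ := fun n => rfl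
    have hfpf : MonoidHom.FixedPointFree φ := by
      intro n hn
      have h1 : z * (n : G) * z⁻¹ = n := by rw [← hφ, hn]
      have h2 : (n : G) * z = z * n := by
        have := congrArg (fun w => w * z) h1
        simpa [mul_assoc] using this.symm
      exact Subtype.ext (hK z hz1 hzO n n.2 h2)
    have hinvol : Function.Involutive φ := by
      intro n
      apply Subtype.ext
      rw [hφ, hφ, hzinv]
      have : z * (z * (n : G) * z) * z = z ^ 2 * n * z ^ 2 := by simp [sq, mul_assoc]
      rw [this, hz2]; simp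
    intro n hn
    have := congrFun (hfpf.coe_eq_inv_of_involutive hinvol) ⟨n, hn⟩
    have h3 := congrArg Subtype.val this
    rw [hφ] at h3
    simpa using h3
  -- Step 4, 5
  have hcen : (QuotientGroup.mk z : G ⧸ oddCore G) ∈ Subgroup.center (G ⧸ oddCore G) := by
    rw [Subgroup.mem_center_iff]
    intro y
    obtain ⟨g, rfl⟩ := QuotientGroup.mk_surjective y
    rw [← QuotientGroup.mk_mul, ← QuotientGroup.mk_mul, QuotientGroup.eq]
    apply hCN
    rw [mem_centralizer_iff_commute]
    intro n hn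
    have e1 : g * n * g⁻¹ ∈ oddCore G := hN.conj_mem n hn g
    have e2 := hinv _ e1
    have e3 := hinv _ hn
    have e4 : z * n = n⁻¹ * z := by
      have := congrArg (fun w => w * z) e3
      simpa [mul_assoc] using this
    have e5 : z * (g * n * g⁻¹) = (g * n * g⁻¹)⁻¹ * z := by
      have := congrArg (fun w => w * z) e2
      simpa [mul_assoc] using this
    show (g * z)⁻¹ * (z * g) * n = n * ((g * z)⁻¹ * (z * g))
    have e6 : z * g * n = g * n⁻¹ * g⁻¹ * z * g := by
      have : z * g * n = z * (g * n * g⁻¹) * g := by simp [mul_assoc]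
      rw [this, e5]; simp [mul_assoc]
    have e7 : n * z⁻¹ = z⁻¹ * n⁻¹ := by
      rw [hzinv]
      have := congrArg (fun w => n * w * n⁻¹) e4
      simp only [mul_assoc, mul_inv_cancel, mul_one, mul_inv_cancel_left] at this
      exact this
    calc (g * z)⁻¹ * (z * g) * n = z⁻¹ * g⁻¹ * (z * g * n) := by simp [mul_assoc]
      _ = z⁻¹ * g⁻¹ * (g * n⁻¹ * g⁻¹ * z * g) := by rw [e6]
      _ = (z⁻¹ * n⁻¹) * g⁻¹ * z * g := by simp [mul_assoc]
      _ = (n * z⁻¹) * g⁻¹ * z * g := by rw [e7]
      _ = n * ((g * z)⁻¹ * (z * g)) := by simp [mul_assoc]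
  rw [hZ, Subgroup.mem_bot, QuotientGroup.eq_one_iff] at hcen
  have := hord z hcen
  rw [hzo] at this
  exact absurd this (by decide)

end Cfsg.Agent.S2898
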