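import Mathlib
import Cfsg.Statements.S2907

set_option autoImplicit false
open Cfsg

namespace Cfsg.Agent.S2907

/-- Let X be a finite semi-extraspecial p-group and x an element of X outside the centre. Then the index of C_X(x) in X equals the order of Z(X), and the commutators [x, y], y ∈ X, form exactly the centre Z(X). -/
theorem result {X : Type*} [Group X] [Finite X] {p : ℕ} [Fact p.Prime] (hX : Cfsg.IsSemiExtraspecial p X) (x : X) (hx : x ∉ Subgroup.center X) : (Subgroup.centralizer ({x} : Set X)).index = Nat.card ↥(Subgroup.center X) ∧ {z : X | ∃ y : X, z = x * y * x⁻¹ * y⁻¹} = (Subgroup.center X : Set X) := by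
  have hp : p.Prime := Fact.out
  obtain ⟨⟨hXp, hfr, hcomm⟩, hsemi⟩ := hX
  set Z := Subgroup.center X with hZ
  have hcZ : ∀ y : X, x * y * x⁻¹ * y⁻¹ ∈ Z := by
    intro y
    rw [← hcomm, commutator_def]
    have := Subgroup.commutator_mem_commutator (Subgroup.mem_top x) (Subgroup.mem_top y)
    rwa [commutatorElement_def] at this
  let φ : X →* X :=
    { toFun := fun y => x * y * x⁻¹ * y⁻¹
      map_one' := by simp
      map_mul' := by
        intro y y'
        have h1 := (Subgroup.mem_center_iff.1 (hcZ y')) y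
        calc x * (y * y') * x⁻¹ * (y * y')⁻¹ = x * y * x⁻¹ * y⁻¹ * (y * (x * y' * x⁻¹ * y'⁻¹)) * y⁻¹ := by
              group
          _ = x * y * x⁻¹ * y⁻¹ * ((x * y' * x⁻¹ * y'⁻¹) * y) * y⁻¹ := by rw [h1]
          _ = x * y * x⁻¹ * y⁻¹ * (x * y' * x⁻¹ * y'⁻¹) := by group }
  have hφ : ∀ y, φ y = x * y * x⁻¹ * y⁻¹ := fun y => rfl
  have hIZ : φ.range ≤ Z := by
    rintro _ ⟨y, rfl⟩
    exact hcZ y
  have hrange : φ.range = Z := by
    by_contra hne
    have hne' : φ.range.subgroupOf Z ≠ ⊤ := by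
      rw [Ne, Subgroup.subgroupOf_eq_top]
      exact fun h => hne (le_antisymm hIZ h)
    obtain ⟨Y', hY', hle⟩ := (eq_top_or_exists_le_coatom (φ.range.subgroupOf Z)).resolve_left hne'
    set Y : Subgroup X := Y'.map Z.subtype with hY
    have hYZ : Y ≤ Z := Subgroup.map_subtype_le Y'
    have hYsub : Y.subgroupOf Z = Y' := by
      rw [hY, ← Subgroup.comap_subtype]
      exact Subgroup.comap_map_eq_self_of_injective Z.subtype_injective Y'
    obtain ⟨hYn, ⟨-, hcard⟩⟩ := hsemi Y hYZ (by rw [hYsub]; exact hY')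
    have hIY : φ.range ≤ Y := by
      intro w hw
      have h1 : (⟨w, hIZ hw⟩ : Z) ∈ Y' := hle (by rw [Subgroup.mem_subgroupOf]; exact hw)
      exact ⟨⟨w, hIZ hw⟩, h1, rfl⟩
    set K := Subgroup.center (X ⧸ Y) with hK
    have hxK : (QuotientGroup.mk x : X ⧸ Y) ∈ K := by
      rw [hK, Subgroup.mem_center_iff]
      intro q
      induction q using QuotientGroup.induction_on with
      | H y =>
        rw [← QuotientGroup.mk_mul, ← QuotientGroup.mk_mul, QuotientGroup.eq]
        have h1 : φ y⁻¹ ∈ Y := hIY ⟨y⁻¹, rfl⟩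
        rw [hφ] at h1
        have h2 : (y * x)⁻¹ * (x * y) = (x⁻¹ * (x * y⁻¹ * x⁻¹ * y⁻¹⁻¹)  * x)⁻¹ := by group
        rw [h2]
        have := hYn.conj_mem _ h1 x⁻¹
        simp only [inv_inv] at this ⊢
        exact Y.inv_mem this
    set Zbar : Subgroup (X ⧸ Y) := Z.map (QuotientGroup.mk' Y) with hZbar
    have hZK : Zbar ≤ K := by
      rintro _ ⟨z, hz, rfl⟩
      rw [hK, Subgroup.mem_center_iff]
      intro q
      induction q using QuotientGroup.induction_on with
      | H y =>
        change (QuotientGroup.mk y : X ⧸ Y) * QuotientGroup.mk z = QuotientGroup.mk z * QuotientGroup.mk y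
        rw [← QuotientGroup.mk_mul, ← QuotientGroup.mk_mul, (Subgroup.mem_center_iff.1 hz) y]
    have hZ1 : Zbar ≠ ⊥ := by
      intro h0
      apply hY'.1
      rw [eq_top_iff]
      intro z _
      have h1 : (QuotientGroup.mk' Y) (z : X) ∈ Zbar := ⟨z, z.2, rfl⟩
      rw [h0, Subgroup.mem_bot] at h1
      have h2 : (z : X) ∈ Y := (QuotientGroup.eq_one_iff _).1 h1
      rw [← hYsub, Subgroup.mem_subgroupOf]
      exact h2
    have hcardZ : Nat.card Zbar = p := by
      have h1 : Nat.card Zbar ∣ p := by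
        rw [← hcard]; exact Subgroup.card_dvd_of_le hZK
      rcases (Nat.dvd_prime hp).1 h1 with h | h
      · exact absurd (Subgroup.card_eq_one.1 h) hZ1
      · exact h
    have hZeq : Zbar = K := Subgroup.eq_of_le_of_card_ge hZK (by rw [hcardZ, hcard])
    rw [← hZeq] at hxK
    obtain ⟨z, hz, hzx⟩ := hxK
    have h3 : z⁻¹ * x ∈ Y := QuotientGroup.eq.1 hzx
    apply hx
    have : x = z * (z⁻¹ * x) := by group
    rw [this]
    exact Z.mul_mem hz (hYZ h3)
  constructor
  · have hker : φ.ker = Subgroup.centralizer ({x} : Set X) := by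
      ext y
      rw [MonoidHom.mem_ker, hφ, Subgroup.mem_centralizer_singleton_iff]
      constructor
      · intro h
        calc y * x = (x * y * x⁻¹ * y⁻¹)⁻¹ * (x * y) := by group
          _ = x * y := by rw [h]; group
      · intro h
        calc x * y * x⁻¹ * y⁻¹ = (x * y) * x⁻¹ * y⁻¹ := by group
          _ = 1 := by rw [← h]; group
    rw [← hker, Subgroup.index_ker, hrange]
  · ext z
    rw [← hrange]
    constructor
    · rintro ⟨y, rfl⟩
      exact ⟨y, rfl⟩
    · rintro ⟨y, rfl⟩
      exact ⟨y, rfl⟩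

end Cfsg.Agent.S2907
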