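import Cfsg.Statements.S2908
import Cfsg.Agent.Lib.Helper1.Nilp
import Cfsg.Agent.Lib.Helper22.Comm

set_option autoImplicit false
open Cfsg

namespace Cfsg.Agent.S2908

open Subgroup Cfsg.Agent.Lib.Helper1 in
/-- Three subgroups lemma modulo a subgroup normalized by the three subgroups. -/
theorem three_subgroups_rel {G : Type*} [Group G] (N H₁ H₂ H₃ : Subgroup G)
    (n1 : H₁ ≤ normalizer (N : Set G)) (n2 : H₂ ≤ normalizer (N : Set G))
    (n3 : H₃ ≤ normalizer (N : Set G))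
    (h1 : ⁅⁅H₂, H₃⁆, H₁⁆ ≤ N) (h2 : ⁅⁅H₃, H₁⁆, H₂⁆ ≤ N) : ⁅⁅H₁, H₂⁆, H₃⁆ ≤ N := by
  obtain ⟨K, hK⟩ : ∃ K : Subgroup G, K = normalizer (N : Set G) := ⟨_, rfl⟩
  rw [← hK] at n1 n2 n3
  have hNK : N ≤ K := hK ▸ le_normalizer
  have hn : (N.subgroupOf K).Normal := by
    rw [hK]; exact normal_in_normalizer
  have key : ∀ X Y Z : Subgroup G, X ≤ K → Y ≤ K → Z ≤ K →
      (⁅⁅X.subgroupOf K, Y.subgroupOf K⁆, Z.subgroupOf K⁆ ≤ N.subgroupOf K ↔ ⁅⁅X, Y⁆, Z⁆ ≤ N) := by
    intro X Y Z hX hY hZ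
    rw [← map_le_map_iff_of_injective K.subtype_injective, map_commutator, map_commutator,
      map_subgroupOf_eq_of_le hX, map_subgroupOf_eq_of_le hY, map_subgroupOf_eq_of_le hZ,
      map_subgroupOf_eq_of_le hNK]
  rw [← key _ _ _ n1 n2 n3]
  apply Cfsg.Agent.Lib.Helper22.three_subgroups_le
  · rw [key _ _ _ n2 n3 n1]; exact h1
  · rw [key _ _ _ n3 n1 n2]; exact h2

open Subgroup Cfsg.Agent.Lib.Helper1 in
open scoped commutatorElement in

/-- Let P be a p-subgroup of a finite group, normalized by a p-subgroup A and by a subgroup B of order prime to p that commutes elementwise with A. If [P, B] ≤ [P, A], then B centralizes P. -/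
theorem result {G : Type*} [Group G] [Finite G] {p : ℕ} [Fact p.Prime] (P A B : Subgroup G) (hP : IsPGroup p ↥P) (hA : IsPGroup p ↥A) (hB : ¬ p ∣ Nat.card ↥B) (hnA : A ≤ Subgroup.normalizer (P : Set G)) (hnB : B ≤ Subgroup.normalizer (P : Set G)) (hAB : ⁅A, B⁆ = ⊥) (hcomm : ⁅P, B⁆ ≤ ⁅P, A⁆) : ⁅P, B⁆ = ⊥ := by
  have hnorm : ∀ {X Y Z : Subgroup G}, X ≤ normalizer (Y : Set G) → X ≤ normalizer (Z : Set G) →
      X ≤ normalizer ((⁅Y, Z⁆ : Subgroup G) : Set G) := by
    intro X Y Z h1 h2 a ha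
    rw [mem_normalizer_iff_map_conj_eq, map_commutator,
      mem_normalizer_iff_map_conj_eq.mp (h1 ha), mem_normalizer_iff_map_conj_eq.mp (h2 ha)]
  obtain ⟨Q, hQ⟩ : ∃ Q : Subgroup G, Q = P ⊔ A := ⟨_, rfl⟩
  have hPQ : P ≤ Q := hQ ▸ le_sup_left
  have hAQ : A ≤ Q := hQ ▸ le_sup_right
  have hQp : IsPGroup p Q := hQ ▸ hP.to_sup_of_normal_left' hA hnA
  have hQnP : Q ≤ normalizer (P : Set G) := hQ ▸ sup_le le_normalizer hnA
  have hBcA : B ≤ centralizer (A : Set G) := by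
    rw [← commutator_eq_bot_iff_le_centralizer, commutator_comm]; exact hAB
  have hBnA : B ≤ normalizer (A : Set G) := hBcA.trans (centralizer_le_normalizer _)
  have hBnQ : B ≤ normalizer (Q : Set G) := by
    intro b hb
    rw [mem_normalizer_iff_map_conj_eq, hQ, Subgroup.map_sup,
      mem_normalizer_iff_map_conj_eq.mp (hnB hb), mem_normalizer_iff_map_conj_eq.mp (hBnA hb)]
  obtain ⟨L, hL0, hLs⟩ : ∃ L : ℕ → Subgroup G, L 0 = P ∧ ∀ i, L (i + 1) = ⁅L i, Q⁆ :=
    ⟨fun n => Nat.rec P (fun _ X => ⁅X, Q⁆) n, rfl, fun _ => rfl⟩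
  have hLn : ∀ i, Q ≤ normalizer ((L i : Subgroup G) : Set G) ∧ B ≤ normalizer ((L i : Subgroup G) : Set G) := by
    intro i
    induction i with
    | zero => rw [hL0]; exact ⟨hQnP, hnB⟩
    | succ i ih =>
      rw [hLs]
      exact ⟨hnorm ih.1 le_normalizer, hnorm ih.2 hBnQ⟩
  have hLle : ∀ i, L (i + 1) ≤ L i := fun i => by
    rw [hLs]; exact commutator_le_of_le_normalizer (hLn i).1
  have hLP : ∀ i, L i ≤ P := by
    intro i
    induction i with
    | zero => exact hL0.le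
    | succ i ih => exact (hLle i).trans ih
  have hcop : (Nat.card B).Coprime (Nat.card P) :=
    coprime_card_of_isPGroup hP ((Nat.Prime.coprime_iff_not_dvd Fact.out).mpr hB).symm
  have hstab : ⁅⁅P, B⁆, B⁆ = ⁅P, B⁆ :=
    coprime_commutator_stable B P hnB hcop (Or.inr (solvable_of_isPGroup hP))
  have hQB : ⁅Q, B⁆ ≤ ⁅P, B⁆ := by
    rw [commutator_le]
    intro x hx b hb
    rw [hQ, mem_sup_of_le_normalizer hnA] at hx
    obtain ⟨u, hu, a, ha, rfl⟩ := hx
    have hab : b * a = a * b := (mem_centralizer_iff.mp (hBcA hb) a ha).symm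
    have : ⁅u * a, b⁆ = ⁅u, b⁆ := by
      simp only [commutatorElement_def]
      calc u * a * b * (u * a)⁻¹ * b⁻¹ = u * (a * b) * a⁻¹ * u⁻¹ * b⁻¹ := by group
        _ = u * (b * a) * a⁻¹ * u⁻¹ * b⁻¹ := by rw [hab]
        _ = u * b * u⁻¹ * b⁻¹ := by group
    rw [this]
    exact commutator_mem_commutator hu hb
  have hY : ∀ i, ⁅P, B⁆ ≤ L (i + 1) := by
    intro i
    induction i with
    | zero =>
      rw [hLs, hL0]
      exact hcomm.trans (commutator_mono le_rfl hAQ)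
    | succ i ih =>
      rw [← hstab]
      refine (commutator_mono ih le_rfl).trans ?_
      rw [hLs i]
      apply three_subgroups_rel
      · exact ((hLP i).trans hPQ).trans (hLn _).1
      · exact (hLn _).1
      · exact (hLn _).2
      · rw [hLs (i + 1)]
        exact commutator_mono (hQB.trans ih) ((hLP i).trans hPQ)
      · rw [hLs (i + 1)]
        refine commutator_mono ?_ le_rfl
        rw [commutator_comm]
        exact (commutator_mono (hLP i) le_rfl).trans ih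
  have hnil : Group.IsNilpotent Q := hQp.isNilpotent
  obtain ⟨n, hn⟩ := (isNilpotent_iff_lowerCentralSeries Q).mp hnil
  have hLl : ∀ n, L n ≤ Q.lowerCentralSeries n := by
    intro n
    induction n with
    | zero => rw [hL0]; exact hPQ
    | succ n ih => rw [hLs]; exact commutator_mono ih le_rfl
  have h1 : ⁅P, B⁆ ≤ L n := by
    cases n with
    | zero => rw [hL0]; exact (commutator_le_of_le_normalizer hnB)
    | succ n => exact hY n
  exact le_bot_iff.mp (hn ▸ (h1.trans (hLl n)))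

end Cfsg.Agent.S2908
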