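import Cfsg.Statements.S2909
import Cfsg.Agent.Lib.Helper9.DualPQ
import Cfsg.Agent.Lib.Helper8.CoprimeAct
import Cfsg.Agent.Lib.Helper4.Basic
import Cfsg.Agent.S0058
import Cfsg.Agent.Lib.Helper9.Generation

set_option autoImplicit false
open Cfsg

namespace Cfsg.Agent.S2909

open Cfsg.Agent.Lib.Helper1 Cfsg.Agent.Lib.Helper9
open scoped commutatorElement

theorem centralizer_singleton_le {G : Type*} [Group G] (u : G) :
    Subgroup.centralizer ({u} : Set G) ≤ Subgroup.centralizer ((Subgroup.zpowers u : Subgroup G) : Set G) := by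
  intro c hc
  rw [Subgroup.mem_centralizer_singleton_iff] at hc
  rw [Subgroup.mem_centralizer_iff]
  rintro _ ⟨k, rfl⟩
  have h1 : Commute u c := hc.symm
  exact (h1.zpow_left k).eq

theorem core {G : Type*} [Group G] [Finite G] {p : ℕ} [Fact p.Prime] (E : Subgroup G) [E.Normal]
    (hE : IsPGroup p ↥E) (U : Subgroup G) (hU : Cfsg.IsElementaryAbelian p U) (R : Subgroup G)
    (hR : ¬ p ∣ Nat.card ↥R) (hRU : U ≤ Subgroup.normalizer (R : Set G)) (u : G) (huU : u ∈ U)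
    (hcond : E ⊓ Subgroup.centralizer (U : Set G) = E ⊓ Subgroup.centralizer ({u} : Set G) ∨
      ⁅E, U⁆ = ⁅E, Subgroup.zpowers u⁆) :
    ⁅R ⊓ Subgroup.centralizer ({u} : Set G), U⁆ ≤ Subgroup.centralizer (E : Set G) := by
  have hp : p.Prime := Fact.out
  obtain ⟨Q, hQ⟩ : ∃ Q, Q = R ⊓ Subgroup.centralizer ({u} : Set G) := ⟨_, rfl⟩
  rw [← hQ]
  have hQR : Q ≤ R := hQ ▸ inf_le_left
  have hQu : Q ≤ Subgroup.centralizer ({u} : Set G) := hQ ▸ inf_le_right
  obtain ⟨P, hPdef⟩ : ∃ P, P = Subgroup.zpowers u := ⟨_, rfl⟩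
  rw [← hPdef] at hcond
  have hP : IsPGroup p P := hPdef ▸ Cfsg.Agent.Lib.Helper8.isPGroup_zpowers_of_pow_eq_one (hU.2 u huU)
  have hnE : ∀ X : Subgroup G, X ≤ Subgroup.normalizer (E : Set G) := by
    intro X
    rw [Subgroup.normalizer_eq_top_iff.mpr inferInstance]; exact le_top
  have hUu : U ≤ Subgroup.centralizer ({u} : Set G) := by
    intro v hv
    rw [Subgroup.mem_centralizer_singleton_iff]
    exact Cfsg.Agent.Lib.Helper9.elemAb_comm hU hv huU
  have hUQ : U ≤ Subgroup.normalizer (Q : Set G) := by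
    rw [hQ]
    exact le_normalizer_inf hRU (hUu.trans Subgroup.le_normalizer)
  obtain ⟨D, hD⟩ : ∃ D, D = ⁅Q, U⁆ := ⟨_, rfl⟩
  rw [← hD]
  have hDQ : D ≤ Q := hD ▸ commutator_le_of_le_normalizer hUQ
  have hDcop : (Nat.card D).Coprime p := by
    rw [Nat.coprime_comm, Nat.Prime.coprime_iff_not_dvd hp]
    intro h
    exact hR (h.trans (Subgroup.card_dvd_of_le (hDQ.trans hQR)))
  have hQP : Q ≤ Subgroup.centralizer (P : Set G) := hPdef ▸ hQu.trans (centralizer_singleton_le u)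
  have hPD : P ≤ Subgroup.centralizer (D : Set G) := Subgroup.le_centralizer_iff.mp (hDQ.trans hQP)
  have hfin : ⁅E, D⁆ = ⊥ → D ≤ Subgroup.centralizer (E : Set G) := by
    intro h
    rw [Subgroup.commutator_eq_bot_iff_le_centralizer] at h
    exact Subgroup.le_centralizer_iff.mp h
  apply hfin
  rcases hcond with hc | hc
  · obtain ⟨E₀, hE₀⟩ : ∃ E₀, E₀ = E ⊓ Subgroup.centralizer (U : Set G) := ⟨_, rfl⟩
    have h1 : ⁅U, E₀⁆ = ⊥ := by
      rw [Subgroup.commutator_eq_bot_iff_le_centralizer]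
      apply Subgroup.le_centralizer_iff.mp
      rw [hE₀]; exact inf_le_right
    have hQE₀ : Q ≤ Subgroup.normalizer (E₀ : Set G) := by
      rw [hE₀, hc]
      exact le_normalizer_inf (hnE Q) (hQu.trans Subgroup.le_normalizer)
    have h2 : ⁅⁅E₀, Q⁆, U⁆ = ⊥ := by
      rw [eq_bot_iff, ← h1, Subgroup.commutator_comm U E₀]
      exact Subgroup.commutator_mono (commutator_le_of_le_normalizer hQE₀) le_rfl
    have h3 : ⁅⁅Q, U⁆, E₀⁆ = ⊥ := by
      apply Subgroup.commutator_commutator_eq_bot_of_rotate _ h2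
      rw [h1, Subgroup.commutator_bot_left]
    rw [← hD, Subgroup.commutator_eq_bot_iff_le_centralizer] at h3
    refine thompson_PxQ p P D hP hDcop hPD _ E rfl hE (hnE P) (hnE D) ?_
    have h4 : E ⊓ Subgroup.centralizer (P : Set G) ≤ E₀ := by
      rw [hE₀, hc, hPdef]
      refine inf_le_inf le_rfl (Subgroup.centralizer_le ?_)
      intro x hx
      rw [Set.mem_singleton_iff.mp hx]
      exact Subgroup.mem_zpowers u
    exact h4.trans (Subgroup.le_centralizer_iff.mp h3)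
  · obtain ⟨E₁, hE₁⟩ : ∃ E₁, E₁ = ⁅E, P⁆ := ⟨_, rfl⟩
    have hEn : ∀ (g e : G), e ∈ E → g * e * g⁻¹ ∈ E := fun g e he =>
      (inferInstance : E.Normal).conj_mem e he g
    let K : Subgroup G :=
      { carrier := {g | ∀ e ∈ E, e⁻¹ * (g * e * g⁻¹) ∈ E₁}
        mul_mem' := by
          intro g h hg hh e he
          have e1 : e⁻¹ * (g * h * e * (g * h)⁻¹)
              = (e⁻¹ * (h * e * h⁻¹)) * ((h * e * h⁻¹)⁻¹ * (g * (h * e * h⁻¹) * g⁻¹)) := by group
          rw [e1]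
          exact mul_mem (hh e he) (hg _ (hEn h e he))
        one_mem' := by
          intro e _
          have : e⁻¹ * (1 * e * 1⁻¹) = 1 := by group
          rw [this]; exact one_mem _
        inv_mem' := by
          intro g hg e he
          have e1 : e⁻¹ * (g⁻¹ * e * g⁻¹⁻¹)
              = ((g⁻¹ * e * g⁻¹⁻¹)⁻¹ * (g * (g⁻¹ * e * g⁻¹⁻¹) * g⁻¹))⁻¹ := by group
          rw [e1]
          exact inv_mem (hg _ (hEn g⁻¹ e he)) }
    have hmemK : ∀ g, g ∈ K ↔ ∀ e ∈ E, e⁻¹ * (g * e * g⁻¹) ∈ E₁ := fun g => Iff.rfl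
    have hUK : U ≤ K := by
      intro v hv
      rw [hmemK]
      intro e he
      have : e⁻¹ * (v * e * v⁻¹) = ⁅e⁻¹, v⁆ := by rw [commutatorElement_def]; group
      rw [this, hE₁, ← hc]
      exact Subgroup.commutator_mem_commutator (inv_mem he) hv
    have hQE₁ : Q ≤ Subgroup.normalizer (E₁ : Set G) := by
      rw [hE₁]
      exact le_normalizer_commutator_of (hnE Q) (hQP.trans (Subgroup.centralizer_le_normalizer _))
    have hDK : D ≤ K := by
      rw [hD, Subgroup.commutator_le]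
      intro q hq v hv
      have e1 : ⁅q, v⁆ = (q * v * q⁻¹) * v⁻¹ := by rw [commutatorElement_def]
      rw [e1]
      refine mul_mem ?_ (inv_mem (hUK hv))
      rw [hmemK]
      intro e he
      have e2 : e⁻¹ * (q * v * q⁻¹ * e * (q * v * q⁻¹)⁻¹)
          = q * ((q⁻¹ * e * q⁻¹⁻¹)⁻¹ * (v * (q⁻¹ * e * q⁻¹⁻¹) * v⁻¹)) * q⁻¹ := by group
      rw [e2]
      exact conj_mem_of_mem_normalizer (hQE₁ hq) ((hmemK v).mp (hUK hv) _ (hEn q⁻¹ e he))
    have hle : ⁅E, D⁆ ≤ ⁅E, P⁆ := by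
      rw [Subgroup.commutator_le, ← hE₁]
      intro e he d hd
      have e1 : ⁅e, d⁆ = e⁻¹⁻¹ * (d * e⁻¹ * d⁻¹) := by rw [commutatorElement_def]; group
      rw [e1]
      exact (hmemK d).mp (hDK hd) _ (inv_mem he)
    exact dual_PxQ p P D E hP hDcop hPD hE (hnE P) (hnE D) hle

/-- Let p be a prime, E a normal p-subgroup of the finite group G, and U a non-cyclic elementary abelian p-subgroup of G such that either C_E(U) = C_E(u) for every nontrivial u ∈ U, or [E, U] = [E, ⟨u⟩] for every nontrivial u ∈ U. If R is a subgroup of order prime to p normalized by U, then [R, U] centralizes E. -/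
theorem result {G : Type*} [Group G] [Finite G] {p : ℕ} [Fact p.Prime] (E : Subgroup G) [E.Normal] (hE : IsPGroup p ↥E) (U : Subgroup G) (hU : Cfsg.IsElementaryAbelian p U) (hnc : ¬ IsCyclic ↥U) (hcond : (∀ u ∈ U, u ≠ 1 → E ⊓ Subgroup.centralizer (U : Set G) = E ⊓ Subgroup.centralizer ({u} : Set G)) ∨ (∀ u ∈ U, u ≠ 1 → ⁅E, U⁆ = ⁅E, Subgroup.zpowers u⁆)) (R : Subgroup G) (hR : ¬ p ∣ Nat.card ↥R) (hRU : U ≤ Subgroup.normalizer (R : Set G)) : ⁅R, U⁆ ≤ Subgroup.centralizer (E : Set G) := by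
  have hp : p.Prime := Fact.out
  have hCn : (Subgroup.centralizer (E : Set G)).Normal := inferInstance
  obtain ⟨Cn, hCdef⟩ : ∃ Cn, Cn = Subgroup.centralizer (E : Set G) := ⟨_, rfl⟩
  rw [← hCdef] at hCn ⊢
  have hcomm : IsMulCommutative U := hU.1
  have hcop : (Nat.card U).Coprime (Nat.card R) := by
    obtain ⟨m, hm⟩ := IsPGroup.iff_card.mp (Cfsg.Agent.Lib.Helper4.elemAb_isPGroup hU)
    rw [hm]
    apply Nat.Coprime.pow_left
    rwa [Nat.Prime.coprime_iff_not_dvd hp]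
  have hgen := Cfsg.Agent.S0058.result U R hnc hRU hcop
  have hRT : R ≤ (Subgroup.centralizer ((U.map (QuotientGroup.mk' Cn) : Subgroup (G ⧸ Cn)) : Set (G ⧸ Cn))).comap
      (QuotientGroup.mk' Cn) := by
    rw [← hgen]
    apply iSup₂_le
    intro u hu
    obtain ⟨huU, hu1⟩ := hu
    have hc := core E hE U hU R hR hRU u huU (by
      rcases hcond with h | h
      · exact Or.inl (h u huU hu1)
      · exact Or.inr (h u huU hu1))
    intro q hq
    rw [Subgroup.mem_comap, Subgroup.mem_centralizer_iff]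
    rintro _ ⟨v, hv, rfl⟩
    show ((v * q : G) : G ⧸ Cn) = ((q * v : G) : G ⧸ Cn)
    rw [QuotientGroup.eq, hCdef]
    have e1 : (v * q)⁻¹ * (q * v) = ⁅q⁻¹, v⁻¹⁆ := by rw [commutatorElement_def]; group
    rw [e1]
    exact hc (Subgroup.commutator_mem_commutator (inv_mem hq) (inv_mem hv))
  rw [Subgroup.commutator_le]
  intro r hr v hv
  have h1 := hRT (inv_mem hr)
  rw [Subgroup.mem_comap, Subgroup.mem_centralizer_iff] at h1
  have h2 := h1 _ ⟨v⁻¹, inv_mem hv, rfl⟩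
  have h3 : ((v⁻¹ * r⁻¹ : G) : G ⧸ Cn) = ((r⁻¹ * v⁻¹ : G) : G ⧸ Cn) := h2
  rw [QuotientGroup.eq] at h3
  have e1 : (v⁻¹ * r⁻¹)⁻¹ * (r⁻¹ * v⁻¹) = ⁅r, v⁆ := by rw [commutatorElement_def]; group
  rwa [e1] at h3

end Cfsg.Agent.S2909
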