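import Cfsg.Statements.S2925
import Cfsg.Agent.Lib.Helper9.Layer
import Cfsg.Agent.Lib.Helper16.FS2
import Cfsg.Agent.Lib.Helper4.Basic

set_option autoImplicit false
open Cfsg

namespace Cfsg.Agent.S2925
open Cfsg.Agent.Lib.Helper9 Cfsg.Agent.Lib.Helper8 Cfsg.Agent.Lib.Helper16

/-- Let K be a component of the finite group X and T a Sylow 2-subgroup of X. If some abelian normal subgroup Y of T does not normalize K, then K ⧸ Z(K) has abelian Sylow 2-subgroups. -/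
theorem result {X : Type*} [Group X] [Finite X] (K : Subgroup X) (hK : Cfsg.IsComponent K) (T : Sylow 2 X) (Y : Subgroup X) (hYT : Y ≤ (T : Subgroup X)) (hYn : (Y.subgroupOf (T : Subgroup X)).Normal) (hYab : IsMulCommutative ↥Y) (hnot : ¬ Y ≤ Subgroup.normalizer (K : Set X)) (P : Sylow 2 (↥K ⧸ Subgroup.center ↥K)) : IsMulCommutative ↥(P : Subgroup (↥K ⧸ Subgroup.center ↥K)) := by
  have : Fact (Nat.Prime 2) := ⟨Nat.prime_two⟩
  obtain ⟨y, hy, hyK⟩ := SetLike.not_le_iff_exists.mp hnot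
  obtain ⟨Ky, hKy⟩ : ∃ Ky, Ky = K.map (MulAut.conj y).toMonoidHom := ⟨_, rfl⟩
  have hKyc : Cfsg.IsComponent Ky := hKy ▸ isComponent_conj hK y
  have hne : K ≠ Ky := by
    intro h
    apply hyK
    rw [Subgroup.mem_normalizer_iff_map_conj_eq]
    exact (h.trans hKy).symm
  have hcomm : ⁅K, Ky⁆ = ⊥ := comp_comm_of_ne hK hKyc hne
  have hcomm' : ∀ a ∈ K, ∀ b ∈ Ky, a * b = b * a := by
    intro a ha b hb
    have := Subgroup.commutator_eq_bot_iff_le_centralizer.mp hcomm ha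
    exact (Subgroup.mem_centralizer_iff.mp this b hb).symm
  have hS : SylIn 2 ((T : Subgroup X) ⊓ K) K := (sylIn_top T).inf_subnIn (subnIn_top.mpr hK.1)
  obtain ⟨P₀, hP₀⟩ := hS.exists_sylow
  have hYc := (Cfsg.Agent.Lib.Helper4.isMulCommutative_iff Y).mp hYab
  -- c(s) ∈ Y
  have hc : ∀ s ∈ (T : Subgroup X), s⁻¹ * (y * s * y⁻¹) ∈ Y := by
    intro s hs
    have h1 := hYn.conj_mem ⟨y, hYT hy⟩ (Subgroup.mem_subgroupOf.mpr hy) ⟨s⁻¹, Subgroup.inv_mem _ hs⟩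
    rw [Subgroup.mem_subgroupOf] at h1
    have h2 : s⁻¹ * (y * s * y⁻¹) = (s⁻¹ * y * s⁻¹⁻¹) * y⁻¹ := by group
    rw [h2]
    exact Subgroup.mul_mem _ h1 (Subgroup.inv_mem _ hy)
  have key : ∀ s ∈ (T : Subgroup X) ⊓ K, ∀ t ∈ (T : Subgroup X) ⊓ K, ∀ k ∈ K,
      k * (s * t * s⁻¹ * t⁻¹) = (s * t * s⁻¹ * t⁻¹) * k := by
    intro s hs t ht k hk
    have hs' : y * s * y⁻¹ ∈ Ky := hKy ▸ ⟨s, hs.2, rfl⟩
    have ht' : y * t * y⁻¹ ∈ Ky := hKy ▸ ⟨t, ht.2, rfl⟩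
    have h1 := hYc _ (hc s hs.1) _ (hc t ht.1)
    have h2 := hcomm' t⁻¹ (Subgroup.inv_mem _ ht.2) _ hs'
    have h3 := hcomm' s⁻¹ (Subgroup.inv_mem _ hs.2) _ ht'
    have h4 : s * t * s⁻¹ * t⁻¹ = (y * t * y⁻¹) * (y * s * y⁻¹) * ((y * s * y⁻¹) * (y * t * y⁻¹))⁻¹ := by
      have e1 : s⁻¹ * t⁻¹ * ((y * s * y⁻¹) * (y * t * y⁻¹)) = t⁻¹ * s⁻¹ * ((y * t * y⁻¹) * (y * s * y⁻¹)) := by
        calc s⁻¹ * t⁻¹ * ((y * s * y⁻¹) * (y * t * y⁻¹))
            = s⁻¹ * (t⁻¹ * (y * s * y⁻¹)) * (y * t * y⁻¹) := by simp only [mul_assoc]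
          _ = s⁻¹ * (y * s * y⁻¹) * (t⁻¹ * (y * t * y⁻¹)) := by rw [h2]; simp only [mul_assoc]
          _ = t⁻¹ * (y * t * y⁻¹) * (s⁻¹ * (y * s * y⁻¹)) := h1
          _ = t⁻¹ * (s⁻¹ * (y * t * y⁻¹)) * (y * s * y⁻¹) := by rw [h3]; simp only [mul_assoc]
          _ = _ := by simp only [mul_assoc]
      rw [eq_mul_inv_iff_mul_eq]
      have e2 := congrArg (fun w => s * t * w) e1
      calc s * t * s⁻¹ * t⁻¹ * (y * s * y⁻¹ * (y * t * y⁻¹))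
          = s * t * (s⁻¹ * t⁻¹ * (y * s * y⁻¹ * (y * t * y⁻¹))) := by simp only [mul_assoc]
        _ = s * t * (t⁻¹ * s⁻¹ * (y * t * y⁻¹ * (y * s * y⁻¹))) := e2
        _ = _ := by group
    have h5 : s * t * s⁻¹ * t⁻¹ ∈ Ky := by
      rw [h4]
      exact Subgroup.mul_mem _ (Subgroup.mul_mem _ ht' hs') (Subgroup.inv_mem _ (Subgroup.mul_mem _ hs' ht'))
    exact hcomm' k hk _ h5
  obtain ⟨g, hg⟩ := MulAction.exists_smul_eq (↥K ⧸ Subgroup.center ↥K)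
    (P₀.mapSurjective (QuotientGroup.mk'_surjective (Subgroup.center ↥K))) P
  rw [Cfsg.Agent.Lib.Helper4.isMulCommutative_iff]
  have hP1 : ∀ a ∈ (P : Subgroup (↥K ⧸ Subgroup.center ↥K)), ∃ s : K, s.1 ∈ (T : Subgroup X) ⊓ K ∧
      a = g * QuotientGroup.mk' _ s * g⁻¹ := by
    intro a ha
    rw [← hg, Sylow.smul_def, Sylow.pointwise_smul_def, Subgroup.mem_pointwise_smul_iff_inv_smul_mem,
      Sylow.coe_mapSurjective] at ha
    obtain ⟨s, hs, hsa⟩ := ha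
    refine ⟨s, ?_, ?_⟩
    · rw [SetLike.mem_coe, hP₀, Subgroup.mem_subgroupOf] at hs
      exact hs
    · rw [hsa]
      simp [MulAut.smul_def, mul_assoc]
  intro a ha b hb
  obtain ⟨s, hs, rfl⟩ := hP1 a ha
  obtain ⟨t, ht, rfl⟩ := hP1 b hb
  have h6 : QuotientGroup.mk' (Subgroup.center ↥K) s * QuotientGroup.mk' _ t
      = QuotientGroup.mk' _ t * QuotientGroup.mk' _ s := by
    rw [← map_mul, ← map_mul]
    apply QuotientGroup.eq.mpr
    rw [Subgroup.mem_center_iff]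
    intro k
    apply Subtype.ext
    have := key _ (Subgroup.inv_mem _ ht) _ (Subgroup.inv_mem _ hs) k.1 k.2
    simpa [mul_assoc] using this
  calc _ = g * (QuotientGroup.mk' (Subgroup.center ↥K) s * QuotientGroup.mk' _ t) * g⁻¹ := by group
    _ = g * (QuotientGroup.mk' (Subgroup.center ↥K) t * QuotientGroup.mk' _ s) * g⁻¹ := by rw [h6]
    _ = _ := by group

end Cfsg.Agent.S2925
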