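import Cfsg.Statements.S2939
import Cfsg.Agent.Lib.Helper16.WC

set_option autoImplicit false
open Cfsg

namespace Cfsg.Agent.S2939

open Cfsg.Agent.Lib.Helper16

theorem sylowMembers_conj {G : Type*} [Group G] [Finite G] {p : ℕ} [Fact p.Prime] {𝓕 : Set (Subgroup G)}
    (h𝓕 : Cfsg.IsNormalSet 𝓕) {P X : Subgroup G} (hX : X ∈ Cfsg.sylowMembers p 𝓕 P) (k : G) :
    X.map (MulAut.conj k).toMonoidHom ∈ Cfsg.sylowMembers p 𝓕 (P.map (MulAut.conj k).toMonoidHom) := by
  obtain ⟨hX𝓕, Y, hY⟩ := hX
  have h1 : SylIn p (P ⊓ X) X := hY ▸ sylIn_of_sylow Y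
  have h2 := h1.map_conj k
  rw [Subgroup.map_inf _ _ _ (MulAut.conj k).injective] at h2
  refine ⟨?_, ?_⟩
  · have := h𝓕 X hX𝓕 k⁻¹
    unfold Cfsg.subgroupConjRight at this
    rwa [inv_inv] at this
  · obtain ⟨Y', hY'⟩ := h2.exists_sylow_map
    exact ⟨Y', hY'⟩

theorem take_prod_succ {G : Type*} [Group G] {n : ℕ} (y : Fin n → G) (i : Fin n) :
    ((List.ofFn y).take (i.val + 1)).prod = ((List.ofFn y).take i.val).prod * y i := by
  rw [List.prod_take_succ _ _ (by simp)]
  simp

theorem take_prod_last {G : Type*} [Group G] {n : ℕ} (y : Fin n → G) :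
    ((List.ofFn y).take n).prod = (List.ofFn y).prod := by
  rw [List.take_of_length_le (by simp)]


/-- Let p be a prime dividing the order of the finite group G and 𝓕 a family of subgroups of G closed under conjugation, with conjugates taken as X^g = g⁻¹Xg. Then 𝓕 controls Sylow p-intersections in G (any two distinct Sylow p-subgroups S and T with S ∩ T ≠ 1 are joined by a chain S = S₀, S₁, …, Sₙ = T of Sylow p-subgroups where, for each i, some member Xᵢ of 𝓕 meets both S_{i-1} and Sᵢ in Sylow p-subgroups of Xᵢ, satisfies S ∩ T ≤ Sᵢ ∩ Xᵢ, and contains an element xᵢ with Sᵢ^{xᵢ} = S_{i-1}) if and only if 𝓕 strongly controls p-fusion in G (whenever A is a subset of a Sylow p-subgroup S, A contains an element other than 1, and A^g ⊆ S, the element g factorises as g = y₁⋯yₙy with y ∈ N_G(S) and each yᵢ in a member Yᵢ of 𝓕 that meets S in a Sylow p-subgroup of Yᵢ, with A^{y₁⋯yᵢ} ⊆ S ∩ Yᵢ for each i). -/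
theorem result {G : Type*} [Group G] [Finite G] {p : ℕ} [Fact p.Prime] (hdiv : p ∣ Nat.card G) (𝓕 : Set (Subgroup G)) (h𝓕 : Cfsg.IsNormalSet 𝓕) : Cfsg.ControlsSylowIntersections p 𝓕 ↔ Cfsg.FamilyStronglyControlsFusion p 𝓕 := by
  constructor
  · intro hc S A g hA hne hAg
    obtain ⟨a₀, ha₀, ha₀1⟩ := hne
    obtain ⟨T, hT⟩ := ((sylIn_top S).conj_of_mem (g := g)
      (by rw [Subgroup.normalizer_eq_top]; exact Subgroup.mem_top _)).toSylow_top
    have hAT : ∀ a ∈ A, a ∈ (T : Subgroup G) := by
      intro a ha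
      rw [hT, mem_conj]
      exact hAg ⟨a, ha, rfl⟩
    by_cases hST : S = T
    · refine ⟨0, Fin.elim0, Fin.elim0, g, ?_, fun i => i.elim0, by simp, fun i => i.elim0⟩
      rw [mem_normalizer_iff_conj_eq, ← hT, ← hST]
    · have hint : (S : Subgroup G) ⊓ (T : Subgroup G) ≠ ⊥ := by
        intro e
        have : a₀ ∈ (S : Subgroup G) ⊓ (T : Subgroup G) := ⟨hA ha₀, hAT a₀ ha₀⟩
        rw [e, Subgroup.mem_bot] at this
        exact ha₀1 this
      obtain ⟨n, c, X, x, h0, hl, hall⟩ := hc S T hST hint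
      let w : Fin (n + 1) → G := fun i => Fin.induction (motive := fun _ => G) 1 (fun i wi => x i * wi) i
      have hw0 : w 0 = 1 := rfl
      have hws : ∀ i : Fin n, w i.succ = x i * w i.castSucc := fun i => by
        simp only [w, Fin.induction_succ]
      let y : Fin n → G := fun i => (w i.castSucc)⁻¹ * x i * w i.castSucc
      have hprod : ∀ i : Fin (n + 1), ((List.ofFn y).take i.val).prod = w i := by
        intro i
        induction i using Fin.induction with
        | zero => simp [hw0]
        | succ i ih =>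
          have h1 := take_prod_succ y i
          have h2 : (i.castSucc : Fin (n + 1)).val = i.val := rfl
          rw [h2] at ih
          have h3 : (i.succ : Fin (n + 1)).val = i.val + 1 := rfl
          rw [h3, h1, ih, hws]
          simp only [y]
          group
      have hcS : ∀ i : Fin (n + 1), (c i : Subgroup G).map (MulAut.conj (w i)⁻¹).toMonoidHom = S := by
        intro i
        induction i using Fin.induction with
        | zero => rw [hw0, inv_one, conj_one, h0]
        | succ i ih =>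
          have h4 := (hall i).2.2.2.1
          unfold Cfsg.subgroupConjRight at h4
          rw [hws, mul_inv_rev, ← conj_conj, h4, ih]
      refine ⟨n, fun i => (X i).map (MulAut.conj (w i.castSucc)⁻¹).toMonoidHom, y, (w (Fin.last n))⁻¹ * g,
        ?_, fun i => ⟨?_, ?_⟩, ?_, fun i => ?_⟩
      · rw [mem_normalizer_iff_conj_eq, ← conj_conj, ← hT, ← hl, hcS]
      · have := sylowMembers_conj h𝓕 (hall i).1 (w i.castSucc)⁻¹
        rwa [hcS] at this
      · exact ⟨x i, (hall i).2.2.1, by simp [y]⟩
      · have := hprod (Fin.last n)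
        rw [Fin.val_last, take_prod_last] at this
        rw [this]; simp
      · have h1 := hprod i.succ
        have h3 : (i.succ : Fin (n + 1)).val = i.val + 1 := rfl
        rw [h3] at h1
        rw [h1]
        rintro _ ⟨a, ha, rfl⟩
        have ha' := (hall i).2.2.2.2 ⟨hA ha, hAT a ha⟩
        constructor
        · have : (w i.succ)⁻¹ * a * (w i.succ)⁻¹⁻¹ ∈ (c i.succ : Subgroup G).map (MulAut.conj (w i.succ)⁻¹).toMonoidHom :=
            ⟨a, ha'.1, rfl⟩
          rw [hcS, inv_inv] at this
          exact this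
        · refine ⟨(x i)⁻¹ * a * x i, (X i).mul_mem ((X i).mul_mem ((X i).inv_mem (hall i).2.2.1) ha'.2) (hall i).2.2.1, ?_⟩
          rw [hws]
          simp [mul_assoc]
  · intro hf S T hST hint
    obtain ⟨g, _, hg⟩ := (sylIn_top S).exists_conj (sylIn_top T)
    obtain ⟨⟨a₀, ha₀⟩, ha₀1⟩ := Subgroup.ne_bot_iff_exists_ne_one.mp hint
    obtain ⟨n, Y, y, y₀, hy₀, hY, hgy, hA⟩ := hf S (((S : Subgroup G) ⊓ (T : Subgroup G) : Subgroup G) : Set G) g
      (fun a ha => ha.1) ⟨a₀, ha₀, fun e => ha₀1 (Subtype.ext e)⟩ (by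
        rintro _ ⟨a, ha, rfl⟩
        have h7 : a ∈ (T : Subgroup G) := ha.2
        rw [hg, mem_conj] at h7
        exact h7)
    have hex : ∀ k : G, ∃ P : Sylow p G, (P : Subgroup G) = (S : Subgroup G).map (MulAut.conj k).toMonoidHom :=
      fun k => ((sylIn_top S).conj_of_mem (g := k)
        (by rw [Subgroup.normalizer_eq_top]; exact Subgroup.mem_top _)).toSylow_top
    choose cs hcs using hex
    let W : Fin (n + 1) → G := fun i => ((List.ofFn y).take i.val).prod
    have hW0 : W 0 = 1 := by simp [W]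
    have hWs : ∀ i : Fin n, W i.succ = W i.castSucc * y i := fun i => take_prod_succ y i
    have hWl : W (Fin.last n) = (List.ofFn y).prod := take_prod_last y
    have hXe : ∀ i : Fin n, (Y i).map (MulAut.conj (W i.succ)).toMonoidHom =
        (Y i).map (MulAut.conj (W i.castSucc)).toMonoidHom := by
      intro i
      rw [hWs, ← conj_conj, conj_eq_of_mem_normalizer (Subgroup.le_normalizer (hY i).2)]
    refine ⟨n, fun i => cs (W i), fun i => (Y i).map (MulAut.conj (W i.castSucc)).toMonoidHom,
      fun i => W i.castSucc * y i * (W i.castSucc)⁻¹, ?_, ?_, fun i => ⟨?_, ?_, ?_, ?_, ?_⟩⟩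
    · apply Sylow.ext
      rw [hcs, hW0, conj_one]
    · apply Sylow.ext
      rw [hcs, hWl, hg]
      have h1 : (List.ofFn y).prod = g * y₀⁻¹ := by rw [hgy]; simp
      rw [h1, ← conj_conj, conj_eq_of_mem_normalizer (Subgroup.inv_mem _ hy₀)]
    · rw [hcs]
      exact sylowMembers_conj h𝓕 (hY i).1 _
    · show (Y i).map (MulAut.conj (W i.castSucc)).toMonoidHom ∈ _
      rw [hcs, ← hXe]
      exact sylowMembers_conj h𝓕 (hY i).1 _
    · exact ⟨y i, (hY i).2, rfl⟩
    · unfold Cfsg.subgroupConjRight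
      rw [hcs, hcs, conj_conj, hWs]
      congr 3
      group
    · intro a ha
      have h1 := hA i ⟨a, ha, rfl⟩
      have h2 : ((List.ofFn y).take (i.val + 1)).prod = W i.succ := rfl
      rw [h2] at h1
      refine ⟨?_, ?_⟩
      · rw [hcs]
        exact mem_conj.mpr h1.1
      · show a ∈ (Y i).map (MulAut.conj (W i.castSucc)).toMonoidHom
        rw [← hXe]
        exact mem_conj.mpr h1.2

end Cfsg.Agent.S2939
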