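import Cfsg.Statements.S2940
import Cfsg.Agent.Lib.Helper16.Syl

set_option autoImplicit false
open Cfsg

namespace Cfsg.Agent.S2940

open Cfsg.Agent.Lib.Helper16


/-- Let S be a Sylow p-subgroup of the finite group G and G₁, G₂ subgroups containing S with G = G₁G₂. Then for every g ∈ G there is a Sylow p-subgroup U of G with S ∩ S^g ≤ U ≤ G₁ ∩ G₂^g (conjugates taken as X^g = g⁻¹Xg). -/
theorem result {G : Type*} [Group G] [Finite G] {p : ℕ} [Fact p.Prime] (S : Sylow p G) (G₁ G₂ : Subgroup G) (h1 : (S : Subgroup G) ≤ G₁) (h2 : (S : Subgroup G) ≤ G₂) (hfact : ∀ g : G, ∃ g₁ ∈ G₁, ∃ g₂ ∈ G₂, g = g₁ * g₂) (g : G) : ∃ U : Sylow p G, (S : Subgroup G) ⊓ Cfsg.subgroupConjRight g (S : Subgroup G) ≤ (U : Subgroup G) ∧ (U : Subgroup G) ≤ G₁ ⊓ Cfsg.subgroupConjRight g G₂ := by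
  unfold subgroupConjRight
  obtain ⟨g₁, hg₁, g₂, hg₂, hg⟩ := hfact g⁻¹
  have hS1 : (S : Subgroup G).map (MulAut.conj g₁).toMonoidHom ≤
      G₁ ⊓ G₂.map (MulAut.conj g⁻¹).toMonoidHom := by
    apply le_inf
    · exact conj_le_of_le_of_mem h1 hg₁
    · rw [hg, ← conj_conj, conj_eq_of_mem_normalizer (Subgroup.le_normalizer hg₂)]
      exact conj_mono h2 g₁
  have hQ : IsPGroup p ↥((S : Subgroup G) ⊓ (S : Subgroup G).map (MulAut.conj g⁻¹).toMonoidHom) :=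
    S.2.to_le inf_le_left
  obtain ⟨T, hT, hQT⟩ := exists_sylIn_ge hQ (inf_le_inf h1 (conj_mono h2 _))
  have hTt : SylIn p T ⊤ := sylIn_of_card_ge (sylIn_top S) hT.2.1 le_top (by
    rw [← card_conj (S : Subgroup G) g₁]
    exact hT.card_le (isPGroup_conj S.2 g₁) hS1)
  obtain ⟨U, hU⟩ := hTt.toSylow_top
  exact ⟨U, hU ▸ hQT, hU ▸ hT.1⟩

end Cfsg.Agent.S2940
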