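import Cfsg.Statements.S2955
import Cfsg.Agent.Lib.Helper16.WC

set_option autoImplicit false
open Cfsg

namespace Cfsg.Agent.S2955

open Cfsg.Agent.Lib.Helper16
open scoped commutatorElement


/-- Let p be a prime dividing the order of the finite group G and 𝓕 a conjugation-closed family of subgroups that controls Sylow p-intersections in G. Suppose the Sylow p-subgroups of G are chain-connected: any two of them are joined by a chain of Sylow p-subgroups, consecutive ones distinct with nontrivial intersection, all containing the intersection of the two ends (equivalently, the graph on the Sylow p-subgroups whose edges are the distinct pairs meeting nontrivially is connected). Then for every Sylow p-subgroup S, G is generated by N_G(S) together with the members of 𝓕 that meet S in a Sylow p-subgroup of themselves. -/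
theorem result {G : Type*} [Group G] [Finite G] (p : ℕ) [Fact p.Prime] (hdiv : p ∣ Nat.card G)
    (𝓕 : Set (Subgroup G)) (h𝓕 : Cfsg.IsNormalSet 𝓕) (hc : Cfsg.ControlsSylowIntersections p 𝓕)
    (hconn : Cfsg.IsSylowChainConnected p G) (S : Sylow p G) :
    (⨆ X ∈ Cfsg.sylowMembers p 𝓕 (S : Subgroup G), X) ⊔ Subgroup.normalizer ((S : Subgroup G) : Set G) = ⊤ := by
  set K : Subgroup G := (⨆ X ∈ Cfsg.sylowMembers p 𝓕 (S : Subgroup G), X) ⊔
    Subgroup.normalizer ((S : Subgroup G) : Set G) with hK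
  let Rel : Sylow p G → Prop := fun P => ∃ k ∈ K, (P : Subgroup G) = (S : Subgroup G).map (MulAut.conj k).toMonoidHom
  have step : ∀ (P P' : Sylow p G) (X : Subgroup G) (x : G), Rel P →
      X ∈ Cfsg.sylowMembers p 𝓕 (P : Subgroup G) → x ∈ X →
      Cfsg.subgroupConjRight x (P' : Subgroup G) = (P : Subgroup G) → Rel P' := by
    rintro P P' X x ⟨k, hk, hP⟩ ⟨hX𝓕, Y, hY⟩ hx hxP
    have h1 : SylIn p ((P : Subgroup G) ⊓ X) X := hY ▸ sylIn_of_sylow Y
    have h2 := h1.map_conj k⁻¹
    rw [Subgroup.map_inf _ _ _ (MulAut.conj k⁻¹).injective, hP, conj_inv_conj] at h2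
    have h3 : X.map (MulAut.conj k⁻¹).toMonoidHom ∈ Cfsg.sylowMembers p 𝓕 (S : Subgroup G) := by
      refine ⟨h𝓕 X hX𝓕 k, ?_⟩
      obtain ⟨Y', hY'⟩ := h2.exists_sylow_map
      exact ⟨Y', hY'⟩
    have h4 : X.map (MulAut.conj k⁻¹).toMonoidHom ≤ K :=
      le_trans (le_iSup₂ (f := fun (X : Subgroup G) (_ : X ∈ Cfsg.sylowMembers p 𝓕 (S : Subgroup G)) => X) _ h3)
        le_sup_left
    have h5 : x ∈ K := by
      have h6 : k⁻¹ * x * k⁻¹⁻¹ ∈ K := h4 ⟨x, hx, rfl⟩
      have := K.mul_mem (K.mul_mem hk h6) (K.inv_mem hk)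
      simpa [mul_assoc] using this
    refine ⟨x * k, K.mul_mem h5 hk, ?_⟩
    rw [← conj_conj, ← hP, ← hxP]
    unfold Cfsg.subgroupConjRight
    rw [conj_conj_inv]
  have chain : ∀ (n : ℕ) (c : Fin (n + 1) → Sylow p G),
      (∀ i : Fin n, Rel (c i.castSucc) → Rel (c i.succ)) → Rel (c 0) → Rel (c (Fin.last n)) := by
    intro n c hstep h0
    exact Fin.induction (motive := fun i => Rel (c i)) h0 (fun i ih => hstep i ih) (Fin.last n)
  have pair : ∀ P P' : Sylow p G, P ≠ P' → (P : Subgroup G) ⊓ (P' : Subgroup G) ≠ ⊥ → Rel P → Rel P' := by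
    intro P P' hne hint hP
    obtain ⟨n, c, X, x, h0, hl, hall⟩ := hc P P' hne hint
    rw [← hl]
    apply chain n c _ (h0 ▸ hP)
    intro i hi
    obtain ⟨h1, _, h3, h4, _⟩ := hall i
    exact step _ _ (X i) (x i) hi h1 h3 h4
  have hS : Rel S := ⟨1, K.one_mem, (conj_one _).symm⟩
  rw [eq_top_iff]
  intro g _
  obtain ⟨T, hT⟩ := ((sylIn_top S).conj_of_mem (g := g)
    (by rw [Subgroup.normalizer_eq_top]; exact Subgroup.mem_top _)).toSylow_top
  obtain ⟨n, c, h0, hl, _, hall⟩ := hconn S T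
  have hRT : Rel T := by
    rw [← hl]
    apply chain n c _ (h0 ▸ hS)
    intro i hi
    exact pair _ _ (hall i).1 (hall i).2 hi
  obtain ⟨k, hk, e⟩ := hRT
  have h2 : k⁻¹ * g ∈ Subgroup.normalizer ((S : Subgroup G) : Set G) := by
    rw [mem_normalizer_iff_conj_eq, ← conj_conj, ← hT, e, conj_inv_conj]
  have := K.mul_mem hk ((le_sup_right : _ ≤ K) h2)
  simpa using this

end Cfsg.Agent.S2955
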