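import Cfsg.Statements.S2957
import Cfsg.Agent.Lib.Helper12.SylChain

set_option autoImplicit false
open Cfsg
open Cfsg.Agent.Lib.Helper12

namespace Cfsg.Agent.S2957

/-- Let p be a prime dividing the order of the finite group G, f an equivariant assignment of a set of subgroups f(P) of P to every p-subgroup P, each normalized by N_G(P), and S a Sylow p-subgroup. If G = G₁G₂ for subgroups G₁, G₂ both containing S and both regular for f (in each Gᵢ, the family of normalizers in Gᵢ of the members of f(P), P a Sylow p-subgroup of Gᵢ, controls Sylow p-intersections), then G itself is regular for f. -/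
theorem result {G : Type*} [Group G] [Finite G] (p : ℕ) [Fact p.Prime] (hdiv : p ∣ Nat.card G)
    (f : Subgroup G → Set (Subgroup G)) (hf : Cfsg.IsNormalizerFunctor p f) (S : Sylow p G)
    (G₁ G₂ : Subgroup G) (h₁ : (S : Subgroup G) ≤ G₁) (h₂ : (S : Subgroup G) ≤ G₂)
    (hprod : ∀ g : G, ∃ g₁ ∈ G₁, ∃ g₂ ∈ G₂, g = g₁ * g₂)
    (hr₁ : Cfsg.IsFunctorRegular p f G₁) (hr₂ : Cfsg.IsFunctorRegular p f G₂) :
    Cfsg.IsFunctorRegular p f ⊤ := by
  have hS : IsSylIn p (S : Subgroup G) ⊤ := isSylIn_top S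
  have core : ∀ B D : Subgroup G, IsSylIn p B ⊤ → D ≤ S → D ≤ B → D ≠ ⊥ →
      Relation.ReflTransGen (AStep p f ⊤ D) (S : Subgroup G) B := by
    intro B D hB hDS hDB hD
    obtain ⟨g, -, hg⟩ := hB.exists_conj_eq hS
    obtain ⟨g1, hg1, g2, hg2, rfl⟩ := hprod g
    have hE1 : cj g1⁻¹ D ≤ G₁ := by
      calc cj g1⁻¹ D ≤ cj g1⁻¹ G₁ := cj_mono (hDS.trans h₁)
        _ = G₁ := cj_eq_of_mem (G₁.inv_mem hg1)
    have hE2 : cj g1⁻¹ D ≤ G₂ := by
      have h3 : D ≤ cj g1 (cj g2 (S : Subgroup G)) := by rw [← cj_mul, hg]; exact hDB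
      calc cj g1⁻¹ D ≤ cj g1⁻¹ (cj g1 (cj g2 (S : Subgroup G))) := cj_mono h3
        _ = cj g2 (S : Subgroup G) := cj_inv_cj _ _
        _ ≤ cj g2 G₂ := cj_mono h₂
        _ = G₂ := cj_eq_of_mem hg2
    have hDp : IsPGroup p D := S.2.to_le hDS
    obtain ⟨h, hh, hhE⟩ := (hS.of_le (le_inf h₁ h₂) le_top).exists_conj_le (le_inf hE1 hE2)
      (isPGroup_cj hDp _)
    obtain ⟨k, hk⟩ : ∃ k, k = h * g1⁻¹ := ⟨_, rfl⟩
    have hkD : cj k D ≤ S := by rw [hk, cj_mul]; exact hhE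
    have hkG1 : k ∈ G₁ := hk ▸ G₁.mul_mem hh.1 (G₁.inv_mem hg1)
    have c1 : Relation.ReflTransGen (AStep p f G₁ D) (S : Subgroup G) (cj k⁻¹ (S : Subgroup G)) := by
      refine regular_imp hf hr₁ (hS.of_le h₁ le_top) ?_ hDS (cj_le_iff.1 hkD) hD
      have := (hS.of_le h₁ le_top).cj k⁻¹
      rwa [cj_eq_of_mem (G₁.inv_mem hkG1)] at this
    have hkB : cj k B = cj (h * g2) (S : Subgroup G) := by
      rw [← hg, ← cj_mul, hk]
      congr 1
      group
    have c2 : Relation.ReflTransGen (AStep p f G₂ (cj k D)) (S : Subgroup G)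
        (cj (h * g2) (S : Subgroup G)) := by
      refine regular_imp hf hr₂ (hS.of_le h₂ le_top) ?_ hkD ?_ ?_
      · have := (hS.of_le h₂ le_top).cj (h * g2)
        rwa [cj_eq_of_mem (G₂.mul_mem hh.2 hg2)] at this
      · rw [← hkB]; exact cj_mono hDB
      · rwa [Ne, cj_eq_bot_iff]
    have c1' := rtg_lift (q := AStep p f ⊤ D) id (fun a b hab => hab.to_top hS h₁) c1
    have c2' := rtg_lift (q := AStep p f (cj k⁻¹ ⊤) (cj k⁻¹ (cj k D))) (cj k⁻¹)
      (fun a b hab => ((hab.to_top hS h₂).cj hf k⁻¹)) c2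
    rw [cj_top, cj_inv_cj, ← hkB, cj_inv_cj] at c2'
    exact c1'.trans c2'
  apply regular_of hf
  intro A B hA hB hne hint
  obtain ⟨a, -, ha⟩ := hA.exists_conj_eq hS
  have h1 := core (cj a⁻¹ B) (cj a⁻¹ (A ⊓ B)) (by have := hB.cj a⁻¹; rwa [cj_top] at this)
    (by
      have h3 : cj a⁻¹ (A ⊓ B) ≤ cj a⁻¹ A := cj_mono inf_le_left
      have h4 : cj a⁻¹ A = S := by rw [← ha, cj_inv_cj]
      rwa [h4] at h3) (cj_mono inf_le_right) (by rwa [Ne, cj_eq_bot_iff])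
  have h2 := rtg_lift (q := AStep p f (cj a ⊤) (cj a (cj a⁻¹ (A ⊓ B)))) (cj a)
    (fun x y h => h.cj hf a) h1
  rw [cj_top, cj_cj_inv, cj_cj_inv, ha] at h2
  exact h2

end Cfsg.Agent.S2957
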