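import Cfsg.Statements.S2958
import Cfsg.Agent.Lib.Helper16.Basic

set_option autoImplicit false
open Cfsg

namespace Cfsg.Agent.S2958

open Cfsg.Agent.Lib.Helper16


/-- Let X, A, B be subgroups of a group G such that G is generated by the conjugates of X and every conjugate of X is contained in A or in B. Then A = G or B = G. -/
theorem result {G : Type*} [Group G] (X A B : Subgroup G) (hgen : (⨆ g : G, X.map (MulAut.conj g).toMonoidHom) = ⊤) (hcover : ∀ g : G, X.map (MulAut.conj g).toMonoidHom ≤ A ∨ X.map (MulAut.conj g).toMonoidHom ≤ B) : A = ⊤ ∨ B = ⊤ := by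
  by_cases h : ∀ g : G, X.map (MulAut.conj g).toMonoidHom ≤ A
  · left
    rw [eq_top_iff, ← hgen]
    exact iSup_le h
  · right
    push Not at h
    obtain ⟨g0, hg0⟩ := h
    let C : Subgroup G := ⨆ g : {g : G // ¬ X.map (MulAut.conj g).toMonoidHom ≤ A},
      X.map (MulAut.conj (g : G)).toMonoidHom
    have hCB : C ≤ B := iSup_le fun g => (hcover g.1).resolve_left g.2
    have hAC : A ≤ Subgroup.normalizer (C : Set G) := by
      rw [Subgroup.le_normalizer_iff]
      intro a ha k hk
      have h1 : C.map (MulAut.conj a).toMonoidHom ≤ C := by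
        rw [Subgroup.map_iSup]
        apply iSup_le
        intro g
        rw [conj_conj]
        have hg : ¬ X.map (MulAut.conj (a * g.1)).toMonoidHom ≤ A := by
          intro hle
          apply g.2
          have := conj_le_of_le_of_mem hle (A.inv_mem ha)
          rw [conj_conj] at this
          simpa using this
        exact le_iSup (fun g : {g : G // ¬ X.map (MulAut.conj g).toMonoidHom ≤ A} =>
          X.map (MulAut.conj (g : G)).toMonoidHom) ⟨a * g.1, hg⟩
      exact h1 (conj_mem_conj hk)
    have hN : Subgroup.normalizer (C : Set G) = ⊤ := by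
      rw [eq_top_iff, ← hgen]
      apply iSup_le
      intro g
      by_cases hg : X.map (MulAut.conj g).toMonoidHom ≤ A
      · exact hg.trans hAC
      · exact (le_iSup (fun g : {g : G // ¬ X.map (MulAut.conj g).toMonoidHom ≤ A} =>
          X.map (MulAut.conj (g : G)).toMonoidHom) ⟨g, hg⟩).trans Subgroup.le_normalizer
    have hg0C : X.map (MulAut.conj g0).toMonoidHom ≤ C :=
      le_iSup (fun g : {g : G // ¬ X.map (MulAut.conj g).toMonoidHom ≤ A} =>
          X.map (MulAut.conj (g : G)).toMonoidHom) ⟨g0, hg0⟩
    rw [eq_top_iff]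
    refine le_trans ?_ hCB
    rw [← hgen]
    apply iSup_le
    intro g
    have h1 : g * g0⁻¹ ∈ Subgroup.normalizer (C : Set G) := by rw [hN]; trivial
    have h2 := conj_mono hg0C (g * g0⁻¹)
    rw [conj_conj, conj_eq_of_mem_normalizer h1] at h2
    simpa using h2

end Cfsg.Agent.S2958
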