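import Cfsg.Statements.S2963
import Mathlib

set_option autoImplicit false
open Cfsg

namespace Cfsg.Agent.S2963

open MulAction
open scoped Pointwise

/-- Let n be odd. If the symmetric group of degree n is a minimal parabolic group for the prime 2, that is, a Sylow 2-subgroup is not normal and lies in exactly one maximal subgroup, then n = 2^m + 1 for some natural number m. -/
theorem result (n : ℕ) (hn : Odd n) (h : Cfsg.IsPMinimal 2 (Equiv.Perm (Fin n))) : ∃ m : ℕ, n = 2 ^ m + 1 := by
  classical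
  obtain ⟨T⟩ : Nonempty (Sylow 2 (Equiv.Perm (Fin n))) := inferInstance
  obtain ⟨hnn, M, ⟨hM1, hM2⟩, hMu⟩ := h T
  have hodd2 : ∀ k : ℕ, Nat.card (Fin n) ≠ 2 * k := by
    intro k hk
    rw [Nat.card_eq_fintype_card, Fintype.card_fin] at hk
    obtain ⟨j, hj⟩ := hn
    omega
  have hfix : (fixedPoints ↥(T : Subgroup (Equiv.Perm (Fin n))) (Fin n)).Nonempty := by
    apply IsPGroup.nonempty_fixed_point_of_prime_not_dvd_card T.2
    rintro ⟨k, hk⟩
    exact hodd2 k hk
  obtain ⟨ω, hω⟩ := hfix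
  have hω' : ∀ t ∈ (T : Subgroup (Equiv.Perm (Fin n))), t ω = ω := fun t ht => hω ⟨t, ht⟩
  by_cases hx : ∃ x : Fin n, x ≠ ω
  · obtain ⟨x, hxω⟩ := hx
    set Δ : Set (Fin n) := orbit ↥(T : Subgroup (Equiv.Perm (Fin n))) x with hΔ
    obtain ⟨m, hm⟩ := IsPGroup.card_orbit T.2 x
    have hxΔ : x ∈ Δ := mem_orbit_self x
    have hωΔ : ω ∉ Δ := by
      rintro ⟨t, ht⟩
      apply hxω
      have h1 : (t : Equiv.Perm (Fin n)) x = ω := ht
      have h2 := hω' t t.2
      exact (t : Equiv.Perm (Fin n)).injective (h1.trans h2.symm)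
    have hT1 : (T : Subgroup (Equiv.Perm (Fin n))) ≤ stabilizer (Equiv.Perm (Fin n)) ({ω} : Set (Fin n)) := by
      intro t ht
      rw [mem_stabilizer_iff, Set.smul_set_singleton]
      congr 1
      exact hω' t ht
    have hT2 : (T : Subgroup (Equiv.Perm (Fin n))) ≤ stabilizer (Equiv.Perm (Fin n)) Δ := by
      intro t ht
      rw [mem_stabilizer_iff]
      exact smul_orbit (⟨t, ht⟩ : ↥(T : Subgroup (Equiv.Perm (Fin n)))) x
    have hc1 : IsCoatom (stabilizer (Equiv.Perm (Fin n)) ({ω} : Set (Fin n))) :=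
      Equiv.Perm.isCoatom_stabilizer (Set.singleton_nonempty ω) ⟨x, hxω⟩ (hodd2 _)
    have hc2 : IsCoatom (stabilizer (Equiv.Perm (Fin n)) Δ) :=
      Equiv.Perm.isCoatom_stabilizer ⟨x, hxΔ⟩ ⟨ω, hωΔ⟩ (hodd2 _)
    have heq : stabilizer (Equiv.Perm (Fin n)) ({ω} : Set (Fin n)) = stabilizer (Equiv.Perm (Fin n)) Δ :=
      (hMu _ ⟨hc1, hT1⟩).trans (hMu _ ⟨hc2, hT2⟩).symm
    by_cases hz : ∃ z : Fin n, z ∉ Δ ∧ z ≠ ω
    · exfalso
      obtain ⟨z, hzΔ, hzω⟩ := hz
      have h1 : Equiv.swap ω z ∈ stabilizer (Equiv.Perm (Fin n)) Δ := by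
        rw [mem_stabilizer_iff]
        ext y
        rw [Set.mem_smul_set]
        constructor
        · rintro ⟨w, hw, rfl⟩
          have : Equiv.swap ω z • w = w := by
            apply Equiv.swap_apply_of_ne_of_ne
            · rintro rfl; exact hωΔ hw
            · rintro rfl; exact hzΔ hw
          rw [this]; exact hw
        · intro hy
          refine ⟨y, hy, ?_⟩
          apply Equiv.swap_apply_of_ne_of_ne
          · rintro rfl; exact hωΔ hy
          · rintro rfl; exact hzΔ hy
      rw [← heq, mem_stabilizer_iff, Set.smul_set_singleton, Set.singleton_eq_singleton_iff] at h1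
      have h2 : Equiv.swap ω z • ω = z := Equiv.swap_apply_left ω z
      exact hzω (h2.symm.trans h1)
    · push Not at hz
      refine ⟨m, ?_⟩
      have h1 : (Set.univ : Set (Fin n)) = insert ω Δ := by
        ext y
        simp only [Set.mem_univ, Set.mem_insert_iff, true_iff]
        by_cases hy : y ∈ Δ
        · exact Or.inr hy
        · exact Or.inl (hz y hy)
      have h2 : (Set.univ : Set (Fin n)).ncard = Δ.ncard + 1 := by
        rw [h1, Set.ncard_insert_of_notMem hωΔ]
      rw [Set.ncard_univ, Nat.card_eq_fintype_card, Fintype.card_fin, ← Nat.card_coe_set_eq] at h2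
      rw [h2, ← hm]
  · exfalso
    push Not at hx
    apply hnn
    refine ⟨fun a ha g => ?_⟩
    have : g = 1 := by
      ext i
      rw [hx (g i), Equiv.Perm.one_apply, hx i]
    rw [this]
    simpa using ha

end Cfsg.Agent.S2963
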