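import Cfsg.Statements.S2998
import Cfsg.Agent.Lib.Helper17.Basic
import Cfsg.Agent.Lib.Helper17.PiClosed3
import Cfsg.Agent.Lib.Helper12.Rel

set_option autoImplicit false
open Cfsg

namespace Cfsg.Agent.S2998

open Cfsg.Agent.Lib.Helper17 Cfsg.Agent.Lib.Helper12

theorem card_eq_map_mul {G : Type*} [Group G] (N W : Subgroup G) [N.Normal] :
    Nat.card W = Nat.card (W.map (QuotientGroup.mk' N)) * Nat.card ↥(N ⊓ W) := by
  have h := Subgroup.relIndex_mul_relIndex ⊥ (N ⊓ W) W bot_le inf_le_right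
  rw [Subgroup.relIndex_bot_left, Subgroup.relIndex_bot_left] at h
  rw [card_map_mk_eq, ← Subgroup.inf_relIndex_right, ← h, mul_comm]


/-- Let G be a finite group, p a prime, P a Sylow p-subgroup of G and x ∈ P an element such that N_G(R) ≤ C_G(x) for every nontrivial subgroup R of P. Then P ≤ C_G(x); every G-conjugate of x lying in P equals x (so g ∈ C_G(x) whenever g x g⁻¹ ∈ P); and for every normal subgroup N of G, the image of x in G ⧸ N has the same property with respect to the image of P: the normalizer of every nontrivial subgroup of the image of P centralizes the image of x. -/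
theorem result {G : Type*} [Group G] [Finite G] {p : ℕ} [Fact p.Prime] (P : Sylow p G) (x : G) (hxP : x ∈ (P : Subgroup G)) (hlc : ∀ R : Subgroup G, R ≤ (P : Subgroup G) → R ≠ ⊥ → Subgroup.normalizer (R : Set G) ≤ Subgroup.centralizer ({x} : Set G)) : (P : Subgroup G) ≤ Subgroup.centralizer ({x} : Set G) ∧ (∀ g : G, g * x * g⁻¹ ∈ (P : Subgroup G) → g * x * g⁻¹ = x) ∧ ∀ (N : Subgroup G) [N.Normal], ∀ R : Subgroup (G ⧸ N), R ≤ (P : Subgroup G).map (QuotientGroup.mk' N) → R ≠ ⊥ → Subgroup.normalizer (R : Set (G ⧸ N)) ≤ Subgroup.centralizer ({(QuotientGroup.mk x : G ⧸ N)} : Set (G ⧸ N)) := by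
  have hP1 : (P : Subgroup G) ≤ Subgroup.centralizer ({x} : Set G) := by
    by_cases hb : (P : Subgroup G) = ⊥
    · rw [hb]; exact bot_le
    · exact Subgroup.le_normalizer.trans (hlc _ le_rfl hb)
  refine ⟨hP1, ?_, ?_⟩
  · intro g hg
    by_cases hx1 : x = 1
    · rw [hx1]; group
    have hPb : (P : Subgroup G) ≠ ⊥ := by
      intro hb
      rw [hb, Subgroup.mem_bot] at hxP
      exact hx1 hxP
    have hx'1 : g * x * g⁻¹ ≠ 1 := by
      intro h
      apply hx1
      have : x = g⁻¹ * (g * x * g⁻¹) * g := by group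
      rw [this, h]; group
    have hR := hlc (Subgroup.zpowers (g * x * g⁻¹)) (Subgroup.zpowers_le.mpr hg)
      (by rw [Ne, Subgroup.zpowers_eq_bot]; exact hx'1)
    have hcj : cj g (P : Subgroup G) ≤ Subgroup.centralizer ({x} : Set G) := by
      refine le_trans ?_ hR
      rintro _ ⟨u, hu, rfl⟩
      apply mem_normalizer_of_map_conj_le
      rw [MonoidHom.map_zpowers, Subgroup.zpowers_le]
      have hux : u * x = x * u := Subgroup.mem_centralizer_singleton_iff.mp (hP1 hu)
      have : (MulAut.conj ((MulAut.conj g).toMonoidHom u)).toMonoidHom (g * x * g⁻¹) = g * x * g⁻¹ := by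
        show (g * u * g⁻¹) * (g * x * g⁻¹) * (g * u * g⁻¹)⁻¹ = g * x * g⁻¹
        calc (g * u * g⁻¹) * (g * x * g⁻¹) * (g * u * g⁻¹)⁻¹ = g * (u * x) * u⁻¹ * g⁻¹ := by group
          _ = g * x * g⁻¹ := by rw [hux]; group
      rw [this]
      exact Subgroup.mem_zpowers _
    have hS1 : IsSylIn p (P : Subgroup G) (Subgroup.centralizer ({x} : Set G)) :=
      (isSylIn_top P).of_le hP1 le_top
    have hS2 : IsSylIn p (cj g (P : Subgroup G)) (Subgroup.centralizer ({x} : Set G)) := by
      have h1 := (isSylIn_top P).cj g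
      rw [cj_eq_of_normal g ⊤] at h1
      exact h1.of_le hcj le_top
    obtain ⟨c, hc, hce⟩ := hS1.exists_conj_eq hS2
    rw [← cj_mul] at hce
    have h3 : c * g ∈ Subgroup.normalizer ((P : Subgroup G) : Set G) := mem_normalizer_iff_cj.mpr hce
    have h4 := hlc _ le_rfl hPb h3
    have h5 : g ∈ Subgroup.centralizer ({x} : Set G) := by
      have : g = c⁻¹ * (c * g) := by group
      rw [this]
      exact Subgroup.mul_mem _ (Subgroup.inv_mem _ hc) h4
    have h6 : g * x = x * g := Subgroup.mem_centralizer_singleton_iff.mp h5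
    rw [h6]; group
  · intro N _ Rb hRb hRb1 nb hnb
    obtain ⟨n, rfl⟩ := QuotientGroup.mk'_surjective N nb
    obtain ⟨K, hK⟩ : ∃ K : Subgroup G, K = Rb.comap (QuotientGroup.mk' N) := ⟨_, rfl⟩
    obtain ⟨R, hRdef⟩ : ∃ R : Subgroup G, R = (P : Subgroup G) ⊓ K := ⟨_, rfl⟩
    have hmemK : ∀ y : G, y ∈ K ↔ QuotientGroup.mk' N y ∈ Rb := by
      intro y; rw [hK]; exact Subgroup.mem_comap
    have hNK : N ≤ K := by
      intro y hy
      rw [hmemK]
      have h0 : QuotientGroup.mk' N y = 1 := (QuotientGroup.eq_one_iff y).mpr hy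
      rw [h0]
      exact Rb.one_mem
    have hRP : R ≤ (P : Subgroup G) := by rw [hRdef]; exact inf_le_left
    have hRK : R ≤ K := by rw [hRdef]; exact inf_le_right
    have hlift : ∀ r ∈ Rb, ∃ u ∈ R, QuotientGroup.mk' N u = r := by
      intro r hr
      obtain ⟨u, hu, hur⟩ := hRb hr
      refine ⟨u, ?_, hur⟩
      rw [hRdef]
      exact ⟨hu, (hmemK u).mpr (by rw [hur]; exact hr)⟩
    have hRne : R ≠ ⊥ := by
      intro hb
      apply hRb1
      rw [eq_bot_iff]
      intro r hr
      obtain ⟨u, hu, hur⟩ := hlift r hr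
      rw [hb, Subgroup.mem_bot] at hu
      rw [Subgroup.mem_bot, ← hur, hu, map_one]
    have hRp : IsPGroup p ↥R := P.isPGroup'.to_le hRP
    obtain ⟨T, hT, hRT⟩ := exists_isSylIn_ge (p := p) hRK hRp
    have hSN : IsSylIn p ((P : Subgroup G) ⊓ N) N :=
      (isSylIn_top P).inf_normal le_top (by rw [Subgroup.normalizer_eq_top]; )
    have hcard : Nat.card T ≤ Nat.card R := by
      rw [card_eq_map_mul N T, card_eq_map_mul N R]
      apply Nat.mul_le_mul
      · apply Subgroup.card_le_of_le
        rintro _ ⟨t, ht, rfl⟩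
        obtain ⟨u, hu, hur⟩ := hlift _ ((hmemK t).mp (hT.1 ht))
        exact ⟨u, hu, hur⟩
      · calc Nat.card ↥(N ⊓ T) ≤ Nat.card ↥((P : Subgroup G) ⊓ N) :=
              hSN.card_le inf_le_left (hT.2.1.to_le inf_le_right)
          _ ≤ Nat.card ↥(N ⊓ R) := by
              apply Subgroup.card_le_of_le
              intro y hy
              refine ⟨hy.2, ?_⟩
              rw [hRdef]
              exact ⟨hy.1, hNK hy.2⟩
    have hTR : R = T := Subgroup.eq_of_le_of_card_ge hRT hcard
    have hRS : IsSylIn p R K := by rw [hTR]; exact hT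
    have hnK : n ∈ Subgroup.normalizer (K : Set G) := by
      rw [Subgroup.mem_normalizer_iff]
      intro y
      rw [hmemK, hmemK, map_mul, map_mul, map_inv]
      exact Subgroup.mem_normalizer_iff.mp hnb _
    obtain ⟨k, hk, m, hm, hnkm⟩ := frattini_rel (p := p) (H := Subgroup.normalizer (K : Set G))
      Subgroup.le_normalizer le_rfl hRS hnK
    have hmx := hlc R hRP hRne hm.2
    obtain ⟨u, hu, huk⟩ := hlift _ ((hmemK k).mp hk)
    have hux := hP1 (hRP hu)
    rw [Subgroup.mem_centralizer_singleton_iff] at hmx hux ⊢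
    show QuotientGroup.mk' N n * QuotientGroup.mk' N x = QuotientGroup.mk' N x * QuotientGroup.mk' N n
    rw [hnkm, map_mul, ← huk, ← map_mul, ← map_mul, ← map_mul]
    congr 1
    calc u * m * x = u * (m * x) := by group
      _ = (u * x) * m := by rw [hmx]; group
      _ = x * (u * m) := by rw [hux]; group

end Cfsg.Agent.S2998
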