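import Cfsg.Statements.S3003
import Cfsg.Agent.Lib.Helper9.Generation

set_option autoImplicit false
open Cfsg

namespace Cfsg.Agent.S3003

open Subgroup in
theorem isCoatom_subgroupOf_of_relIndex_prime {G : Type*} [Group G] {H M : Subgroup G} {p : ℕ}
    (hidx : p.Prime) (hp : H.relIndex M = p) : IsCoatom (H.subgroupOf M) := by
  refine ⟨?_, ?_⟩
  · intro h
    rw [subgroupOf_eq_top] at h
    have h1 : H.relIndex M = 1 := relIndex_eq_one.mpr h
    rw [hp] at h1
    exact hidx.one_lt.ne' h1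
  · intro X hX
    have h1 := Subgroup.relIndex_mul_index hX.le
    have h2 : (H.subgroupOf M).index = p := hp
    rw [h2] at h1
    rcases (Nat.dvd_prime hidx).mp ⟨_, h1.symm⟩ with h3 | h3
    · exfalso
      rw [relIndex_eq_one] at h3
      exact absurd h3 (not_le_of_gt hX)
    · rw [h3] at h1
      have h4 : X.index = 1 := Nat.eq_of_mul_eq_mul_left hidx.pos (by rw [h1, mul_one])
      exact index_eq_one.mp h4

open Subgroup in

/-- Let G be a finite group, p a prime and Q a large p-subgroup of G: C_G(Q) ≤ Q and N_G(U) ≤ N_G(Q) for every nontrivial subgroup U of C_G(Q). Let Q ≤ G₁ ≤ G, let R be a subgroup of order prime to p normalized by G₁, and let U ≤ G₁ be a p-subgroup. If U contains a nontrivial element which is G₁-conjugate to an element of Z(Q), then C_R(U) = 1. In particular, if U is elementary abelian of order at least p² and every maximal subgroup of U contains a nontrivial element G₁-conjugate into Z(Q), then R = 1. -/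
theorem result {G : Type*} [Group G] [Finite G] {p : ℕ} [Fact p.Prime] (Q : Subgroup G) (hQp : IsPGroup p ↥Q) (hlarge : Cfsg.IsLarge Q) (G₁ : Subgroup G) (hQG : Q ≤ G₁) (R : Subgroup G) (hR : (Nat.card ↥R).Coprime p) (hGR : G₁ ≤ Subgroup.normalizer (R : Set G)) (U : Subgroup G) (hUG : U ≤ G₁) (hUp : IsPGroup p ↥U) : ((∃ x ∈ U, x ≠ 1 ∧ ∃ g ∈ G₁, g * x * g⁻¹ ∈ Q ⊓ Subgroup.centralizer (Q : Set G)) → R ⊓ Subgroup.centralizer (U : Set G) = ⊥) ∧ (Cfsg.IsElementaryAbelian p U → p ^ 2 ≤ Nat.card ↥U → (∀ U₀ : Subgroup G, U₀ ≤ U → IsCoatom (U₀.subgroupOf U) → ∃ x ∈ U₀, x ≠ 1 ∧ ∃ g ∈ G₁, g * x * g⁻¹ ∈ Q ⊓ Subgroup.centralizer (Q : Set G)) → R = ⊥) := by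
  have hp : p.Prime := Fact.out
  have hQR : Q ⊓ R = ⊥ := by
    apply Subgroup.inf_eq_bot_of_coprime
    obtain ⟨k, hk⟩ := IsPGroup.iff_card.mp hQp
    rw [hk]
    exact Nat.Coprime.pow_left k hR.symm
  have key0 : ∀ z : G, z ≠ 1 → z ∈ Q ⊓ centralizer (Q : Set G) → ∀ r ∈ R, r * z = z * r → r = 1 := by
    intro z hz1 hz r hr hrz
    obtain ⟨hzQ, hzC⟩ := Subgroup.mem_inf.mp hz
    have h1 : normalizer ((zpowers z : Subgroup G) : Set G) ≤ normalizer (Q : Set G) := by
      apply hlarge.2 _ (zpowers_le.mpr hzC)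
      intro h
      rw [zpowers_eq_bot] at h
      exact hz1 h
    have hrN : r ∈ normalizer (Q : Set G) := by
      apply h1
      apply centralizer_le_normalizer
      rw [mem_centralizer_iff]
      rintro _ ⟨n, rfl⟩
      have c : Commute r z := hrz
      exact (c.zpow_right n).symm
    have hrC : r ∈ centralizer (Q : Set G) := by
      rw [mem_centralizer_iff]
      intro q hq
      have h2 : r * q * r⁻¹ * q⁻¹ ∈ Q ⊓ R := by
        refine Subgroup.mem_inf.mpr ⟨?_, ?_⟩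
        · exact mul_mem ((mem_normalizer_iff.mp hrN q).mp hq) (inv_mem hq)
        · have h3 : r * q * r⁻¹ * q⁻¹ = r * (q * r⁻¹ * q⁻¹) := by group
          rw [h3]
          exact mul_mem hr ((mem_normalizer_iff.mp (hGR (hQG hq)) r⁻¹).mp (inv_mem hr))
      rw [hQR, mem_bot] at h2
      calc q * r = (r * q * r⁻¹ * q⁻¹)⁻¹ * (r * q) := by group
        _ = r * q := by rw [h2]; simp
    have h4 : r ∈ Q ⊓ R := Subgroup.mem_inf.mpr ⟨hlarge.1 hrC, hr⟩
    rw [hQR, mem_bot] at h4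
    exact h4
  have key : ∀ x : G, x ≠ 1 → (∃ g ∈ G₁, g * x * g⁻¹ ∈ Q ⊓ centralizer (Q : Set G)) →
      ∀ r ∈ R, r * x = x * r → r = 1 := by
    rintro x hx1 ⟨g, hg, hgx⟩ r hr hrx
    have h1 : g * r * g⁻¹ = 1 := by
      apply key0 (g * x * g⁻¹) _ hgx _ ((mem_normalizer_iff.mp (hGR hg) r).mp hr)
      · calc g * r * g⁻¹ * (g * x * g⁻¹) = g * (r * x) * g⁻¹ := by group
          _ = g * (x * r) * g⁻¹ := by rw [hrx]
          _ = g * x * g⁻¹ * (g * r * g⁻¹) := by group
      · intro h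
        apply hx1
        calc x = g⁻¹ * (g * x * g⁻¹) * g := by group
          _ = 1 := by rw [h]; group
    calc r = g⁻¹ * (g * r * g⁻¹) * g := by group
      _ = 1 := by rw [h1]; group
  have key2 : ∀ B : Subgroup G, (∃ x ∈ B, x ≠ 1 ∧ ∃ g ∈ G₁, g * x * g⁻¹ ∈ Q ⊓ centralizer (Q : Set G)) →
      R ⊓ centralizer (B : Set G) = ⊥ := by
    rintro B ⟨x, hxB, hx1, hg⟩
    rw [eq_bot_iff]
    intro r hr
    obtain ⟨hrR, hrC⟩ := Subgroup.mem_inf.mp hr
    rw [mem_bot]
    exact key x hx1 hg r hrR ((mem_centralizer_iff.mp hrC) x hxB).symm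
  refine ⟨key2 U, ?_⟩
  intro hU hcard hall
  have hpR : ¬ p ∣ Nat.card R := by
    rw [← Nat.Prime.coprime_iff_not_dvd hp]; exact hR.symm
  have hle : p ≤ Nat.card U := le_trans (by nlinarith [hp.one_lt]) hcard
  have hgen := Cfsg.Agent.Lib.Helper9.gen_hyperplanes p U R hU hle hpR (hUG.trans hGR)
  rw [hgen, eq_bot_iff]
  apply iSup_le
  rintro ⟨B, hBU, hBi⟩
  rw [key2 B (hall B hBU (isCoatom_subgroupOf_of_relIndex_prime hp hBi))]

end Cfsg.Agent.S3003
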