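import Cfsg.Statements.S3006
import Cfsg.Agent.Lib.Helper17.CL

set_option autoImplicit false
open scoped Pointwise
open Cfsg

namespace Cfsg.Agent.S3006

open Cfsg.Agent.Lib.Helper17

/-- Let P be a finite p-group, Q a centrally large subgroup of P (|Q|·|Z(Q)| maximal among subgroups of P) and A an abelian subgroup of P of largest order. Then QA = AQ is a centrally large subgroup of P, C_{QA}(Q ∩ A) = Z(Q)·A, and the subgroup generated by all centrally large subgroups of P contains C_P(Z(J(P))), where J(P) is generated by the abelian subgroups of largest order. -/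
theorem result {p : ℕ} [Fact p.Prime] (P : Type*) [Group P] [Finite P] (hP : IsPGroup p P) (Q A : Subgroup P) (hQ : Cfsg.IsCentrallyLarge Q) (hA : A ∈ Cfsg.maxAbelianSubgroups P) : ((Q ⊔ A : Subgroup P) : Set P) = (Q : Set P) * (A : Set P) ∧ Cfsg.IsCentrallyLarge (Q ⊔ A) ∧ (Q ⊔ A) ⊓ Subgroup.centralizer ((Q ⊓ A : Subgroup P) : Set P) = (Q ⊓ Subgroup.centralizer (Q : Set P)) ⊔ A ∧ (((Q ⊓ Subgroup.centralizer (Q : Set P)) ⊔ A : Subgroup P) : Set P) = ((Q ⊓ Subgroup.centralizer (Q : Set P)) : Set P) * (A : Set P) ∧ Subgroup.centralizer ((Cfsg.thompsonSubgroupA P ⊓ Subgroup.centralizer (Cfsg.thompsonSubgroupA P : Set P) : Subgroup P) : Set P) ≤ Cfsg.centrallyLargeJoin P := by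
  obtain ⟨h1, h2, h3⟩ := cl_sup_maxAbelian hQ hA
  obtain ⟨hQl, hQc⟩ := (cl_iff Q).mp hQ
  have hZ : Q ⊓ Subgroup.centralizer (Q : Set P) = Subgroup.centralizer (Q : Set P) := inf_eq_right.mpr hQc
  have hCA := centralizer_maxAbelian hA
  have hCB := centralizer_maxAbelian h3
  have hAc : IsMulCommutative A := hA.1
  -- key: every element of (Q ⊔ A) ⊓ C(Q ⊓ A) is in C(Q) * A
  have key : ∀ x ∈ (Q ⊔ A) ⊓ Subgroup.centralizer ((Q ⊓ A : Subgroup P) : Set P),
      x ∈ ((Subgroup.centralizer (Q : Set P) : Subgroup P) : Set P) * (A : Set P) := by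
    intro x hx
    obtain ⟨hx1, hx2⟩ := Subgroup.mem_inf.mp hx
    have hx1' : x ∈ ((Q ⊔ A : Subgroup P) : Set P) := hx1
    rw [h1] at hx1'
    obtain ⟨u, hu, v, hv, rfl⟩ := hx1'
    have hvc : v ∈ Subgroup.centralizer ((Q ⊓ A : Subgroup P) : Set P) := by
      have : A ≤ Subgroup.centralizer ((Q ⊓ A : Subgroup P) : Set P) := by
        calc A ≤ Subgroup.centralizer (A : Set P) := Subgroup.le_centralizer_iff_isMulCommutative.mpr hAc
          _ ≤ _ := Subgroup.centralizer_le (by exact_mod_cast (inf_le_right : Q ⊓ A ≤ A))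
      exact this hv
    have huc : u ∈ Subgroup.centralizer ((Q ⊓ A : Subgroup P) : Set P) := by
      have : u = (u * v) * v⁻¹ := by group
      rw [this]
      exact Subgroup.mul_mem _ hx2 (Subgroup.inv_mem _ hvc)
    have huB : u ∈ (Q ⊓ A) ⊔ Subgroup.centralizer (Q : Set P) := by
      rw [← hCB, centralizer_sup_eq]
      exact Subgroup.mem_inf.mpr ⟨huc, le_centralizer_centralizer' Q hu⟩
    have hcoe : (((Subgroup.centralizer (Q : Set P)) ⊔ (Q ⊓ A) : Subgroup P) : Set P)
        = ((Subgroup.centralizer (Q : Set P) : Subgroup P) : Set P) * ((Q ⊓ A : Subgroup P) : Set P) := by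
      apply Subgroup.coe_mul_of_left_le_normalizer_right
      calc Subgroup.centralizer (Q : Set P) ≤ Subgroup.centralizer ((Q ⊓ A : Subgroup P) : Set P) :=
            Subgroup.centralizer_le (by exact_mod_cast (inf_le_left : Q ⊓ A ≤ Q))
        _ ≤ _ := Subgroup.centralizer_le_normalizer _
    rw [sup_comm] at huB
    have huB' : u ∈ (((Subgroup.centralizer (Q : Set P)) ⊔ (Q ⊓ A) : Subgroup P) : Set P) := huB
    rw [hcoe] at huB'
    obtain ⟨z, hz, d, hd, rfl⟩ := huB'
    refine ⟨z, hz, d * v, A.mul_mem (Subgroup.mem_inf.mp hd).2 hv, by group⟩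
  have hge : (Subgroup.centralizer (Q : Set P)) ⊔ A ≤ (Q ⊔ A) ⊓ Subgroup.centralizer ((Q ⊓ A : Subgroup P) : Set P) := by
    apply sup_le
    · exact le_inf (hQc.trans le_sup_left) (Subgroup.centralizer_le (by exact_mod_cast (inf_le_left : Q ⊓ A ≤ Q)))
    · apply le_inf le_sup_right
      calc A ≤ Subgroup.centralizer (A : Set P) := Subgroup.le_centralizer_iff_isMulCommutative.mpr hAc
        _ ≤ _ := Subgroup.centralizer_le (by exact_mod_cast (inf_le_right : Q ⊓ A ≤ A))
  rw [hZ]
  refine ⟨h1, h2, ?_, ?_, ?_⟩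
  · apply le_antisymm _ hge
    intro x hx
    exact mul_set_subset_sup _ _ (key x hx)
  · have hZs : ((Q : Set P) ⊓ ((Subgroup.centralizer (Q : Set P) : Subgroup P) : Set P)) = ((Subgroup.centralizer (Q : Set P) : Subgroup P) : Set P) :=
      inf_eq_right.mpr (SetLike.coe_subset_coe.mpr hQc)
    rw [hZs]
    apply Set.Subset.antisymm _ (mul_set_subset_sup _ _)
    intro x hx
    exact key x (hge hx)
  · apply thompsonA_le_of_cl_top cl_centrallyLargeJoin
    apply sSup_le
    intro B hB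
    have := (cl_sup_maxAbelian (cl_centrallyLargeJoin (G := P)) hB).2.1
    exact le_sup_right.trans (le_sSup this)

end Cfsg.Agent.S3006
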