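import Cfsg.Statements.S3011
import Cfsg.Agent.Lib.Helper17.Sidki

set_option autoImplicit false
open Cfsg

namespace Cfsg.Agent.S3011


/-- Let G be a finite group and V a nontrivial elementary abelian 2-subgroup of G of order at most 4 such that, whenever an element of V inverts an element h of G of odd order, some nontrivial element of V commutes with h. Then V meets O₂(G) nontrivially. (The case of order at most 4 has a short argument from the Baer–Suzuki theorem.) -/
theorem result {G : Type*} [Group G] [Finite G] (V : Subgroup G) (hV : Cfsg.IsElementaryAbelian 2 V) (hV1 : V ≠ ⊥) (hS : Cfsg.IsSidkiPair V) (h4 : Nat.card V ≤ 4) : V ⊓ Cfsg.pCore 2 G ≠ ⊥ := by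
  exact Cfsg.Agent.Lib.Helper17.sidki_le_four V hV hV1 hS h4

end Cfsg.Agent.S3011
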