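import Cfsg.Statements.S3012
import Mathlib

set_option autoImplicit false
open Cfsg

namespace Cfsg.Agent.S3012

theorem commute_of_commute_pow {G : Type*} [Group G] {w h : G} {k : ℕ} (hk : k.Coprime (orderOf h))
    (hc : w * h ^ k = h ^ k * w) : w * h = h * w := by
  obtain ⟨m, hm⟩ := exists_pow_eq_self_of_coprime hk
  have : Commute w ((h ^ k) ^ m) := Commute.pow_right hc m
  rw [hm] at this
  exact this


/-- Let G be a finite group, V a nontrivial elementary abelian 2-subgroup of G satisfying the Sidki pair condition (every odd-order element inverted by an element of V commutes with a nontrivial element of V), and K a normal subgroup of G with V ∩ K = 1. Then the image of V in G/K satisfies the Sidki pair condition in G/K. -/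
theorem result {G : Type*} [Group G] [Finite G] (V K : Subgroup G) [K.Normal] (hV : Cfsg.IsElementaryAbelian 2 V) (hV1 : V ≠ ⊥) (hS : Cfsg.IsSidkiPair V) (hVK : V ⊓ K = ⊥) : Cfsg.IsSidkiPair (V.map (QuotientGroup.mk' K)) := by
  intro h' v' hv' hodd hinv
  obtain ⟨v, hv, rfl⟩ := hv'
  obtain ⟨h0, rfl⟩ := QuotientGroup.mk'_surjective K h'
  have hv2 : v ^ 2 = 1 := hV.2 v hv
  have hvinv : v⁻¹ = v := by
    rw [inv_eq_iff_mul_eq_one, ← sq, hv2]
  set y := v * (h0 * v * h0⁻¹) with hy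
  have hyinv : v * y * v⁻¹ = y⁻¹ := by
    rw [hy, mul_inv_rev, mul_inv_rev, mul_inv_rev, inv_inv, hvinv]
    have : v * v = 1 := by rw [← sq, hv2]
    calc v * (v * (h0 * v * h0⁻¹)) * v = (v * v) * (h0 * v * h0⁻¹) * v := by group
      _ = h0 * (v * h0⁻¹) * v := by rw [this]; group
  obtain ⟨a, m, hm, ham⟩ := Nat.exists_eq_two_pow_mul_odd (orderOf_pos y).ne'
  set y' := y ^ (2 ^ a) with hy'
  have hy'odd : Odd (orderOf y') := by
    rw [hy', orderOf_pow_of_dvd (by positivity) (by rw [ham]; exact dvd_mul_right _ _), ham,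
      Nat.mul_div_cancel_left _ (by positivity)]
    exact hm
  have hy'inv : v * y' * v⁻¹ = y'⁻¹ := by
    rw [hy', ← conj_pow, hyinv, inv_pow]
  obtain ⟨w, hw, hw1, hwc⟩ := hS y' v hv hy'odd hy'inv
  refine ⟨QuotientGroup.mk' K w, ⟨w, hw, rfl⟩, ?_, ?_⟩
  · intro h1
    have hwK : w ∈ K := (QuotientGroup.eq_one_iff w).mp h1
    have : w ∈ V ⊓ K := Subgroup.mem_inf.mpr ⟨hw, hwK⟩
    rw [hVK, Subgroup.mem_bot] at this
    exact hw1 this
  · set hb := QuotientGroup.mk' K h0 with hhb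
    set vb := QuotientGroup.mk' K v with hvb
    set wb := QuotientGroup.mk' K w with hwb
    have e1 : QuotientGroup.mk' K y = (hb ^ 2)⁻¹ := by
      have hvbinv : vb⁻¹ = vb := by rw [hvb, ← map_inv, hvinv]
      rw [hy, map_mul, map_mul, map_mul, map_inv]
      calc vb * (hb * vb * hb⁻¹) = (vb * hb * vb⁻¹) * hb⁻¹ := by rw [hvbinv]; group
        _ = hb⁻¹ * hb⁻¹ := by rw [hinv]
        _ = (hb ^ 2)⁻¹ := by rw [sq, mul_inv_rev]
    have e2 : QuotientGroup.mk' K y' = (hb ^ (2 ^ (a + 1)))⁻¹ := by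
      rw [hy', map_pow, e1, inv_pow, ← pow_mul, pow_succ']
    have e3 : wb * (hb ^ (2 ^ (a + 1)))⁻¹ = (hb ^ (2 ^ (a + 1)))⁻¹ * wb := by
      rw [← e2, hwb, ← map_mul, ← map_mul, hwc]
    have e4 : wb * hb ^ (2 ^ (a + 1)) = hb ^ (2 ^ (a + 1)) * wb := by
      have : Commute wb (hb ^ (2 ^ (a + 1)))⁻¹ := e3
      exact (Commute.inv_right_iff.mp this)
    apply commute_of_commute_pow _ e4
    apply Nat.Coprime.pow_left
    exact (Nat.coprime_two_left).mpr hodd

end Cfsg.Agent.S3012
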