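import Cfsg.Statements.S3013
import Mathlib

set_option autoImplicit false
open Cfsg

namespace Cfsg.Agent.S3013

theorem commute_of_commute_pow {G : Type*} [Group G] {w h : G} {k : ℕ} (hk : k.Coprime (orderOf h))
    (hc : w * h ^ k = h ^ k * w) : w * h = h * w := by
  obtain ⟨m, hm⟩ := exists_pow_eq_self_of_coprime hk
  have : Commute w ((h ^ k) ^ m) := Commute.pow_right hc m
  rw [hm] at this
  exact this


/-- Let G be a finite group and V a nontrivial elementary abelian 2-subgroup of G satisfying the Sidki pair condition. Let v ∈ V and let x be an element of odd order inverted by v, and put C = C_G(v) ∩ C_G(x), the centralizer of the dihedral subgroup generated by v and x. Then C ∩ V is nontrivial and satisfies the Sidki pair condition inside C: every odd-order element of C inverted by an element of C ∩ V commutes with a nontrivial element of C ∩ V. -/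
theorem result {G : Type*} [Group G] [Finite G] (V : Subgroup G) (hV : Cfsg.IsElementaryAbelian 2 V) (hV1 : V ≠ ⊥) (hS : Cfsg.IsSidkiPair V) (v x : G) (hv : v ∈ V) (hx : Odd (orderOf x)) (hinv : v * x * v⁻¹ = x⁻¹) (C : Subgroup G) (hC : C = Subgroup.centralizer ({v} : Set G) ⊓ Subgroup.centralizer ({x} : Set G)) : C ⊓ V ≠ ⊥ ∧ Cfsg.IsSidkiPair ((C ⊓ V).subgroupOf C) := by
  have hVc : ∀ a ∈ V, ∀ b ∈ V, a * b = b * a := by
    intro a ha b hb
    haveI := hV.1
    exact setLike_mul_comm ha hb
  have memC : ∀ c : G, c ∈ C ↔ c * v = v * c ∧ c * x = x * c := by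
    intro c
    rw [hC, Subgroup.mem_inf, Subgroup.mem_centralizer_singleton_iff, Subgroup.mem_centralizer_singleton_iff]
  constructor
  · obtain ⟨w, hw, hw1, hwc⟩ := hS x v hv hx hinv
    intro hbot
    have : w ∈ C ⊓ V := Subgroup.mem_inf.mpr ⟨(memC w).mpr ⟨hVc w hw v hv, hwc⟩, hw⟩
    rw [hbot, Subgroup.mem_bot] at this
    exact hw1 this
  · intro h u hu hodd hinvh
    rw [Subgroup.mem_subgroupOf, Subgroup.mem_inf] at hu
    obtain ⟨huC, huV⟩ := hu
    obtain ⟨hhv, hhx⟩ := (memC h).mp h.2
    obtain ⟨huv, hux⟩ := (memC u).mp huC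
    have hinvh' : (u : G) * h * (u : G)⁻¹ = (h : G)⁻¹ := by
      have := congrArg Subtype.val hinvh
      simpa using this
    have hoddh : Odd (orderOf (h : G)) := by rwa [Subgroup.orderOf_coe]
    obtain ⟨y, hy⟩ : ∃ y : G, y = (h : G) * x := ⟨_, rfl⟩
    have hyodd : Odd (orderOf y) := by
      have h1 : orderOf y ∣ orderOf (h : G) * orderOf x := hy ▸ Commute.orderOf_mul_dvd_mul_orderOf hhx
      exact Odd.of_dvd_nat (hoddh.mul hx) h1
    have hvh : v * (h : G) * v⁻¹ = h := by rw [← hhv]; group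
    have hux' : (u : G) * x * (u : G)⁻¹ = x := by rw [hux]; group
    have hyinv : ((u : G) * v) * y * ((u : G) * v)⁻¹ = y⁻¹ := by
      calc ((u : G) * v) * y * ((u : G) * v)⁻¹
          = (u : G) * ((v * (h : G) * v⁻¹) * (v * x * v⁻¹)) * (u : G)⁻¹ := by rw [hy]; group
        _ = (u : G) * ((h : G) * x⁻¹) * (u : G)⁻¹ := by rw [hvh, hinv]
        _ = ((u : G) * h * (u : G)⁻¹) * ((u : G) * x * (u : G)⁻¹)⁻¹ := by group
        _ = (h : G)⁻¹ * x⁻¹ := by rw [hinvh', hux']
        _ = y⁻¹ := by rw [hy, hhx, mul_inv_rev]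
    obtain ⟨w, hw, hw1, hwc⟩ := hS y ((u : G) * v) (V.mul_mem huV hv) hyodd hyinv
    have hwv : w * v = v * w := hVc w hw v hv
    -- w commutes with v y v⁻¹ = h x⁻¹
    have hy2 : v * y * v⁻¹ = (h : G) * x⁻¹ := by
      calc v * y * v⁻¹ = (v * (h : G) * v⁻¹) * (v * x * v⁻¹) := by rw [hy]; group
        _ = _ := by rw [hvh, hinv]
    have hwc2 : w * ((h : G) * x⁻¹) = ((h : G) * x⁻¹) * w := by
      rw [← hy2]
      calc w * (v * y * v⁻¹) = (w * v) * y * v⁻¹ := by group
        _ = v * (w * y) * v⁻¹ := by rw [hwv]; group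
        _ = v * y * (w * v⁻¹) := by rw [hwc]; group
        _ = v * y * (v⁻¹ * w) := by
            congr 1
            have : Commute w v := hwv
            exact this.inv_right
        _ = _ := by group
    have cy : Commute w y := hwc
    have cy2 : Commute w ((h : G) * x⁻¹) := hwc2
    have chx : Commute (h : G) x := hhx
    have ch2 : Commute w ((h : G) ^ 2) := by
      have e : (h : G) ^ 2 = y * ((h : G) * x⁻¹) := by
        rw [hy, sq]
        calc (h : G) * h = h * (x * h) * x⁻¹ := by rw [← hhx]; group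
          _ = _ := by group
      rw [e]; exact cy.mul_right cy2
    have cx2 : Commute w (x ^ 2) := by
      have e : x ^ 2 = ((h : G) * x⁻¹)⁻¹ * y := by
        rw [hy, sq]; group
      rw [e]; exact cy2.inv_right.mul_right cy
    have ch : w * (h : G) = h * w := commute_of_commute_pow ((Nat.coprime_two_left).mpr hoddh) ch2
    have cx : w * x = x * w := commute_of_commute_pow ((Nat.coprime_two_left).mpr hx) cx2
    have hwC : w ∈ C := (memC w).mpr ⟨hwv, cx⟩
    refine ⟨⟨w, hwC⟩, ?_, ?_, ?_⟩
    · rw [Subgroup.mem_subgroupOf]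
      exact Subgroup.mem_inf.mpr ⟨hwC, hw⟩
    · intro h1
      exact hw1 (congrArg Subtype.val h1)
    · apply Subtype.ext
      exact ch

end Cfsg.Agent.S3013
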