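import Cfsg.Statements.S3014
import Cfsg.Agent.Lib.Helper17.ExtClosed

set_option autoImplicit false
open Cfsg

namespace Cfsg.Agent.S3014


/-- Let G be a finite group and H ≤ M ≤ G subgroups such that for every g ∈ G the subgroup generated by H and g H g⁻¹ meets M exactly in H. If H is a maximal subgroup of M and M is a maximal subgroup of G, then the normal closure of H in G meets M exactly in H. -/
theorem result {G : Type*} [Group G] [Finite G] (H M : Subgroup G) (hHM : H ≤ M) (hcl : ∀ g : G, (H ⊔ H.map (MulAut.conj g).toMonoidHom) ⊓ M = H) (hmaxH : IsCoatom (H.subgroupOf M)) (hmaxM : IsCoatom M) : Subgroup.normalClosure (H : Set G) ⊓ M = H := by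
  obtain ⟨K, hKn, hHK, hKM⟩ := Cfsg.Agent.Lib.Helper17.exists_normal_inf_le H M hHM hcl hmaxH hmaxM
  apply le_antisymm
  · exact (inf_le_inf_right _ (Subgroup.normalClosure_le_normal hHK)).trans hKM
  · exact le_inf Subgroup.le_normalClosure hHM

end Cfsg.Agent.S3014
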