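import Cfsg.Statements.S3015
import Cfsg.Agent.Lib.Helper17.ExtClosed
import Cfsg.Agent.Lib.Helper17.DStar2

set_option autoImplicit false
open Cfsg

namespace Cfsg.Agent.S3015

open Cfsg.Agent.Lib.Helper17 Subgroup in

/-- Let G be a finite non-abelian simple group, M a maximal subgroup of G and H a normal subgroup of M of prime index in M. Then G is generated by H together with one of its conjugates. -/
theorem result {G : Type*} [Group G] [Finite G] [IsSimpleGroup G] (hG : ¬ IsMulCommutative G) (M H : Subgroup G) (hmaxM : IsCoatom M) (hHM : H ≤ M) (hHn : (H.subgroupOf M).Normal) (hidx : (H.relIndex M).Prime) : ∃ g : G, H ⊔ H.map (MulAut.conj g).toMonoidHom = ⊤ := by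
  classical
  by_contra hcon
  push Not at hcon
  obtain ⟨p, hp⟩ : ∃ p, p = H.relIndex M := ⟨_, rfl⟩
  rw [← hp] at hidx
  have : Fact p.Prime := ⟨hidx⟩
  have hMtop : M ≠ ⊤ := hmaxM.1
  have hmaxH : IsCoatom (H.subgroupOf M) := by
    refine ⟨?_, ?_⟩
    · intro h
      rw [subgroupOf_eq_top] at h
      have h1 : H.relIndex M = 1 := relIndex_eq_one.mpr h
      rw [← hp] at h1
      exact hidx.one_lt.ne' h1
    · intro X hX
      have h1 := Subgroup.relIndex_mul_index hX.le
      have h2 : (H.subgroupOf M).index = p := hp.symm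
      rw [h2] at h1
      rcases (Nat.dvd_prime hidx).mp ⟨_, h1.symm⟩ with h3 | h3
      · exfalso
        rw [relIndex_eq_one] at h3
        exact absurd h3 (not_le_of_gt hX)
      · rw [h3] at h1
        have h4 : X.index = 1 := Nat.eq_of_mul_eq_mul_left hidx.pos (by rw [h1, mul_one])
        exact index_eq_one.mp h4
  have hMbot : M ≠ ⊥ := by
    intro h
    rw [h, relIndex_bot_right] at hp
    rw [hp] at hidx
    exact Nat.not_prime_one hidx
  have hMnn : ¬ M.Normal := fun h => (h.eq_bot_or_eq_top).elim hMbot hMtop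
  have hNM : normalizer (M : Set G) = M :=
    (hmaxM.le_iff_eq (fun h => hMnn (normalizer_eq_top_iff.mp h))).mp le_normalizer
  have hMNH : M ≤ normalizer (H : Set G) := (normal_subgroupOf_iff_le_normalizer hHM).mp hHn
  have hF3 : ∀ m ∈ M, ∀ h ∈ H, m * h * m⁻¹ ∈ H := le_normalizer_iff.mp hMNH
  have hpp : ∀ y ∈ M, (orderOf y).Coprime p → y ∈ H := by
    intro y hy hc
    have h1 : y ^ p ∈ H := by
      have h2 := Subgroup.pow_index_mem (H.subgroupOf M) ⟨y, hy⟩
      rw [mem_subgroupOf] at h2
      rw [hp]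
      simpa [relIndex] using h2
    exact mem_of_pow_mem_of_coprime H hc (by rw [pow_orderOf_eq_one]; exact one_mem _) h1
  have hcl : ∀ g : G, (H ⊔ H.map (MulAut.conj g).toMonoidHom) ⊓ M = H := by
    intro g
    rcases eq_or_eq_of_isCoatom_subgroupOf hmaxH (le_inf le_sup_left hHM) inf_le_right with h | h
    · exact h
    exfalso
    have hML : M ≤ H ⊔ H.map (MulAut.conj g).toMonoidHom := inf_eq_right.mp h
    have hLM : H ⊔ H.map (MulAut.conj g).toMonoidHom = M := (hmaxM.le_iff_eq (hcon g)).mp hML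
    have hHgM : H.map (MulAut.conj g).toMonoidHom ≤ M := by rw [← hLM]; exact le_sup_right
    have hgM : g ∉ M := by
      intro hg
      have h1 : H.map (MulAut.conj g).toMonoidHom ≤ H := by
        rintro _ ⟨h, hh, rfl⟩; exact hF3 g hg h hh
      rw [sup_eq_left.mpr h1] at hLM
      exact hmaxH.1 (subgroupOf_eq_top.mpr hLM.ge)
    obtain ⟨R, hR⟩ : ∃ R, R = closure {y | y ∈ H ∧ (orderOf y).Coprime p} := ⟨_, rfl⟩
    have hRH : R ≤ H := by rw [hR, closure_le]; exact fun y hy => hy.1
    have hconj : ∀ t : G, (∀ y ∈ H, (orderOf y).Coprime p → t * y * t⁻¹ ∈ M) →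
        t ∈ normalizer (R : Set G) := by
      intro t ht
      apply mem_normalizer_of_map_conj_le
      rw [hR, MonoidHom.map_closure, closure_le]
      rintro _ ⟨y, ⟨hy1, hy2⟩, rfl⟩
      apply Subgroup.subset_closure
      have ho : orderOf (t * y * t⁻¹) = orderOf y := by
        have h1 : t * y * t⁻¹ = MulAut.conj t y := rfl
        rw [h1, MulEquiv.orderOf_eq]
      have hc' : (orderOf (t * y * t⁻¹)).Coprime p := by rw [ho]; exact hy2
      exact ⟨hpp _ (ht y hy1 hy2) hc', hc'⟩
    have hgR : g ∈ normalizer (R : Set G) := hconj g (fun y hy _ => hHgM ⟨y, hy, rfl⟩)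
    have hMR : M ≤ normalizer (R : Set G) := fun m hm => hconj m (fun y hy _ => hHM (hF3 m hm y hy))
    have hRtop : normalizer (R : Set G) = ⊤ :=
      hmaxM.2 _ (lt_of_le_of_ne hMR (fun heq => hgM (heq ▸ hgR)))
    have hRn : R.Normal := normalizer_eq_top_iff.mp hRtop
    have hRbot : R = ⊥ :=
      (hRn.eq_bot_or_eq_top).resolve_right (fun h => hMtop (eq_top_iff.mpr (h ▸ hRH.trans hHM)))
    have hMp : IsPGroup p M := by
      intro y
      obtain ⟨a, b, hb, hab⟩ := Nat.exists_eq_pow_mul_and_not_dvd (orderOf_pos (y : G)).ne' p hidx.ne_one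
      refine ⟨a, ?_⟩
      have ho : orderOf ((y : G) ^ (p ^ a)) = b := by
        rw [orderOf_pow_of_dvd (pow_ne_zero _ hidx.ne_zero) ⟨b, hab⟩, hab,
          Nat.mul_div_cancel_left _ (pow_pos hidx.pos _)]
      have hc : (orderOf ((y : G) ^ (p ^ a))).Coprime p := by
        rw [ho, Nat.coprime_comm, Nat.Prime.coprime_iff_not_dvd hidx]; exact hb
      have h1 : (y : G) ^ (p ^ a) ∈ R := by
        rw [hR]
        exact Subgroup.subset_closure ⟨hpp _ (pow_mem y.2 _) hc, hc⟩
      rw [hRbot, mem_bot] at h1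
      exact Subtype.ext (by simpa using h1)
    obtain ⟨n, hn⟩ := IsPGroup.iff_card.mp hMp
    have hn0 : n ≠ 0 := by
      rintro rfl
      rw [pow_zero] at hn
      exact hMbot (Subgroup.card_eq_one.mp hn)
    have hidx' : (H.map (MulAut.conj g).toMonoidHom).relIndex M = p := by
      have h1 := relIndex_mul_card_of_le hHgM
      have h2 := relIndex_mul_card_of_le hHM
      rw [card_map_of_injective (MulAut.conj g).injective] at h1
      rw [← hp] at h2
      exact Nat.eq_of_mul_eq_mul_right Nat.card_pos (by rw [h1, h2])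
    have hHgn : ((H.map (MulAut.conj g).toMonoidHom).subgroupOf M).Normal := by
      apply normal_of_index_eq_minFac_card
      rw [hn, hidx.pow_minFac hn0]
      exact hidx'
    have hMN' : M ≤ normalizer ((H.map (MulAut.conj g).toMonoidHom : Subgroup G) : Set G) :=
      (normal_subgroupOf_iff_le_normalizer hHgM).mp hHgn
    have hMgN : M.map (MulAut.conj g).toMonoidHom ≤
        normalizer ((H.map (MulAut.conj g).toMonoidHom : Subgroup G) : Set G) :=
      (Subgroup.map_mono hMNH).trans (Subgroup.le_normalizer_map (H := H) (MulAut.conj g).toMonoidHom)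
    have hne : normalizer ((H.map (MulAut.conj g).toMonoidHom : Subgroup G) : Set G) ≠ M := by
      intro heq
      rw [heq] at hMgN
      exact hgM (hNM ▸ mem_normalizer_of_map_conj_le hMgN)
    have htop := hmaxM.2 _ (lt_of_le_of_ne hMN' hne.symm)
    have hnn : (H.map (MulAut.conj g).toMonoidHom).Normal := normalizer_eq_top_iff.mp htop
    rcases hnn.eq_bot_or_eq_top with h1 | h1
    · have hHbot : H = ⊥ := (map_eq_bot_iff_of_injective _ (MulAut.conj g).injective).mp h1
      rw [h1, hHbot, sup_bot_eq] at hLM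
      exact hMbot hLM.symm
    · exact hMtop (eq_top_iff.mpr (h1 ▸ hHgM))
  obtain ⟨K, hKn, hHK, hKM⟩ := exists_normal_inf_le H M hHM hcl hmaxH hmaxM
  have hHneM : ¬ M ≤ H := fun h => hmaxH.1 (subgroupOf_eq_top.mpr h)
  rcases hKn.eq_bot_or_eq_top with hK | hK
  · have hHbot : H = ⊥ := eq_bot_iff.mpr (hK ▸ hHK)
    have hfw : ∀ g : G, g ∉ M → M ⊓ M.map (MulAut.conj g).toMonoidHom ≤ H := by
      intro g hg
      rcases eq_or_eq_of_isCoatom_subgroupOf hmaxH (X := M ⊓ M.map (MulAut.conj g).toMonoidHom)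
        (by rw [hHbot]; exact bot_le) inf_le_left with h | h
      · exact h.le
      · exfalso
        have h1 : M ≤ M.map (MulAut.conj g).toMonoidHom := inf_eq_left.mp h
        have h2 : M = M.map (MulAut.conj g).toMonoidHom :=
          Subgroup.eq_of_le_of_card_ge h1 (by rw [card_map_of_injective (MulAut.conj g).injective])
        exact hg (hNM ▸ mem_normalizer_of_map_conj_le h2.ge)
    obtain ⟨K', hK'n, _, hK'M, hK'ab⟩ := exists_normal_of_fw_coatom hHM hHn hmaxH hfw
    rcases hK'n.eq_bot_or_eq_top with hK' | hK'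
    · apply hG
      constructor
      constructor
      intro a b
      have h1 := hK'ab a b
      rw [hK', mem_bot] at h1
      calc a * b = (a * b * a⁻¹ * b⁻¹) * (b * a) := by group
        _ = b * a := by rw [h1, one_mul]
    · rw [hK', top_inf_eq] at hK'M
      exact hHneM hK'M
  · rw [hK, top_inf_eq] at hKM
    exact hHneM hKM

end Cfsg.Agent.S3015
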