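import Cfsg.Statements.S3020
import Cfsg.Agent.Lib.Helper17.Cores

set_option autoImplicit false
open Cfsg

namespace Cfsg.Agent.S3020

open Cfsg.Agent.Lib.Helper17

/-- Let G be a finite group, p a prime and H an abelian p-subgroup of G that is extremely closed (for every g, the subgroup generated by H and g H g⁻¹ meets N_G(H) exactly in H). Then for every g ∈ G, the subgroup T generated by H and g H g⁻¹ is the product of H with O_{p'}(T), and H meets O_{p'}(T) trivially; that is, O_{p'}(T) is a normal p-complement of H in T. -/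
theorem result {G : Type*} [Group G] [Finite G] {p : ℕ} [Fact p.Prime] (H : Subgroup G) (hHp : IsPGroup p H) (hHab : IsMulCommutative H) (hcl : Cfsg.IsExtremelyClosed H) (g : G) (T : Subgroup G) (hT : T = H ⊔ H.map (MulAut.conj g).toMonoidHom) : H ⊔ (Cfsg.pPrimeCore p ↥T).map T.subtype = T ∧ H ⊓ (Cfsg.pPrimeCore p ↥T).map T.subtype = ⊥ := by
  have hHT : H ≤ T := hT ▸ le_sup_left
  have hNT : T ⊓ Subgroup.normalizer (H : Set G) = H := hT ▸ hcl g
  -- H' = H as a subgroup of T is a Sylow p-subgroup
  set H' := H.subgroupOf T with hH'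
  have hH'p : IsPGroup p ↥H' := hHp.comap_subtype
  obtain ⟨S, hS⟩ := hH'p.exists_le_sylow
  have hSH : (S : Subgroup ↥T) = H' := by
    have hSp : IsPGroup p ↥((S : Subgroup ↥T).map T.subtype) := S.2.map _
    have hle : H ≤ (S : Subgroup ↥T).map T.subtype := by
      intro x hx
      exact ⟨⟨x, hHT hx⟩, hS (Subgroup.mem_subgroupOf.mpr hx), rfl⟩
    have h1 : (S : Subgroup ↥T).map T.subtype ⊓ Subgroup.normalizer (H : Set G) ≤ H := by
      exact (inf_le_inf_right _ (Subgroup.map_subtype_le (S : Subgroup ↥T))).trans hNT.le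
    have h2 := eq_of_inf_normalizer_le hSp hle h1
    apply le_antisymm _ hS
    intro x hx
    rw [hH', Subgroup.mem_subgroupOf, h2]
    exact ⟨x, hx, rfl⟩
  have hNC : Subgroup.normalizer ((S : Subgroup ↥T) : Set ↥T) ≤ Subgroup.centralizer ((S : Subgroup ↥T) : Set ↥T) := by
    rw [hSH, hH', ← Subgroup.subgroupOf_normalizer_eq hHT]
    intro x hx
    rw [Subgroup.mem_subgroupOf] at hx
    have hxH : (x : G) ∈ H := by
      rw [← hNT]; exact Subgroup.mem_inf.mpr ⟨x.2, hx⟩
    rw [Subgroup.mem_centralizer_iff]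
    intro y hy
    have hyH : (y : G) ∈ H := Subgroup.mem_subgroupOf.mp hy
    apply Subtype.ext
    simp only [Subgroup.coe_mul]
    exact setLike_mul_comm hyH hxH
  have hcompl := MonoidHom.ker_transferSylow_isComplement' S hNC
  set K := (MonoidHom.transferSylow S hNC).ker with hK
  have hKcop : (Nat.card K).Coprime p := by
    rw [Nat.coprime_comm, Nat.Prime.coprime_iff_not_dvd Fact.out]
    exact MonoidHom.not_dvd_card_ker_transferSylow S hNC
  have hKle : K ≤ Cfsg.pPrimeCore p ↥T := le_pPrimeCore inferInstance hKcop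
  constructor
  · apply le_antisymm
    · exact sup_le hHT (Subgroup.map_subtype_le _)
    · intro x hx
      have h1 : K ⊔ (S : Subgroup ↥T) = ⊤ := hcompl.sup_eq_top
      have h2 : (⟨x, hx⟩ : ↥T) ∈ K ⊔ (S : Subgroup ↥T) := by rw [h1]; trivial
      have h3 : (K ⊔ (S : Subgroup ↥T)).map T.subtype ≤ H ⊔ (Cfsg.pPrimeCore p ↥T).map T.subtype := by
        rw [Subgroup.map_sup]
        apply sup_le
        · exact (Subgroup.map_mono hKle).trans le_sup_right
        · rw [hSH, hH', Subgroup.subgroupOf_map_subtype]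
          exact inf_le_left.trans le_sup_left
      exact h3 ⟨⟨x, hx⟩, h2, rfl⟩
  · apply disjoint_iff.mp
    apply Subgroup.disjoint_of_coprime_natCard
    obtain ⟨n, hn⟩ := IsPGroup.iff_card.mp hHp
    rw [hn, Subgroup.card_map_of_injective T.subtype_injective]
    exact Nat.Coprime.pow_left n (pPrimeCore_coprime p).symm

end Cfsg.Agent.S3020
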