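import Cfsg.Statements.S3021
import Cfsg.Agent.Lib.Helper17.Basic

set_option autoImplicit false
open Cfsg

namespace Cfsg.Agent.S3021

open Cfsg.Agent.Lib.Helper17

/-- Let G be a finite group, p a prime and H a p-subgroup of G that is extremely closed (for every g, the subgroup generated by H and g H g⁻¹ meets N_G(H) exactly in H). Then every p-subgroup Q of G containing H has N_G(Q) ≤ N_G(H); in particular every Sylow p-subgroup P of G containing H normalizes H, and H is strongly closed in P with respect to G. -/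
theorem result {G : Type*} [Group G] [Finite G] {p : ℕ} [Fact p.Prime] (H : Subgroup G) (hHp : IsPGroup p H) (hcl : Cfsg.IsExtremelyClosed H) : (∀ Q : Subgroup G, IsPGroup p Q → H ≤ Q → Subgroup.normalizer (Q : Set G) ≤ Subgroup.normalizer (H : Set G)) ∧ ∀ P : Sylow p G, H ≤ (P : Subgroup G) → (P : Subgroup G) ≤ Subgroup.normalizer (H : Set G) ∧ Cfsg.IsStronglyClosed H (P : Subgroup G) := by
  have key : ∀ Q : Subgroup G, IsPGroup p Q → H ≤ Q → ∀ g : G, H.map (MulAut.conj g).toMonoidHom ≤ Q →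
      H.map (MulAut.conj g).toMonoidHom ≤ H := by
    intro Q hQ hHQ g hg
    have hT : IsPGroup p ↥(H ⊔ H.map (MulAut.conj g).toMonoidHom) := hQ.to_le (sup_le hHQ hg)
    have := eq_of_inf_normalizer_le hT le_sup_left (hcl g).le
    calc H.map (MulAut.conj g).toMonoidHom ≤ H ⊔ H.map (MulAut.conj g).toMonoidHom := le_sup_right
      _ = H := this.symm
  have h1 : ∀ Q : Subgroup G, IsPGroup p Q → H ≤ Q → Subgroup.normalizer (Q : Set G) ≤ Subgroup.normalizer (H : Set G) := by
    intro Q hQ hHQ g hg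
    apply mem_normalizer_of_map_conj_le
    apply key Q hQ hHQ g
    intro y hy
    have hy' := mem_map_conj_iff.mp hy
    have h2 := (Subgroup.mem_normalizer_iff.mp hg _).mp (hHQ hy')
    have e : g * (g⁻¹ * y * g) * g⁻¹ = y := by group
    rwa [e] at h2
  refine ⟨h1, ?_⟩
  intro P hHP
  have hPN : (P : Subgroup G) ≤ Subgroup.normalizer (H : Set G) := Subgroup.le_normalizer.trans (h1 P P.2 hHP)
  refine ⟨hPN, hHP, ?_⟩
  intro x hx g hg
  have h3 : g * x * g⁻¹ ∈ (H ⊔ H.map (MulAut.conj g).toMonoidHom) ⊓ Subgroup.normalizer (H : Set G) :=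
    Subgroup.mem_inf.mpr ⟨(le_sup_right : _ ≤ H ⊔ H.map (MulAut.conj g).toMonoidHom) (conj_mem_map_conj_iff.mpr hx), hPN hg⟩
  rw [hcl g] at h3
  exact h3

end Cfsg.Agent.S3021
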