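import Cfsg.Statements.S3023
import Cfsg.Agent.Lib.Helper16.FS2

set_option autoImplicit false
open Cfsg

namespace Cfsg.Agent.S3023

open Cfsg.Agent.Lib.Helper16
open Cfsg.Agent.Lib.Helper8 (SubnIn subnIn_top)
open scoped commutatorElement


/-- Let p be a prime, G a finite group of parabolic characteristic p (every p-local subgroup containing a Sylow p-subgroup of G has characteristic p), S a Sylow p-subgroup of G and G₁ a subnormal subgroup of G. If the centre of S ∩ G₁ is nontrivial and contained in the centre of S, then G₁ has parabolic characteristic p. -/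
theorem result {G : Type*} [Group G] [Finite G] {p : ℕ} [Fact p.Prime] (hG : Cfsg.IsOfParabolicCharacteristic p G) (S : Sylow p G) (G₁ : Subgroup G) (hsn : G₁.IsSubnormal) (hne : ((S : Subgroup G) ⊓ G₁) ⊓ Subgroup.centralizer (((S : Subgroup G) ⊓ G₁ : Subgroup G) : Set G) ≠ ⊥) (hle : ((S : Subgroup G) ⊓ G₁) ⊓ Subgroup.centralizer (((S : Subgroup G) ⊓ G₁ : Subgroup G) : Set G) ≤ (S : Subgroup G) ⊓ Subgroup.centralizer ((S : Subgroup G) : Set G)) : Cfsg.IsOfParabolicCharacteristic p ↥G₁ := by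
  have hS1 : SylIn p ((S : Subgroup G) ⊓ G₁) G₁ := (sylIn_top S).inf_subnIn (subnIn_top.mpr hsn)
  obtain ⟨P, hP⟩ := hS1.exists_sylow
  rw [parabolicChar_iff P]
  intro z hz1 hz
  have hzp : z ^ p = 1 := pow_eq_one_of_mem_omegaOne center_commute hz
  have hz2 := omegaOne_le _ _ hz
  have hz1' : (z : G) ≠ 1 := fun h => hz1 (Subtype.ext h)
  have hzp' : (z : G) ^ p = 1 := by
    have := congrArg Subtype.val hzp
    simpa using this
  have hzS : (z : G) ∈ (S : Subgroup G) ⊓ G₁ := by
    have h1 := (Subgroup.mem_inf.mp hz2).1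
    rw [hP] at h1
    exact h1
  have hzC : (z : G) ∈ Subgroup.centralizer (((S : Subgroup G) ⊓ G₁ : Subgroup G) : Set G) := by
    rw [Subgroup.mem_centralizer_iff]
    intro y hy
    have h1 := Subgroup.mem_centralizer_iff.mp (Subgroup.mem_inf.mp hz2).2
    have h2 : (⟨y, hy.2⟩ : ↥G₁) ∈ (P : Subgroup ↥G₁) := by
      rw [hP]; exact hy
    exact congrArg Subtype.val (h1 ⟨y, hy.2⟩ h2)
  have hzZ : (z : G) ∈ omegaOne p ((S : Subgroup G) ⊓ Subgroup.centralizer ((S : Subgroup G) : Set G)) :=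
    mem_omegaOne (hle ⟨hzS, hzC⟩) hzp'
  have h3 := (parabolicChar_iff S).mp hG (z : G) hz1' hzZ
  rw [← charP_map_iff G₁.subtype G₁.subtype_injective, map_centralizer_singleton_subtype]
  exact h3.of_subnIn ((subnIn_top.mpr hsn).restrict le_top)

end Cfsg.Agent.S3023
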