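import Cfsg.Statements.S3025
import Cfsg.Agent.S0016

set_option autoImplicit false
open Cfsg

namespace Cfsg.Agent.S3025

open Subgroup in
/-- `N/C` for a normal subgroup of prime order. -/
theorem nc_prime {F : Type*} [Group F] [Finite F] (N : Subgroup F) [N.Normal] (hp : (Nat.card N).Prime) :
    (∃ g : F, centralizer (N : Set F) ⊔ zpowers g = ⊤) ∧
      (centralizer (N : Set F)).index ∣ Nat.card N - 1 := by
  have : Fact (Nat.card N).Prime := ⟨hp⟩
  have hcycN : IsCyclic N := isCyclic_of_prime_card rfl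
  obtain ⟨ψ, hψ⟩ : ∃ ψ : F →* MulAut N, ψ = MulAut.conjNormal := ⟨_, rfl⟩
  have hker : ψ.ker = centralizer (N : Set F) := by
    ext f
    rw [MonoidHom.mem_ker, mem_centralizer_iff, hψ]
    constructor
    · intro h n hn
      have h1 := congrArg (fun e : MulAut N => ((e ⟨n, hn⟩ : N) : F)) h
      simp only [MulAut.conjNormal_apply, MulAut.one_apply] at h1
      calc n * f = (f * n * f⁻¹) * f := by rw [h1]
        _ = f * n := by group
    · intro h
      ext n
      rw [MulAut.conjNormal_apply, MulAut.one_apply, ← h n n.2]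
      group
  have hcycA : IsCyclic (MulAut N) :=
    isCyclic_of_injective (IsCyclic.mulAutMulEquiv N).toMonoidHom (IsCyclic.mulAutMulEquiv N).injective
  have hcycR : IsCyclic ψ.range := inferInstance
  constructor
  · obtain ⟨⟨_, g, rfl⟩, hg⟩ := IsCyclic.exists_generator (α := ψ.range)
    refine ⟨g, ?_⟩
    rw [eq_top_iff]
    intro f _
    obtain ⟨k, hk⟩ := mem_zpowers_iff.mp (hg ⟨ψ f, f, rfl⟩)
    have hk' : ψ g ^ k = ψ f := by
      have := congrArg Subtype.val hk
      simpa using this
    have h1 : f * (g ^ k)⁻¹ ∈ centralizer (N : Set F) := by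
      rw [← hker, MonoidHom.mem_ker, map_mul, map_inv, map_zpow, hk', mul_inv_cancel]
    have h2 : f = (f * (g ^ k)⁻¹) * g ^ k := by group
    rw [h2]
    exact mul_mem (mem_sup_left h1) (mem_sup_right (zpow_mem (mem_zpowers g) k))
  · rw [← hker, Subgroup.index_ker, ← Nat.totient_prime hp, ← IsCyclic.card_mulAut N]
    exact Subgroup.card_subgroup_dvd_card _

open Subgroup in

/-- Let F be a finite group and H a nontrivial subgroup of F that is contained in every nontrivial subgroup of F which H normalizes. Then F has a nontrivial normal subgroup N contained in every nontrivial normal subgroup of F (a unique minimal normal subgroup), N is simple, and one of the following holds: C_F(N) = 1; or H = N has prime order p, C_F(N) is cyclic of order a power of p, and F/C_F(N) is cyclic of order dividing p − 1; or H = N has order 2, N is central in F, and F is a generalized quaternion group. -/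
theorem result {F : Type*} [Group F] [Finite F] (H : Subgroup F) (hH : H ≠ ⊥)
    (hmin : ∀ R : Subgroup F, R ≠ ⊥ → H ≤ Subgroup.normalizer (R : Set F) → H ≤ R) :
    ∃ N : Subgroup F, N.Normal ∧ N ≠ ⊥ ∧ (∀ M : Subgroup F, M.Normal → M ≠ ⊥ → N ≤ M) ∧ IsSimpleGroup ↥N ∧
      (Subgroup.centralizer (N : Set F) = ⊥ ∨
       (H = N ∧ (Nat.card N).Prime ∧ IsCyclic ↥(Subgroup.centralizer (N : Set F)) ∧
          (∃ k : ℕ, 1 ≤ k ∧ Nat.card ↥(Subgroup.centralizer (N : Set F)) = Nat.card N ^ k) ∧
          (∃ g : F, Subgroup.centralizer (N : Set F) ⊔ Subgroup.zpowers g = ⊤) ∧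
          (Subgroup.centralizer (N : Set F)).index ∣ Nat.card N - 1) ∨
       (H = N ∧ Nat.card N = 2 ∧ Subgroup.centralizer (N : Set F) = ⊤ ∧
          ∃ k : ℕ, 1 ≤ k ∧ Nonempty (F ≃* QuaternionGroup (2 ^ k)))) := by
  classical
  obtain ⟨N, hN⟩ : ∃ N, N = normalClosure (H : Set F) := ⟨_, rfl⟩
  have hNn : N.Normal := by rw [hN]; infer_instance
  have hHN : H ≤ N := by rw [hN]; exact le_normalClosure
  have hNbot : N ≠ ⊥ := fun h => hH (eq_bot_iff.mpr (h ▸ hHN))
  have hNmin : ∀ M : Subgroup F, M.Normal → M ≠ ⊥ → N ≤ M := by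
    intro M hM hMb
    rw [hN]
    exact normalClosure_le_normal (hmin M hMb le_normalizer_of_normal)
  have hNs : IsSimpleGroup N := by
    have hnt : Nontrivial N := (nontrivial_iff_ne_bot N).mpr hNbot
    refine ⟨?_⟩
    intro T hT
    by_contra hcon
    push Not at hcon
    obtain ⟨hTb, hTt⟩ := hcon
    obtain ⟨T', hT'⟩ : ∃ T', T' = T.map N.subtype := ⟨_, rfl⟩
    have hT'N : T' ≤ N := by rw [hT']; exact map_subtype_le T
    have hT'b : T' ≠ ⊥ := by
      rw [hT']
      intro h
      exact hTb ((map_eq_bot_iff_of_injective _ N.subtype_injective).mp h)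
    have hT'n : ∀ n ∈ N, ∀ t ∈ T', n * t * n⁻¹ ∈ T' := by
      intro n hn t ht
      rw [hT'] at ht ⊢
      obtain ⟨t0, ht0, rfl⟩ := ht
      exact ⟨⟨n, hn⟩ * t0 * ⟨n, hn⟩⁻¹, hT.conj_mem t0 ht0 ⟨n, hn⟩, rfl⟩
    have hHD : H ≤ T'.normalCore := by
      intro h hh f
      have h1 : H ≤ T'.map (MulAut.conj f⁻¹).toMonoidHom := by
        apply hmin
        · intro hb
          exact hT'b ((map_eq_bot_iff_of_injective _ (MulAut.conj f⁻¹).injective).mp hb)
        · refine hHN.trans ?_
          rw [le_normalizer_iff]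
          rintro n hn _ ⟨t, ht, rfl⟩
          refine ⟨(f * n * f⁻¹) * t * (f * n * f⁻¹)⁻¹, hT'n _ (hNn.conj_mem n hn f) t ht, ?_⟩
          simp [MulAut.conj_apply, mul_assoc]
      obtain ⟨t, ht, hth⟩ := h1 hh
      have h2 : f * h * f⁻¹ = t := by
        rw [← hth]
        simp [MulAut.conj_apply, mul_assoc]
      rw [h2]; exact ht
    have hDb : T'.normalCore ≠ ⊥ := fun h => hH (eq_bot_iff.mpr (h ▸ hHD))
    have hND : N ≤ T' := (hNmin _ inferInstance hDb).trans (normalCore_le T')
    apply hTt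
    rw [eq_top_iff]
    intro n _
    have := hND n.2
    rw [hT'] at this
    obtain ⟨t, ht, htn⟩ := this
    have : t = n := Subtype.ext htn
    rw [← this]; exact ht
  refine ⟨N, hNn, hNbot, hNmin, hNs, ?_⟩
  by_cases hC : centralizer (N : Set F) = ⊥
  · exact Or.inl hC
  right
  obtain ⟨C, hCdef⟩ : ∃ C, C = centralizer (N : Set F) := ⟨_, rfl⟩
  rw [← hCdef] at hC ⊢
  have hCn : C.Normal := by rw [hCdef]; infer_instance
  have hNC : N ≤ C := hNmin C hCn hC
  have hNab : IsMulCommutative N := by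
    rw [← le_centralizer_iff_isMulCommutative, ← hCdef]; exact hNC
  have hprime : (Nat.card N).Prime := Group.is_simple_iff_prime_card.mp hNs
  obtain ⟨p, hp⟩ : ∃ p, p = Nat.card N := ⟨_, rfl⟩
  have hpp : p.Prime := hp ▸ hprime
  have : Fact p.Prime := ⟨hpp⟩
  have hHeq : H = N := by
    apply Subgroup.eq_of_le_of_card_ge hHN
    have h1 : Nat.card H ∣ Nat.card N := Subgroup.card_dvd_of_le hHN
    rcases (Nat.dvd_prime hprime).mp h1 with h2 | h2
    · exact absurd (Subgroup.card_eq_one.mp h2) hH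
    · exact h2.ge
  have hsub : ∀ R : Subgroup F, R ≤ C → R ≠ ⊥ → N ≤ R := by
    intro R hR hRb
    rw [← hHeq]
    apply hmin R hRb
    rw [hHeq]
    refine le_trans ?_ (centralizer_le_normalizer _)
    rw [le_centralizer_iff, ← hCdef]
    exact hR
  have hCcard : ∃ k : ℕ, Nat.card C = p ^ k := by
    refine ⟨_, Nat.eq_prime_pow_of_unique_prime_dvd Nat.card_pos.ne' ?_⟩
    intro q hq hqd
    have : Fact q.Prime := ⟨hq⟩
    obtain ⟨c, hc⟩ := exists_prime_orderOf_dvd_card' q hqd
    have h1 : N ≤ zpowers (c : F) := by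
      apply hsub
      · rw [zpowers_le]; exact c.2
      · intro h
        rw [zpowers_eq_bot] at h
        have : c = 1 := Subtype.ext h
        rw [this, orderOf_one] at hc
        exact hq.one_lt.ne hc
    have h2 : Nat.card N ∣ Nat.card (zpowers (c : F)) := Subgroup.card_dvd_of_le h1
    rw [Nat.card_zpowers, Subgroup.orderOf_coe, hc, ← hp] at h2
    exact ((Nat.prime_dvd_prime_iff_eq hpp hq).mp h2).symm
  obtain ⟨k, hk⟩ := hCcard
  have hk1 : 1 ≤ k := by
    rcases Nat.eq_zero_or_pos k with h0 | h0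
    · rw [h0, pow_zero] at hk
      exact absurd (Subgroup.card_eq_one.mp hk) hC
    · exact h0
  have hCp : IsPGroup p C := IsPGroup.of_card hk
  have huniq : ∀ K₁ K₂ : Subgroup C, Nat.card K₁ = p → Nat.card K₂ = p → K₁ = K₂ := by
    have haux : ∀ K : Subgroup C, Nat.card K = p → K.map C.subtype = N := by
      intro K hK
      symm
      apply Subgroup.eq_of_le_of_card_ge
      · apply hsub _ (map_subtype_le K)
        intro h
        have h1 := (map_eq_bot_iff_of_injective _ C.subtype_injective).mp h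
        rw [h1, Subgroup.card_bot] at hK
        exact hpp.one_lt.ne hK
      · rw [card_map_of_injective C.subtype_injective, hK, hp]
    intro K₁ K₂ h1 h2
    apply Subgroup.map_injective C.subtype_injective
    rw [haux K₁ h1, haux K₂ h2]
  obtain ⟨hgen, hidx⟩ := nc_prime N hprime
  rw [← hCdef] at hgen hidx
  have hb : IsCyclic C → (H = N ∧ (Nat.card N).Prime ∧ IsCyclic ↥C ∧
          (∃ k : ℕ, 1 ≤ k ∧ Nat.card ↥C = Nat.card N ^ k) ∧
          (∃ g : F, C ⊔ Subgroup.zpowers g = ⊤) ∧ C.index ∣ Nat.card N - 1) := by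
    intro hcyc
    exact ⟨hHeq, hprime, hcyc, ⟨k, hk1, by rw [← hp]; exact hk⟩, hgen, hidx⟩
  rcases Cfsg.Agent.S0016.result p hCp huniq with hcyc | ⟨hp2, n, ⟨e⟩⟩
  · exact Or.inl (hb hcyc)
  · rcases Nat.eq_zero_or_pos n with hn | hn
    · left
      apply hb
      rw [hn, pow_zero] at e
      have := QuaternionGroup.quaternionGroup_one_isCyclic
      exact isCyclic_of_surjective e.symm.toMonoidHom e.symm.surjective
    · right
      have hN2 : Nat.card N = 2 := by rw [← hp, hp2]
      have hCtop : C = ⊤ := by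
        rw [hN2] at hidx
        have h1 : C.index = 1 := Nat.dvd_one.mp (by simpa using hidx)
        exact index_eq_one.mp h1
      refine ⟨hHeq, hN2, hCtop, n, hn, ⟨?_⟩⟩
      exact (Subgroup.topEquiv.symm.trans (MulEquiv.subgroupCongr hCtop.symm)).trans e

end Cfsg.Agent.S3025
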