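import Cfsg.Statements.S3027
import Mathlib
import Cfsg.Agent.Lib.Helper17.Basic
import Cfsg.Agent.Lib.Helper8.FStar

set_option autoImplicit false
open Cfsg

namespace Cfsg.Agent.S3027

open Cfsg.Agent.Lib.Helper17

/-- `X` is a supplement of `D` contained in and normalized by `H`. -/
def Supp {G : Type*} [Group G] (D H X : Subgroup G) : Prop :=
  X ≤ H ∧ H ≤ Subgroup.normalizer (X : Set G) ∧ X ⊔ D = ⊤

theorem commutator_sup_eq_top {G : Type*} [Group G] (D : Subgroup G) [D.Normal]
    (hperf : ⁅(⊤ : Subgroup G), (⊤ : Subgroup G)⁆ ⊔ D = ⊤) {X₁ X₂ : Subgroup G} (h₁ : X₁ ⊔ D = ⊤)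
    (h₂ : X₂ ⊔ D = ⊤) : ⁅X₁, X₂⁆ ⊔ D = ⊤ := by
  have key : ∀ X : Subgroup G, X ⊔ D = ⊤ ↔ X.map (QuotientGroup.mk' D) = ⊤ := by
    intro X
    constructor
    · intro h
      have h1 : (X ⊔ D).map (QuotientGroup.mk' D) = ⊤ := by
        rw [h]; exact Subgroup.map_top_of_surjective _ (QuotientGroup.mk'_surjective D)
      rw [Subgroup.map_sup] at h1
      have h2 : D.map (QuotientGroup.mk' D) = ⊥ := by
        rw [Subgroup.map_eq_bot_iff, QuotientGroup.ker_mk']
      rwa [h2, sup_bot_eq] at h1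
    · intro h
      have h1 := Subgroup.comap_map_eq (QuotientGroup.mk' D) X
      rw [h, Subgroup.comap_top, QuotientGroup.ker_mk'] at h1
      exact h1.symm
  rw [key] at h₁ h₂ hperf ⊢
  rw [Subgroup.map_commutator] at hperf ⊢
  rw [h₁, h₂]
  rwa [Subgroup.map_top_of_surjective _ (QuotientGroup.mk'_surjective D)] at hperf

theorem exists_least_supp {G : Type*} [Group G] [Finite G] (D : Subgroup G) [D.Normal]
    (hperf : ⁅(⊤ : Subgroup G), (⊤ : Subgroup G)⁆ ⊔ D = ⊤) (H : Subgroup G) (hH : H ⊔ D = ⊤) :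
    ∃ L : Subgroup G, Supp D H L ∧ ∀ X : Subgroup G, Supp D H X → L ≤ X := by
  obtain ⟨L, hL⟩ := (Set.toFinite {X : Subgroup G | Supp D H X}).exists_minimal
    ⟨H, le_rfl, Subgroup.le_normalizer, hH⟩
  refine ⟨L, hL.prop, ?_⟩
  intro X hX
  obtain ⟨hL1, hL2, hL3⟩ := hL.prop
  obtain ⟨hX1, hX2, hX3⟩ := hX
  have h1 : ⁅L, X⁆ ≤ L :=
    Cfsg.Agent.Lib.Helper8.commutator_le_left_of_le_normalizer (hX1.trans hL2)
  have h2 : ⁅L, X⁆ ≤ X :=
    Cfsg.Agent.Lib.Helper8.commutator_le_right_of_le_normalizer (hL1.trans hX2)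
  have h3 : Supp D H ⁅L, X⁆ :=
    ⟨h1.trans hL1, Cfsg.Agent.Lib.Helper8.le_normalizer_commutator hL2 hX2,
      commutator_sup_eq_top D hperf hL3 hX3⟩
  exact (hL.le_of_le h3 h1).trans h2

/-- Let G be a finite group and D a normal subgroup of G such that G/D is perfect (that is, G = G′D). Then among the subnormal subgroups B of G with BD = G there is a least one, and it is normal in G. -/
theorem result {G : Type*} [Group G] [Finite G] (D : Subgroup G) [D.Normal] (hperf : ⁅(⊤ : Subgroup G), (⊤ : Subgroup G)⁆ ⊔ D = ⊤) :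
    ∃ B : Subgroup G, B.Normal ∧ B ⊔ D = ⊤ ∧ ∀ B' : Subgroup G, B'.IsSubnormal → B' ⊔ D = ⊤ → B ≤ B' := by
  obtain ⟨B, ⟨-, hB2, hB3⟩, hBmin⟩ := exists_least_supp D hperf ⊤ (by simp)
  have key : ∀ B' : Subgroup G, B'.IsSubnormal → B' ⊔ D = ⊤ →
      (B ≤ B' ∧ ∀ X : Subgroup G, Supp D B' X → B ≤ X) := by
    intro B' hsub
    induction hsub with
    | top => intro _; exact ⟨le_top, hBmin⟩
    | step H K h_le hSubn hN ih =>
      intro hHD
      have hKD : K ⊔ D = ⊤ := by
        rw [eq_top_iff, ← hHD]; exact sup_le_sup_right h_le D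
      obtain ⟨hBK, hKmin⟩ := ih hKD
      have hKH : K ≤ Subgroup.normalizer (H : Set G) :=
        (Subgroup.normal_subgroupOf_iff_le_normalizer h_le).mp hN
      refine ⟨hKmin H ⟨h_le, hKH, hHD⟩, ?_⟩
      obtain ⟨L, ⟨hL1, hL2, hL3⟩, hLmin⟩ := exists_least_supp D hperf H hHD
      have hKL : K ≤ Subgroup.normalizer (L : Set G) := by
        intro k hk
        have hk' : k⁻¹ ∈ Subgroup.normalizer (L : Set G) := by
          apply mem_normalizer_of_map_conj_le
          -- L ≤ conj k L
          have hs : Supp D H (L.map (MulAut.conj k).toMonoidHom) := by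
            refine ⟨?_, ?_, ?_⟩
            · rintro _ ⟨l, hl, rfl⟩
              exact (Subgroup.mem_normalizer_iff.mp (hKH hk) l).mp (hL1 hl)
            · intro h hh
              apply mem_normalizer_of_map_conj_le
              rintro _ ⟨_, ⟨l, hl, rfl⟩, rfl⟩
              have h1 : k⁻¹ * h * k⁻¹⁻¹ ∈ H :=
                (Subgroup.mem_normalizer_iff.mp (inv_mem (hKH hk)) h).mp hh
              have h2 := (Subgroup.mem_normalizer_iff.mp (hL2 h1) l).mp hl
              refine ⟨_, h2, ?_⟩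
              simp only [MulEquiv.coe_toMonoidHom, MulAut.conj_apply]
              group
            · have h1 : (L ⊔ D).map (MulAut.conj k).toMonoidHom = ⊤ := by
                rw [hL3]; exact Subgroup.map_top_of_surjective _ (MulAut.conj k).surjective
              rw [Subgroup.map_sup] at h1
              have h2 : D.map (MulAut.conj k).toMonoidHom = D := by
                apply map_conj_eq_of_le
                rintro _ ⟨d, hd, rfl⟩
                exact (inferInstance : D.Normal).conj_mem d hd k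
              rwa [h2] at h1
          have h3 := hLmin _ hs
          rintro _ ⟨l, hl, rfl⟩
          obtain ⟨l', hl', hll⟩ := h3 hl
          have h4 : (MulAut.conj k⁻¹).toMonoidHom l = l' := by
            rw [← hll]
            simp only [MulEquiv.coe_toMonoidHom, MulAut.conj_apply]
            group
          rw [h4]; exact hl'
        simpa using inv_mem hk'
      intro X hX
      exact (hKmin L ⟨hL1.trans h_le, hKL, hL3⟩).trans (hLmin X hX)
  refine ⟨B, ?_, hB3, fun B' h1 h2 => (key B' h1 h2).1⟩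
  rw [← Subgroup.normalizer_eq_top_iff, eq_top_iff]
  exact hB2

end Cfsg.Agent.S3027
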