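import Cfsg.Statements.S3057
import Cfsg.Agent.Lib.Helper17.SylGraph3

set_option autoImplicit false
open Cfsg

namespace Cfsg.Agent.S3057

open Cfsg.Agent.Lib.Helper17 in

/-- Let p be a prime and G a finite p-solvable group of order divisible by p, with Sylow p-subgroup P. Then the Sylow p-subgroups of G fail to be chain-connected through nontrivial intersections (equivalently, G has a strongly p-embedded subgroup) if and only if O_p(G) = 1 and P is cyclic or, for p = 2, generalized quaternion. -/
theorem result {G : Type*} [Group G] [Finite G]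
    (p : ℕ) [Fact p.Prime] (hdiv : p ∣ Nat.card G) (hsol : Cfsg.IsPSolvable p G) (P : Sylow p G) :
    ¬ Cfsg.IsSylowChainConnected p G ↔
      Cfsg.pCore p G = ⊥ ∧ (IsCyclic ↥P ∨ (p = 2 ∧ ∃ n : ℕ, Nonempty (↥P ≃* QuaternionGroup (2 ^ n)))) := by
  constructor
  · intro h
    refine ⟨pCore_eq_bot_of_not_connected h, ?_⟩
    obtain ⟨X, hX⟩ := exists_strEmb_of_not_connected h
    obtain ⟨T, hT, _⟩ := hX.exists_sylow_le
    have hU := unique_of_strEmb_of_pSolvable hsol hdiv hX T hT
    rcases Cfsg.Agent.S0016.result p T.2 hU with hc | ⟨h2, n, ⟨e⟩⟩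
    · left
      exact isCyclic_of_surjective (Sylow.equiv T P).toMonoidHom (Sylow.equiv T P).surjective
    · right
      exact ⟨h2, n, ⟨(Sylow.equiv P T).trans e⟩⟩
  · rintro ⟨hcore, hP⟩
    exact not_connected_of_unique hdiv hcore P (unique_order_p_of_cyclic_or_quaternion hP)

end Cfsg.Agent.S3057
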