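import Cfsg.Statements.S3063
import Cfsg.Agent.Lib.Helper17.Replace

set_option autoImplicit false
open Cfsg

namespace Cfsg.Agent.S3063

open Cfsg.Agent.Lib.Helper17 in

/-- A weak replacement Theorem for metabelian p-groups: let S be a finite p-group whose derived subgroup is abelian and A an abelian subgroup of S of largest possible order. Then the normal closure of A in S contains an abelian subgroup B of the same order as A that is normal in S. -/
theorem result {S : Type*} [Group S] [Finite S] {p : ℕ} [Fact p.Prime]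
    (hS : IsPGroup p S) (hmeta : IsMulCommutative ↥(commutator S))
    (A : Subgroup S) (hA : A ∈ Cfsg.maxAbelianSubgroups S) :
    ∃ B ∈ Cfsg.maxAbelianSubgroups S, B.Normal ∧ B ≤ Subgroup.normalClosure (A : Set S) := by
  classical
  obtain ⟨N0, hN0⟩ : ∃ N0, N0 = Subgroup.normalClosure (A : Set S) := ⟨_, rfl⟩
  have hN0n : N0.Normal := by rw [hN0]; infer_instance
  rw [← hN0]
  have hfin : Set.Finite {B : Subgroup S | B ∈ Cfsg.maxAbelianSubgroups S ∧ B ≤ N0} := Set.toFinite _
  obtain ⟨B, hB, hmax⟩ := Set.exists_max_image _ (fun B : Subgroup S => Nat.card ↥(B ⊓ commutator S)) hfin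
    ⟨A, hA, by rw [hN0]; exact Subgroup.le_normalClosure⟩
  refine ⟨B, hB.1, ?_, hB.2⟩
  have hcm : ∀ x e : S, x * e * x⁻¹ * e⁻¹ ∈ commutator S := by
    intro x e
    exact Subgroup.commutator_mem_commutator (Subgroup.mem_top x) (Subgroup.mem_top e)
  constructor
  intro b hb x
  obtain ⟨E', hE', h1, h2, h3⟩ := replacement_core hB.1 hmeta x (fun e _ => hcm x e)
  have hE'N : E' ≤ N0 := by
    refine h3.trans (sup_le ?_ hB.2)
    rw [Subgroup.closure_le]
    rintro _ ⟨e, he, rfl⟩
    have he' : e ∈ N0 := hB.2 he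
    exact mul_mem (hN0n.conj_mem e he' x) (inv_mem he')
  have hle : B ⊓ commutator S ≤ E' ⊓ commutator S := le_inf h1 inf_le_right
  have hcard := hmax E' ⟨hE', hE'N⟩
  have heq : B ⊓ commutator S = E' ⊓ commutator S := Subgroup.eq_of_le_of_card_ge hle hcard
  have h4 : x * b * x⁻¹ * b⁻¹ ∈ E' ⊓ commutator S := Subgroup.mem_inf.mpr ⟨h2 b hb, hcm x b⟩
  rw [← heq] at h4
  have h5 : x * b * x⁻¹ = (x * b * x⁻¹ * b⁻¹) * b := by group
  rw [h5]
  exact mul_mem (Subgroup.mem_inf.mp h4).1 hb

end Cfsg.Agent.S3063
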