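import Cfsg.Statements.S3064
import Cfsg.Agent.Lib.Helper17.IsoCentral

set_option autoImplicit false
open Cfsg

namespace Cfsg.Agent.S3064

open Cfsg.Agent.Lib.Helper17 in

/-- Let S be a Sylow p-subgroup of the finite group G and x an element of S such that (i) x is the only G-conjugate of x lying in S, and (ii) x centralizes every subgroup of order prime to p that it normalizes. Then x lies in the centre of G. -/
theorem result {G : Type*} [Group G] [Finite G] {p : ℕ} [Fact p.Prime]
    (S : Sylow p G) (x : G) (hx : x ∈ S)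
    (hU : ∀ g : G, g⁻¹ * x * g ∈ S → g⁻¹ * x * g = x)
    (hb : ∀ H : Subgroup G, (Nat.card H).Coprime p → (∀ h ∈ H, x * h * x⁻¹ ∈ H) → ∀ h ∈ H, x * h = h * x) :
    x ∈ Subgroup.center G := by
  have hp : p.Prime := Fact.out
  have hxo : ∃ k : ℕ, orderOf x = p ^ k := by
    obtain ⟨k, hk⟩ := S.2 ⟨x, hx⟩
    have h1 : x ^ (p ^ k) = 1 := by simpa using congrArg Subtype.val hk
    obtain ⟨j, _, hj⟩ := (Nat.dvd_prime_pow hp).mp (orderOf_dvd_of_pow_eq_one h1)
    exact ⟨j, hj⟩
  have hiso : Cfsg.IsIsolated x := by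
    intro g hc
    obtain ⟨k, hk⟩ := hxo
    have hpx : IsPGroup p (Subgroup.zpowers x) :=
      IsPGroup.of_card (n := k) (by rw [Nat.card_zpowers, hk])
    have hpy : IsPGroup p (Subgroup.zpowers (g * x * g⁻¹)) := by
      apply IsPGroup.of_card (n := k)
      rw [Nat.card_zpowers, ← hk]
      have : g * x * g⁻¹ = MulAut.conj g x := rfl
      rw [this, MulEquiv.orderOf_eq]
    have hnorm : Subgroup.zpowers x ≤ Subgroup.normalizer (Subgroup.zpowers (g * x * g⁻¹) : Set G) := by
      refine le_trans ?_ (Subgroup.centralizer_le_normalizer _)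
      rw [Subgroup.zpowers_le, Subgroup.mem_centralizer_iff]
      rintro _ ⟨n, rfl⟩
      exact (hc.zpow_right n).symm
    have hR := IsPGroup.to_sup_of_normal_right' hpx hpy hnorm
    obtain ⟨T, hT⟩ := hR.exists_le_sylow
    obtain ⟨h, hh⟩ := sylow_conj S T
    have h1 : x ∈ (T : Subgroup G) := hT (Subgroup.mem_sup_left (Subgroup.mem_zpowers x))
    have h2 : g * x * g⁻¹ ∈ (T : Subgroup G) := hT (Subgroup.mem_sup_right (Subgroup.mem_zpowers _))
    rw [← hh, mem_map_conj_iff] at h1 h2
    have h3 := hU h h1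
    have h4 : h⁻¹ * (g * x * g⁻¹) * h = (g⁻¹ * h)⁻¹ * x * (g⁻¹ * h) := by group
    rw [h4] at h2
    have h5 := hU _ h2
    rw [← h4] at h5
    have h6 : g * x * g⁻¹ = h * (h⁻¹ * (g * x * g⁻¹) * h) * h⁻¹ := by group
    have h7 : x = h * (h⁻¹ * x * h) * h⁻¹ := by group
    rw [h6, h5]
    rw [h3] at h7
    exact h7.symm
  exact isolated_central_aux p _ G rfl x hxo hiso hb

end Cfsg.Agent.S3064
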