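import Cfsg.Statements.S3074
import Mathlib
import Cfsg.Agent.Lib.Helper5.Qd14

set_option autoImplicit false
open Cfsg

namespace Cfsg.Agent.S3074

open Cfsg.Agent.Lib.Helper5.Dk

/-- Let p be an odd prime. A Sylow p-subgroup of Qd(p), the split extension of an elementary abelian group of order p² by SL₂(p) acting naturally, is extraspecial of order p³ and exponent p. -/
theorem result (p : ℕ) [Fact p.Prime] (hp : p ≠ 2) (P : Sylow p ↥(Cfsg.qd p)) :
    Cfsg.IsExtraspecial p ↥P ∧ Nat.card P = p ^ 3 ∧ Monoid.exponent ↥P = p := by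
  have hfin : Finite ↥(Cfsg.qd p) := inferInstance
  let C : QdC p ↥(Cfsg.qd p) := QdC.ofEquiv (MulEquiv.refl _)
  obtain ⟨g, hg⟩ := C.exists_conj_tsub P
  exact (C.conj g).extraspecial' hp _ hg

end Cfsg.Agent.S3074
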