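import Cfsg.Statements.S3075
import Mathlib
import Cfsg.Agent.Lib.Helper5.Dk1

set_option autoImplicit false
open Cfsg

namespace Cfsg.Agent.S3075

open Cfsg.Agent.Lib.Helper5.Dk

theorem cyc_comm {N : Type*} [Group N] (B : Subgroup N) [B.Normal] (hB : IsCyclic B)
    (n m : N) (b : N) (hb : b ∈ B) : (n * m) * b * (n * m)⁻¹ = (m * n) * b * (m * n)⁻¹ := by
  obtain ⟨⟨g, hg⟩, hgen⟩ := hB.exists_generator
  have key : ∀ x ∈ B, ∃ k : ℤ, x = g ^ k := by
    intro x hx
    obtain ⟨k, hk⟩ := Subgroup.mem_zpowers_iff.mp (hgen ⟨x, hx⟩)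
    exact ⟨k, by simpa using (congrArg Subtype.val hk).symm⟩
  obtain ⟨k, rfl⟩ := key b hb
  obtain ⟨i, hi⟩ := key (n * g * n⁻¹) (Subgroup.Normal.conj_mem inferInstance g hg n)
  obtain ⟨j, hj⟩ := key (m * g * m⁻¹) (Subgroup.Normal.conj_mem inferInstance g hg m)
  have h1 : (n * m) * g * (n * m)⁻¹ = g ^ (i * j) := by
    have : (n * m) * g * (n * m)⁻¹ = n * (m * g * m⁻¹) * n⁻¹ := by group
    rw [this, hj, ← conj_zpow, hi, ← zpow_mul]
  have h2 : (m * n) * g * (m * n)⁻¹ = g ^ (i * j) := by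
    have : (m * n) * g * (m * n)⁻¹ = m * (n * g * n⁻¹) * m⁻¹ := by group
    rw [this, hi, ← conj_zpow, hj, ← zpow_mul, mul_comm]
  rw [← conj_zpow, ← conj_zpow, h1, h2]

/-- Let p be an odd prime and N a finite group with a normal elementary abelian subgroup A of order p² that is its own centralizer in N, such that N/A is isomorphic to SL₂(p) (over any field F with p elements). Then N splits over A: some subgroup U of N satisfies A ∩ U = 1 and AU = N. -/
theorem result {N : Type*} [Group N] [Finite N] {p : ℕ} [Fact p.Prime] (hp : p ≠ 2)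
    (A : Subgroup N) [A.Normal] (hAcomm : IsMulCommutative A) (hAcard : Nat.card A = p ^ 2) (hAexp : Monoid.exponent ↥A = p)
    (hAself : Subgroup.centralizer (A : Set N) = A)
    {F : Type*} [Field F] [Fintype F] (hF : Fintype.card F = p) (e : N ⧸ A ≃* Matrix.SpecialLinearGroup (Fin 2) F) :
    ∃ U : Subgroup N, A ⊓ U = ⊥ ∧ A ⊔ U = ⊤ := by
  classical
  have hpp : p.Prime := Fact.out
  have hpodd : Odd p := hpp.odd_of_ne_two hp
  obtain ⟨r, hr⟩ := hpodd
  have hApow : ∀ a ∈ A, a ^ p = 1 := by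
    intro a ha
    have := Monoid.pow_exponent_eq_one (⟨a, ha⟩ : A)
    rw [hAexp] at this
    simpa using congrArg Subtype.val this
  have hAc : ∀ a ∈ A, ∀ b ∈ A, a * b = b * a := by
    intro a ha b hb
    have := hAcomm.is_comm.comm (⟨a, ha⟩ : A) ⟨b, hb⟩
    simpa using congrArg Subtype.val this
  -- square roots in A
  have hsq : ∀ a ∈ A, (a ^ 2) ^ (r + 1) = a := by
    intro a ha
    rw [← pow_mul, show 2 * (r + 1) = p + 1 by omega, pow_succ, hApow a ha, one_mul]
  have hsq' : ∀ a ∈ A, (a ^ (r + 1)) ^ 2 = a := by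
    intro a ha
    rw [← pow_mul, show (r + 1) * 2 = p + 1 by omega, pow_succ, hApow a ha, one_mul]
  have hchar : (2 : F) ≠ 0 := by
    intro h2
    have h1 : addOrderOf (1 : F) ∣ p := by
      rw [← hF, ← Nat.card_eq_fintype_card]; exact addOrderOf_dvd_natCard 1
    have h3 : addOrderOf (1 : F) ∣ 2 := by
      apply addOrderOf_dvd_of_nsmul_eq_zero
      simpa using h2
    have h4 : addOrderOf (1 : F) ∣ 1 := by
      have := Nat.dvd_gcd h1 h3
      rwa [show Nat.gcd p 2 = 1 by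
        rw [hr]; simp] at this
    have h5 : addOrderOf (1 : F) = 1 := Nat.dvd_one.mp h4
    rw [AddMonoid.addOrderOf_eq_one_iff] at h5
    exact one_ne_zero h5
  -- the central involution of the quotient
  obtain ⟨t₀, ht₀⟩ := QuotientGroup.mk_surjective (e.symm (mone : S2 F))
  have hzz : (e.symm (mone : S2 F)) * (e.symm (mone : S2 F)) = 1 := by
    rw [← map_mul, mone_mul_mone, map_one]
  have hzc : ∀ x : N ⧸ A, (e.symm (mone : S2 F)) * x = x * (e.symm (mone : S2 F)) := by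
    intro x
    apply e.injective
    simp only [map_mul, MulEquiv.apply_symm_apply]
    exact mone_comm _
  have hz1 : (e.symm (mone : S2 F)) ≠ 1 := by
    intro h
    have h' : (mone : S2 F) = 1 := by
      have := congrArg e h
      simpa using this
    have := congrArg al h'
    simp only [al_mone, al_one] at this
    apply hchar
    linear_combination -this
  set z : N ⧸ A := e.symm (mone : S2 F) with hzdef
  have ht₀2 : t₀ ^ 2 ∈ A := by
    rw [← QuotientGroup.eq_one_iff, QuotientGroup.mk_pow, ht₀, pow_two, hzz]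
  obtain ⟨t, ht, htt⟩ : ∃ t : N, (QuotientGroup.mk t : N ⧸ A) = z ∧ t * t = 1 := by
    refine ⟨t₀ ^ p, ?_, ?_⟩
    · rw [QuotientGroup.mk_pow, ht₀, hr, pow_succ, pow_mul, pow_two, hzz, one_pow, one_mul]
    · rw [← pow_two, ← pow_mul, mul_comm, pow_mul, hApow _ ht₀2]
  have htinv : t⁻¹ = t := inv_eq_of_mul_eq_one_left htt
  have htA : t ∉ A := by
    intro h
    rw [← QuotientGroup.eq_one_iff, ht] at h
    exact hz1 h
  -- conjugates of t
  have hconj : ∀ n : N, ∃ a ∈ A, n⁻¹ * t * n = t * a := by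
    intro n
    refine ⟨t⁻¹ * (n⁻¹ * t * n), ?_, by group⟩
    rw [← QuotientGroup.eq_one_iff]
    simp only [QuotientGroup.mk_mul, QuotientGroup.mk_inv, ht]
    rw [mul_assoc, hzc, ← mul_assoc (n : N ⧸ A)⁻¹, inv_mul_cancel, one_mul, inv_mul_cancel]
  have hnA : ∀ n : N, ∀ a ∈ A, n * a * n⁻¹ ∈ A := fun n a ha =>
    Subgroup.Normal.conj_mem inferInstance a ha n
  -- action of t commutes with conjugation
  have hact : ∀ n : N, ∀ a ∈ A, t * (n * a * n⁻¹) * t⁻¹ = n * (t * a * t⁻¹) * n⁻¹ := by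
    intro n a ha
    obtain ⟨a', ha', h⟩ := hconj n
    have h1 : t * (n * a * n⁻¹) * t⁻¹ = n * ((n⁻¹ * t * n) * a * (n⁻¹ * t * n)⁻¹) * n⁻¹ := by group
    rw [h1, h]
    have h2 : t * a' * a * (t * a')⁻¹ = t * (a' * a * a'⁻¹) * t⁻¹ := by group
    rw [h2, hAc a' ha' a ha, mul_inv_cancel_right]
  -- eigen-subgroups
  let Bp : Subgroup N :=
    { carrier := {a | a ∈ A ∧ t * a * t⁻¹ = a}
      one_mem' := ⟨A.one_mem, by simp⟩
      mul_mem' := by
        rintro a b ⟨ha, ha'⟩ ⟨hb, hb'⟩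
        refine ⟨A.mul_mem ha hb, ?_⟩
        rw [show t * (a * b) * t⁻¹ = (t * a * t⁻¹) * (t * b * t⁻¹) by group, ha', hb']
      inv_mem' := by
        rintro a ⟨ha, ha'⟩
        refine ⟨A.inv_mem ha, ?_⟩
        rw [show t * a⁻¹ * t⁻¹ = (t * a * t⁻¹)⁻¹ by group, ha'] }
  let Bm : Subgroup N :=
    { carrier := {a | a ∈ A ∧ t * a * t⁻¹ = a⁻¹}
      one_mem' := ⟨A.one_mem, by simp⟩
      mul_mem' := by
        rintro a b ⟨ha, ha'⟩ ⟨hb, hb'⟩
        refine ⟨A.mul_mem ha hb, ?_⟩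
        rw [show t * (a * b) * t⁻¹ = (t * a * t⁻¹) * (t * b * t⁻¹) by group, ha', hb',
          hAc a ha b hb, mul_inv_rev]
      inv_mem' := by
        rintro a ⟨ha, ha'⟩
        refine ⟨A.inv_mem ha, ?_⟩
        rw [show t * a⁻¹ * t⁻¹ = (t * a * t⁻¹)⁻¹ by group, ha'] }
  have hBp_mem : ∀ a, a ∈ Bp ↔ (a ∈ A ∧ t * a * t⁻¹ = a) := fun a => Iff.rfl
  have hBm_mem : ∀ a, a ∈ Bm ↔ (a ∈ A ∧ t * a * t⁻¹ = a⁻¹) := fun a => Iff.rfl
  haveI hBpn : Bp.Normal := by
    constructor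
    rintro a ⟨ha, ha'⟩ n
    refine ⟨hnA n a ha, ?_⟩
    rw [hact n a ha, ha']
  haveI hBmn : Bm.Normal := by
    constructor
    rintro a ⟨ha, ha'⟩ n
    refine ⟨hnA n a ha, ?_⟩
    rw [hact n a ha, ha']
    group
  have hBpA : Bp ≤ A := fun a ha => ha.1
  have hBmA : Bm ≤ A := fun a ha => ha.1
  have hphip : ∀ a ∈ A, a * (t * a * t⁻¹) ∈ Bp := by
    intro a ha
    have h1 := hnA t a ha
    refine ⟨A.mul_mem ha h1, ?_⟩
    rw [show t * (a * (t * a * t⁻¹)) * t⁻¹ = (t * a * t⁻¹) * ((t * t) * a * (t * t)⁻¹) by group, htt]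
    simp only [one_mul, inv_one, mul_one]
    exact hAc _ h1 _ ha
  have hphim : ∀ a ∈ A, a * (t * a * t⁻¹)⁻¹ ∈ Bm := by
    intro a ha
    have h1 := hnA t a ha
    refine ⟨A.mul_mem ha (A.inv_mem h1), ?_⟩
    rw [show t * (a * (t * a * t⁻¹)⁻¹) * t⁻¹ = (t * a * t⁻¹) * ((t * t) * a * (t * t)⁻¹)⁻¹ by group, htt]
    simp only [one_mul, inv_one, mul_one, mul_inv_rev, inv_inv]
  have hdecomp : ∀ a ∈ A, a ^ 2 = (a * (t * a * t⁻¹)) * (a * (t * a * t⁻¹)⁻¹) := by
    intro a ha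
    have h1 := hnA t a ha
    rw [mul_assoc, ← mul_assoc (t * a * t⁻¹), hAc _ h1 _ ha, mul_assoc a (t * a * t⁻¹), mul_inv_cancel,
      mul_one, pow_two]
  -- main claim
  have hinvert : ∀ a ∈ A, t * a * t⁻¹ = a⁻¹ := by
    by_contra hcon
    push Not at hcon
    obtain ⟨a₀, ha₀, hne₀⟩ := hcon
    have hBp1 : Bp ≠ ⊥ := by
      intro h
      have := hphip a₀ ha₀
      rw [h, Subgroup.mem_bot] at this
      exact hne₀ (eq_inv_of_mul_eq_one_right this)
    have hBp2 : Bp ≠ A := by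
      intro h
      apply htA
      rw [← hAself, Subgroup.mem_centralizer_iff]
      intro a ha
      have h1 : a ∈ Bp := h ▸ ha
      have h2 := h1.2
      rw [mul_inv_eq_iff_eq_mul] at h2
      exact h2.symm
    have hBm1 : Bm ≠ ⊥ := by
      intro h
      apply hBp2
      apply le_antisymm hBpA
      intro a ha
      refine ⟨ha, ?_⟩
      have := hphim a ha
      rw [h, Subgroup.mem_bot] at this
      exact (mul_inv_eq_one.mp this).symm
    have hdisj : ∀ a, a ∈ Bp → a ∈ Bm → a = 1 := by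
      rintro a ⟨ha, h1⟩ ⟨_, h2⟩
      have h3 : a ^ 2 = 1 := by
        rw [pow_two]
        nth_rewrite 1 [← h1]
        rw [h2]; simp
      rw [← hsq a ha, h3, one_pow]
    have hBm2 : Bm ≠ A := by
      intro h
      apply hBp1
      rw [eq_bot_iff]
      intro a ha
      exact hdisj a ha (h ▸ hBpA ha)
    have hcard : ∀ B : Subgroup N, B ≤ A → B ≠ ⊥ → B ≠ A → Nat.card B = p := by
      intro B hBA hB1 hB2
      have hdvd : Nat.card B ∣ p ^ 2 := hAcard ▸ Subgroup.card_dvd_of_le hBA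
      obtain ⟨k, hk, hk'⟩ := (Nat.dvd_prime_pow hpp).mp hdvd
      interval_cases k
      · exfalso; apply hB1; rw [← Subgroup.card_eq_one]; simpa using hk'
      · simpa using hk'
      · exfalso; apply hB2; exact Subgroup.eq_of_le_of_card_ge hBA (by rw [hk', hAcard])
    have hcp : IsCyclic Bp := isCyclic_of_prime_card (hcard Bp hBpA hBp1 hBp2)
    have hcm : IsCyclic Bm := isCyclic_of_prime_card (hcard Bm hBmA hBm1 hBm2)
    have hcomm : ∀ n m : N, (m * n)⁻¹ * (n * m) ∈ A := by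
      intro n m
      rw [← hAself, Subgroup.mem_centralizer_iff]
      have hB : ∀ b, (n * m) * b * (n * m)⁻¹ = (m * n) * b * (m * n)⁻¹ →
          Commute ((m * n)⁻¹ * (n * m)) b := by
        intro b hb
        have h1 : ((m * n)⁻¹ * (n * m)) * b * ((m * n)⁻¹ * (n * m))⁻¹ = b := by
          have : ((m * n)⁻¹ * (n * m)) * b * ((m * n)⁻¹ * (n * m))⁻¹
              = (m * n)⁻¹ * ((n * m) * b * (n * m)⁻¹) * (m * n) := by group
          rw [this, hb]; group
        rw [mul_inv_eq_iff_eq_mul] at h1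
        exact h1
      intro a ha
      have h1 := hB _ (cyc_comm Bp hcp n m _ (hphip a ha))
      have h2 := hB _ (cyc_comm Bm hcm n m _ (hphim a ha))
      have h3 := (h1.mul_right h2)
      rw [← hdecomp a ha] at h3
      have h4 := h3.pow_right (r + 1)
      rw [hsq a ha] at h4
      exact h4.symm
    obtain ⟨n, hn⟩ := QuotientGroup.mk_surjective (e.symm (xx (1 : F)))
    obtain ⟨m, hm⟩ := QuotientGroup.mk_surjective (e.symm (yy (1 : F)))
    have h1 := hcomm n m
    rw [← QuotientGroup.eq] at h1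
    simp only [QuotientGroup.mk_mul, hn, hm, ← map_mul] at h1
    have h2 := congrArg al (e.symm.injective h1)
    simp at h2
  refine ⟨Subgroup.centralizer {t}, ?_, ?_⟩
  · rw [eq_bot_iff]
    intro a haa
    obtain ⟨ha, ha'⟩ := Subgroup.mem_inf.mp haa
    rw [Subgroup.mem_centralizer_singleton_iff] at ha'
    have h1 := hinvert a ha
    have h3 : a ^ 2 = 1 := by
      have h4 : t * a * t⁻¹ = a := by rw [← ha']; group
      rw [pow_two]
      nth_rewrite 1 [← h4]
      rw [h1]; simp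
    rw [Subgroup.mem_bot, ← hsq a ha, h3, one_pow]
  · rw [eq_top_iff]
    intro n _
    obtain ⟨a, ha, h⟩ := hconj n⁻¹
    rw [inv_inv] at h
    have hb : (a⁻¹) ^ (r + 1) ∈ A := A.pow_mem (A.inv_mem ha) _
    have hb2 := hsq' _ (A.inv_mem ha)
    set b := (a⁻¹) ^ (r + 1) with hbdef
    have h1 : b * t * b⁻¹ = n * t * n⁻¹ := by
      have h2 : b * t * b⁻¹ = b * (t * b * t⁻¹)⁻¹ * t := by group
      rw [h2, hinvert b hb, inv_inv, ← pow_two, hb2, h, ← hinvert a ha]
      group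
    have hu : b⁻¹ * n ∈ Subgroup.centralizer {t} := by
      rw [Subgroup.mem_centralizer_singleton_iff]
      have h3 : (b⁻¹ * n) * t * (b⁻¹ * n)⁻¹ = t := by
        have : (b⁻¹ * n) * t * (b⁻¹ * n)⁻¹ = b⁻¹ * (n * t * n⁻¹) * b := by group
        rw [this, ← h1]; group
      rw [mul_inv_eq_iff_eq_mul] at h3
      exact h3
    have : n = b * (b⁻¹ * n) := by group
    rw [this]
    exact Subgroup.mul_mem _ (Subgroup.mem_sup_left hb) (Subgroup.mem_sup_right hu)

end Cfsg.Agent.S3075
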