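import Mathlib
import Cfsg.Statements.S3087

set_option autoImplicit false
open Cfsg

namespace Cfsg.Agent.S3087

theorem card_eq_relIndex_mul {V : Type*} [AddCommGroup V] {H K : AddSubgroup V} (h : H ≤ K) :
    Nat.card K = Nat.card H * H.relIndex K := by
  have := AddSubgroup.relIndex_mul_relIndex ⊥ H K bot_le h
  rw [AddSubgroup.relIndex_bot_left, AddSubgroup.relIndex_bot_left] at this
  exact this.symm

theorem key {V : Type*} [AddCommGroup V] [Finite V] (X Y Wa : AddSubgroup V) (hYX : Y ≤ X) :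
    Nat.card ↥(X ⊓ Wa) * Nat.card Y ≤ Nat.card X * Nat.card ↥(Y ⊓ Wa) := by
  have h1 : Y ⊓ Wa ≤ X ⊓ Wa := inf_le_inf_right _ hYX
  rw [card_eq_relIndex_mul h1, card_eq_relIndex_mul hYX]
  have h2 : (Y ⊓ Wa).relIndex (X ⊓ Wa) = Y.relIndex (X ⊓ Wa) := by
    rw [← AddSubgroup.inf_relIndex_right (Y ⊓ Wa) (X ⊓ Wa), ← AddSubgroup.inf_relIndex_right Y (X ⊓ Wa)]
    congr 1
    apply le_antisymm
    · exact le_inf (inf_le_left.trans inf_le_left) inf_le_right
    · exact le_inf (le_inf inf_le_left (inf_le_right.trans inf_le_right)) inf_le_right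
  have h3 : Y.relIndex (X ⊓ Wa) ≤ Y.relIndex X :=
    AddSubgroup.relIndex_le_of_le_right inf_le_left AddSubgroup.index_ne_zero_of_finite
  rw [h2]
  calc Nat.card ↥(Y ⊓ Wa) * Y.relIndex (X ⊓ Wa) * Nat.card Y
      ≤ Nat.card ↥(Y ⊓ Wa) * Y.relIndex X * Nat.card Y := by gcongr
    _ = Nat.card Y * Y.relIndex X * Nat.card ↥(Y ⊓ Wa) := by ring

/-- Let p be a prime, G a finite group acting linearly on a finite vector space V over the field with p elements, W a G-invariant subspace, and A a subgroup of G with |A|·|C_V(A)| ≥ |B|·|C_V(B)| for every subgroup B of A. Then |A|·|C_W(A)| ≥ |B|·|C_W(B)| for every subgroup B of A that contains C_A(W); that is, the image of A in the group induced on W satisfies the same maximality condition. -/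
theorem result {G V : Type*} [Group G] [Finite G] [AddCommGroup V] [Finite V] (p : ℕ) [Fact p.Prime] [Module (ZMod p) V]
    (ρ : Representation (ZMod p) G V) (W : Submodule (ZMod p) V) (hW : ∀ g : G, ∀ w ∈ W, ρ g w ∈ W)
    (A : Subgroup G)
    (hP : ∀ B : Subgroup G, B ≤ A →
      Nat.card ↥B * Nat.card {v : V // ∀ b ∈ B, ρ b v = v} ≤ Nat.card ↥A * Nat.card {v : V // ∀ a ∈ A, ρ a v = v})
    (B : Subgroup G) (hBA : B ≤ A) (hCB : ∀ a ∈ A, (∀ w ∈ W, ρ a w = w) → a ∈ B) :
    Nat.card ↥B * Nat.card {w : W // ∀ b ∈ B, ρ b w = w} ≤ Nat.card ↥A * Nat.card {w : W // ∀ a ∈ A, ρ a w = w} := by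
  let CV : Subgroup G → AddSubgroup V := fun D =>
    { carrier := {v | ∀ b ∈ D, ρ b v = v}
      zero_mem' := by intro b _; simp
      add_mem' := by
        intro a b ha hb g hg
        rw [map_add, ha g hg, hb g hg]
      neg_mem' := by
        intro a ha g hg
        rw [map_neg, ha g hg] }
  have hV : ∀ D : Subgroup G, Nat.card {v : V // ∀ b ∈ D, ρ b v = v} = Nat.card (CV D) := fun D => rfl
  have hWc : ∀ D : Subgroup G, Nat.card {w : W // ∀ b ∈ D, ρ b w = w} =
      Nat.card ↥(CV D ⊓ W.toAddSubgroup) := by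
    intro D
    apply Nat.card_congr
    exact
      { toFun := fun w => ⟨(w.1 : V), ⟨w.2, w.1.2⟩⟩
        invFun := fun v => ⟨⟨v.1, v.2.2⟩, v.2.1⟩
        left_inv := fun w => rfl
        right_inv := fun v => rfl }
  rw [hWc, hWc]
  have h1 := hP B hBA
  rw [hV, hV] at h1
  have hYX : CV A ≤ CV B := fun v hv b hb => hv b (hBA hb)
  have h2 := key (CV B) (CV A) W.toAddSubgroup hYX
  have hpos : 0 < Nat.card (CV A) := Nat.card_pos
  apply Nat.le_of_mul_le_mul_right _ hpos
  calc Nat.card ↥B * Nat.card ↥(CV B ⊓ W.toAddSubgroup) * Nat.card (CV A)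
      = Nat.card ↥B * (Nat.card ↥(CV B ⊓ W.toAddSubgroup) * Nat.card (CV A)) := by ring
    _ ≤ Nat.card ↥B * (Nat.card (CV B) * Nat.card ↥(CV A ⊓ W.toAddSubgroup)) := by gcongr
    _ = (Nat.card ↥B * Nat.card (CV B)) * Nat.card ↥(CV A ⊓ W.toAddSubgroup) := by ring
    _ ≤ (Nat.card ↥A * Nat.card (CV A)) * Nat.card ↥(CV A ⊓ W.toAddSubgroup) := by gcongr
    _ = Nat.card ↥A * Nat.card ↥(CV A ⊓ W.toAddSubgroup) * Nat.card (CV A) := by ring

end Cfsg.Agent.S3087
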