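import Cfsg.Statements.S3155
import Mathlib

set_option autoImplicit false
open Cfsg

namespace Cfsg.Agent.S3155


/-- Let B be the direct product of three cyclic groups of order 4. Then the automorphism of B inverting every element is not the square of any automorphism of B. -/
theorem result {B : Type*} [CommGroup B] [Finite B] (hB : Nonempty (B ≃* Multiplicative (ZMod 4 × ZMod 4 × ZMod 4)))
    (τ : B ≃* B) : τ.trans τ ≠ MulEquiv.inv B := by
  intro h
  obtain ⟨e⟩ := hB
  have : Fact (1 < 4) := ⟨by norm_num⟩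
  have hnt : Nontrivial (ZMod 4) := ZMod.nontrivial 4
  let σ' : Multiplicative (ZMod 4 × ZMod 4 × ZMod 4) ≃* Multiplicative (ZMod 4 × ZMod 4 × ZMod 4) := (e.symm.trans τ).trans e
  let σ : (ZMod 4 × ZMod 4 × ZMod 4) →+ (ZMod 4 × ZMod 4 × ZMod 4) := AddMonoidHom.toMultiplicative.symm σ'.toMonoidHom
  have hσ : ∀ x, σ (σ x) = -x := by
    intro x
    have h1 : ∀ w : Multiplicative (ZMod 4 × ZMod 4 × ZMod 4), σ' (σ' w) = w⁻¹ := by
      intro w
      have h2 := congrArg (fun f : B ≃* B => f (e.symm w)) h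
      simp only [MulEquiv.trans_apply, MulEquiv.inv_apply] at h2
      simp only [σ', MulEquiv.trans_apply, MulEquiv.symm_apply_apply]
      rw [h2, map_inv, MulEquiv.apply_symm_apply]
    exact congrArg Multiplicative.toAdd (h1 (Multiplicative.ofAdd x))
  let L : (ZMod 4 × ZMod 4 × ZMod 4) →ₗ[ZMod 4] (ZMod 4 × ZMod 4 × ZMod 4) := σ.toZModLinearMap 4
  have hL : L ∘ₗ L = (-1 : ZMod 4) • LinearMap.id := by
    ext x <;> simp [L, hσ]
  have hdet := congrArg LinearMap.det hL
  rw [LinearMap.det_comp, LinearMap.det_smul, LinearMap.det_id, Module.finrank_prod, Module.finrank_prod, Module.finrank_self] at hdet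
  have hno : ∀ d : ZMod 4, d * d ≠ (-1) ^ (1 + (1 + 1)) * 1 := by decide
  exact hno _ hdet

end Cfsg.Agent.S3155
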