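import Cfsg.Statements.S3180
import Cfsg.Agent.Lib.Helper17.Basic

set_option autoImplicit false
open Cfsg

namespace Cfsg.Agent.S3180

open Cfsg.Agent.Lib.Helper17

/-- Let P be a Sylow p-subgroup of a finite group J and P₁ a subgroup of P that is weakly closed in P with respect to J. If J acts on a set and two points, each fixed by every element of P₁, lie in one J-orbit, then they lie in one orbit of the normalizer of P₁ in J. -/
theorem result {J : Type*} [Group J] [Finite J]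
    {p : ℕ} [Fact p.Prime] (P : Sylow p J) (P₁ : Subgroup J) (hW : Cfsg.IsWeaklyClosed P₁ (P : Subgroup J))
    {Ω : Type*} [MulAction J Ω] (x y : Ω) (hx : ∀ g ∈ P₁, g • x = x) (hy : ∀ g ∈ P₁, g • y = y)
    (hc : ∃ g : J, g • x = y) :
    ∃ g ∈ Subgroup.normalizer (P₁ : Set J), g • x = y := by
  obtain ⟨g, hg⟩ := hc
  obtain ⟨hP1, hwc⟩ := hW
  set H := MulAction.stabilizer J y with hH
  have h1 : P₁ ≤ H := fun a ha => MulAction.mem_stabilizer_iff.mpr (hy a ha)
  have h2 : P₁.map (MulAut.conj g).toMonoidHom ≤ H := by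
    intro a ha
    have ha' := mem_map_conj_iff.mp ha
    rw [hH, MulAction.mem_stabilizer_iff, ← hg]
    have := hx _ ha'
    calc a • g • x = g • ((g⁻¹ * a * g) • x) := by simp only [← mul_smul]; congr 1; group
      _ = g • x := by rw [this]
  have hp1 : IsPGroup p ↥P₁ := P.2.to_le hP1
  -- inside H
  have hpa : IsPGroup p ↥(P₁.subgroupOf H) := hp1.comap_subtype
  have hpb : IsPGroup p ↥((P₁.map (MulAut.conj g).toMonoidHom).subgroupOf H) := (hp1.map _).comap_subtype
  obtain ⟨Qa, hQa⟩ := hpa.exists_le_sylow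
  obtain ⟨Qb, hQb⟩ := hpb.exists_le_sylow
  obtain ⟨h, hh⟩ := sylow_conj Qb Qa
  -- Q = image of Qa in J, a p-group, inside a Sylow P' = k P k⁻¹
  have hQp : IsPGroup p ↥((Qa : Subgroup ↥H).map H.subtype) := Qa.2.map _
  obtain ⟨P', hP'⟩ := hQp.exists_le_sylow
  obtain ⟨k, hk⟩ := sylow_conj P P'
  have hA : P₁ ≤ (P' : Subgroup J) := by
    intro a ha
    exact hP' ⟨⟨a, h1 ha⟩, hQa (Subgroup.mem_subgroupOf.mpr ha), rfl⟩
  have hB : P₁.map (MulAut.conj ((h : J) * g)).toMonoidHom ≤ (P' : Subgroup J) := by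
    intro a ha
    have ha' := mem_map_conj_iff.mp ha
    -- b = h⁻¹ a h ∈ g P₁ g⁻¹
    have hb : (h : J)⁻¹ * a * h ∈ P₁.map (MulAut.conj g).toMonoidHom := by
      rw [mem_map_conj_iff]
      have : g⁻¹ * ((h : J)⁻¹ * a * h) * g = ((h : J) * g)⁻¹ * a * ((h : J) * g) := by group
      rw [this]; exact ha'
    have hbQ : (⟨(h : J)⁻¹ * a * h, h2 hb⟩ : ↥H) ∈ (Qb : Subgroup ↥H) := hQb (Subgroup.mem_subgroupOf.mpr hb)
    have hc2 : h * (⟨(h : J)⁻¹ * a * h, h2 hb⟩ : ↥H) * h⁻¹ ∈ (Qa : Subgroup ↥H) := by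
      rw [← hh]; exact conj_mem_map_conj_iff.mpr hbQ
    refine hP' ⟨_, hc2, ?_⟩
    simp only [Subgroup.subtype_apply, Subgroup.coe_mul, Subgroup.coe_inv]
    group
  -- transport with k
  have hconj : ∀ u : J, P₁.map (MulAut.conj u).toMonoidHom ≤ (P' : Subgroup J) →
      P₁.map (MulAut.conj (k⁻¹ * u)).toMonoidHom = P₁ := by
    intro u hu
    apply hwc
    intro a ha
    have ha' := mem_map_conj_iff.mp ha
    have h3 : k * a * k⁻¹ ∈ P₁.map (MulAut.conj u).toMonoidHom := by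
      rw [mem_map_conj_iff]
      have : u⁻¹ * (k * a * k⁻¹) * u = (k⁻¹ * u)⁻¹ * a * (k⁻¹ * u) := by group
      rw [this]; exact ha'
    have h4 := hu h3
    rw [← hk] at h4
    exact conj_mem_map_conj_iff.mp h4
  have e1 := hconj 1 (by
    intro a ha
    have := mem_map_conj_iff.mp ha
    apply hA
    simpa using this)
  have e2 := hconj ((h : J) * g) hB
  rw [mul_one] at e1
  -- n = h g normalizes P₁
  refine ⟨(h : J) * g, ?_, ?_⟩
  · rw [Subgroup.mem_normalizer_iff_map_conj_eq]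
    have e3 : P₁.map (MulAut.conj (k⁻¹ * ((h : J) * g))).toMonoidHom
        = (P₁.map (MulAut.conj ((h : J) * g)).toMonoidHom).map (MulAut.conj k⁻¹).toMonoidHom := by
      rw [Subgroup.map_map]; congr 1
      ext a; simp [MulAut.conj_apply, mul_assoc]
    rw [e3] at e2
    exact Subgroup.map_injective (MulAut.conj k⁻¹).injective (e2.trans e1.symm)
  · rw [mul_smul, hg]
    exact MulAction.mem_stabilizer_iff.mp h.2

end Cfsg.Agent.S3180
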