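import Mathlib
import Cfsg.Agent.Lib.Helper22.TwoCentral
import Cfsg.Statements.S3183

set_option autoImplicit false
open Cfsg

namespace Cfsg.Agent.S3183

theorem mem_centerMap {X : Type*} [Group X] {H : Subgroup X} {a : X} :
    a ∈ (Subgroup.center H).map H.subtype ↔ a ∈ H ∧ ∀ r ∈ H, r * a = a * r := by
  constructor
  · rintro ⟨⟨a, ha⟩, hz, rfl⟩
    exact ⟨ha, fun r hr => congrArg Subtype.val (Subgroup.mem_center_iff.1 hz ⟨r, hr⟩)⟩
  · rintro ⟨ha, h⟩
    exact ⟨⟨a, ha⟩, Subgroup.mem_center_iff.2 (fun r => Subtype.ext (h r r.2)), rfl⟩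

theorem key {G : Type*} [Group G] [Finite G]
    (hCI : ∀ S T : Sylow 2 G, S ≠ T → ∃ U : Sylow 2 G,
      (S : Subgroup G) ⊓ (T : Subgroup G) ≤ (Subgroup.center ↥(U : Subgroup G)).map (U : Subgroup G).subtype)
    (S U : Sylow 2 G) (x : G) (hxS : x ∈ (S : Subgroup G))
    (hxU : ∀ u ∈ (U : Subgroup G), u * x = x * u) : ∀ s ∈ (S : Subgroup G), s * x = x * s := by
  haveI : Fact (Nat.Prime 2) := ⟨Nat.prime_two⟩
  by_contra hcon
  push Not at hcon
  obtain ⟨s0, hs0, hs0x⟩ := hcon
  set E : Subgroup G := (S : Subgroup G) ⊓ Subgroup.centralizer ({x} : Set G) with hE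
  have hES : E ≤ (S : Subgroup G) := inf_le_left
  have hEp : IsPGroup 2 E := S.2.to_le hES
  have hxE : x ∈ E := ⟨hxS, Subgroup.mem_centralizer_singleton_iff.2 rfl⟩
  have hUC : (U : Subgroup G) ≤ Subgroup.centralizer ({x} : Set G) := by
    intro u hu
    rw [Subgroup.mem_centralizer_singleton_iff]; exact hxU u hu
  obtain ⟨h, hh, hhE⟩ := Cfsg.Agent.Lib.Helper22.exists_conj_le_sylow
    (Subgroup.centralizer ({x} : Set G)) U hUC (R := E) inf_le_right hEp
  rw [Subgroup.mem_centralizer_singleton_iff] at hh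
  set V : Sylow 2 G := h⁻¹ • U with hV
  have memV : ∀ y : G, y ∈ (V : Subgroup G) ↔ h * y * h⁻¹ ∈ (U : Subgroup G) := by
    intro y
    rw [hV, Cfsg.Agent.Lib.Helper22.mem_smul_sylow, inv_inv]
  have hEV : E ≤ (V : Subgroup G) := fun r hr => (memV r).2 (hhE r hr)
  have hVx : ∀ v ∈ (V : Subgroup G), v * x = x * v := by
    intro v hv
    have h1 := hxU _ ((memV v).1 hv)
    have h2 : h⁻¹ * x * h = x := by
      calc h⁻¹ * x * h = h⁻¹ * (x * h) := by group
        _ = h⁻¹ * (h * x) := by rw [hh]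
        _ = x := by group
    calc v * x = h⁻¹ * ((h * v * h⁻¹) * x) * h * (h⁻¹ * x * h)⁻¹ * x := by group
      _ = h⁻¹ * (x * (h * v * h⁻¹)) * h * (h⁻¹ * x * h)⁻¹ * x := by rw [h1]
      _ = (h⁻¹ * x * h) * v * (h⁻¹ * x * h)⁻¹ * x := by group
      _ = x * v := by rw [h2]; group
  have hSV : S ≠ V := by
    intro h0
    exact hs0x (hVx s0 (h0 ▸ hs0))
  obtain ⟨W, hW⟩ := hCI S V hSV
  have hEW : ∀ e ∈ E, e ∈ (W : Subgroup G) ∧ ∀ w ∈ (W : Subgroup G), w * e = e * w := by
    intro e he
    exact mem_centerMap.1 (hW ⟨hES he, hEV he⟩)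
  have hEne : E ≠ (S : Subgroup G) := by
    intro h0
    have : s0 ∈ E := h0 ▸ hs0
    exact hs0x (Subgroup.mem_centralizer_singleton_iff.1 this.2)
  obtain ⟨y, hyS, hyE, hyN⟩ : ∃ y : G, y ∈ (S : Subgroup G) ∧ y ∉ E ∧
      y ∈ Subgroup.normalizer (E : Set G) := by
    haveI : Group.IsNilpotent (S : Subgroup G) := S.2.isNilpotent
    have hnc := Group.normalizerCondition_of_isNilpotent (G := (S : Subgroup G))
    have hlt : E.subgroupOf (S : Subgroup G) < ⊤ := by
      rw [lt_top_iff_ne_top, Ne, Subgroup.subgroupOf_eq_top]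
      exact fun h => hEne (le_antisymm hES h)
    have h2 := hnc _ hlt
    obtain ⟨y, hy1, hy2⟩ := SetLike.exists_of_lt h2
    rw [← Subgroup.subgroupOf_normalizer_eq hES, Subgroup.mem_subgroupOf] at hy1
    rw [Subgroup.mem_subgroupOf] at hy2
    exact ⟨y, y.2, hy2, hy1⟩
  have hWN : (W : Subgroup G) ≤ Subgroup.normalizer (E : Set G) := by
    intro w hw
    have hfix : ∀ e ∈ E, w * e * w⁻¹ = e := by
      intro e he
      rw [(hEW e he).2 w hw]; group
    rw [Subgroup.mem_normalizer_iff]
    intro e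
    constructor
    · intro he
      rw [hfix e he]; exact he
    · intro he
      have h1 := hfix _ he
      have h2 : e = w * e * w⁻¹ := by
        calc e = w⁻¹ * (w * e * w⁻¹) * w := by group
          _ = w⁻¹ * (w * (w * e * w⁻¹) * w⁻¹) * w := by rw [h1]
          _ = w * e * w⁻¹ := by group
      rw [h2]; exact he
  obtain ⟨n, hn, hnR⟩ := Cfsg.Agent.Lib.Helper22.exists_conj_le_sylow
    (Subgroup.normalizer (E : Set G)) W hWN (R := Subgroup.zpowers y)
    (by rw [Subgroup.zpowers_le]; exact hyN)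
    (S.2.to_le (by rw [Subgroup.zpowers_le]; exact hyS))
  have h1 : n * y * n⁻¹ ∈ (W : Subgroup G) := hnR y (Subgroup.mem_zpowers y)
  have h2 : n * x * n⁻¹ ∈ E := (Subgroup.mem_normalizer_iff.1 hn x).1 hxE
  have h3 := (hEW _ h2).2 _ h1
  apply hyE
  refine Subgroup.mem_inf.2 ⟨hyS, ?_⟩
  rw [Subgroup.mem_centralizer_singleton_iff]
  calc y * x = n⁻¹ * ((n * y * n⁻¹) * (n * x * n⁻¹)) * n := by group
    _ = n⁻¹ * ((n * x * n⁻¹) * (n * y * n⁻¹)) * n := by rw [h3]
    _ = x * y := by group

/-- Let G be a finite group in which the intersection of any two distinct Sylow 2-subgroups is contained in the centre of some Sylow 2-subgroup, and let S be a Sylow 2-subgroup. Then for every x in S the centralizer of x in S is a Sylow 2-subgroup of the centralizer of x in G (no 2-subgroup centralizing x is larger), and for every other Sylow 2-subgroup T the intersection S ∩ T lies in both the centre of S and the centre of T. -/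
theorem result {G : Type*} [Group G] [Finite G]
    (hCI : ∀ S T : Sylow 2 G, S ≠ T → ∃ U : Sylow 2 G,
      (S : Subgroup G) ⊓ (T : Subgroup G) ≤ (Subgroup.center ↥(U : Subgroup G)).map (U : Subgroup G).subtype)
    (S : Sylow 2 G) :
    (∀ x ∈ (S : Subgroup G), ∀ P : Subgroup G, IsPGroup 2 ↥P → P ≤ Subgroup.centralizer ({x} : Set G) →
        Nat.card ↥P ≤ Nat.card ↥((S : Subgroup G) ⊓ Subgroup.centralizer ({x} : Set G))) ∧
    (∀ T : Sylow 2 G, T ≠ S →
        (S : Subgroup G) ⊓ (T : Subgroup G) ≤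
          (Subgroup.center ↥(S : Subgroup G)).map (S : Subgroup G).subtype ⊓
            (Subgroup.center ↥(T : Subgroup G)).map (T : Subgroup G).subtype) := by
  haveI : Fact (Nat.Prime 2) := ⟨Nat.prime_two⟩
  constructor
  · intro x hxS P hP hPx
    by_cases hcen : ∀ s ∈ (S : Subgroup G), s * x = x * s
    · have h1 : (S : Subgroup G) ⊓ Subgroup.centralizer ({x} : Set G) = (S : Subgroup G) := by
        rw [inf_eq_left]
        intro s hs
        rw [Subgroup.mem_centralizer_singleton_iff]; exact hcen s hs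
      rw [h1]
      obtain ⟨V, hV⟩ := hP.exists_le_sylow
      calc Nat.card P ≤ Nat.card (V : Subgroup G) := Subgroup.card_le_of_le hV
        _ = Nat.card (S : Subgroup G) := by rw [V.card_eq_multiplicity, S.card_eq_multiplicity]
    · have hzp : IsPGroup 2 (Subgroup.zpowers x) :=
        S.2.to_le (by rw [Subgroup.zpowers_le]; exact hxS)
      have hPN : P ≤ Subgroup.normalizer (Subgroup.zpowers x : Set G) := by
        intro g hg
        have hgx : g * x = x * g := Subgroup.mem_centralizer_singleton_iff.1 (hPx hg)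
        have hfix : ∀ z ∈ Subgroup.zpowers x, g * z * g⁻¹ = z := by
          rintro _ ⟨i, rfl⟩
          have hc : Commute g (x ^ i) := Commute.zpow_right hgx i
          change g * x ^ i * g⁻¹ = x ^ i
          rw [hc.eq]; group
        rw [Subgroup.mem_normalizer_iff]
        intro z
        constructor
        · intro hz
          rw [hfix z hz]; exact hz
        · intro hz
          have h1 := hfix _ hz
          have h2 : z = g * z * g⁻¹ := by
            calc z = g⁻¹ * (g * z * g⁻¹) * g := by group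
              _ = g⁻¹ * (g * (g * z * g⁻¹) * g⁻¹) * g := by rw [h1]
              _ = g * z * g⁻¹ := by group
          rw [h2]; exact hz
      have hsup := hP.to_sup_of_normal_right' hzp hPN
      obtain ⟨V, hV⟩ := hsup.exists_le_sylow
      have hVS : V = S := by
        by_contra hne
        obtain ⟨U, hU⟩ := hCI S V (Ne.symm hne)
        have hxV : x ∈ (V : Subgroup G) := hV (le_sup_right (a := P) (Subgroup.mem_zpowers x))
        have h1 := mem_centerMap.1 (hU ⟨hxS, hxV⟩)
        exact hcen (key hCI S U x hxS h1.2)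
      apply Subgroup.card_le_of_le
      refine le_inf ?_ hPx
      rw [← hVS]
      exact le_trans le_sup_left hV
  · intro T hTS x hx
    obtain ⟨U, hU⟩ := hCI S T (Ne.symm hTS)
    have h1 := mem_centerMap.1 (hU hx)
    refine ⟨?_, ?_⟩
    · exact mem_centerMap.2 ⟨hx.1, key hCI S U x hx.1 h1.2⟩
    · exact mem_centerMap.2 ⟨hx.2, key hCI T U x hx.2 h1.2⟩

end Cfsg.Agent.S3183
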