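import Mathlib
import Cfsg.Statements.S3190

set_option autoImplicit false
open Cfsg

namespace Cfsg.Agent.S3190

theorem exists_fixed_of_pgroups {X : Type*} [Group X] [Finite X] {p : ℕ} [Fact p.Prime]
    (C B : Subgroup X) (hC : IsPGroup p C) (hB : IsPGroup p B) (hB1 : B ≠ ⊥)
    (h : ∀ c ∈ C, ∀ b ∈ B, c * b * c⁻¹ ∈ B) :
    ∃ b ∈ B, b ≠ 1 ∧ ∀ c ∈ C, c * b * c⁻¹ = b := by
  letI : MulAction C B :=
    { smul := fun c b => ⟨c * b * c⁻¹, h c c.2 b b.2⟩
      one_smul := fun b => Subtype.ext (by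
        change ((1 : C) : X) * b * ((1 : C) : X)⁻¹ = b
        simp)
      mul_smul := fun c d b => Subtype.ext (by
        change ((c * d : C) : X) * b * ((c * d : C) : X)⁻¹ = (c : X) * ((d : X) * b * (d : X)⁻¹) * (c : X)⁻¹
        simp [mul_assoc]) }
  haveI : Nontrivial B := (Subgroup.nontrivial_iff_ne_bot B).2 hB1
  have dvd : p ∣ Nat.card B := by
    obtain ⟨n, hn0, hn⟩ := hB.nontrivial_iff_card.mp inferInstance
    exact hn.symm ▸ dvd_pow_self _ (ne_of_gt hn0)
  have h1 : (1 : B) ∈ MulAction.fixedPoints C B := by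
    intro c
    apply Subtype.ext
    change (c : X) * ((1 : B) : X) * (c : X)⁻¹ = ((1 : B) : X)
    simp
  obtain ⟨b, hb, hb1⟩ := hC.exists_fixed_point_of_prime_dvd_card_of_fixed_point B dvd h1
  refine ⟨b, b.2, fun h0 => hb1 (Subtype.ext h0.symm), fun c hc => ?_⟩
  exact congrArg Subtype.val (hb ⟨c, hc⟩)

theorem mem_centerMap {X : Type*} [Group X] {H : Subgroup X} {a : X} :
    a ∈ (Subgroup.center H).map H.subtype ↔ a ∈ H ∧ ∀ r ∈ H, r * a = a * r := by
  constructor
  · rintro ⟨⟨a, ha⟩, hz, rfl⟩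
    exact ⟨ha, fun r hr => congrArg Subtype.val (Subgroup.mem_center_iff.1 hz ⟨r, hr⟩)⟩
  · rintro ⟨ha, h⟩
    exact ⟨⟨a, ha⟩, Subgroup.mem_center_iff.2 (fun r => Subtype.ext (h r r.2)), rfl⟩

theorem conj_mem_centerMap {X : Type*} [Group X] {H : Subgroup X} {g a : X}
    (h1 : ∀ r ∈ H, g * r * g⁻¹ ∈ H) (h2 : ∀ r ∈ H, g⁻¹ * r * g ∈ H)
    (ha : a ∈ (Subgroup.center H).map H.subtype) :
    g * a * g⁻¹ ∈ (Subgroup.center H).map H.subtype := by
  rw [mem_centerMap] at ha ⊢
  refine ⟨h1 a ha.1, fun r hr => ?_⟩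
  have h3 := ha.2 _ (h2 r hr)
  calc r * (g * a * g⁻¹) = g * (g⁻¹ * r * g * a) * g⁻¹ := by group
    _ = g * (a * (g⁻¹ * r * g)) * g⁻¹ := by rw [h3]
    _ = g * a * g⁻¹ * r := by group

/-- Let p be an odd prime and, inside a finite group, let P be a p-subgroup normalized by a Klein four-group T. Let R be a subgroup of P, normal in P and normalized by T, such that P is the product of R with the centralizer of T in P. If T centralizes the centre of P, then T centralizes the centre of R. -/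
theorem result {X : Type*} [Group X] [Finite X]
    {p : ℕ} (hp : p.Prime) (hodd : Odd p) (P T R : Subgroup X) (hP : IsPGroup p ↥P) (hT : IsKleinFour ↥T)
    (hTP : T ≤ Subgroup.normalizer (P : Set X)) (hRP : R ≤ P) (hRn : (R.subgroupOf P).Normal)
    (hTR : T ≤ Subgroup.normalizer (R : Set X)) (hfac : R ⊔ (P ⊓ Subgroup.centralizer (T : Set X)) = P)
    (hZ : T ≤ Subgroup.centralizer (((Subgroup.center ↥P).map P.subtype : Subgroup X) : Set X)) :
    T ≤ Subgroup.centralizer (((Subgroup.center ↥R).map R.subtype : Subgroup X) : Set X) := by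
  haveI : Fact p.Prime := ⟨hp⟩
  intro t ht
  set A : Subgroup X := (Subgroup.center ↥R).map R.subtype with hA
  have htt : t * t = 1 := by
    have h1 : (⟨t, ht⟩ : T) ^ 2 = 1 := by
      rw [← hT.exponent_two]; exact Monoid.pow_exponent_eq_one _
    rw [sq] at h1
    exact congrArg Subtype.val h1
  have hti : t⁻¹ = t := inv_eq_of_mul_eq_one_left htt
  have hAcomm : ∀ a ∈ A, ∀ b ∈ A, a * b = b * a := by
    intro a ha b hb
    rw [hA, mem_centerMap] at ha hb
    exact hb.2 a ha.1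
  have hnormR : ∀ g ∈ Subgroup.normalizer (R : Set X), ∀ a ∈ A, g * a * g⁻¹ ∈ A := by
    intro g hg a ha
    apply conj_mem_centerMap _ _ ha
    · intro r hr
      exact (Subgroup.mem_normalizer_iff.1 hg r).1 hr
    · intro r hr
      exact (Subgroup.mem_normalizer_iff''.1 hg r).1 hr
  have hPR : P ≤ Subgroup.normalizer (R : Set X) := by
    rw [← Subgroup.normal_subgroupOf_iff_le_normalizer hRP]
    exact hRn
  let B : Subgroup X :=
    { carrier := {a | a ∈ A ∧ t * a * t⁻¹ = a⁻¹}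
      one_mem' := ⟨A.one_mem, by simp⟩
      mul_mem' := by
        rintro a b ⟨ha, ha'⟩ ⟨hb, hb'⟩
        refine ⟨A.mul_mem ha hb, ?_⟩
        calc t * (a * b) * t⁻¹ = (t * a * t⁻¹) * (t * b * t⁻¹) := by group
          _ = a⁻¹ * b⁻¹ := by rw [ha', hb']
          _ = (b * a)⁻¹ := by group
          _ = (a * b)⁻¹ := by rw [hAcomm a ha b hb]
      inv_mem' := by
        rintro a ⟨ha, ha'⟩
        refine ⟨A.inv_mem ha, ?_⟩
        calc t * a⁻¹ * t⁻¹ = (t * a * t⁻¹)⁻¹ := by group
          _ = a⁻¹⁻¹ := by rw [ha'] }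
  have hBA : ∀ b ∈ B, b ∈ A := fun b hb => hb.1
  have hAR : A ≤ R := by
    intro a ha
    rw [hA, mem_centerMap] at ha
    exact ha.1
  set C : Subgroup X := P ⊓ Subgroup.centralizer (T : Set X) with hC
  have hBbot : B = ⊥ := by
    by_contra hB1
    have hBP : B ≤ P := fun b hb => hRP (hAR (hBA b hb))
    obtain ⟨b, hb, hb1, hbfix⟩ := exists_fixed_of_pgroups C B (hP.to_le inf_le_left) (hP.to_le hBP) hB1
      (by
        intro c hc b hb
        refine ⟨hnormR c (hPR hc.1) b hb.1, ?_⟩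
        have hct : t * c = c * t := (Subgroup.mem_centralizer_iff.1 hc.2) t ht
        have hct' : t * c⁻¹ = c⁻¹ * t := by
          calc t * c⁻¹ = c⁻¹ * (c * t) * c⁻¹ := by group
            _ = c⁻¹ * (t * c) * c⁻¹ := by rw [hct]
            _ = c⁻¹ * t := by group
        calc t * (c * b * c⁻¹) * t⁻¹ = (t * c) * b * (t * c)⁻¹ := by group
          _ = c * (t * b * t⁻¹) * c⁻¹ := by rw [hct]; group
          _ = (c * b * c⁻¹)⁻¹ := by rw [hb.2]; group)
    have hbA := hBA b hb
    have hbA' := hbA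
    rw [hA, mem_centerMap] at hbA'
    have hle : P ≤ Subgroup.centralizer ({b} : Set X) := by
      rw [← hfac, sup_le_iff]
      constructor
      · intro r hr
        rw [Subgroup.mem_centralizer_singleton_iff]
        exact hbA'.2 r hr
      · intro c hc
        rw [Subgroup.mem_centralizer_singleton_iff]
        calc c * b = (c * b * c⁻¹) * c := by group
          _ = b * c := by rw [hbfix c hc]
    have hbZ : b ∈ (Subgroup.center ↥P).map P.subtype := by
      rw [mem_centerMap]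
      refine ⟨hBP hb, fun r hr => ?_⟩
      exact Subgroup.mem_centralizer_singleton_iff.1 (hle hr)
    have htb : b * t = t * b := (Subgroup.mem_centralizer_iff.1 (hZ ht)) b hbZ
    have hbb : b = b⁻¹ := by
      rw [← hb.2, ← htb]; group
    have hb2 : b ^ 2 = 1 := by
      rw [sq]
      nth_rewrite 1 [hbb]
      exact inv_mul_cancel b
    obtain ⟨k, hk⟩ := hP ⟨b, hBP hb⟩
    have hk' : b ^ p ^ k = 1 := by simpa using congrArg Subtype.val hk
    have h1 : orderOf b ∣ 2 := orderOf_dvd_of_pow_eq_one hb2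
    have h2 : orderOf b ∣ p ^ k := orderOf_dvd_of_pow_eq_one hk'
    have hcop : Nat.Coprime 2 (p ^ k) := by
      apply Nat.Coprime.pow_right
      rw [Nat.coprime_two_left]
      exact hodd
    have h3 : orderOf b = 1 := Nat.eq_one_of_dvd_coprimes hcop h1 h2
    exact hb1 (orderOf_eq_one_iff.1 h3)
  rw [Subgroup.mem_centralizer_iff]
  intro a ha
  have hta : t * a * t⁻¹ ∈ A := hnormR t (hTR ht) a ha
  have hw : a * (t * a * t⁻¹)⁻¹ ∈ B := by
    refine ⟨A.mul_mem ha (A.inv_mem hta), ?_⟩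
    calc t * (a * (t * a * t⁻¹)⁻¹) * t⁻¹ = (t * a * t⁻¹) * ((t * t) * a⁻¹ * (t * t)⁻¹) := by group
      _ = (t * a * t⁻¹) * a⁻¹ := by rw [htt]; group
      _ = (a * (t * a * t⁻¹)⁻¹)⁻¹ := by group
  rw [hBbot, Subgroup.mem_bot] at hw
  have h5 : a = t * a * t⁻¹ := by
    calc a = a * (t * a * t⁻¹)⁻¹ * (t * a * t⁻¹) := by group
      _ = t * a * t⁻¹ := by rw [hw, one_mul]
  calc a * t = (t * a * t⁻¹) * t := by rw [← h5]
    _ = t * a := by group

end Cfsg.Agent.S3190
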