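import Cfsg.Statements.S3195
import Cfsg.Agent.Lib.Helper17.Sidki

set_option autoImplicit false
open Cfsg

namespace Cfsg.Agent.S3195

open Cfsg.Agent.Lib.Helper17

/-- Let A be a Klein four-subgroup of a finite group G. If every G-conjugate of every involution of A commutes with some involution of A (its centralizer meets A nontrivially), then A meets the largest normal 2-subgroup O₂(G) nontrivially. -/
theorem result {G : Type*} [Group G] [Finite G]
    (A : Subgroup G) (hA : IsKleinFour ↥A)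
    (h : ∀ a ∈ A, a ≠ 1 → ∀ g : G, A ⊓ Subgroup.centralizer ({g * a * g⁻¹} : Set G) ≠ ⊥) :
    A ⊓ Cfsg.pCore 2 G ≠ ⊥ := by
  have hcomm : IsMulCommutative ↥A := IsKleinFour.isMulCommutative
  have hsq : ∀ v ∈ A, v * v = 1 := by
    intro v hv
    have h1 := IsKleinFour.mul_self (⟨v, hv⟩ : ↥A)
    exact congrArg Subtype.val h1
  have hcard : Nat.card ↥A = 4 := hA.card_four
  have hne : A ≠ ⊥ := by
    intro hb
    rw [hb, Subgroup.card_bot] at hcard
    omega
  apply sidki_le_four A ⟨hcomm, fun a ha => by rw [pow_two]; exact hsq a ha⟩ hne ?_ hcard.le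
  intro k v hv hko hinv
  by_cases hv1 : v = 1
  · -- then k = 1
    subst hv1
    have hk1 : k = 1 := eq_one_of_inverted_of_commute hko hinv (by simp)
    obtain ⟨w, hw⟩ := Subgroup.ne_bot_iff_exists_ne_one.mp hne
    exact ⟨w, w.2, fun h' => hw (Subtype.ext h'), by rw [hk1]; simp⟩
  · obtain ⟨n, hn⟩ := exists_sqrt_of_odd hko
    obtain ⟨x, hx⟩ : ∃ x, x = k ^ n := ⟨_, rfl⟩
    rw [← hx] at hn
    have hvx : v * x * v⁻¹ = x⁻¹ := by
      rw [hx, ← conj_pow, hinv, inv_pow]
    have hxv : x * v * x⁻¹ = k * v := by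
      have h1 : v * x⁻¹ * v⁻¹ = x := by
        have h2 := congrArg (·⁻¹) hvx
        simpa [mul_assoc] using h2
      have h3 : v * x⁻¹ = x * v := eq_mul_of_mul_inv_eq h1
      rw [mul_assoc, h3, ← mul_assoc, hn]
    have h5 := h v hv hv1 x
    obtain ⟨w', hw'⟩ := Subgroup.ne_bot_iff_exists_ne_one.mp h5
    obtain ⟨w, hww⟩ : ∃ w : G, w = w'.1 := ⟨_, rfl⟩
    have hw1 : w ≠ 1 := fun h' => hw' (Subtype.ext (by rw [← hww]; exact h'))
    obtain ⟨hwA, hwC⟩ : w ∈ A ∧ w ∈ Subgroup.centralizer {x * v * x⁻¹} := by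
      rw [hww]; exact Subgroup.mem_inf.mp w'.2
    clear hww hw' w'
    refine ⟨w, hwA, hw1, ?_⟩
    rw [Subgroup.mem_centralizer_iff] at hwC
    have h6 := hwC (x * v * x⁻¹) rfl
    rw [hxv] at h6
    have h7 : w * v = v * w := setLike_mul_comm hwA hv
    have h8 : w * k * v = k * w * v := by
      calc w * k * v = w * (k * v) := by group
        _ = k * (v * w) := by rw [← h6]; group
        _ = k * w * v := by rw [← h7]; group
    exact mul_right_cancel h8

end Cfsg.Agent.S3195
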