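import Mathlib
import Cfsg.Agent.Lib.Helper12.Cores
import Cfsg.Statements.S3196

set_option autoImplicit false
open Cfsg

namespace Cfsg.Agent.S3196

section helpers
variable {G : Type*} [Group G]

theorem conj_pow_pow {c a : G} {k : ℕ} (h : c * a * c⁻¹ = a ^ k) (i : ℕ) :
    c ^ i * a * (c ^ i)⁻¹ = a ^ (k ^ i) := by
  induction i with
  | zero => simp
  | succ i ih =>
    calc c ^ (i + 1) * a * (c ^ (i + 1))⁻¹ = c * (c ^ i * a * (c ^ i)⁻¹) * c⁻¹ := by
          rw [pow_succ']; group
      _ = c * a ^ (k ^ i) * c⁻¹ := by rw [ih]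
      _ = (c * a * c⁻¹) ^ (k ^ i) := by rw [conj_pow]
      _ = a ^ (k ^ (i + 1)) := by rw [h, ← pow_mul, pow_succ']

theorem mem_zp {p : ℕ} (hp : p.Prime) {A : Subgroup G} (hA : Nat.card A = p) {a x : G}
    (ha : a ∈ A) (ha1 : a ≠ 1) (hx : x ∈ A) : x ∈ Subgroup.zpowers a := by
  haveI := Fact.mk hp
  have h := mem_zpowers_of_prime_card (G := A) hA (g := ⟨a, ha⟩) (g' := ⟨x, hx⟩)
    (by intro h; exact ha1 (by simpa using congrArg Subtype.val h))
  obtain ⟨k, hk⟩ := Subgroup.mem_zpowers_iff.1 h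
  exact Subgroup.mem_zpowers_iff.2 ⟨k, by simpa using congrArg Subtype.val hk⟩

theorem comm_gen {p : ℕ} (hp : p.Prime) {A : Subgroup G} (hA : Nat.card A = p) {a g : G}
    (ha : a ∈ A) (ha1 : a ≠ 1) (h : g * a = a * g) : ∀ x ∈ A, g * x = x * g := by
  intro x hx
  obtain ⟨k, rfl⟩ := Subgroup.mem_zpowers_iff.1 (mem_zp hp hA ha ha1 hx)
  exact (Commute.zpow_right (show Commute g a from h) k).eq

theorem abel {p : ℕ} (hp : p.Prime) {A : Subgroup G} (hA : Nat.card A = p) :
    ∀ x ∈ A, ∀ y ∈ A, x * y = y * x := by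
  intro x hx y hy
  by_cases hx1 : x = 1
  · simp [hx1]
  · exact comm_gen hp hA hx hx1 rfl y hy

theorem pow_p {p : ℕ} {A : Subgroup G} (hA : Nat.card A = p) {x : G} (hx : x ∈ A) : x ^ p = 1 := by
  have := pow_card_eq_one' (G := A) (x := ⟨x, hx⟩)
  rw [hA] at this
  simpa using congrArg Subtype.val this

theorem exists_of_ne_bot {H : Subgroup G} (h : H ≠ ⊥) : ∃ x ∈ H, x ≠ 1 := by
  by_contra hc
  push Not at hc
  exact h ((Subgroup.eq_bot_iff_forall _).2 hc)

theorem ne_bot_of_card {p : ℕ} (hp : p.Prime) {A : Subgroup G} (hA : Nat.card A = p) : A ≠ ⊥ := by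
  intro h
  rw [h] at hA
  simp at hA
  exact hp.one_lt.ne hA

theorem zp_comm {s g : G} (h : s * g = g * s) : ∀ u ∈ Subgroup.zpowers s, u * g = g * u := by
  intro u hu
  obtain ⟨k, rfl⟩ := Subgroup.mem_zpowers_iff.1 hu
  exact (Commute.zpow_left (show Commute s g from h) k).eq

theorem mem_sup_cm {A B : Subgroup G} (h : ∀ a ∈ A, ∀ b ∈ B, a * b = b * a) {x : G}
    (hx : x ∈ A ⊔ B) : ∃ a ∈ A, ∃ b ∈ B, x = a * b := by
  let S : Subgroup G :=
    { carrier := {x | ∃ a ∈ A, ∃ b ∈ B, x = a * b}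
      one_mem' := ⟨1, A.one_mem, 1, B.one_mem, by simp⟩
      mul_mem' := by
        rintro _ _ ⟨a, ha, b, hb, rfl⟩ ⟨a', ha', b', hb', rfl⟩
        refine ⟨a * a', A.mul_mem ha ha', b * b', B.mul_mem hb hb', ?_⟩
        calc a * b * (a' * b') = a * (b * a') * b' := by group
          _ = a * (a' * b) * b' := by rw [h a' ha' b hb]
          _ = a * a' * (b * b') := by group
      inv_mem' := by
        rintro _ ⟨a, ha, b, hb, rfl⟩
        refine ⟨a⁻¹, A.inv_mem ha, b⁻¹, B.inv_mem hb, ?_⟩
        rw [h a ha b hb]; group }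
  have : A ⊔ B ≤ S := sup_le (fun a ha => ⟨a, ha, 1, B.one_mem, by simp⟩)
    (fun b hb => ⟨1, A.one_mem, b, hb, by simp⟩)
  exact this hx

theorem card_cases [Finite G] {p : ℕ} (hp : p.Prime) {M N : Subgroup G} (hN : Nat.card N = p ^ 2)
    (hMN : M ≤ N) : Nat.card M = 1 ∨ Nat.card M = p ∨ Nat.card M = p ^ 2 := by
  have h := Subgroup.card_dvd_of_le hMN
  rw [hN] at h
  obtain ⟨m, hm, h⟩ := (Nat.dvd_prime_pow hp).1 h
  interval_cases m
  · left; simpa using h
  · right; left; simpa using h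
  · right; right; exact h

theorem card_sup [Finite G] {p : ℕ} (hp : p.Prime) {A B : Subgroup G} (hA : Nat.card A = p)
    (hB : Nat.card B = p) (hne : A ≠ B) (h : ∀ a ∈ A, ∀ b ∈ B, a * b = b * a) :
    Nat.card (A ⊔ B : Subgroup G) = p ^ 2 := by
  have hcm : ∀ (m : A) (n : B), Commute (A.subtype m) (B.subtype n) := fun a b => h a a.2 b b.2
  let f : A × B →* G := A.subtype.noncommCoprod B.subtype hcm
  have hr : f.range = A ⊔ B := by
    have := MonoidHom.noncommCoprod_range A.subtype B.subtype hcm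
    simpa using this
  have hd : Nat.card (A ⊔ B : Subgroup G) ∣ p ^ 2 := by
    rw [← hr]
    have := Subgroup.card_range_dvd f
    rwa [Nat.card_prod, hA, hB, ← sq] at this
  obtain ⟨m, hm, hc⟩ := (Nat.dvd_prime_pow hp).1 hd
  have hle : A ≤ A ⊔ B := le_sup_left
  interval_cases m
  · exfalso
    have := Subgroup.card_le_of_le hle
    rw [hc, hA] at this
    simp at this
    exact absurd hp.one_lt (by omega)
  · exfalso
    have hAe : A = A ⊔ B := Subgroup.eq_of_le_of_card_ge hle (by rw [hc, hA]; simp)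
    have hBA : B ≤ A := by rw [hAe]; exact le_sup_right
    exact hne (Subgroup.eq_of_le_of_card_ge hBA (by rw [hA, hB])).symm
  · exact hc

theorem comm_of_normalize [Finite G] {p : ℕ} (hp : p.Prime) {M : Subgroup G} (hM : Nat.card M = p)
    {c : G} (hc : c ^ p = 1) (hn : ∀ m ∈ M, c * m * c⁻¹ ∈ M) : ∀ m ∈ M, c * m = m * c := by
  haveI := Fact.mk hp
  obtain ⟨a, ha, ha1⟩ := exists_of_ne_bot (ne_bot_of_card hp hM)
  have h1 : c * a * c⁻¹ ∈ Subgroup.zpowers a := mem_zp hp hM ha ha1 (hn a ha)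
  rw [← mem_powers_iff_mem_zpowers] at h1
  obtain ⟨k, hk⟩ := h1
  have hk' : c * a * c⁻¹ = a ^ k := hk.symm
  have h2 := conj_pow_pow hk' p
  rw [hc] at h2
  simp only [one_mul, inv_one, mul_one] at h2
  have ho : orderOf a = p := orderOf_eq_prime (pow_p hM ha) ha1
  have h3 : k ^ p ≡ 1 [MOD p] := by
    have : a ^ (k ^ p) = a ^ 1 := by rw [← h2, pow_one]
    rwa [pow_eq_pow_iff_modEq, ho] at this
  have h4 : k ^ p ≡ k [MOD p] := by
    rw [← ZMod.natCast_eq_natCast_iff]
    push_cast
    exact ZMod.pow_card _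
  have h5 : k ≡ 1 [MOD p] := h4.symm.trans h3
  have h6 : a ^ k = a ^ 1 := by rw [pow_eq_pow_iff_modEq, ho]; exact h5
  have h7 : c * a = a * c := by
    rw [h6, pow_one] at hk'
    calc c * a = c * a * c⁻¹ * c := by group
      _ = a * c := by rw [hk']
  exact comm_gen hp hM ha ha1 h7

end helpers

/-- Let p be a prime and K a set of subgroups of order p of a finite group G, closed under conjugation, such that at least two distinct members of K commute elementwise, and whenever two distinct members X, Y of K commute: every subgroup of order p of the group XY they generate belongs to K, and every member W of K has centralizer meeting XY nontrivially. Then some member V of K commutes elementwise with every member of K and lies in O_p(G); in particular G is not simple. -/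
theorem result {G : Type*} [Group G] [Finite G]
    {p : ℕ} (hp : p.Prime) (K : Set (Subgroup G)) (hK : ∀ X ∈ K, Nat.card ↥X = p)
    (hKc : ∀ X ∈ K, ∀ g : G, X.map (MulAut.conj g).toMonoidHom ∈ K)
    (hex : ∃ X ∈ K, ∃ Y ∈ K, X ≠ Y ∧ ∀ x ∈ X, ∀ y ∈ Y, x * y = y * x)
    (ha : ∀ X ∈ K, ∀ Y ∈ K, X ≠ Y → (∀ x ∈ X, ∀ y ∈ Y, x * y = y * x) →
      ∀ Z : Subgroup G, Z ≤ X ⊔ Y → Nat.card ↥Z = p → Z ∈ K)
    (hb : ∀ X ∈ K, ∀ Y ∈ K, X ≠ Y → (∀ x ∈ X, ∀ y ∈ Y, x * y = y * x) →
      ∀ W ∈ K, (X ⊔ Y) ⊓ Subgroup.centralizer (W : Set G) ≠ ⊥) :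
    (∃ V ∈ K, (∀ W ∈ K, ∀ v ∈ V, ∀ w ∈ W, v * w = w * v) ∧ V ≤ Cfsg.pCore p G) ∧ ¬ IsSimpleGroup G := by
  classical
  haveI := Fact.mk hp
  let perp : Subgroup G → Set (Subgroup G) :=
    fun X => {U | U ∈ K ∧ ∀ u ∈ U, ∀ x ∈ X, u * x = x * u}
  obtain ⟨X0, hX0, Y0, hY0, hXY0, hcXY0⟩ := hex
  haveI : Nonempty K := ⟨⟨X0, hX0⟩⟩
  obtain ⟨⟨V, hV⟩, hVmax⟩ := Finite.exists_max (fun X : K => (perp X.1).ncard)
  have line : ∀ X ∈ K, ∀ Y ∈ K, X ≠ Y → (∀ x ∈ X, ∀ y ∈ Y, x * y = y * x) →
      ∀ s ∈ X ⊔ Y, s ≠ 1 → Subgroup.zpowers s ∈ K := by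
    intro X hX Y hY hne hc s hs hs1
    refine ha X hX Y hY hne hc _ (by rwa [Subgroup.zpowers_le]) ?_
    obtain ⟨x, hx, y, hy, rfl⟩ := mem_sup_cm hc hs
    rw [Nat.card_zpowers]
    apply orderOf_eq_prime _ hs1
    rw [(show Commute x y from hc x hx y hy).mul_pow, pow_p (hK X hX) hx, pow_p (hK Y hY) hy,
      one_mul]
  have key : ∀ W ∈ K, ∀ w ∈ W, ∀ v ∈ V, w * v = v * w := by
    by_contra hcon
    push Not at hcon
    obtain ⟨W, hW, w1, hw1, v1, hv1m, hne⟩ := hcon
    have suff : ∀ T ∈ K, (∀ U ∈ K, (∀ u ∈ U, ∀ x ∈ V, u * x = x * u) →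
        ∀ u ∈ U, ∀ x ∈ T, u * x = x * u) → (∀ u ∈ W, ∀ x ∈ T, u * x = x * u) → False := by
      intro T hT h1 h2
      have hss : perp V ⊂ perp T := by
        refine ⟨fun U hU => ⟨hU.1, h1 U hU.1 hU.2⟩, fun hsub => ?_⟩
        have : W ∈ perp V := hsub ⟨hW, h2⟩
        exact hne (this.2 w1 hw1 v1 hv1m)
      have := Set.ncard_lt_ncard hss (Set.toFinite _)
      exact absurd (hVmax ⟨T, hT⟩) (not_le.2 this)
    have hVW : ∀ g ∈ V, g ≠ 1 → ¬ ∀ w ∈ W, g * w = w * g := by
      intro g hg hg1 hall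
      exact hne (comm_gen hp (hK V hV) hg hg1 (hall w1 hw1).symm v1 hv1m)
    -- a second point collinear with V
    obtain ⟨Y1, hY1, hVY1, hcVY1⟩ : ∃ Y1 ∈ K, V ≠ Y1 ∧ ∀ x ∈ V, ∀ y ∈ Y1, x * y = y * x := by
      obtain ⟨s, hs, hs1⟩ := exists_of_ne_bot (hb X0 hX0 Y0 hY0 hXY0 hcXY0 V hV)
      have hsN := (Subgroup.mem_inf.1 hs).1
      have hsC := Subgroup.mem_centralizer_iff.1 (Subgroup.mem_inf.1 hs).2
      by_cases hSV : V = Subgroup.zpowers s
      · obtain ⟨x, hx, y, hy, rfl⟩ := mem_sup_cm hcXY0 hsN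
        have c1 : ∀ a ∈ X0, (x * y) * a = a * (x * y) := by
          intro a ha'
          have e1 : Commute x a := abel hp (hK X0 hX0) x hx a ha'
          have e2 : Commute y a := (hcXY0 a ha' y hy).symm
          exact (e1.mul_left e2).eq
        have c2 : ∀ a ∈ Y0, (x * y) * a = a * (x * y) := by
          intro a ha'
          have e1 : Commute x a := hcXY0 x hx a ha'
          have e2 : Commute y a := abel hp (hK Y0 hY0) y hy a ha'
          exact (e1.mul_left e2).eq
        by_cases hVX : V = X0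
        · refine ⟨Y0, hY0, hVX ▸ hXY0, ?_⟩
          intro u hu a ha'
          rw [hSV] at hu
          exact zp_comm (c2 a ha') u hu
        · refine ⟨X0, hX0, hVX, ?_⟩
          intro u hu a ha'
          rw [hSV] at hu
          exact zp_comm (c1 a ha') u hu
      · refine ⟨_, line X0 hX0 Y0 hY0 hXY0 hcXY0 s hsN hs1, hSV, ?_⟩
        intro u hu a ha'
        exact (zp_comm (hsC u hu).symm a ha').symm
    obtain ⟨v, hv, hv1⟩ := exists_of_ne_bot (ne_bot_of_card hp (hK V hV))
    obtain ⟨z, hz, hz1⟩ := exists_of_ne_bot (hb V hV Y1 hY1 hVY1 hcVY1 W hW)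
    have hzN := (Subgroup.mem_inf.1 hz).1
    have hzW : ∀ w ∈ W, w * z = z * w := Subgroup.mem_centralizer_iff.1 (Subgroup.mem_inf.1 hz).2
    have hvz : Commute v z := by
      obtain ⟨x, hx, y, hy, rfl⟩ := mem_sup_cm hcVY1 hzN
      have e1 : Commute v x := abel hp (hK V hV) v hv x hx
      have e2 : Commute v y := hcVY1 v hv y hy
      exact e1.mul_right e2
    obtain ⟨y, hydef⟩ : ∃ y, y = v⁻¹ * z := ⟨_, rfl⟩
    have hzvy : z = v * y := by rw [hydef]; group
    have hvy : Commute v y := by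
      rw [hydef]; exact (Commute.inv_right (Commute.refl v)).mul_right hvz
    have hyN : y ∈ V ⊔ Y1 := by
      rw [hydef]
      exact (V ⊔ Y1).mul_mem ((V ⊔ Y1).inv_mem ((le_sup_left : V ≤ V ⊔ Y1) hv)) hzN
    have hyW : ¬ ∀ w ∈ W, y * w = w * y := by
      intro hall
      apply hVW v hv hv1
      intro w hw
      have e1 : Commute z w := (hzW w hw).symm
      have e2 : Commute y w := hall w hw
      have : v = z * y⁻¹ := by rw [hzvy]; group
      rw [this]
      exact (e1.mul_left e2.inv_left).eq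
    have hy1 : y ≠ 1 := by
      intro h
      apply hyW
      intro w _
      simp [h]
    have hYK : Subgroup.zpowers y ∈ K := line V hV Y1 hY1 hVY1 hcVY1 y hyN hy1
    have hZK : Subgroup.zpowers z ∈ K := line V hV Y1 hY1 hVY1 hcVY1 z hzN hz1
    have hyV : ∀ x ∈ V, y * x = x * y := comm_gen hp (hK V hV) hv hv1 hvy.symm.eq
    have hzV : ∀ x ∈ V, z * x = x * z := comm_gen hp (hK V hV) hv hv1 hvz.symm.eq
    have R1 : ∀ w ∈ W, y * w * y⁻¹ = v⁻¹ * w * v := by
      intro w hw
      have e1 : z * w * z⁻¹ = w := by rw [← hzW w hw]; group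
      calc y * w * y⁻¹ = v⁻¹ * (z * w * z⁻¹) * v := by rw [hydef]; group
        _ = v⁻¹ * w * v := by rw [e1]
    by_cases hWW : ∀ a ∈ W, ∀ b ∈ W, a * (v⁻¹ * b * v) = (v⁻¹ * b * v) * a
    · -- case (i)
      set W' : Subgroup G := W.map (MulAut.conj v⁻¹).toMonoidHom with hW'def
      have hW'K : W' ∈ K := hKc W hW v⁻¹
      have memW' : ∀ b ∈ W, v⁻¹ * b * v ∈ W' := by
        intro b hb'
        refine Subgroup.mem_map.2 ⟨b, hb', ?_⟩
        simp [MulAut.conj_apply]
      have memW'2 : ∀ x ∈ W', ∃ b ∈ W, x = v⁻¹ * b * v := by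
        intro x hx
        obtain ⟨b, hb', rfl⟩ := Subgroup.mem_map.1 hx
        exact ⟨b, hb', by simp [MulAut.conj_apply]⟩
      have hvp : v⁻¹ ^ p = 1 := by rw [inv_pow, pow_p (hK V hV) hv, inv_one]
      have hWneW' : W ≠ W' := by
        intro h
        have hn : ∀ m ∈ W, v⁻¹ * m * v⁻¹⁻¹ ∈ W := by
          intro m hm
          rw [inv_inv]
          have := memW' m hm
          rwa [← h] at this
        have := comm_of_normalize hp (hK W hW) hvp hn
        apply hVW v hv hv1
        intro w hw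
        have e : Commute v⁻¹ w := this w hw
        exact (Commute.inv_left_iff.1 e).eq
      have hcWW' : ∀ a ∈ W, ∀ x ∈ W', a * x = x * a := by
        intro a ha' x hx
        obtain ⟨b, hb', rfl⟩ := memW'2 x hx
        exact hWW a ha' b hb'
      have hNcard : Nat.card (W ⊔ W' : Subgroup G) = p ^ 2 :=
        card_sup hp (hK W hW) (hK W' hW'K) hWneW' hcWW'
      set T : Subgroup G := (W ⊔ W') ⊓ Subgroup.centralizer (V : Set G) with hTdef
      have hTbot : T ≠ ⊥ := hb W hW W' hW'K hWneW' hcWW' V hV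
      have hTN : T ≤ W ⊔ W' := inf_le_left
      have hTV : ∀ t ∈ T, ∀ x ∈ V, x * t = t * x := fun t ht x hx =>
        Subgroup.mem_centralizer_iff.1 (Subgroup.mem_inf.1 ht).2 x hx
      have hTcard : Nat.card T = p := by
        rcases card_cases hp hNcard hTN with h | h | h
        · exact absurd (Subgroup.card_eq_one.1 h) hTbot
        · exact h
        · exfalso
          have hTe : T = W ⊔ W' := Subgroup.eq_of_le_of_card_ge hTN (by rw [h, hNcard])
          apply hVW v hv hv1
          intro w hw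
          have : w ∈ T := by rw [hTe]; exact (le_sup_left : W ≤ W ⊔ W') hw
          exact hTV w this v hv
      have hTK : T ∈ K := ha W hW W' hW'K hWneW' hcWW' T hTN hTcard
      have hWT : ∀ u ∈ W, ∀ x ∈ T, u * x = x * u := by
        intro u hu x hx
        obtain ⟨a, ha', b, hb', rfl⟩ := mem_sup_cm hcWW' (hTN hx)
        have e1 : Commute u a := abel hp (hK W hW) u hu a ha'
        have e2 : Commute u b := hcWW' u hu b hb'
        exact (e1.mul_right e2).eq
      have hWneT : W ≠ T := by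
        intro h
        apply hVW v hv hv1
        intro w hw
        rw [h] at hw
        exact hTV w hw v hv
      have hNWT : W ⊔ T = W ⊔ W' := by
        apply Subgroup.eq_of_le_of_card_ge (sup_le le_sup_left hTN)
        rw [hNcard, card_sup hp (hK W hW) hTcard hWneT hWT]
      have hconjN : ∀ n ∈ W ⊔ W', v⁻¹ * n * v ∈ W ⊔ W' := by
        intro n hn
        rw [← hNWT] at hn
        obtain ⟨a, ha', t, ht, rfl⟩ := mem_sup_cm hWT hn
        have e : v⁻¹ * (a * t) * v = (v⁻¹ * a * v) * t := by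
          have : v * t = t * v := hTV t ht v hv
          calc v⁻¹ * (a * t) * v = v⁻¹ * a * (t * v) := by group
            _ = v⁻¹ * a * (v * t) := by rw [this]
            _ = (v⁻¹ * a * v) * t := by group
        rw [e]
        exact (W ⊔ W').mul_mem ((le_sup_right : W' ≤ W ⊔ W') (memW' a ha')) (hTN ht)
      apply suff T hTK _ hWT
      intro U hU hUV
      set M : Subgroup G := (W ⊔ W') ⊓ Subgroup.centralizer (U : Set G) with hMdef
      have hMbot : M ≠ ⊥ := hb W hW W' hW'K hWneW' hcWW' U hU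
      have hMN : M ≤ W ⊔ W' := inf_le_left
      have hMU : ∀ m ∈ M, ∀ u ∈ U, u * m = m * u := fun m hm u hu =>
        Subgroup.mem_centralizer_iff.1 (Subgroup.mem_inf.1 hm).2 u hu
      have hTM : T ≤ M := by
        rcases card_cases hp hNcard hMN with h | h | h
        · exact absurd (Subgroup.card_eq_one.1 h) hMbot
        · have hn : ∀ m ∈ M, v⁻¹ * m * v⁻¹⁻¹ ∈ M := by
            intro m hm
            rw [inv_inv]
            refine Subgroup.mem_inf.2 ⟨hconjN m (hMN hm), Subgroup.mem_centralizer_iff.2 ?_⟩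
            intro u hu
            have e1 : Commute u v := hUV u hu v hv
            have e2 : Commute u m := hMU m hm u hu
            exact ((e1.inv_right.mul_right e2).mul_right e1).eq
          have hc := comm_of_normalize hp h hvp hn
          have hMT : M ≤ T := by
            intro m hm
            refine Subgroup.mem_inf.2 ⟨hMN hm, Subgroup.mem_centralizer_iff.2 ?_⟩
            intro x hx
            have e : Commute v m := Commute.inv_left_iff.1 (hc m hm)
            exact (comm_gen hp (hK V hV) hv hv1 e.symm.eq x hx).symm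
          exact (Subgroup.eq_of_le_of_card_ge hMT (by rw [h, hTcard])).ge
        · have : M = W ⊔ W' := Subgroup.eq_of_le_of_card_ge hMN (by rw [h, hNcard])
          rw [this]; exact hTN
      intro u hu x hx
      exact hMU x (hTM hx) u hu
    · -- case (ii)
      have claim : ∀ U ∈ K, (∀ u ∈ U, ∀ x ∈ V, u * x = x * u) →
          (∀ u ∈ U, ∀ x ∈ W, u * x = x * u) → ∀ u ∈ U, u * y = y * u := by
        intro U hU hUV hUW
        by_contra hcon
        push Not at hcon
        obtain ⟨u0, hu0, hu0y⟩ := hcon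
        apply hWW
        have hUneW : U ≠ W := by
          intro h
          rw [h] at hUV
          exact hne (hUV w1 hw1 v1 hv1m)
        obtain ⟨s, hs, hs1⟩ := exists_of_ne_bot (hb U hU W hW hUneW hUW _ hYK)
        have hsy : y * s = s * y :=
          Subgroup.mem_centralizer_iff.1 (Subgroup.mem_inf.1 hs).2 y (Subgroup.mem_zpowers y)
        obtain ⟨u, hu, w0, hw0, rfl⟩ := mem_sup_cm hUW (Subgroup.mem_inf.1 hs).1
        have hw01 : w0 ≠ 1 := by
          intro h
          rw [h, mul_one] at hsy hs1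
          exact hu0y (comm_gen hp (hK U hU) hu hs1 hsy u0 hu0).symm
        have c1 : Commute u w0 := hUW u hu w0 hw0
        have c2 : Commute u v := hUV u hu v hv
        have c4 : Commute z w0 := (hzW w0 hw0).symm
        have E1 : (y * u * y⁻¹) * (v⁻¹ * w0 * v) = u * w0 := by
          rw [← R1 w0 hw0]
          calc y * u * y⁻¹ * (y * w0 * y⁻¹) = (y * (u * w0)) * y⁻¹ := by group
            _ = (u * w0) * y * y⁻¹ := by rw [hsy]
            _ = u * w0 := by group
        have c5 : Commute (y * u * y⁻¹) w0 := by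
          have R2 : y * (v * w0 * v⁻¹) * y⁻¹ = w0 := by
            have e1 : z * (v * w0 * v⁻¹) * z⁻¹ = v * w0 * v⁻¹ := by
              have : Commute z (v * w0 * v⁻¹) :=
                (hvz.symm.mul_right c4).mul_right hvz.symm.inv_right
              rw [this.eq]; group
            calc y * (v * w0 * v⁻¹) * y⁻¹ = v⁻¹ * (z * (v * w0 * v⁻¹) * z⁻¹) * v := by
                  rw [hydef]; group
              _ = v⁻¹ * (v * w0 * v⁻¹) * v := by rw [e1]
              _ = w0 := by group
          have : Commute (y * u * y⁻¹) (y * (v * w0 * v⁻¹) * y⁻¹) :=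
            (Commute.conj_iff y).2 ((c2.mul_right c1).mul_right c2.inv_right)
          rwa [R2] at this
        have c6 : Commute w0 (v⁻¹ * w0 * v) := by
          have : v⁻¹ * w0 * v = (y * u * y⁻¹)⁻¹ * (u * w0) := by rw [← E1]; group
          rw [this]
          exact c5.symm.inv_right.mul_right (c1.symm.mul_right (Commute.refl w0))
        intro a ha' b hb'
        have d1 : (v⁻¹ * w0 * v) * a = a * (v⁻¹ * w0 * v) :=
          comm_gen hp (hK W hW) hw0 hw01 c6.symm.eq a ha'
        have d2 : Commute (v * a * v⁻¹) w0 := by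
          have : Commute (v * a * v⁻¹) (v * (v⁻¹ * w0 * v) * v⁻¹) :=
            (Commute.conj_iff v).2 (show Commute a _ from d1.symm)
          have e : v * (v⁻¹ * w0 * v) * v⁻¹ = w0 := by group
          rwa [e] at this
        have d3 : (v * a * v⁻¹) * b = b * (v * a * v⁻¹) :=
          comm_gen hp (hK W hW) hw0 hw01 d2.eq b hb'
        have d4 : Commute (v⁻¹ * (v * a * v⁻¹) * v⁻¹⁻¹) (v⁻¹ * b * v⁻¹⁻¹) :=
          (Commute.conj_iff v⁻¹).2 d3
        have e1 : v⁻¹ * (v * a * v⁻¹) * v⁻¹⁻¹ = a := by group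
        rw [e1, inv_inv] at d4
        exact d4.eq
      apply suff _ hZK
      · intro U0 hU0 hU0V u hu x hx
        have huz : ∀ u ∈ U0, u * z = z * u := by
          by_cases hVU : V = U0
          · intro u hu; rw [← hVU] at hu; exact (hzV u hu).symm
          · have hcVU : ∀ x ∈ V, ∀ u ∈ U0, x * u = u * x := fun x hx u hu => (hU0V u hu x hx).symm
            obtain ⟨s, hs, hs1⟩ := exists_of_ne_bot (hb V hV U0 hU0 hVU hcVU W hW)
            have hsN := (Subgroup.mem_inf.1 hs).1
            have hsW : ∀ w ∈ W, w * s = s * w :=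
              Subgroup.mem_centralizer_iff.1 (Subgroup.mem_inf.1 hs).2
            have hSK := line V hV U0 hU0 hVU hcVU s hsN hs1
            obtain ⟨v', hv', u1, hu1, rfl⟩ := mem_sup_cm hcVU hsN
            have hu11 : u1 ≠ 1 := by
              intro h
              rw [h, mul_one] at hs1 hsW
              exact hVW v' hv' hs1 (fun w hw => (hsW w hw).symm)
            have hsV : ∀ x ∈ V, (v' * u1) * x = x * (v' * u1) := by
              intro x hx
              have e1 : Commute v' x := abel hp (hK V hV) v' hv' x hx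
              have e2 : Commute u1 x := hU0V u1 hu1 x hx
              exact (e1.mul_left e2).eq
            have hsy : Commute (v' * u1) y := claim _ hSK (fun a ha' x hx => zp_comm (hsV x hx) a ha')
              (fun a ha' x hx => zp_comm (hsW x hx).symm a ha') (v' * u1) (Subgroup.mem_zpowers _)
            have e3 : Commute u1 y := by
              have e4 : Commute v' y := (hyV v' hv').symm
              have : u1 = v'⁻¹ * (v' * u1) := by group
              rw [this]
              exact e4.inv_left.mul_left hsy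
            have hyU : ∀ u ∈ U0, y * u = u * y := comm_gen hp (hK U0 hU0) hu1 hu11 e3.symm.eq
            intro u hu
            rw [hzvy]
            have e5 : Commute u v := hU0V u hu v hv
            have e6 : Commute u y := (hyU u hu).symm
            exact (e5.mul_right e6).eq
        exact (zp_comm (huz u hu).symm x hx).symm
      · intro u hu x hx
        exact (zp_comm (hzW u hu).symm x hx).symm
  have hVall : ∀ W ∈ K, ∀ v ∈ V, ∀ w ∈ W, v * w = w * v :=
    fun W hW v hv w hw => (key W hW w hw v hv).symm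
  have hgen : ∀ x ∈ Group.conjugatesOfSet (V : Set G), ∃ g : G, ∃ a ∈ V, x = g * a * g⁻¹ := by
    intro x hx
    obtain ⟨a, ha', hc⟩ := Group.mem_conjugatesOfSet_iff.1 hx
    obtain ⟨c, hc⟩ := isConj_iff.1 hc
    exact ⟨c, a, ha', hc.symm⟩
  have hSS : ∀ g h : G, ∀ a ∈ V, ∀ b ∈ V, Commute (g * a * g⁻¹) (h * b * h⁻¹) := by
    intro g h a ha' b hb'
    have hm : (g⁻¹ * h) * b * (g⁻¹ * h)⁻¹ ∈ V.map (MulAut.conj (g⁻¹ * h)).toMonoidHom :=
      Subgroup.mem_map.2 ⟨b, hb', by simp only [MulEquiv.coe_toMonoidHom, MulAut.conj_apply]⟩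
    have e1 : Commute a ((g⁻¹ * h) * b * (g⁻¹ * h)⁻¹) := hVall _ (hKc V hV _) a ha' _ hm
    have e2 := (Commute.conj_iff g).2 e1
    have e3 : g * ((g⁻¹ * h) * b * (g⁻¹ * h)⁻¹) * g⁻¹ = h * b * h⁻¹ := by group
    rwa [e3] at e2
  have hA1 : ∀ x ∈ Subgroup.closure (Group.conjugatesOfSet (V : Set G)), ∀ h : G, ∀ b ∈ V,
      Commute x (h * b * h⁻¹) := by
    intro x hx h b hb'
    induction hx using Subgroup.closure_induction with
    | mem x hx => obtain ⟨g, a, ha', rfl⟩ := hgen x hx; exact hSS g h a ha' b hb'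
    | one => exact Commute.one_left _
    | mul x y _ _ hx hy => exact hx.mul_left hy
    | inv x _ hx => exact hx.inv_left
  have hA2 : ∀ x ∈ Subgroup.closure (Group.conjugatesOfSet (V : Set G)),
      ∀ y ∈ Subgroup.closure (Group.conjugatesOfSet (V : Set G)), Commute x y := by
    intro x hx y hy
    induction hy using Subgroup.closure_induction with
    | mem y hy => obtain ⟨g, a, ha', rfl⟩ := hgen y hy; exact hA1 x hx g a ha'
    | one => exact Commute.one_right _
    | mul y z _ _ hy hz => exact hy.mul_right hz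
    | inv y _ hy => exact hy.inv_right
  have hA3 : ∀ x ∈ Subgroup.closure (Group.conjugatesOfSet (V : Set G)), x ^ p = 1 := by
    intro x hx
    induction hx using Subgroup.closure_induction with
    | mem x hx => obtain ⟨g, a, ha', rfl⟩ := hgen x hx; rw [conj_pow, pow_p (hK V hV) ha']; group
    | one => simp
    | mul x y hx' hy' hx hy => rw [(hA2 x hx' y hy').mul_pow, hx, hy, one_mul]
    | inv x _ hx => rw [inv_pow, hx, inv_one]
  have hAp : IsPGroup p (Subgroup.normalClosure (V : Set G)) :=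
    fun x => ⟨1, Subtype.ext (by simpa using hA3 x x.2)⟩
  have hVA : V ≤ Subgroup.normalClosure (V : Set G) := Subgroup.le_normalClosure
  refine ⟨⟨V, hV, hVall, hVA.trans
    (Cfsg.Agent.Lib.Helper12.le_pCore Subgroup.normalClosure_normal hAp)⟩, ?_⟩
  intro hs
  have hAtop : Subgroup.normalClosure (V : Set G) = ⊤ := by
    rcases hs.eq_bot_or_eq_top_of_normal _ (Subgroup.normalClosure_normal (s := (V : Set G)))
      with h | h
    · exfalso
      apply ne_bot_of_card hp (hK V hV)
      exact le_bot_iff.1 (h ▸ hVA)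
    · exact h
  have hmem : ∀ x : G, x ∈ Subgroup.closure (Group.conjugatesOfSet (V : Set G)) := by
    intro x
    have : x ∈ Subgroup.normalClosure (V : Set G) := by rw [hAtop]; trivial
    exact this
  have hcomm : ∀ x y : G, x * y = y * x := fun x y => (hA2 x (hmem x) y (hmem y)).eq
  have htop : ∀ X ∈ K, X = ⊤ := by
    intro X hX
    have hn : X.Normal := ⟨fun n hn g => by rw [hcomm g n]; simpa using hn⟩
    rcases hs.eq_bot_or_eq_top_of_normal X hn with h | h
    · exact absurd h (ne_bot_of_card hp (hK X hX))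
    · exact h
  exact hXY0 ((htop X0 hX0).trans (htop Y0 hY0).symm)

end Cfsg.Agent.S3196
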