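import Mathlib
import Cfsg.Agent.S0143
import Cfsg.Agent.Lib.Helper1.Hall
import Cfsg.Agent.Lib.Helper22.Index
import Cfsg.Statements.S3200

set_option autoImplicit false
open Cfsg

namespace Cfsg.Agent.S3200

universe u

open scoped Pointwise

/-- `H` has an abelian Hall `2'`-subgroup. -/
def HasAC (H : Type*) [Group H] : Prop :=
  ∃ C : Subgroup H, (∀ x ∈ C, ∀ y ∈ C, x * y = y * x) ∧ Odd (Nat.card C) ∧ ∃ k : ℕ, C.index = 2 ^ k

theorem hasAC_normal {H : Type*} [Group H] [Finite H] (h : HasAC H) (N : Subgroup H) [N.Normal] :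
    HasAC N := by
  obtain ⟨C, hC, hodd, k, hk⟩ := h
  refine ⟨C.subgroupOf N, ?_, ?_, ?_⟩
  · intro x hx y hy
    exact Subtype.ext (hC x hx y hy)
  · have h1 : Nat.card (C.subgroupOf N) ∣ Nat.card C := by
      have : Nat.card (C.subgroupOf N) = Nat.card (C ⊓ N : Subgroup H) := by
        rw [← Subgroup.inf_subgroupOf_right]
        exact Nat.card_congr (Subgroup.subgroupOfEquivOfLe inf_le_right).toEquiv
      rw [this]
      exact Subgroup.card_dvd_of_le inf_le_left
    exact Odd.of_dvd_nat hodd h1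
  · have h1 : C.relIndex N ∣ C.index := Cfsg.Agent.Lib.Helper22.relIndex_dvd_index_of_normal_right N C
    rw [hk] at h1
    obtain ⟨j, _, hj⟩ := (Nat.dvd_prime_pow Nat.prime_two).mp h1
    exact ⟨j, hj⟩

theorem hasAC_quotient {H : Type*} [Group H] [Finite H] (h : HasAC H) (N : Subgroup H) [N.Normal] :
    HasAC (H ⧸ N) := by
  obtain ⟨C, hC, hodd, k, hk⟩ := h
  refine ⟨C.map (QuotientGroup.mk' N), ?_, ?_, ?_⟩
  · rintro _ ⟨x, hx, rfl⟩ _ ⟨y, hy, rfl⟩
    rw [← map_mul, ← map_mul, hC x hx y hy]
  · exact Odd.of_dvd_nat hodd (Subgroup.card_map_dvd _ _)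
  · have h1 := Subgroup.index_map_dvd C (QuotientGroup.mk'_surjective N)
    rw [hk] at h1
    obtain ⟨j, _, hj⟩ := (Nat.dvd_prime_pow Nat.prime_two).mp h1
    exact ⟨j, hj⟩

theorem solvable_aux : ∀ (n : ℕ) (H : Type u) [Group H] [Finite H], Nat.card H = n → HasAC H →
    Group.IsSolvable H := by
  intro n
  induction n using Nat.strong_induction_on with
  | _ n ih =>
    intro H _ _ hn hAC
    by_cases hex : ∃ N : Subgroup H, N.Normal ∧ N ≠ ⊥ ∧ N ≠ ⊤
    · obtain ⟨N, hN, hb, ht⟩ := hex
      have hlt1 : Nat.card N < n := by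
        rw [← hn, ← Subgroup.card_mul_index N]
        have h1 : N.index ≠ 1 := fun h => ht (Subgroup.index_eq_one.mp h)
        have h2 : 0 < N.index := Nat.pos_of_ne_zero Subgroup.index_ne_zero_of_finite
        have h3 : 0 < Nat.card N := Nat.card_pos
        have h4 : 2 ≤ N.index := by omega
        nlinarith
      have hlt2 : Nat.card (H ⧸ N) < n := by
        rw [← hn, ← Subgroup.card_mul_index N]
        have h1 : 1 < Nat.card N := by
          rw [Subgroup.one_lt_card_iff_ne_bot]; exact hb
        have h2 : 0 < N.index := Nat.pos_of_ne_zero Subgroup.index_ne_zero_of_finite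
        change N.index < _
        nlinarith
      have s1 := ih _ hlt1 N rfl (hasAC_normal hAC N)
      have s2 := ih _ hlt2 (H ⧸ N) rfl (hasAC_quotient hAC N)
      exact (Group.isSolvable_iff_subgroup_quotient N).mpr ⟨s1, s2⟩
    · push Not at hex
      by_cases htriv : Subsingleton H
      · infer_instance
      · have hnt : Nontrivial H := not_subsingleton_iff_nontrivial.mp htriv
        have hsimple : IsSimpleGroup H := by
          refine ⟨fun N hN => ?_⟩
          by_cases hb : N = ⊥
          · exact Or.inl hb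
          · exact Or.inr (hex N hN hb)
        obtain ⟨C, hC, hodd, k, hk⟩ := hAC
        by_cases hCb : C = ⊥
        · have hcard : Nat.card H = 2 ^ k := by
            rw [← hk, hCb, Subgroup.index_bot]
          have hp : IsPGroup 2 H := IsPGroup.of_card hcard
          have := hp.isNilpotent
          infer_instance
        · obtain ⟨⟨c, hc⟩, hc1⟩ := (Subgroup.ne_bot_iff_exists_ne_one).mp hCb
          have hc1' : c ≠ 1 := fun h => hc1 (Subtype.ext h)
          have hle : C ≤ Subgroup.centralizer ({c} : Set H) := by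
            intro x hx
            rw [Subgroup.mem_centralizer_singleton_iff]
            exact hC x hx c hc
          have h1 := Subgroup.index_dvd_of_le hle
          rw [hk] at h1
          obtain ⟨j, _, hj⟩ := (Nat.dvd_prime_pow Nat.prime_two).mp h1
          have hprime := Cfsg.Agent.S0143.result 2 j Nat.prime_two c hc1' hj
          have : Fact (Nat.card H).Prime := ⟨hprime⟩
          have hcyc : IsCyclic H := isCyclic_of_prime_card rfl
          exact Group.isSolvable_of_comm (fun a b => IsCyclic.isMulCommutative.is_comm.comm a b)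

theorem hasAC_of_compl {H : Type*} [Group H] [Finite H] (S : Sylow 2 H) (C : Subgroup H)
    (hC : IsMulCommutative ↥C) (hSC : Subgroup.IsComplement' (S : Subgroup H) C) : HasAC H := by
  refine ⟨C, ?_, ?_, ?_⟩
  · intro x hx y hy
    exact congrArg Subtype.val (mul_comm' (⟨x, hx⟩ : C) ⟨y, hy⟩)
  · have h1 : (S : Subgroup H).index = Nat.card C := hSC.symm.index_eq_card
    rw [← h1, ← Nat.not_even_iff_odd, even_iff_two_dvd]
    exact S.not_dvd_index
  · have h1 : C.index = Nat.card (S : Subgroup H) := hSC.index_eq_card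
    obtain ⟨k, hk⟩ := IsPGroup.iff_card.mp S.isPGroup'
    exact ⟨k, by rw [h1, hk]⟩

theorem exists_compl {H : Type*} [Group H] [Finite H] (h : HasAC H) :
    ∃ (P : Sylow 2 H) (D : Subgroup H), IsMulCommutative ↥D ∧
      Subgroup.IsComplement' (P : Subgroup H) D := by
  obtain ⟨C, hC, hodd, k, hk⟩ := h
  obtain ⟨P⟩ : Nonempty (Sylow 2 H) := inferInstance
  refine ⟨P, C, ⟨⟨fun a b => Subtype.ext (hC a a.2 b b.2)⟩⟩, ?_⟩
  obtain ⟨a, ha⟩ := IsPGroup.iff_card.mp P.isPGroup'
  have h1 := Subgroup.card_mul_index (P : Subgroup H)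
  have h2 := Subgroup.card_mul_index C
  have hPi : Nat.Coprime 2 (P : Subgroup H).index :=
    (Nat.Prime.coprime_iff_not_dvd Nat.prime_two).mpr P.not_dvd_index
  have hCc : Nat.Coprime 2 (Nat.card C) := (Nat.coprime_two_left).mpr hodd
  have hak : 2 ^ a = 2 ^ k := by
    apply Nat.dvd_antisymm
    · have : 2 ^ a ∣ Nat.card C * 2 ^ k := by
        rw [← hk, h2, ← h1, ha]; exact Dvd.intro _ rfl
      exact (Nat.Coprime.pow_left a hCc).dvd_of_dvd_mul_left this
    · have : 2 ^ k ∣ 2 ^ a * (P : Subgroup H).index := by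
        rw [← ha, h1, ← h2, hk]; exact Dvd.intro_left _ rfl
      exact (Nat.Coprime.pow_left k hPi).dvd_of_dvd_mul_right this
  apply Subgroup.isComplement'_of_coprime
  · rw [ha, hak, ← hk, mul_comm, h2]
  · rw [ha]
    exact Nat.Coprime.pow_left a hCc

theorem hasAC_subgroup {H : Type*} [Group H] [Finite H] (hsol : Group.IsSolvable H) (h : HasAC H)
    (L : Subgroup H) : HasAC L := by
  obtain ⟨C, hC, hodd, k, hk⟩ := h
  obtain ⟨j, m, hm, hL⟩ := Nat.exists_eq_two_pow_mul_odd (n := Nat.card L) Nat.card_pos.ne'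
  have hcop : m.Coprime (2 ^ j) := (Nat.Coprime.pow_left j ((Nat.coprime_two_left).mpr hm)).symm
  obtain ⟨D, hD⟩ := Cfsg.Agent.Lib.Helper1.hall_exists (G := L) m (2 ^ j) (by rw [hL, mul_comm]) hcop
  have hD' : Nat.card (D.map L.subtype) = m := by
    rw [Subgroup.card_map_of_injective L.subtype_injective, hD]
  have hCc : (Nat.card C).Coprime (2 ^ k) :=
    (Nat.Coprime.pow_left k ((Nat.coprime_two_left).mpr hodd)).symm
  obtain ⟨g, hg⟩ := Cfsg.Agent.Lib.Helper1.hall_dominance' (G := H) (Nat.card C) (2 ^ k)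
    (by rw [← hk, Subgroup.card_mul_index]) hCc C (D.map L.subtype) rfl
    (by rw [hD']; exact (Nat.Coprime.pow_left k ((Nat.coprime_two_left).mpr hm)).symm)
  refine ⟨D, ?_, by rw [hD]; exact hm, j, ?_⟩
  · intro x hx y hy
    have hx' : (x : H) ∈ MulAut.conj g • C := hg ⟨x, hx, rfl⟩
    have hy' : (y : H) ∈ MulAut.conj g • C := hg ⟨y, hy, rfl⟩
    obtain ⟨a, ha, hax⟩ := hx'
    obtain ⟨b, hb, hby⟩ := hy'
    apply Subtype.ext
    change (x : H) * y = y * x
    rw [← hax, ← hby]
    change (MulAut.conj g) a * (MulAut.conj g) b = (MulAut.conj g) b * (MulAut.conj g) a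
    rw [← map_mul, ← map_mul, hC a ha b hb]
  · have h1 := Subgroup.card_mul_index D
    rw [hD, hL, mul_comm] at h1
    exact Nat.eq_of_mul_eq_mul_right (Nat.pos_of_ne_zero (by rintro rfl; simp at hm)) h1

/-- Let H be a finite group in which a Sylow 2-subgroup has an abelian complement (an abelian subgroup meeting it trivially whose product with it is all of H). Then H is solvable, and every subgroup and every quotient group of H again has a Sylow 2-subgroup with an abelian complement. -/
theorem result {H : Type*} [Group H] [Finite H]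
    (S : Sylow 2 H) (C : Subgroup H) (hC : IsMulCommutative ↥C) (hSC : Subgroup.IsComplement' (S : Subgroup H) C) :
    Group.IsSolvable H ∧
    (∀ L : Subgroup H, ∃ (P : Sylow 2 ↥L) (D : Subgroup ↥L), IsMulCommutative ↥D ∧ Subgroup.IsComplement' (P : Subgroup ↥L) D) ∧
    (∀ (N : Subgroup H) [N.Normal], ∃ (P : Sylow 2 (H ⧸ N)) (D : Subgroup (H ⧸ N)),
      IsMulCommutative ↥D ∧ Subgroup.IsComplement' (P : Subgroup (H ⧸ N)) D) := by
  have hAC := hasAC_of_compl S C hC hSC
  have hsol := solvable_aux _ H rfl hAC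
  refine ⟨hsol, ?_, ?_⟩
  · intro L
    exact exists_compl (hasAC_subgroup hsol hAC L)
  · intro N _
    exact exists_compl (hasAC_quotient hAC N)

end Cfsg.Agent.S3200
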