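import Mathlib
import Cfsg.Agent.Lib.Helper18.UniqueInvolution
import Cfsg.Statements.S3202

namespace Cfsg.Agent.S3202

open Cfsg.Agent.Lib.Helper18
open scoped commutatorElement

theorem commutator_le_of_closure {G : Type*} [Group G] (N : Subgroup G) [N.Normal] (X : Set G)
    (hX : Subgroup.closure X = ⊤) (h : ∀ x ∈ X, ∀ y ∈ X, ⁅x, y⁆ ∈ N) : commutator G ≤ N := by
  rw [← Subgroup.Normal.quotient_commutative_iff_commutator_le]
  have h2 : Subgroup.closure ((QuotientGroup.mk' N) '' X) = ⊤ := by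
    have := congrArg (Subgroup.map (QuotientGroup.mk' N)) hX
    rw [MonoidHom.map_closure, ← MonoidHom.range_eq_map,
      MonoidHom.range_eq_top.mpr (QuotientGroup.mk'_surjective N)] at this
    exact this
  have h3 : IsMulCommutative (Subgroup.closure ((QuotientGroup.mk' N) '' X)) := by
    apply Subgroup.isMulCommutative_closure
    rintro _ ⟨x, hx, rfl⟩ _ ⟨y, hy, rfl⟩
    rw [← commutatorElement_eq_one_iff_mul_comm, ← map_commutatorElement, ← MonoidHom.mem_ker,
      QuotientGroup.ker_mk']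
    exact h x hx y hy
  rw [h2] at h3
  exact ⟨⟨fun x y => congrArg Subtype.val (h3.is_comm.comm ⟨x, trivial⟩ ⟨y, trivial⟩)⟩⟩

/-- A central extension of a group with generators `ā, b̄`, `b̄ ā b̄⁻¹ = ā⁻¹`, has cyclic derived
subgroup. -/
theorem isCyclic_commutator {S : Type*} [Group S] [Finite S] (D : Subgroup S)
    (hD : D ≤ Subgroup.center S) (a b : S) (hgen : Subgroup.closure ({a, b} ∪ (D : Set S)) = ⊤)
    (hab : b * a * b⁻¹ * a ∈ D) : IsCyclic (commutator S) := by
  set d := b * a * b⁻¹ * a with hd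
  set c := b * a * b⁻¹ * a⁻¹ with hc
  have hdc : ∀ g, g * d = d * g := fun g => Subgroup.mem_center_iff.mp (hD hab) g
  have hcd : c = d * a⁻¹ * a⁻¹ := by rw [hd, hc]; group
  have hbab : b * a * b⁻¹ = d * a⁻¹ := by rw [hd]; group
  have hca : a * c * a⁻¹ = c := by
    rw [hcd]
    calc a * (d * a⁻¹ * a⁻¹) * a⁻¹ = (a * d) * a⁻¹ * a⁻¹ * a⁻¹ := by group
      _ = d * a⁻¹ * a⁻¹ := by rw [hdc a]; group
  have hcb : b * c * b⁻¹ = c⁻¹ := by
    have h1 : b * a⁻¹ * b⁻¹ = a * d⁻¹ := by
      calc b * a⁻¹ * b⁻¹ = (b * a * b⁻¹)⁻¹ := by group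
        _ = a * d⁻¹ := by rw [hbab]; group
    have hdc' : ∀ g, g * d⁻¹ = d⁻¹ * g := fun g => by
      have := hdc g⁻¹
      calc g * d⁻¹ = (d * g⁻¹)⁻¹ := by group
        _ = (g⁻¹ * d)⁻¹ := by rw [this]
        _ = d⁻¹ * g := by group
    calc b * c * b⁻¹ = b * (d * a⁻¹ * a⁻¹) * b⁻¹ := by rw [← hcd]
      _ = (b * d) * b⁻¹ * (b * a⁻¹ * b⁻¹) * (b * a⁻¹ * b⁻¹) := by group
      _ = d * (a * d⁻¹) * (a * d⁻¹) := by rw [hdc b, h1]; group
      _ = d * (d⁻¹ * a) * (d⁻¹ * a) := by rw [hdc' a]
      _ = a * d⁻¹ * a := by group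
      _ = d⁻¹ * a * a := by rw [hdc' a]
      _ = c⁻¹ := by
        rw [hcd]
        calc d⁻¹ * a * a = (a * d⁻¹) * a := by rw [hdc' a]
          _ = a * (d⁻¹ * a) := by group
          _ = a * (a * d⁻¹) := by rw [hdc' a]
          _ = (d * a⁻¹ * a⁻¹)⁻¹ := by simp only [mul_inv_rev, inv_inv, mul_assoc]
  have hNn : (Subgroup.zpowers c).Normal := by
    rw [← Subgroup.normalizer_eq_top_iff, eq_top_iff, ← hgen, Subgroup.closure_le]
    intro g hg
    apply Subgroup.mem_normalizer_fintype
    intro n hn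
    obtain ⟨k, rfl⟩ := Subgroup.mem_zpowers_iff.mp hn
    show g * c ^ k * g⁻¹ ∈ Subgroup.zpowers c
    rw [← conj_zpow]
    apply Subgroup.zpow_mem
    rcases hg with (rfl | hg) | hg
    · rw [hca]; exact Subgroup.mem_zpowers c
    · rw [Set.mem_singleton_iff] at hg
      rw [hg, hcb]; exact Subgroup.inv_mem _ (Subgroup.mem_zpowers c)
    · have := Subgroup.mem_center_iff.mp (hD hg) c
      rw [← this, mul_inv_cancel_right]; exact Subgroup.mem_zpowers c
  have hle : commutator S ≤ Subgroup.zpowers c := by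
    apply commutator_le_of_closure _ _ hgen
    have hcentral : ∀ δ ∈ D, ∀ y : S, ⁅δ, y⁆ = 1 ∧ ⁅y, δ⁆ = 1 := by
      intro δ hδ y
      have := Subgroup.mem_center_iff.mp (hD hδ) y
      constructor
      · rw [commutatorElement_eq_one_iff_mul_comm]; exact this.symm
      · rw [commutatorElement_eq_one_iff_mul_comm]; exact this
    have hba : ⁅b, a⁆ = c := by rw [commutatorElement_def]
    have hab' : ⁅a, b⁆ = c⁻¹ := by rw [← hba, commutatorElement_inv]
    intro x hx y hy
    rcases hx with (rfl | hx) | hx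
    · rcases hy with (rfl | hy) | hy
      · rw [commutatorElement_self]; exact Subgroup.one_mem _
      · rw [Set.mem_singleton_iff] at hy
        rw [hy, hab']; exact Subgroup.inv_mem _ (Subgroup.mem_zpowers c)
      · rw [(hcentral y hy _).2]; exact Subgroup.one_mem _
    · rw [Set.mem_singleton_iff] at hx
      rcases hy with (rfl | hy) | hy
      · rw [hx, hba]; exact Subgroup.mem_zpowers c
      · rw [Set.mem_singleton_iff] at hy
        rw [hx, hy, commutatorElement_self]; exact Subgroup.one_mem _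
      · rw [(hcentral y hy _).2]; exact Subgroup.one_mem _
    · rw [(hcentral x hx _).1]; exact Subgroup.one_mem _
  exact isCyclic_of_injective (Subgroup.inclusion hle) (Subgroup.inclusion_injective _)

/-- generators of a quotient lift to generators modulo the kernel -/
theorem closure_union_eq_top {S : Type*} [Group S] (D : Subgroup S) [D.Normal] (a b : S)
    (h : Subgroup.closure ({(a : S ⧸ D), (b : S ⧸ D)} : Set (S ⧸ D)) = ⊤) :
    Subgroup.closure ({a, b} ∪ (D : Set S)) = ⊤ := by
  rw [Subgroup.closure_union, Subgroup.closure_eq]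
  have h1 : (Subgroup.closure ({a, b} : Set S)).map (QuotientGroup.mk' D) = ⊤ := by
    rw [MonoidHom.map_closure, Set.image_pair]; exact h
  have h2 := Subgroup.comap_map_eq (QuotientGroup.mk' D) (Subgroup.closure ({a, b} : Set S))
  rw [h1, Subgroup.comap_top, QuotientGroup.ker_mk'] at h2
  exact h2.symm

theorem closure_pair_eq_top {Q : Type*} [Group Q] [Finite Q] (a b : Q) (n : ℕ)
    (ha : orderOf a = 2 * n) (hb : b ∉ Subgroup.zpowers a) (hcard : Nat.card Q = 4 * n) :
    Subgroup.closure ({a, b} : Set Q) = ⊤ := by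
  have hn : 0 < n := by
    rcases Nat.eq_zero_or_pos n with rfl | h
    · have : 0 < Nat.card Q := Nat.card_pos
      omega
    · exact h
  have hidx : (Subgroup.zpowers a).index = 2 := by
    have := Subgroup.card_mul_index (Subgroup.zpowers a)
    rw [Nat.card_zpowers, ha, hcard] at this
    have h4 : 2 * n * (Subgroup.zpowers a).index = 2 * n * 2 := by rw [this]; ring
    exact Nat.eq_of_mul_eq_mul_left (by omega) h4
  rw [eq_top_iff]
  intro q _
  have haC : a ∈ Subgroup.closure ({a, b} : Set Q) := Subgroup.subset_closure (by simp)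
  have hbC : b ∈ Subgroup.closure ({a, b} : Set Q) := Subgroup.subset_closure (by simp)
  have hle : Subgroup.zpowers a ≤ Subgroup.closure ({a, b} : Set Q) := by
    rw [Subgroup.zpowers_le]; exact haC
  by_cases hq : q ∈ Subgroup.zpowers a
  · exact hle hq
  · have h1 := Subgroup.mul_mem_iff_of_index_two hidx (a := b⁻¹) (b := q)
    have h2 : b⁻¹ * q ∈ Subgroup.zpowers a :=
      h1.mpr ⟨fun h => absurd (by simpa using h) hb, fun h => absurd h hq⟩
    have h3 : q = b * (b⁻¹ * q) := by group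
    rw [h3]
    exact Subgroup.mul_mem _ hbC (hle h2)

/-- Let S be a finite 2-group of 2-rank exactly 2 and D a maximal subgroup of the centre of S such that S/D is a non-abelian group with exactly one involution (a generalized quaternion group). Then S has a nontrivial cyclic characteristic subgroup. -/
theorem result {S : Type*} [Group S]
    [Finite S] (hS : IsPGroup 2 S) (hr2 : Cfsg.PRankLE 2 2 S) (hr1 : ¬ Cfsg.PRankLE 2 1 S)
    (D : Subgroup ↥(Subgroup.center S)) (hD : IsCoatom D)
    (hq : ∃ (_ : (D.map (Subgroup.center S).subtype).Normal),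
      ¬ IsMulCommutative (S ⧸ D.map (Subgroup.center S).subtype) ∧
      ∃! x : S ⧸ D.map (Subgroup.center S).subtype, orderOf x = 2) :
    ∃ C : Subgroup S, C ≠ ⊥ ∧ IsCyclic ↥C ∧ C.Characteristic := by
  obtain ⟨hn, hnc, hu⟩ := hq
  set D' := D.map (Subgroup.center S).subtype with hD'
  have hD'c : D' ≤ Subgroup.center S := Subgroup.map_subtype_le D
  have hQ : IsPGroup 2 (S ⧸ D') := hS.to_quotient D'
  have huniq : ∀ u v : S ⧸ D', orderOf u = 2 → orderOf v = 2 → u = v :=
    fun u v hu1 hv1 => hu.unique hu1 hv1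
  rcases cyclic_or_quaternion_rel hQ huniq with hcyc | ⟨m, a', b', h1, h2, h3, h4, h5⟩
  · exact absurd (IsCyclic.isMulCommutative (α := S ⧸ D')) hnc
  obtain ⟨a, rfl⟩ := QuotientGroup.mk_surjective a'
  obtain ⟨b, rfl⟩ := QuotientGroup.mk_surjective b'
  have hgen := closure_union_eq_top D' a b (closure_pair_eq_top _ _ _ h1 h4 h5)
  have hab : b * a * b⁻¹ * a ∈ D' := by
    rw [← QuotientGroup.eq_one_iff]
    show (b : S ⧸ D') * a * (b : S ⧸ D')⁻¹ * a = 1
    rw [h3, inv_mul_cancel]
  refine ⟨commutator S, ?_, isCyclic_commutator D' hD'c a b hgen hab, inferInstance⟩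
  intro hbot
  apply hnc
  have hcomm : ∀ x y : S, x * y = y * x := by
    intro x y
    have h6 : ⁅x, y⁆ ∈ ⁅(⊤ : Subgroup S), (⊤ : Subgroup S)⁆ :=
      Subgroup.commutator_mem_commutator (Subgroup.mem_top _) (Subgroup.mem_top _)
    rw [← commutator_def, hbot, Subgroup.mem_bot, commutatorElement_eq_one_iff_mul_comm] at h6
    exact h6
  refine ⟨⟨fun x y => ?_⟩⟩
  obtain ⟨x, rfl⟩ := QuotientGroup.mk_surjective x
  obtain ⟨y, rfl⟩ := QuotientGroup.mk_surjective y
  rw [← QuotientGroup.mk_mul, ← QuotientGroup.mk_mul, hcomm]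

end Cfsg.Agent.S3202
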