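import Mathlib
import Cfsg.Agent.Lib.Helper18.UniqueInvolution
import Cfsg.Agent.Lib.Helper1.Basic
import Cfsg.Agent.S3202
import Cfsg.Statements.S3201

namespace Cfsg.Agent.S3201

open Cfsg.Agent.Lib.Helper18

/-- Let S be a finite 2-group whose centre Z(S) has n ≥ 2 distinct maximal subgroups C₁, …, Cₙ with trivial intersection such that each quotient S/Cᵢ is a non-abelian group with exactly one involution (a generalized quaternion group). Then S is the internal direct product of an elementary abelian subgroup and a non-abelian subgroup with exactly one involution. -/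
theorem result {S : Type*} [Group S] [Finite S]
    (hS : IsPGroup 2 S) (n : ℕ) (hn : 2 ≤ n) (C : Fin n → Subgroup ↥(Subgroup.center S))
    (hCmax : ∀ i, IsCoatom (C i)) (hCinj : Function.Injective C) (hCint : ⨅ i, C i = ⊥)
    (hCq : ∀ i, ∃ (_ : ((C i).map (Subgroup.center S).subtype).Normal),
      ¬ IsMulCommutative (S ⧸ (C i).map (Subgroup.center S).subtype) ∧
      ∃! x : S ⧸ (C i).map (Subgroup.center S).subtype, orderOf x = 2) :
    ∃ E Q : Subgroup S, Cfsg.IsInternalDirectProduct E Q ⊤ ∧ Cfsg.IsElementaryAbelian 2 E ∧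
      ¬ IsMulCommutative ↥Q ∧ ∃! x : ↥Q, orderOf x = 2 := by
  classical
  have : Fact (Nat.Prime 2) := ⟨Nat.prime_two⟩
  -- index two
  have hidx : ∀ i, (C i).index = 2 := by
    intro i
    have h1 := Cfsg.Agent.Lib.Helper1.index_prime_of_isCoatom_of_normal (hCmax i)
    have h2 : IsPGroup 2 (Subgroup.center S) := hS.to_subgroup _
    obtain ⟨k, hk⟩ := IsPGroup.iff_card.mp h2
    have h3 : (C i).index ∣ 2 ^ k := by rw [← hk]; exact Subgroup.index_dvd_card _
    exact (Nat.prime_dvd_prime_iff_eq h1 Nat.prime_two).mp (h1.dvd_of_dvd_pow h3)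
  have hmemC : ∀ i (ζ : Subgroup.center S),
      (ζ : S) ∈ (C i).map (Subgroup.center S).subtype ↔ ζ ∈ C i := by
    intro i ζ
    exact Subgroup.mem_map_iff_mem (Subgroup.subtype_injective _)
  have hCle : ∀ i, (C i).map (Subgroup.center S).subtype ≤ Subgroup.center S :=
    fun i => Subgroup.map_subtype_le _
  have hsq : ∀ i (ζ : Subgroup.center S), ζ * ζ ∈ C i := by
    intro i ζ
    rw [Subgroup.mul_mem_iff_of_index_two (hidx i)]
  have hZel : ∀ ζ : Subgroup.center S, ζ * ζ = 1 := by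
    intro ζ
    have : ζ * ζ ∈ ⨅ i, C i := by
      rw [Subgroup.mem_iInf]; exact fun i => hsq i ζ
    rwa [hCint, Subgroup.mem_bot] at this
  -- L1
  have L1 : ∀ ζ₁ ζ₂ : Subgroup.center S, (∀ i, ζ₁ ∉ C i) → (∀ i, ζ₂ ∉ C i) → ζ₁ = ζ₂ := by
    intro ζ₁ ζ₂ h1 h2
    have : ζ₁⁻¹ * ζ₂ ∈ ⨅ i, C i := by
      rw [Subgroup.mem_iInf]
      intro i
      rw [Subgroup.mul_mem_iff_of_index_two (hidx i), inv_mem_iff]
      exact ⟨fun h => absurd h (h1 i), fun h => absurd h (h2 i)⟩
    rw [hCint, Subgroup.mem_bot, inv_mul_eq_one] at this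
    exact this
  -- L2
  have L2 : ∀ i (g : S), g * g ∈ (C i).map (Subgroup.center S).subtype → g ∈ Subgroup.center S := by
    intro i g hg
    obtain ⟨hnorm, _, hu⟩ := hCq i
    obtain ⟨ζ₀, hζ₀⟩ : ∃ ζ₀ : Subgroup.center S, ζ₀ ∉ C i := by
      by_contra hall
      push Not at hall
      exact (hCmax i).1 (eq_top_iff.mpr fun x _ => hall x)
    have h1 : orderOf ((ζ₀ : S) : S ⧸ (C i).map (Subgroup.center S).subtype) = 2 := by
      apply orderOf_eq_prime
      · rw [pow_two, ← QuotientGroup.mk_mul, QuotientGroup.eq_one_iff]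
        exact (hmemC i (ζ₀ * ζ₀)).mpr (hsq i ζ₀)
      · rw [Ne, QuotientGroup.eq_one_iff, hmemC]; exact hζ₀
    by_cases hg1 : (g : S ⧸ (C i).map (Subgroup.center S).subtype) = 1
    · exact hCle i ((QuotientGroup.eq_one_iff g).mp hg1)
    · have h2 : orderOf (g : S ⧸ (C i).map (Subgroup.center S).subtype) = 2 := by
        apply orderOf_eq_prime _ hg1
        rw [pow_two, ← QuotientGroup.mk_mul, QuotientGroup.eq_one_iff]; exact hg
      have h3 := hu.unique h1 h2
      have h4 : (ζ₀ : S)⁻¹ * g ∈ (C i).map (Subgroup.center S).subtype := QuotientGroup.eq.mp h3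
      have h5 : g = (ζ₀ : S) * ((ζ₀ : S)⁻¹ * g) := by group
      rw [h5]
      exact Subgroup.mul_mem _ ζ₀.2 (hCle i h4)
  let i0 : Fin n := ⟨0, by omega⟩
  obtain ⟨hnorm, hnc, hu⟩ := hCq i0
  set E := (C i0).map (Subgroup.center S).subtype with hE
  -- L4
  have L4 : ∀ g : S, (g : S ⧸ E) ^ 2 ≠ 1 → (g : S ⧸ E) ^ 4 = 1 →
      ∃ h : g * g ∈ Subgroup.center S, ∀ i, (⟨g * g, h⟩ : Subgroup.center S) ∉ C i := by
    intro g h2 h4
    have hgZ : g ∉ Subgroup.center S := by
      intro hg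
      apply h2
      rw [pow_two, ← QuotientGroup.mk_mul, QuotientGroup.eq_one_iff]
      exact (hmemC i0 (⟨g, hg⟩ * ⟨g, hg⟩)).mpr (hsq i0 ⟨g, hg⟩)
    have hggZ : g * g ∈ Subgroup.center S := by
      apply L2 i0
      rw [← QuotientGroup.eq_one_iff]
      rw [← h4]
      show ((g * g * (g * g) : S) : S ⧸ E) = ((g ^ 4 : S) : S ⧸ E)
      congr 1
      simp only [pow_succ, pow_zero, one_mul, mul_assoc]
    refine ⟨hggZ, fun i hi => hgZ (L2 i g ?_)⟩
    exact (hmemC i ⟨g * g, hggZ⟩).mpr hi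
  have hQ : IsPGroup 2 (S ⧸ E) := hS.to_quotient E
  have huniq : ∀ u v : S ⧸ E, orderOf u = 2 → orderOf v = 2 → u = v :=
    fun u v hu1 hv1 => hu.unique hu1 hv1
  rcases cyclic_or_quaternion_rel hQ huniq with hcyc | ⟨m, a', b', h1, h2, h3, h4, h5⟩
  · exact absurd (IsCyclic.isMulCommutative (α := S ⧸ E)) hnc
  obtain ⟨a, rfl⟩ := QuotientGroup.mk_surjective a'
  obtain ⟨b, rfl⟩ := QuotientGroup.mk_surjective b'
  set N := 2 ^ (m + 1) with hN
  have haN1 : (a : S ⧸ E) ^ N ≠ 1 := by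
    intro h
    have := orderOf_dvd_of_pow_eq_one h
    rw [h1] at this
    have hpos : 0 < N := by positivity
    have := Nat.le_of_dvd hpos this
    omega
  have ha2N : (a : S ⧸ E) ^ (2 * N) = 1 := by rw [← h1]; exact pow_orderOf_eq_one _
  -- the three elements
  obtain ⟨hb1, hb2⟩ := L4 b (by rw [pow_two, h2]; exact haN1) (by
    have : (b : S ⧸ E) ^ 4 = ((b : S ⧸ E) * b) ^ 2 := by
      simp only [pow_succ, pow_zero, one_mul, mul_assoc]
    rw [this, h2, ← pow_mul, mul_comm]; exact ha2N)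
  obtain ⟨ha1, ha2⟩ := L4 (a ^ (2 ^ m)) (by
    rw [QuotientGroup.mk_pow, ← pow_mul, ← pow_succ]; exact haN1) (by
    rw [QuotientGroup.mk_pow, ← pow_mul]
    have : 2 ^ m * 4 = 2 * N := by rw [hN]; ring
    rw [this]; exact ha2N)
  have hab2 : ((a * b : S) : S ⧸ E) ^ 2 = (b : S ⧸ E) * b := by
    rw [QuotientGroup.mk_mul, pow_two]
    calc (a : S ⧸ E) * b * (a * b) = a * (b * a * (b : S ⧸ E)⁻¹) * (b * b) := by group
      _ = b * b := by rw [h3]; group
  obtain ⟨hc1, hc2⟩ := L4 (a * b) (by rw [hab2, h2]; exact haN1) (by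
    have : ((a * b : S) : S ⧸ E) ^ 4 = (((a * b : S) : S ⧸ E) ^ 2) ^ 2 := by rw [← pow_mul]
    rw [this, hab2, h2, ← pow_mul, mul_comm]; exact ha2N)
  have e1 : b * b = a ^ N := by
    have := congrArg Subtype.val (L1 _ _ hb2 ha2)
    simp only at this
    rw [this, ← pow_add, hN, pow_succ, mul_two]
  have e2 : a * b * (a * b) = b * b := congrArg Subtype.val (L1 _ _ hc2 hb2)
  have e3 : b * a * b⁻¹ = a⁻¹ := by
    have h6 : a * b * a = b := by
      have : a * b * a * b = b * b := by rw [← e2]; group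
      exact mul_right_cancel this
    calc b * a * b⁻¹ = a⁻¹ * (a * b * a) * b⁻¹ := by group
      _ = a⁻¹ := by rw [h6]; group
  have e4 : a ^ (2 * N) = 1 := by
    have := congrArg Subtype.val (hZel ⟨b * b, hb1⟩)
    simp only [Subgroup.coe_mul, Subgroup.coe_one] at this
    rw [two_mul, pow_add, ← e1]; exact this
  let φ : QuaternionGroup N →* S := Cfsg.Agent.Lib.Helper23.quaternionHom N a b e4 e1 e3
  let ψ : QuaternionGroup N →* S ⧸ E := (QuotientGroup.mk' E).comp φ
  have hφa : φ (QuaternionGroup.a 1) = a := by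
    show Cfsg.Agent.Lib.Helper23.zmodPow a (2 * N) e4 (Multiplicative.ofAdd 1) = a
    have := Cfsg.Agent.Lib.Helper23.zmodPow_natCast a (2 * N) e4 1
    simpa using this
  have hφb : φ (QuaternionGroup.xa 0) = b := by
    show b * Cfsg.Agent.Lib.Helper23.zmodPow a (2 * N) e4 (Multiplicative.ofAdd 0) = b
    have := Cfsg.Agent.Lib.Helper23.zmodPow_natCast a (2 * N) e4 0
    simp
  have hψsurj : Function.Surjective ψ := by
    rw [← MonoidHom.range_eq_top, eq_top_iff,
      ← Cfsg.Agent.S3202.closure_pair_eq_top _ _ _ h1 h4 h5, Subgroup.closure_le]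
    rintro x (rfl | hx)
    · exact ⟨QuaternionGroup.a 1, by show ((φ (QuaternionGroup.a 1) : S) : S ⧸ E) = _; rw [hφa]⟩
    · rw [Set.mem_singleton_iff] at hx
      rw [hx]
      exact ⟨QuaternionGroup.xa 0, by show ((φ (QuaternionGroup.xa 0) : S) : S ⧸ E) = _; rw [hφb]⟩
  have hNne : NeZero N := ⟨by positivity⟩
  have hψbij : Function.Bijective ψ := by
    rw [Nat.bijective_iff_surjective_and_card]
    exact ⟨hψsurj, by rw [Nat.card_eq_fintype_card, QuaternionGroup.card, h5]⟩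
  have hdisj : E ⊓ φ.range = ⊥ := by
    rw [eq_bot_iff]
    rintro x ⟨hxE, q, rfl⟩
    have h6 : ψ q = 1 := (QuotientGroup.eq_one_iff _).mpr hxE
    have h7 : q = 1 := hψbij.1 (by rw [h6, map_one])
    rw [h7, map_one]; exact Subgroup.one_mem _
  have hEc : E ≤ Subgroup.center S := hCle i0
  let θ : φ.range →* S ⧸ E := (QuotientGroup.mk' E).comp φ.range.subtype
  have hθbij : Function.Bijective θ := by
    constructor
    · rw [injective_iff_map_eq_one]
      intro x hx
      have h6 : (x : S) ∈ E ⊓ φ.range := ⟨(QuotientGroup.eq_one_iff _).mp hx, x.2⟩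
      rw [hdisj, Subgroup.mem_bot] at h6
      exact Subtype.ext h6
    · intro y
      obtain ⟨q, rfl⟩ := hψsurj y
      exact ⟨⟨φ q, q, rfl⟩, rfl⟩
  let e : φ.range ≃* S ⧸ E := MulEquiv.ofBijective θ hθbij
  refine ⟨E, φ.range, ⟨le_top, le_top, ?_, hdisj, ?_⟩, ⟨?_, ?_⟩, ?_, ?_⟩
  · intro x hx y _
    exact (Subgroup.mem_center_iff.mp (hEc hx) y).symm
  · rw [eq_top_iff]
    intro s _
    obtain ⟨q, hq⟩ := hψsurj (s : S ⧸ E)
    have h6 : (φ q)⁻¹ * s ∈ E := QuotientGroup.eq.mp hq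
    have h7 : s = ((φ q)⁻¹ * s) * φ q := by
      have := Subgroup.mem_center_iff.mp (hEc h6) (φ q)
      rw [← this]; group
    rw [h7]
    exact Subgroup.mul_mem_sup h6 ⟨q, rfl⟩
  · refine ⟨⟨fun x y => Subtype.ext ?_⟩⟩
    exact (Subgroup.mem_center_iff.mp (hEc x.2) y).symm
  · intro x hx
    have := congrArg Subtype.val (hZel ⟨x, hEc hx⟩)
    rw [pow_two]; exact this
  · intro hcomm
    apply hnc
    refine ⟨⟨fun x y => ?_⟩⟩
    obtain ⟨x, rfl⟩ := e.surjective x
    obtain ⟨y, rfl⟩ := e.surjective y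
    rw [← map_mul, ← map_mul, mul_comm' x y]
  · obtain ⟨u, hu1, hu2⟩ := hu
    refine ⟨e.symm u, ?_, ?_⟩
    · show orderOf (e.symm u) = 2
      rw [MulEquiv.orderOf_eq]; exact hu1
    · intro y hy
      have : e y = u := hu2 _ (by show orderOf (e y) = 2; rw [MulEquiv.orderOf_eq]; exact hy)
      rw [← this, e.symm_apply_apply]

end Cfsg.Agent.S3201
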