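import Mathlib
import Cfsg.Statements.S3208
import Cfsg.Agent.Lib.Helper18.Basic

set_option autoImplicit false
open Cfsg

namespace Cfsg.Agent.S3208

open Cfsg.Agent.Lib.Helper18

theorem result {G : Type*} [Group G] [Finite G]
    (j : G) (hj : orderOf j = 2) (H T : Subgroup G) (hT : T ≤ H ⊓ Subgroup.centralizer ({j} : Set G)) (h2 : IsPGroup 2 ↥T)
    (hSyl : ¬ 2 ∣ T.relIndex (H ⊓ Subgroup.centralizer ({j} : Set G))) (hjT : j ∈ T)
    (hchar : ((Subgroup.zpowers j).subgroupOf T).Characteristic) :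
    ¬ 2 ∣ T.relIndex H := by
  intro hdvd
  have : Fact (Nat.Prime 2) := ⟨Nat.prime_two⟩
  obtain ⟨K, hTK, hKH, -, hrel, hKN⟩ := exists_overgroup (hT.trans inf_le_left) h2 hdvd
  have hZT : Subgroup.zpowers j ≤ T := by simpa using hjT
  have hj1 : j ≠ 1 := by
    rintro rfl
    simp at hj
  have hKC : K ≤ Subgroup.centralizer ({j} : Set G) := by
    intro k hk
    have h1 := conj_mem_of_char hchar hZT (hKN hk) (Subgroup.mem_zpowers j)
    rw [Subgroup.mem_centralizer_singleton_iff]
    rcases mem_zpowers_of_orderOf_two hj h1 with h | h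
    · exfalso
      apply hj1
      have : k * j = k := by simpa using (mul_inv_eq_one.mp h)
      simpa using this
    · exact mul_inv_eq_iff_eq_mul.mp h
  apply hSyl
  rw [← Subgroup.relIndex_mul_relIndex T K _ hTK (le_inf hKH hKC), hrel]
  exact Dvd.intro _ rfl

end Cfsg.Agent.S3208
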