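import Mathlib
import Cfsg.Agent.Lib.Helper13.SL2Quat
import Cfsg.Agent.Lib.Helper14.FXMat
import Cfsg.Agent.Lib.Helper1.Coprime
import Cfsg.Agent.Lib.Helper18.Basic
import Cfsg.Statements.S3209

set_option autoImplicit false
open Cfsg

namespace Cfsg.Agent.S3209

open Matrix

section
variable {F : Type*} [Field F]

theorem trace_eq_zero (A : Matrix (Fin 2) (Fin 2) F) (hdet : A.det = 1) (hsq : A * A = -1) :
    A.trace = 0 := by
  have e00 := congrFun (congrFun hsq 0) 0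
  have e11 := congrFun (congrFun hsq 1) 1
  simp [Matrix.mul_apply, Fin.sum_univ_two] at e00 e11
  rw [Matrix.det_fin_two] at hdet
  rw [Matrix.trace_fin_two]
  have h : (A 0 0 + A 1 1) * (A 0 0 + A 1 1) = 0 := by linear_combination e00 + e11 + 2 * hdet
  exact mul_self_eq_zero.mp h

/-- the standard element of order four -/
def J0 : Matrix.SpecialLinearGroup (Fin 2) F := ⟨!![0, -1; 1, 0], by simp [Matrix.det_fin_two]⟩

theorem J0_sq : (J0 : Matrix.SpecialLinearGroup (Fin 2) F) * J0 = -1 := by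
  apply Subtype.ext
  rw [Matrix.SpecialLinearGroup.coe_mul]
  change (!![0, -1; 1, 0] : Matrix (Fin 2) (Fin 2) F) * !![0, -1; 1, 0] = _
  rw [Matrix.SpecialLinearGroup.coe_neg, Matrix.SpecialLinearGroup.coe_one]
  ext i j
  fin_cases i <;> fin_cases j <;> simp [Matrix.mul_apply, Fin.sum_univ_two]

theorem conj_J0 [Finite F] (h2 : (2 : F) ≠ 0) (A : Matrix.SpecialLinearGroup (Fin 2) F)
    (hA : A * A = -1) : ∃ P : Matrix.SpecialLinearGroup (Fin 2) F, P * J0 * P⁻¹ = A := by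
  have h4 : ((4 : ℕ) : F) ≠ 0 := by
    have : ((4 : ℕ) : F) = 2 * 2 := by norm_num
    rw [this]
    exact mul_ne_zero h2 h2
  have sq : ∀ B : Matrix.SpecialLinearGroup (Fin 2) F, B * B = -1 →
      (B : Matrix (Fin 2) (Fin 2) F) * (B : Matrix (Fin 2) (Fin 2) F) = -1 := by
    intro B hB
    rw [← Matrix.SpecialLinearGroup.coe_mul, hB]
    simp
  have p4 : ∀ B : Matrix.SpecialLinearGroup (Fin 2) F, B * B = -1 →
      (B : Matrix (Fin 2) (Fin 2) F) ^ 4 = 1 := by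
    intro B hB
    have : (B : Matrix (Fin 2) (Fin 2) F) ^ 4 = ((B : Matrix (Fin 2) (Fin 2) F) * B) * (B * B) := by
      simp only [pow_succ, pow_zero, one_mul, mul_assoc]
    rw [this, sq B hB]
    simp
  have cp : ∀ B : Matrix.SpecialLinearGroup (Fin 2) F, B * B = -1 →
      (B : Matrix (Fin 2) (Fin 2) F).charpoly = Polynomial.X ^ 2 + 1 := by
    intro B hB
    rw [Matrix.charpoly_fin_two, trace_eq_zero _ B.2 (sq B hB), B.2]
    simp
  obtain ⟨P, hP, hPA⟩ := Cfsg.Agent.Lib.Helper14.exists_det_one_conj h4 (p4 J0 J0_sq) h4 (p4 A hA)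
    ((cp J0 J0_sq).trans (cp A hA).symm)
  let P' : Matrix.SpecialLinearGroup (Fin 2) F := ⟨P, hP⟩
  refine ⟨P', ?_⟩
  rw [mul_inv_eq_iff_eq_mul]
  exact Subtype.ext hPA

end

theorem side {G : Type*} [Group G] {F : Type*} [Field F] [Fintype F] (hF : Odd (Fintype.card F))
    (L : Subgroup G) (e : ↥L ≃* Matrix.SpecialLinearGroup (Fin 2) F) (j : G) (hj : orderOf j = 2)
    (hjL : j ∈ L) :
    (∀ a ∈ L, a * a = 1 → a = 1 ∨ a = j) ∧
      ∃ a0 ∈ L, a0 * a0 = j ∧ ∀ a ∈ L, a * a = j → ∃ g ∈ L, g * a0 * g⁻¹ = a := by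
  have h2 : (2 : F) ≠ 0 := by
    intro h
    have h1 : ringChar F = 2 := CharP.ringChar_of_prime_eq_zero Nat.prime_two (by exact_mod_cast h)
    have := FiniteField.even_card_of_char_two h1
    rw [Nat.odd_iff] at hF
    omega
  have hjj : j * j = 1 := by rw [← pow_two, ← hj]; exact pow_orderOf_eq_one j
  have hj1 : j ≠ 1 := by rintro rfl; simp at hj
  have inv : ∀ a : L, a * a = 1 → a ≠ 1 → e a = -1 := by
    intro a ha ha1
    apply Cfsg.Agent.Lib.Helper13.SL2_eq_neg_one_of_mul_self h2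
    · rw [← map_mul, ha, map_one]
    · intro h
      exact ha1 (e.injective (h.trans (map_one e).symm))
  have hej : e ⟨j, hjL⟩ = -1 := inv _ (Subtype.ext hjj) (fun h => hj1 (congrArg Subtype.val h))
  refine ⟨?_, (e.symm J0 : L), (e.symm J0).2, ?_, ?_⟩
  · intro a ha haa
    by_cases ha1 : a = 1
    · exact Or.inl ha1
    · right
      have h1 := inv ⟨a, ha⟩ (Subtype.ext haa) (fun h => ha1 (congrArg Subtype.val h))
      exact congrArg Subtype.val (e.injective (h1.trans hej.symm))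
  · have h1 : e.symm J0 * e.symm J0 = ⟨j, hjL⟩ := by
      apply e.injective
      rw [map_mul, MulEquiv.apply_symm_apply, J0_sq, hej]
    exact congrArg Subtype.val h1
  · intro a ha haa
    have h1 : e ⟨a, ha⟩ * e ⟨a, ha⟩ = -1 := by
      rw [← map_mul, ← hej]
      congr 1
      exact Subtype.ext haa
    obtain ⟨P, hP⟩ := conj_J0 h2 _ h1
    refine ⟨(e.symm P : L), (e.symm P).2, ?_⟩
    have h3 : e.symm P * e.symm J0 * (e.symm P)⁻¹ = ⟨a, ha⟩ := by
      apply e.injective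
      rw [map_mul, map_mul, map_inv, MulEquiv.apply_symm_apply, MulEquiv.apply_symm_apply, hP]
    exact congrArg Subtype.val h3

/-- Let L₁ ≅ SL₂(q₁) and L₂ ≅ SL₂(q₂), q₁ and q₂ odd, be elementwise-commuting subgroups of a finite group meeting in ⟨j⟩ for an involution j. Then L₁L₂ has exactly two conjugacy classes of involutions: the central involution j, and one further class (there is an involution x ≠ j in L₁L₂, and every involution of L₁L₂ other than j is conjugate to x by an element of L₁L₂). -/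
theorem result {G : Type*} [Group G] [Finite G]
    {F₁ : Type*} [Field F₁] [Fintype F₁] {F₂ : Type*} [Field F₂] [Fintype F₂]
    (hF₁ : Odd (Fintype.card F₁)) (hF₂ : Odd (Fintype.card F₂)) (L₁ L₂ : Subgroup G)
    (e₁ : ↥L₁ ≃* Matrix.SpecialLinearGroup (Fin 2) F₁) (e₂ : ↥L₂ ≃* Matrix.SpecialLinearGroup (Fin 2) F₂)
    (hc : ∀ x ∈ L₁, ∀ y ∈ L₂, x * y = y * x) (j : G) (hj : orderOf j = 2) (hm : L₁ ⊓ L₂ = Subgroup.zpowers j) :
    ∃ x ∈ L₁ ⊔ L₂, orderOf x = 2 ∧ x ≠ j ∧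
      ∀ y ∈ L₁ ⊔ L₂, orderOf y = 2 → y = j ∨ ∃ g ∈ L₁ ⊔ L₂, g * x * g⁻¹ = y := by
  have hjm : j ∈ L₁ ⊓ L₂ := by rw [hm]; exact Subgroup.mem_zpowers j
  obtain ⟨inv1, a0, ha0, ha0j, conj1⟩ := side hF₁ L₁ e₁ j hj hjm.1
  obtain ⟨inv2, b0, hb0, hb0j, conj2⟩ := side hF₂ L₂ e₂ j hj hjm.2
  have hjj : j * j = 1 := by rw [← pow_two, ← hj]; exact pow_orderOf_eq_one j
  have hj1 : j ≠ 1 := by rintro rfl; simp at hj
  have hmem : ∀ x, x ∈ L₁ → x ∈ L₂ → x = 1 ∨ x = j := fun x h1 h2 =>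
    Cfsg.Agent.Lib.Helper18.mem_zpowers_of_orderOf_two hj (hm ▸ (⟨h1, h2⟩ : x ∈ L₁ ⊓ L₂))
  have hnorm : L₂ ≤ Subgroup.normalizer (L₁ : Set G) := by
    refine le_trans ?_ (Subgroup.centralizer_le_normalizer _)
    intro b hb
    rw [Subgroup.mem_centralizer_iff]
    intro a ha
    exact hc a ha b hb
  have hsup : ∀ y, y ∈ L₁ ⊔ L₂ ↔ ∃ a ∈ L₁, ∃ b ∈ L₂, y = a * b := fun y =>
    Cfsg.Agent.Lib.Helper1.mem_sup_of_le_normalizer hnorm
  have ha0L2 : a0 ∉ L₂ := by
    intro h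
    rcases hmem a0 ha0 h with h1 | h1
    · rw [h1, one_mul] at ha0j
      exact hj1 ha0j.symm
    · rw [h1, hjj] at ha0j
      exact hj1 ha0j.symm
  have hsq : ∀ a ∈ L₁, ∀ b ∈ L₂, (a * b) * (a * b) = (a * a) * (b * b) := by
    intro a ha b hb
    rw [mul_assoc a b, ← mul_assoc b a b, ← hc a ha b hb]
    simp only [mul_assoc]
  refine ⟨a0 * b0, (hsup _).mpr ⟨a0, ha0, b0, hb0, rfl⟩, ?_, ?_, ?_⟩
  · apply orderOf_eq_prime
    · rw [pow_two, hsq a0 ha0 b0 hb0, ha0j, hb0j, hjj]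
    · intro h
      apply ha0L2
      rw [eq_inv_of_mul_eq_one_left h]
      exact inv_mem hb0
  · intro h
    apply ha0L2
    have : a0 = j * b0⁻¹ := by rw [← h, mul_inv_cancel_right]
    rw [this]
    exact mul_mem hjm.2 (inv_mem hb0)
  · intro y hy hy2
    obtain ⟨a, ha, b, hb, rfl⟩ := (hsup y).mp hy
    have hyy : (a * b) * (a * b) = 1 := by rw [← pow_two, ← hy2]; exact pow_orderOf_eq_one _
    have hy1 : a * b ≠ 1 := by
      intro h
      rw [h, orderOf_one] at hy2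
      omega
    rw [hsq a ha b hb] at hyy
    have haa : a * a = (b * b)⁻¹ := eq_inv_of_mul_eq_one_left hyy
    rcases hmem (a * a) (mul_mem ha ha) (haa ▸ inv_mem (mul_mem hb hb)) with h1 | h1
    · left
      have hbb : b * b = 1 := by rwa [h1, one_mul] at hyy
      rcases inv1 a ha h1 with rfl | rfl <;> rcases inv2 b hb hbb with rfl | rfl
      · exact absurd (one_mul 1) hy1
      · exact one_mul _
      · exact mul_one _
      · exact absurd hjj hy1
    · right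
      have hbb : b * b = j := by
        rw [h1] at hyy
        have h3 : b * b = j⁻¹ := (inv_eq_of_mul_eq_one_right hyy).symm
        rw [h3]
        exact inv_eq_of_mul_eq_one_right hjj
      obtain ⟨g1, hg1, hg1a⟩ := conj1 a ha h1
      obtain ⟨g2, hg2, hg2b⟩ := conj2 b hb hbb
      refine ⟨g1 * g2, (hsup _).mpr ⟨g1, hg1, g2, hg2, rfl⟩, ?_⟩
      rw [← hg1a, ← hg2b]
      have c1 : g2 * a0 = a0 * g2 := (hc a0 ha0 g2 hg2).symm
      have c2 : (g2 * b0 * g2⁻¹) * g1⁻¹ = g1⁻¹ * (g2 * b0 * g2⁻¹) :=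
        (hc g1⁻¹ (inv_mem hg1) _ (mul_mem (mul_mem hg2 hb0) (inv_mem hg2))).symm
      calc g1 * g2 * (a0 * b0) * (g1 * g2)⁻¹ = g1 * (g2 * a0) * b0 * g2⁻¹ * g1⁻¹ := by group
        _ = g1 * a0 * ((g2 * b0 * g2⁻¹) * g1⁻¹) := by rw [c1]; group
        _ = g1 * a0 * g1⁻¹ * (g2 * b0 * g2⁻¹) := by rw [c2]; group

end Cfsg.Agent.S3209
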