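import Mathlib
import Cfsg.Agent.S0016
import Cfsg.Agent.S0041
import Cfsg.Agent.Lib.Lead.AbelianCyclic
import Cfsg.Agent.Lib.Lead.Fpf
import Cfsg.Agent.Lib.Helper1.Cores
import Cfsg.Agent.Lib.Helper1.Nilp
import Cfsg.Agent.Lib.Helper1.Coprime
import Cfsg.Agent.Lib.Helper1.Hall
import Cfsg.Agent.Lib.Helper21.TwoClosed
import Cfsg.Agent.Lib.Helper22.Index
import Cfsg.Agent.Lib.Helper18.UniqueInvolution
import Cfsg.Statements.S3215

set_option autoImplicit false
open Cfsg

namespace Cfsg.Agent.S3215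

open Subgroup

section
variable {H : Type*} [Group H] [Finite H]

omit [Finite H] in
theorem eq_one_of_odd {K : Subgroup H} (hK : IsPGroup 2 K) {x : H} (hx : x ∈ K)
    (hodd : Odd (orderOf x)) : x = 1 := by
  obtain ⟨k, hk⟩ := hK ⟨x, hx⟩
  have h1 : x ^ (2 ^ k) = 1 := by simpa using congrArg Subtype.val hk
  have h2 : orderOf x ∣ 2 ^ k := orderOf_dvd_of_pow_eq_one h1
  have h3 : Nat.Coprime (orderOf x) (2 ^ k) :=
    Nat.Coprime.pow_right k (Nat.coprime_two_right.mpr hodd)
  exact orderOf_eq_one_iff.mp (Nat.Coprime.eq_one_of_dvd h3 h2)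

theorem exists_odd_normal {C : Type*} [Group C] [Finite C] (h : Cfsg.HasNormalPComplement 2 C) :
    ∃ N : Subgroup C, N.Normal ∧ Odd (Nat.card N) ∧ ∀ x : C, Odd (orderOf x) → x ∈ N := by
  obtain ⟨P, N, hN, hc⟩ := h
  refine ⟨N, hN, ?_, ?_⟩
  · have h1 : (P : Subgroup C).index = Nat.card N := hc.index_eq_card
    rw [← h1, ← Nat.not_even_iff_odd, even_iff_two_dvd]
    exact P.not_dvd_index
  · intro x hx
    have h1 : N.index = Nat.card (P : Subgroup C) := hc.symm.index_eq_card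
    obtain ⟨k, hk⟩ := IsPGroup.iff_card.mp P.isPGroup'
    have h2 : orderOf (QuotientGroup.mk' N x) ∣ orderOf x := orderOf_map_dvd _ x
    have h3 : orderOf (QuotientGroup.mk' N x) ∣ 2 ^ k := by
      rw [← hk, ← h1]; exact orderOf_dvd_natCard _
    have h4 : Nat.Coprime (orderOf x) (2 ^ k) :=
      Nat.Coprime.pow_right k (Nat.coprime_two_right.mpr hx)
    have h5 : orderOf (QuotientGroup.mk' N x) = 1 :=
      Nat.eq_one_of_dvd_coprimes h4 h2 h3
    exact (QuotientGroup.eq_one_iff x).mp (orderOf_eq_one_iff.mp h5)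

theorem comm_of
    (hI : ∀ t : H, orderOf t = 2 → Cfsg.HasNormalPComplement 2 ↥(Subgroup.centralizer ({t} : Set H)))
    {t x u : H} (ht : orderOf t = 2) (hx : Odd (orderOf x)) (hxt : x * t = t * x)
    (hu : u ∈ Cfsg.pCore 2 H) (hut : u * t = t * u) : x * u = u * x := by
  obtain ⟨N, hN, hNodd, hmem⟩ := exists_odd_normal (hI t ht)
  have hxC : x ∈ centralizer ({t} : Set H) := mem_centralizer_singleton_iff.mpr hxt
  have huC : u ∈ centralizer ({t} : Set H) := mem_centralizer_singleton_iff.mpr hut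
  have hx'N : (⟨x, hxC⟩ : centralizer ({t} : Set H)) ∈ N := hmem _ (by rwa [Subgroup.orderOf_mk])
  have hcN : (⟨x, hxC⟩ : centralizer ({t} : Set H)) * (⟨u, huC⟩ * ⟨x, hxC⟩⁻¹ * ⟨u, huC⟩⁻¹) ∈ N :=
    mul_mem hx'N (hN.conj_mem _ (inv_mem hx'N) _)
  have hcY : x * u * x⁻¹ * u⁻¹ ∈ Cfsg.pCore 2 H :=
    mul_mem ((Cfsg.Agent.Lib.Helper1.pCore_normal 2).conj_mem u hu x) (inv_mem hu)
  have hodd : Odd (orderOf (x * u * x⁻¹ * u⁻¹)) := by
    have h1 := orderOf_dvd_natCard (⟨_, hcN⟩ : N)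
    rw [Subgroup.orderOf_mk, ← Subgroup.orderOf_coe] at h1
    have h2 : ((⟨x, hxC⟩ : centralizer ({t} : Set H)) * (⟨u, huC⟩ * ⟨x, hxC⟩⁻¹ * ⟨u, huC⟩⁻¹) :
        centralizer ({t} : Set H)).1 = x * u * x⁻¹ * u⁻¹ := by
      simp [mul_assoc]
    rw [h2] at h1
    exact Odd.of_dvd_nat hNodd h1
  have h1 := eq_one_of_odd (Cfsg.Agent.Lib.Helper1.pCore_isPGroup 2) hcY hodd
  calc x * u = (x * u * x⁻¹ * u⁻¹) * (u * x) := by group
    _ = u * x := by rw [h1, one_mul]

theorem key1 [Group.IsSolvable H] (hO : Cfsg.oddCore H = ⊥)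
    (hI : ∀ t : H, orderOf t = 2 → Cfsg.HasNormalPComplement 2 ↥(Subgroup.centralizer ({t} : Set H)))
    {x y : H} (hx : Odd (orderOf x)) (hx1 : x ≠ 1) (hy : y ∈ Cfsg.pCore 2 H) (hy1 : y ≠ 1) :
    x * y ≠ y * x := by
  intro hxy
  have hYp : IsPGroup 2 (Cfsg.pCore 2 H) := Cfsg.Agent.Lib.Helper1.pCore_isPGroup 2
  have hYn : (Cfsg.pCore 2 H).Normal := Cfsg.Agent.Lib.Helper1.pCore_normal 2
  obtain ⟨e, he⟩ := Cfsg.Agent.Lib.Helper18.exists_pow_orderOf_two hYp ⟨y, hy⟩
    (fun h => hy1 (congrArg Subtype.val h))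
  set t : H := y ^ (2 ^ e) with ht
  have ht2 : orderOf t = 2 := by
    rw [← he, ← Subgroup.orderOf_coe]; rfl
  have hxt : x * t = t * x := (Commute.pow_right (show Commute x y from hxy) _).eq
  have hcomm : ∀ u ∈ Cfsg.pCore 2 H, u * t = t * u → x * u = u * x :=
    fun u hu hut => comm_of hI ht2 hx hxt hu hut
  have hP : IsPGroup 2 (zpowers t) := by
    apply IsPGroup.of_card (n := 1)
    rw [Nat.card_zpowers, ht2, pow_one]
  have hQ : (Nat.card (zpowers x)).Coprime 2 := by
    rw [Nat.card_zpowers]; exact Nat.coprime_two_right.mpr hx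
  have hPQ : zpowers t ≤ centralizer (zpowers x : Set H) := by
    rw [zpowers_le, mem_centralizer_iff]
    intro z hz
    obtain ⟨k, rfl⟩ := hz
    exact ((Commute.zpow_left (show Commute x t from hxt) k)).eq
  have hnle : ∀ K : Subgroup H, K ≤ normalizer (Cfsg.pCore 2 H : Set H) := by
    intro K
    rw [normalizer_eq_top]
    exact le_top
  have hC : Cfsg.pCore 2 H ⊓ centralizer (zpowers t : Set H) ≤ centralizer (zpowers x : Set H) := by
    rintro u ⟨hu, hut⟩
    have h1 : u * t = t * u := ((mem_centralizer_iff.mp hut) t (mem_zpowers t)).symm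
    have h2 := hcomm u hu h1
    rw [mem_centralizer_iff]
    intro z hz
    obtain ⟨k, rfl⟩ := hz
    exact ((Commute.zpow_left (show Commute x u from h2) k)).eq
  have h0 := Cfsg.Agent.Lib.Helper1.thompson_PxQ 2 (zpowers t) (zpowers x) hP hQ hPQ _
    (Cfsg.pCore 2 H) rfl hYp (hnle _) (hnle _) hC
  have hxc : x ∈ centralizer (Cfsg.pCore 2 H : Set H) := by
    have h1 := (commutator_eq_bot_iff_le_centralizer.mp h0)
    rw [mem_centralizer_iff]
    intro u hu
    exact ((mem_centralizer_iff.mp (h1 hu)) x (mem_zpowers x)).symm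
  have h2 := Cfsg.Agent.Lib.Helper1.centralizer_pCore_le 2 hO hxc
  exact hx1 (eq_one_of_odd hYp h2 hx)

theorem subsingleton_of_pCore_eq_bot [Group.IsSolvable H] (hO : Cfsg.oddCore H = ⊥)
    (hY : Cfsg.pCore 2 H = ⊥) : Subsingleton H := by
  have h2 := Cfsg.Agent.Lib.Helper1.centralizer_pCore_le (G := H) 2 hO
  rw [hY] at h2
  have h3 : (⊤ : Subgroup H) ≤ ⊥ := by
    refine le_trans ?_ h2
    intro x _
    rw [mem_centralizer_iff]
    intro u hu
    rw [SetLike.mem_coe, mem_bot] at hu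
    rw [hu, one_mul, mul_one]
  exact Subgroup.subsingleton_iff.mp ⟨fun a b => by
    have ha : a = ⊥ := le_antisymm (le_trans le_top h3) bot_le
    have hb : b = ⊥ := le_antisymm (le_trans le_top h3) bot_le
    rw [ha, hb]⟩

theorem key2 [Group.IsSolvable H] (hO : Cfsg.oddCore H = ⊥)
    (hI : ∀ t : H, orderOf t = 2 → Cfsg.HasNormalPComplement 2 ↥(Subgroup.centralizer ({t} : Set H)))
    {x t : H} (hx : Odd (orderOf x)) (hx1 : x ≠ 1) (ht : orderOf t = 2) : x * t ≠ t * x := by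
  intro hxt
  have hYp : IsPGroup 2 (Cfsg.pCore 2 H) := Cfsg.Agent.Lib.Helper1.pCore_isPGroup 2
  have hYn : (Cfsg.pCore 2 H).Normal := Cfsg.Agent.Lib.Helper1.pCore_normal 2
  have hY : Cfsg.pCore 2 H ≠ ⊥ := by
    intro h
    have := subsingleton_of_pCore_eq_bot hO h
    exact hx1 (Subsingleton.elim _ _)
  have hP : IsPGroup 2 (zpowers t) := by
    apply IsPGroup.of_card (n := 1)
    rw [Nat.card_zpowers, ht, pow_one]
  obtain ⟨u, hu, hu1, htu⟩ := Cfsg.Agent.Lib.Lead.exists_fixed_of_pgroups hYp hP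
    (by rw [normalizer_eq_top]; exact le_top) hY (mem_zpowers t)
  have hut : u * t = t * u := by
    nth_rewrite 1 [← htu]
    group
  exact key1 hO hI hx hx1 hu hu1 (comm_of hI ht hx hxt hu hut)

theorem abelian_odd_cyclic [Group.IsSolvable H] (hO : Cfsg.oddCore H = ⊥)
    (hI : ∀ t : H, orderOf t = 2 → Cfsg.HasNormalPComplement 2 ↥(Subgroup.centralizer ({t} : Set H)))
    (B : Subgroup H) (hB : IsMulCommutative B) (hodd : Odd (Nat.card B)) : IsCyclic B := by
  have hYp : IsPGroup 2 (Cfsg.pCore 2 H) := Cfsg.Agent.Lib.Helper1.pCore_isPGroup 2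
  have hYn : (Cfsg.pCore 2 H).Normal := Cfsg.Agent.Lib.Helper1.pCore_normal 2
  by_cases hY : Cfsg.pCore 2 H = ⊥
  · have := subsingleton_of_pCore_eq_bot hO hY
    infer_instance
  set V : Subgroup H := Cfsg.pCore 2 H ⊓ centralizer (Cfsg.pCore 2 H : Set H) with hV
  have hVc : IsMulCommutative V := by
    refine ⟨⟨fun a b => Subtype.ext ?_⟩⟩
    exact ((mem_centralizer_iff.mp b.2.2) a a.2.1)
  have hVn : V.Normal := inferInstance
  have hVne : V ≠ ⊥ := by
    have hnt : Nontrivial (Cfsg.pCore 2 H) := (nontrivial_iff_ne_bot _).mpr hY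
    have := hYp.center_nontrivial
    obtain ⟨z, hz⟩ := exists_ne (1 : center (Cfsg.pCore 2 H))
    intro h
    apply hz
    have h1 : (z.1.1 : H) ∈ V := by
      refine ⟨z.1.2, ?_⟩
      change (z.1.1 : H) ∈ centralizer (Cfsg.pCore 2 H : Set H)
      rw [mem_centralizer_iff]
      intro u hu
      exact congrArg Subtype.val ((mem_center_iff.mp z.2) ⟨u, hu⟩)
    rw [h, mem_bot] at h1
    exact Subtype.ext (Subtype.ext h1)
  apply Cfsg.Agent.S0041.result B V hVne (by rw [normalizer_eq_top]; exact le_top) ?_ (Or.inl hB)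
  intro a ha ha1
  rw [eq_bot_iff]
  rintro v ⟨hv, hva⟩
  rw [mem_bot]
  by_contra hv1
  have hao : Odd (orderOf a) := by
    have := orderOf_dvd_natCard (⟨a, ha⟩ : B)
    rw [Subgroup.orderOf_mk] at this
    exact Odd.of_dvd_nat hodd this
  exact key1 hO hI hao ha1 hv.1 hv1 ((mem_centralizer_singleton_iff.mp hva).symm)

theorem cyclic_of_inj [Group.IsSolvable H] (hO : Cfsg.oddCore H = ⊥)
    (hI : ∀ t : H, orderOf t = 2 → Cfsg.HasNormalPComplement 2 ↥(Subgroup.centralizer ({t} : Set H)))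
    {Q : Type*} [Group Q] [Finite Q] (p : ℕ) [Fact p.Prime] (hQ : IsPGroup p Q)
    (hodd : Odd (Nat.card Q)) (f : Q →* H) (hf : Function.Injective f) : IsCyclic Q := by
  have hU := Cfsg.Agent.Lib.Lead.unique_of_abelian_cyclic hQ (by
    intro B hB
    have h1 : IsMulCommutative (B.map f) := Subgroup.map_isMulCommutative _ _
    have h2 := abelian_odd_cyclic hO hI (B.map f) h1 (by
      rw [Subgroup.card_map_of_injective hf]
      exact Odd.of_dvd_nat hodd (Subgroup.card_subgroup_dvd_card B))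
    exact isCyclic_of_surjective (B.equivMapOfInjective _ hf).symm
      (B.equivMapOfInjective _ hf).symm.surjective)
  rcases Cfsg.Agent.S0016.main p hQ hU with h | ⟨rfl, -⟩
  · exact h
  · obtain ⟨k, hk⟩ := IsPGroup.iff_card.mp hQ
    have hk0 : k = 0 := by
      by_contra h0
      rw [hk] at hodd
      exact (Nat.not_even_iff_odd.mpr hodd) (Nat.even_pow.mpr ⟨even_two, h0⟩)
    rw [hk0, pow_zero] at hk
    have : Subsingleton Q := (Nat.card_eq_one_iff_unique.mp hk).1
    infer_instance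

theorem exists_D [Group.IsSolvable H] (hO : Cfsg.oddCore H = ⊥)
    (hI : ∀ t : H, orderOf t = 2 → Cfsg.HasNormalPComplement 2 ↥(Subgroup.centralizer ({t} : Set H))) :
    ∃ (D : Subgroup H) (_ : D.Normal), Cfsg.pCore 2 H ≤ D ∧ Odd ((Cfsg.pCore 2 H).relIndex D) ∧
      IsCyclic (H ⧸ D) := by
  have hYp : IsPGroup 2 (Cfsg.pCore 2 H) := Cfsg.Agent.Lib.Helper1.pCore_isPGroup 2
  have hYn : (Cfsg.pCore 2 H).Normal := Cfsg.Agent.Lib.Helper1.pCore_normal 2
  set Y := Cfsg.pCore 2 H with hYdef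
  by_cases htriv : Subsingleton (H ⧸ Y)
  · have hYtop : Y = ⊤ := by
      rw [eq_top_iff]
      intro x _
      exact (QuotientGroup.eq_one_iff x).mp (Subsingleton.elim _ _)
    refine ⟨Y, hYn, le_rfl, ?_, inferInstance⟩
    rw [relIndex_self]
    exact odd_one
  have hnt : Nontrivial (H ⧸ Y) := not_subsingleton_iff_nontrivial.mp htriv
  obtain ⟨p, M, hp, hMn, hMne, hMcomm, hMexp⟩ :=
    Cfsg.Agent.Lib.Helper1.exists_normal_elementary_abelian (G := H ⧸ Y)
  have hpF : Fact p.Prime := ⟨hp⟩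
  have hMp : IsPGroup p M := Cfsg.Agent.Lib.Helper1.isPGroup_of_pow_eq_one hMexp
  have hp2 : p ≠ 2 := by
    rintro rfl
    apply hMne
    have h1 := Cfsg.Agent.Lib.Helper1.le_pCore hMn hMp
    rw [Cfsg.Agent.Lib.Helper21.pCore_quotient_eq_bot] at h1
    exact le_antisymm h1 bot_le
  have hpodd : Odd p := hp.odd_of_ne_two hp2
  obtain ⟨S⟩ : Nonempty (Sylow p H) := inferInstance
  have hSodd : Odd (Nat.card (S : Subgroup H)) := by
    obtain ⟨k, hk⟩ := IsPGroup.iff_card.mp S.isPGroup'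
    rw [hk]
    exact hpodd.pow
  have hScyc : IsCyclic (S : Subgroup H) :=
    cyclic_of_inj hO hI p S.isPGroup' hSodd (S : Subgroup H).subtype (subtype_injective _)
  have hMS : M ≤ (S : Subgroup H).map (QuotientGroup.mk' Y) := by
    apply Cfsg.Agent.Lib.Helper1.le_of_normal_pgroup_of_not_dvd_index hMp
    intro h
    exact S.not_dvd_index (h.trans (index_map_dvd _ (QuotientGroup.mk'_surjective Y)))
  have hScyc' : IsCyclic ((S : Subgroup H).map (QuotientGroup.mk' Y)) :=
    isCyclic_of_surjective ((QuotientGroup.mk' Y).subgroupMap (S : Subgroup H))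
      (MonoidHom.subgroupMap_surjective _ _)
  have hMcyc : IsCyclic M := Subgroup.isCyclic_of_le hMS
  have hMcard : Nat.card M = p := by
    obtain ⟨g, hg⟩ := hMcyc.exists_generator
    have h1 : orderOf g = Nat.card M := orderOf_eq_card_of_forall_mem_zpowers hg
    have h2 : g ^ p = 1 := Subtype.ext (hMexp g g.2)
    have h3 : Nat.card M ∣ p := h1 ▸ orderOf_dvd_of_pow_eq_one h2
    rcases (Nat.dvd_prime hp).mp h3 with h | h
    · exact absurd (card_eq_one.mp h) hMne
    · exact h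
  have hpF' : Fact (Nat.card M).Prime := ⟨hMcard ▸ hp⟩
  have hAutCyc : IsCyclic (MulAut M) :=
    isCyclic_of_surjective (IsCyclic.mulAutMulEquiv M).symm (IsCyclic.mulAutMulEquiv M).symm.surjective
  let f : H →* MulAut M := (MulAut.conjNormal : (H ⧸ Y) →* MulAut M).comp (QuotientGroup.mk' Y)
  have hfker : ∀ a : H, a ∈ f.ker ↔ ∀ m ∈ M, (QuotientGroup.mk' Y a) * m = m * (QuotientGroup.mk' Y a) := by
    intro a
    rw [MonoidHom.mem_ker]
    constructor
    · intro h m hm
      have h1 : f a ⟨m, hm⟩ = ⟨m, hm⟩ := by rw [h]; rfl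
      have h2 : (QuotientGroup.mk' Y a) * m * (QuotientGroup.mk' Y a)⁻¹ = m := congrArg Subtype.val h1
      nth_rewrite 2 [← h2]
      group
    · intro h
      ext m
      change (QuotientGroup.mk' Y a) * m * (QuotientGroup.mk' Y a)⁻¹ = m
      rw [h m m.2]
      group
  refine ⟨f.ker, inferInstance, ?_, ?_, ?_⟩
  · intro y hy
    rw [hfker]
    intro m _
    have : QuotientGroup.mk' Y y = 1 := (QuotientGroup.eq_one_iff y).mpr hy
    rw [this, one_mul, mul_one]
  · by_contra hev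
    rw [Nat.not_odd_iff_even, even_iff_two_dvd] at hev
    have hn' : (Y.subgroupOf f.ker).Normal := inferInstance
    obtain ⟨a', ha'⟩ := exists_prime_orderOf_dvd_card' (G := f.ker ⧸ Y.subgroupOf f.ker) 2 hev
    obtain ⟨a, rfl⟩ := QuotientGroup.mk'_surjective _ a'
    have haY : (a : H) ∉ Y := by
      intro h
      have h1 : QuotientGroup.mk' (Y.subgroupOf f.ker) a = 1 :=
        (QuotientGroup.eq_one_iff a).mpr (mem_subgroupOf.mpr h)
      rw [h1, orderOf_one] at ha'
      omega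
    have ha2 : (a : H) ^ 2 ∈ Y := by
      have h1 : QuotientGroup.mk' (Y.subgroupOf f.ker) (a ^ 2) = 1 := by
        rw [map_pow, ← ha']; exact pow_orderOf_eq_one _
      have := (QuotientGroup.eq_one_iff (a ^ 2)).mp h1
      simpa [mem_subgroupOf] using this
    obtain ⟨⟨w', hw'M⟩, hw'1⟩ := (Subgroup.ne_bot_iff_exists_ne_one).mp hMne
    have hw'1' : w' ≠ 1 := fun h => hw'1 (Subtype.ext h)
    obtain ⟨w, hwS, rfl⟩ := hMS hw'M
    have hw1 : w ≠ 1 := by
      rintro rfl
      exact hw'1' (map_one _)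
    have hwodd : Odd (orderOf w) := by
      have := orderOf_dvd_natCard (⟨w, hwS⟩ : (S : Subgroup H))
      rw [Subgroup.orderOf_mk] at this
      exact Odd.of_dvd_nat hSodd this
    obtain ⟨j, hj⟩ := IsPGroup.iff_card.mp hYp
    obtain ⟨n, hn, hb⟩ := Cfsg.Agent.Lib.Helper1.coprime_key Y (zpowers w)
      (by rw [normalizer_eq_top]; exact le_top)
      (by
        rw [hj, Nat.card_zpowers]
        exact Nat.Coprime.pow_left j (Nat.coprime_two_left.mpr hwodd))
      (Or.inl inferInstance) (a : H) (by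
        intro c hc
        obtain ⟨i, rfl⟩ := hc
        apply (QuotientGroup.eq_one_iff _).mp
        have h1 := (hfker a).mp a.2 ((QuotientGroup.mk' Y w) ^ i) (zpow_mem hw'M i)
        change QuotientGroup.mk' Y ((a : H)⁻¹ * w ^ i * a * (w ^ i)⁻¹) = 1
        rw [map_mul, map_mul, map_mul, map_inv, map_inv, map_zpow, mul_assoc (QuotientGroup.mk' Y a)⁻¹,
          ← h1]
        group)
    set b : H := a * n with hbdef
    have hbY : b ∉ Y := fun h => haY (by
      have := mul_mem h (inv_mem hn)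
      rwa [hbdef, mul_assoc, mul_inv_cancel, mul_one] at this)
    have hb2 : b ^ 2 ∈ Y := by
      apply (QuotientGroup.eq_one_iff _).mp
      change QuotientGroup.mk' Y (b ^ 2) = 1
      have h1 : QuotientGroup.mk' Y n = 1 := (QuotientGroup.eq_one_iff n).mpr hn
      have h2 : QuotientGroup.mk' Y ((a : H) ^ 2) = 1 := (QuotientGroup.eq_one_iff _).mpr ha2
      rw [map_pow, hbdef, map_mul, h1, mul_one, ← map_pow, h2]
    have hbo : orderOf b ∣ 2 ^ (j + 1) := by
      apply orderOf_dvd_of_pow_eq_one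
      rw [pow_succ', pow_mul]
      have := pow_card_eq_one' (G := Y) (x := ⟨b ^ 2, hb2⟩)
      rw [hj] at this
      exact congrArg Subtype.val this
    obtain ⟨i, _, hi⟩ := (Nat.dvd_prime_pow Nat.prime_two).mp hbo
    have hbp : IsPGroup 2 (zpowers b) := IsPGroup.of_card (n := i) (by rw [Nat.card_zpowers, hi])
    obtain ⟨e, he⟩ := Cfsg.Agent.Lib.Helper18.exists_pow_orderOf_two hbp ⟨b, mem_zpowers b⟩
      (fun h => hbY (by
        have : b = 1 := congrArg Subtype.val h
        rw [this]; exact one_mem _))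
    have ht2 : orderOf (b ^ (2 ^ e)) = 2 := by
      rw [← Subgroup.orderOf_coe] at he
      exact he
    have hwb : w * b = b * w := (mem_centralizer_iff.mp hb) w (mem_zpowers w)
    exact key2 hO hI hwodd hw1 ht2 (Commute.pow_right (show Commute w b from hwb) _).eq
  · exact isCyclic_of_surjective (QuotientGroup.quotientKerEquivRange f).symm
      (QuotientGroup.quotientKerEquivRange f).symm.surjective

end

/-- Let H be a finite solvable group with no nontrivial normal subgroup of odd order in which the centralizer of every involution has a normal 2-complement. Let X be a Hall 2'-subgroup of H (odd order, index a power of 2) and Y = O₂(H). Then no non-identity element of X commutes with a non-identity element of Y (so for X ≠ 1 the group XY is a Frobenius group with kernel Y), every Sylow subgroup of X is cyclic, XY is normal in H, and H/XY is a cyclic 2-group. -/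
theorem result {H : Type*} [Group H] [Finite H] (hsol : Group.IsSolvable H)
    (hO : Cfsg.oddCore H = ⊥)
    (hI : ∀ t : H, orderOf t = 2 → Cfsg.HasNormalPComplement 2 ↥(Subgroup.centralizer ({t} : Set H)))
    (X : Subgroup H) (hXodd : Odd (Nat.card X)) (hXidx : ∃ k : ℕ, X.index = 2 ^ k) :
    (∀ x ∈ X, x ≠ 1 → ∀ y ∈ Cfsg.pCore 2 H, y ≠ 1 → x * y ≠ y * x) ∧
      (∀ (p : ℕ) [Fact p.Prime] (P : Sylow p ↥X), IsCyclic ↥(P : Subgroup ↥X)) ∧
      (X ⊔ Cfsg.pCore 2 H).Normal ∧
      ∀ hN : (X ⊔ Cfsg.pCore 2 H).Normal, IsCyclic (H ⧸ (X ⊔ Cfsg.pCore 2 H)) ∧ IsPGroup 2 (H ⧸ (X ⊔ Cfsg.pCore 2 H)) := by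
  obtain ⟨k, hk⟩ := hXidx
  obtain ⟨D, hDn, hYD, hDodd, hDcyc⟩ := exists_D hO hI
  have hidx : ∃ j, (X ⊔ Cfsg.pCore 2 H).index = 2 ^ j := by
    have h1 := Subgroup.index_dvd_of_le (le_sup_left : X ≤ X ⊔ Cfsg.pCore 2 H)
    rw [hk] at h1
    obtain ⟨j, _, hj⟩ := (Nat.dvd_prime_pow Nat.prime_two).mp h1
    exact ⟨j, hj⟩
  obtain ⟨j, hj⟩ := hidx
  have hDle : D ≤ X ⊔ Cfsg.pCore 2 H := by
    rw [← Subgroup.relIndex_eq_one]
    have h1 : (X ⊔ Cfsg.pCore 2 H).relIndex D ∣ 2 ^ j := by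
      rw [← hj]
      exact Cfsg.Agent.Lib.Helper22.relIndex_dvd_index_of_normal_right D (X ⊔ Cfsg.pCore 2 H)
    have h2 : (X ⊔ Cfsg.pCore 2 H).relIndex D ∣ (Cfsg.pCore 2 H).relIndex D :=
      Subgroup.relIndex_dvd_of_le_left D le_sup_right
    exact Nat.eq_one_of_dvd_coprimes (Nat.Coprime.pow_left j (Nat.coprime_two_left.mpr hDodd)) h1 h2
  have hnorm : (X ⊔ Cfsg.pCore 2 H).Normal := by
    refine ⟨fun n hn g => ?_⟩
    have hc : g * n * g⁻¹ * n⁻¹ ∈ D := by
      apply (QuotientGroup.eq_one_iff _).mp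
      have hcomm := hDcyc.isMulCommutative.is_comm.comm (QuotientGroup.mk' D g) (QuotientGroup.mk' D n)
      change QuotientGroup.mk' D (g * n * g⁻¹ * n⁻¹) = 1
      rw [map_mul, map_mul, map_mul, map_inv, map_inv, hcomm]
      group
    have := mul_mem (hDle hc) hn
    rwa [inv_mul_cancel_right] at this
  refine ⟨?_, ?_, hnorm, ?_⟩
  · intro x hx hx1 y hy hy1
    have hxo : Odd (orderOf x) := by
      have := orderOf_dvd_natCard (⟨x, hx⟩ : X)
      rw [Subgroup.orderOf_mk] at this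
      exact Odd.of_dvd_nat hXodd this
    exact key1 hO hI hxo hx1 hy hy1
  · intro p _ P
    exact cyclic_of_inj hO hI p P.isPGroup'
      (Odd.of_dvd_nat hXodd (Subgroup.card_subgroup_dvd_card _))
      (X.subtype.comp (P : Subgroup X).subtype)
      (X.subtype_injective.comp (Subgroup.subtype_injective _))
  · intro hN
    constructor
    · exact isCyclic_of_surjective
        (QuotientGroup.map D (X ⊔ Cfsg.pCore 2 H) (MonoidHom.id H) hDle)
        (by
          intro q
          obtain ⟨h, rfl⟩ := QuotientGroup.mk'_surjective _ q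
          exact ⟨QuotientGroup.mk' D h, rfl⟩)
    · exact IsPGroup.of_card (n := j) hj

end Cfsg.Agent.S3215
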