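import Mathlib
import Cfsg.Agent.Lib.Helper18.Dihedral
import Cfsg.Agent.Lib.Helper22.Comm2
import Cfsg.Statements.S3224

namespace Cfsg.Agent.S3224

open Cfsg.Agent.Lib.Helper18
open scoped commutatorElement

theorem mul_comm_of_zpow {S : Type*} [Group S] (c : S) (i : ℤ) : c ^ i * c = c * c ^ i := by
  rw [← zpow_add_one, ← zpow_one_add, add_comm]

theorem lemma0 {S : Type*} [Group S] (x y c : S) (i : ℤ)
    (hc : c = x * y⁻¹ * x⁻¹ * y) (hinv : x * c * x⁻¹ = c⁻¹) (hy : y * y = c ^ i) :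
    y⁻¹ * c * y = c ^ (2 * i - 1) ∧ c ^ (2 * i * (i - 1)) = 1 := by
  have h1 : y⁻¹ * x * y = c⁻¹ * x := by rw [hc]; group
  have h2 : x * c ^ (-i) * x⁻¹ = c ^ i := by
    rw [← conj_zpow, hinv, inv_zpow, zpow_neg, inv_inv]
  have h2' : c ^ (-i) * x⁻¹ = x⁻¹ * c ^ i := by
    rw [← h2]; group
  have h3 : (y * y)⁻¹ * x⁻¹ * (y * y) = x⁻¹ * c ^ (2 * i) := by
    rw [hy, ← zpow_neg, h2', mul_assoc, ← zpow_add]
    congr 2; ring
  have h4 : y⁻¹ * c * y = c ^ (2 * i - 1) := by
    calc y⁻¹ * c * y = y⁻¹ * (x * y⁻¹ * x⁻¹ * y) * y := by rw [← hc]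
      _ = (y⁻¹ * x * y) * ((y * y)⁻¹ * x⁻¹ * (y * y)) := by group
      _ = c⁻¹ * x * (x⁻¹ * c ^ (2 * i)) := by rw [h1, h3]
      _ = c⁻¹ * c ^ (2 * i) := by group
      _ = c ^ (2 * i - 1) := by
        rw [← zpow_neg_one, ← zpow_add]; congr 1; ring
  refine ⟨h4, ?_⟩
  have h5 : y⁻¹ * c ^ i * y = c ^ i := by rw [← hy]; group
  have h6 : y⁻¹ * c ^ i * y = c ^ ((2 * i - 1) * i) := by
    have : y⁻¹ * c ^ i * y = (y⁻¹ * c * y) ^ i := by
      have := conj_zpow (a := y⁻¹) (b := c) (i := i)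
      simpa using this.symm
    rw [this, h4, ← zpow_mul]
  rw [h5] at h6
  have h7 : c ^ ((2 * i - 1) * i - i) = 1 := by
    rw [zpow_sub, ← h6, mul_inv_cancel]
  have h8 : (2 * i - 1) * i - i = 2 * i * (i - 1) := by ring
  rwa [h8] at h7

theorem orderOf_of_sq {S : Type*} [Group S] (hS : IsPGroup 2 S) (y : S) (e : ℕ)
    (h : orderOf (y ^ 2) = 2 ^ (e + 1)) : orderOf y = 2 ^ (e + 2) := by
  have : Fact (Nat.Prime 2) := ⟨Nat.prime_two⟩
  obtain ⟨j, hj⟩ := IsPGroup.iff_orderOf.mp hS y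
  have hj0 : j ≠ 0 := by
    rintro rfl
    have hy1 : y = 1 := by simpa using hj
    rw [hy1] at h
    simp only [one_pow, orderOf_one] at h
    have : 1 < 2 ^ (e + 1) := Nat.one_lt_two_pow (by omega)
    omega
  have h2 : 2 ∣ orderOf y := by rw [hj]; exact dvd_pow_self 2 hj0
  have h3 := orderOf_pow_of_dvd (x := y) (n := 2) (by norm_num) h2
  rw [h] at h3
  have h4 : orderOf y = 2 * 2 ^ (e + 1) := by omega
  rw [h4]; ring

theorem lemmaA {S : Type*} [Group S] [Finite S] (hS : IsPGroup 2 S) (k : ℕ)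
    (hcard : Nat.card S = 2 ^ (k + 3)) (x y c : S) (i : ℤ) (hx : orderOf x = 2)
    (hc : c = x * y⁻¹ * x⁻¹ * y) (hinv : x * c * x⁻¹ = c⁻¹) (hy : y * y = c ^ i) (hi : Odd i)
    (hordc : orderOf c = 2 ^ (k + 1)) :
    (∃ n : ℕ, Nonempty (S ≃* DihedralGroup n)) ∨ Cfsg.IsQuasiDihedral S := by
  obtain ⟨_, h0⟩ := lemma0 x y c i hc hinv hy
  obtain ⟨m, hm⟩ := hi
  have hdvd : ((2 ^ (k + 1) : ℕ) : ℤ) ∣ 2 * i * (i - 1) := by
    rw [← hordc]; exact orderOf_dvd_iff_zpow_eq_one.mpr h0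
  have hcop : IsCoprime ((2 ^ (k + 1) : ℕ) : ℤ) i := by
    push_cast
    apply IsCoprime.pow_left
    exact ⟨-m, 1, by rw [hm]; ring⟩
  have hdvd2 : ((2 ^ (k + 1) : ℕ) : ℤ) ∣ 4 * m := by
    have h1 : 2 * i * (i - 1) = i * (4 * m) := by rw [hm]; ring
    rw [h1] at hdvd
    exact hcop.dvd_of_dvd_mul_left hdvd
  obtain ⟨t, ht⟩ := hdvd2
  have ht' : 2 * m = 2 ^ k * t := by
    push_cast at ht
    have : 2 * (2 * m) = 2 * (2 ^ k * t) := by rw [← mul_assoc, ← mul_assoc]; rw [pow_succ] at ht; linarith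
    linarith
  set z := c ^ (2 ^ k) with hz
  have hzz : z * z = 1 := by
    rw [hz, ← pow_add, ← two_mul, ← pow_succ', ← hordc, pow_orderOf_eq_one]
  have hyy : y * y = c * z ^ t := by
    rw [hy, hm, add_comm, zpow_add, zpow_one, ht', zpow_mul, hz]
    norm_cast
  have hxx : x * x = 1 := by rw [← pow_two, ← hx]; exact pow_orderOf_eq_one x
  have hx1 : x ≠ 1 := by rintro rfl; simp at hx
  have hxy : x * y * x⁻¹ = y * c⁻¹ := by rw [hc]; group
  have hc1 : c ≠ 1 := by
    rintro h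
    rw [h, orderOf_one] at hordc
    have : 1 < 2 ^ (k + 1) := Nat.one_lt_two_pow (by omega)
    omega
  have hxnot : x ∉ Subgroup.zpowers y := by
    intro h
    obtain ⟨j, hj⟩ := Subgroup.mem_zpowers_iff.mp h
    apply hc1
    rw [hc, ← hj]
    group
  have hzl : ∀ l : ℤ, z ^ (l + l) = 1 := by
    intro l
    rw [← two_mul, zpow_mul, zpow_ofNat, pow_two, hzz, one_zpow]
  rcases Int.even_or_odd t with ⟨l, hl⟩ | ⟨l, hl⟩
  · -- dihedral
    left
    have hzt : z ^ t = 1 := by rw [hl, hzl]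
    rw [hzt, mul_one] at hyy
    have hordy : orderOf y = 2 ^ (k + 2) := by
      apply orderOf_of_sq hS
      rw [pow_two, hyy, hordc]
    refine ⟨2 ^ (k + 2), nonempty_mulEquiv_dihedralGroup y x _ hordy (by positivity) hxx ?_ hxnot ?_⟩
    · rw [hxy, ← hyy]; group
    · rw [hcard]; ring
  · -- quasidihedral
    right
    have hzt : z ^ t = z := by
      rw [hl, two_mul, zpow_add, hzl, one_mul, zpow_one]
    rw [hzt] at hyy
    have hk : 1 ≤ k := by
      by_contra hk0
      have hk0' : k = 0 := by omega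
      rw [hk0', pow_zero, one_mul, hl] at ht'
      omega
    obtain ⟨k', rfl⟩ : ∃ k', k = k' + 1 := ⟨k - 1, by omega⟩
    have hyy' : y ^ 2 = c ^ (1 + 2 ^ (k' + 1)) := by
      rw [pow_two, hyy, pow_add, pow_one]
    have hordy : orderOf y = 2 ^ (k' + 1 + 2) := by
      apply orderOf_of_sq hS
      have hcp : (orderOf c).Coprime (1 + 2 ^ (k' + 1)) := by
        rw [hordc]
        apply Nat.Coprime.pow_left
        rw [Nat.coprime_two_left]
        exact ⟨2 ^ k', by ring⟩
      rw [hyy', hcp.orderOf_pow, hordc]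
    have hzy : y ^ (2 ^ (k' + 1 + 1)) = z := by
      rw [pow_succ' 2 (k' + 1), pow_mul, hyy', ← pow_mul, add_mul, one_mul, pow_add, ← hz,
        pow_mul, ← hz, pow_succ' 2 k', pow_mul, pow_two, hzz, one_pow, mul_one]
    refine ⟨k' + 1 + 2, by omega, by rw [hcard], y, x, hordy, hx, ?_⟩
    rw [hxy]
    have h1 : k' + 1 + 2 - 1 = k' + 1 + 1 := by omega
    rw [h1]
    have hpos : 1 ≤ 2 ^ (k' + 1 + 1) := Nat.one_le_two_pow
    have h2 : y ^ (2 ^ (k' + 1 + 1) - 1) * y = z := by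
      rw [← pow_succ, Nat.sub_add_cancel hpos, hzy]
    have hzcomm : z * y = y * z := by
      rw [← hzy, ← pow_succ, ← pow_succ']
    -- y * c⁻¹ = y^(N-1)
    rw [mul_inv_eq_iff_eq_mul]
    have hcz : c = y * y * z := by
      rw [hyy, mul_assoc, hzz, mul_one]
    calc y = y * (z * z) := by rw [hzz, mul_one]
      _ = (z * y) * z := by rw [hzcomm, mul_assoc]
      _ = y ^ (2 ^ (k' + 1 + 1) - 1) * y * y * z := by rw [h2]
      _ = y ^ (2 ^ (k' + 1 + 1) - 1) * c := by rw [hcz]; simp only [mul_assoc]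

theorem lemmaAB {S : Type*} [Group S] [Finite S] (hS : IsPGroup 2 S) (k : ℕ)
    (hcard : Nat.card S = 2 ^ (k + 3)) (x y c : S) (i : ℤ) (hx : orderOf x = 2)
    (hc : c = x * y⁻¹ * x⁻¹ * y) (hinv : x * c * x⁻¹ = c⁻¹) (hy : y * y = c ^ i)
    (hordc : orderOf c = 2 ^ (k + 1)) :
    (∃ n : ℕ, Nonempty (S ≃* DihedralGroup n)) ∨ Cfsg.IsQuasiDihedral S := by
  rcases Int.even_or_odd i with hi | hi
  · obtain ⟨h1, h0⟩ := lemma0 x y c i hc hinv hy
    obtain ⟨m, hm⟩ := hi
    have hdvd : ((2 ^ (k + 1) : ℕ) : ℤ) ∣ 2 * i * (i - 1) := by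
      rw [← hordc]; exact orderOf_dvd_iff_zpow_eq_one.mpr h0
    have hcop : IsCoprime ((2 ^ (k + 1) : ℕ) : ℤ) (i - 1) := by
      push_cast
      apply IsCoprime.pow_left
      exact ⟨m, -1, by rw [hm]; ring⟩
    have hdvd2 : ((2 ^ (k + 1) : ℕ) : ℤ) ∣ 2 * i := hcop.dvd_of_dvd_mul_right hdvd
    have h2i : c ^ (2 * i) = 1 := by
      rw [← hordc] at hdvd2; exact orderOf_dvd_iff_zpow_eq_one.mp hdvd2
    have h2 : y⁻¹ * c * y = c⁻¹ := by
      rw [h1, zpow_sub, h2i, one_mul, zpow_one]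
    have hxx : x * x = 1 := by rw [← pow_two, ← hx]; exact pow_orderOf_eq_one x
    have hxinv : x⁻¹ = x := inv_eq_of_mul_eq_one_left hxx
    have h3 : y * c * y⁻¹ = c⁻¹ := by
      have : c = y * c⁻¹ * y⁻¹ := by rw [← h2]; group
      calc y * c * y⁻¹ = (y * c⁻¹ * y⁻¹)⁻¹ := by group
        _ = c⁻¹ := by rw [← this]
    have h4 : x * y * x * y⁻¹ = c := by
      have h5 : y * c * y⁻¹ = y * x * y⁻¹ * x⁻¹ := by
        conv_lhs => rw [hc]
        group
      rw [h3] at h5
      have h6 : c = (y * x * y⁻¹ * x⁻¹)⁻¹ := by rw [← h5, inv_inv]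
      rw [h6, hxinv]
      simp only [mul_inv_rev, inv_inv, hxinv, mul_assoc]
    apply lemmaA hS k hcard x (x * y) c (i + 1) hx
    · rw [hc]; group
    · exact hinv
    · rw [zpow_add, zpow_one, mul_comm_of_zpow c i, ← hy, ← h4]
      group
    · exact ⟨m, by rw [hm]; ring⟩
    · exact hordc
  · exact lemmaA hS k hcard x y c i hx hc hinv hy hi hordc

theorem commutator_eq_bot_of_isCyclic_quotient {S : Type*} [Group S] [Group.IsNilpotent S]
    (h : IsCyclic (S ⧸ commutator S)) : commutator S = ⊥ := by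
  obtain ⟨q, hq⟩ := h.exists_generator
  obtain ⟨g, rfl⟩ := QuotientGroup.mk_surjective q
  apply Cfsg.Agent.Lib.Helper22.commutator_eq_bot_of_sup_commutator_eq_top (Subgroup.zpowers g)
  · infer_instance
  · rw [eq_top_iff]
    intro s _
    obtain ⟨j, hj⟩ := Subgroup.mem_zpowers_iff.mp (hq (s : S ⧸ commutator S))
    have h1 : ((g ^ j : S) : S ⧸ commutator S) = (s : S ⧸ commutator S) := by
      rw [← hj]; rfl
    have h2 : (g ^ j)⁻¹ * s ∈ commutator S := QuotientGroup.eq.mp h1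
    have h3 : s = g ^ j * ((g ^ j)⁻¹ * s) := by group
    rw [h3]
    exact Subgroup.mul_mem_sup (Subgroup.zpow_mem_zpowers g j) h2

/-- A finite 2-group containing an involution whose centralizer has order 4 is dihedral, quasi-dihedral (semidihedral), or of order 4. -/
theorem result {S : Type*} [Group S] [Finite S] (hS : IsPGroup 2 S)
    (x : S) (hx : orderOf x = 2) (hC : Nat.card ↥(Subgroup.centralizer ({x} : Set S)) = 4) :
    (∃ n : ℕ, Nonempty (S ≃* DihedralGroup n)) ∨ Cfsg.IsQuasiDihedral S ∨ Nat.card S = 4 := by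
  classical
  have : Fact (Nat.Prime 2) := ⟨Nat.prime_two⟩
  set C := Subgroup.centralizer ({x} : Set S) with hCdef
  have hnil : Group.IsNilpotent S := hS.isNilpotent
  have hxx : x * x = 1 := by rw [← pow_two, ← hx]; exact pow_orderOf_eq_one x
  have hxinv : x⁻¹ = x := inv_eq_of_mul_eq_one_left hxx
  have hx1 : x ≠ 1 := by rintro rfl; simp at hx
  have hmemC : ∀ g, g ∈ C ↔ g * x = x * g := fun g => Subgroup.mem_centralizer_singleton_iff
  have hxC : x ∈ C := (hmemC x).mpr rfl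
  have hcomm_mem : ∀ g : S, x⁻¹ * (g * x * g⁻¹) ∈ commutator S := by
    intro g
    have h1 : ⁅x⁻¹, g⁆ ∈ ⁅(⊤ : Subgroup S), (⊤ : Subgroup S)⁆ :=
      Subgroup.commutator_mem_commutator (Subgroup.mem_top _) (Subgroup.mem_top _)
    rw [commutatorElement_def, inv_inv] at h1
    rw [commutator_def]
    simpa [mul_assoc] using h1
  let f : S ⧸ C → commutator S := Quotient.lift
    (fun g => (⟨x⁻¹ * (g * x * g⁻¹), hcomm_mem g⟩ : commutator S)) (by
      intro a b hab
      have hab' : a⁻¹ * b ∈ C := QuotientGroup.leftRel_apply.mp hab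
      rw [hmemC] at hab'
      apply Subtype.ext
      show x⁻¹ * (a * x * a⁻¹) = x⁻¹ * (b * x * b⁻¹)
      congr 1
      have : b * x * b⁻¹ = a * (a⁻¹ * b * x) * b⁻¹ := by group
      rw [this, hab']; group)
  have hfinj : Function.Injective f := by
    intro p q
    induction p using QuotientGroup.induction_on with
    | H a =>
      induction q using QuotientGroup.induction_on with
      | H b =>
        intro hab
        have hab' : x⁻¹ * (a * x * a⁻¹) = x⁻¹ * (b * x * b⁻¹) := congrArg Subtype.val hab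
        have h1 : a * x * a⁻¹ = b * x * b⁻¹ := mul_left_cancel hab'
        apply QuotientGroup.eq.mpr
        rw [hmemC]
        have : a⁻¹ * b * x = a⁻¹ * (b * x * b⁻¹) * b := by group
        rw [this, ← h1]; group
  have hle : Nat.card (S ⧸ C) ≤ Nat.card (commutator S) := Nat.card_le_card_of_injective f hfinj
  have hSC : 4 * Nat.card (S ⧸ C) = Nat.card S := by
    rw [← hC]; exact Subgroup.card_mul_index C
  have hSS' : Nat.card (commutator S) * Nat.card (S ⧸ commutator S) = Nat.card S :=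
    Subgroup.card_mul_index _
  by_cases hbot : commutator S = ⊥
  · right; right
    have hCtop : C = ⊤ := by
      rw [eq_top_iff]
      intro g _
      rw [hmemC]
      have h1 : ⁅g, x⁆ ∈ ⁅(⊤ : Subgroup S), (⊤ : Subgroup S)⁆ :=
        Subgroup.commutator_mem_commutator (Subgroup.mem_top _) (Subgroup.mem_top _)
      rw [← commutator_def, hbot, Subgroup.mem_bot, commutatorElement_eq_one_iff_mul_comm] at h1
      exact h1
    rw [← hC, hCtop, Subgroup.card_top]
  have hQnc : ¬ IsCyclic (S ⧸ commutator S) := fun h =>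
    hbot (commutator_eq_bot_of_isCyclic_quotient h)
  have hQ4 : Nat.card (S ⧸ commutator S) = 4 := by
    obtain ⟨m, hm⟩ := IsPGroup.iff_card.mp hS
    have hdvd : Nat.card (S ⧸ commutator S) ∣ 2 ^ m := by
      rw [← hm, ← hSS']; exact Dvd.intro_left _ rfl
    obtain ⟨j, _, hj⟩ := (Nat.dvd_prime_pow Nat.prime_two).mp hdvd
    have hpos : 0 < Nat.card (commutator S) := Nat.card_pos
    have hle4 : Nat.card (S ⧸ commutator S) ≤ 4 := by
      by_contra hgt
      push Not at hgt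
      have : Nat.card (commutator S) * 4 < Nat.card (commutator S) * Nat.card (S ⧸ commutator S) :=
        Nat.mul_lt_mul_of_pos_left hgt hpos
      omega
    have hj2 : j ≤ 2 := by
      by_contra hgt
      push Not at hgt
      have : 2 ^ 3 ≤ 2 ^ j := Nat.pow_le_pow_right (by norm_num) hgt
      omega
    interval_cases j
    · exfalso
      apply hQnc
      have : Subsingleton (S ⧸ commutator S) := by
        rw [← Finite.card_le_one_iff_subsingleton]; omega
      exact isCyclic_of_subsingleton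
    · exfalso
      apply hQnc
      exact isCyclic_of_prime_card (p := 2) (by simpa using hj)
    · simpa using hj
  have hcardeq : Nat.card (commutator S) ≤ Nat.card (S ⧸ C) := by
    rw [hQ4] at hSS'; omega
  have hfbij := hfinj.bijective_of_nat_card_le hcardeq
  -- F2
  have F2 : ∀ s ∈ commutator S, ∃ g, g * x * g⁻¹ = x * s := by
    intro s hs
    obtain ⟨q, hq⟩ := hfbij.2 ⟨s, hs⟩
    induction q using QuotientGroup.induction_on with
    | H g =>
      have hq' : x⁻¹ * (g * x * g⁻¹) = s := congrArg Subtype.val hq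
      exact ⟨g, by rw [← hq']; group⟩
  have F1 : ∀ s ∈ commutator S, x * s * x⁻¹ = s⁻¹ := by
    intro s hs
    obtain ⟨g, hg⟩ := F2 s hs
    have h1 : (x * s) * (x * s) = 1 := by
      rw [← hg]
      calc g * x * g⁻¹ * (g * x * g⁻¹) = g * (x * x) * g⁻¹ := by group
        _ = 1 := by rw [hxx]; group
    rw [hxinv, eq_inv_iff_mul_eq_one]
    simpa [mul_assoc] using h1
  have hxS' : x ∉ commutator S := by
    intro h
    obtain ⟨g, hg⟩ := F2 x⁻¹ (inv_mem h)
    rw [mul_inv_cancel] at hg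
    apply hx1
    have : x = g⁻¹ * (g * x * g⁻¹) * g := by group
    rw [this, hg]; group
  have hS'comm : ∀ a b : commutator S, a * b = b * a := by
    intro a b
    apply Subtype.ext
    show (a : S) * b = b * a
    have h1 := F1 _ (mul_mem a.2 b.2)
    have h2 : x * ((a : S) * b) * x⁻¹ = (x * a * x⁻¹) * (x * b * x⁻¹) := by group
    rw [h2, F1 _ a.2, F1 _ b.2, mul_inv_rev] at h1
    have h3 := congrArg (fun t => t⁻¹) h1
    simp only [mul_inv_rev, inv_inv] at h3
    exact h3.symm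
  have hS'p : IsPGroup 2 (commutator S) := hS.to_subgroup _
  obtain ⟨k, hk⟩ := IsPGroup.iff_card.mp hS'p
  have hk0 : k ≠ 0 := by
    rintro rfl
    apply hbot
    rw [pow_zero] at hk
    exact (Subgroup.card_eq_one).mp hk
  obtain ⟨k', rfl⟩ : ∃ k', k = k' + 1 := ⟨k - 1, by omega⟩
  have h2dvd : 2 ∣ Nat.card (commutator S) := by rw [hk]; exact dvd_pow_self 2 hk0
  obtain ⟨z, hz⟩ := exists_prime_orderOf_dvd_card' 2 h2dvd
  have hinvC : ∀ a : commutator S, a * a = 1 → (a : S) ∈ C := by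
    intro a ha
    rw [hmemC]
    have h1 := F1 a a.2
    have h2 : (a : S)⁻¹ = a := by
      have : (a : S) * a = 1 := congrArg Subtype.val ha
      exact inv_eq_of_mul_eq_one_left this
    rw [h2] at h1
    exact (mul_inv_eq_iff_eq_mul.mp h1).symm
  have hzz : z * z = 1 := by rw [← pow_two, ← hz]; exact pow_orderOf_eq_one z
  have hz1 : z ≠ 1 := by rintro rfl; simp at hz
  let K : Subgroup C := (commutator S).subgroupOf C
  have hKmem : ∀ w : C, w ∈ K ↔ (w : S) ∈ commutator S := fun w => Iff.rfl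
  have hKcard : Nat.card K = 2 ∧ K.index = 2 := by
    have h1 := Subgroup.card_mul_index K
    rw [hC] at h1
    have h2 : K.index ≠ 1 := by
      intro h
      rw [Subgroup.index_eq_one] at h
      apply hxS'
      have : (⟨x, hxC⟩ : C) ∈ K := by rw [h]; exact Subgroup.mem_top _
      exact this
    have h3 : Nat.card K ≠ 1 := by
      intro h
      rw [Subgroup.card_eq_one] at h
      have h4 : (⟨z, hinvC z hzz⟩ : C) ∈ K := z.2
      rw [h, Subgroup.mem_bot] at h4
      apply hz1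
      apply Subtype.ext
      exact congrArg (fun t : C => (t : S)) h4
    have h5 : Nat.card K ∣ 4 := Dvd.intro _ h1
    have h6 : Nat.card K ≤ 4 := Nat.le_of_dvd (by norm_num) h5
    have h7 : 0 < Nat.card K := Nat.card_pos
    interval_cases hh : Nat.card K <;> omega
  have huniq : ∀ a b : commutator S, a ≠ 1 → b ≠ 1 → a * a = 1 → b * b = 1 → a = b := by
    intro a b ha hb haa hbb
    obtain ⟨w, _, hw⟩ := (Nat.card_eq_two_iff' (1 : K)).mp hKcard.1
    have h1 := hw ⟨⟨a, hinvC a haa⟩, a.2⟩ (by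
      intro h; apply ha; apply Subtype.ext
      exact congrArg (fun t : K => ((t : C) : S)) h)
    have h2 := hw ⟨⟨b, hinvC b hbb⟩, b.2⟩ (by
      intro h; apply hb; apply Subtype.ext
      exact congrArg (fun t : K => ((t : C) : S)) h)
    apply Subtype.ext
    exact congrArg (fun t : K => ((t : C) : S)) (h1.trans h2.symm)
  have hS'cyc : IsCyclic (commutator S) := isCyclic_of_unique_involution hS'comm hS'p huniq
  -- choice of y
  obtain ⟨q, hq⟩ : ∃ q : S ⧸ commutator S, q ∉ Subgroup.zpowers (x : S ⧸ commutator S) := by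
    by_contra hall
    push Not at hall
    exact hQnc ⟨⟨_, hall⟩⟩
  obtain ⟨y, rfl⟩ := QuotientGroup.mk_surjective q
  have hyy : y * y ∈ commutator S := by
    have h1 := (not_isCyclic_iff_exponent_eq_prime Nat.prime_two
      (α := S ⧸ commutator S) (by rw [hQ4]; norm_num)).mp hQnc
    have h2 := Monoid.pow_exponent_eq_one (y : S ⧸ commutator S)
    rw [h1] at h2
    have h3 : ((y * y : S) : S ⧸ commutator S) = 1 := by
      rw [← h2, pow_two]; rfl
    exact (QuotientGroup.eq_one_iff _).mp h3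
  have hCimg : ∀ w ∈ C, (w : S ⧸ commutator S) ∈ Subgroup.zpowers (x : S ⧸ commutator S) := by
    intro w hw
    by_cases hwS : w ∈ commutator S
    · rw [(QuotientGroup.eq_one_iff w).mpr hwS]; exact Subgroup.one_mem _
    · have h1 := Subgroup.mul_mem_iff_of_index_two hKcard.2 (a := ⟨x, hxC⟩) (b := ⟨w, hw⟩)
      have h2 : (⟨x, hxC⟩ : C) * ⟨w, hw⟩ ∈ K := h1.mpr ⟨fun h => absurd h hxS', fun h => absurd h hwS⟩
      have h3 : x * w ∈ commutator S := h2
      have h4 : ((x * w : S) : S ⧸ commutator S) = 1 := (QuotientGroup.eq_one_iff _).mpr h3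
      have h5 : (w : S ⧸ commutator S) = (x : S ⧸ commutator S)⁻¹ := by
        rw [eq_comm, inv_eq_iff_mul_eq_one]
        exact h4
      rw [h5]
      exact Subgroup.inv_mem _ (Subgroup.mem_zpowers _)
  set c := x * y⁻¹ * x⁻¹ * y with hc
  have hcS' : c ∈ commutator S := by
    have h1 : ⁅x, y⁻¹⁆ ∈ ⁅(⊤ : Subgroup S), (⊤ : Subgroup S)⁆ :=
      Subgroup.commutator_mem_commutator (Subgroup.mem_top _) (Subgroup.mem_top _)
    rw [commutatorElement_def, inv_inv] at h1
    rw [commutator_def]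
    exact h1
  have hnsq : ∀ d ∈ commutator S, d * d ≠ c := by
    intro d hd hdd
    apply hq
    have hw : y * d⁻¹ ∈ C := by
      rw [hmemC]
      have h1 : y⁻¹ * x⁻¹ * y = x⁻¹ * (d * d) := by rw [hdd, hc]; group
      have h2 : d * x⁻¹ = x⁻¹ * d⁻¹ := by
        rw [← F1 d hd]; group
      have h3 : (y * d⁻¹)⁻¹ * x⁻¹ * (y * d⁻¹) = x⁻¹ := by
        calc (y * d⁻¹)⁻¹ * x⁻¹ * (y * d⁻¹) = d * (y⁻¹ * x⁻¹ * y) * d⁻¹ := by group
          _ = d * (x⁻¹ * (d * d)) * d⁻¹ := by rw [h1]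
          _ = (d * x⁻¹) * d := by group
          _ = x⁻¹ := by rw [h2]; group
      rw [hxinv] at h3
      have h4 : x * (y * d⁻¹) = (y * d⁻¹) * ((y * d⁻¹)⁻¹ * x * (y * d⁻¹)) := by group
      rw [h4, h3]
    have h5 := hCimg _ hw
    have h6 : ((y * d⁻¹ : S) : S ⧸ commutator S) = (y : S ⧸ commutator S) := by
      rw [eq_comm, QuotientGroup.eq]
      have : y⁻¹ * (y * d⁻¹) = d⁻¹ := by group
      rw [this]; exact inv_mem hd
    rwa [h6] at h5
  obtain ⟨c₀, hc₀⟩ := hS'cyc.exists_generator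
  have hordc₀ : orderOf c₀ = 2 ^ (k' + 1) := by
    rw [orderOf_eq_card_of_forall_mem_zpowers hc₀, hk]
  obtain ⟨j, hj⟩ : ∃ j : ℕ, c₀ ^ j = ⟨c, hcS'⟩ :=
    (Submonoid.mem_powers_iff _ _).mp (mem_powers_iff_mem_zpowers.mpr (hc₀ _))
  have hjodd : Odd j := by
    by_contra hne
    rw [Nat.not_odd_iff_even] at hne
    obtain ⟨l, hl⟩ := hne
    apply hnsq (c₀ ^ l : commutator S) (c₀ ^ l : commutator S).2
    have : c₀ ^ l * c₀ ^ l = ⟨c, hcS'⟩ := by rw [← pow_add, ← hl, hj]
    exact congrArg Subtype.val this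
  have hordc' : orderOf (⟨c, hcS'⟩ : commutator S) = 2 ^ (k' + 1) := by
    have hcp : (orderOf c₀).Coprime j := by
      rw [hordc₀]
      apply Nat.Coprime.pow_left
      rw [Nat.coprime_two_left]; exact hjodd
    rw [← hj, hcp.orderOf_pow, hordc₀]
  have hordc : orderOf c = 2 ^ (k' + 1) := by
    rw [← hordc']; exact (Subgroup.orderOf_mk c hcS').symm
  have htop : Subgroup.zpowers (⟨c, hcS'⟩ : commutator S) = ⊤ := by
    apply Subgroup.eq_top_of_card_eq
    rw [Nat.card_zpowers, hordc', hk]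
  obtain ⟨i, hi⟩ : ∃ i : ℤ, y * y = c ^ i := by
    have h1 : (⟨y * y, hyy⟩ : commutator S) ∈ Subgroup.zpowers (⟨c, hcS'⟩ : commutator S) := by
      rw [htop]; exact Subgroup.mem_top _
    obtain ⟨i, hi⟩ := Subgroup.mem_zpowers_iff.mp h1
    refine ⟨i, ?_⟩
    have := congrArg Subtype.val hi
    simpa using this.symm
  have hcardS : Nat.card S = 2 ^ (k' + 3) := by
    rw [← hSS', hk, hQ4]; ring
  rcases lemmaAB hS k' hcardS x y c i hx hc (F1 c hcS') hi hordc with h | h
  · exact Or.inl h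
  · exact Or.inr (Or.inl h)

end Cfsg.Agent.S3224
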