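import Mathlib
import Cfsg.Statements.S3225

namespace Cfsg.Agent.S3225

open Subgroup MulAction in
/-- Let G be a finite group of even order with no subgroup of index 2, S a Sylow 2-subgroup of G and M a subgroup of index 2 in S such that, for some n ≥ 1, every element of S outside M has order greater than 2^(n−1). Then every element of S of order 2ⁿ is conjugate in G to an element of M. -/
theorem result {G : Type*} [Group G] [Finite G] (hev : Even (Nat.card G))
    (hG : ∀ H : Subgroup G, H.index ≠ 2) (S : Sylow 2 G) (M : Subgroup G) (hMS : M ≤ (S : Subgroup G)) (hM : M.relIndex (S : Subgroup G) = 2)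
    (n : ℕ) (hn : 1 ≤ n) (hord : ∀ y ∈ (S : Subgroup G), y ∉ M → 2 ^ (n - 1) < orderOf y)
    (x : G) (hx : x ∈ (S : Subgroup G)) (hxn : orderOf x = 2 ^ n) :
    ∃ g : G, g * x * g⁻¹ ∈ M := by
  classical
  by_contra hcon
  push Not at hcon
  have hM' : (M.subgroupOf (S : Subgroup G)).index = 2 := hM
  let ϕ : (S : Subgroup G) →* ℤˣ :=
    { toFun := fun h => if (h : G) ∈ M then 1 else -1
      map_one' := by simp [M.one_mem]
      map_mul' := by
        intro a b
        have h1 := Subgroup.mul_mem_iff_of_index_two hM' (a := a) (b := b)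
        simp only [Subgroup.mem_subgroupOf, Subgroup.coe_mul] at h1
        by_cases ha : (a : G) ∈ M <;> by_cases hb : (b : G) ∈ M <;>
          simp [ha, hb, h1] }
  have hϕ : ∀ h : (S : Subgroup G), ϕ h = if (h : G) ∈ M then 1 else -1 := fun h => rfl
  let T : G →* ℤˣ := MonoidHom.transfer ϕ
  have hodd : Odd (S : Subgroup G).index := by
    have : Fact (Nat.Prime 2) := ⟨Nat.prime_two⟩
    have := S.not_dvd_index
    exact Nat.odd_iff.mpr (Nat.two_dvd_ne_zero.mp this)
  have key0 : ∀ (r : ℕ) (g : G) (hmem : g⁻¹ * x ^ r * g ∈ (S : Subgroup G)), r ∣ 2 ^ n →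
      ϕ ⟨g⁻¹ * x ^ r * g, hmem⟩ = (-1) ^ r := by
    intro r g hmem hdvd
    obtain ⟨k, hk, hrk⟩ := (Nat.dvd_prime_pow Nat.prime_two).mp hdvd
    rw [hϕ]
    rcases Nat.eq_zero_or_pos k with hk0 | hk0
    · have hr1 : r = 1 := by rw [hrk, hk0, pow_zero]
      have hnot : g⁻¹ * x ^ r * g ∉ M := by
        have := hcon (g⁻¹)
        rw [hr1, pow_one]
        simpa using this
      rw [if_neg hnot, hr1, pow_one]
    · have hin : g⁻¹ * x ^ r * g ∈ M := by
        by_contra hnot
        have h1 := hord _ hmem hnot
        have h2 : orderOf (g⁻¹ * x ^ r * g) = orderOf (x ^ r) := by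
          have := orderOf_injective (MulAut.conj (g⁻¹)).toMonoidHom
            (MulAut.conj (g⁻¹)).injective (x ^ r)
          simpa using this
        have h3 : orderOf (x ^ r) = 2 ^ (n - k) := by
          rw [orderOf_pow_of_dvd (by rw [hrk]; positivity) (by rw [hxn]; exact hdvd), hxn, hrk]
          exact Nat.pow_div hk (by norm_num)
        rw [h2, h3] at h1
        have : n - k ≤ n - 1 := by omega
        have := Nat.pow_le_pow_right (show 0 < 2 by norm_num) this
        omega
      have hev : Even r := by
        rw [hrk]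
        exact (Nat.even_pow.mpr ⟨even_two, by omega⟩)
      rw [if_pos hin, hev.neg_one_pow]
  have hT : T x = -1 := by
    have : Fintype (Quotient (orbitRel (zpowers x) (G ⧸ (S : Subgroup G)))) := Fintype.ofFinite _
    show MonoidHom.transfer ϕ x = -1
    rw [MonoidHom.transfer_eq_prod_quotient_orbitRel_zpowers_quot]
    have key : ∀ q : Quotient (orbitRel (zpowers x) (G ⧸ (S : Subgroup G))),
        ϕ ⟨q.out.out⁻¹ * x ^ Function.minimalPeriod (x • ·) q.out * q.out.out,
            QuotientGroup.out_conj_pow_minimalPeriod_mem (S : Subgroup G) x q.out⟩ =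
          (-1) ^ Function.minimalPeriod (x • ·) q.out := by
      intro q
      apply key0
      rw [← hxn]
      apply Function.IsPeriodicPt.minimalPeriod_dvd
      show (x • ·)^[orderOf x] q.out = q.out
      rw [smul_iterate, pow_orderOf_eq_one]
      exact one_smul _ _
    rw [Finset.prod_congr rfl (fun q _ => key q), Finset.prod_pow_eq_pow_sum,
      ← Subgroup.index_eq_sum_minimalPeriod]
    exact hodd.neg_one_pow
  apply hG T.ker
  rw [Subgroup.index_ker]
  have hrange : T.range = ⊤ := by
    rw [eq_top_iff]
    intro u _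
    rcases Int.units_eq_one_or u with rfl | rfl
    · exact T.range.one_mem
    · exact ⟨x, hT⟩
  rw [hrange, Subgroup.card_top]
  simp

end Cfsg.Agent.S3225
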