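import Mathlib
import Cfsg.Agent.S0215
import Cfsg.Agent.Lib.Helper4.NilpFusion
import Cfsg.Statements.S3269

set_option autoImplicit false
open Cfsg

namespace Cfsg.Agent.S3269

open QuaternionGroup in
theorem quat_sq {m : ℕ} (hm : 0 < m) (y : QuaternionGroup m) (hy : y ^ 2 = 1) :
    y = 1 ∨ y = a (m : ZMod (2 * m)) := by
  haveI : NeZero m := ⟨hm.ne'⟩
  haveI : NeZero (2 * m) := ⟨by omega⟩
  cases y with
  | a i =>
    rw [sq, a_mul_a, one_def] at hy
    have h0 : i + i = 0 := by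
      injection hy
    have h1 : ((i.val + i.val : ℕ) : ZMod (2 * m)) = 0 := by
      push_cast
      rw [ZMod.natCast_zmod_val, h0]
    rw [ZMod.natCast_eq_zero_iff] at h1
    have h2 : i.val < 2 * m := ZMod.val_lt i
    obtain ⟨k, hk⟩ := h1
    have h3 : i.val = m * k := by nlinarith
    have h4 : k < 2 := by
      by_contra h
      push Not at h
      nlinarith
    interval_cases k
    · left
      have : i = 0 := by
        rw [← ZMod.natCast_zmod_val i, h3]; simp
      rw [this, one_def]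
    · right
      have : i = (m : ZMod (2 * m)) := by
        rw [← ZMod.natCast_zmod_val i, h3]; simp
      rw [this]
  | xa i =>
    exfalso
    rw [xa_sq, one_def] at hy
    have h0 : (m : ZMod (2 * m)) = 0 := by injection hy
    rw [ZMod.natCast_eq_zero_iff] at h0
    have := Nat.le_of_dvd hm h0
    omega

open QuaternionGroup in
theorem quat_central {m : ℕ} (y : QuaternionGroup m) :
    a (m : ZMod (2 * m)) * y = y * a (m : ZMod (2 * m)) := by
  have h2 : (m : ZMod (2 * m)) + m = 0 := by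
    have : ((2 * m : ℕ) : ZMod (2 * m)) = 0 := ZMod.natCast_self _
    push_cast at this
    rw [← this]; ring
  cases y with
  | a i => rw [a_mul_a, a_mul_a, add_comm]
  | xa i =>
    rw [a_mul_xa, xa_mul_a]
    congr 1
    have : -(m : ZMod (2 * m)) = m := by
      rw [neg_eq_iff_add_eq_zero]; exact h2
    rw [sub_eq_add_neg, this]

open QuaternionGroup in
theorem quat_comm (n : ℕ) (hn : 1 ≤ n) : ∃ c d : QuaternionGroup (2 ^ n),
    c * d * c⁻¹ * d⁻¹ = a ((2 ^ n : ℕ) : ZMod (2 * 2 ^ n)) := by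
  obtain ⟨k, rfl⟩ : ∃ k, n = k + 1 := ⟨n - 1, by omega⟩
  refine ⟨a ((2 ^ k : ℕ) : ZMod (2 * 2 ^ (k + 1))), xa 0, ?_⟩
  have h1 : (a ((2 ^ k : ℕ) : ZMod (2 * 2 ^ (k + 1))))⁻¹ = a (-((2 ^ k : ℕ) : ZMod (2 * 2 ^ (k + 1)))) := rfl
  have h2 : (xa (0 : ZMod (2 * 2 ^ (k + 1))))⁻¹ = xa (((2 ^ (k + 1) : ℕ) : ZMod (2 * 2 ^ (k + 1))) + 0) := rfl
  rw [h1, h2, a_mul_xa, xa_mul_a, xa_mul_xa]
  congr 1
  have : ((2 * 2 ^ (k + 1) : ℕ) : ZMod (2 * 2 ^ (k + 1))) = 0 := ZMod.natCast_self _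
  push_cast at this ⊢
  ring_nf
  ring_nf at this
  linear_combination this

open QuaternionGroup in
theorem quat_ne {m : ℕ} (hm : 0 < m) : a (m : ZMod (2 * m)) ≠ (1 : QuaternionGroup m) := by
  intro hy
  rw [one_def] at hy
  have h0 : (m : ZMod (2 * m)) = 0 := by injection hy
  rw [ZMod.natCast_eq_zero_iff] at h0
  have := Nat.le_of_dvd hm h0
  omega

/-- the elements of square one of a subgroup all of whose such elements are central -/
def invSub {G : Type*} [Group G] (S : Subgroup G)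
    (h : ∀ s ∈ S, s * s = 1 → ∀ t ∈ S, s * t = t * s) : Subgroup G where
  carrier := {a | a ∈ S ∧ a * a = 1}
  one_mem' := ⟨S.one_mem, by simp⟩
  mul_mem' := by
    rintro a b ⟨ha, ha2⟩ ⟨hb, hb2⟩
    refine ⟨S.mul_mem ha hb, ?_⟩
    calc a * b * (a * b) = a * (b * a) * b := by group
      _ = a * (a * b) * b := by rw [h a ha ha2 b hb]
      _ = (a * a) * (b * b) := by group
      _ = 1 := by rw [ha2, hb2, one_mul]
  inv_mem' := by
    rintro a ⟨ha, ha2⟩
    refine ⟨S.inv_mem ha, ?_⟩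
    calc a⁻¹ * a⁻¹ = (a * a)⁻¹ := by group
      _ = 1 := by rw [ha2, inv_one]

/-- it is commutative -/
abbrev invComm {G : Type*} [Group G] (S : Subgroup G)
    (h : ∀ s ∈ S, s * s = 1 → ∀ t ∈ S, s * t = t * s) : CommGroup (invSub S h) :=
  { (inferInstance : Group (invSub S h)) with
    mul_comm := fun a b => Subtype.ext (h a a.2.1 a.2.2 b b.2.1) }

theorem exists_fixed {G : Type*} [Group G] [Finite G] (S : Subgroup G)
    (h : ∀ s ∈ S, s * s = 1 → ∀ t ∈ S, s * t = t * s) (N : Subgroup G)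
    (hN : ∀ k ∈ N, ∀ s ∈ S, k * s * k⁻¹ ∈ S) (z : G) (hzS : z ∈ S) (hzz : z * z = 1)
    (R : Subgroup G) (hR : ∀ k ∈ N, k * z * k⁻¹ ≠ z → k * z * k⁻¹ ∈ R) :
    ∃ u r : G, u ∈ S ∧ u * u = 1 ∧ r ∈ R ∧ u = z * r ∧ ∀ k ∈ N, k * u * k⁻¹ = u := by
  classical
  letI := invComm S h
  cases nonempty_fintype (invSub S h)
  let X : Finset (invSub S h) := Finset.univ.filter (fun x => ∃ k ∈ N, (x : G) = k * z * k⁻¹)
  let zE : invSub S h := ⟨z, hzS, hzz⟩
  have hzX : zE ∈ X := by
    simp only [X, Finset.mem_filter, Finset.mem_univ, true_and]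
    exact ⟨1, N.one_mem, by simp [zE]⟩
  let u : invSub S h := ∏ x ∈ X, x
  let r : invSub S h := ∏ x ∈ X.erase zE, x
  have hur : u = zE * r := (Finset.mul_prod_erase X (fun x => x) hzX).symm
  have hrR : r ∈ R.subgroupOf (invSub S h) := by
    apply Subgroup.prod_mem
    intro x hx
    rw [Finset.mem_erase] at hx
    obtain ⟨hx1, hx2⟩ := hx
    simp only [X, Finset.mem_filter, Finset.mem_univ, true_and] at hx2
    obtain ⟨k, hk, hxk⟩ := hx2
    rw [Subgroup.mem_subgroupOf, hxk]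
    apply hR k hk
    intro h0
    apply hx1
    apply Subtype.ext
    rw [hxk, h0]
  refine ⟨u, r, u.2.1, u.2.2, hrR, congrArg Subtype.val hur, ?_⟩
  intro k hk
  let c : invSub S h →* invSub S h :=
    { toFun := fun a => ⟨k * a * k⁻¹, hN k hk a a.2.1, by
        calc k * a * k⁻¹ * (k * a * k⁻¹) = k * ((a : G) * a) * k⁻¹ := by group
          _ = 1 := by rw [a.2.2]; group⟩
      map_one' := by
        apply Subtype.ext
        simp
      map_mul' := by
        intro a b
        apply Subtype.ext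
        show k * ((a : G) * b) * k⁻¹ = k * a * k⁻¹ * (k * b * k⁻¹)
        group }
  have h1 : c u = u := by
    show c (∏ x ∈ X, x) = ∏ x ∈ X, x
    rw [map_prod]
    apply Finset.prod_bij (fun x _ => c x)
    · intro x hx
      simp only [X, Finset.mem_filter, Finset.mem_univ, true_and] at hx ⊢
      obtain ⟨j, hj, hxj⟩ := hx
      refine ⟨k * j, N.mul_mem hk hj, ?_⟩
      show k * (x : G) * k⁻¹ = _
      rw [hxj]; group
    · intro x _ y _ hxy
      have := congrArg Subtype.val hxy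
      apply Subtype.ext
      have h2 : k * (x : G) * k⁻¹ = k * (y : G) * k⁻¹ := this
      simpa using h2
    · intro y hy
      simp only [X, Finset.mem_filter, Finset.mem_univ, true_and] at hy
      obtain ⟨j, hj, hyj⟩ := hy
      have hmem : k⁻¹ * j ∈ N := N.mul_mem (N.inv_mem hk) hj
      refine ⟨⟨(k⁻¹ * j) * z * (k⁻¹ * j)⁻¹, hN _ hmem z hzS, ?_⟩, ?_, ?_⟩
      · calc (k⁻¹ * j) * z * (k⁻¹ * j)⁻¹ * ((k⁻¹ * j) * z * (k⁻¹ * j)⁻¹)
            = (k⁻¹ * j) * (z * z) * (k⁻¹ * j)⁻¹ := by group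
          _ = 1 := by rw [hzz]; group
      · simp only [X, Finset.mem_filter, Finset.mem_univ, true_and]
        exact ⟨_, hmem, rfl⟩
      · apply Subtype.ext
        show k * ((k⁻¹ * j) * z * (k⁻¹ * j)⁻¹) * k⁻¹ = y
        rw [hyj]; group
    · intro x _
      rfl
  exact congrArg Subtype.val h1

/-- Let G be a finite group whose Sylow 2-subgroup S is an internal direct product Q × R with Q generalized quaternion (of order at least 8) and R a subgroup all of whose involutions are central in R. Then G is not simple. In particular no finite simple group has a Sylow 2-subgroup that is a direct product of one or more generalized quaternion groups. -/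
theorem result {G : Type*} [Group G] [Finite G]
    (S : Sylow 2 G) (Q R : Subgroup G) (hQR : Cfsg.IsInternalDirectProduct Q R (S : Subgroup G))
    (n : ℕ) (hn : 1 ≤ n) (eQ : ↥Q ≃* QuaternionGroup (2 ^ n))
    (hR : ∀ r ∈ R, orderOf r = 2 → ∀ s ∈ R, r * s = s * r) :
    ¬ IsSimpleGroup G := by
  classical
  intro hsimple
  obtain ⟨hQS, hRS, hcomm, hdisj, hsup⟩ := hQR
  have hmpos : 0 < 2 ^ n := by positivity
  -- the involution of `Q`
  set zq : Q := eQ.symm (QuaternionGroup.a ((2 ^ n : ℕ) : ZMod (2 * 2 ^ n))) with hzq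
  set z : G := (zq : G) with hz
  have hzQ : z ∈ Q := zq.2
  have hz1 : z ≠ 1 := by
    intro h0
    have h1 : zq = 1 := Subtype.ext h0
    rw [hzq, MulEquiv.map_eq_one_iff] at h1
    exact quat_ne hmpos h1
  have hQinv : ∀ q ∈ Q, q * q = 1 → q = 1 ∨ q = z := by
    intro q hq hqq
    have h1 : (eQ ⟨q, hq⟩) ^ 2 = 1 := by
      rw [← map_pow, sq]
      have : (⟨q, hq⟩ : Q) * ⟨q, hq⟩ = 1 := Subtype.ext hqq
      rw [this, map_one]
    rcases quat_sq hmpos _ h1 with h2 | h2
    · left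
      have : (⟨q, hq⟩ : Q) = 1 := by
        rwa [MulEquiv.map_eq_one_iff] at h2
      exact congrArg Subtype.val this
    · right
      have : (⟨q, hq⟩ : Q) = zq := by
        rw [hzq, ← h2, MulEquiv.symm_apply_apply]
      exact congrArg Subtype.val this
  have hzc : ∀ q ∈ Q, z * q = q * z := by
    intro q hq
    have h1 := quat_central (eQ ⟨q, hq⟩)
    have h2 : zq * ⟨q, hq⟩ = ⟨q, hq⟩ * zq := by
      apply eQ.injective
      rw [map_mul, map_mul, hzq, MulEquiv.apply_symm_apply]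
      exact_mod_cast h1
    exact congrArg Subtype.val h2
  have hzsq : z * z = 1 := by
    have h1 : (QuaternionGroup.a ((2 ^ n : ℕ) : ZMod (2 * 2 ^ n))) *
        (QuaternionGroup.a ((2 ^ n : ℕ) : ZMod (2 * 2 ^ n))) = 1 := by
      rw [QuaternionGroup.a_mul_a, QuaternionGroup.one_def]
      congr 1
      have : ((2 * 2 ^ n : ℕ) : ZMod (2 * 2 ^ n)) = 0 := ZMod.natCast_self _
      push_cast at this ⊢
      rw [← this]; ring
    have h2 : zq * zq = 1 := by
      apply eQ.injective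
      rw [map_mul, hzq, MulEquiv.apply_symm_apply, map_one]
      exact h1
    exact congrArg Subtype.val h2
  obtain ⟨c, hc, d, hd, hcd⟩ : ∃ c ∈ Q, ∃ d ∈ Q, c * d * c⁻¹ * d⁻¹ = z := by
    obtain ⟨c0, d0, h0⟩ := quat_comm n hn
    refine ⟨(eQ.symm c0 : G), (eQ.symm c0).2, (eQ.symm d0 : G), (eQ.symm d0).2, ?_⟩
    have : eQ.symm c0 * eQ.symm d0 * (eQ.symm c0)⁻¹ * (eQ.symm d0)⁻¹ = zq := by
      rw [hzq, ← h0]
      simp
    exact congrArg Subtype.val this
  -- decomposition of the elements of `S`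
  have hdec : ∀ s ∈ (S : Subgroup G), ∃ q ∈ Q, ∃ r ∈ R, s = q * r := by
    let T : Subgroup G :=
      { carrier := {s | ∃ q ∈ Q, ∃ r ∈ R, s = q * r}
        one_mem' := ⟨1, Q.one_mem, 1, R.one_mem, by simp⟩
        mul_mem' := by
          rintro _ _ ⟨q, hq, r, hr, rfl⟩ ⟨q', hq', r', hr', rfl⟩
          refine ⟨q * q', Q.mul_mem hq hq', r * r', R.mul_mem hr hr', ?_⟩
          calc q * r * (q' * r') = q * (r * q') * r' := by group
            _ = q * (q' * r) * r' := by rw [hcomm q' hq' r hr]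
            _ = q * q' * (r * r') := by group
        inv_mem' := by
          rintro _ ⟨q, hq, r, hr, rfl⟩
          refine ⟨q⁻¹, Q.inv_mem hq, r⁻¹, R.inv_mem hr, ?_⟩
          rw [hcomm q hq r hr]; group }
    have hT : Q ⊔ R ≤ T := by
      apply sup_le
      · intro q hq; exact ⟨q, hq, 1, R.one_mem, by simp⟩
      · intro r hr; exact ⟨1, Q.one_mem, r, hr, by simp⟩
    intro s hs
    rw [← hsup] at hs
    exact hT hs
  have hbot : ∀ x, x ∈ Q → x ∈ R → x = 1 := by
    intro x hx1 hx2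
    have : x ∈ Q ⊓ R := ⟨hx1, hx2⟩
    rw [hdisj] at this
    exact this
  -- elements of square one are central in `S`
  have hinvc : ∀ s ∈ (S : Subgroup G), s * s = 1 → ∀ t ∈ (S : Subgroup G), s * t = t * s := by
    intro s hs hss t ht
    obtain ⟨q, hq, r, hr, rfl⟩ := hdec s hs
    obtain ⟨q', hq', r', hr', rfl⟩ := hdec t ht
    have h1 : (q * q) * (r * r) = 1 := by
      calc (q * q) * (r * r) = q * (q * r) * r := by group
        _ = q * (r * q) * r := by rw [hcomm q hq r hr]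
        _ = q * r * (q * r) := by group
        _ = 1 := hss
    have h2 : q * q = 1 := by
      apply hbot _ (Q.mul_mem hq hq)
      have : q * q = (r * r)⁻¹ := eq_inv_of_mul_eq_one_left h1
      rw [this]
      exact R.inv_mem (R.mul_mem hr hr)
    have h3 : r * r = 1 := by rw [h2, one_mul] at h1; exact h1
    have h4 : q * q' = q' * q := by
      rcases hQinv q hq h2 with h | h
      · rw [h]; simp
      · rw [h]; exact hzc q' hq'
    have h5 : r * r' = r' * r := by
      by_cases hr1 : r = 1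
      · rw [hr1]; simp
      · apply hR r hr _ r' hr'
        apply orderOf_eq_prime _ hr1
        rw [sq]; exact h3
    calc q * r * (q' * r') = q * (r * q') * r' := by group
      _ = q * (q' * r) * r' := by rw [hcomm q' hq' r hr]
      _ = (q * q') * (r * r') := by group
      _ = (q' * q) * (r' * r) := by rw [h4, h5]
      _ = q' * (q * r') * r := by group
      _ = q' * (r' * q) * r := by rw [hcomm q hq r' hr']
      _ = q' * r' * (q * r) := by group
  -- `Q` is normal in `S`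
  have hQn : ∀ s ∈ (S : Subgroup G), ∀ q ∈ Q, s * q * s⁻¹ ∈ Q := by
    intro s hs q hq
    obtain ⟨q', hq', r', hr', rfl⟩ := hdec s hs
    have : q' * r' * q * (q' * r')⁻¹ = q' * q * q'⁻¹ := by
      calc q' * r' * q * (q' * r')⁻¹ = q' * (r' * q) * r'⁻¹ * q'⁻¹ := by group
        _ = q' * (q * r') * r'⁻¹ * q'⁻¹ := by rw [hcomm q hq r' hr']
        _ = q' * q * q'⁻¹ := by group
    rw [this]
    exact Q.mul_mem (Q.mul_mem hq' hq) (Q.inv_mem hq')
  set N : Subgroup G := Subgroup.normalizer ((S : Subgroup G) : Set G) with hNdef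
  have hN : ∀ k ∈ N, ∀ s ∈ (S : Subgroup G), k * s * k⁻¹ ∈ (S : Subgroup G) := by
    intro k hk s hs
    exact (Subgroup.mem_normalizer_iff.1 hk s).1 hs
  -- every non-identity element of `S` has a power which is an involution
  have hpow : ∀ w ∈ (S : Subgroup G), w ≠ 1 → ∃ j : ℕ, w ^ j ≠ 1 ∧ w ^ j * w ^ j = 1 := by
    intro w hw hw1
    obtain ⟨k, hk⟩ := S.2 ⟨w, hw⟩
    have hk' : w ^ 2 ^ k = 1 := congrArg Subtype.val hk
    obtain ⟨j, hj, hoj⟩ := (Nat.dvd_prime_pow Nat.prime_two).1 (orderOf_dvd_of_pow_eq_one hk')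
    have hj0 : j ≠ 0 := by
      rintro rfl
      rw [pow_zero, orderOf_eq_one_iff] at hoj
      exact hw1 hoj
    obtain ⟨i, rfl⟩ : ∃ i, j = i + 1 := ⟨j - 1, by omega⟩
    refine ⟨2 ^ i, ?_, ?_⟩
    · apply pow_ne_one_of_lt_orderOf (by positivity)
      rw [hoj, pow_succ]
      have : 0 < 2 ^ i := by positivity
      omega
    · rw [← pow_add, ← two_mul, mul_comm, ← pow_succ, ← hoj, pow_orderOf_eq_one]
  have hkey : ∀ k ∈ N, k * z * k⁻¹ ≠ z → k * z * k⁻¹ ∈ R := by
    intro k hk hne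
    have hkinv : k⁻¹ ∈ N := N.inv_mem hk
    -- `Q` meets its conjugate trivially
    have hint : ∀ w ∈ Q, k⁻¹ * w * k ∈ Q → w = 1 := by
      intro w hw hw'
      by_contra hw1
      obtain ⟨j, hj1, hj2⟩ := hpow w (hQS hw) hw1
      have e1 : w ^ j = z := by
        rcases hQinv _ (Q.pow_mem hw j) hj2 with h | h
        · exact absurd h hj1
        · exact h
      have e2 : (k⁻¹ * w * k) ^ j = z := by
        have e3 : (k⁻¹ * w * k) ^ j = k⁻¹ * w ^ j * k := by
          have := conj_pow (a := k⁻¹) (b := w) (i := j)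
          simpa using this
        rcases hQinv _ (Q.pow_mem hw' j) (by
          rw [e3]
          calc k⁻¹ * w ^ j * k * (k⁻¹ * w ^ j * k) = k⁻¹ * (w ^ j * w ^ j) * k := by group
            _ = 1 := by rw [hj2]; group) with h | h
        · exfalso
          apply hj1
          rw [e3] at h
          calc w ^ j = k * (k⁻¹ * w ^ j * k) * k⁻¹ := by group
            _ = 1 := by rw [h]; group
        · exact h
      apply hne
      have e3 : (k⁻¹ * w * k) ^ j = k⁻¹ * w ^ j * k := by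
        have := conj_pow (a := k⁻¹) (b := w) (i := j)
        simpa using this
      rw [e3, e1] at e2
      calc k * z * k⁻¹ = k * (k⁻¹ * z * k) * k⁻¹ := by rw [e2]
        _ = z := by group
    -- hence they commute
    have hA : ∀ q ∈ Q, ∀ q' ∈ Q, (k * q' * k⁻¹) * q = q * (k * q' * k⁻¹) := by
      intro q hq q' hq'
      have hS' : k * q' * k⁻¹ ∈ (S : Subgroup G) := hN k hk _ (hQS hq')
      have h1 : (k * q' * k⁻¹) * q * (k * q' * k⁻¹)⁻¹ * q⁻¹ = 1 := by
        apply hint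
        · exact Q.mul_mem (hQn _ hS' q hq) (Q.inv_mem hq)
        · have hS'' : k⁻¹ * q * k ∈ (S : Subgroup G) := by
            have := hN k⁻¹ hkinv q (hQS hq)
            simpa using this
          have h2 := hQn _ hS'' q'⁻¹ (Q.inv_mem hq')
          have h3 : k⁻¹ * ((k * q' * k⁻¹) * q * (k * q' * k⁻¹)⁻¹ * q⁻¹) * k
              = q' * ((k⁻¹ * q * k) * q'⁻¹ * (k⁻¹ * q * k)⁻¹) := by group
          rw [h3]
          exact Q.mul_mem hq' h2
      calc (k * q' * k⁻¹) * q
          = ((k * q' * k⁻¹) * q * (k * q' * k⁻¹)⁻¹ * q⁻¹) * (q * (k * q' * k⁻¹)) := by group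
        _ = q * (k * q' * k⁻¹) := by rw [h1, one_mul]
    obtain ⟨q₁, hq₁, r₁, hr₁, e₁⟩ := hdec _ (hN k hk c (hQS hc))
    obtain ⟨q₂, hq₂, r₂, hr₂, e₂⟩ := hdec _ (hN k hk d (hQS hd))
    have hx : k * z * k⁻¹ = (k * c * k⁻¹) * (k * d * k⁻¹) * (k * c * k⁻¹)⁻¹ * (k * d * k⁻¹)⁻¹ := by
      rw [← hcd]; group
    have hA2 := hA q₂ hq₂ c hc
    have h6 : (k * c * k⁻¹) * r₂ * (k * c * k⁻¹)⁻¹ = r₁ * r₂ * r₁⁻¹ := by
      rw [e₁]
      calc q₁ * r₁ * r₂ * (q₁ * r₁)⁻¹ = q₁ * (r₁ * r₂ * r₁⁻¹) * q₁⁻¹ := by group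
        _ = (r₁ * r₂ * r₁⁻¹) * q₁ * q₁⁻¹ := by
            rw [hcomm q₁ hq₁ _ (R.mul_mem (R.mul_mem hr₁ hr₂) (R.inv_mem hr₁))]
        _ = r₁ * r₂ * r₁⁻¹ := by group
    have h7 : k * z * k⁻¹ = r₁ * r₂ * r₁⁻¹ * r₂⁻¹ := by
      rw [hx, e₂]
      calc (k * c * k⁻¹) * (q₂ * r₂) * (k * c * k⁻¹)⁻¹ * (q₂ * r₂)⁻¹
          = ((k * c * k⁻¹) * q₂) * r₂ * (k * c * k⁻¹)⁻¹ * r₂⁻¹ * q₂⁻¹ := by group
        _ = (q₂ * (k * c * k⁻¹)) * r₂ * (k * c * k⁻¹)⁻¹ * r₂⁻¹ * q₂⁻¹ := by rw [hA2]
        _ = q₂ * ((k * c * k⁻¹) * r₂ * (k * c * k⁻¹)⁻¹ * r₂⁻¹) * q₂⁻¹ := by group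
        _ = q₂ * (r₁ * r₂ * r₁⁻¹ * r₂⁻¹) * q₂⁻¹ := by rw [h6]
        _ = (r₁ * r₂ * r₁⁻¹ * r₂⁻¹) * q₂ * q₂⁻¹ := by
            rw [hcomm q₂ hq₂ _ (R.mul_mem (R.mul_mem (R.mul_mem hr₁ hr₂) (R.inv_mem hr₁))
              (R.inv_mem hr₂))]
        _ = r₁ * r₂ * r₁⁻¹ * r₂⁻¹ := by group
    rw [h7]
    exact R.mul_mem (R.mul_mem (R.mul_mem hr₁ hr₂) (R.inv_mem hr₁)) (R.inv_mem hr₂)
  obtain ⟨u, r, huS, huu, hrR, hur, hfix⟩ :=
    exists_fixed (S : Subgroup G) hinvc N hN z (hQS hzQ) hzsq R hkey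
  have hu1 : u ≠ 1 := by
    intro h0
    apply hz1
    apply hbot z hzQ
    have : z = r⁻¹ := eq_inv_of_mul_eq_one_left (by rw [← hur, h0])
    rw [this]
    exact R.inv_mem hrR
  have huo : orderOf u = 2 := orderOf_eq_prime (by rw [sq]; exact huu) hu1
  have hcent : ∀ v ∈ (S : Subgroup G), v * v = 1 → (S : Subgroup G) ≤ Subgroup.centralizer {v} := by
    intro v hv hvv t ht
    rw [Subgroup.mem_centralizer_singleton_iff]
    exact (hinvc v hv hvv t ht).symm
  have hiso : ∀ g : G, g * u * g⁻¹ ∈ S → g * u * g⁻¹ = u := by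
    intro g hg
    have hsq : g * u * g⁻¹ * (g * u * g⁻¹) = 1 := by
      calc g * u * g⁻¹ * (g * u * g⁻¹) = g * (u * u) * g⁻¹ := by group
        _ = 1 := by rw [huu]; group
    obtain ⟨h, hh, e⟩ := Cfsg.Agent.Lib.Helper4.conj_in_normalizer_of_sylow_centralizes S u g
      (hcent u huS huu) (hcent _ hg hsq)
    rw [← e]
    exact hfix h hh
  obtain ⟨M, hMn, hModd, hM⟩ := Cfsg.Agent.S0215.result S u huo huS hiso
  rcases hMn.eq_bot_or_eq_top with h | h
  · -- `u` is central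
    have huc : u ∈ Subgroup.center G := by
      rw [Subgroup.mem_center_iff]
      intro g
      have := hM g
      rw [h, Subgroup.mem_bot] at this
      calc g * u = (u * g * u⁻¹ * g⁻¹)⁻¹ * (u * g) := by group
        _ = u * g := by rw [this]; group
    rcases (inferInstance : (Subgroup.center G).Normal).eq_bot_or_eq_top with h' | h'
    · rw [h', Subgroup.mem_bot] at huc
      exact hu1 huc
    · have hcc : c ∈ Subgroup.center G := h' ▸ Subgroup.mem_top c
      apply hz1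
      rw [← hcd, ← (Subgroup.mem_center_iff.1 hcc d)]
      group
  · rw [h, Subgroup.card_top] at hModd
    have h2 : 2 ∣ Nat.card G := huo ▸ orderOf_dvd_natCard u
    rw [Nat.odd_iff] at hModd
    omega

end Cfsg.Agent.S3269
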