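import Mathlib
import Cfsg.Statements.S3276
import Cfsg.Agent.Lib.Helper18.Basic
import Cfsg.Agent.Lib.Helper18.Involutions

set_option autoImplicit false
open Cfsg

namespace Cfsg.Agent.S3276

open Cfsg.Agent.Lib.Helper18

theorem result {G : Type*} [Group G] [Finite G] (x y : G) (hx : orderOf x = 2) (hy : orderOf y = 2)
    (hxy : Commute x y) (hnc : ¬ IsConj x y)
    (hstar : ∀ u : G, orderOf u = 2 → Commute u x → ∀ g : G, Commute (g * y * g⁻¹) u → Commute (g * y * g⁻¹) y) :
    Subgroup.normalClosure ({y} : Set G) ≠ ⊤ ∧ Cfsg.IsElementaryAbelian 2 (Subgroup.normalClosure ({y} : Set G)) ∧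
      ((∀ u ∈ Subgroup.normalClosure ({y} : Set G), orderOf u = 2 → Commute u x → u = y) →
        Nat.card ↥(Subgroup.normalClosure ({y} : Set G)) ≤ 4) := by
  have hx2 := sq_eq_one_of_orderOf_two hx
  have hy2 := sq_eq_one_of_orderOf_two hy
  have hxinv := inv_eq_self_of_orderOf_two hx
  -- every conjugate of `y` commutes with `y`
  have h1 : ∀ g : G, Commute (g * y * g⁻¹) y := by
    intro g
    have ho : orderOf (g * y * g⁻¹) = 2 := by
      have := orderOf_injective (MulAut.conj g).toMonoidHom (MulAut.conj g).injective y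
      simpa [hy] using this
    rcases isConj_or_exists_involution hx ho with h | ⟨u, hu, hux, huy, -⟩
    · exfalso
      apply hnc
      exact h.trans (isConj_iff.mpr ⟨g⁻¹, by group⟩)
    · exact hstar u hu hux g huy.symm
  -- any two conjugates commute
  have h2 : ∀ g h : G, Commute (g * y * g⁻¹) (h * y * h⁻¹) := by
    intro g h
    have := h1 (h⁻¹ * g)
    have h3 : Commute (h * ((h⁻¹ * g) * y * (h⁻¹ * g)⁻¹) * h⁻¹) (h * y * h⁻¹) := by
      unfold Commute SemiconjBy at this ⊢
      calc h * (h⁻¹ * g * y * (h⁻¹ * g)⁻¹) * h⁻¹ * (h * y * h⁻¹)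
          = h * ((h⁻¹ * g * y * (h⁻¹ * g)⁻¹) * y) * h⁻¹ := by group
        _ = h * (y * (h⁻¹ * g * y * (h⁻¹ * g)⁻¹)) * h⁻¹ := by rw [this]
        _ = _ := by group
    have h4 : h * ((h⁻¹ * g) * y * (h⁻¹ * g)⁻¹) * h⁻¹ = g * y * g⁻¹ := by group
    rwa [h4] at h3
  set N := Subgroup.normalClosure ({y} : Set G) with hN
  have hconj : ∀ z ∈ Group.conjugatesOfSet ({y} : Set G), ∃ g : G, z = g * y * g⁻¹ := by
    intro z hz
    rw [Group.mem_conjugatesOfSet_iff] at hz
    obtain ⟨a, ha, haz⟩ := hz
    rw [Set.mem_singleton_iff] at ha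
    subst ha
    obtain ⟨g, hg⟩ := isConj_iff.mp haz
    exact ⟨g, hg.symm⟩
  have hNc : IsMulCommutative N := by
    apply Subgroup.isMulCommutative_closure
    intro a ha b hb
    obtain ⟨g, rfl⟩ := hconj a ha
    obtain ⟨h, rfl⟩ := hconj b hb
    exact h2 g h
  have hNsq : ∀ a ∈ N, a ^ 2 = 1 := by
    intro a ha
    induction ha using Subgroup.closure_induction with
    | mem z hz =>
      obtain ⟨g, rfl⟩ := hconj z hz
      rw [conj_pow, pow_two, hy2]; group
    | one => simp
    | mul a b ha hb iha ihb =>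
      have : Commute a b := setLike_mul_comm (s := N) ha hb
      rw [this.mul_pow, iha, ihb, one_mul]
    | inv a ha iha => rw [inv_pow, iha, inv_one]
  have hyN : y ∈ N := Subgroup.subset_normalClosure (Set.mem_singleton y)
  refine ⟨?_, ⟨hNc, hNsq⟩, ?_⟩
  · intro htop
    have hcomm : ∀ a b : G, a * b = b * a := fun a b =>
      setLike_mul_comm (s := N) (htop ▸ Subgroup.mem_top a) (htop ▸ Subgroup.mem_top b)
    have hzn : (Subgroup.zpowers y).Normal := ⟨fun z hz g => by
      rw [hcomm g z, mul_inv_cancel_right]; exact hz⟩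
    have hle : N ≤ Subgroup.zpowers y :=
      Subgroup.normalClosure_le_normal (by simp)
    have hxm : x ∈ Subgroup.zpowers y := hle (htop ▸ Subgroup.mem_top x)
    rcases mem_zpowers_of_orderOf_two hy hxm with h | h
    · exact ne_one_of_orderOf_two hx h
    · exact hnc (h ▸ IsConj.refl x)
  · intro huniq
    have hNn : N.Normal := Subgroup.normalClosure_normal
    -- elements of `N` commuting with `x`
    have hfix : ∀ a ∈ N, Commute a x → a = 1 ∨ a = y := by
      intro a ha hax
      by_cases h : a = 1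
      · exact Or.inl h
      · right
        exact huniq a ha (orderOf_two_of_sq (by rw [← pow_two]; exact hNsq a ha) h) hax
    let φ : N →* N :=
      { toFun := fun n => n * MulAut.conjNormal x n
        map_one' := by simp
        map_mul' := by
          intro a b
          rw [map_mul]
          calc a * b * (MulAut.conjNormal x a * MulAut.conjNormal x b)
              = a * (b * MulAut.conjNormal x a) * MulAut.conjNormal x b := by group
            _ = a * (MulAut.conjNormal x a * b) * MulAut.conjNormal x b := by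
                rw [mul_comm' b]
            _ = _ := by group }
    have hφ : ∀ n : N, ((φ n : N) : G) = n * (x * n * x⁻¹) := fun n => rfl
    let C : Subgroup N := Subgroup.zpowers ⟨y, hyN⟩
    have hCcard : Nat.card C = 2 := by
      rw [Nat.card_zpowers, Subgroup.orderOf_mk, hy]
    have hmemC : ∀ n : N, ((n : G) = 1 ∨ (n : G) = y) → n ∈ C := by
      rintro n (h | h)
      · have : n = 1 := Subtype.ext h
        rw [this]; exact C.one_mem
      · have : n = ⟨y, hyN⟩ := Subtype.ext h
        rw [this]; exact Subgroup.mem_zpowers _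
    have hker : φ.ker ≤ C := by
      intro n hn
      apply hmemC
      apply hfix _ n.2
      have h3 : (n : G) * (x * n * x⁻¹) = 1 := by
        rw [← hφ, MonoidHom.mem_ker.mp hn]; rfl
      have h4 : (n : G) * n = 1 := by rw [← pow_two]; exact hNsq _ n.2
      have h5 : x * n * x⁻¹ = n := mul_left_cancel (h3.trans h4.symm)
      exact (mul_inv_eq_iff_eq_mul.mp h5).symm
    have hrange : φ.range ≤ C := by
      rintro _ ⟨n, rfl⟩
      apply hmemC
      apply hfix _ (φ n).2
      rw [hφ]
      have h6 : Commute (n : G) (x * n * x⁻¹) :=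
        setLike_mul_comm (s := N) n.2 (hNn.conj_mem _ n.2 x)
      unfold Commute SemiconjBy at h6 ⊢
      calc (n : G) * (x * n * x⁻¹) * x = (x * n * x⁻¹) * n * x := by rw [h6]
        _ = x * (n * (x⁻¹ * n * x)) := by group
        _ = x * (n * (x * n * x⁻¹)) := by rw [hxinv]
    have hcard : Nat.card N = Nat.card φ.ker * Nat.card φ.range := by
      rw [← Subgroup.index_ker, Subgroup.card_mul_index]
    have hk2 : Nat.card φ.ker ≤ 2 := hCcard ▸ Subgroup.card_le_of_le hker
    have hr2 : Nat.card φ.range ≤ 2 := hCcard ▸ Subgroup.card_le_of_le hrange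
    rw [hcard]
    calc Nat.card φ.ker * Nat.card φ.range ≤ 2 * 2 := Nat.mul_le_mul hk2 hr2
      _ = 4 := rfl

end Cfsg.Agent.S3276
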