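import Mathlib
import Cfsg.Agent.Lib.Helper18.Involutions
import Cfsg.Statements.S3279

set_option autoImplicit false
open Cfsg

namespace Cfsg.Agent.S3279

open Cfsg.Agent.Lib.Helper18

variable {G : Type*} [Group G]

/-- involutions commuting with `w` -/
def Inv (w : G) : Set G := {u | orderOf u = 2 ∧ u * w = w * u}

theorem orderOf_conj' (g u : G) : orderOf (g * u * g⁻¹) = orderOf u := by
  rw [← MulAut.conj_apply]; exact (MulAut.conj g).orderOf_eq u

theorem Inv_conj (g w : G) : Inv (g * w * g⁻¹) = (fun u => g * u * g⁻¹) '' Inv w := by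
  ext u
  constructor
  · rintro ⟨h1, h2⟩
    refine ⟨g⁻¹ * u * g, ⟨?_, ?_⟩, by group⟩
    · have : g⁻¹ * u * g = g⁻¹ * u * (g⁻¹)⁻¹ := by group
      rw [this, orderOf_conj', h1]
    · calc g⁻¹ * u * g * w = g⁻¹ * (u * (g * w * g⁻¹)) * g := by group
        _ = g⁻¹ * ((g * w * g⁻¹) * u) * g := by rw [h2]
        _ = w * (g⁻¹ * u * g) := by group
  · rintro ⟨v, ⟨h1, h2⟩, rfl⟩
    refine ⟨by rw [orderOf_conj', h1], ?_⟩
    calc g * v * g⁻¹ * (g * w * g⁻¹) = g * (v * w) * g⁻¹ := by group
      _ = g * (w * v) * g⁻¹ := by rw [h2]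
      _ = g * w * g⁻¹ * (g * v * g⁻¹) := by group

/-- the dihedral trichotomy -/
theorem trichotomy [Finite G] {x u : G} (hx : orderOf x = 2) (hu : orderOf u = 2) :
    IsConj x u ∨
    (∃ w, orderOf w = 2 ∧ w * x = x * w ∧ w * u = u * w ∧ IsConj x (x * w)) ∨
    (∃ w g, orderOf w = 2 ∧ w * x = x * w ∧ w * u = u * w ∧ g * w = w * g ∧
      u = g * (x * w) * g⁻¹) := by
  have hx2 := sq_eq_one_of_orderOf_two hx
  have hu2 := sq_eq_one_of_orderOf_two hu
  have key : ∀ k : ℕ, x * (x * u) ^ k = ((x * u) ^ k)⁻¹ * x := fun k => conj_pow_mul hx2 hu2 k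
  generalize hr : x * u = r at key
  have hxr : x * r = u := by rw [← hr, ← mul_assoc, hx2, one_mul]
  have e1 : ∀ k : ℕ, (r ^ k)⁻¹ * x * r ^ k = x * r ^ (2 * k) := by
    intro k; rw [← key, mul_assoc, ← pow_add, two_mul]
  have e2 : ∀ k : ℕ, (r ^ k)⁻¹ * u * r ^ k = x * r ^ (2 * k + 1) := by
    intro k
    rw [← hxr, ← mul_assoc, ← key, mul_assoc, mul_assoc, ← pow_succ', ← pow_add]
    congr 2; ring
  have hm : 0 < orderOf r := orderOf_pos r
  rcases Nat.even_or_odd' (orderOf r) with ⟨m', hm' | hm'⟩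
  · right
    have hw2 : orderOf (r ^ m') = 2 := by
      rw [orderOf_pow_of_dvd (by omega) ⟨2, by rw [hm']; ring⟩, hm']
      exact Nat.mul_div_left 2 (by omega)
    generalize hw : r ^ m' = w at hw2
    have hwinv : w⁻¹ = w := inv_eq_self_of_orderOf_two hw2
    have hwx : w * x = x * w := by
      have := key m'
      rw [hw, hwinv] at this
      exact this.symm
    have hwr : w * r = r * w := by
      rw [← hw, ← pow_succ, ← pow_succ']
    have hwu : w * u = u * w := by
      rw [← hxr, ← mul_assoc, hwx, mul_assoc, hwr, mul_assoc]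
    rcases Nat.even_or_odd' m' with ⟨k, hk | hk⟩
    · left
      refine ⟨w, hw2, hwx, hwu, isConj_iff.mpr ⟨(r ^ k)⁻¹, ?_⟩⟩
      rw [inv_inv, e1, ← hk, hw]
    · right
      refine ⟨w, r ^ k, hw2, hwx, hwu, ?_, ?_⟩
      · rw [← hw, ← pow_add, ← pow_add, add_comm]
      · have := e2 k
        rw [← hk, hw] at this
        rw [← this]; group
  · left
    have := e2 m'
    rw [← hm', pow_orderOf_eq_one, mul_one] at this
    exact (isConj_iff.mpr ⟨(r ^ m')⁻¹, by rw [inv_inv]; exact this⟩).symm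

theorem lemS [Finite G] {x : G} (h3 : (Inv x).ncard ≤ 3) {w p q r u : G} (hw : IsConj x w)
    (hp : p ∈ Inv w) (hq : q ∈ Inv w) (hr : r ∈ Inv w) (hpq : p ≠ q) (hpr : p ≠ r) (hqr : q ≠ r)
    (hu : u ∈ Inv w) : u = p ∨ u = q ∨ u = r := by
  obtain ⟨g, rfl⟩ := isConj_iff.mp hw
  have hinj : Function.Injective (fun u : G => g * u * g⁻¹) := by
    intro y z hyz
    simpa using hyz
  have hc : (Inv (g * x * g⁻¹)).ncard ≤ 3 := by
    rw [Inv_conj, Set.ncard_image_of_injective _ hinj]; exact h3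
  have hsub : ({p, q, r} : Set G) ⊆ Inv (g * x * g⁻¹) := by
    rintro y (rfl | rfl | rfl) <;> assumption
  have h3' : ({p, q, r} : Set G).ncard = 3 := Set.ncard_eq_three.mpr ⟨p, q, r, hpq, hpr, hqr, rfl⟩
  have := Set.eq_of_subset_of_ncard_le hsub (by rw [h3']; exact hc) (Set.toFinite _)
  rw [← this] at hu
  simpa using hu

theorem central_of_comm_conj [IsSimpleGroup G] {k b : G} (hk : k ≠ 1)
    (h : ∀ g : G, b * (g * k * g⁻¹) = (g * k * g⁻¹) * b) : b ∈ Subgroup.center G := by
  have h1 : Subgroup.normalClosure {k} = ⊤ := by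
    rcases (Subgroup.normalClosure_normal (s := {k})).eq_bot_or_eq_top with h0 | h0
    · exfalso; apply hk
      have : k ∈ Subgroup.normalClosure {k} := Subgroup.subset_normalClosure (Set.mem_singleton k)
      rw [h0] at this; exact Subgroup.mem_bot.mp this
    · exact h0
  have h2 : Subgroup.normalClosure {k} ≤ Subgroup.centralizer {b} := by
    unfold Subgroup.normalClosure
    rw [Subgroup.closure_le]
    intro y hy
    obtain ⟨k', hk', hc⟩ := Group.mem_conjugatesOfSet_iff.mp hy
    rw [Set.mem_singleton_iff] at hk'; subst hk'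
    obtain ⟨g, rfl⟩ := isConj_iff.mp hc
    exact Subgroup.mem_centralizer_singleton_iff.mpr (h g).symm
  rw [h1] at h2
  rw [Subgroup.mem_center_iff]
  intro g
  exact (Subgroup.mem_centralizer_singleton_iff.mp (h2 (Subgroup.mem_top g)))

theorem central_false [Finite G] [IsSimpleGroup G] {b x : G} (hb : orderOf b = 2)
    (hbc : b ∈ Subgroup.center G) (hx : orderOf x = 2) (hne : x ≠ b) : False := by
  have hn : (Subgroup.zpowers b).Normal := ⟨fun n hn g => by
    have hle : Subgroup.zpowers b ≤ Subgroup.center G := by rw [Subgroup.zpowers_le]; exact hbc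
    have h1 := Subgroup.mem_center_iff.mp (hle hn) g
    rw [h1, mul_inv_cancel_right]; exact hn⟩
  rcases hn.eq_bot_or_eq_top with h0 | h0
  · have : b ∈ Subgroup.zpowers b := Subgroup.mem_zpowers b
    rw [h0] at this
    exact ne_one_of_orderOf_two hb (Subgroup.mem_bot.mp this)
  · have hcard : Nat.card G = 2 := by
      rw [← Subgroup.card_top, ← h0, Nat.card_zpowers, hb]
    obtain ⟨w, _, hw⟩ := (Nat.card_eq_two_iff' (1 : G)).mp hcard
    exact hne ((hw x (ne_one_of_orderOf_two hx)).trans (hw b (ne_one_of_orderOf_two hb)).symm)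

theorem dich [Finite G] {x u : G} (hx : orderOf x = 2) (hu : orderOf u = 2) :
    IsConj x u ∨ ∃ w, orderOf w = 2 ∧ w * x = x * w ∧ w * u = u * w := by
  rcases trichotomy hx hu with h | ⟨w, hw, hwx, hwu, -⟩ | ⟨w, g, hw, hwx, hwu, -, -⟩
  · exact Or.inl h
  · exact Or.inr ⟨w, hw, hwx, hwu⟩
  · exact Or.inr ⟨w, hw, hwx, hwu⟩

theorem comm_conj {g p q : G} (hg : g * q = q * g) (hpq : p * q = q * p) :
    (g * p * g⁻¹) * q = q * (g * p * g⁻¹) := by
  have hq : g * q * g⁻¹ = q := by rw [hg, mul_inv_cancel_right]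
  calc (g * p * g⁻¹) * q = (g * p * g⁻¹) * (g * q * g⁻¹) := by rw [hq]
    _ = g * (p * q) * g⁻¹ := by group
    _ = g * (q * p) * g⁻¹ := by rw [hpq]
    _ = (g * q * g⁻¹) * (g * p * g⁻¹) := by group
    _ = q * (g * p * g⁻¹) := by rw [hq]

/-- the four-group of involutions of `C(x)` -/
structure Trip (x a b : G) : Prop where
  hx : orderOf x = 2
  ha : orderOf a = 2
  hb : orderOf b = 2
  xa : x * a = b
  ax : a * x = b
  h3 : (Inv x).ncard ≤ 3

namespace Trip

variable {x a b : G}

theorem xb (t : Trip x a b) : x * b = a := by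
  rw [← t.xa, ← mul_assoc, sq_eq_one_of_orderOf_two t.hx, one_mul]

theorem bx (t : Trip x a b) : b * x = a := by
  rw [← t.ax, mul_assoc, sq_eq_one_of_orderOf_two t.hx, mul_one]

theorem ab (t : Trip x a b) : a * b = x := by
  rw [← t.ax, ← mul_assoc, sq_eq_one_of_orderOf_two t.ha, one_mul]

theorem ba (t : Trip x a b) : b * a = x := by
  rw [← t.xa, mul_assoc, sq_eq_one_of_orderOf_two t.ha, mul_one]

theorem symm (t : Trip x a b) : Trip x b a := ⟨t.hx, t.hb, t.ha, t.xb, t.bx, t.h3⟩

theorem x_ne_a (t : Trip x a b) : x ≠ a := by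
  intro h
  have := t.xa
  rw [← h, sq_eq_one_of_orderOf_two t.hx] at this
  exact ne_one_of_orderOf_two t.hb this.symm

theorem x_ne_b (t : Trip x a b) : x ≠ b := t.symm.x_ne_a

theorem a_ne_b (t : Trip x a b) : a ≠ b := by
  intro h
  have := t.ab
  rw [← h, sq_eq_one_of_orderOf_two t.ha] at this
  exact ne_one_of_orderOf_two t.hx this.symm

theorem mem_of_comm [Finite G] (t : Trip x a b) {w u : G} (hw : IsConj x w)
    (hwm : w = x ∨ w = a ∨ w = b) (hu : orderOf u = 2) (huw : u * w = w * u) :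
    u = x ∨ u = a ∨ u = b := by
  refine lemS t.h3 hw ?_ ?_ ?_ t.x_ne_a t.x_ne_b t.a_ne_b ⟨hu, huw⟩
  · rcases hwm with rfl | rfl | rfl
    · exact ⟨t.hx, rfl⟩
    · exact ⟨t.hx, t.xa.trans t.ax.symm⟩
    · exact ⟨t.hx, t.xb.trans t.bx.symm⟩
  · rcases hwm with rfl | rfl | rfl
    · exact ⟨t.ha, t.ax.trans t.xa.symm⟩
    · exact ⟨t.ha, rfl⟩
    · exact ⟨t.ha, t.ab.trans t.ba.symm⟩
  · rcases hwm with rfl | rfl | rfl
    · exact ⟨t.hb, t.bx.trans t.xb.symm⟩
    · exact ⟨t.hb, t.ba.trans t.ab.symm⟩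
    · exact ⟨t.hb, rfl⟩

theorem caseB12 [Finite G] [IsSimpleGroup G] (t : Trip x a b) (hbx : IsConj x b) {u : G}
    (hu : orderOf u = 2) : IsConj x u := by
  by_contra hux
  by_cases hax : IsConj x a
  · rcases dich t.hx hu with h | ⟨w, hw, hwx, hwu⟩
    · exact hux h
    · have hwm := t.mem_of_comm (IsConj.refl x) (Or.inl rfl) hw hwx
      have hwc : IsConj x w := by
        rcases hwm with rfl | rfl | rfl
        exacts [IsConj.refl _, hax, hbx]
      rcases t.mem_of_comm hwc hwm hu hwu.symm with rfl | rfl | rfl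
      exacts [hux (IsConj.refl _), hux hax, hux hbx]
  · have hc : a ∈ Subgroup.center G := by
      apply central_of_comm_conj (k := a) (ne_one_of_orderOf_two t.ha)
      intro g
      have ha' : orderOf (g * a * g⁻¹) = 2 := by rw [orderOf_conj', t.ha]
      have hconj : IsConj a (g * a * g⁻¹) := isConj_iff.mpr ⟨g, rfl⟩
      rcases dich t.hx ha' with h | ⟨w, hw, hwx, hwu⟩
      · exact absurd (h.trans hconj.symm) hax
      · have hwm := t.mem_of_comm (IsConj.refl x) (Or.inl rfl) hw hwx
        have key : ∀ w', IsConj x w' → (w' = x ∨ w' = a ∨ w' = b) →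
            w' * (g * a * g⁻¹) = (g * a * g⁻¹) * w' →
            a * (g * a * g⁻¹) = g * a * g⁻¹ * a := by
          intro w' hc' hm' hcomm
          rcases t.mem_of_comm hc' hm' ha' hcomm.symm with h | h | h
          · rw [h] at hconj
            exact absurd hconj.symm hax
          · rw [h]
          · rw [h] at hconj
            exact absurd (hbx.trans hconj.symm) hax
        rcases hwm with rfl | rfl | rfl
        · exact key _ (IsConj.refl _) (Or.inl rfl) hwu
        · exact hwu
        · exact key _ hbx (Or.inr (Or.inr rfl)) hwu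
    exact central_false t.ha hc t.hx t.x_ne_a

theorem claim2 [Finite G] (t : Trip x a b) (hax : ¬ IsConj x a) (hbx : ¬ IsConj x b) {u : G}
    (hu : orderOf u = 2) (hux : ¬ IsConj x u) :
    (∃ g, g * b = b * g ∧ u = g * a * g⁻¹) ∨ (∃ g, g * a = a * g ∧ u = g * b * g⁻¹) := by
  rcases trichotomy t.hx hu with h | ⟨w, hw, hwx, hwu, hc⟩ | ⟨w, g, hw, hwx, hwu, hgw, hug⟩
  · exact absurd h hux
  · exfalso
    rcases t.mem_of_comm (IsConj.refl x) (Or.inl rfl) hw hwx with rfl | rfl | rfl
    · rw [sq_eq_one_of_orderOf_two t.hx] at hc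
      exact ne_one_of_orderOf_two t.hx (isConj_one_left.mp hc)
    · rw [t.xa] at hc; exact hbx hc
    · rw [t.xb] at hc; exact hax hc
  · rcases t.mem_of_comm (IsConj.refl x) (Or.inl rfl) hw hwx with rfl | rfl | rfl
    · exfalso
      rw [sq_eq_one_of_orderOf_two t.hx, mul_one, mul_inv_cancel] at hug
      exact ne_one_of_orderOf_two hu hug
    · right; exact ⟨g, hgw, by rw [hug, t.xa]⟩
    · left; exact ⟨g, hgw, by rw [hug, t.xb]⟩

theorem caseB3 [Finite G] [IsSimpleGroup G] (t : Trip x a b) (hax : ¬ IsConj x a)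
    (hbx : ¬ IsConj x b) (hab : ¬ IsConj a b) : False := by
  have hc : b ∈ Subgroup.center G := by
    apply central_of_comm_conj (k := a) (ne_one_of_orderOf_two t.ha)
    intro g
    have ha' : orderOf (g * a * g⁻¹) = 2 := by rw [orderOf_conj', t.ha]
    have hconj : IsConj a (g * a * g⁻¹) := isConj_iff.mpr ⟨g, rfl⟩
    have hnx : ¬ IsConj x (g * a * g⁻¹) := fun h => hax (h.trans hconj.symm)
    rcases t.claim2 hax hbx ha' hnx with ⟨h, hhb, he⟩ | ⟨h, hha, he⟩
    · rw [he]
      exact (comm_conj hhb (t.ab.trans t.ba.symm)).symm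
    · exfalso
      apply hab
      rw [he] at hconj
      exact hconj.trans (isConj_iff.mpr ⟨h, rfl⟩ : IsConj b (h * b * h⁻¹)).symm
  exact central_false t.hb hc t.hx t.x_ne_b

theorem caseB4 [Finite G] [IsSimpleGroup G] (t : Trip x a b) (hax : ¬ IsConj x a)
    (hbx : ¬ IsConj x b) (hab : IsConj a b) : False := by
  have hK2 : ∀ u, IsConj a u → orderOf u = 2 := by
    intro u hu
    obtain ⟨g, rfl⟩ := isConj_iff.mp hu
    rw [orderOf_conj', t.ha]
  have hKx : ∀ u, IsConj a u → ¬ IsConj x u := fun u hu h => hax (h.trans hu.symm)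
  have P1 : ∀ u, IsConj a u → u * a = a * u ∨ u * b = b * u := by
    intro u hu
    rcases t.claim2 hax hbx (hK2 u hu) (hKx u hu) with ⟨g, hg, rfl⟩ | ⟨g, hg, rfl⟩
    · right; exact comm_conj hg (t.ab.trans t.ba.symm)
    · left; exact comm_conj hg (t.ba.trans t.ab.symm)
  have P2 : ∀ u, IsConj a u → u * a = a * u → u * b = b * u → u = a ∨ u = b := by
    intro u hu h1 h2
    have hux : u * x = x * u := by rw [← t.ab, ← mul_assoc, h1, mul_assoc, h2, mul_assoc]
    rcases t.mem_of_comm (IsConj.refl x) (Or.inl rfl) (hK2 u hu) hux with h | h | h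
    · rw [h] at hu
      exact absurd hu.symm hax
    · exact Or.inl h
    · exact Or.inr h
  have P3 : ∀ u, IsConj a u → u * b = b * u → u ≠ b → ∃ g, g * b = b * g ∧ u = g * a * g⁻¹ := by
    intro u hu h1 h2
    rcases t.claim2 hax hbx (hK2 u hu) (hKx u hu) with h | ⟨g, hg, he⟩
    · exact h
    · have h3 : u * a = a * u := by rw [he]; exact comm_conj hg (t.ba.trans t.ab.symm)
      rcases P2 u hu h3 h1 with h | h
      · exact ⟨1, by simp, by simp [h]⟩
      · exact absurd h h2
  have C : ∀ u v, IsConj a u → u * b = b * u → u ≠ b → IsConj a v → v * a = a * v → v ≠ a →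
      u * v = v * u := by
    intro u v hu hub hub' hv hva hva'
    obtain ⟨g, hg, rfl⟩ := P3 u hu hub hub'
    have ht : IsConj a (g⁻¹ * v * g) := hv.trans (isConj_iff.mpr ⟨g⁻¹, by group⟩)
    rcases P1 _ ht with h | h
    · calc g * a * g⁻¹ * v = g * (a * (g⁻¹ * v * g)) * g⁻¹ := by group
        _ = g * ((g⁻¹ * v * g) * a) * g⁻¹ := by rw [h]
        _ = v * (g * a * g⁻¹) := by group
    · have hvb : v * b = b * v := by
        have hb' : g * b * g⁻¹ = b := by rw [hg, mul_inv_cancel_right]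
        calc v * b = v * (g * b * g⁻¹) := by rw [hb']
          _ = g * ((g⁻¹ * v * g) * b) * g⁻¹ := by group
          _ = g * (b * (g⁻¹ * v * g)) * g⁻¹ := by rw [h]
          _ = (g * b * g⁻¹) * v := by group
          _ = b * v := by rw [hb']
      rcases P2 v hv hva hvb with h' | h'
      · exact absurd h' hva'
      · rw [h']; exact hub
  let Pa : Set G := {u | IsConj a u ∧ u * b = b * u ∧ u ≠ b}
  let A : Subgroup G := Subgroup.closure Pa
  have haA : a ∈ A := Subgroup.subset_closure ⟨IsConj.refl a, t.ab.trans t.ba.symm, t.a_ne_b⟩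
  have hcl : Subgroup.normalClosure {a} = ⊤ := by
    rcases (Subgroup.normalClosure_normal (s := {a})).eq_bot_or_eq_top with h0 | h0
    · exfalso; apply ne_one_of_orderOf_two t.ha
      have : a ∈ Subgroup.normalClosure {a} := Subgroup.subset_normalClosure (Set.mem_singleton a)
      rw [h0] at this; exact Subgroup.mem_bot.mp this
    · exact h0
  have hnorm : Subgroup.normalizer (A : Set G) = ⊤ := by
    rw [eq_top_iff, ← hcl]
    unfold Subgroup.normalClosure
    rw [Subgroup.closure_le]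
    intro k hk
    obtain ⟨k', hk', hc⟩ := Group.mem_conjugatesOfSet_iff.mp hk
    rw [Set.mem_singleton_iff] at hk'; subst hk'
    by_cases hkPa : k ∈ Pa
    · exact Subgroup.le_normalizer (Subgroup.subset_closure hkPa)
    · have hkb : k * k' = k' * k ∧ k ≠ k' := by
        by_cases hkb : k = b
        · rw [hkb]; exact ⟨t.ba.trans t.ab.symm, t.a_ne_b.symm⟩
        · have h1 : ¬ (k * b = b * k) := fun h => hkPa ⟨hc, h, hkb⟩
          rcases P1 k hc with h | h
          · refine ⟨h, ?_⟩
            rintro rfl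
            exact h1 (t.ab.trans t.ba.symm)
          · exact absurd h h1
      apply Subgroup.centralizer_le_normalizer
      rw [Subgroup.mem_centralizer_iff]
      have hle : A ≤ Subgroup.centralizer {k} := by
        rw [Subgroup.closure_le]
        intro u hu
        exact Subgroup.mem_centralizer_singleton_iff.mpr (C u k hu.1 hu.2.1 hu.2.2 hc hkb.1 hkb.2)
      intro h hh
      exact Subgroup.mem_centralizer_singleton_iff.mp (hle hh)
  have hAn : A.Normal := Subgroup.normalizer_eq_top_iff.mp hnorm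
  have hAtop : A = ⊤ := by
    rcases hAn.eq_bot_or_eq_top with h0 | h0
    · exfalso; apply ne_one_of_orderOf_two t.ha
      rw [h0] at haA; exact Subgroup.mem_bot.mp haA
    · exact h0
  have hc : b ∈ Subgroup.center G := by
    have hle : A ≤ Subgroup.centralizer {b} := by
      rw [Subgroup.closure_le]
      intro u hu
      exact Subgroup.mem_centralizer_singleton_iff.mpr hu.2.1
    rw [hAtop] at hle
    rw [Subgroup.mem_center_iff]
    intro g
    exact Subgroup.mem_centralizer_singleton_iff.mp (hle (Subgroup.mem_top g))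
  exact central_false t.hb hc t.hx t.x_ne_b

end Trip

theorem all_conj [Finite G] [IsSimpleGroup G] {x : G} (hx : orderOf x = 2)
    (h3 : (Inv x).ncard ≤ 3) {u : G} (hu : orderOf u = 2) : IsConj x u := by
  by_contra hux
  obtain ⟨a, ha, hax, hane⟩ : ∃ a, orderOf a = 2 ∧ a * x = x * a ∧ a ≠ x := by
    rcases trichotomy hx hu with h | ⟨w, hw, hwx, hwu, hc⟩ | ⟨w, g, hw, hwx, hwu, hgw, hug⟩
    · exact absurd h hux
    · refine ⟨w, hw, hwx, ?_⟩
      rintro rfl
      rw [sq_eq_one_of_orderOf_two hx] at hc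
      exact ne_one_of_orderOf_two hx (isConj_one_left.mp hc)
    · refine ⟨w, hw, hwx, ?_⟩
      rintro rfl
      rw [sq_eq_one_of_orderOf_two hx, mul_one, mul_inv_cancel] at hug
      exact ne_one_of_orderOf_two hu hug
  have hb : orderOf (x * a) = 2 := by
    apply orderOf_two_of_sq
    · calc x * a * (x * a) = x * (a * x) * a := by group
        _ = x * (x * a) * a := by rw [hax]
        _ = (x * x) * (a * a) := by group
        _ = 1 := by rw [sq_eq_one_of_orderOf_two hx, sq_eq_one_of_orderOf_two ha, one_mul]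
    · intro h
      apply hane
      have : a = x⁻¹ := eq_inv_of_mul_eq_one_right h
      rw [this, inv_eq_self_of_orderOf_two hx]
  have t : Trip x a (x * a) := ⟨hx, ha, hb, rfl, hax, h3⟩
  by_cases h1 : IsConj x (x * a)
  · exact hux (t.caseB12 h1 hu)
  by_cases h2 : IsConj x a
  · exact hux (t.symm.caseB12 h2 hu)
  by_cases h3 : IsConj a (x * a)
  · exact t.caseB4 h2 h1 h3
  · exact t.caseB3 h2 h1 h3

open scoped Pointwise in
/-- Let G be a finite simple group and x an involution of G whose centralizer contains at most three involutions. Then C_G(x) contains a Sylow 2-subgroup of G, and all involutions of G are conjugate. -/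
theorem result {G : Type*} [Group G] [Finite G] [IsSimpleGroup G] (x : G) (hx : orderOf x = 2)
    (h3 : Nat.card {u : ↥(Subgroup.centralizer ({x} : Set G)) // orderOf u = 2} ≤ 3) :
    (∃ S : Sylow 2 G, (S : Subgroup G) ≤ Subgroup.centralizer ({x} : Set G)) ∧
      ∀ u v : G, orderOf u = 2 → orderOf v = 2 → IsConj u v := by
  have hI : (Inv x).ncard ≤ 3 := by
    refine le_trans ?_ h3
    rw [← Nat.card_coe_set_eq]
    apply Nat.card_le_card_of_injective (fun v : Inv x =>
      (⟨⟨v.1, Subgroup.mem_centralizer_singleton_iff.mpr v.2.2⟩, by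
        rw [Subgroup.orderOf_mk]; exact v.2.1⟩ :
        {u : ↥(Subgroup.centralizer ({x} : Set G)) // orderOf u = 2}))
    intro v w h
    apply Subtype.ext
    exact congrArg (fun y : {u : ↥(Subgroup.centralizer ({x} : Set G)) // orderOf u = 2} =>
      ((y.1 : ↥(Subgroup.centralizer ({x} : Set G))) : G)) h
  have hall : ∀ u : G, orderOf u = 2 → IsConj x u := fun u hu => all_conj hx hI hu
  refine ⟨?_, fun u v hu hv => (hall u hu).symm.trans (hall v hv)⟩
  haveI : Fact (Nat.Prime 2) := ⟨Nat.prime_two⟩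
  let S : Sylow 2 G := default
  have h2 : 2 ∣ Nat.card G := hx ▸ orderOf_dvd_natCard x
  have hS2 : 2 ∣ Nat.card S := S.dvd_card_of_dvd_card h2
  haveI : Nontrivial S := (Finite.one_lt_card_iff_nontrivial).mp
    (lt_of_lt_of_le one_lt_two (Nat.le_of_dvd Nat.card_pos hS2))
  have hcn := S.2.center_nontrivial
  obtain ⟨n, hn0, hn⟩ := (IsPGroup.nontrivial_iff_card
    (S.2.to_subgroup (Subgroup.center S))).mp hcn
  obtain ⟨z, hz⟩ := exists_prime_orderOf_dvd_card' (G := Subgroup.center S) 2
    (by rw [hn]; exact dvd_pow_self 2 hn0.ne')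
  have hzG : orderOf (((z : S) : G)) = 2 := by
    rw [Subgroup.orderOf_coe, Subgroup.orderOf_coe, hz]
  obtain ⟨g, hg⟩ := isConj_iff.mp (hall _ hzG).symm
  refine ⟨g • S, ?_⟩
  intro y hy
  rw [Sylow.coe_subgroup_smul, Subgroup.mem_smul_pointwise_iff_exists] at hy
  obtain ⟨s, hs, rfl⟩ := hy
  rw [Subgroup.mem_centralizer_singleton_iff, MulAut.smul_def, MulAut.conj_apply, ← hg]
  have hcomm : s * ((z : S) : G) = ((z : S) : G) * s := by
    have := Subgroup.mem_center_iff.mp z.2 ⟨s, hs⟩
    exact congrArg Subtype.val this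
  calc g * s * g⁻¹ * (g * ((z : S) : G) * g⁻¹) = g * (s * ((z : S) : G)) * g⁻¹ := by group
    _ = g * (((z : S) : G) * s) * g⁻¹ := by rw [hcomm]
    _ = g * ((z : S) : G) * g⁻¹ * (g * s * g⁻¹) := by group

end Cfsg.Agent.S3279
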