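import Mathlib
import Cfsg.Statements.S3377

set_option autoImplicit false
open Cfsg

namespace Cfsg.Agent.S3377

section
variable {P : Type*} [Group P] {x y : P}

theorem relX (H : Subgroup P) (hx : x ^ 3 = 1) {w0 w1 w2 : P} (e1 : w0 * x * w1⁻¹ ∈ H)
    (e2 : w1 * x * w2⁻¹ ∈ H) : w2 * x * w0⁻¹ ∈ H := by
  have : w2 * x * w0⁻¹ = ((w0 * x * w1⁻¹) * (w1 * x * w2⁻¹))⁻¹ * (w0 * x ^ 3 * w0⁻¹) := by group
  rw [this, hx]
  simpa using inv_mem (mul_mem e1 e2)

theorem relY (H : Subgroup P) (hy : y ^ 5 = 1) {w0 w1 w2 w3 w4 : P} (e1 : w0 * y * w1⁻¹ ∈ H)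
    (e2 : w1 * y * w2⁻¹ ∈ H) (e3 : w2 * y * w3⁻¹ ∈ H) (e4 : w3 * y * w4⁻¹ ∈ H) :
    w4 * y * w0⁻¹ ∈ H := by
  have : w4 * y * w0⁻¹ = ((w0 * y * w1⁻¹) * (w1 * y * w2⁻¹) * (w2 * y * w3⁻¹) * (w3 * y * w4⁻¹))⁻¹
      * (w0 * y ^ 5 * w0⁻¹) := by group
  rw [this, hy]
  simpa using inv_mem (mul_mem (mul_mem (mul_mem e1 e2) e3) e4)

theorem relXY (H : Subgroup P) (hxy : (x * y) ^ 2 = 1) {w0 w1 w2 w3 : P} (e1 : w0 * x * w1⁻¹ ∈ H)
    (e2 : w1 * y * w2⁻¹ ∈ H) (e3 : w2 * x * w3⁻¹ ∈ H) : w3 * y * w0⁻¹ ∈ H := by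
  have : w3 * y * w0⁻¹ = ((w0 * x * w1⁻¹) * (w1 * y * w2⁻¹) * (w2 * x * w3⁻¹))⁻¹
      * (w0 * (x * y) ^ 2 * w0⁻¹) := by
    simp only [pow_two]; group
  rw [this, hxy]
  simpa using inv_mem (mul_mem (mul_mem e1 e2) e3)

theorem relYX (H : Subgroup P) (hxy : (x * y) ^ 2 = 1) {w0 w1 w2 w3 : P} (e1 : w0 * y * w1⁻¹ ∈ H)
    (e2 : w1 * x * w2⁻¹ ∈ H) (e3 : w2 * y * w3⁻¹ ∈ H) : w3 * x * w0⁻¹ ∈ H := by
  have : w3 * x * w0⁻¹ = ((w0 * y * w1⁻¹) * (w1 * x * w2⁻¹) * (w2 * y * w3⁻¹))⁻¹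
      * (w0 * x⁻¹ * (x * y) ^ 2 * x * w0⁻¹) := by
    simp only [pow_two]; group
  rw [this, hxy]
  simpa using inv_mem (mul_mem (mul_mem e1 e2) e3)

theorem exists_table (hx : x ^ 3 = 1) (hy : y ^ 5 = 1) (hxy : (x * y) ^ 2 = 1) :
    ∃ (W : Fin 12 → P) (px py : Fin 12 → Fin 12), W 0 = 1 ∧
      (∀ c, W c * x * (W (px c))⁻¹ ∈ Subgroup.zpowers y) ∧
      (∀ c, W c * y * (W (py c))⁻¹ ∈ Subgroup.zpowers y) := by
  set H := Subgroup.zpowers y with hH
  have f0x : (1) * x * (1 * x)⁻¹ ∈ H := by rw [mul_inv_cancel]; exact one_mem _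
  have f1x : (1 * x) * x * (1 * x * x)⁻¹ ∈ H := by rw [mul_inv_cancel]; exact one_mem _
  have f2y : (1 * x * x) * y * (1 * x * x * y)⁻¹ ∈ H := by rw [mul_inv_cancel]; exact one_mem _
  have f3x : (1 * x * x * y) * x * (1 * x * x * y * x)⁻¹ ∈ H := by rw [mul_inv_cancel]; exact one_mem _
  have f3y : (1 * x * x * y) * y * (1 * x * x * y * y)⁻¹ ∈ H := by rw [mul_inv_cancel]; exact one_mem _
  have f4x : (1 * x * x * y * x) * x * (1 * x * x * y * x * x)⁻¹ ∈ H := by rw [mul_inv_cancel]; exact one_mem _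
  have f5x : (1 * x * x * y * y) * x * (1 * x * x * y * y * x)⁻¹ ∈ H := by rw [mul_inv_cancel]; exact one_mem _
  have f6y : (1 * x * x * y * x * x) * y * (1 * x * x * y * x * x * y)⁻¹ ∈ H := by rw [mul_inv_cancel]; exact one_mem _
  have f8y : (1 * x * x * y * x * x * y) * y * (1 * x * x * y * x * x * y * y)⁻¹ ∈ H := by rw [mul_inv_cancel]; exact one_mem _
  have f9x : (1 * x * x * y * x * x * y * y) * x * (1 * x * x * y * x * x * y * y * x)⁻¹ ∈ H := by rw [mul_inv_cancel]; exact one_mem _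
  have f10x : (1 * x * x * y * x * x * y * y * x) * x * (1 * x * x * y * x * x * y * y * x * x)⁻¹ ∈ H := by rw [mul_inv_cancel]; exact one_mem _
  have f0y : (1) * y * (1)⁻¹ ∈ H := by
    rw [one_mul, inv_one, mul_one]; exact Subgroup.mem_zpowers y
  have f2x : (1 * x * x) * x * (1)⁻¹ ∈ H := relX H hx f0x f1x
  have f6x : (1 * x * x * y * x * x) * x * (1 * x * x * y)⁻¹ ∈ H := relX H hx f3x f4x
  have f11x : (1 * x * x * y * x * x * y * y * x * x) * x * (1 * x * x * y * x * x * y * y)⁻¹ ∈ H := relX H hx f9x f10x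
  have f4y : (1 * x * x * y * x) * y * (1 * x)⁻¹ ∈ H := relXY H hxy f1x f2y f3x
  have f1y : (1 * x) * y * (1 * x * x)⁻¹ ∈ H := relXY H hxy f2x f0y f0x
  have f7y : (1 * x * x * y * y * x) * y * (1 * x * x * y * x * x)⁻¹ ∈ H := relXY H hxy f6x f3y f5x
  have f5y : (1 * x * x * y * y) * y * (1 * x * x * y * x)⁻¹ ∈ H := relY H hy f4y f1y f2y f3y
  have f8x : (1 * x * x * y * x * x * y) * x * (1 * x * x * y * y)⁻¹ ∈ H := relYX H hxy f5y f4x f6y
  have f7x : (1 * x * x * y * y * x) * x * (1 * x * x * y * x * x * y)⁻¹ ∈ H := relX H hx f8x f5x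
  have f10y : (1 * x * x * y * x * x * y * y * x) * y * (1 * x * x * y * y * x)⁻¹ ∈ H := relXY H hxy f7x f8y f9x
  have f9y : (1 * x * x * y * x * x * y * y) * y * (1 * x * x * y * x * x * y * y * x)⁻¹ ∈ H := relY H hy f10y f7y f6y f8y
  have f11y : (1 * x * x * y * x * x * y * y * x * x) * y * (1 * x * x * y * x * x * y * y * x * x)⁻¹ ∈ H := relXY H hxy f11x f9y f10x
  refine ⟨![1, 1 * x, 1 * x * x, 1 * x * x * y, 1 * x * x * y * x, 1 * x * x * y * y, 1 * x * x * y * x * x, 1 * x * x * y * y * x, 1 * x * x * y * x * x * y, 1 * x * x * y * x * x * y * y, 1 * x * x * y * x * x * y * y * x, 1 * x * x * y * x * x * y * y * x * x], ![1, 2, 0, 4, 6, 7, 3, 8, 5, 10, 11, 9], ![0, 2, 3, 5, 1, 4, 8, 6, 9, 10, 7, 11], rfl, ?_, ?_⟩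
  · intro c
    fin_cases c
    · exact f0x
    · exact f1x
    · exact f2x
    · exact f3x
    · exact f4x
    · exact f5x
    · exact f6x
    · exact f7x
    · exact f8x
    · exact f9x
    · exact f10x
    · exact f11x
  · intro c
    fin_cases c
    · exact f0y
    · exact f1y
    · exact f2y
    · exact f3y
    · exact f4y
    · exact f5y
    · exact f6y
    · exact f7y
    · exact f8y
    · exact f9y
    · exact f10y
    · exact f11y

theorem card_le (hx : x ^ 3 = 1) (hy : y ^ 5 = 1) (hxy : (x * y) ^ 2 = 1)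
    (hgen : Subgroup.closure {x, y} = ⊤) : Finite P ∧ Nat.card P ≤ 60 := by
  obtain ⟨W, px, py, hW0, hpx, hpy⟩ := exists_table hx hy hxy
  set H := Subgroup.zpowers y with hH
  have stepx : ∀ g : P, (∃ c, g * (W c)⁻¹ ∈ H) → ∃ c, g * x * (W c)⁻¹ ∈ H := by
    rintro g ⟨c, hc⟩
    refine ⟨px c, ?_⟩
    have : g * x * (W (px c))⁻¹ = (g * (W c)⁻¹) * (W c * x * (W (px c))⁻¹) := by group
    rw [this]
    exact mul_mem hc (hpx c)
  have stepy : ∀ g : P, (∃ c, g * (W c)⁻¹ ∈ H) → ∃ c, g * y * (W c)⁻¹ ∈ H := by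
    rintro g ⟨c, hc⟩
    refine ⟨py c, ?_⟩
    have : g * y * (W (py c))⁻¹ = (g * (W c)⁻¹) * (W c * y * (W (py c))⁻¹) := by group
    rw [this]
    exact mul_mem hc (hpy c)
  have hxi : x⁻¹ = x * x := by
    rw [inv_eq_iff_mul_eq_one, ← hx]; simp only [pow_succ, pow_zero, one_mul, mul_assoc]
  have hyi : y⁻¹ = y * y * y * y := by
    rw [inv_eq_iff_mul_eq_one, ← hy]; simp only [pow_succ, pow_zero, one_mul, mul_assoc]
  have hall : ∀ g : P, ∃ c, g * (W c)⁻¹ ∈ H := by
    intro g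
    have hg : g ∈ Subgroup.closure {x, y} := by rw [hgen]; trivial
    induction hg using Subgroup.closure_induction_right with
    | one => exact ⟨0, by rw [hW0]; simp⟩
    | mul_right a b _ hb ih =>
      rcases hb with rfl | rfl
      · exact stepx _ ih
      · exact stepy _ ih
    | mul_inv_cancel a b _ hb ih =>
      rcases hb with rfl | rfl
      · rw [hxi, ← mul_assoc]
        exact stepx _ (stepx _ ih)
      · rw [hyi]
        simp only [← mul_assoc]
        exact stepy _ (stepy _ (stepy _ (stepy _ ih)))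
  have hyfin : IsOfFinOrder y := isOfFinOrder_iff_pow_eq_one.mpr ⟨5, by norm_num, hy⟩
  have hHfin : Finite H := by
    rw [hH]
    exact Nat.finite_of_card_ne_zero (by rw [Nat.card_zpowers]; exact (orderOf_pos_iff.mpr hyfin).ne')
  have hHcard : Nat.card H ≤ 5 := by
    rw [hH, Nat.card_zpowers]
    exact Nat.le_of_dvd (by norm_num) (orderOf_dvd_of_pow_eq_one hy)
  have hsurj : Function.Surjective (fun p : H × Fin 12 => (p.1 : P) * W p.2) := by
    intro g
    obtain ⟨c, hc⟩ := hall g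
    exact ⟨(⟨_, hc⟩, c), by simp⟩
  have hfin : Finite P := Finite.of_surjective _ hsurj
  refine ⟨hfin, ?_⟩
  calc Nat.card P ≤ Nat.card (H × Fin 12) := Nat.card_le_card_of_surjective _ hsurj
    _ = Nat.card H * 12 := by rw [Nat.card_prod]; simp
    _ ≤ 60 := by omega

end

/-- an element of order three -/
def a : alternatingGroup (Fin 5) := ⟨c[1, 4, 2], Equiv.Perm.mem_alternatingGroup.mpr (by decide)⟩
/-- an element of order five -/
def b : alternatingGroup (Fin 5) := ⟨c[0, 1, 2, 3, 4], Equiv.Perm.mem_alternatingGroup.mpr (by decide)⟩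

theorem a_pow : a ^ 3 = 1 := by decide
set_option maxRecDepth 100000 in
theorem b_pow : b ^ 5 = 1 := by decide
theorem ab_pow : (a * b) ^ 2 = 1 := by decide
theorem a_ne : a ≠ 1 := by decide
theorem b_ne : b ≠ 1 := by decide
theorem ab_ne : a * b ≠ 1 := by decide

theorem eq_top_of_mem (R : Subgroup (alternatingGroup (Fin 5))) (ha : a ∈ R) (hb : b ∈ R) :
    R = ⊤ := by
  have h60 : Nat.card (alternatingGroup (Fin 5)) = 60 := by
    rw [nat_card_alternatingGroup]; simp; decide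
  have : Fact (Nat.Prime 5) := ⟨by norm_num⟩
  have o3 : orderOf a = 3 := orderOf_eq_prime a_pow a_ne
  have o5 : orderOf b = 5 := orderOf_eq_prime b_pow b_ne
  have o2 : orderOf (a * b) = 2 := orderOf_eq_prime ab_pow ab_ne
  have d3 : 3 ∣ Nat.card R := by
    have := orderOf_dvd_natCard (⟨a, ha⟩ : R)
    rwa [Subgroup.orderOf_mk, o3] at this
  have d5 : 5 ∣ Nat.card R := by
    have := orderOf_dvd_natCard (⟨b, hb⟩ : R)
    rwa [Subgroup.orderOf_mk, o5] at this
  have d2 : 2 ∣ Nat.card R := by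
    have := orderOf_dvd_natCard (⟨a * b, mul_mem ha hb⟩ : R)
    rwa [Subgroup.orderOf_mk, o2] at this
  have hidx := R.card_mul_index
  rw [h60] at hidx
  have d30 : 30 ∣ Nat.card R := by omega
  obtain ⟨k, hk⟩ := d30
  rw [hk] at hidx
  have hi : k * R.index = 2 := by nlinarith
  have hi2 : R.index = 1 ∨ R.index = 2 := by
    have : R.index ∣ 2 := ⟨k, by rw [← hi, mul_comm]⟩
    exact (Nat.dvd_prime Nat.prime_two).mp this
  rcases hi2 with h | h
  · exact Subgroup.index_eq_one.mp h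
  · have hn : R.Normal := Subgroup.normal_of_index_eq_two h
    rcases hn.eq_bot_or_eq_top with h' | h'
    · exfalso
      rw [h'] at ha
      exact a_ne (Subgroup.mem_bot.mp ha)
    · exact h'

/-- The alternating group of degree 5 has the presentation ⟨x, y | x³ = 1, y⁵ = 1, (xy)² = 1⟩: the group so presented is isomorphic to Alt(5). -/
theorem result :
    Nonempty (PresentedGroup ({FreeGroup.of (0 : Fin 2) ^ 3, FreeGroup.of (1 : Fin 2) ^ 5,
        (FreeGroup.of (0 : Fin 2) * FreeGroup.of 1) ^ 2} : Set (FreeGroup (Fin 2))) ≃* alternatingGroup (Fin 5)) := by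
  set rels : Set (FreeGroup (Fin 2)) := {FreeGroup.of (0 : Fin 2) ^ 3, FreeGroup.of (1 : Fin 2) ^ 5,
        (FreeGroup.of (0 : Fin 2) * FreeGroup.of 1) ^ 2} with hrels
  let f : Fin 2 → alternatingGroup (Fin 5) := ![a, b]
  have hf : ∀ r ∈ rels, FreeGroup.lift f r = 1 := by
    intro r hr
    rcases hr with rfl | rfl | rfl
    · rw [map_pow, FreeGroup.lift_apply_of]; exact a_pow
    · rw [map_pow, FreeGroup.lift_apply_of]; exact b_pow
    · rw [map_pow, map_mul, FreeGroup.lift_apply_of, FreeGroup.lift_apply_of]; exact ab_pow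
  let φ : PresentedGroup rels →* alternatingGroup (Fin 5) := PresentedGroup.toGroup hf
  let X : PresentedGroup rels := PresentedGroup.of 0
  let Y : PresentedGroup rels := PresentedGroup.of 1
  have hX : X ^ 3 = 1 := by
    have : PresentedGroup.mk rels (FreeGroup.of (0 : Fin 2) ^ 3) = 1 :=
      PresentedGroup.one_of_mem (by simp [hrels])
    rwa [map_pow] at this
  have hY : Y ^ 5 = 1 := by
    have : PresentedGroup.mk rels (FreeGroup.of (1 : Fin 2) ^ 5) = 1 :=
      PresentedGroup.one_of_mem (by simp [hrels])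
    rwa [map_pow] at this
  have hXY : (X * Y) ^ 2 = 1 := by
    have : PresentedGroup.mk rels ((FreeGroup.of (0 : Fin 2) * FreeGroup.of 1) ^ 2) = 1 :=
      PresentedGroup.one_of_mem (by simp [hrels])
    rwa [map_pow, map_mul] at this
  have hgen : Subgroup.closure {X, Y} = ⊤ := by
    rw [← PresentedGroup.closure_range_of rels]
    congr 1
    ext g
    simp only [Set.mem_insert_iff, Set.mem_singleton_iff, Set.mem_range]
    constructor
    · rintro (rfl | rfl)
      · exact ⟨0, rfl⟩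
      · exact ⟨1, rfl⟩
    · rintro ⟨i, rfl⟩
      fin_cases i
      · exact Or.inl rfl
      · exact Or.inr rfl
  obtain ⟨hfin, hcard⟩ := card_le hX hY hXY hgen
  have hsurj : Function.Surjective φ := by
    rw [← MonoidHom.range_eq_top]
    apply eq_top_of_mem
    · exact ⟨X, PresentedGroup.toGroup.of hf⟩
    · exact ⟨Y, PresentedGroup.toGroup.of hf⟩
  have h60 : Nat.card (alternatingGroup (Fin 5)) = 60 := by
    rw [nat_card_alternatingGroup]; simp; decide
  have hbij : Function.Bijective φ :=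
    hsurj.bijective_of_nat_card_le (by rw [h60]; exact hcard)
  exact ⟨MulEquiv.ofBijective φ hbij⟩

end Cfsg.Agent.S3377
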