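import Mathlib
import Cfsg.Agent.S3377
import Cfsg.Agent.S0494
import Cfsg.Agent.S0061
import Cfsg.Agent.S0219
import Cfsg.Agent.Lib.Helper13.SL2
import Cfsg.Agent.Lib.Helper14.SLGen
import Cfsg.Statements.S3378

set_option autoImplicit false
open Cfsg

namespace Cfsg.Agent.S3378

/-- the relators -/
abbrev rels : Set (FreeGroup (Fin 3)) :=
  {FreeGroup.of (0 : Fin 3) ^ 3, FreeGroup.of (1 : Fin 3) ^ 5, FreeGroup.of (2 : Fin 3) ^ 2,
        (FreeGroup.of (2 : Fin 3))⁻¹ * FreeGroup.of 0 * FreeGroup.of 2 * (FreeGroup.of (0 : Fin 3))⁻¹,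
        (FreeGroup.of (2 : Fin 3))⁻¹ * FreeGroup.of 1 * FreeGroup.of 2 * (FreeGroup.of (1 : Fin 3))⁻¹,
        (FreeGroup.of (0 : Fin 3) * FreeGroup.of 1) ^ 2 * (FreeGroup.of (2 : Fin 3))⁻¹}

theorem card_le {Γ : Type*} [Group Γ] {x y z : Γ} (hx : x ^ 3 = 1) (hy : y ^ 5 = 1) (hz : z ^ 2 = 1)
    (hzx : z * x = x * z) (hzy : z * y = y * z) (hxy : (x * y) ^ 2 = z)
    (hgen : Subgroup.closure {x, y, z} = ⊤) : Finite Γ ∧ Nat.card Γ ≤ 120 := by
  have hzc : z ∈ Subgroup.center Γ := by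
    have h1 : Subgroup.closure {x, y, z} ≤ Subgroup.centralizer {z} := by
      rw [Subgroup.closure_le]
      rintro g (rfl | rfl | rfl)
      · exact Subgroup.mem_centralizer_singleton_iff.mpr hzx.symm
      · exact Subgroup.mem_centralizer_singleton_iff.mpr hzy.symm
      · exact Subgroup.mem_centralizer_singleton_iff.mpr rfl
    rw [hgen] at h1
    rw [Subgroup.mem_center_iff]
    intro g
    exact (Subgroup.mem_centralizer_singleton_iff.mp (h1 (Subgroup.mem_top g)))
  have hZn : (Subgroup.zpowers z).Normal := by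
    have hle : Subgroup.zpowers z ≤ Subgroup.center Γ := by
      rw [Subgroup.zpowers_le]
      exact hzc
    refine ⟨fun n hn g => ?_⟩
    have h1 := Subgroup.mem_center_iff.mp (hle hn) g
    rw [h1, mul_inv_cancel_right]
    exact hn
  let π := QuotientGroup.mk' (Subgroup.zpowers z)
  have hπz : π z = 1 := (QuotientGroup.eq_one_iff z).mpr (Subgroup.mem_zpowers z)
  have hgen' : Subgroup.closure {π x, π y} = ⊤ := by
    have h1 : (Subgroup.closure {x, y, z}).map π = ⊤ := by
      rw [hgen, ← MonoidHom.range_eq_map, MonoidHom.range_eq_top]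
      exact QuotientGroup.mk'_surjective _
    rw [MonoidHom.map_closure] at h1
    rw [eq_top_iff, ← h1, Subgroup.closure_le]
    rintro _ ⟨g, (rfl | rfl | rfl), rfl⟩
    · exact Subgroup.subset_closure (by simp)
    · exact Subgroup.subset_closure (by simp)
    · rw [hπz]; exact one_mem _
  obtain ⟨hfin, hcard⟩ := Cfsg.Agent.S3377.card_le (x := π x) (y := π y)
    (by rw [← map_pow, hx, map_one]) (by rw [← map_pow, hy, map_one])
    (by rw [← map_mul, ← map_pow, hxy, hπz]) hgen'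
  have hzfin : IsOfFinOrder z := isOfFinOrder_iff_pow_eq_one.mpr ⟨2, by norm_num, hz⟩
  have hZfin : Finite (Subgroup.zpowers z) :=
    Nat.finite_of_card_ne_zero (by rw [Nat.card_zpowers]; exact (orderOf_pos_iff.mpr hzfin).ne')
  have hZcard : Nat.card (Subgroup.zpowers z) ≤ 2 := by
    rw [Nat.card_zpowers]
    exact Nat.le_of_dvd (by norm_num) (orderOf_dvd_of_pow_eq_one hz)
  have hfinΓ : Finite Γ :=
    Finite.of_equiv _ (Subgroup.groupEquivQuotientProdSubgroup (s := Subgroup.zpowers z)).symm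
  refine ⟨hfinΓ, ?_⟩
  rw [Subgroup.card_eq_card_quotient_mul_card_subgroup (Subgroup.zpowers z)]
  calc Nat.card (Γ ⧸ Subgroup.zpowers z) * Nat.card (Subgroup.zpowers z) ≤ 60 * 2 :=
        Nat.mul_le_mul hcard hZcard
    _ = 120 := by norm_num

theorem iso_of_gens {G : Type*} [Group G] [Finite G] (hG : Nat.card G = 120) {x y z : G}
    (hx : x ^ 3 = 1) (hy : y ^ 5 = 1) (hz : z ^ 2 = 1)
    (hzx : z * x = x * z) (hzy : z * y = y * z) (hxy : (x * y) ^ 2 = z)
    (hgen : Subgroup.closure {x, y, z} = ⊤) : Nonempty (PresentedGroup rels ≃* G) := by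
  let f : Fin 3 → G := ![x, y, z]
  have hf : ∀ r ∈ rels, FreeGroup.lift f r = 1 := by
    intro r hr
    rcases hr with rfl | rfl | rfl | rfl | rfl | rfl
    · rw [map_pow, FreeGroup.lift_apply_of]; exact hx
    · rw [map_pow, FreeGroup.lift_apply_of]; exact hy
    · rw [map_pow, FreeGroup.lift_apply_of]; exact hz
    · simp only [map_mul, map_inv, FreeGroup.lift_apply_of]
      change z⁻¹ * x * z * x⁻¹ = 1
      rw [mul_assoc z⁻¹, ← hzx]; group
    · simp only [map_mul, map_inv, FreeGroup.lift_apply_of]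
      change z⁻¹ * y * z * y⁻¹ = 1
      rw [mul_assoc z⁻¹, ← hzy]; group
    · simp only [map_mul, map_inv, map_pow, FreeGroup.lift_apply_of]
      change (x * y) ^ 2 * z⁻¹ = 1
      rw [hxy, mul_inv_cancel]
  let φ : PresentedGroup rels →* G := PresentedGroup.toGroup hf
  let X : PresentedGroup rels := PresentedGroup.of 0
  let Y : PresentedGroup rels := PresentedGroup.of 1
  let Z : PresentedGroup rels := PresentedGroup.of 2
  have hX : X ^ 3 = 1 := by
    have : PresentedGroup.mk rels (FreeGroup.of (0 : Fin 3) ^ 3) = 1 :=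
      PresentedGroup.one_of_mem (by simp [rels])
    rwa [map_pow] at this
  have hY : Y ^ 5 = 1 := by
    have : PresentedGroup.mk rels (FreeGroup.of (1 : Fin 3) ^ 5) = 1 :=
      PresentedGroup.one_of_mem (by simp [rels])
    rwa [map_pow] at this
  have hZ : Z ^ 2 = 1 := by
    have : PresentedGroup.mk rels (FreeGroup.of (2 : Fin 3) ^ 2) = 1 :=
      PresentedGroup.one_of_mem (by simp [rels])
    rwa [map_pow] at this
  have hZX : Z * X = X * Z := by
    have : PresentedGroup.mk rels ((FreeGroup.of (2 : Fin 3))⁻¹ * FreeGroup.of 0 * FreeGroup.of 2 *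
        (FreeGroup.of (0 : Fin 3))⁻¹) = 1 := PresentedGroup.one_of_mem (by simp [rels])
    simp only [map_mul, map_inv] at this
    change Z⁻¹ * X * Z * X⁻¹ = 1 at this
    calc Z * X = Z * (Z⁻¹ * X * Z * X⁻¹) * X := by rw [this, mul_one]
      _ = X * Z := by group
  have hZY : Z * Y = Y * Z := by
    have : PresentedGroup.mk rels ((FreeGroup.of (2 : Fin 3))⁻¹ * FreeGroup.of 1 * FreeGroup.of 2 *
        (FreeGroup.of (1 : Fin 3))⁻¹) = 1 := PresentedGroup.one_of_mem (by simp [rels])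
    simp only [map_mul, map_inv] at this
    change Z⁻¹ * Y * Z * Y⁻¹ = 1 at this
    calc Z * Y = Z * (Z⁻¹ * Y * Z * Y⁻¹) * Y := by rw [this, mul_one]
      _ = Y * Z := by group
  have hXY : (X * Y) ^ 2 = Z := by
    have : PresentedGroup.mk rels ((FreeGroup.of (0 : Fin 3) * FreeGroup.of 1) ^ 2 *
        (FreeGroup.of (2 : Fin 3))⁻¹) = 1 := PresentedGroup.one_of_mem (by simp [rels])
    simp only [map_mul, map_inv, map_pow] at this
    change (X * Y) ^ 2 * Z⁻¹ = 1 at this
    exact mul_inv_eq_one.mp this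
  have hgenP : Subgroup.closure {X, Y, Z} = ⊤ := by
    rw [← PresentedGroup.closure_range_of rels]
    congr 1
    ext g
    simp only [Set.mem_insert_iff, Set.mem_singleton_iff, Set.mem_range]
    constructor
    · rintro (rfl | rfl | rfl)
      · exact ⟨0, rfl⟩
      · exact ⟨1, rfl⟩
      · exact ⟨2, rfl⟩
    · rintro ⟨i, rfl⟩
      fin_cases i
      · exact Or.inl rfl
      · exact Or.inr (Or.inl rfl)
      · exact Or.inr (Or.inr rfl)
  obtain ⟨hfin, hcard⟩ := card_le hX hY hZ hZX hZY hXY hgenP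
  have hsurj : Function.Surjective φ := by
    rw [← MonoidHom.range_eq_top, eq_top_iff, ← hgen, Subgroup.closure_le]
    rintro g (rfl | rfl | rfl)
    · exact ⟨X, PresentedGroup.toGroup.of hf⟩
    · exact ⟨Y, PresentedGroup.toGroup.of hf⟩
    · exact ⟨Z, PresentedGroup.toGroup.of hf⟩
  have hbij : Function.Bijective φ :=
    hsurj.bijective_of_nat_card_le (by rw [hG]; exact hcard)
  exact ⟨MulEquiv.ofBijective φ hbij⟩



/-! ### `SL(2,5)` -/

abbrev SL25 := Matrix.SpecialLinearGroup (Fin 2) (ZMod 5)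

def mX : SL25 := ⟨!![0, -1; 1, -1], by simp [Matrix.det_fin_two]⟩
def mY : SL25 := ⟨!![1, 1; 0, 1], by simp [Matrix.det_fin_two]⟩
def mZ : SL25 := ⟨!![-1, 0; 0, -1], by simp [Matrix.det_fin_two]⟩

theorem mX_pow : mX ^ 3 = 1 := by decide
theorem mY_pow : mY ^ 5 = 1 := by decide
theorem mZ_pow : mZ ^ 2 = 1 := by decide
theorem mZX : mZ * mX = mX * mZ := by decide
theorem mZY : mZ * mY = mY * mZ := by decide
theorem mXY : (mX * mY) ^ 2 = mZ := by decide

theorem trans01 : ∀ c : ZMod 5, Matrix.SpecialLinearGroup.transvection (by decide : (0 : Fin 2) ≠ 1) c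
    = mY ^ c.val := by decide
theorem trans10 : ∀ c : ZMod 5, Matrix.SpecialLinearGroup.transvection (by decide : (1 : Fin 2) ≠ 0) c
    = (mX * mY) * mY ^ (-c).val * (mX * mY)⁻¹ := by decide

theorem mgen : Subgroup.closure {mX, mY, mZ} = ⊤ := by
  haveI : Fact (Nat.Prime 5) := ⟨by norm_num⟩
  have hX : mX ∈ Subgroup.closure {mX, mY, mZ} := Subgroup.subset_closure (by simp)
  have hY : mY ∈ Subgroup.closure {mX, mY, mZ} := Subgroup.subset_closure (by simp)
  rw [eq_top_iff]
  intro A _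
  refine Cfsg.Agent.Lib.Helper14.SL_transvection_induction
    (fun A => A ∈ Subgroup.closure {mX, mY, mZ}) ?_ (fun _ _ => mul_mem) A
  intro i j h c
  have hij : (i = 0 ∧ j = 1) ∨ (i = 1 ∧ j = 0) := by
    revert h; revert i j; decide
  rcases hij with ⟨rfl, rfl⟩ | ⟨rfl, rfl⟩
  · rw [trans01 c]
    exact pow_mem hY _
  · rw [trans10 c]
    exact mul_mem (mul_mem (mul_mem hX hY) (pow_mem hY _)) (inv_mem (mul_mem hX hY))

theorem card_SL25 : Nat.card SL25 = 120 := by
  haveI : Fact (Nat.Prime 5) := ⟨by norm_num⟩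
  unfold SL25
  rw [Cfsg.Agent.Lib.Helper13.card_SL2, ZMod.card]
  norm_num

theorem pres_iso : Nonempty (PresentedGroup rels ≃* SL25) :=
  iso_of_gens card_SL25 mX_pow mY_pow mZ_pow mZX mZY mXY mgen

/-! ### Solvability of small orders -/

theorem solv_pq {H : Type*} [Group H] [Finite H] (p q m : ℕ) (hp : p.Prime) (hq : q.Prime)
    (h : Nat.card H ∣ p ^ m * q) : Group.IsSolvable H :=
  Cfsg.Agent.S0061.main hp hq _ H rfl ⟨m, h⟩

theorem sylow_card {H : Type*} [Group H] [Finite H] {p : ℕ} [Fact p.Prime] (P : Sylow p H)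
    (k m : ℕ) (h : Nat.card H = p ^ k * m) (hm : ¬ p ∣ m) : Nat.card P = p ^ k := by
  have hp : p.Prime := Fact.out
  have hm0 : m ≠ 0 := by rintro rfl; exact hm (dvd_zero _)
  rw [P.card_eq_multiplicity, h, Nat.factorization_mul (pow_ne_zero _ hp.ne_zero) hm0,
    hp.factorization_pow, Finsupp.add_apply, Finsupp.single_eq_same,
    Nat.factorization_eq_zero_of_not_dvd hm, add_zero]

theorem solv_30 {H : Type*} [Group H] [Finite H] (h : Nat.card H = 30) : Group.IsSolvable H := by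
  haveI : Fact (Nat.Prime 2) := ⟨Nat.prime_two⟩
  let T : Sylow 2 H := default
  have hT : Nat.card T = 2 ^ 1 := sylow_card T 1 15 (by rw [h]; norm_num) (by decide)
  have hcyc : IsCyclic (T : Subgroup H) := isCyclic_of_prime_card (p := 2) (by rw [hT]; rfl)
  obtain ⟨N, hN⟩ := Cfsg.Agent.S0219.result (by rw [h]; decide) T hcyc
  haveI : N.Normal := Subgroup.normal_of_index_eq_two hN
  have h1 := N.card_mul_index
  rw [hN, h] at h1
  rw [Group.isSolvable_iff_subgroup_quotient N]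
  constructor
  · exact solv_pq 3 5 1 (by norm_num) (by norm_num) (by
      have : Nat.card N = 15 := by omega
      rw [this]; norm_num)
  · exact solv_pq 2 2 0 (by norm_num) (by norm_num) (by
      have : Nat.card (H ⧸ N) = 2 := hN
      rw [this]; norm_num)

theorem solv_lt60 {H : Type*} [Group H] [Finite H] (h : Nat.card H ∣ 60) (h' : Nat.card H ≠ 60) :
    Group.IsSolvable H := by
  have hcases : Nat.card H ∣ 12 ∨ Nat.card H ∣ 20 ∨ Nat.card H ∣ 15 ∨ Nat.card H = 30 := by
    have hle := Nat.le_of_dvd (by norm_num) h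
    generalize Nat.card H = n at *
    interval_cases n <;> revert h h' <;> decide
  rcases hcases with h1 | h1 | h1 | h1
  · exact solv_pq 2 3 2 (by norm_num) (by norm_num) h1
  · exact solv_pq 2 5 2 (by norm_num) (by norm_num) h1
  · exact solv_pq 3 5 1 (by norm_num) (by norm_num) h1
  · exact solv_30 h1

theorem simple_of_60 {H : Type*} [Group H] [Finite H] (h : Nat.card H = 60)
    (hns : ¬ Group.IsSolvable H) : IsSimpleGroup H := by
  haveI : Nontrivial H := by
    rw [← Finite.one_lt_card_iff_nontrivial, h]; norm_num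
  refine ⟨fun N hN => ?_⟩
  by_contra hcon
  push Not at hcon
  apply hns
  rw [Group.isSolvable_iff_subgroup_quotient N]
  have h1 := N.card_mul_index
  rw [h] at h1
  constructor
  · refine solv_lt60 ⟨_, h1.symm⟩ ?_
    intro h2
    exact hcon.2 (Subgroup.eq_top_of_card_eq _ (by rw [h2, h]))
  · have h3 : Nat.card (H ⧸ N) = N.index := rfl
    rw [← h3] at h1
    refine solv_lt60 ⟨_, by rw [mul_comm]; exact h1.symm⟩ ?_
    intro h2
    rw [h2] at h1
    exact hcon.1 (Subgroup.eq_bot_of_card_eq _ (by omega))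

theorem quat_unique : ∀ s t : QuaternionGroup 2, s ^ 2 = 1 → s ≠ 1 → t ^ 2 = 1 → t ≠ 1 → s = t := by
  decide

/-- involutions act trivially on the Sylow 5-subgroups -/
theorem invol_fix {G : Type*} [Group G] [Finite G]
    (hQ : ∀ P : Sylow 2 G, Nonempty ((P : Subgroup G) ≃* QuaternionGroup 2))
    (h6 : Nat.card (Sylow 5 G) = 6) (t : G) (ht : t ^ 2 = 1) (P : Sylow 5 G) : t • P = P := by
  haveI : Fact (Nat.Prime 2) := ⟨Nat.prime_two⟩
  by_cases ht1 : t = 1
  · rw [ht1, one_smul]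
  have hpg : IsPGroup 2 (Subgroup.zpowers t) := by
    apply IsPGroup.of_card (n := 1)
    rw [Nat.card_zpowers, orderOf_eq_prime ht ht1, pow_one]
  obtain ⟨Q, hQt⟩ := hpg.exists_le_sylow
  have htQ : t ∈ (Q : Subgroup G) := hQt (Subgroup.mem_zpowers t)
  obtain ⟨e⟩ := hQ Q
  have hQ8 : Nat.card (Q : Subgroup G) = 8 := by
    rw [Nat.card_congr e.toEquiv, Nat.card_eq_fintype_card, QuaternionGroup.card]
  let S : Subgroup (Q : Subgroup G) := MulAction.stabilizer (Q : Subgroup G) P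
  have h1 : S.index = Nat.card (MulAction.orbit (Q : Subgroup G) P) := MulAction.index_stabilizer _ _
  have h2 : Nat.card (MulAction.orbit (Q : Subgroup G) P) ≤ 6 := by
    rw [← h6]
    exact Finite.card_subtype_le _
  have h3 := S.card_mul_index
  rw [hQ8] at h3
  have h4 : 2 ∣ Nat.card S := by
    have h5 : S.index ≤ 6 := h1 ▸ h2
    have h6 : S.index ∣ 8 := ⟨_, by rw [mul_comm]; exact h3.symm⟩
    generalize S.index = i at *
    generalize Nat.card S = c at *
    interval_cases i <;> omega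
  obtain ⟨s, hs⟩ := exists_prime_orderOf_dvd_card' 2 h4
  have hs2 : (s : (Q : Subgroup G)) ^ 2 = 1 := by
    have := pow_orderOf_eq_one s
    rw [hs] at this
    exact_mod_cast congrArg Subtype.val this
  have hs1 : (s : (Q : Subgroup G)) ≠ 1 := by
    intro h
    have : s = 1 := Subtype.ext h
    rw [this, orderOf_one] at hs
    omega
  have heq : e (s : (Q : Subgroup G)) = e ⟨t, htQ⟩ := by
    apply quat_unique
    · rw [← map_pow, hs2, map_one]
    · intro h
      exact hs1 (e.injective (h.trans (map_one e).symm))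
    · rw [← map_pow]
      have : (⟨t, htQ⟩ : (Q : Subgroup G)) ^ 2 = 1 := Subtype.ext ht
      rw [this, map_one]
    · intro h
      exact ht1 (congrArg Subtype.val (e.injective (h.trans (map_one e).symm)))
  have heq' : (s : (Q : Subgroup G)) = ⟨t, htQ⟩ := e.injective heq
  have hfix : (s : (Q : Subgroup G)) • P = P := s.2
  rw [heq'] at hfix
  exact hfix

theorem card_sylow5 {G : Type*} [Group G] [Finite G] (hG : Nat.card G = 120)
    (hns : ¬ Group.IsSolvable G) : Nat.card (Sylow 5 G) = 6 := by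
  haveI : Fact (Nat.Prime 5) := ⟨by norm_num⟩
  let P : Sylow 5 G := default
  have hP : Nat.card P = 5 ^ 1 := sylow_card P 1 24 (by rw [hG]; norm_num) (by decide)
  have h1 := (P : Subgroup G).card_mul_index
  have hP' : Nat.card (P : Subgroup G) = 5 := by rw [hP]; norm_num
  rw [hP', hG] at h1
  have hidx : (P : Subgroup G).index = 24 := by omega
  have h2 : Nat.card (Sylow 5 G) ∣ 24 := hidx ▸ P.card_dvd_index
  have h3 : Nat.card (Sylow 5 G) ≡ 1 [MOD 5] := card_sylow_modEq_one 5 G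
  have h4 : Nat.card (Sylow 5 G) = 1 ∨ Nat.card (Sylow 5 G) = 6 := by
    have hle := Nat.le_of_dvd (by norm_num) h2
    unfold Nat.ModEq at h3
    generalize Nat.card (Sylow 5 G) = n at *
    interval_cases n <;> revert h2 h3 <;> decide
  rcases h4 with h4 | h4
  · exfalso
    apply hns
    haveI : Subsingleton (Sylow 5 G) := (Finite.card_le_one_iff_subsingleton).mp h4.le
    haveI : (P : Subgroup G).Normal := Sylow.normal_of_subsingleton P
    rw [Group.isSolvable_iff_subgroup_quotient (P : Subgroup G)]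
    constructor
    · exact solv_pq 5 5 0 (by norm_num) (by norm_num) (by rw [hP']; norm_num)
    · exact solv_pq 2 3 3 (by norm_num) (by norm_num) (by
        have : Nat.card (G ⧸ (P : Subgroup G)) = 24 := hidx
        rw [this]; norm_num)
  · exact h4

theorem exists_gens {G : Type*} [Group G] [Finite G] (hG : Nat.card G = 120)
    (hns : ¬ Group.IsSolvable G)
    (hQ : ∀ P : Sylow 2 G, Nonempty ((P : Subgroup G) ≃* QuaternionGroup 2)) :
    ∃ x y z : G, x ^ 3 = 1 ∧ y ^ 5 = 1 ∧ z ^ 2 = 1 ∧ z * x = x * z ∧ z * y = y * z ∧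
      (x * y) ^ 2 = z ∧ Subgroup.closure {x, y, z} = ⊤ := by
  haveI : Fact (Nat.Prime 5) := ⟨by norm_num⟩
  haveI : Fact (Nat.Prime 2) := ⟨Nat.prime_two⟩
  have h6 := card_sylow5 hG hns
  let K : Subgroup G := (MulAction.toPermHom G (Sylow 5 G)).ker
  have hKmem : ∀ g : G, g ∈ K ↔ ∀ P : Sylow 5 G, g • P = P := by
    intro g
    rw [MonoidHom.mem_ker, Equiv.Perm.ext_iff]
    rfl
  have hinv : ∀ t : G, t ^ 2 = 1 → t ∈ K := fun t ht =>
    (hKmem t).mpr (fun P => invol_fix hQ h6 t ht P)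
  -- order of `K`
  let P : Sylow 5 G := default
  have hKN : K ≤ Subgroup.normalizer (P : Set G) := by
    intro g hg
    rw [← Sylow.stabilizer_eq_normalizer]
    exact (hKmem g).mp hg P
  have hN20 : Nat.card (Subgroup.normalizer (P : Set G)) = 20 := by
    have h1 := (Subgroup.normalizer (P : Set G)).card_mul_index
    rw [← Sylow.card_eq_index_normalizer, h6, hG] at h1
    omega
  have hK20 : Nat.card K ∣ 20 := hN20 ▸ Subgroup.card_dvd_of_le hKN
  have hKsolv : Group.IsSolvable K := solv_pq 2 5 2 (by norm_num) (by norm_num) hK20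
  have hGK : ¬ Group.IsSolvable (G ⧸ K) := by
    intro h
    exact hns ((Group.isSolvable_iff_subgroup_quotient K).mpr ⟨hKsolv, h⟩)
  obtain ⟨z, hz⟩ := exists_prime_orderOf_dvd_card' (G := G) 2 (by rw [hG]; norm_num)
  have hz2 : z ^ 2 = 1 := by rw [← hz]; exact pow_orderOf_eq_one z
  have hz1 : z ≠ 1 := by
    rintro rfl
    rw [orderOf_one] at hz
    omega
  have hzK : z ∈ K := hinv z hz2
  have hKeven : 2 ∣ Nat.card K := by
    rw [← hz]
    have := orderOf_dvd_natCard (⟨z, hzK⟩ : K)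
    rwa [Subgroup.orderOf_mk] at this
  have hcm := K.card_mul_index
  rw [hG] at hcm
  have hidx : Nat.card (G ⧸ K) = 60 := by
    by_contra hne
    apply hGK
    refine solv_lt60 ?_ hne
    obtain ⟨k, hk⟩ := hKeven
    have h3 : Nat.card (G ⧸ K) = K.index := rfl
    rw [h3]
    rw [hk] at hcm
    exact ⟨k, by nlinarith⟩
  have hK2 : Nat.card K = 2 := by
    have h3 : Nat.card (G ⧸ K) = K.index := rfl
    rw [h3] at hidx
    rw [hidx] at hcm
    omega
  have hKz : ∀ k ∈ K, k = 1 ∨ k = z := by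
    intro k hk
    by_contra hcon
    push Not at hcon
    obtain ⟨w, _, hw⟩ := (Nat.card_eq_two_iff' (1 : K)).mp hK2
    have e1 := hw ⟨k, hk⟩ (fun h => hcon.1 (congrArg Subtype.val h))
    have e2 := hw ⟨z, hzK⟩ (fun h => hz1 (congrArg Subtype.val h))
    exact hcon.2 (congrArg Subtype.val (e1.trans e2.symm))
  have hzc : ∀ g : G, z * g = g * z := by
    intro g
    have hn : g * z * g⁻¹ ∈ K := (inferInstance : K.Normal).conj_mem z hzK g
    rcases hKz _ hn with h | h
    · exfalso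
      apply hz1
      have : z = g⁻¹ * (g * z * g⁻¹) * g := by group
      rw [this, h]; group
    · calc z * g = (g * z * g⁻¹) * g := by rw [h]
        _ = g * z := by group
  haveI := simple_of_60 hidx hGK
  obtain ⟨e⟩ := Cfsg.Agent.S0494.result hidx
  let ψ : G →* alternatingGroup (Fin 5) := e.toMonoidHom.comp (QuotientGroup.mk' K)
  have hψsurj : Function.Surjective ψ := e.surjective.comp (QuotientGroup.mk'_surjective K)
  have hψK : ∀ g : G, ψ g = 1 ↔ g ∈ K := by
    intro g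
    change e (QuotientGroup.mk' K g) = 1 ↔ _
    rw [MulEquiv.map_eq_one_iff]
    exact QuotientGroup.eq_one_iff g
  obtain ⟨x₀, hx₀⟩ := hψsurj Cfsg.Agent.S3377.a
  obtain ⟨y₀, hy₀⟩ := hψsurj Cfsg.Agent.S3377.b
  have hKsq : ∀ k ∈ K, k ^ 2 = 1 := by
    intro k hk
    rcases hKz k hk with rfl | rfl
    · exact one_pow _
    · exact hz2
  have hx₀3 : x₀ ^ 3 ∈ K := by
    rw [← hψK, map_pow, hx₀, Cfsg.Agent.S3377.a_pow]
  have hy₀5 : y₀ ^ 5 ∈ K := by
    rw [← hψK, map_pow, hy₀, Cfsg.Agent.S3377.b_pow]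
  have hx3 : (x₀ ^ 4) ^ 3 = 1 := by
    have := hKsq _ hx₀3
    calc (x₀ ^ 4) ^ 3 = ((x₀ ^ 3) ^ 2) ^ 2 := by simp only [← pow_mul]
      _ = 1 := by rw [this, one_pow]
  have hy5 : (y₀ ^ 6) ^ 5 = 1 := by
    have := hKsq _ hy₀5
    calc (y₀ ^ 6) ^ 5 = ((y₀ ^ 5) ^ 2) ^ 3 := by simp only [← pow_mul]
      _ = 1 := by rw [this, one_pow]
  have hψx : ψ (x₀ ^ 4) = Cfsg.Agent.S3377.a := by
    rw [map_pow, hx₀, pow_succ, Cfsg.Agent.S3377.a_pow, one_mul]
  have hψy : ψ (y₀ ^ 6) = Cfsg.Agent.S3377.b := by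
    rw [map_pow, hy₀, pow_succ, Cfsg.Agent.S3377.b_pow, one_mul]
  have hxy : (x₀ ^ 4 * y₀ ^ 6) ^ 2 = z := by
    have h1 : (x₀ ^ 4 * y₀ ^ 6) ^ 2 ∈ K := by
      rw [← hψK, map_pow, map_mul, hψx, hψy, Cfsg.Agent.S3377.ab_pow]
    rcases hKz _ h1 with h | h
    · exfalso
      have h2 := hinv _ h
      rw [← hψK, map_mul, hψx, hψy] at h2
      exact Cfsg.Agent.S3377.ab_ne h2
    · exact h
  refine ⟨x₀ ^ 4, y₀ ^ 6, z, hx3, hy5, hz2, hzc _, hzc _, hxy, ?_⟩
  set H := Subgroup.closure {x₀ ^ 4, y₀ ^ 6, z} with hH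
  have hmap : H.map ψ = ⊤ := by
    apply Cfsg.Agent.S3377.eq_top_of_mem
    · exact ⟨x₀ ^ 4, Subgroup.subset_closure (by simp), hψx⟩
    · exact ⟨y₀ ^ 6, Subgroup.subset_closure (by simp), hψy⟩
  have hzH : z ∈ H := Subgroup.subset_closure (by simp)
  rw [eq_top_iff]
  intro g _
  have : ψ g ∈ H.map ψ := by rw [hmap]; exact Subgroup.mem_top _
  obtain ⟨h, hh, hhg⟩ := this
  have h1 : g * h⁻¹ ∈ K := by
    rw [← hψK, map_mul, map_inv, hhg, mul_inv_cancel]
  have h2 : g * h⁻¹ ∈ H := by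
    rcases hKz _ h1 with h | h
    · rw [h]; exact one_mem _
    · rw [h]; exact hzH
  have := mul_mem h2 hh
  rwa [inv_mul_cancel_right] at this

/-- Every non-solvable group of order 120 whose Sylow 2-subgroups are quaternion of order 8 is isomorphic to SL(2,5), and SL(2,5) has the presentation ⟨x, y, z | x³ = y⁵ = z² = 1, z⁻¹xz = x, z⁻¹yz = y, (xy)² = z⟩. -/
theorem result :
    (∀ (G : Type*) [Group G] [Finite G], Nat.card G = 120 → ¬ Group.IsSolvable G →
      (∀ P : Sylow 2 G, Nonempty ((P : Subgroup G) ≃* QuaternionGroup 2)) →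
      Nonempty (G ≃* Matrix.SpecialLinearGroup (Fin 2) (ZMod 5))) ∧
    Nonempty (PresentedGroup ({FreeGroup.of (0 : Fin 3) ^ 3, FreeGroup.of (1 : Fin 3) ^ 5, FreeGroup.of (2 : Fin 3) ^ 2,
        (FreeGroup.of (2 : Fin 3))⁻¹ * FreeGroup.of 0 * FreeGroup.of 2 * (FreeGroup.of (0 : Fin 3))⁻¹,
        (FreeGroup.of (2 : Fin 3))⁻¹ * FreeGroup.of 1 * FreeGroup.of 2 * (FreeGroup.of (1 : Fin 3))⁻¹,
        (FreeGroup.of (0 : Fin 3) * FreeGroup.of 1) ^ 2 * (FreeGroup.of (2 : Fin 3))⁻¹} : Set (FreeGroup (Fin 3)))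
      ≃* Matrix.SpecialLinearGroup (Fin 2) (ZMod 5)) := by
  refine ⟨?_, pres_iso⟩
  intro G _ _ hG hns hQ
  obtain ⟨x, y, z, hx, hy, hz, hzx, hzy, hxy, hgen⟩ := exists_gens hG hns hQ
  obtain ⟨e1⟩ := iso_of_gens hG hx hy hz hzx hzy hxy hgen
  obtain ⟨e2⟩ := pres_iso
  exact ⟨e1.symm.trans e2⟩

end Cfsg.Agent.S3378
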