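import Mathlib
import Cfsg.Agent.S3279
import Cfsg.Agent.S3378
import Cfsg.Agent.S0948
import Cfsg.Agent.S0209
import Cfsg.Agent.S0494
import Cfsg.Agent.Lib.Helper24.CharInt
import Cfsg.Agent.Lib.Helper24.DefectZero
import Cfsg.Statements.S3278

set_option autoImplicit false
open Cfsg

namespace Cfsg.Agent.S3278

open Cfsg.Agent.Lib.Helper18 Cfsg.Agent.S3279

variable {G : Type*} [Group G]

/-- arithmetic: the "degree equation" forces `E > 4/9` -/
theorem arith_neg (f c : ℚ) (hf : 3 ≤ f) (hc : 3 ≤ c) :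
    4 / 9 < 1 + 1 / (f + c - 1) - 1 / f - 1 / c := by
  have hf0 : 0 < f := by linarith
  have hc0 : 0 < c := by linarith
  have hs0 : 0 < f + c - 1 := by linarith
  have key : 1 + 1 / (f + c - 1) - 1 / f - 1 / c - 4 / 9 =
      (5 * f * c * (f + c - 1) - 9 * (f + c) * (f + c - 1) + 9 * f * c) /
        (9 * f * c * (f + c - 1)) := by
    field_simp
    ring
  rw [← sub_pos, key]
  apply div_pos _ (by positivity)
  obtain ⟨u, rfl⟩ : ∃ u, f = u + 3 := ⟨f - 3, by ring⟩
  obtain ⟨v, rfl⟩ : ∃ v, c = v + 3 := ⟨c - 3, by ring⟩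
  have hu : 0 ≤ u := by linarith
  have hv : 0 ≤ v := by linarith
  have : 5 * (u + 3) * (v + 3) * (u + 3 + (v + 3) - 1) - 9 * (u + 3 + (v + 3)) * (u + 3 + (v + 3) - 1)
      + 9 * (u + 3) * (v + 3) = 5 * (u * v) * (u + v) + 34 * (u * v) + 6 * (u + v) ^ 2 + 48 * (u + v) + 36 := by
    ring
  rw [this]
  positivity

theorem arith (f₂ f₃ f₄ : ℕ) (ε : ℤ) (hε : ε = 1 ∨ ε = -1) (h2 : 0 < f₂) (h3 : 0 < f₃) (h4 : 0 < f₄)
    (d3 : (4 : ℤ) ∣ (f₃ : ℤ) - ε) (d4 : (4 : ℤ) ∣ (f₄ : ℤ) + 1)
    (hrel : (1 : ℤ) + f₂ + ε * f₃ - f₄ = 0) :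
    (4 / 9 : ℚ) < 1 + 1 / (f₂ : ℚ) + (ε : ℚ) / (f₃ : ℚ) - 1 / (f₄ : ℚ) := by
  have h4' : 3 ≤ f₄ := by omega
  have h4q : (3 : ℚ) ≤ f₄ := by exact_mod_cast h4'
  rcases hε with rfl | rfl
  · have e1 : (0 : ℚ) < 1 / (f₂ : ℚ) := by positivity
    have e2 : (0 : ℚ) < ((1 : ℤ) : ℚ) / (f₃ : ℚ) := by
      have : (0 : ℚ) < f₃ := by exact_mod_cast h3
      simp only [Int.cast_one]
      positivity
    have e3 : 1 / (f₄ : ℚ) ≤ 1 / 3 := one_div_le_one_div_of_le (by norm_num) h4q
    linarith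
  · have h3' : 3 ≤ f₃ := by omega
    have h3q : (3 : ℚ) ≤ f₃ := by exact_mod_cast h3'
    have hf2 : (f₂ : ℚ) = (f₃ : ℚ) + f₄ - 1 := by
      have : (f₂ : ℤ) = (f₃ : ℤ) + f₄ - 1 := by linarith
      exact_mod_cast this
    have := arith_neg f₃ f₄ h3q h4q
    rw [hf2]
    have e : (((-1 : ℤ) : ℚ)) / (f₃ : ℚ) = - (1 / (f₃ : ℚ)) := by
      push_cast; ring
    rw [e]
    linarith

theorem fiber_card_le [Finite G] (t s : G) :
    Nat.card {c : G // c * t * c⁻¹ = s} ≤ Nat.card (Subgroup.centralizer ({t} : Set G)) := by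
  by_cases h : Nonempty {c : G // c * t * c⁻¹ = s}
  · obtain ⟨⟨g, hg⟩⟩ := h
    apply Nat.card_le_card_of_injective (fun c : {c : G // c * t * c⁻¹ = s} =>
      (⟨g⁻¹ * c.1, by
        rw [Subgroup.mem_centralizer_singleton_iff]
        have h1 : c.1 * t * c.1⁻¹ = g * t * g⁻¹ := c.2.trans hg.symm
        calc g⁻¹ * c.1 * t = g⁻¹ * (c.1 * t * c.1⁻¹) * c.1 := by group
          _ = g⁻¹ * (g * t * g⁻¹) * c.1 := by rw [h1]
          _ = t * (g⁻¹ * c.1) := by group⟩ : Subgroup.centralizer ({t} : Set G)))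
    intro c d hcd
    apply Subtype.ext
    have := congrArg Subtype.val hcd
    exact mul_left_cancel this
  · rw [not_nonempty_iff] at h
    rw [Nat.card_of_isEmpty]
    exact Nat.zero_le _

open Cfsg.Agent.Lib.Helper24 Cfsg.Agent.Lib.Helper2 in
theorem key_ineq [Finite G] (P : Sylow 2 G) (hP : IsKleinFour (P : Subgroup G))
    (hone : ∀ s t : G, orderOf s = 2 → orderOf t = 2 → IsConj s t) {x a b : G} (T : Trip x a b) :
    Nat.card G < 18 * Nat.card (Subgroup.centralizer ({x} : Set G)) := by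
  classical
  obtain ⟨M, hM⟩ := exists_isPModular Nat.prime_two
  obtain ⟨ζ₂, ζ₃, ζ₄, ε, hε, -, -, -, -, -, -, hval, -, d3, d4, hrel⟩ :=
    Cfsg.Agent.S0948.result M hM P hP hone
  letI := Fintype.ofFinite G
  obtain ⟨v2, v3, v4⟩ := hval x T.hx
  have hεε : (ε : ℂ) * (ε : ℂ) = 1 := by
    rcases hε with rfl | rfl <;> simp
  -- the class function
  let θ : G → ℂ := fun g => 1 + (ζ₂ : G → ℂ) g + (ε : ℂ) * (ζ₃ : G → ℂ) g - (ζ₄ : G → ℂ) g
  have c2 := charDegree_cast (IsIrrCharacter.isCharacter ζ₂.2)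
  have c3 := charDegree_cast (IsIrrCharacter.isCharacter ζ₃.2)
  have c4 := charDegree_cast (IsIrrCharacter.isCharacter ζ₄.2)
  have p2 := charDegree_pos ζ₂.2
  have p3 := charDegree_pos ζ₃.2
  have p4 := charDegree_pos ζ₄.2
  have hsum1 : ∑ c : G, θ (c * x * c⁻¹ * x) = (Nat.card G : ℂ) *
      (1 + 1 / (charDegree (ζ₂ : G → ℂ) : ℂ) + (ε : ℂ) / (charDegree (ζ₃ : G → ℂ) : ℂ)
        - 1 / (charDegree (ζ₄ : G → ℂ) : ℂ)) := by
    simp only [θ, Finset.sum_add_distrib, Finset.sum_sub_distrib, ← Finset.mul_sum]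
    rw [schur_average ζ₂.2, schur_average ζ₃.2, schur_average ζ₄.2, v2, v3, v4, c2, c3, c4]
    simp only [Finset.sum_const, Finset.card_univ, nsmul_eq_mul, mul_one,
      Nat.card_eq_fintype_card]
    have : (ε : ℂ) * ((Fintype.card G : ℂ) * (ε : ℂ) * (ε : ℂ) / (ζ₃ : G → ℂ) 1) =
        (Fintype.card G : ℂ) * ((ε : ℂ) * ((ε : ℂ) * (ε : ℂ)) / (ζ₃ : G → ℂ) 1) := by ring
    rw [this, hεε]
    ring
  -- pointwise evaluation
  have hpt : ∀ c : G, θ (c * x * c⁻¹ * x) =
      if (c * x * c⁻¹ = a ∨ c * x * c⁻¹ = b) then 4 else 0 := by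
    intro c
    have hs : orderOf (c * x * c⁻¹) = 2 := by rw [orderOf_conj', T.hx]
    generalize c * x * c⁻¹ = s at hs
    by_cases hcomm : s * x = x * s
    · rcases T.mem_of_comm (IsConj.refl x) (Or.inl rfl) hs hcomm with rfl | rfl | rfl
      · rw [if_neg (by
          rintro (h | h)
          · exact T.x_ne_a h
          · exact T.x_ne_b h), sq_eq_one_of_orderOf_two T.hx]
        exact hrel 1 (by rw [orderOf_one]; exact odd_one)
      · rw [if_pos (Or.inl rfl), T.ax]
        obtain ⟨w2, w3, w4⟩ := hval b T.hb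
        simp only [θ]
        rw [w2, w3, w4, hεε]; norm_num
      · rw [if_pos (Or.inr rfl), T.bx]
        obtain ⟨w2, w3, w4⟩ := hval a T.ha
        simp only [θ]
        rw [w2, w3, w4, hεε]; norm_num
    · rw [if_neg (by
        rintro (h | h)
        · exact hcomm (by rw [h, T.ax, T.xa])
        · exact hcomm (by rw [h, T.bx, T.xb]))]
      apply hrel
      by_contra hne
      rw [Nat.not_odd_iff_even] at hne
      obtain ⟨hw, hws, hwx⟩ := Cfsg.Agent.S0209.result s x hs T.hx hne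
      generalize (s * x) ^ (orderOf (s * x) / 2) = w at hw hws hwx
      have hwm := T.mem_of_comm (IsConj.refl x) (Or.inl rfl) hw hwx.eq
      have hsm := T.mem_of_comm (hone _ _ T.hx hw) hwm hs hws.eq.symm
      apply hcomm
      rcases hsm with rfl | rfl | rfl
      · rfl
      · rw [T.ax, T.xa]
      · rw [T.bx, T.xb]
  have hsum2 : ∑ c : G, θ (c * x * c⁻¹ * x) =
      4 * ((Finset.univ.filter (fun c : G => c * x * c⁻¹ = a ∨ c * x * c⁻¹ = b)).card : ℂ) := by
    rw [Finset.sum_congr rfl (fun c _ => hpt c), Finset.sum_ite, Finset.sum_const_zero, add_zero,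
      Finset.sum_const, nsmul_eq_mul, mul_comm]
  have hN : (Finset.univ.filter (fun c : G => c * x * c⁻¹ = a ∨ c * x * c⁻¹ = b)).card ≤
      2 * Nat.card (Subgroup.centralizer ({x} : Set G)) := by
    rw [Finset.filter_or]
    refine (Finset.card_union_le _ _).trans ?_
    have e1 := fiber_card_le x a
    have e2 := fiber_card_le x b
    rw [Nat.card_eq_fintype_card, Fintype.card_subtype] at e1 e2
    omega
  generalize (Finset.univ.filter (fun c : G => c * x * c⁻¹ = a ∨ c * x * c⁻¹ = b)).card = N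
    at hsum2 hN
  have hrel1 := hrel 1 (by rw [orderOf_one]; exact odd_one)
  rw [← c2, ← c3, ← c4] at hrel1
  have hrelZ : (1 : ℤ) + (charDegree (ζ₂ : G → ℂ) : ℤ) + ε * (charDegree (ζ₃ : G → ℂ) : ℤ)
      - (charDegree (ζ₄ : G → ℂ) : ℤ) = 0 := by exact_mod_cast hrel1
  have hE := arith _ _ _ ε hε p2 p3 p4 d3 d4 hrelZ
  have heq : (4 * (N : ℂ)) = (Nat.card G : ℂ) *
      (1 + 1 / (charDegree (ζ₂ : G → ℂ) : ℂ) + (ε : ℂ) / (charDegree (ζ₃ : G → ℂ) : ℂ)
        - 1 / (charDegree (ζ₄ : G → ℂ) : ℂ)) := hsum2.symm.trans hsum1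
  have heqQ : (4 * (N : ℚ)) = (Nat.card G : ℚ) *
      (1 + 1 / (charDegree (ζ₂ : G → ℂ) : ℚ) + (ε : ℚ) / (charDegree (ζ₃ : G → ℂ) : ℚ)
        - 1 / (charDegree (ζ₄ : G → ℂ) : ℚ)) := by
    apply Rat.cast_injective (α := ℂ)
    push_cast
    exact heq
  have hGpos : (0 : ℚ) < (Nat.card G : ℚ) := by exact_mod_cast Nat.card_pos
  have h1 : (Nat.card G : ℚ) * (4 / 9) < 4 * (N : ℚ) := by
    rw [heqQ]
    exact mul_lt_mul_of_pos_left hE hGpos
  have h2 : (Nat.card G : ℚ) < 9 * (N : ℚ) := by linarith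
  have h3 : Nat.card G < 9 * N := by exact_mod_cast h2
  omega

theorem mem_of_two_power [Finite G] {C S₀ : Subgroup G} (hodd : ¬ 2 ∣ S₀.relIndex C)
    (hn : (S₀.subgroupOf C).Normal) {g : G} (hg : g ∈ C) {k : ℕ} (hk : g ^ (2 ^ k) = 1) :
    g ∈ S₀ := by
  let q : C ⧸ S₀.subgroupOf C := QuotientGroup.mk ⟨g, hg⟩
  have h1 : orderOf q ∣ 2 ^ k := by
    apply orderOf_dvd_of_pow_eq_one
    change (QuotientGroup.mk ⟨g, hg⟩ : C ⧸ S₀.subgroupOf C) ^ (2 ^ k) = 1
    rw [← QuotientGroup.mk_pow]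
    have : (⟨g, hg⟩ : C) ^ (2 ^ k) = 1 := Subtype.ext hk
    rw [this]; rfl
  have h2 : orderOf q ∣ Nat.card (C ⧸ S₀.subgroupOf C) := orderOf_dvd_natCard q
  have hc : Nat.Coprime (2 ^ k) (Nat.card (C ⧸ S₀.subgroupOf C)) :=
    Nat.Coprime.pow_left k ((Nat.Prime.coprime_iff_not_dvd Nat.prime_two).mpr hodd)
  have h3 : orderOf q = 1 := Nat.eq_one_of_dvd_coprimes hc h1 h2
  have h4 : q = 1 := orderOf_eq_one_iff.mp h3
  have h5 := (QuotientGroup.eq_one_iff _).mp h4
  exact Subgroup.mem_subgroupOf.mp h5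

theorem mem_normalizer_of_conj_le [Finite G] {H : Subgroup G} {g : G}
    (h : ∀ s ∈ H, g * s * g⁻¹ ∈ H) : g ∈ Subgroup.normalizer (H : Set G) := by
  rw [Subgroup.mem_normalizer_iff]
  intro y
  refine ⟨h y, fun hy => ?_⟩
  let f : H → H := fun s => ⟨g * s * g⁻¹, h s s.2⟩
  have hinj : Function.Injective f := by
    intro s s' hss
    have := congrArg Subtype.val hss
    apply Subtype.ext
    simpa [f] using this
  obtain ⟨s, hs⟩ := Finite.surjective_of_injective hinj ⟨g * y * g⁻¹, hy⟩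
  have := congrArg Subtype.val hs
  have hsy : (s : G) = y := by simpa [f] using this
  rw [← hsy]; exact s.2

/-- Let G be a finite simple group with an involution x such that a Sylow 2-subgroup of C_G(x) is a Klein four-group which is normal in C_G(x). Then G is isomorphic to the alternating group of degree 5 (that is, to PSL(2, 5)). -/
theorem result {G : Type*} [Group G] [Finite G] [IsSimpleGroup G] (x : G) (hx : orderOf x = 2)
    (S₀ : Subgroup G) (hle : S₀ ≤ Subgroup.centralizer ({x} : Set G)) (hK : IsKleinFour ↥S₀)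
    (hodd : ¬ 2 ∣ S₀.relIndex (Subgroup.centralizer ({x} : Set G))) (hn : (S₀.subgroupOf (Subgroup.centralizer ({x} : Set G))).Normal) :
    Nonempty (G ≃* ↥(alternatingGroup (Fin 5))) := by
  haveI : Fact (Nat.Prime 2) := ⟨Nat.prime_two⟩
  have hcard4 : Nat.card S₀ = 4 := hK.card_four
  have hx2 := sq_eq_one_of_orderOf_two hx
  have hinvS : ∀ u, orderOf u = 2 → u * x = x * u → u ∈ S₀ := fun u hu hux =>
    mem_of_two_power hodd hn (Subgroup.mem_centralizer_singleton_iff.mpr hux) (k := 1)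
      (by rw [pow_one, ← hu]; exact pow_orderOf_eq_one u)
  have hxS : x ∈ S₀ := hinvS x hx rfl
  have hS4 : (S₀ : Set G).ncard = 4 := by rw [← Nat.card_coe_set_eq]; exact hcard4
  have hI : (Inv x).ncard ≤ 3 := by
    have hsub : Inv x ⊆ (S₀ : Set G) \ {1} := by
      intro u hu
      exact ⟨hinvS u hu.1 hu.2, fun h => ne_one_of_orderOf_two hu.1 h⟩
    have h1 : ((S₀ : Set G) \ {1}).ncard = 3 := by
      rw [Set.ncard_sdiff_singleton_of_mem (S₀.one_mem), hS4]
    exact h1 ▸ Set.ncard_le_ncard hsub (Set.toFinite _)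
  obtain ⟨a, haS, ha1, hax⟩ : ∃ a ∈ S₀, a ≠ 1 ∧ a ≠ x := by
    by_contra hcon
    push Not at hcon
    have hsub : (S₀ : Set G) ⊆ {1, x} := by
      intro u hu
      by_cases h1 : u = 1
      · exact Or.inl h1
      · exact Or.inr (hcon u hu h1)
    have h1 := Set.ncard_le_ncard hsub (Set.toFinite _)
    rw [hS4, Set.ncard_pair (ne_one_of_orderOf_two hx).symm] at h1
    omega
  have ha2 : a * a = 1 := by
    have h1 := Monoid.pow_exponent_eq_one (⟨a, haS⟩ : S₀)
    rw [hK.exponent_two] at h1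
    have := congrArg Subtype.val h1
    simpa [pow_two] using this
  have ha : orderOf a = 2 := orderOf_two_of_sq ha2 ha1
  have hacomm : a * x = x * a := Subgroup.mem_centralizer_singleton_iff.mp (hle haS)
  have hb : orderOf (x * a) = 2 := by
    apply orderOf_two_of_sq
    · calc x * a * (x * a) = x * (a * x) * a := by group
        _ = x * (x * a) * a := by rw [hacomm]
        _ = (x * x) * (a * a) := by group
        _ = 1 := by rw [hx2, ha2, one_mul]
    · intro h
      apply hax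
      have : a = x⁻¹ := eq_inv_of_mul_eq_one_right h
      rw [this, inv_eq_self_of_orderOf_two hx]
  have T : Trip x a (x * a) := ⟨hx, ha, hb, rfl, hacomm, hI⟩
  have h3 : Nat.card {u : ↥(Subgroup.centralizer ({x} : Set G)) // orderOf u = 2} ≤ 3 := by
    refine le_trans ?_ hI
    rw [← Nat.card_coe_set_eq]
    apply Nat.card_le_card_of_injective
      (fun u : {u : ↥(Subgroup.centralizer ({x} : Set G)) // orderOf u = 2} =>
        (⟨(u.1 : G), ⟨by rw [Subgroup.orderOf_coe]; exact u.2,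
          Subgroup.mem_centralizer_singleton_iff.mp u.1.2⟩⟩ : Inv x))
    intro u v huv
    apply Subtype.ext
    apply Subtype.ext
    exact congrArg (fun y : Inv x => (y : G)) huv
  obtain ⟨⟨S, hSC⟩, hone⟩ := Cfsg.Agent.S3279.result x hx h3
  have hSS₀ : S₀ = (S : Subgroup G) := by
    apply S.is_maximal' (IsPGroup.of_card (n := 2) (by rw [hcard4]; norm_num))
    intro g hg
    obtain ⟨k, hk⟩ := S.2 ⟨g, hg⟩
    exact mem_of_two_power hodd hn (hSC hg) (k := k) (congrArg Subtype.val hk)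
  have hKS : IsKleinFour (S : Subgroup G) := hSS₀ ▸ hK
  have hkey := key_ineq S hKS hone T
  -- an element of the normalizer outside the centralizer
  obtain ⟨g, hg⟩ := isConj_iff.mp (hone x a hx ha)
  have hSmem : ∀ s ∈ S₀, s = 1 ∨ s = x ∨ s = a ∨ s = x * a := by
    intro s hs
    by_cases hs1 : s = 1
    · exact Or.inl hs1
    · right
      have hs2 : s * s = 1 := by
        have h1 := Monoid.pow_exponent_eq_one (⟨s, hs⟩ : S₀)
        rw [hK.exponent_two] at h1
        have := congrArg Subtype.val h1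
        simpa [pow_two] using this
      exact T.mem_of_comm (IsConj.refl x) (Or.inl rfl) (orderOf_two_of_sq hs2 hs1)
        (Subgroup.mem_centralizer_singleton_iff.mp (hle hs))
  have hbS : x * a ∈ S₀ := mul_mem hxS haS
  have hgN : g ∈ Subgroup.normalizer (S₀ : Set G) := by
    apply mem_normalizer_of_conj_le
    intro s hs
    by_cases hs1 : s = 1
    · rw [hs1, mul_one, mul_inv_cancel]; exact one_mem _
    · have hs2 : orderOf s = 2 := by
        rcases hSmem s hs with h | h | h | h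
        · exact absurd h hs1
        · rw [h]; exact hx
        · rw [h]; exact ha
        · rw [h]; exact hb
      have hsx : s * x = x * s := Subgroup.mem_centralizer_singleton_iff.mp (hle hs)
      have h1 : orderOf (g * s * g⁻¹) = 2 := by rw [orderOf_conj', hs2]
      have h2 : g * s * g⁻¹ * a = a * (g * s * g⁻¹) := by
        rw [← hg]
        calc g * s * g⁻¹ * (g * x * g⁻¹) = g * (s * x) * g⁻¹ := by group
          _ = g * (x * s) * g⁻¹ := by rw [hsx]
          _ = g * x * g⁻¹ * (g * s * g⁻¹) := by group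
      rcases T.mem_of_comm (hone x a hx ha) (Or.inr (Or.inl rfl)) h1 h2 with h | h | h
      · rw [h]; exact hxS
      · rw [h]; exact haS
      · rw [h]; exact hbS
  have hgC : g ∉ Subgroup.centralizer ({x} : Set G) := by
    intro h
    have h1 := Subgroup.mem_centralizer_singleton_iff.mp h
    apply hax
    rw [← hg, h1, mul_inv_cancel_right]
  have hCN : Subgroup.centralizer ({x} : Set G) ≤ Subgroup.normalizer (S₀ : Set G) := by
    intro c hc
    apply mem_normalizer_of_conj_le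
    intro s hs
    have := hn.conj_mem ⟨s, hle hs⟩ (Subgroup.mem_subgroupOf.mpr hs) ⟨c, hc⟩
    exact Subgroup.mem_subgroupOf.mp this
  -- indices
  have hidx := Subgroup.relIndex_mul_index hCN
  have hcm := (Subgroup.centralizer ({x} : Set G)).card_mul_index
  have hCidx : (Subgroup.centralizer ({x} : Set G)).index < 18 := by
    have hpos : 0 < Nat.card (Subgroup.centralizer ({x} : Set G)) := Nat.card_pos
    rw [← hcm, mul_comm 18] at hkey
    exact Nat.lt_of_mul_lt_mul_left hkey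
  have hSodd : ¬ 2 ∣ S₀.index := hSS₀ ▸ S.not_dvd_index
  have hr1 : (Subgroup.centralizer ({x} : Set G)).relIndex (Subgroup.normalizer (S₀ : Set G)) ≠ 1 := by
    intro h
    exact hgC (Subgroup.relIndex_eq_one.mp h hgN)
  have hr2 : ¬ 2 ∣ (Subgroup.centralizer ({x} : Set G)).relIndex
      (Subgroup.normalizer (S₀ : Set G)) := by
    intro h
    apply hSodd
    exact (h.trans ⟨_, hidx.symm⟩).trans (Subgroup.index_dvd_of_le hle)
  have hn5 : Nat.card (Sylow 2 G) ≤ 5 := by
    rw [S.card_eq_index_normalizer, ← S.coe_coe, ← hSS₀]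
    generalize (Subgroup.centralizer ({x} : Set G)).relIndex
      (Subgroup.normalizer (S₀ : Set G)) = r at *
    generalize (Subgroup.normalizer (S₀ : Set G)).index = n at *
    have hr3 : 3 ≤ r := by
      rcases r with _ | _ | _ | r
      · exact absurd (dvd_zero 2) hr2
      · exact absurd rfl hr1
      · exact absurd (dvd_refl 2) hr2
      · omega
    by_contra hcon
    push Not at hcon
    have : 18 ≤ r * n := by nlinarith
    omega
  have hxcentral_false : x ∈ Subgroup.center G → False := fun h =>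
    central_false hx h ha hax
  -- the action on the Sylow 2-subgroups
  rcases (MonoidHom.normal_ker (MulAction.toPermHom G (Sylow 2 G))).eq_bot_or_eq_top with hker | hker
  · have hinj : Function.Injective (MulAction.toPermHom G (Sylow 2 G)) :=
      (MonoidHom.ker_eq_bot_iff _).mp hker
    have hdvd := Subgroup.card_dvd_of_injective _ hinj
    rw [Nat.card_perm] at hdvd
    have h120 : Nat.card G ∣ 120 := hdvd.trans (Nat.factorial_dvd_factorial hn5)
    have hc4 := S₀.card_mul_index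
    rw [hcard4] at hc4
    have h60 : Nat.card G ∣ 60 := by
      rw [← hc4] at h120 ⊢
      have h30 : S₀.index ∣ 2 * 15 := by
        have : 4 * S₀.index ∣ 4 * 30 := h120
        exact Nat.dvd_of_mul_dvd_mul_left (by norm_num) this
      have hcop : Nat.Coprime S₀.index 2 :=
        ((Nat.Prime.coprime_iff_not_dvd Nat.prime_two).mpr hSodd).symm
      have h15 : S₀.index ∣ 15 := hcop.dvd_of_dvd_mul_left h30
      exact Nat.mul_dvd_mul_left 4 h15
    by_cases h60' : Nat.card G = 60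
    · exact Cfsg.Agent.S0494.result h60'
    · exfalso
      have hsolv := Cfsg.Agent.S3378.solv_lt60 h60 h60'
      have hcomm := IsSimpleGroup.comm_iff_isSolvable.mpr hsolv
      exact hxcentral_false (Subgroup.mem_center_iff.mpr (fun g => hcomm g x))
  · exfalso
    have hN : Subgroup.normalizer (S₀ : Set G) = ⊤ := by
      rw [eq_top_iff]
      intro g _
      have hg : g ∈ (MulAction.toPermHom G (Sylow 2 G)).ker := by rw [hker]; exact Subgroup.mem_top g
      rw [MonoidHom.mem_ker, Equiv.Perm.ext_iff] at hg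
      have h1 : g • S = S := hg S
      rw [hSS₀, S.coe_coe]
      exact Sylow.smul_eq_iff_mem_normalizer.mp h1
    have hSn : S₀.Normal := Subgroup.normalizer_eq_top_iff.mp hN
    rcases hSn.eq_bot_or_eq_top with h0 | h0
    · rw [h0] at hxS
      exact ne_one_of_orderOf_two hx (Subgroup.mem_bot.mp hxS)
    · apply hxcentral_false
      rw [Subgroup.mem_center_iff]
      intro g
      have : g ∈ S₀ := by rw [h0]; exact Subgroup.mem_top g
      exact Subgroup.mem_centralizer_singleton_iff.mp (hle this)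

end Cfsg.Agent.S3278
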