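import Mathlib
import Cfsg.Statements.S3305

set_option autoImplicit false
open Cfsg

namespace Cfsg.Agent.S3305

/-- Lifting a Sylow subgroup of a quotient to a Sylow subgroup containing a given `p`-subgroup. -/
theorem exists_sylow_lift {G G' : Type*} [Group G] [Finite G] [Group G'] {p : ℕ} [Fact p.Prime]
    {f : G →* G'} (hf : Function.Surjective f) (Q : Subgroup G) (hQ : IsPGroup p Q)
    (P' : Sylow p G') (hQP : Q.map f ≤ P') :
    ∃ P : Sylow p G, Q ≤ P ∧ (P : Subgroup G).map f = P' := by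
  have : Finite G' := Finite.of_surjective f hf
  have hQX : Q ≤ (P' : Subgroup G').comap f := Subgroup.map_le_iff_le_comap.mp hQP
  have hQ' : IsPGroup p (Q.subgroupOf ((P' : Subgroup G').comap f)) :=
    hQ.comap_of_injective _ (Subgroup.subtype_injective _)
  obtain ⟨Q₀, hQ₀⟩ := hQ'.exists_le_sylow
  let R : Subgroup G := (Q₀ : Subgroup _).map ((P' : Subgroup G').comap f).subtype
  have hRP : R.map f ≤ P' := Subgroup.map_le_iff_le_comap.mpr (Subgroup.map_subtype_le Q₀.1)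
  have hpR : IsPGroup p R := Q₀.2.map _
  have hR : ¬ p ∣ R.index := by
    rw [Subgroup.index_map_subtype Q₀.1, P'.index_comap_of_surjective hf]
    exact Nat.Prime.not_dvd_mul Fact.out Q₀.not_dvd_index P'.not_dvd_index
  refine ⟨hpR.toSylow hR, ?_, ?_⟩
  · intro x hx
    exact ⟨⟨x, hQX hx⟩, hQ₀ (by simpa [Subgroup.mem_subgroupOf] using hx), rfl⟩
  · exact (((hpR.map f).toSylow (fun h ↦ hR (h.trans (R.index_map_dvd hf)))).3 P'.2 hRP).symm

/-- Every `p`-subgroup of a quotient is the image of a `p`-subgroup. -/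
theorem exists_pgroup_lift {G G' : Type*} [Group G] [Finite G] [Group G'] {p : ℕ} [Fact p.Prime]
    {f : G →* G'} (hf : Function.Surjective f) (D' : Subgroup G') (hD : IsPGroup p D') :
    ∃ Q : Subgroup G, IsPGroup p Q ∧ Q.map f = D' := by
  have hs : Function.Surjective (f.subgroupComap D') :=
    f.subgroupComap_surjective_of_surjective D' hf
  let Q₀ : Sylow p (D'.comap f) := Sylow.nonempty.some
  refine ⟨(Q₀ : Subgroup _).map (D'.comap f).subtype, Q₀.2.map _, ?_⟩
  have htop : (⊤ : Subgroup D') = (Q₀ : Subgroup _).map (f.subgroupComap D') :=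
    (Q₀.mapSurjective hs).is_maximal' (Q := ⊤)
      (hD.to_subgroup ⊤) le_top
  apply le_antisymm
  · exact Subgroup.map_le_iff_le_comap.mpr (Subgroup.map_subtype_le Q₀.1)
  · intro y hy
    have : (⟨y, hy⟩ : D') ∈ (Q₀ : Subgroup _).map (f.subgroupComap D') := htop ▸ Subgroup.mem_top _
    obtain ⟨x, hx, hxy⟩ := this
    exact ⟨x, ⟨x, hx, rfl⟩, congrArg Subtype.val hxy⟩

theorem result {G : Type*} [Group G] [Finite G]
    (hC : ∀ S T : Sylow 2 G, S ≠ T → IsCyclic ↥((S : Subgroup G) ⊓ (T : Subgroup G))) (H : Subgroup G) [H.Normal] :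
    ∀ S T : Sylow 2 (G ⧸ H), S ≠ T → IsCyclic ↥((S : Subgroup (G ⧸ H)) ⊓ (T : Subgroup (G ⧸ H))) := by
  intro S T hST
  have : Fact (Nat.Prime 2) := ⟨Nat.prime_two⟩
  have hf : Function.Surjective (QuotientGroup.mk' H) := QuotientGroup.mk'_surjective H
  have hD : IsPGroup 2 ↥((S : Subgroup (G ⧸ H)) ⊓ (T : Subgroup (G ⧸ H))) :=
    S.2.to_le inf_le_left
  obtain ⟨Q, hQ, hQD⟩ := exists_pgroup_lift hf _ hD
  obtain ⟨S₁, hQS, hS₁⟩ := exists_sylow_lift hf Q hQ S (hQD ▸ inf_le_left)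
  obtain ⟨T₁, hQT, hT₁⟩ := exists_sylow_lift hf Q hQ T (hQD ▸ inf_le_right)
  have hne : S₁ ≠ T₁ := by
    rintro rfl
    exact hST (Sylow.ext (hS₁.symm.trans hT₁))
  have := hC S₁ T₁ hne
  have : IsCyclic Q := isCyclic_of_injective (Subgroup.inclusion (le_inf hQS hQT))
    (Subgroup.inclusion_injective _)
  rw [← hQD]
  exact isCyclic_of_surjective _ ((QuotientGroup.mk' H).subgroupMap_surjective Q)

end Cfsg.Agent.S3305
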