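import Mathlib
import Cfsg.Agent.Lib.Helper1.Cores
import Cfsg.Agent.Lib.Helper18.TwoGroups
import Cfsg.Agent.S3305
import Cfsg.Statements.S3303

namespace Cfsg.Agent.S3303

open Cfsg.Agent.Lib.Helper18 Cfsg.Agent.Lib.Helper1

/-- Let G be a finite solvable group in which the intersection of any two distinct Sylow 2-subgroups is cyclic. Then G/O(G) has a normal Sylow 2-subgroup, where O(G) is the largest normal subgroup of odd order. -/
theorem result {G : Type*} [Group G] [Finite G] (hs : Group.IsSolvable G)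
    (hC : ∀ S T : Sylow 2 G, S ≠ T → IsCyclic ↥((S : Subgroup G) ⊓ (T : Subgroup G))) :
    ∃ P : Sylow 2 (G ⧸ Cfsg.oddCore G), (P : Subgroup (G ⧸ Cfsg.oddCore G)).Normal := by
  classical
  have : Fact (Nat.Prime 2) := ⟨Nat.prime_two⟩
  have hcore : Cfsg.pPrimeCore 2 (G ⧸ Cfsg.oddCore G) = ⊥ := pPrimeCore_quotient_eq_bot 2
  have hcent := centralizer_pCore_le (G := G ⧸ Cfsg.oddCore G) 2 hcore
  have hCQ := Cfsg.Agent.S3305.result hC (Cfsg.oddCore G)
  obtain ⟨P⟩ : Nonempty (Sylow 2 (G ⧸ Cfsg.oddCore G)) := inferInstance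
  refine ⟨P, ?_⟩
  by_cases hex : ∃ T : Sylow 2 (G ⧸ Cfsg.oddCore G), T ≠ P
  · obtain ⟨T, hT⟩ := hex
    have hn : (Cfsg.pCore 2 (G ⧸ Cfsg.oddCore G)).Normal := Cfsg.Agent.Lib.Helper1.pCore_normal 2
    have hp : IsPGroup 2 (Cfsg.pCore 2 (G ⧸ Cfsg.oddCore G)) := Cfsg.Agent.Lib.Helper1.pCore_isPGroup 2
    have h1 : Cfsg.pCore 2 (G ⧸ Cfsg.oddCore G) ≤ T := hp.le_sylow_of_normal T
    have h2 : Cfsg.pCore 2 (G ⧸ Cfsg.oddCore G) ≤ P := hp.le_sylow_of_normal P
    have hcyc := hCQ T P hT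
    have hcyc' : IsCyclic (Cfsg.pCore 2 (G ⧸ Cfsg.oddCore G)) := by
      have := isCyclic_of_injective (Subgroup.inclusion (le_inf h1 h2))
        (Subgroup.inclusion_injective _)
      exact this
    have hall : IsPGroup 2 (G ⧸ Cfsg.oddCore G) :=
      isPGroup_of_centralizer_le _ hp hcent (isPGroup_mulAut_of_isCyclic hcyc' hp)
    have htop : (⊤ : Subgroup (G ⧸ Cfsg.oddCore G)) = P :=
      P.is_maximal' (hall.to_subgroup ⊤) le_top
    rw [← htop]
    infer_instance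
  · push Not at hex
    have : Subsingleton (Sylow 2 (G ⧸ Cfsg.oddCore G)) :=
      ⟨fun a b => (hex a).trans (hex b).symm⟩
    exact Sylow.normal_of_subsingleton P

end Cfsg.Agent.S3303
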