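import Mathlib
import Cfsg.Statements.S3349

set_option autoImplicit false
open Cfsg

namespace Cfsg.Agent.S3349

/-- A maximal abelian subgroup is self-centralizing. -/
theorem mem_of_centralizes {Q : Type*} [Group Q] (A : Subgroup Q) (hA : IsMulCommutative A)
    (hmax : ∀ B : Subgroup Q, A ≤ B → IsMulCommutative B → B = A)
    (c : Q) (hc : ∀ a ∈ A, c * a = a * c) : c ∈ A := by
  have hB : IsMulCommutative (Subgroup.closure ((A : Set Q) ∪ {c})) := by
    apply Subgroup.isMulCommutative_closure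
    rintro x (hx | hx) y (hy | hy)
    · exact setLike_mul_comm hx hy
    · rw [Set.mem_singleton_iff.mp hy]; exact (hc x hx).symm
    · rw [Set.mem_singleton_iff.mp hx]; exact hc y hy
    · rw [Set.mem_singleton_iff.mp hx, Set.mem_singleton_iff.mp hy]
  have hle : A ≤ Subgroup.closure ((A : Set Q) ∪ {c}) := fun x hx =>
    Subgroup.subset_closure (Or.inl hx)
  rw [← hmax _ hle hB]
  exact Subgroup.subset_closure (Or.inr rfl)

theorem result {Q : Type*} [Group Q] [Finite Q]
    (p : ℕ) [Fact p.Prime] (hQ : Cfsg.IsExtraspecial p Q) (α : MulAut Q)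
    (A : Subgroup Q) (hA : IsMulCommutative A) (hmax : ∀ B : Subgroup Q, A ≤ B → IsMulCommutative B → B = A)
    (hfix : ∀ a ∈ A, α a = a) :
    ∃ k : ℕ, orderOf α = p ^ k := by
  obtain ⟨⟨hp, -, hcomm⟩, -⟩ := hQ
  have hZ : Subgroup.center Q ≤ A := fun z hz =>
    mem_of_centralizes A hA hmax z (fun a _ => (Subgroup.mem_center_iff.mp hz a).symm)
  have hc : ∀ q : Q, q⁻¹ * α q ∈ A := by
    intro q
    apply mem_of_centralizes A hA hmax
    intro a ha
    have h1 : q * a * q⁻¹ * a⁻¹ ∈ commutator Q := by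
      have := Subgroup.commutator_mem_commutator (Subgroup.mem_top q) (Subgroup.mem_top a)
      simpa [commutatorElement_def, commutator_def] using this
    rw [hcomm] at h1
    have h2 := hfix _ (hZ h1)
    simp only [map_mul, map_inv, hfix a ha] at h2
    have h3 : α q * a * (α q)⁻¹ = q * a * q⁻¹ := mul_right_cancel h2
    have h4 : α q * a = q * a * q⁻¹ * α q := by
      rw [← h3]; group
    calc q⁻¹ * α q * a = q⁻¹ * (α q * a) := by group
      _ = q⁻¹ * (q * a * q⁻¹ * α q) := by rw [h4]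
      _ = a * (q⁻¹ * α q) := by group
  have hpow : ∀ (n : ℕ) (q : Q), (α ^ n) q = q * (q⁻¹ * α q) ^ n := by
    intro n q
    induction n with
    | zero => simp
    | succ n ih =>
      rw [pow_succ', MulAut.mul_apply, ih, map_mul, map_pow, hfix _ (hc q), pow_succ',
        ← mul_assoc, mul_inv_cancel_left]
  obtain ⟨m, hm⟩ := IsPGroup.iff_card.mp hp
  have h1 : α ^ (p ^ m) = 1 := by
    ext q
    rw [hpow, ← hm, pow_card_eq_one']
    simp
  obtain ⟨k, -, hk⟩ := (Nat.dvd_prime_pow Fact.out).mp (orderOf_dvd_of_pow_eq_one h1)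
  exact ⟨k, hk⟩

end Cfsg.Agent.S3349
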