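import Cfsg.Statements.S3389
import Cfsg.Agent.Lib.Helper12.Rel
import Cfsg.Agent.Lib.Helper17.SylGraph

set_option autoImplicit false
open Cfsg

namespace Cfsg.Agent.S3389

open Cfsg.Agent.Lib.Helper12 Cfsg.Agent.Lib.Helper17

theorem card_dvd_of_free {Z X : Type*} [Group Z] [Finite Z] [Finite X] [MulAction Z X]
    (hfree : ∀ (z : Z) (x : X), z • x = x → z = 1) : Nat.card Z ∣ Nat.card X := by
  classical
  haveI : Fintype (Quotient (MulAction.orbitRel Z X)) := Fintype.ofFinite _
  have h1 := Nat.card_congr (MulAction.selfEquivSigmaOrbitsQuotientStabilizer Z X)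
  rw [Nat.card_sigma] at h1
  have h2 : ∀ ω : Quotient (MulAction.orbitRel Z X),
      Nat.card (Z ⧸ MulAction.stabilizer Z ω.out) = Nat.card Z := by
    intro ω
    have h3 : MulAction.stabilizer Z ω.out = ⊥ := by
      rw [eq_bot_iff]; intro z hz; exact Subgroup.mem_bot.mpr (hfree z _ hz)
    rw [h3]
    exact Nat.card_congr (QuotientGroup.quotientBot).toEquiv
  rw [h1]
  simp only [h2, Finset.sum_const, smul_eq_mul]
  exact Dvd.intro_left _ rfl

theorem part2 {G : Type*} [Group G] [Finite G] {Ω : Type*} [Fintype Ω] [MulAction G Ω]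
    (htr : MulAction.IsPretransitive G Ω)
    (hfix : ∀ g : G, g ≠ 1 → Nat.card (MulAction.fixedBy Ω g) ≤ 2) (g : G) (hg1 : g ≠ 1)
    (hg : Nat.card (MulAction.fixedBy Ω g) = 2) : 2 ∣ Nat.card G := by
  obtain ⟨a, b, hab, -⟩ := Nat.card_eq_two_iff.mp hg
  obtain ⟨α, hgα⟩ := a
  obtain ⟨β, hgβ⟩ := b
  have hαβ : α ≠ β := fun h => hab (Subtype.ext h)
  have fix2 : ∀ x : G, x ≠ 1 → x • α = α → x • β = β → ∀ γ, x • γ = γ → γ = α ∨ γ = β := by
    intro x hx1 hxα hxβ γ hγ
    by_contra hcon
    push Not at hcon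
    have hsub : ({γ, α, β} : Set Ω) ⊆ MulAction.fixedBy Ω x := by
      intro δ hδ
      rcases hδ with rfl | rfl | rfl
      · exact hγ
      · exact hxα
      · exact hxβ
    have h3 : ({γ, α, β} : Set Ω).ncard = 3 := by
      rw [Set.ncard_insert_of_notMem, Set.ncard_pair hαβ]
      simp [hcon.1, hcon.2]
    have h5 := Set.ncard_le_ncard hsub (Set.toFinite _)
    have h4 := hfix x hx1
    rw [Nat.card_coe_set_eq] at h4
    omega
  obtain ⟨D, hDdef⟩ : ∃ D, D = MulAction.stabilizer G α ⊓ MulAction.stabilizer G β := ⟨_, rfl⟩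
  have hgD : g ∈ D := by rw [hDdef]; exact Subgroup.mem_inf.mpr ⟨hgα, hgβ⟩
  have hD1 : Nat.card D ≠ 1 := by
    intro h
    rw [Subgroup.card_eq_one] at h
    rw [h, Subgroup.mem_bot] at hgD
    exact hg1 hgD
  obtain ⟨p, hp, hpD⟩ := Nat.exists_prime_and_dvd hD1
  haveI : Fact p.Prime := ⟨hp⟩
  obtain ⟨P, hP, _⟩ := exists_isSylIn_ge (p := p) (bot_le : ⊥ ≤ D) (IsPGroup.of_bot)
  have hP1 : P ≠ ⊥ := by
    intro h
    apply hP.2.2
    rw [h, Subgroup.relIndex_bot_left]; exact hpD
  obtain ⟨x, hxP, hx1⟩ := exists_ne_one_of_ne_bot hP1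
  have hPα : ∀ y ∈ P, y • α = α := fun y hy => by
    have := hP.1 hy
    rw [hDdef] at this
    exact (Subgroup.mem_inf.mp this).1
  have hPβ : ∀ y ∈ P, y • β = β := fun y hy => by
    have := hP.1 hy
    rw [hDdef] at this
    exact (Subgroup.mem_inf.mp this).2
  have hN : ∀ n ∈ Subgroup.normalizer (P : Set G),
      (n • α = α ∨ n • α = β) ∧ (n • β = α ∨ n • β = β) := by
    intro n hn
    have hx' : n⁻¹ * x * n ∈ P := by
      have := (Subgroup.mem_normalizer_iff.mp (Subgroup.inv_mem _ hn) x).mp hxP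
      simpa using this
    constructor
    · apply fix2 x hx1 (hPα x hxP) (hPβ x hxP)
      have h1 := hPα _ hx'
      calc x • n • α = n • (n⁻¹ * x * n) • α := by simp only [smul_smul]; congr 1; group
        _ = n • α := by rw [h1]
    · apply fix2 x hx1 (hPα x hxP) (hPβ x hxP)
      have h1 := hPβ _ hx'
      calc x • n • β = n • (n⁻¹ * x * n) • β := by simp only [smul_smul]; congr 1; group
        _ = n • β := by rw [h1]
  have hclaim : ∃ n ∈ Subgroup.normalizer (P : Set G), n • α = β := by
    by_contra hcon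
    push Not at hcon
    have hND : Subgroup.normalizer (P : Set G) ≤ D := by
      intro n hn
      have h1 : n • α = α := (hN n hn).1.resolve_right (hcon n hn)
      have h2 : n • β = β := by
        rcases (hN n hn).2 with h | h
        · exfalso
          exact hαβ (MulAction.injective n (h1.trans h.symm))
        · exact h
      rw [hDdef]
      exact Subgroup.mem_inf.mpr ⟨h1, h2⟩
    obtain ⟨S, hS⟩ := hP.2.1.exists_le_sylow
    have hPS : P = S := by
      apply eq_of_inf_normalizer_le S.2 hS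
      have h1 : (S : Subgroup G) ⊓ Subgroup.normalizer (P : Set G) ≤ D := inf_le_right.trans hND
      have h2 : IsPGroup p ↥((S : Subgroup G) ⊓ Subgroup.normalizer (P : Set G)) :=
        S.2.to_le inf_le_left
      have h3 : P ≤ (S : Subgroup G) ⊓ Subgroup.normalizer (P : Set G) :=
        le_inf hS Subgroup.le_normalizer
      exact (hP.eq_of_le h1 h2 h3).ge
    obtain ⟨h, hh⟩ := MulAction.exists_smul_eq G α β
    have hSyl : IsSylIn p P ⊤ := hPS ▸ isSylIn_top S
    have hB1 : IsSylIn p P (MulAction.stabilizer G β) :=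
      hSyl.of_le (fun y hy => hPβ y hy) le_top
    have hB2 : IsSylIn p (cj h P) (MulAction.stabilizer G β) := by
      apply hB1.of_card_ge _ (isPGroup_cj hP.2.1 h) (by rw [card_cj])
      rintro _ ⟨y, hy, rfl⟩
      rw [MulAction.mem_stabilizer_iff]
      change (h * y * h⁻¹) • β = β
      rw [← hh]
      calc (h * y * h⁻¹) • h • α = h • y • α := by simp only [smul_smul]; congr 1; group
        _ = h • α := by rw [hPα y hy]
    obtain ⟨c, hc, hce⟩ := hB1.exists_conj_eq hB2
    apply hcon (c * h)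
    · rw [mem_normalizer_iff_cj, cj_mul]; exact hce
    · rw [mul_smul, hh]; exact hc
  obtain ⟨n, hn, hnα⟩ := hclaim
  have hnβ : n • β = α := by
    rcases (hN n hn).2 with h | h
    · exact h
    · exfalso
      exact hαβ (MulAction.injective n (hnα.trans h.symm))
  have h2 : 2 ∣ orderOf n := by
    by_contra hodd
    have hsq : ∀ j : ℕ, (n ^ (2 * j)) • α = α := by
      intro j
      induction j with
      | zero => simp
      | succ j ih =>
        have : n ^ (2 * (j + 1)) = n ^ (2 * j) * (n * n) := by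
          rw [← pow_two, ← pow_add]; congr 1
        rw [this, mul_smul, mul_smul, hnα, hnβ, ih]
    obtain ⟨j, hj⟩ : ∃ j, orderOf n = 2 * j + 1 := by
      have := Nat.odd_iff.mpr (Nat.two_dvd_ne_zero.mp hodd)
      exact this
    have h3 : n ^ (2 * j + 1) = 1 := by rw [← hj]; exact pow_orderOf_eq_one n
    have h4 : (n ^ (2 * j + 1)) • α = β := by
      rw [pow_succ', mul_smul, hsq j, hnα]
    rw [h3, one_smul] at h4
    exact hαβ h4
  exact h2.trans (orderOf_dvd_natCard n)

/-- Let G be a finite group acting faithfully and transitively on a finite set Ω with fixity k ≥ 1: every non-identity element fixes at most k points and some non-identity element fixes exactly k points. Then |Z(G)| divides k; if k = 2 then |G| is even; and for every prime p > k dividing |G| and every point α, either p does not divide |G_α| or G_α contains a Sylow p-subgroup of G. -/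
theorem result {G : Type*} [Group G] [Finite G] {Ω : Type*} [Fintype Ω] [MulAction G Ω] [FaithfulSMul G Ω]
    (htr : MulAction.IsPretransitive G Ω) (k : ℕ) (hk : 1 ≤ k)
    (hfix : ∀ g : G, g ≠ 1 → Nat.card (MulAction.fixedBy Ω g) ≤ k) (hex : ∃ g : G, g ≠ 1 ∧ Nat.card (MulAction.fixedBy Ω g) = k) :
    Nat.card (Subgroup.center G) ∣ k ∧ (k = 2 → 2 ∣ Nat.card G) ∧
      ∀ (p : ℕ), p.Prime → k < p → p ∣ Nat.card G → ∀ α : Ω,
        ¬ p ∣ Nat.card (MulAction.stabilizer G α) ∨ ¬ p ∣ (MulAction.stabilizer G α).index := by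
  refine ⟨?_, ?_, ?_⟩
  · obtain ⟨g, hg1, hgk⟩ := hex
    let S : SubMulAction ↥(Subgroup.center G) Ω :=
      { carrier := MulAction.fixedBy Ω g
        smul_mem' := by
          intro z x hx
          have hx' : g • x = x := hx
          show g • (z • x) = z • x
          rw [Subgroup.smul_def, smul_smul, Subgroup.mem_center_iff.mp z.2 g, ← smul_smul, hx'] }
    have hdvd : Nat.card ↥(Subgroup.center G) ∣ Nat.card ↥S := by
      apply card_dvd_of_free
      intro z x hzx
      have h1 : (z : G) • (x : Ω) = x := congrArg Subtype.val hzx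
      have h2 : (z : G) = 1 := by
        apply FaithfulSMul.eq_of_smul_eq_smul (α := Ω)
        intro β
        obtain ⟨h, rfl⟩ := MulAction.exists_smul_eq G (x : Ω) β
        rw [smul_smul, ← Subgroup.mem_center_iff.mp z.2 h, ← smul_smul, h1, one_smul]
      exact Subtype.ext h2
    rw [← hgk]
    exact hdvd
  · rintro rfl
    obtain ⟨g, hg1, hgk⟩ := hex
    exact part2 htr hfix g hg1 hgk
  · intro p hp hkp _ α
    by_contra hcon
    push Not at hcon
    obtain ⟨h1, h2⟩ := hcon
    haveI : Fact p.Prime := ⟨hp⟩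
    obtain ⟨x, hx⟩ := exists_prime_orderOf_dvd_card' p h1
    have hx' : orderOf (x : G) = p := by rw [Subgroup.orderOf_coe]; exact hx
    have hx1 : (x : G) ≠ 1 := by
      intro h
      rw [h, orderOf_one] at hx'
      exact hp.one_lt.ne hx'
    have hpg : IsPGroup p ↥(Subgroup.zpowers (x : G)) :=
      IsPGroup.of_card (n := 1) (by rw [pow_one, Nat.card_zpowers, hx'])
    have hmod := hpg.card_modEq_card_fixedPoints Ω
    rw [MulAction.index_stabilizer_of_transitive] at h2
    have h3 : p ∣ Nat.card (MulAction.fixedPoints ↥(Subgroup.zpowers (x : G)) Ω) :=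
      (Nat.modEq_zero_iff_dvd.mp (hmod.symm.trans (Nat.modEq_zero_iff_dvd.mpr h2)))
    have hα : α ∈ MulAction.fixedPoints ↥(Subgroup.zpowers (x : G)) Ω := by
      rintro ⟨y, hy⟩
      obtain ⟨i, rfl⟩ := Subgroup.mem_zpowers_iff.mp hy
      exact Subgroup.zpow_mem _ x.2 i
    have h4 : 0 < Nat.card (MulAction.fixedPoints ↥(Subgroup.zpowers (x : G)) Ω) := by
      haveI : Nonempty (MulAction.fixedPoints ↥(Subgroup.zpowers (x : G)) Ω) := ⟨⟨α, hα⟩⟩
      exact Nat.card_pos
    have h5 := Nat.le_of_dvd h4 h3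
    have h6 : Nat.card (MulAction.fixedPoints ↥(Subgroup.zpowers (x : G)) Ω)
        ≤ Nat.card (MulAction.fixedBy Ω (x : G)) := by
      apply Nat.card_mono (Set.toFinite _)
      intro γ hγ
      exact hγ ⟨x, Subgroup.mem_zpowers _⟩
    have h7 := hfix x hx1
    omega

end Cfsg.Agent.S3389
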