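import Cfsg.Statements.S3391
import Cfsg.Agent.Lib.Helper19.TorF
import Cfsg.Agent.Lib.Helper19.SuzL

set_option autoImplicit false
open Cfsg

namespace Cfsg.Agent.S3391

open Cfsg.Agent.Lib.Helper19.Suz

/-- Let q = 2^{2m+1} ≥ 8 and let G be isomorphic to the Suzuki group Sz(q). If G acts faithfully and transitively on a finite set Ω with fixity 2 (every non-identity element fixes at most two points, and some fixes exactly two), then either |Ω| = q² + 1 and the action is 2-transitive, or |Ω| = q²(q² + 1) and the point stabilizers have order q − 1. -/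
theorem result {G : Type*} [Group G] [Finite G] (F : Type) [Field F] [Fintype F] (m : ℕ) (hm : 1 ≤ m) (hF : Fintype.card F = 2 ^ (2 * m + 1))
    (e : G ≃* ↥(Cfsg.Lie.Sz F (2 ^ (m + 1)))) {Ω : Type*} [Fintype Ω] [MulAction G Ω] [FaithfulSMul G Ω] (htr : MulAction.IsPretransitive G Ω)
    (hfix : ∀ g : G, g ≠ 1 → Nat.card (MulAction.fixedBy Ω g) ≤ 2) (hex : ∃ g : G, g ≠ 1 ∧ Nat.card (MulAction.fixedBy Ω g) = 2) :
    (Fintype.card Ω = Fintype.card F ^ 2 + 1 ∧ MulAction.IsMultiplyPretransitive G Ω 2) ∨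
    (Fintype.card Ω = Fintype.card F ^ 2 * (Fintype.card F ^ 2 + 1) ∧ ∀ α : Ω, Nat.card (MulAction.stabilizer G α) = Fintype.card F - 1) := by
  classical
  haveI : Hyp F m := ⟨hm, hF⟩
  haveI : CharP F 2 := Hyp.charP (F := F) (m := m)
  let ε : Cfsg.Sz F m ≃* G := (lieEquiv (F := F) m).trans e.symm
  letI : MulAction (Cfsg.Sz F m) Ω := MulAction.compHom Ω ε.toMonoidHom
  have hsm : ∀ (s : Cfsg.Sz F m) (ω : Ω), s • ω = ε s • ω := fun _ _ => rfl
  have htr' : MulAction.IsPretransitive (Cfsg.Sz F m) Ω := ⟨fun a b => by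
    obtain ⟨g, hg⟩ := htr.exists_smul_eq a b
    exact ⟨ε.symm g, by rw [hsm, ε.apply_symm_apply]; exact hg⟩⟩
  have hne : ∀ s : Cfsg.Sz F m, s ≠ 1 → ε s ≠ 1 := by
    intro s hs h0
    exact hs (ε.injective (h0.trans (map_one ε).symm))
  have hF2 : Fix2 (Cfsg.Sz F m) Ω := by
    intro s hs a b c ha hb hc
    have h2 := hfix (ε s) (hne s hs)
    by_contra hcon
    push Not at hcon
    have : 2 < Nat.card (MulAction.fixedBy Ω (ε s)) := by
      rw [Nat.card_eq_fintype_card, Fintype.two_lt_card_iff]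
      exact ⟨⟨a, ha⟩, ⟨b, hb⟩, ⟨c, hc⟩, fun h => hcon.1 (congrArg Subtype.val h),
        fun h => hcon.2.1 (congrArg Subtype.val h), fun h => hcon.2.2 (congrArg Subtype.val h)⟩
    omega
  have hex' : ∃ s : Cfsg.Sz F m, s ≠ 1 ∧ ∃ a b : Ω, a ≠ b ∧ s • a = a ∧ s • b = b := by
    obtain ⟨g, hg1, hg2⟩ := hex
    obtain ⟨x, y, hxy, -⟩ := Nat.card_eq_two_iff.1 hg2
    refine ⟨ε.symm g, ?_, x.1, y.1, fun h => hxy (Subtype.ext h), ?_, ?_⟩
    · intro h0
      apply hg1
      rw [← ε.apply_symm_apply g, h0, map_one]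
    · rw [hsm, ε.apply_symm_apply]; exact x.2
    · rw [hsm, ε.apply_symm_apply]; exact y.2
  rcases fixity_main m htr' hF2 hex' with ⟨h1, h2⟩ | ⟨h1, h2⟩
  · left
    refine ⟨by rw [← Nat.card_eq_fintype_card]; exact h1, ?_⟩
    rw [MulAction.is_two_pretransitive_iff] at h2 ⊢
    intro a b c d hab hcd
    obtain ⟨s, hs⟩ := h2 hab hcd
    exact ⟨ε s, hs⟩
  · right
    refine ⟨by rw [← Nat.card_eq_fintype_card]; exact h1, fun α => ?_⟩
    rw [← h2 α]
    apply Nat.card_congr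
    exact Equiv.subtypeEquiv ε.symm.toEquiv (fun g => by
      rw [MulAction.mem_stabilizer_iff, MulAction.mem_stabilizer_iff, hsm]
      simp)

end Cfsg.Agent.S3391
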