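import Cfsg.Statements.S3488
import Cfsg.Agent.Lib.Helper19.Spec5

set_option autoImplicit false
open Cfsg

namespace Cfsg.Agent.S3488

open Cfsg.Agent.Lib.Helper19

/-- the matrix of an affine map. -/
def embM {F : Type*} [Field F] (x : Aff F 1) : Matrix (Fin 3) (Fin 3) F :=
  !![x.lin 0 0, x.lin 0 1, x.tr 0 0; x.lin 1 0, x.lin 1 1, x.tr 1 0; 0, 0, 1]

theorem embM_det {F : Type*} [Field F] (x : Aff F 1) : (embM x).det = 1 := by
  have h := x.lin.det_coe
  rw [Matrix.det_fin_two] at h
  rw [embM, Matrix.det_fin_three]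
  simp
  exact h

theorem embM_one {F : Type*} [Field F] : embM (1 : Aff F 1) = 1 := by
  ext i j
  fin_cases i <;> fin_cases j <;> simp [embM]

theorem embM_mul {F : Type*} [Field F] (x y : Aff F 1) : embM (x * y) = embM x * embM y := by
  ext i j
  fin_cases i <;> fin_cases j <;>
    simp [embM, Matrix.mul_apply, Fin.sum_univ_three, Fin.sum_univ_two] <;> ring

/-- the embedding of the affine group into `SL(3,F)`. -/
def emb {F : Type*} [Field F] : Aff F 1 →* Matrix.SpecialLinearGroup (Fin 3) F where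
  toFun x := ⟨embM x, embM_det x⟩
  map_one' := Subtype.ext embM_one
  map_mul' x y := Subtype.ext (embM_mul x y)

theorem emb_coe {F : Type*} [Field F] (x : Aff F 1) : (emb x : Matrix (Fin 3) (Fin 3) F) =
    !![x.lin 0 0, x.lin 0 1, x.tr 0 0; x.lin 1 0, x.lin 1 1, x.tr 1 0; 0, 0, 1] := rfl

theorem emb_injective {F : Type*} [Field F] : Function.Injective (emb (F := F)) := by
  intro x y h
  have h' : ∀ i j, (emb x : Matrix (Fin 3) (Fin 3) F) i j = (emb y : Matrix (Fin 3) (Fin 3) F) i j := by
    intro i j; rw [h]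
  apply Aff.ext
  · ext i j
    fin_cases i <;> fin_cases j
    · simpa [emb_coe] using h' 0 0
    · simpa [emb_coe] using h' 0 1
    · simpa [emb_coe] using h' 1 0
    · simpa [emb_coe] using h' 1 1
  · ext i j
    fin_cases i <;> fin_cases j
    · simpa [emb_coe] using h' 0 2
    · simpa [emb_coe] using h' 1 2

theorem range_emb {F : Type*} [Field F] :
    {M : Matrix.SpecialLinearGroup (Fin 3) F |
        (M : Matrix (Fin 3) (Fin 3) F) 2 0 = 0 ∧ (M : Matrix (Fin 3) (Fin 3) F) 2 1 = 0 ∧
        (M : Matrix (Fin 3) (Fin 3) F) 2 2 = 1} = ((emb (F := F)).range : Set _) := by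
  ext M
  constructor
  · rintro ⟨h0, h1, h2⟩
    have hdet := M.det_coe
    rw [Matrix.det_fin_three, h0, h1, h2] at hdet
    refine ⟨⟨⟨!![M 0 0, M 0 1; M 1 0, M 1 1], ?_⟩, Matrix.of ![![M 0 2], ![M 1 2]]⟩, ?_⟩
    · rw [Matrix.det_fin_two]
      simp
      linear_combination hdet
    · apply Subtype.ext
      ext i j
      fin_cases i <;> fin_cases j <;> simp [emb_coe, h0, h1, h2]
  · rintro ⟨x, rfl⟩
    simp [emb_coe]

/-- Let F be the field with four elements. The affine group F² ⋊ SL(2,F), realised as the subgroup of SL(3,F) of matrices with last row (0, 0, 1), has exactly the same set of element orders as the alternating group of degree 6 (namely {1, 2, 3, 4, 5}); so the alternating group of degree 6 is not determined by its element orders. -/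
theorem result {F : Type*} [Field F] [Fintype F] (hF : Fintype.card F = 4) :
    Set.range (orderOf : Subgroup.closure {M : Matrix.SpecialLinearGroup (Fin 3) F |
        (M : Matrix (Fin 3) (Fin 3) F) 2 0 = 0 ∧ (M : Matrix (Fin 3) (Fin 3) F) 2 1 = 0 ∧ (M : Matrix (Fin 3) (Fin 3) F) 2 2 = 1} → ℕ) =
      Set.range (orderOf : alternatingGroup (Fin 6) → ℕ) := by
  have h4 : (4 : F) = 0 := by
    have := Nat.cast_card_eq_zero F
    rw [hF] at this
    exact_mod_cast this
  have h2 : (2 : F) = 0 := by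
    have : (2 : F) ^ 2 = 0 := by linear_combination h4
    exact pow_eq_zero_iff (two_ne_zero) |>.mp this
  haveI : CharP F 2 := CharTwo.of_one_ne_zero_of_two_eq_zero one_ne_zero h2
  have hF' : Nat.card F = 4 := by rw [Nat.card_eq_fintype_card, hF]
  rw [range_emb, Subgroup.closure_eq, spectrum_A6, ← spectrum_aff_F4 hF' 0]
  have key : ∀ (x : Aff F 1) (hx : emb x ∈ (emb (F := F)).range),
      orderOf (⟨emb x, hx⟩ : (emb (F := F)).range) = orderOf x := by
    intro x hx
    rw [Subgroup.orderOf_mk, orderOf_injective _ emb_injective]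
  ext n
  constructor
  · rintro ⟨⟨y, hy⟩, rfl⟩
    obtain ⟨x, rfl⟩ := MonoidHom.mem_range.mp hy
    exact ⟨x, (key x hy).symm⟩
  · rintro ⟨x, rfl⟩
    exact ⟨⟨emb x, MonoidHom.mem_range.mpr ⟨x, rfl⟩⟩, key x _⟩

end Cfsg.Agent.S3488
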