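import Cfsg.Statements.S3498
import Cfsg.Agent.Lib.Helper17.SylGraph
import Cfsg.Agent.Lib.Helper4.Basic

set_option autoImplicit false
open Cfsg

namespace Cfsg.Agent.S3498

open Cfsg.Agent.Lib.Helper17 Cfsg.Agent.Lib.Helper4

theorem not_pgroup {G : Type*} [Group G] [Finite G] (T : Subgroup G) (hT : IsSimpleGroup T)
    (hTc : ¬ IsMulCommutative T) (q : ℕ) [Fact q.Prime] : ¬ IsPGroup q ↥T := by
  intro h
  haveI : Group.IsNilpotent ↥T := h.isNilpotent
  have hs : Group.IsSolvable ↥T := inferInstance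
  have hc := IsSimpleGroup.comm_iff_isSolvable.mpr hs
  exact hTc ⟨⟨hc⟩⟩

theorem normal_cases {G : Type*} [Group G] (T : Subgroup G) (hT : IsSimpleGroup T)
    (K : Subgroup G) [K.Normal] : K ⊓ T = ⊥ ∨ T ≤ K := by
  rcases hT.eq_bot_or_eq_top_of_normal (K.subgroupOf T) inferInstance with h | h
  · left
    rw [Subgroup.subgroupOf_eq_bot] at h
    exact h.eq_bot
  · right
    rwa [Subgroup.subgroupOf_eq_top] at h

/-- A maximal subgroup of a finite almost simple group does not have prime order. Here G is almost simple in the sense that it has a non-abelian simple normal subgroup T with trivial centralizer. -/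
theorem result {G : Type*} [Group G] [Finite G] (T : Subgroup G) [T.Normal] (hT : IsSimpleGroup T) (hTc : ¬ IsMulCommutative T)
    (hC : Subgroup.centralizer (T : Set G) = ⊥) (H : Subgroup G) (hmax : IsCoatom H) : ¬ (Nat.card H).Prime := by
  intro hp
  obtain ⟨p, hpdef⟩ : ∃ p, p = Nat.card H := ⟨_, rfl⟩
  rw [← hpdef] at hp
  haveI : Fact p.Prime := ⟨hp⟩
  have hHp : IsPGroup p ↥H := IsPGroup.of_card (n := 1) (by rw [pow_one, hpdef])
  have hHcomm : ∀ a ∈ H, ∀ b ∈ H, a * b = b * a := by
    haveI : IsCyclic ↥H := isCyclic_of_prime_card hpdef.symm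
    obtain ⟨c, hc⟩ := IsCyclic.exists_generator (α := ↥H)
    intro a ha b hb
    obtain ⟨i, hi⟩ := Subgroup.mem_zpowers_iff.mp (hc ⟨a, ha⟩)
    obtain ⟨j, hj⟩ := Subgroup.mem_zpowers_iff.mp (hc ⟨b, hb⟩)
    have h1 : (⟨a, ha⟩ : ↥H) * ⟨b, hb⟩ = ⟨b, hb⟩ * ⟨a, ha⟩ := by
      rw [← hi, ← hj]; exact zpow_mul_comm c i j
    exact congrArg Subtype.val h1
  have hTH : T ≠ H := by
    intro h
    apply hTc
    rw [Cfsg.Agent.Lib.Helper4.isMulCommutative_iff, h]
    exact hHcomm
  have hHbot : H ≠ ⊥ := by
    intro h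
    rw [h, Subgroup.card_bot] at hpdef
    exact hp.one_lt.ne hpdef.symm
  -- H is a Sylow subgroup
  obtain ⟨P, hP⟩ := hHp.exists_le_sylow
  have hPH : (P : Subgroup G) = H := by
    by_contra hne
    have h1 : (P : Subgroup G) = ⊤ := hmax.2 _ (lt_of_le_of_ne hP (Ne.symm hne))
    apply not_pgroup T hT hTc p
    exact P.2.to_le (by rw [h1]; exact le_top)
  by_cases hHT : H ≤ T
  · -- T = ⊤
    have hTtop : T = ⊤ := hmax.2 _ (lt_of_le_of_ne hHT (Ne.symm hTH))
    have hcases : ∀ K : Subgroup G, K.Normal → K = ⊥ ∨ K = ⊤ := by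
      intro K hK
      rcases normal_cases T hT K with h | h
      · left; rwa [hTtop, inf_top_eq] at h
      · right; rw [hTtop] at h; exact top_le_iff.mp h
    have hN : Subgroup.normalizer ((P : Subgroup G) : Set G) = H := by
      by_contra hne
      have h1 : Subgroup.normalizer ((P : Subgroup G) : Set G) = ⊤ := by
        apply hmax.2 _ (lt_of_le_of_ne _ (Ne.symm hne))
        rw [← hPH]; exact Subgroup.le_normalizer
      have h2 : (P : Subgroup G).Normal := Subgroup.normalizer_eq_top_iff.mp h1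
      rcases hcases _ h2 with h | h
      · exact hHbot (hPH ▸ h)
      · exact hmax.1 (hPH ▸ h)
    have hNC : Subgroup.normalizer ((P : Subgroup G) : Set G)
        ≤ Subgroup.centralizer ((P : Subgroup G) : Set G) := by
      rw [hN]
      intro x hx
      rw [Subgroup.mem_centralizer_iff]
      intro y hy
      have hy' : y ∈ H := by rw [← hPH]; exact hy
      exact hHcomm y hy' x hx
    have hcomp := MonoidHom.ker_transferSylow_isComplement' P hNC
    rcases hcases _ (inferInstance : (MonoidHom.transferSylow P hNC).ker.Normal) with h | h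
    · have h1 := hcomp.sup_eq_top
      rw [h, bot_sup_eq, hPH] at h1
      exact hmax.1 h1
    · have h1 := hcomp.disjoint.eq_bot
      rw [h, top_inf_eq, hPH] at h1
      exact hHbot h1
  · -- H ∩ T = 1, HT = G
    have hsup : H ⊔ T = ⊤ := by
      apply hmax.2
      refine lt_of_le_of_ne le_sup_left ?_
      intro h
      have hTle : T ≤ H := by rw [h]; exact le_sup_right
      apply hTc
      rw [Cfsg.Agent.Lib.Helper4.isMulCommutative_iff]
      intro a ha b hb
      exact hHcomm a (hTle ha) b (hTle hb)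
    have hpT : ¬ p ∣ Nat.card ↥T := by
      intro hd
      obtain ⟨y, hy⟩ := exists_prime_orderOf_dvd_card' p hd
      have hy' : orderOf (y : G) = p := by rw [Subgroup.orderOf_coe]; exact hy
      have hyp : IsPGroup p ↥(Subgroup.zpowers (y : G)) :=
        IsPGroup.of_card (n := 1) (by rw [pow_one, Nat.card_zpowers, hy'])
      obtain ⟨Q, hQ⟩ := hyp.exists_le_sylow
      obtain ⟨g, hg⟩ := MulAction.exists_smul_eq G Q P
      have h1 : g * (y : G) * g⁻¹ ∈ (P : Subgroup G) := by
        rw [← hg, mem_smul_sylow]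
        have : g⁻¹ * (g * (y : G) * g⁻¹) * g = y := by group
        rw [this]; exact hQ (Subgroup.mem_zpowers _)
      have h2 : g * (y : G) * g⁻¹ ∈ T := (inferInstance : T.Normal).conj_mem _ y.2 g
      have h3 : orderOf (g * (y : G) * g⁻¹) = p := by
        rw [← MulAut.conj_apply, (MulAut.conj g).orderOf_eq]; exact hy'
      have h4 : Subgroup.zpowers (g * (y : G) * g⁻¹) = H := by
        apply Subgroup.eq_of_le_of_card_ge
        · rw [Subgroup.zpowers_le, ← hPH]; exact h1
        · rw [Nat.card_zpowers, h3, hpdef]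
      apply hHT
      rw [← h4, Subgroup.zpowers_le]; exact h2
    have hT1 : Nat.card ↥T ≠ 1 := by
      intro h
      apply hTc
      rw [Cfsg.Agent.Lib.Helper4.isMulCommutative_iff, Subgroup.card_eq_one.mp h]
      intro a ha b hb
      rw [Subgroup.mem_bot] at ha hb
      rw [ha, hb]
    obtain ⟨r, hr, hrT⟩ := Nat.exists_prime_and_dvd hT1
    haveI : Fact r.Prime := ⟨hr⟩
    have hrp : r ≠ p := by
      intro h; rw [h] at hrT; exact hpT hrT
    obtain ⟨R⟩ : Nonempty (Sylow r ↥T) := inferInstance
    have hfr := Sylow.normalizer_sup_eq_top R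
    obtain ⟨R', hR'⟩ : ∃ R' : Subgroup G, R' = (R : Subgroup ↥T).map T.subtype := ⟨_, rfl⟩
    rw [← hR'] at hfr
    have hR'T : R' ≤ T := by rw [hR']; exact Subgroup.map_subtype_le _
    have hR'r : IsPGroup r ↥R' := by rw [hR']; exact R.2.map _
    have hR'c : r ∣ Nat.card ↥R' := by
      rw [hR', Subgroup.card_map_of_injective T.subtype_injective]
      rcases R.2.card_eq_or_dvd with h | h
      · exact absurd (Subgroup.card_eq_one.mp h) (R.ne_bot_of_dvd_card hrT)
      · exact h
    -- p divides the order of the normalizer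
    have hTidx : T.index = p := by
      have h1 : T.relIndex (H ⊔ T) = T.relIndex H := Subgroup.relIndex_sup_right H T
      rw [hsup, Subgroup.relIndex_top_right] at h1
      have h2 : T.relIndex H ∣ Nat.card ↥H := Subgroup.relIndex_dvd_card T H
      rw [← h1, ← hpdef] at h2
      rcases (Nat.dvd_prime hp).mp h2 with h | h
      · exfalso
        rw [Subgroup.index_eq_one] at h
        apply hHT; rw [h]; exact le_top
      · exact h
    have hpL : p ∣ Nat.card ↥(Subgroup.normalizer (R' : Set G)) := by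
      have h1 : T.relIndex (Subgroup.normalizer (R' : Set G) ⊔ T)
          = T.relIndex (Subgroup.normalizer (R' : Set G)) := Subgroup.relIndex_sup_right _ T
      rw [hfr, Subgroup.relIndex_top_right, hTidx] at h1
      rw [h1]
      exact Subgroup.relIndex_dvd_card T _
    obtain ⟨x, hx⟩ := exists_prime_orderOf_dvd_card' p hpL
    have hx' : orderOf (x : G) = p := by rw [Subgroup.orderOf_coe]; exact hx
    have hxp : IsPGroup p ↥(Subgroup.zpowers (x : G)) :=
      IsPGroup.of_card (n := 1) (by rw [pow_one, Nat.card_zpowers, hx'])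
    obtain ⟨Q, hQ⟩ := hxp.exists_le_sylow
    obtain ⟨g, hg⟩ := MulAction.exists_smul_eq G Q P
    have h1 : g * (x : G) * g⁻¹ ∈ (P : Subgroup G) := by
      rw [← hg, mem_smul_sylow]
      have : g⁻¹ * (g * (x : G) * g⁻¹) * g = x := by group
      rw [this]; exact hQ (Subgroup.mem_zpowers _)
    have h3 : orderOf (g * (x : G) * g⁻¹) = p := by
      rw [← MulAut.conj_apply, (MulAut.conj g).orderOf_eq]; exact hx'
    have h4 : Subgroup.zpowers (g * (x : G) * g⁻¹) = H := by
      apply Subgroup.eq_of_le_of_card_ge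
      · rw [Subgroup.zpowers_le, ← hPH]; exact h1
      · rw [Nat.card_zpowers, h3, hpdef]
    obtain ⟨R2, hR2⟩ : ∃ R2 : Subgroup G, R2 = R'.map (MulAut.conj g).toMonoidHom := ⟨_, rfl⟩
    have hR2c : Nat.card ↥R2 = Nat.card ↥R' := by
      rw [hR2, Subgroup.card_map_of_injective (MulAut.conj g).injective]
    have hR2r : IsPGroup r ↥R2 := by rw [hR2]; exact hR'r.map _
    have hR2T : R2 ≤ T := by
      rw [hR2]
      rintro _ ⟨y, hy, rfl⟩
      exact (inferInstance : T.Normal).conj_mem _ (hR'T hy) g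
    have h5 : g * (x : G) * g⁻¹ ∈ Subgroup.normalizer (R2 : Set G) := by
      apply mem_normalizer_of_map_conj_le
      rw [hR2]
      rintro _ ⟨_, ⟨y, hy, rfl⟩, rfl⟩
      refine ⟨(x : G) * y * (x : G)⁻¹, ?_, ?_⟩
      · exact (Subgroup.mem_normalizer_iff.mp x.2 y).mp hy
      · simp [mul_assoc]
    have hHN : H ≤ Subgroup.normalizer (R2 : Set G) := by
      rw [← h4, Subgroup.zpowers_le]; exact h5
    have hR2H : ¬ R2 ≤ H := by
      intro h
      have h6 := Subgroup.card_dvd_of_le h
      rw [hR2c, ← hpdef] at h6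
      exact hrp ((Nat.prime_dvd_prime_iff_eq hr hp).mp (hR'c.trans h6))
    have hNtop : Subgroup.normalizer (R2 : Set G) = ⊤ := by
      apply hmax.2
      refine lt_of_le_of_ne hHN ?_
      intro h
      apply hR2H
      rw [h]; exact Subgroup.le_normalizer
    haveI : R2.Normal := Subgroup.normalizer_eq_top_iff.mp hNtop
    rcases normal_cases T hT R2 with h | h
    · rw [inf_of_le_left hR2T] at h
      rw [← hR2c, h, Subgroup.card_bot] at hR'c
      exact hr.one_lt.ne' (Nat.dvd_one.mp hR'c)
    · exact not_pgroup T hT hTc r (hR2r.to_le h)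

end Cfsg.Agent.S3498
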