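import Cfsg.Statements.S3504
import Mathlib

set_option autoImplicit false
open Cfsg

namespace Cfsg.Agent.S3504

theorem lcm_replicate' (q k : ℕ) : (Multiset.replicate (k + 1) q).lcm = q := by
  induction k with
  | zero => simp
  | succ k ih =>
    rw [Multiset.replicate_succ, Multiset.lcm_cons, ih]
    simp

theorem lemA (n : ℕ) (g : Equiv.Perm (Fin n)) (hq : (orderOf g).Prime) (hf : ∀ i : Fin n, g i ≠ i) :
    orderOf g ∣ n ∧ g.cycleType = Multiset.replicate (n / orderOf g) (orderOf g) := by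
  obtain ⟨k, hk⟩ := Equiv.Perm.cycleType_prime_order hq
  have h1 : g.support = Finset.univ := by
    ext i
    simp only [Equiv.Perm.mem_support, Finset.mem_univ, iff_true]
    exact hf i
  have h2 := Equiv.Perm.sum_cycleType g
  rw [hk, h1, Multiset.sum_replicate, Finset.card_univ, Fintype.card_fin, smul_eq_mul] at h2
  refine ⟨⟨k + 1, by rw [mul_comm]; exact h2.symm⟩, ?_⟩
  have h3 : n / orderOf g = k + 1 := Nat.div_eq_of_eq_mul_left hq.pos h2.symm
  rw [hk, h3]

theorem lemB (n q : ℕ) (hn : 0 < n) (hq : q.Prime) (hqn : q ∣ n) :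
    ∃ g : Equiv.Perm (Fin n), orderOf g = q ∧ ∀ i : Fin n, g i ≠ i := by
  obtain ⟨k, hk⟩ : ∃ k, n / q = k + 1 := by
    have : 0 < n / q := Nat.div_pos (Nat.le_of_dvd hn hqn) hq.pos
    exact ⟨n / q - 1, by omega⟩
  have hsum : (Multiset.replicate (n / q) q).sum = n := by
    rw [Multiset.sum_replicate, smul_eq_mul, Nat.div_mul_cancel hqn]
  obtain ⟨g, hg⟩ := (Equiv.Perm.exists_with_cycleType_iff (α := Fin n)
    (m := Multiset.replicate (n / q) q)).mpr ⟨by rw [hsum, Fintype.card_fin], by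
      intro a ha
      rw [Multiset.eq_of_mem_replicate ha]
      exact hq.two_le⟩
  refine ⟨g, ?_, ?_⟩
  · rw [← Equiv.Perm.lcm_cycleType, hg, hk, lcm_replicate']
  · have h2 := Equiv.Perm.sum_cycleType g
    rw [hg, hsum] at h2
    have h3 : g.support = Finset.univ := by
      apply Finset.eq_univ_of_card
      rw [← h2, Fintype.card_fin]
    intro i
    have : i ∈ g.support := by rw [h3]; exact Finset.mem_univ i
    exact Equiv.Perm.mem_support.mp this

/-- For n ≥ 5, the fixed-point-free permutations of prime order in the symmetric group of degree n form a single conjugacy class if and only if n is a prime power. -/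
theorem result (n : ℕ) (hn : 5 ≤ n) :
    Nat.card {c : ConjClasses (Equiv.Perm (Fin n)) // ∃ g : Equiv.Perm (Fin n), ConjClasses.mk g = c ∧ (orderOf g).Prime ∧ ∀ i : Fin n, g i ≠ i} = 1 ↔ IsPrimePow n := by
  constructor
  · intro h
    obtain ⟨hsub, _⟩ := Nat.card_eq_one_iff_unique.mp h
    have hn1 : n ≠ 1 := by omega
    have hp : (n.minFac).Prime := Nat.minFac_prime hn1
    have huniq : ∀ {d : ℕ}, d.Prime → d ∣ n → d = n.minFac := by
      intro d hd hdn
      obtain ⟨g1, ho1, hf1⟩ := lemB n d (by omega) hd hdn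
      obtain ⟨g2, ho2, hf2⟩ := lemB n n.minFac (by omega) hp (Nat.minFac_dvd n)
      have := hsub.elim ⟨ConjClasses.mk g1, g1, rfl, by rw [ho1]; exact hd, hf1⟩
        ⟨ConjClasses.mk g2, g2, rfl, by rw [ho2]; exact hp, hf2⟩
      have h2 : ConjClasses.mk g1 = ConjClasses.mk g2 := congrArg Subtype.val this
      have h3 : IsConj g1 g2 := ConjClasses.mk_eq_mk_iff_isConj.mp h2
      obtain ⟨c, hc⟩ := isConj_iff.mp h3
      rw [← ho1, ← ho2, ← hc]
      exact ((MulAut.conj c).orderOf_eq g1).symm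
    have h4 := Nat.eq_prime_pow_of_unique_prime_dvd (by omega : n ≠ 0) huniq
    refine ⟨n.minFac, n.primeFactorsList.length, hp.prime, ?_, h4.symm⟩
    rcases Nat.eq_zero_or_pos n.primeFactorsList.length with h0 | h0
    · rw [h0, pow_zero] at h4; omega
    · exact h0
  · intro h
    obtain ⟨p, k, hp, hk, rfl⟩ := (isPrimePow_nat_iff _).mp h
    rw [Nat.card_eq_one_iff_unique]
    constructor
    · constructor
      rintro ⟨c1, g1, rfl, hq1, hf1⟩ ⟨c2, g2, rfl, hq2, hf2⟩
      apply Subtype.ext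
      show ConjClasses.mk g1 = ConjClasses.mk g2
      rw [ConjClasses.mk_eq_mk_iff_isConj, Equiv.Perm.isConj_iff_cycleType_eq]
      obtain ⟨hd1, ht1⟩ := lemA _ g1 hq1 hf1
      obtain ⟨hd2, ht2⟩ := lemA _ g2 hq2 hf2
      have e1 : orderOf g1 = p := (Nat.prime_dvd_prime_iff_eq hq1 hp).mp (hq1.dvd_of_dvd_pow hd1)
      have e2 : orderOf g2 = p := (Nat.prime_dvd_prime_iff_eq hq2 hp).mp (hq2.dvd_of_dvd_pow hd2)
      rw [ht1, ht2, e1, e2]
    · obtain ⟨g, ho, hf⟩ := lemB (p ^ k) p (by omega) hp (dvd_pow_self p hk.ne')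
      exact ⟨⟨ConjClasses.mk g, g, rfl, by rw [ho]; exact hp, hf⟩⟩

end Cfsg.Agent.S3504
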