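import Cfsg.Statements.S3508
import Cfsg.Agent.Lib.Helper29.AffOrd
-- import your own Cfsg.Agent.* helpers here

set_option autoImplicit false
open Cfsg

namespace Cfsg.Agent.S3508

theorem smul_pow_fixed {G Ω : Type*} [Group G] [MulAction G Ω] (k : G) (ω : Ω) (h : k • ω = ω) (j : ℕ) :
    (k ^ j) • ω = ω := by
  induction j with
  | zero => simp
  | succ j ih => rw [pow_succ, mul_smul, h, ih]

/-- Let a finite group G act faithfully on a set Ω with p ^ m points (p prime) and have an elementary abelian normal p-subgroup N acting regularly on Ω (so G is a group of affine transformations of an m-dimensional space over the field with p elements). If G contains an element of order p ^ r with r ≥ 1, then p ^ (r − 1) ≤ m. In particular an element of order p ^ m forces m ≤ 2, and m ≤ 1 when p is odd. -/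
theorem result {G : Type*} [Group G] [Finite G] {Ω : Type*} [Fintype Ω] [MulAction G Ω] [FaithfulSMul G Ω] (p m : ℕ) (hp : p.Prime) (hcard : Fintype.card Ω = p ^ m)
    (N : Subgroup G) [N.Normal] (hNc : IsMulCommutative N) (hNp : ∀ n ∈ N, n ^ p = 1)
    (hNtr : MulAction.IsPretransitive N Ω) (hNreg : ∀ ω : Ω, MulAction.stabilizer N ω = ⊥)
    (g : G) (r : ℕ) (hr : 1 ≤ r) (hg : orderOf g = p ^ r) :
    p ^ (r - 1) ≤ m ∧ (r = m → m ≤ 2 ∧ (2 < p → m ≤ 1)) := by
  haveI : Fact p.Prime := ⟨hp⟩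
  obtain ⟨ω⟩ : Nonempty Ω := Fintype.card_pos_iff.mp (hcard ▸ pow_pos hp.pos m)
  have hNc' : ∀ a ∈ N, ∀ b ∈ N, a * b = b * a := fun a ha b hb =>
    congrArg Subtype.val (hNc.is_comm.comm ⟨a, ha⟩ ⟨b, hb⟩)
  have hN : Nat.card N = p ^ m := by
    rw [← hcard, ← Nat.card_eq_fintype_card]
    refine Nat.card_congr (Equiv.ofBijective (fun n : N => n • ω) ⟨?_, ?_⟩)
    · intro a b hab
      have h1 : (b⁻¹ * a) • ω = ω := by
        rw [mul_smul]
        show b⁻¹ • (a • ω) = ω
        have h0 : a • ω = b • ω := hab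
        rw [h0, inv_smul_smul]
      have h2 : b⁻¹ * a ∈ MulAction.stabilizer N ω := h1
      rw [hNreg, Subgroup.mem_bot] at h2
      exact (inv_mul_eq_one.mp h2).symm
    · intro x
      exact MulAction.exists_smul_eq N ω x
  have key : p ^ (r - 1) ≤ m := by
    by_contra hlt
    push Not at hlt
    obtain ⟨n, hn⟩ := MulAction.exists_smul_eq N ω (g • ω)
    have hn' : (n : G) • ω = g • ω := hn
    obtain ⟨k, hk⟩ : ∃ k : G, k = (n : G)⁻¹ * g := ⟨_, rfl⟩
    have hkω : k • ω = ω := by rw [hk, mul_smul, ← hn', inv_smul_smul]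
    have hgk : g = n * k := by rw [hk]; group
    have hcn : (MulAut.conjNormal (n : G) : MulAut N) = 1 := by
      ext x
      rw [MulAut.conjNormal_apply, MulAut.one_apply, hNc' n n.2 x x.2]
      group
    have hck : (MulAut.conjNormal k : MulAut N) = MulAut.conjNormal g := by
      rw [hk, map_mul, map_inv, hcn, inv_one, one_mul]
    have hkr : (MulAut.conjNormal k : MulAut N) ^ p ^ r = 1 := by
      rw [hck, ← map_pow, ← hg, pow_orderOf_eq_one, map_one]
    obtain ⟨h1, h2⟩ := Cfsg.Agent.Lib.Helper29.mul_pow_eq_of_small N hNc' hNp hN k hkr hlt n n.2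
    rw [← hgk] at h1
    have hfix : (g ^ p ^ (r - 1)) • ω = ω := by
      rw [h1]
      exact smul_pow_fixed k ω hkω _
    have h3 : g ^ p ^ (r - 1) = 1 := by
      apply FaithfulSMul.eq_of_smul_eq_smul (α := Ω)
      intro x
      obtain ⟨n', rfl⟩ := MulAction.exists_smul_eq N ω x
      have h4 : ((MulAut.conjNormal (k ^ p ^ (r - 1)) : MulAut N) n' : G) = n' := by
        rw [map_pow, h2]; rfl
      rw [MulAut.conjNormal_apply, ← h1] at h4
      have h5 : g ^ p ^ (r - 1) * (n' : G) = n' * g ^ p ^ (r - 1) := by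
        calc g ^ p ^ (r - 1) * (n' : G) = (g ^ p ^ (r - 1) * n' * (g ^ p ^ (r - 1))⁻¹) * g ^ p ^ (r - 1) := by group
          _ = n' * g ^ p ^ (r - 1) := by rw [h4]
      show g ^ p ^ (r - 1) • ((n' : G) • ω) = (1 : G) • ((n' : G) • ω)
      rw [← mul_smul, h5, mul_smul, hfix, one_smul]
    have h6 := orderOf_dvd_of_pow_eq_one h3
    rw [hg] at h6
    have h7 := (Nat.pow_dvd_pow_iff_le_right hp.one_lt).mp h6
    omega
  refine ⟨key, ?_⟩
  rintro rfl
  constructor
  · by_contra hcon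
    push Not at hcon
    obtain ⟨j, rfl⟩ : ∃ j, r = j + 3 := ⟨r - 3, by omega⟩
    have h1 : 2 ^ (j + 3 - 1) ≤ p ^ (j + 3 - 1) := Nat.pow_le_pow_left hp.two_le _
    have h2 : j < 2 ^ j := Nat.lt_two_pow_self
    have h3 : 2 ^ (j + 3 - 1) = 4 * 2 ^ j := by
      rw [show j + 3 - 1 = j + 2 by omega, pow_add]; ring
    omega
  · intro hp2
    by_contra hcon
    push Not at hcon
    obtain ⟨j, rfl⟩ : ∃ j, r = j + 2 := ⟨r - 2, by omega⟩
    have h1 : 3 ^ (j + 2 - 1) ≤ p ^ (j + 2 - 1) := Nat.pow_le_pow_left hp2 _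
    have h2 : j < 3 ^ j := Nat.lt_pow_self (by norm_num)
    have h3 : 3 ^ (j + 2 - 1) = 3 * 3 ^ j := by
      rw [show j + 2 - 1 = j + 1 by omega, pow_succ]; ring
    omega

end Cfsg.Agent.S3508
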