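import Cfsg.Statements.S3511

set_option autoImplicit false
open Cfsg

namespace Cfsg.Agent.S3511

theorem aux {G : Type*} [Group G] [Finite G] {Ω : Type*} [MulAction G Ω]
    (h : ∀ g : G, Squarefree (orderOf g) → ∃ ω : Ω, MulAction.stabilizer (Subgroup.zpowers g) ω = ⊥) :
    ∀ (n : ℕ) (g : G), orderOf g = n → ∃ ω : Ω, MulAction.stabilizer (Subgroup.zpowers g) ω = ⊥ := by
  intro n
  induction n using Nat.strong_induction_on with
  | _ n ih =>
    intro g hg
    by_cases hsq : Squarefree (orderOf g)
    · exact h g hsq
    · rw [Nat.squarefree_iff_prime_squarefree] at hsq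
      push Not at hsq
      obtain ⟨p, hp, hpp⟩ := hsq
      have hpos : 0 < orderOf g := orderOf_pos g
      have hord : orderOf (g ^ p) = orderOf g / p :=
        orderOf_pow_of_dvd hp.ne_zero (dvd_of_mul_left_dvd hpp)
      obtain ⟨ω, hω⟩ := ih (orderOf g / p) (by rw [← hg]; exact Nat.div_lt_self hpos hp.one_lt)
        (g ^ p) hord
      refine ⟨ω, ?_⟩
      rw [Subgroup.eq_bot_iff_forall]
      rintro ⟨x, hx⟩ hxω
      by_contra hne
      have hx1 : x ≠ 1 := fun h1 => hne (by ext; exact h1)
      have hox : orderOf x ≠ 1 := by rwa [Ne, orderOf_eq_one_iff]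
      obtain ⟨q, hq, hqd⟩ := Nat.exists_prime_and_dvd hox
      have hy : orderOf (x ^ (orderOf x / q)) = q :=
        orderOf_pow_orderOf_div (orderOf_pos x).ne' hqd
      have hxfix : x ∈ MulAction.stabilizer G ω := by
        rw [MulAction.mem_stabilizer_iff] at hxω ⊢
        exact hxω
      have hyfix : x ^ (orderOf x / q) ∈ MulAction.stabilizer G ω := Subgroup.pow_mem _ hxfix _
      obtain ⟨j, hj⟩ := Subgroup.mem_zpowers_iff.mp ((Subgroup.zpowers g).pow_mem hx (orderOf x / q))
      have hdiv : (orderOf g : ℤ) ∣ j * q := by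
        rw [orderOf_dvd_iff_zpow_eq_one, zpow_mul, hj, zpow_natCast]
        have := pow_orderOf_eq_one (x ^ (orderOf x / q))
        rwa [hy] at this
      have hpp' : ((p : ℤ) * p) ∣ j * q := by
        refine dvd_trans ?_ hdiv
        exact_mod_cast hpp
      have hpj : (p : ℤ) ∣ j := by
        by_cases hqp : q = p
        · subst hqp
          exact Int.dvd_of_mul_dvd_mul_right (by exact_mod_cast hq.ne_zero) hpp'
        · have hpi : Prime (p : ℤ) := Nat.prime_iff_prime_int.mp hp
          rcases hpi.dvd_or_dvd (dvd_trans (dvd_mul_right _ _) hpp') with h1 | h1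
          · exact h1
          · exfalso
            have : p ∣ q := by exact_mod_cast h1
            exact hqp ((Nat.prime_dvd_prime_iff_eq hp hq).mp this).symm
      obtain ⟨l, rfl⟩ := hpj
      have hy' : x ^ (orderOf x / q) ∈ Subgroup.zpowers (g ^ p) := by
        refine ⟨l, ?_⟩
        simp only
        rw [← hj, zpow_mul, zpow_natCast]
      have hmem : (⟨x ^ (orderOf x / q), hy'⟩ : Subgroup.zpowers (g ^ p)) ∈
          MulAction.stabilizer (Subgroup.zpowers (g ^ p)) ω := by
        rw [MulAction.mem_stabilizer_iff]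
        exact hyfix
      rw [hω, Subgroup.mem_bot] at hmem
      have h1 : x ^ (orderOf x / q) = 1 := congrArg Subtype.val hmem
      rw [h1, orderOf_one] at hy
      exact hq.one_lt.ne hy

/-- Let a finite group G act faithfully on a set Ω. If every element of G of square-free order has a regular cycle (an orbit of the cyclic group it generates with trivial stabilizer), then every element of G has a regular cycle. -/
theorem result {G : Type*} [Group G] [Finite G] {Ω : Type*} [MulAction G Ω] [FaithfulSMul G Ω]
    (h : ∀ g : G, Squarefree (orderOf g) → ∃ ω : Ω, MulAction.stabilizer (Subgroup.zpowers g) ω = ⊥) (g : G) :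
    ∃ ω : Ω, MulAction.stabilizer (Subgroup.zpowers g) ω = ⊥ := by
  exact aux h _ g rfl

end Cfsg.Agent.S3511
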