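import Cfsg.Statements.S3514
import Cfsg.Agent.Lib.Helper4.Basic

set_option autoImplicit false
open Cfsg

namespace Cfsg.Agent.S3514

open Cfsg.Agent.Lib.Helper4

theorem orbit_card {Γ V : Type*} [Group Γ] [MulAction Γ V] (H : Subgroup Γ) (v : V) :
    Nat.card {u : V | ∃ h ∈ H, h • v = u} = (MulAction.stabilizer Γ v).relIndex H := by
  have h1 : MulAction.stabilizer H v = (MulAction.stabilizer Γ v).subgroupOf H := by
    ext x
    simp [Subgroup.mem_subgroupOf, MulAction.mem_stabilizer_iff, Subgroup.smul_def]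
  have h2 := MulAction.index_stabilizer H v
  rw [h1] at h2
  have h3 : {u : V | ∃ h ∈ H, h • v = u} = MulAction.orbit H v := by
    ext u
    constructor
    · rintro ⟨h, hh, rfl⟩
      exact ⟨⟨h, hh⟩, rfl⟩
    · rintro ⟨⟨h, hh⟩, rfl⟩
      exact ⟨h, hh, rfl⟩
  rw [h3, Nat.card_coe_set_eq, ← h2]
  rfl

theorem relIndex_dvd_of_normal {Γ : Type*} [Group Γ] [Finite Γ] (S H K : Subgroup Γ) (hKH : K ≤ H)
    (hn : H ≤ Subgroup.normalizer (K : Set Γ)) : S.relIndex K ∣ S.relIndex H := by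
  have h1 := card_mul_card_eq_of_le_normalizer (H ⊓ S) K (inf_le_left.trans hn)
  have h2 : (H ⊓ S) ⊓ K = K ⊓ S := by
    rw [inf_right_comm, inf_eq_right.2 hKH]
  rw [h2] at h1
  have h3 := card_eq_inf_mul_relIndex K S
  have h4 := card_eq_inf_mul_relIndex H S
  have h5 : Nat.card ((H ⊓ S) ⊔ K : Subgroup Γ) ∣ Nat.card H :=
    Subgroup.card_dvd_of_le (sup_le inf_le_left hKH)
  have h6 : 0 < Nat.card (K ⊓ S : Subgroup Γ) := Nat.card_pos
  have h7 : 0 < Nat.card (H ⊓ S : Subgroup Γ) := Nat.card_pos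
  have h8 : Nat.card (H ⊓ S : Subgroup Γ) * S.relIndex K = Nat.card ((H ⊓ S) ⊔ K : Subgroup Γ) := by
    rw [h3] at h1
    apply Nat.eq_of_mul_eq_mul_right h6
    rw [← h1]; ring
  rw [← h8, h4] at h5
  exact Nat.dvd_of_mul_dvd_mul_left h7 h5

theorem relIndex_sup_dvd {Γ : Type*} [Group Γ] [Finite Γ] (S H N : Subgroup Γ)
    (hn : H ≤ Subgroup.normalizer (N : Set Γ)) :
    S.relIndex (N ⊔ H) ∣ S.relIndex H * Nat.card N := by
  have h1 := card_mul_card_eq_of_le_normalizer H N hn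
  have h3 := card_eq_inf_mul_relIndex (N ⊔ H) S
  have h4 := card_eq_inf_mul_relIndex H S
  obtain ⟨c, hc⟩ : Nat.card (H ⊓ S : Subgroup Γ) ∣ Nat.card ((N ⊔ H) ⊓ S : Subgroup Γ) :=
    Subgroup.card_dvd_of_le (inf_le_inf_right S le_sup_right)
  have h7 : 0 < Nat.card (H ⊓ S : Subgroup Γ) := Nat.card_pos
  rw [sup_comm, h3, h4, hc] at h1
  refine ⟨c * Nat.card (H ⊓ N : Subgroup Γ), ?_⟩
  apply Nat.eq_of_mul_eq_mul_left h7
  calc Nat.card (H ⊓ S : Subgroup Γ) * (S.relIndex H * Nat.card N)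
      = Nat.card (H ⊓ S : Subgroup Γ) * S.relIndex H * Nat.card N := by ring
    _ = _ := h1
    _ = _ := by ring

/-- Let p be a prime, V a finite vector space over the field with p elements, and H a group of linear transformations of V all of whose orbits on V have size coprime to p. (i) Every normal subgroup K of H has all its orbits on V of size coprime to p. (ii) If N is a group of linear transformations of V of order coprime to p that is normalized by H, then the group generated by N and H has all its orbits on V of size coprime to p. -/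
theorem result (p : ℕ) [Fact p.Prime] {V : Type*} [AddCommGroup V] [Module (ZMod p) V] [Finite V]
    (H : Subgroup (V ≃ₗ[ZMod p] V)) (hH : ∀ v : V, ¬ p ∣ Nat.card {u : V | ∃ h ∈ H, h v = u}) :
    (∀ K : Subgroup (V ≃ₗ[ZMod p] V), K ≤ H → H ≤ Subgroup.normalizer (K : Set (V ≃ₗ[ZMod p] V)) →
        ∀ v : V, ¬ p ∣ Nat.card {u : V | ∃ k ∈ K, k v = u}) ∧
    (∀ N : Subgroup (V ≃ₗ[ZMod p] V), ¬ p ∣ Nat.card N → H ≤ Subgroup.normalizer (N : Set (V ≃ₗ[ZMod p] V)) →
        ∀ v : V, ¬ p ∣ Nat.card {u : V | ∃ x ∈ N ⊔ H, x v = u}) := by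
  have hp : p.Prime := Fact.out
  have : Finite (V ≃ₗ[ZMod p] V) :=
    Finite.of_injective (fun f : V ≃ₗ[ZMod p] V => (f : V → V)) DFunLike.coe_injective
  have key : ∀ (L : Subgroup (V ≃ₗ[ZMod p] V)) (v : V),
      Nat.card {u : V | ∃ h ∈ L, h v = u} =
        (MulAction.stabilizer (V ≃ₗ[ZMod p] V) v).relIndex L := fun L v => orbit_card L v
  refine ⟨?_, ?_⟩
  · intro K hKH hn v
    rw [key]
    intro h
    apply hH v
    rw [key]
    exact h.trans (relIndex_dvd_of_normal _ H K hKH hn)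
  · intro N hN hn v
    rw [key]
    intro h
    have h1 := h.trans (relIndex_sup_dvd (MulAction.stabilizer (V ≃ₗ[ZMod p] V) v) H N hn)
    rcases (Nat.Prime.dvd_mul hp).1 h1 with h2 | h2
    · apply hH v
      rw [key]; exact h2
    · exact hN h2

end Cfsg.Agent.S3514
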