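import Cfsg.Statements.S3515
import Mathlib

set_option autoImplicit false
open Cfsg

namespace Cfsg.Agent.S3515

theorem affine_of_triples (p : ℕ) [Fact p.Prime] (hp : p ≠ 2) (d : ℕ)
    (σ : Equiv.Perm (Fin d → ZMod p))
    (h : ∀ t : Fin 3 → (Fin d → ZMod p), ∃ (A : (Fin d → ZMod p) ≃ₗ[ZMod p] (Fin d → ZMod p))
      (b : Fin d → ZMod p), ∀ i, σ (t i) = A (t i) + b) :
    ∃ (A : (Fin d → ZMod p) ≃ₗ[ZMod p] (Fin d → ZMod p)) (b : Fin d → ZMod p),
      ∀ x, σ x = A x + b := by
  have h2 : (2 : ZMod p) ≠ 0 := by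
    intro h0
    have h1 : ((2 : ℕ) : ZMod p) = 0 := by exact_mod_cast h0
    rw [ZMod.natCast_eq_zero_iff] at h1
    exact hp ((Nat.prime_dvd_prime_iff_eq Fact.out Nat.prime_two).mp h1)
  have hhom : ∀ (c : ZMod p) (x : Fin d → ZMod p), σ (c • x) - σ 0 = c • (σ x - σ 0) := by
    intro c x
    obtain ⟨A, b, hA⟩ := h ![0, x, c • x]
    have e0 : σ 0 = A 0 + b := hA 0
    have e1 : σ x = A x + b := hA 1
    have e2 : σ (c • x) = A (c • x) + b := hA 2
    rw [e0, e1, e2]
    simp
  have hmid : ∀ x y : Fin d → ZMod p,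
      σ ((2 : ZMod p)⁻¹ • (x + y)) - σ 0 = (2 : ZMod p)⁻¹ • ((σ x - σ 0) + (σ y - σ 0)) := by
    intro x y
    obtain ⟨A, b, hA⟩ := h ![x, y, (2 : ZMod p)⁻¹ • (x + y)]
    have e0 : σ x = A x + b := hA 0
    have e1 : σ y = A y + b := hA 1
    have e2 : σ ((2 : ZMod p)⁻¹ • (x + y)) = A ((2 : ZMod p)⁻¹ • (x + y)) + b := hA 2
    have key : σ ((2 : ZMod p)⁻¹ • (x + y)) = (2 : ZMod p)⁻¹ • (σ x + σ y) := by
      rw [e0, e1, e2, map_smul, map_add]
      have hb : b = (2 : ZMod p)⁻¹ • (b + b) := by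
        rw [← two_smul (ZMod p) b, smul_smul, inv_mul_cancel₀ h2, one_smul]
      conv_lhs => rw [hb]
      rw [← smul_add]
      congr 1
      abel
    have h0 : σ 0 = (2 : ZMod p)⁻¹ • (σ 0 + σ 0) := by
      rw [← two_smul (ZMod p) (σ 0), smul_smul, inv_mul_cancel₀ h2, one_smul]
    rw [key]
    conv_lhs => rw [h0]
    rw [← smul_sub]
    congr 1
    abel
  have hadd : ∀ x y : Fin d → ZMod p, σ (x + y) - σ 0 = (σ x - σ 0) + (σ y - σ 0) := by
    intro x y
    have h1 := hhom 2 ((2 : ZMod p)⁻¹ • (x + y))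
    rw [smul_smul, mul_inv_cancel₀ h2, one_smul, hmid, smul_smul, mul_inv_cancel₀ h2,
      one_smul] at h1
    exact h1
  let L : (Fin d → ZMod p) →ₗ[ZMod p] (Fin d → ZMod p) :=
    { toFun := fun x => σ x - σ 0
      map_add' := hadd
      map_smul' := fun c x => hhom c x }
  have hbij : Function.Bijective L := by
    constructor
    · intro x y hxy
      have : σ x - σ 0 = σ y - σ 0 := hxy
      exact σ.injective (sub_left_injective this)
    · intro y
      obtain ⟨x, hx⟩ := σ.surjective (y + σ 0)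
      refine ⟨x, ?_⟩
      show σ x - σ 0 = y
      rw [hx]; abel
  refine ⟨LinearEquiv.ofBijective L hbij, σ 0, fun x => ?_⟩
  show σ x = (σ x - σ 0) + σ 0
  abel

theorem ne0 : ¬ ((0 : Fin 2 → ZMod 2) = Pi.single 0 1 + Pi.single 1 1) := by decide
theorem ne1 : ¬ ((Pi.single 0 1 : Fin 2 → ZMod 2) = Pi.single 0 1 + Pi.single 1 1) := by decide
theorem ne2 : ¬ ((Pi.single 1 1 : Fin 2 → ZMod 2) = Pi.single 0 1 + Pi.single 1 1) := by decide

theorem four_pts : ∀ x : Fin 2 → ZMod 2, x = 0 ∨ x = Pi.single 0 1 ∨ x = Pi.single 1 1 ∨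
    x = Pi.single 0 1 + Pi.single 1 1 := by decide


/-- Every primitive affine permutation group of degree p² is 3-closed. Let p be a prime and G a group of permutations of the plane V = F_p² consisting of affine maps x ↦ Ax + b, containing all translations, and acting primitively on V. Then any permutation σ of V that agrees on every triple of points with some element of G (σ preserves every G-orbit on ordered triples) already lies in G. -/
theorem result (p : ℕ) [Fact p.Prime] (G : Subgroup (Equiv.Perm (Fin 2 → ZMod p)))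
    (haff : (G : Set (Equiv.Perm (Fin 2 → ZMod p))) ⊆ {τ : Equiv.Perm (Fin 2 → ZMod p) | ∃ (A : (Fin 2 → ZMod p) ≃ₗ[ZMod p] (Fin 2 → ZMod p)) (b : Fin 2 → ZMod p), ∀ x, τ x = A x + b})
    (htrans : ∀ b : Fin 2 → ZMod p, ∃ g ∈ G, ∀ x, g x = x + b) (hprim : MulAction.IsPreprimitive G (Fin 2 → ZMod p))
    (σ : Equiv.Perm (Fin 2 → ZMod p)) (hσ : (∀ t : Fin 3 → (Fin 2 → ZMod p), ∃ g ∈ G, ∀ i, σ (t i) = g (t i))) : σ ∈ G := by

  obtain ⟨g, hg, hgσ⟩ := hσ ![0, Pi.single 0 1, Pi.single 1 1]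
  have e0 : σ 0 = g 0 := hgσ 0
  have e1 : σ (Pi.single 0 1) = g (Pi.single 0 1) := hgσ 1
  have e2 : σ (Pi.single 1 1) = g (Pi.single 1 1) := hgσ 2
  suffices hs : σ = g by rw [hs]; exact hg
  by_cases hp : p = 2
  · subst hp
    have hw : σ (Pi.single 0 1 + Pi.single 1 1) = g (Pi.single 0 1 + Pi.single 1 1) := by
      obtain ⟨y, hy⟩ := g.surjective (σ (Pi.single 0 1 + Pi.single 1 1))
      rcases four_pts y with rfl | rfl | rfl | rfl
      · rw [← e0] at hy
        exact absurd (σ.injective hy) ne0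
      · rw [← e1] at hy
        exact absurd (σ.injective hy) ne1
      · rw [← e2] at hy
        exact absurd (σ.injective hy) ne2
      · exact hy.symm
    ext1 x
    rcases four_pts x with rfl | rfl | rfl | rfl
    · exact e0
    · exact e1
    · exact e2
    · exact hw
  · obtain ⟨A, b, hA⟩ := affine_of_triples p hp 2 σ (by
      intro t
      obtain ⟨g', hg', hgt⟩ := hσ t
      obtain ⟨A, b, hA⟩ := haff hg'
      exact ⟨A, b, fun i => by rw [hgt i, hA]⟩)
    obtain ⟨A', b', hA'⟩ := haff hg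
    have hb : b = b' := by
      have := e0
      rw [hA, hA'] at this
      simpa using this
    subst hb
    have hAA : (A : (Fin 2 → ZMod p) →ₗ[ZMod p] (Fin 2 → ZMod p)) = A' := by
      apply (Pi.basisFun (ZMod p) (Fin 2)).ext
      intro i
      rw [Pi.basisFun_apply]
      fin_cases i
      · have := e1
        rw [hA, hA'] at this
        exact add_right_cancel this
      · have := e2
        rw [hA, hA'] at this
        exact add_right_cancel this
    ext1 x
    rw [hA, hA']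
    congr 1
    exact congrArg (fun f : (Fin 2 → ZMod p) →ₗ[ZMod p] (Fin 2 → ZMod p) => f x) hAA

end Cfsg.Agent.S3515
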