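import Cfsg.Statements.S3516
import Mathlib
import Cfsg.Agent.S3515

set_option autoImplicit false
open Cfsg

namespace Cfsg.Agent.S3516

theorem exists_sl (p : ℕ) [Fact p.Prime] (d : ℕ) (hd : 3 ≤ d)
    (A : (Fin d → ZMod p) ≃ₗ[ZMod p] (Fin d → ZMod p)) (u v : Fin d → ZMod p) :
    ∃ A' : (Fin d → ZMod p) ≃ₗ[ZMod p] (Fin d → ZMod p),
      LinearMap.det (A' : (Fin d → ZMod p) →ₗ[ZMod p] (Fin d → ZMod p)) = 1 ∧
      A' u = A u ∧ A' v = A v := by
  classical
  have hW : Submodule.span (ZMod p) (({u, v} : Finset (Fin d → ZMod p)) : Set (Fin d → ZMod p)) < ⊤ := by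
    rw [lt_top_iff_ne_top]
    intro h
    have h1 := finrank_span_finset_le_card (R := ZMod p) ({u, v} : Finset (Fin d → ZMod p))
    have h2 : ({u, v} : Finset (Fin d → ZMod p)).card ≤ 2 := Finset.card_le_two
    unfold Set.finrank at h1
    rw [h, finrank_top, Module.finrank_fin_fun] at h1
    omega
  obtain ⟨f, hf0, hfW⟩ := Submodule.exists_le_ker_of_lt_top _ hW
  have hfu : f u = 0 := hfW (Submodule.subset_span (by simp))
  have hfv : f v = 0 := hfW (Submodule.subset_span (by simp))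
  obtain ⟨w, hw⟩ : ∃ w, f w ≠ 0 := by
    by_contra hcon
    push Not at hcon
    exact hf0 (LinearMap.ext hcon)
  have hdetA : LinearMap.det (A : (Fin d → ZMod p) →ₗ[ZMod p] (Fin d → ZMod p)) ≠ 0 :=
    (LinearEquiv.isUnit_det' A).ne_zero
  obtain ⟨δ, hδ⟩ : ∃ δ, δ = (LinearMap.det (A : (Fin d → ZMod p) →ₗ[ZMod p] (Fin d → ZMod p)))⁻¹ :=
    ⟨_, rfl⟩
  have hD : LinearMap.det (LinearMap.transvection f ((δ - 1) • ((f w)⁻¹ • w))) = δ := by
    rw [LinearMap.transvection.det]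
    simp [hw]
  have hδ0 : δ ≠ 0 := by rw [hδ]; exact inv_ne_zero hdetA
  refine ⟨(LinearMap.equivOfDetNeZero _ (by rw [hD]; exact hδ0)).trans A, ?_, ?_, ?_⟩
  · have : (((LinearMap.equivOfDetNeZero (LinearMap.transvection f ((δ - 1) • ((f w)⁻¹ • w)))
        (by rw [hD]; exact hδ0)).trans A : (Fin d → ZMod p) ≃ₗ[ZMod p] (Fin d → ZMod p)) :
        (Fin d → ZMod p) →ₗ[ZMod p] (Fin d → ZMod p)) =
        (A : (Fin d → ZMod p) →ₗ[ZMod p] (Fin d → ZMod p)) ∘ₗ
          (LinearMap.transvection f ((δ - 1) • ((f w)⁻¹ • w))) := by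
      ext x
      rfl
    rw [this, LinearMap.det_comp, hD, hδ]
    exact mul_inv_cancel₀ hdetA
  · show A ((LinearMap.transvection f ((δ - 1) • ((f w)⁻¹ • w))) u) = A u
    rw [LinearMap.transvection.apply, hfu, zero_smul, add_zero]
  · show A ((LinearMap.transvection f ((δ - 1) • ((f w)⁻¹ • w))) v) = A v
    rw [LinearMap.transvection.apply, hfv, zero_smul, add_zero]


/-- Let p be an odd prime, d ≥ 3, and G a group of affine permutations x ↦ Ax + b of V = F_p^d containing all translations and all maps x ↦ Ax with A of determinant 1. Then the 3-closure of G is the full affine group: a permutation σ of V agrees on every triple of points with some element of G if and only if σ is an affine map. -/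
theorem result (p : ℕ) [Fact p.Prime] (hp : p ≠ 2) (d : ℕ) (hd : 3 ≤ d) (G : Subgroup (Equiv.Perm (Fin d → ZMod p)))
    (haff : (G : Set (Equiv.Perm (Fin d → ZMod p))) ⊆ {τ : Equiv.Perm (Fin d → ZMod p) | ∃ (A : (Fin d → ZMod p) ≃ₗ[ZMod p] (Fin d → ZMod p)) (b : Fin d → ZMod p), ∀ x, τ x = A x + b})
    (htrans : ∀ b : Fin d → ZMod p, ∃ g ∈ G, ∀ x, g x = x + b)
    (hsl : ∀ A : (Fin d → ZMod p) ≃ₗ[ZMod p] (Fin d → ZMod p), LinearMap.det (A : (Fin d → ZMod p) →ₗ[ZMod p] (Fin d → ZMod p)) = 1 → ∃ g ∈ G, ∀ x, g x = A x)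
    (σ : Equiv.Perm (Fin d → ZMod p)) :
    (∀ t : Fin 3 → (Fin d → ZMod p), ∃ g ∈ G, ∀ i, σ (t i) = g (t i)) ↔ σ ∈ {τ : Equiv.Perm (Fin d → ZMod p) | ∃ (A : (Fin d → ZMod p) ≃ₗ[ZMod p] (Fin d → ZMod p)) (b : Fin d → ZMod p), ∀ x, τ x = A x + b} := by

  constructor
  · intro h
    apply Cfsg.Agent.S3515.affine_of_triples p hp d σ
    intro t
    obtain ⟨g', hg', hgt⟩ := h t
    obtain ⟨A, b, hA⟩ := haff hg'
    exact ⟨A, b, fun i => by rw [hgt i, hA]⟩
  · rintro ⟨A, b, hA⟩ t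
    obtain ⟨A', hdet, hu, hv⟩ := exists_sl p d hd A (t 1 - t 0) (t 2 - t 0)
    obtain ⟨g1, hg1, hg1'⟩ := hsl A' hdet
    obtain ⟨g2, hg2, hg2'⟩ := htrans (A (t 0) + b - A' (t 0))
    refine ⟨g2 * g1, mul_mem hg2 hg1, ?_⟩
    have key : ∀ x, A' (x - t 0) = A (x - t 0) → σ x = (g2 * g1) x := by
      intro x hx
      rw [Equiv.Perm.mul_apply, hg2', hg1', hA]
      rw [map_sub, map_sub] at hx
      have : A' x = A x - A (t 0) + A' (t 0) := by rw [← hx]; abel
      rw [this]; abel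
    intro i
    fin_cases i
    · exact key _ (by simp)
    · exact key _ hu
    · exact key _ hv

end Cfsg.Agent.S3516
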