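import Cfsg.Statements.S3517
-- import your own Cfsg.Agent.* helpers here

set_option autoImplicit false
open Cfsg

namespace Cfsg.Agent.S3517

/-- For d ≥ 3, the 3-closure of the affine group AGL_d(2) acting on F_2^d is the full symmetric group: every permutation of F_2^d agrees on every ordered triple of points with some affine map (AGL_d(2) is 3-transitive). -/
theorem result (d : ℕ) (hd : 3 ≤ d) (σ : Equiv.Perm (Fin d → ZMod 2)) (t : Fin 3 → (Fin d → ZMod 2)) :
    ∃ (A : (Fin d → ZMod 2) ≃ₗ[ZMod 2] (Fin d → ZMod 2)) (b : Fin d → ZMod 2), ∀ i, σ (t i) = A (t i) + b := by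
  classical
  have hchar : ∀ v : (Fin d → ZMod 2), v + v = 0 := by
    intro v
    ext i
    exact CharTwo.add_self_eq_zero _
  have hsub : ∀ v w : (Fin d → ZMod 2), v - w = v + w := by
    intro v w
    rw [sub_eq_iff_eq_add, add_assoc, hchar, add_zero]
  have hadd0 : ∀ v w : (Fin d → ZMod 2), v + w = 0 ↔ v = w := by
    intro v w
    rw [← hsub, sub_eq_zero]
  let α : (ZMod 2 × ZMod 2) →ₗ[ZMod 2] (Fin d → ZMod 2) :=
    (LinearMap.toSpanSingleton (ZMod 2) (Fin d → ZMod 2) (t 1 + t 0)).coprod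
      (LinearMap.toSpanSingleton (ZMod 2) (Fin d → ZMod 2) (t 2 + t 0))
  let γ : (ZMod 2 × ZMod 2) →ₗ[ZMod 2] (Fin d → ZMod 2) :=
    (LinearMap.toSpanSingleton (ZMod 2) (Fin d → ZMod 2) (σ (t 1) + σ (t 0))).coprod
      (LinearMap.toSpanSingleton (ZMod 2) (Fin d → ZMod 2) (σ (t 2) + σ (t 0)))
  have hα : ∀ x y : ZMod 2, α (x, y) = x • (t 1 + t 0) + y • (t 2 + t 0) := by
    intro x y; simp [α]
  have hγ : ∀ x y : ZMod 2, γ (x, y) = x • (σ (t 1) + σ (t 0)) + y • (σ (t 2) + σ (t 0)) := by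
    intro x y; simp [γ]
  have hcancel : ∀ a b c : (Fin d → ZMod 2), (a + c) + (b + c) = a + b := by
    intro a b c
    calc (a + c) + (b + c) = a + b + (c + c) := by abel
      _ = a + b := by rw [hchar, add_zero]
  have hker : LinearMap.ker α = LinearMap.ker γ := by
    ext ⟨x, y⟩
    rw [LinearMap.mem_ker, LinearMap.mem_ker, hα, hγ]
    have h01 : ∀ z : ZMod 2, z = 0 ∨ z = 1 := by decide
    rcases h01 x with rfl | rfl <;> rcases h01 y with rfl | rfl
    · simp
    · simp [hadd0]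
    · simp [hadd0]
    · simp [hcancel, hadd0]
  let f : LinearMap.range α ≃ₗ[ZMod 2] LinearMap.range γ :=
    α.quotKerEquivRange.symm ≪≫ₗ (Submodule.quotEquivOfEq _ _ hker) ≪≫ₗ γ.quotKerEquivRange
  have hf : ∀ v, (f ⟨α v, LinearMap.mem_range_self α v⟩ : (Fin d → ZMod 2)) = γ v := by
    intro v
    have h1 : α.quotKerEquivRange.symm ⟨α v, LinearMap.mem_range_self α v⟩ =
        (LinearMap.ker α).mkQ v := by
      rw [LinearEquiv.symm_apply_eq]
      rfl
    simp only [f, LinearEquiv.trans_apply, h1]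
    rfl
  obtain ⟨A, hA⟩ := Submodule.exists_linearEquiv_restrict_eq f
  have hA' : ∀ v, A (α v) = γ v := by
    intro v
    rw [← hf v, hA]
  refine ⟨A, σ (t 0) + A (t 0), ?_⟩
  have h1 := hA' (1, 0)
  have h2 := hA' (0, 1)
  rw [hα, hγ] at h1 h2
  simp only [one_smul, zero_smul, add_zero, zero_add, map_add] at h1 h2
  intro i
  fin_cases i
  · change σ (t 0) = A (t 0) + (σ (t 0) + A (t 0))
    calc σ (t 0) = σ (t 0) + (A (t 0) + A (t 0)) := by rw [hchar, add_zero]
      _ = _ := by abel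
  · change σ (t 1) = A (t 1) + (σ (t 0) + A (t 0))
    calc σ (t 1) = (σ (t 1) + σ (t 0)) + σ (t 0) := by rw [add_assoc, hchar, add_zero]
      _ = (A (t 1) + A (t 0)) + σ (t 0) := by rw [h1]
      _ = _ := by abel
  · change σ (t 2) = A (t 2) + (σ (t 0) + A (t 0))
    calc σ (t 2) = (σ (t 2) + σ (t 0)) + σ (t 0) := by rw [add_assoc, hchar, add_zero]
      _ = (A (t 2) + A (t 0)) + σ (t 0) := by rw [h2]
      _ = _ := by abel

end Cfsg.Agent.S3517
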