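import Cfsg.Statements.S3518


set_option autoImplicit false
open Cfsg

namespace Cfsg.Agent.S3518
open Finset Polynomial

theorem sum_pow_all {K : Type*} [Field K] [Fintype K] (n : ℕ) (hn : n ≠ 0) :
    ∑ x : K, x ^ n = if Fintype.card K - 1 ∣ n then -1 else 0 := by
  classical
  let φ : Kˣ ↪ K := ⟨fun x ↦ x, Units.val_injective⟩
  have : univ.map φ = univ \ {0} := by
    ext x
    simpa only [mem_map, mem_univ, Function.Embedding.coeFn_mk, true_and, mem_sdiff,
      mem_singleton, φ] using! isUnit_iff_ne_zero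
  calc
    ∑ x : K, x ^ n = ∑ x ∈ univ \ {(0 : K)}, x ^ n := by
      rw [← sum_sdiff ({0} : Finset K).subset_univ, sum_singleton, zero_pow hn, add_zero]
    _ = ∑ x : Kˣ, (x ^ n : K) := by simp [φ, ← this, univ.sum_map φ]
    _ = _ := FiniteField.sum_pow_units K n

theorem key_sum {K : Type*} [Field K] [Fintype K] (d m : ℕ) (hd : d < Fintype.card K - 1) (hm : m ≤ d)
    (x : K) :
    ∑ y : K, y ^ (Fintype.card K - 1 - d + m) * (x - y) ^ d
      = -((-1) ^ (d - m) * (d.choose m : K)) * x ^ m := by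
  have h1 : ∀ y : K, y ^ (Fintype.card K - 1 - d + m) * (x - y) ^ d =
      ∑ k ∈ range (d + 1), x ^ k * (-1) ^ (d - k) * (d.choose k : K) *
        y ^ (Fintype.card K - 1 - d + m + (d - k)) := by
    intro y
    rw [sub_eq_add_neg, add_pow, Finset.mul_sum]
    apply Finset.sum_congr rfl
    intro k _
    rw [neg_pow y, pow_add]
    ring
  simp_rw [h1]
  rw [Finset.sum_comm]
  simp_rw [← Finset.mul_sum]
  rw [Finset.sum_eq_single m]
  · rw [sum_pow_all _ (by omega), if_pos (by
      have : Fintype.card K - 1 - d + m + (d - m) = Fintype.card K - 1 := by omega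
      rw [this])]
    ring
  · intro k hk hkm
    rw [Finset.mem_range] at hk
    rw [sum_pow_all _ (by omega), if_neg, mul_zero]
    intro hdvd
    obtain ⟨c, hc⟩ := hdvd
    have hc1 : c = 1 := by
      rcases c with _ | _ | c
      · omega
      · rfl
      · exfalso
        have : (Fintype.card K - 1) * (c + 1 + 1) ≥ (Fintype.card K - 1) * 2 := Nat.mul_le_mul_left _ (by omega)
        omega
    rw [hc1] at hc
    omega
  · intro h
    exact absurd (Finset.mem_range.mpr (by omega)) h


theorem exists_poly {K : Type*} [Field K] [Fintype K] (d m : ℕ) (hd : d < Fintype.card K - 1) (hm : m ≤ d)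
    (hch : (d.choose m : K) ≠ 0) (σ : Equiv.Perm K) (h : ∀ x y, (σ x - σ y) ^ d = (x - y) ^ d) :
    ∃ Q : K[X], Q.natDegree ≤ d ∧ ∀ x, Q.eval x = (σ x) ^ m := by
  obtain ⟨c, hc⟩ : ∃ c : K, c = -((-1) ^ (d - m) * (d.choose m : K)) := ⟨_, rfl⟩
  have hc0 : c ≠ 0 := by
    rw [hc]
    exact neg_ne_zero.mpr (mul_ne_zero (pow_ne_zero _ (neg_ne_zero.mpr one_ne_zero)) hch)
  refine ⟨C c⁻¹ * ∑ y : K, C ((σ y) ^ (Fintype.card K - 1 - d + m)) * (X - C y) ^ d, ?_, ?_⟩
  · refine (natDegree_C_mul_le _ _).trans ?_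
    apply natDegree_sum_le_of_forall_le
    intro y _
    refine (natDegree_C_mul_le _ _).trans ?_
    refine (natDegree_pow_le).trans ?_
    rw [natDegree_X_sub_C, mul_one]
  · intro x
    rw [eval_mul, eval_C, eval_finsetSum]
    have h1 : ∀ y : K, eval x (C ((σ y) ^ (Fintype.card K - 1 - d + m)) * (X - C y) ^ d) =
        (σ y) ^ (Fintype.card K - 1 - d + m) * (σ x - σ y) ^ d := by
      intro y
      rw [h x y]
      simp
    simp_rw [h1]
    rw [Equiv.sum_comp σ (fun y => y ^ (Fintype.card K - 1 - d + m) * (σ x - y) ^ d),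
      key_sum d m hd hm, ← hc, ← mul_assoc, inv_mul_cancel₀ hc0, one_mul]

theorem linear_of_pow {K : Type*} [Field K] [Fintype K] (d : ℕ) (hd1 : 1 ≤ d)
    (hd : 2 * d ≤ Fintype.card K - 1)
    (hch : ∀ m ≤ d, (d.choose m : K) ≠ 0) (σ : Equiv.Perm K)
    (h : ∀ x y, (σ x - σ y) ^ d = (x - y) ^ d) :
    ∃ a b : K, ∀ x, σ x = a * x + b := by
  have hd' : d < Fintype.card K - 1 := by omega
  obtain ⟨P, hP1, hP2⟩ := exists_poly d 1 hd' hd1 (hch 1 hd1) σ h
  simp only [pow_one] at hP2
  have hr : P.natDegree ≤ 1 := by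
    by_contra hcon
    push Not at hcon
    obtain ⟨r, hr⟩ : ∃ r, r = P.natDegree := ⟨_, rfl⟩
    rw [← hr] at hcon hP1
    obtain ⟨m, hm⟩ : ∃ m, m = d / r + 1 := ⟨_, rfl⟩
    have hr0 : 0 < r := by omega
    have h1 : d < m * r := by
      rw [hm]
      have := Nat.lt_succ_iff.mp (Nat.lt_succ_of_le (le_refl (d / r)))
      have h2 := Nat.div_add_mod d r
      have h3 := Nat.mod_lt d hr0
      calc d = r * (d / r) + d % r := h2.symm
        _ < r * (d / r) + r := by omega
        _ = (d / r + 1) * r := by ring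
    have h2 : m * r ≤ d + r := by
      rw [hm]
      have h2 := Nat.div_mul_le_self d r
      calc (d / r + 1) * r = d / r * r + r := by ring
        _ ≤ d + r := by omega
    have h3 : m ≤ d := by
      rw [hm]
      have : d / r ≤ d / 2 := Nat.div_le_div_left hcon (by norm_num)
      omega
    obtain ⟨Q, hQ1, hQ2⟩ := exists_poly d m hd' h3 (hch m h3) σ h
    have h4 : (P ^ m).natDegree = m * r := by rw [natDegree_pow, hr]
    have h5 : P ^ m - Q = 0 := by
      apply eq_zero_of_natDegree_lt_card_of_eval_eq_zero' (P ^ m - Q) (Finset.univ : Finset K)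
      · intro x _
        rw [eval_sub, eval_pow, hP2, hQ2, sub_self]
      · rw [Finset.card_univ]
        have := natDegree_sub_le (P ^ m) Q
        rw [h4] at this
        have h6 : max (m * r) Q.natDegree ≤ m * r := max_le le_rfl (by omega)
        omega
    have h6 : P ^ m = Q := sub_eq_zero.mp h5
    rw [h6] at h4
    omega
  refine ⟨P.coeff 1, P.coeff 0, fun x => ?_⟩
  rw [← hP2 x]
  conv_lhs => rw [eq_X_add_C_of_natDegree_le_one hr]
  simp



/-- Closures of subgroups of the one-dimensional affine group. Let p be a prime and G a group of permutations of F_p lying in the affine group AGL₁(p) = {x ↦ ax + b, a ≠ 0} and containing all translations. (1) If G is a proper subgroup of AGL₁(p), then G is 2-closed: a permutation of F_p agreeing on every ordered pair of points with some element of G lies in G. (2) Every permutation of F_p agrees on every ordered pair with some element of AGL₁(p) (the 2-closure of AGL₁(p) is the symmetric group). (3) AGL₁(p) is 3-closed: a permutation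 agreeing on every ordered triple with some affine map is affine. -/
theorem result (p : ℕ) [Fact p.Prime] (G : Subgroup (Equiv.Perm (ZMod p))) (hG : G ≤ Cfsg.affineGroup (ZMod p))
    (htrans : ∀ b : ZMod p, ∃ g ∈ G, ∀ x, g x = x + b) :
    (G ≠ Cfsg.affineGroup (ZMod p) → ∀ σ : Equiv.Perm (ZMod p), (∀ t : Fin 2 → ZMod p, ∃ g ∈ G, ∀ i, σ (t i) = g (t i)) → σ ∈ G) ∧
    (∀ σ : Equiv.Perm (ZMod p), (∀ t : Fin 2 → ZMod p, ∃ g ∈ Cfsg.affineGroup (ZMod p), ∀ i, σ (t i) = g (t i))) ∧
    (∀ σ : Equiv.Perm (ZMod p), (∀ t : Fin 3 → ZMod p, ∃ g ∈ Cfsg.affineGroup (ZMod p), ∀ i, σ (t i) = g (t i)) → σ ∈ Cfsg.affineGroup (ZMod p)) := by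
  have hp : p.Prime := Fact.out
  refine ⟨?_, ?_, ?_⟩
  · intro hne σ hσ
    obtain ⟨A, hAdef⟩ : ∃ A : Subgroup (ZMod p)ˣ, A = G.comap (MulAction.toPermHom (ZMod p)ˣ (ZMod p)) :=
      ⟨_, rfl⟩
    have hA : ∀ g ∈ G, ∀ (a : (ZMod p)ˣ) (b : ZMod p), (∀ x, g x = (a : ZMod p) * x + b) → a ∈ A := by
      intro g hg a b hgab
      obtain ⟨τ, hτ, hτ'⟩ := htrans (-b)
      rw [hAdef, Subgroup.mem_comap]
      have : MulAction.toPermHom (ZMod p)ˣ (ZMod p) a = τ * g := by
        ext x
        rw [Equiv.Perm.mul_apply, hτ', hgab]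
        simp [Units.smul_def]
      rw [this]
      exact G.mul_mem hτ hg
    have hAtop : A ≠ ⊤ := by
      intro e
      apply hne
      apply le_antisymm hG
      rintro σ' ⟨a, b, hab⟩
      obtain ⟨τ, hτ, hτ'⟩ := htrans b
      have ha : a ∈ A := e ▸ Subgroup.mem_top a
      rw [hAdef, Subgroup.mem_comap] at ha
      have : σ' = τ * MulAction.toPermHom (ZMod p)ˣ (ZMod p) a := by
        ext x
        rw [Equiv.Perm.mul_apply, hτ', hab]
        simp [Units.smul_def]
      rw [this]
      exact G.mul_mem hτ ha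
    obtain ⟨d, hd⟩ : ∃ d, d = Nat.card A := ⟨_, rfl⟩
    have hcardU : Nat.card (ZMod p)ˣ = p - 1 := by
      rw [Nat.card_eq_fintype_card, ZMod.card_units p]
    have hd1 : 1 ≤ d := hd ▸ Nat.card_pos
    have hdvd : d ∣ p - 1 := by
      rw [hd, ← hcardU]; exact Subgroup.card_subgroup_dvd_card A
    have hdne : d ≠ p - 1 := by
      intro e
      apply hAtop
      apply Subgroup.eq_top_of_card_eq
      rw [← hd, e, hcardU]
    have hp2 := hp.two_le
    have h2d : 2 * d ≤ p - 1 := by
      obtain ⟨c, hc⟩ := hdvd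
      rcases c with _ | _ | c
      · omega
      · omega
      · rw [hc]
        calc 2 * d = d * 2 := by ring
          _ ≤ d * (c + 1 + 1) := Nat.mul_le_mul_left _ (by omega)
    have hpow : ∀ a ∈ A, a ^ d = 1 := by
      intro a ha
      have := pow_card_eq_one' (x := (⟨a, ha⟩ : A))
      rw [← hd] at this
      exact congrArg Subtype.val this
    have hch : ∀ m ≤ d, (d.choose m : ZMod p) ≠ 0 := by
      intro m hm e
      rw [ZMod.natCast_eq_zero_iff] at e
      have h1 : d.choose m ∣ d.factorial := by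
        rw [← Nat.choose_mul_factorial_mul_factorial hm, mul_assoc]
        exact Dvd.intro _ rfl
      have h2 := (hp.dvd_factorial).mp (e.trans h1)
      omega
    have hmain : ∀ x y, (σ x - σ y) ^ d = (x - y) ^ d := by
      intro x y
      obtain ⟨g, hg, hg'⟩ := hσ ![x, y]
      obtain ⟨a, b, hab⟩ := hG hg
      have h0 := hg' 0
      have h1 := hg' 1
      simp only [Matrix.cons_val_zero, Matrix.cons_val_one] at h0 h1
      rw [h0, h1, hab, hab]
      have ha := hpow a (hA g hg a b hab)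
      have ha' : (a : ZMod p) ^ d = 1 := by
        rw [← Units.val_pow_eq_pow_val, ha, Units.val_one]
      have : (a : ZMod p) * x + b - ((a : ZMod p) * y + b) = (a : ZMod p) * (x - y) := by ring
      rw [this, mul_pow, ha', one_mul]
    obtain ⟨a, b, hab⟩ := linear_of_pow d hd1 (by rw [ZMod.card p]; exact h2d) hch σ hmain
    obtain ⟨g, hg, hg'⟩ := hσ ![0, 1]
    obtain ⟨a', b', hab'⟩ := hG hg
    have h0 := hg' 0
    have h1 := hg' 1
    simp only [Matrix.cons_val_zero, Matrix.cons_val_one] at h0 h1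
    rw [hab, hab'] at h0 h1
    have hb : b = b' := by simpa using h0
    have ha : a = a' := by
      rw [hb] at h1
      simpa using h1
    have : σ = g := by
      ext x
      rw [hab, hab', ha, hb]
    rw [this]; exact hg
  · intro σ t
    by_cases h : t 0 = t 1
    · refine ⟨Equiv.addRight (σ (t 0) - t 0), ⟨1, σ (t 0) - t 0, fun x => by simp⟩, ?_⟩
      intro i
      fin_cases i
      · simp
      · simp [← h]
    · have h1 : t 1 - t 0 ≠ 0 := sub_ne_zero.mpr (Ne.symm h)
      have h2 : σ (t 1) - σ (t 0) ≠ 0 := sub_ne_zero.mpr (fun e => h (σ.injective e).symm)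
      obtain ⟨a, ha⟩ : ∃ a : (ZMod p)ˣ, (a : ZMod p) = (σ (t 1) - σ (t 0)) / (t 1 - t 0) :=
        ⟨Units.mk0 _ (div_ne_zero h2 h1), rfl⟩
      refine ⟨(MulAction.toPerm a).trans (Equiv.addRight (σ (t 0) - a * t 0)),
        ⟨a, σ (t 0) - a * t 0, fun x => by simp [Units.smul_def]⟩, ?_⟩
      refine Fin.forall_fin_two.mpr ⟨?_, ?_⟩
      · simp [Units.smul_def]
      · simp only [Equiv.trans_apply, MulAction.toPerm_apply, Units.smul_def, Equiv.coe_addRight, ha]
        have h3 : (σ (t 1) - σ (t 0)) / (t 1 - t 0) * t 1 + (σ (t 0) - (σ (t 1) - σ (t 0)) / (t 1 - t 0) * t 0)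
            = (σ (t 1) - σ (t 0)) / (t 1 - t 0) * (t 1 - t 0) + σ (t 0) := by ring
        rw [smul_eq_mul, h3, div_mul_cancel₀ _ h1]
        ring
  · intro σ hσ
    obtain ⟨g, ⟨a, b, hab⟩, hg'⟩ := hσ ![0, 1, 0]
    refine ⟨a, b, fun x => ?_⟩
    obtain ⟨g₂, ⟨a₂, b₂, hab₂⟩, hg₂⟩ := hσ ![0, 1, x]
    have h0 := hg' 0
    have h1 := hg' 1
    have k0 := hg₂ 0
    have k1 := hg₂ 1
    have k2 := hg₂ 2
    simp only [Matrix.cons_val_zero, Matrix.cons_val_one, Matrix.cons_val] at h0 h1 k0 k1 k2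
    rw [hab] at h0 h1
    rw [hab₂] at k0 k1 k2
    have hb : b = b₂ := by
      have := h0.symm.trans k0
      simpa using this
    have ha : (a : ZMod p) = a₂ := by
      have := h1.symm.trans k1
      rw [hb] at this
      simpa using this
    rw [k2, ha, hb]

end Cfsg.Agent.S3518
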