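import Cfsg.Statements.S3548
import Cfsg.Agent.Lib.Helper19.Derangement

set_option autoImplicit false
open Cfsg

namespace Cfsg.Agent.S3548

open MulAction Cfsg.Agent.Lib.Helper19
set_option linter.style.haveILetI false
set_option linter.unusedSimpArgs false

theorem primePow_of_index {G Ω : Type*} [Group G] [Finite G] [MulAction G Ω] [FaithfulSMul G Ω] [Finite Ω]
    (htrans : MulAction.IsPretransitive G Ω) (hΩ : 2 ≤ Nat.card Ω)
    (hidx : (derSub G Ω).index = Nat.card Ω - 1) : IsPrimePow (Nat.card Ω) := by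
  classical
  haveI : Nonempty Ω := by
    by_contra h
    rw [not_nonempty_iff] at h
    simp [Nat.card_eq_zero.mpr (Or.inl h)] at hΩ
  obtain ⟨α⟩ := ‹Nonempty Ω›
  set D := derSub G Ω with hD
  set H := stabilizer G α with hH
  haveI hDn : D.Normal := derSub_normal
  haveI hDt : IsPretransitive D Ω := derSub_pretransitive
  -- orbits of H on the other points
  have horb : ∀ β : Ω, β ≠ α → (orbit H β) = ({α}ᶜ : Set Ω) := by
    intro β hβ
    have hsub : orbit H β ⊆ ({α}ᶜ : Set Ω) := by
      rintro _ ⟨h, rfl⟩ hx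
      apply hβ
      simp only [Set.mem_singleton_iff] at hx
      have h2 : h⁻¹ • (h • β) = h⁻¹ • α := by rw [hx]
      rw [inv_smul_smul] at h2
      rw [h2]
      exact (h⁻¹).2
    have hdvd : D.index ∣ (orbit H β).ncard := by
      apply index_dvd_ncard α
      · intro hα
        exact hsub hα rfl
      · rintro h hh _ ⟨k, rfl⟩
        exact ⟨⟨h, hh⟩ * k, by simp only [mul_smul]; rfl⟩
    have hpos : 0 < (orbit H β).ncard := by
      rw [Set.ncard_pos]
      exact ⟨β, mem_orbit_self β⟩
    have hle := Nat.le_of_dvd hpos hdvd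
    apply Set.eq_of_subset_of_ncard_le hsub
    rw [Set.ncard_compl, Set.ncard_singleton, ← hidx]
    exact hle
  -- D ∩ H fixes every point
  have hK : ∀ k ∈ D, k ∈ H → k = 1 := by
    intro k hkD hkH
    apply FaithfulSMul.eq_of_smul_eq_smul (α := Ω)
    intro β
    rw [one_smul]
    by_cases hβ : β = α
    · rw [hβ]; exact hkH
    · have hA : (stabilizer H β).index = Nat.card Ω - 1 := by
        rw [index_stabilizer, horb β hβ, Set.ncard_compl, Set.ncard_singleton]
      have hB : (D.subgroupOf H).index = Nat.card Ω - 1 := by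
        rw [← hidx, ← relIndex_stabilizer α]
        rfl
      have hAB : stabilizer H β ≤ D.subgroupOf H := by
        intro h hh
        rw [Subgroup.mem_subgroupOf]
        apply mem_derSub_of_fix_ne_one
        intro h1
        rw [Nat.card_eq_one_iff_unique] at h1
        have e := h1.1.elim (⟨α, h.2⟩ : fixedBy Ω (h : G)) ⟨β, hh⟩
        exact hβ (congrArg Subtype.val e).symm
      have hmul := Subgroup.relIndex_mul_index hAB
      rw [hA, hB] at hmul
      have hone : (stabilizer H β).relIndex (D.subgroupOf H) = 1 := by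
        have hpos : 0 < Nat.card Ω - 1 := by omega
        exact Nat.eq_of_mul_eq_mul_right hpos (by rw [hmul, one_mul])
      rw [Subgroup.relIndex_eq_one] at hone
      have : (⟨k, hkH⟩ : H) ∈ stabilizer H β := hone (by rw [Subgroup.mem_subgroupOf]; exact hkD)
      exact this
  -- card D = card Ω
  have hcardD : Nat.card D = Nat.card Ω := by
    have hst : stabilizer D α = ⊥ := by
      rw [Subgroup.eq_bot_iff_forall]
      intro d hd
      ext
      exact hK d.1 d.2 hd
    have := index_stabilizer_of_transitive D α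
    rw [hst, Subgroup.index_bot] at this
    exact this
  -- non-identity elements of D are conjugate
  have hconj : ∀ d ∈ D, ∀ d' ∈ D, d ≠ 1 → d' ≠ 1 → ∃ h : G, d' = h * d * h⁻¹ := by
    intro d hd d' hd' hd1 hd'1
    have h1 : d • α ≠ α := fun h => hd1 (hK d hd h)
    have h2 : d' • α ≠ α := fun h => hd'1 (hK d' hd' h)
    have hmem : d' • α ∈ orbit H (d • α) := by
      rw [horb _ h1]; exact h2
    obtain ⟨h, hh⟩ := hmem
    refine ⟨h, ?_⟩
    have hfix : (d'⁻¹ * ((h : G) * d * (h : G)⁻¹)) ∈ H := by
      change _ ∈ stabilizer G α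
      rw [mem_stabilizer_iff, mul_smul, mul_smul, mul_smul]
      have : (h : G)⁻¹ • α = α := (h⁻¹).2
      rw [this]
      have hh' : (h : G) • d • α = d' • α := hh
      rw [hh', inv_smul_smul]
    have hmemD : (d'⁻¹ * ((h : G) * d * (h : G)⁻¹)) ∈ D :=
      D.mul_mem (D.inv_mem hd') (hDn.conj_mem d hd h)
    have := hK _ hmemD hfix
    exact (inv_mul_eq_one.mp this)
  -- choose a prime
  have hne1 : Nat.card D ≠ 1 := by omega
  obtain ⟨p, hp, hpd⟩ := Nat.exists_prime_and_dvd hne1
  haveI : Fact p.Prime := ⟨hp⟩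
  obtain ⟨x, hx⟩ := exists_prime_orderOf_dvd_card' p hpd
  have hx1 : (x : G) ≠ 1 := by
    intro h
    have : x = 1 := by ext; exact h
    rw [this, orderOf_one] at hx
    exact hp.one_lt.ne hx
  have hxp : (x : G) ^ p = 1 := by
    have := pow_orderOf_eq_one x
    rw [hx] at this
    exact_mod_cast congrArg Subtype.val this
  have hPG : IsPGroup p D := by
    intro d
    by_cases hd1 : (d : G) = 1
    · exact ⟨0, by ext; simpa using hd1⟩
    · obtain ⟨h, hh⟩ := hconj x x.2 d d.2 hx1 hd1
      refine ⟨1, ?_⟩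
      ext
      simp only [pow_one, Subgroup.coe_pow, Subgroup.coe_one]
      rw [hh, conj_pow, hxp]
      simp
  obtain ⟨k, hk⟩ := IsPGroup.iff_card.mp hPG
  rw [isPrimePow_nat_iff]
  refine ⟨p, k, hp, ?_, ?_⟩
  · rcases Nat.eq_zero_or_pos k with h0 | h0
    · rw [h0, pow_zero] at hk; omega
    · exact h0
  · rw [← hk, hcardD]

/-- Let G act faithfully and transitively on a finite set with n ≥ 2 points and let D be the subgroup generated by the derangements. Then the index of D in G divides n − 1, and if it equals n − 1 then n is a prime power. -/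
theorem result {G Ω : Type*} [Group G] [Finite G] [MulAction G Ω] [FaithfulSMul G Ω] [Finite Ω]
    (htrans : MulAction.IsPretransitive G Ω) (hΩ : 2 ≤ Nat.card Ω) :
    (Subgroup.closure {g : G | ∀ ω : Ω, g • ω ≠ ω}).index ∣ Nat.card Ω - 1 ∧
    ((Subgroup.closure {g : G | ∀ ω : Ω, g • ω ≠ ω}).index = Nat.card Ω - 1 → IsPrimePow (Nat.card Ω)) := by
  haveI : Nonempty Ω := by
    by_contra h
    rw [not_nonempty_iff] at h
    simp [Nat.card_eq_zero.mpr (Or.inl h)] at hΩ
  exact ⟨index_dvd_card_sub_one, primePow_of_index htrans hΩ⟩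

end Cfsg.Agent.S3548
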