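import Cfsg.Statements.S3549
import Cfsg.Agent.Lib.Helper19.Derangement

set_option autoImplicit false
open Cfsg

namespace Cfsg.Agent.S3549

open MulAction Cfsg.Agent.Lib.Helper19
open scoped Pointwise
set_option linter.style.haveILetI false
set_option linter.unusedSimpArgs false

/-- Let G act faithfully, transitively but imprimitively on a finite set with n points, and let D be the subgroup generated by the derangements. Then the index of D in G is at most √n − 1. -/
theorem result {G Ω : Type*} [Group G] [Finite G] [MulAction G Ω] [FaithfulSMul G Ω] [Finite Ω]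
    (htrans : MulAction.IsPretransitive G Ω) (himp : ¬ MulAction.IsPreprimitive G Ω) :
    ((Subgroup.closure {g : G | ∀ ω : Ω, g • ω ≠ ω}).index : ℝ) ≤ Real.sqrt (Nat.card Ω) - 1 := by
  classical
  -- a nontrivial block
  obtain ⟨B, hB, hBnt⟩ : ∃ B : Set Ω, IsBlock G B ∧ ¬ IsTrivialBlock B := by
    by_contra h
    push Not at h
    exact himp { toIsPretransitive := htrans, isTrivialBlock_of_isBlock := fun {B} hB => h B hB }
  unfold IsTrivialBlock at hBnt
  push Not at hBnt
  obtain ⟨hBns, hBne⟩ := hBnt
  obtain ⟨α, hα, β, hβ, hαβ⟩ := hBns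
  haveI : Nonempty Ω := ⟨α⟩
  have hBnonempty : B.Nonempty := ⟨α, hα⟩
  change ((derSub G Ω).index : ℝ) ≤ _
  set D := derSub G Ω with hD
  -- first divisibility
  have h1 : D.index ∣ B.ncard - 1 := by
    have := index_dvd_ncard (G := G) α (B \ {α}) (by simp) (by
      intro h hh x hx
      have hst : h ∈ stabilizer G B := hB.stabilizer_le hα hh
      rw [mem_stabilizer_iff] at hst
      refine ⟨?_, ?_⟩
      · rw [← hst]; exact Set.smul_mem_smul_set hx.1
      · intro hx'
        apply hx.2
        simp only [Set.mem_singleton_iff] at hx' ⊢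
        have h2 : h⁻¹ • (h • x) = h⁻¹ • α := by rw [hx']
        rw [inv_smul_smul] at h2
        rw [h2]
        exact (stabilizer G α).inv_mem hh)
    rwa [Set.ncard_sdiff_singleton_of_mem hα] at this
  -- second divisibility
  haveI : Finite (orbit G B) := (Set.finite_range _).to_subtype
  have h2 : D.index ∣ (orbit G B).ncard - 1 := by
    have hle : derSub G (orbit G B) ≤ D := by
      apply Subgroup.closure_mono
      intro g hg ω hω
      obtain ⟨k, rfl⟩ := exists_smul_eq G α ω
      apply hg ⟨k • B, mem_orbit B k⟩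
      have hst : g ∈ stabilizer G (k • B) :=
        (hB.translate k).stabilizer_le (Set.smul_mem_smul_set hα) hω
      ext1
      exact hst
    have h3 := Subgroup.index_dvd_of_le hle
    haveI : Nonempty (orbit G B) := ⟨⟨B, mem_orbit_self B⟩⟩
    have h4 := index_dvd_card_sub_one (G := G) (X := orbit G B)
    rw [Nat.card_coe_set_eq] at h4
    exact h3.trans h4
  have hmul := hB.ncard_block_mul_ncard_orbit_eq hBnonempty
  have hb2 : 2 ≤ B.ncard := by
    have := (Set.one_lt_ncard (s := B) (Set.toFinite B)).mpr ⟨α, hα, β, hβ, hαβ⟩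
    omega
  have hm2 : 2 ≤ (orbit G B).ncard := by
    by_contra hlt
    apply hBne
    apply hB.eq_univ_of_card_lt
    rw [← hmul]
    have : (orbit G B).ncard ≤ 1 := by omega
    nlinarith
  have h1' : D.index ≤ B.ncard - 1 := Nat.le_of_dvd (by omega) h1
  have h2' : D.index ≤ (orbit G B).ncard - 1 := Nat.le_of_dvd (by omega) h2
  have hsq : (D.index + 1) ^ 2 ≤ Nat.card Ω := by
    rw [← hmul, sq]
    exact Nat.mul_le_mul (by omega) (by omega)
  have : ((D.index : ℝ) + 1) ≤ Real.sqrt (Nat.card Ω) := by
    apply Real.le_sqrt_of_sq_le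
    exact_mod_cast hsq
  linarith

end Cfsg.Agent.S3549
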