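import Cfsg.Statements.S3560
import Mathlib

set_option autoImplicit false
open Cfsg

namespace Cfsg.Agent.S3560

open Pointwise
section PA
variable {ι A Ω : Type*} [DecidableEq ι] [DecidableEq A] (co : Ω ≃ (ι → A))

def Adj (x y : Ω) : Prop := ∃ i, ∀ k, k ≠ i → co x k = co y k

def isoG : Subgroup (Equiv.Perm Ω) where
  carrier := {g | ∀ x y, Adj co (g x) (g y) ↔ Adj co x y}
  one_mem' := fun x y => Iff.rfl
  mul_mem' := fun {a b} ha hb x y => by
    rw [Equiv.Perm.mul_apply, Equiv.Perm.mul_apply, ha, hb]
  inv_mem' := fun {a} ha x y => by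
    have e : ∀ z, a (a⁻¹ z) = z := fun z => by
      rw [← Equiv.Perm.mul_apply, mul_inv_cancel, Equiv.Perm.one_apply]
    have := ha (a⁻¹ x) (a⁻¹ y)
    rw [e, e] at this
    exact this.symm

def el (π : ι → Equiv.Perm A) (s : Equiv.Perm ι) : Equiv.Perm Ω :=
  co.symm.permCongr ((Equiv.arrowCongr s (Equiv.refl A)).trans (Equiv.piCongrRight π))

lemma co_el (π : ι → Equiv.Perm A) (s : Equiv.Perm ι) (w : Ω) (k : ι) :
    co (el co π s w) k = π k (co w (s.symm k)) := by
  simp [el]

lemma co_el1 (π : ι → Equiv.Perm A) (w : Ω) (k : ι) :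
    co (el co π 1 w) k = π k (co w k) := by
  rw [co_el]; rfl

lemma el_mem (π : ι → Equiv.Perm A) (s : Equiv.Perm ι) : el co π s ∈ isoG co := by
  intro x y
  constructor
  · rintro ⟨i, hi⟩
    refine ⟨s.symm i, fun k hk => ?_⟩
    have := hi (s k) (by intro h; apply hk; rw [← h]; simp)
    rw [co_el, co_el] at this
    simpa using this
  · rintro ⟨i, hi⟩
    refine ⟨s i, fun k hk => ?_⟩
    rw [co_el, co_el, hi (s.symm k) (by intro h; apply hk; rw [← h]; simp)]

def pt (x : Ω) (i : ι) (c : A) : Ω := co.symm (Function.update (co x) i c)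

lemma co_pt (x : Ω) (i : ι) (c : A) (k : ι) :
    co (pt co x i c) k = if k = i then c else co x k := by
  simp [pt, Function.update_apply]

lemma blk {B : Set Ω} (hB : MulAction.IsBlock (isoG co) B) {g : Equiv.Perm Ω}
    (hg : g ∈ isoG co) {x y : Ω} (hx : x ∈ B) (hgx : g x ∈ B) (hy : y ∈ B) : g y ∈ B := by
  have h := hB.smul_eq_of_mem (g := ⟨g, hg⟩) hx hgx
  have h2 : (⟨g, hg⟩ : isoG co) • y ∈ (⟨g, hg⟩ : isoG co) • B := Set.smul_mem_smul_set hy
  rw [h] at h2
  exact h2

lemma spread (h3 : ∀ u v : A, ∃ c, c ≠ u ∧ c ≠ v) {B : Set Ω}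
    (hB : MulAction.IsBlock (isoG co) B) {x y : Ω} (hx : x ∈ B) (hy : y ∈ B) {i : ι}
    (hi : co x i ≠ co y i) (j : ι) (d : A) : pt co x j d ∈ B := by
  obtain ⟨c, hc1, hc2⟩ := h3 (co x i) (co y i)
  -- step 1
  have h1 : pt co y i c ∈ B := by
    have hfix : el co (Function.update 1 i (Equiv.swap (co y i) c)) 1 x = x := by
      apply co.injective
      funext k
      rw [co_el1]
      by_cases hk : k = i
      · subst hk
        simp [Equiv.swap_apply_of_ne_of_ne hi hc1.symm]
      · simp [Function.update_apply, hk]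
    have hmv : el co (Function.update 1 i (Equiv.swap (co y i) c)) 1 y = pt co y i c := by
      apply co.injective
      funext k
      rw [co_el1, co_pt]
      by_cases hk : k = i
      · subst hk
        simp
      · simp [Function.update_apply, hk]
    rw [← hmv]
    exact blk co hB (el_mem co _ _) hx (by rw [hfix]; exact hx) hy
  -- step 2 : translate to x
  have h2 : pt co x i c ∈ B := by
    have hyx : el co (fun k => Equiv.swap (co y k) (co x k)) 1 y = x := by
      apply co.injective
      funext k
      rw [co_el1]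
      simp
    have hmv : el co (fun k => Equiv.swap (co y k) (co x k)) 1 (pt co y i c) = pt co x i c := by
      apply co.injective
      funext k
      rw [co_el1, co_pt]
      by_cases hk : k = i
      · subst hk
        simp [co_pt, Equiv.swap_apply_of_ne_of_ne hc2 hc1]
      · simp [co_pt, hk]
    rw [← hmv]
    exact blk co hB (el_mem co _ _) hy (by rw [hyx]; exact hx) h1
  -- step 3
  by_cases hd : d = co x j
  · have : pt co x j d = x := by
      apply co.injective
      funext k
      rw [co_pt]
      split_ifs with hk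
      · rw [hd, hk]
      · rfl
    rw [this]; exact hx
  set q : Equiv.Perm A := Equiv.swap (Equiv.swap (co x i) (co x j) c) d *
    Equiv.swap (co x i) (co x j) with hq
  have hq1 : q (co x i) = co x j := by
    rw [hq, Equiv.Perm.mul_apply, Equiv.swap_apply_left]
    apply Equiv.swap_apply_of_ne_of_ne
    · intro h
      apply hc1
      have : Equiv.swap (co x i) (co x j) (co x i) = Equiv.swap (co x i) (co x j) c := by
        rw [Equiv.swap_apply_left]; exact h
      exact ((Equiv.swap (co x i) (co x j)).injective this).symm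
    · exact fun h => hd h.symm
  have hq2 : q c = d := by
    rw [hq, Equiv.Perm.mul_apply, Equiv.swap_apply_left]
  set π : ι → Equiv.Perm A := fun k => if k = j then q else
    if k = i then Equiv.swap (co x j) (co x i) else 1 with hπ
  have hfix : el co π (Equiv.swap i j) x = x := by
    apply co.injective
    funext k
    rw [co_el, Equiv.symm_swap]
    by_cases hkj : k = j
    · subst hkj
      simp [hπ, hq1]
    · by_cases hki : k = i
      · subst hki
        simp [hπ, hkj]
      · simp [hπ, hkj, hki, Equiv.swap_apply_of_ne_of_ne hki hkj]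
  have hmv : el co π (Equiv.swap i j) (pt co x i c) = pt co x j d := by
    apply co.injective
    funext k
    rw [co_el, Equiv.symm_swap, co_pt, co_pt]
    by_cases hkj : k = j
    · subst hkj
      simp [hπ, hq2]
    · by_cases hki : k = i
      · subst hki
        have : ¬ (j = k) := fun h => hkj h.symm
        simp [hπ, hkj, this]
      · simp [hπ, hkj, hki, Equiv.swap_apply_of_ne_of_ne hki hkj]
  rw [← hmv]
  exact blk co hB (el_mem co _ _) hx (by rw [hfix]; exact hx) h2

lemma prim [Fintype ι] (h3 : ∀ u v : A, ∃ c, c ≠ u ∧ c ≠ v) :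
    MulAction.IsPreprimitive (isoG co) Ω := by
  have htr : MulAction.IsPretransitive (isoG co) Ω := by
    refine ⟨fun x y => ⟨⟨el co (fun k => Equiv.swap (co x k) (co y k)) 1, el_mem co _ _⟩, ?_⟩⟩
    change el co (fun k => Equiv.swap (co x k) (co y k)) 1 x = y
    apply co.injective
    funext k
    rw [co_el1]
    simp
  refine { toIsPretransitive := htr, isTrivialBlock_of_isBlock := ?_ }
  intro B hB
  by_cases hs : B.Subsingleton
  · exact Or.inl hs
  right
  rw [Set.not_subsingleton_iff] at hs
  obtain ⟨a, ha, b, hb, hab⟩ := hs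
  have hcl : ∀ y ∈ B, ∀ j d, pt co y j d ∈ B := by
    intro y hy j d
    have : ∃ z ∈ B, y ≠ z := by
      by_cases h : y = a
      · exact ⟨b, hb, h ▸ hab⟩
      · exact ⟨a, ha, h⟩
    obtain ⟨z, hz, hyz⟩ := this
    have : ∃ i, co y i ≠ co z i := by
      by_contra hcon
      push Not at hcon
      exact hyz (co.injective (funext hcon))
    obtain ⟨i, hi⟩ := this
    exact spread co h3 hB hy hz hi j d
  rw [Set.eq_univ_iff_forall]
  intro w
  have key : ∀ T : Finset ι, co.symm (fun k => if k ∈ T then co w k else co a k) ∈ B := by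
    intro T
    induction T using Finset.induction_on with
    | empty => simpa using ha
    | insert t T ht ih =>
      have := hcl _ ih t (co w t)
      convert this using 1
      apply co.injective
      funext k
      rw [co_pt]
      by_cases hk : k = t
      · subst hk; simp
      · simp [hk]
  have := key Finset.univ
  simpa using this

lemma not2 {i j : ι} (hij : i ≠ j) {a b : A} (hab : a ≠ b) :
    ¬ MulAction.IsMultiplyPretransitive (isoG co) Ω 2 := by
  intro h
  rw [MulAction.is_two_pretransitive_iff] at h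
  set x : Ω := co.symm (fun _ => a) with hx
  set y : Ω := pt co x i b with hy
  set z : Ω := pt co y j b with hz
  have hxi : ∀ k, co x k = a := fun k => by simp [hx]
  have hxy : x ≠ y := by
    intro h
    have := congrArg (fun w => co w i) h
    simp only [hy, co_pt, hxi] at this
    simp at this
    exact hab this
  have hzi : co z i = b := by
    rw [hz, co_pt, if_neg hij, hy, co_pt, if_pos rfl]
  have hzj : co z j = b := by
    rw [hz, co_pt, if_pos rfl]
  have hxz : x ≠ z := by
    intro h
    have := congrArg (fun w => co w j) h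
    simp only [hzj, hxi] at this
    exact hab this
  obtain ⟨g, hg1, hg2⟩ := h hxy hxz
  have hadj : Adj co x y := ⟨i, fun k hk => by rw [hy, co_pt, if_neg hk]⟩
  have := (g.2 x y).2 hadj
  have e1 : (g : Equiv.Perm Ω) x = x := hg1
  have e2 : (g : Equiv.Perm Ω) y = z := hg2
  rw [e1, e2] at this
  obtain ⟨k, hk⟩ := this
  by_cases hki : i = k
  · have := hk j (fun h => hij (hki.trans h.symm))
    rw [hxi, hzj] at this
    exact hab this
  · have := hk i hki
    rw [hxi, hzi] at this
    exact hab this

end PA

/-- Let K be a finite group isomorphic to a direct product of r ≥ 2 groups all of the same order m ≥ 3. Then K is not a B-group: there is a primitive but not doubly transitive permutation group (on some finite set) containing a regular subgroup isomorphic to K. -/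
theorem result {K : Type*} [Group K] [Finite K] {ι : Type*} [Fintype ι] (F : ι → Type*) [∀ i, Group (F i)]
    (hr : 2 ≤ Fintype.card ι) (m : ℕ) (hm : 3 ≤ m) (hcard : ∀ i, Nat.card (F i) = m) (e : K ≃* (∀ i, F i)) :
    ∃ (n : ℕ) (G R : Subgroup (Equiv.Perm (Fin n))), R ≤ G ∧ Nonempty (↥R ≃* K) ∧
      MulAction.IsPretransitive ↥R (Fin n) ∧ (∀ a : Fin n, MulAction.stabilizer ↥R a = ⊥) ∧
      MulAction.IsPreprimitive ↥G (Fin n) ∧ ¬ MulAction.IsMultiplyPretransitive ↥G (Fin n) 2 := by
  classical
  have hfin : ∀ i, Finite (F i) := fun i =>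
    Nat.finite_of_card_ne_zero (by rw [hcard i]; omega)
  let ε : ∀ i, F i ≃ Fin m := fun i => Finite.equivFinOfCardEq (hcard i)
  let co : Fin (Fintype.card (ι → Fin m)) ≃ (ι → Fin m) := (Fintype.equivFin (ι → Fin m)).symm
  let E : (∀ i, F i) ≃ Fin (Fintype.card (ι → Fin m)) := (Equiv.piCongrRight ε).trans co.symm
  let ρ : (∀ i, F i) →* Equiv.Perm (Fin (Fintype.card (ι → Fin m))) :=
    (E.permCongrHom).toMonoidHom.comp (MulAction.toPermHom (∀ i, F i) (∀ i, F i))
  have hρ : ∀ k w, ρ k w = E (k * E.symm w) := fun k w => rfl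
  have hinj : Function.Injective ρ := by
    intro k k' h
    have := congrArg (fun p => p (E 1)) h
    simp only [hρ, Equiv.symm_apply_apply, mul_one] at this
    exact E.injective this
  have h3 : ∀ u v : Fin m, ∃ c, c ≠ u ∧ c ≠ v := by
    intro u v
    have : 2 < Fintype.card (Fin m) := by simp; omega
    have h := Finset.exists_mem_notMem_of_card_lt_card (s := {u, v}) (t := Finset.univ)
      (lt_of_le_of_lt Finset.card_le_two (by simpa using this))
    obtain ⟨c, -, hc⟩ := h
    simp at hc
    exact ⟨c, hc.1, hc.2⟩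
  refine ⟨_, isoG co, ρ.range, ?_, ⟨(MonoidHom.ofInjective hinj).symm.trans e.symm⟩, ?_, ?_,
    prim co h3, ?_⟩
  · rintro _ ⟨k, rfl⟩
    intro x y
    have hc : ∀ w i, co (ρ k w) i = ε i (k i * (ε i).symm (co w i)) := by
      intro w i
      rw [hρ]
      simp [E]
    unfold Adj
    simp only [hc]
    simp
  · refine ⟨fun a b => ⟨⟨ρ (E.symm b * (E.symm a)⁻¹), ⟨_, rfl⟩⟩, ?_⟩⟩
    change ρ (E.symm b * (E.symm a)⁻¹) a = b
    rw [hρ]
    simp
  · intro a
    rw [eq_bot_iff]
    rintro ⟨_, ⟨k, rfl⟩⟩ hk
    have hk' : ρ k a = a := hk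
    rw [hρ] at hk'
    have hk1 : k = 1 := by
      have := congrArg E.symm hk'
      rw [Equiv.symm_apply_apply] at this
      exact mul_eq_right.1 this
    subst hk1
    simp
  · obtain ⟨i, j, hij⟩ := Fintype.one_lt_card_iff.1 (by omega : 1 < Fintype.card ι)
    exact not2 co hij (a := (⟨0, by omega⟩ : Fin m)) (b := ⟨1, by omega⟩) (by simp)

end Cfsg.Agent.S3560
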