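import Cfsg.Statements.S3619

set_option autoImplicit false
open Cfsg

namespace Cfsg.Agent.S3619

open MulAction SubMulAction
open scoped Pointwise
set_option linter.style.haveILetI false

theorem prim_of_quasiprim {G Ω : Type*} [Group G] [Finite G] [MulAction G Ω] [FaithfulSMul G Ω] [Finite Ω]
    (hqp : ∀ N : Subgroup G, N.Normal → N ≠ ⊥ → MulAction.IsPretransitive ↥N Ω)
    (Γ : Set Ω) (hΓ1 : 1 < Γ.ncard)
    (hJp : MulAction.IsPreprimitive ↥(fixingSubgroup G Γᶜ) ↥(SubMulAction.ofFixingSubgroup G Γᶜ)) :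
    MulAction.IsPreprimitive G Ω := by
  classical
  set K := fixingSubgroup G Γᶜ with hK
  -- two distinct points of Γ
  obtain ⟨a, ha, b, hb, hab⟩ := (Set.one_lt_ncard (s := Γ) (Set.toFinite Γ)).mp hΓ1
  have hmemY : ∀ x : Ω, x ∈ Γ → x ∈ ofFixingSubgroup G Γᶜ := by
    intro x hx
    rw [mem_ofFixingSubgroup_iff]
    simpa using hx
  have hYmem : ∀ y : ofFixingSubgroup G Γᶜ, (y : Ω) ∈ Γ := by
    intro y
    have := y.2
    rw [mem_ofFixingSubgroup_iff] at this
    simpa using this
  -- K is nontrivial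
  have hKne : K ≠ ⊥ := by
    intro hbot
    obtain ⟨k, hk⟩ := hJp.toIsPretransitive.exists_smul_eq ⟨a, hmemY a ha⟩ ⟨b, hmemY b hb⟩
    have hk1 : k = 1 := by
      have : (k : G) ∈ K := k.2
      rw [hbot, Subgroup.mem_bot] at this
      ext; exact this
    rw [hk1, one_smul] at hk
    exact hab (congrArg Subtype.val hk)
  have hGtop : IsPretransitive G Ω := by
    have htop : (⊤ : Subgroup G) ≠ ⊥ := by
      intro h
      apply hKne
      rw [eq_bot_iff, ← h]
      exact le_top
    have := hqp ⊤ inferInstance htop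
    refine ⟨fun x y => ?_⟩
    obtain ⟨g, hg⟩ := this.exists_smul_eq x y
    exact ⟨g, hg⟩
  refine { toIsPretransitive := hGtop, isTrivialBlock_of_isBlock := ?_ }
  intro B hB
  by_contra hnt
  unfold IsTrivialBlock at hnt
  push Not at hnt
  obtain ⟨hBnt, hBne⟩ := hnt
  obtain ⟨x₀, hx₀, x₁, hx₁, hx₀₁⟩ := hBnt
  -- K is contained in the normal core of the stabilizer of B
  have hKle : K ≤ (stabilizer G B).normalCore := by
    intro k hk g
    -- it suffices that k stabilizes g⁻¹ • B
    have hB' : IsBlock G (g⁻¹ • B) := hB.translate g⁻¹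
    have hkB' : k • (g⁻¹ • B) = g⁻¹ • B := by
      apply hB'.smul_eq_of_nonempty
      by_cases hsub : g⁻¹ • B ⊆ Γ
      · -- the block is contained in Γ
        have hblk : IsBlock K ((ofFixingSubgroup_equivariantMap G Γᶜ) ⁻¹' (g⁻¹ • B)) :=
          IsBlock.preimage (ofFixingSubgroup_equivariantMap G Γᶜ) hB'
        rcases hJp.isTrivialBlock_of_isBlock hblk with hs | hu
        · exfalso
          have h0 : g⁻¹ • x₀ ∈ g⁻¹ • B := Set.smul_mem_smul_set hx₀
          have h1 : g⁻¹ • x₁ ∈ g⁻¹ • B := Set.smul_mem_smul_set hx₁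
          have := @hs ⟨g⁻¹ • x₀, hmemY _ (hsub h0)⟩ h0 ⟨g⁻¹ • x₁, hmemY _ (hsub h1)⟩ h1
          have h2 : g⁻¹ • x₀ = g⁻¹ • x₁ := congrArg Subtype.val this
          exact hx₀₁ (smul_left_cancel _ h2)
        · have h0 : g⁻¹ • x₀ ∈ g⁻¹ • B := Set.smul_mem_smul_set hx₀
          refine ⟨k • (g⁻¹ • x₀), Set.smul_mem_smul_set h0, ?_⟩
          have hy : ((⟨k, hk⟩ : K) • (⟨g⁻¹ • x₀, hmemY _ (hsub h0)⟩ : ofFixingSubgroup G Γᶜ)) ∈
              (ofFixingSubgroup_equivariantMap G Γᶜ) ⁻¹' (g⁻¹ • B) := by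
            rw [hu]; trivial
          exact hy
      · rw [Set.not_subset] at hsub
        obtain ⟨δ, hδ, hδΓ⟩ := hsub
        refine ⟨δ, ?_, hδ⟩
        have hfix : k • δ = δ := (mem_fixingSubgroup_iff G).mp hk δ (by simpa using hδΓ)
        rw [← hfix]
        exact Set.smul_mem_smul_set hδ
    rw [mem_stabilizer_iff]
    calc (g * k * g⁻¹) • B = g • (k • (g⁻¹ • B)) := by rw [mul_smul, mul_smul]
      _ = g • (g⁻¹ • B) := by rw [hkB']
      _ = B := smul_inv_smul g B
  have hNne : (stabilizer G B).normalCore ≠ ⊥ := by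
    intro h
    apply hKne
    rw [eq_bot_iff, ← h]
    exact hKle
  have hNt := hqp _ inferInstance hNne
  apply hBne
  rw [Set.eq_univ_iff_forall]
  intro y
  obtain ⟨n, hn⟩ := hNt.exists_smul_eq x₀ y
  have hnB : (n : G) • B = B := (Subgroup.normalCore_le _ n.2)
  rw [← hnB, ← hn]
  exact Set.smul_mem_smul_set hx₀

/-- Let G act faithfully on a finite set in such a way that every non-trivial normal subgroup of G is transitive (G is quasiprimitive). Let Γ be a subset with more than one point and not the whole set, such that the pointwise stabilizer of the complement of Γ acts transitively on Γ (a Jordan set). If that pointwise stabilizer acts primitively on Γ, then G is k-fold transitive where k is one more than the number of points outside Γ (the Jordan set is a trivial one). -/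
theorem result {G Ω : Type*} [Group G] [Finite G] [MulAction G Ω] [FaithfulSMul G Ω] [Finite Ω]
    (hqp : ∀ N : Subgroup G, N.Normal → N ≠ ⊥ → MulAction.IsPretransitive ↥N Ω)
    (Γ : Set Ω) (hΓ1 : 1 < Γ.ncard) (hΓ2 : Γ.ncard < Nat.card Ω)
    (hJ : MulAction.IsPretransitive ↥(fixingSubgroup G Γᶜ) ↥(SubMulAction.ofFixingSubgroup G Γᶜ))
    (hJp : MulAction.IsPreprimitive ↥(fixingSubgroup G Γᶜ) ↥(SubMulAction.ofFixingSubgroup G Γᶜ)) :
    MulAction.IsMultiplyPretransitive G Ω (Nat.card Ω - Γ.ncard + 1) := by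
  classical
  have hprim := prim_of_quasiprim hqp Γ hΓ1 hJp
  have hc : Γᶜ.ncard = Nat.card Ω - Γ.ncard := Set.ncard_compl Γ
  obtain ⟨n, hn⟩ : ∃ n, Γᶜ.ncard = n + 1 := ⟨Γᶜ.ncard - 1, by omega⟩
  have := hprim.isMultiplyPreprimitive (s := Γᶜ) (n := n) hn (by omega) hJp
  have h2 := IsMultiplyPreprimitive.isMultiplyPretransitive G Ω (n + 2)
  have e : Nat.card Ω - Γ.ncard + 1 = n + 2 := by omega
  rw [e]
  exact h2

end Cfsg.Agent.S3619
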