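import Cfsg.Statements.S3627
import Cfsg.Agent.Lib.Helper21.J1Spectrum
import Cfsg.Agent.Lib.Helper21.GenDih

set_option autoImplicit false
open Cfsg

namespace Cfsg.Agent.S3627

open Cfsg.Agent.Lib.Helper21

theorem range_orderOf_prod {α β : Type*} [Monoid α] [Monoid β] :
    Set.range (orderOf : α × β → ℕ) =
      Set.image2 Nat.lcm (Set.range (orderOf : α → ℕ)) (Set.range (orderOf : β → ℕ)) := by
  ext n
  simp only [Set.mem_range, Set.mem_image2, Prod.exists, Prod.orderOf]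
  constructor
  · rintro ⟨a, b, rfl⟩
    exact ⟨_, ⟨a, rfl⟩, _, ⟨b, rfl⟩, rfl⟩
  · rintro ⟨_, ⟨a, rfl⟩, _, ⟨b, rfl⟩, rfl⟩
    exact ⟨a, b, rfl⟩

theorem finset_eq :
    Finset.image₂ Nat.lcm ({1, 2, 3, 5, 6, 7, 10, 11, 15, 19} : Finset ℕ)
      (Finset.image₂ Nat.lcm ({1, 2, 3, 5, 6, 7, 10, 11, 15, 19} : Finset ℕ)
        (Finset.image₂ Nat.lcm ({1, 2, 3, 5, 6, 7, 10, 11, 15, 19} : Finset ℕ) ({1, 2, 7} : Finset ℕ)))
    = Finset.image₂ Nat.lcm ({1, 2, 3, 5, 6, 7, 10, 11, 15, 19} : Finset ℕ)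
      (Finset.image₂ Nat.lcm ({1, 2, 3, 5, 6, 7, 10, 11, 15, 19} : Finset ℕ)
        (Finset.image₂ Nat.lcm ({1, 2, 3, 5, 6, 7, 10, 11, 15, 19} : Finset ℕ)
          ({1, 2, 3, 5, 6, 7, 10, 11, 15, 19} : Finset ℕ))) := by
  decide +kernel

/-- Let J be the first Janko group. Then there are finite groups of arbitrarily large order with exactly the same set of element orders as J × J × J × J. -/
theorem result (N : ℕ) : ∃ (H : Type) (_ : Group H) (_ : Fintype H), N < Fintype.card H ∧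
      Set.range (orderOf : H → ℕ) = Set.range (orderOf : ↥Cfsg.Spor.J1 × ↥Cfsg.Spor.J1 × ↥Cfsg.Spor.J1 × ↥Cfsg.Spor.J1 → ℕ) := by
  refine ⟨↥Cfsg.Spor.J1 × ↥Cfsg.Spor.J1 × ↥Cfsg.Spor.J1 × ↥(GenDih.gd (N + 1)), inferInstance,
    Fintype.ofFinite _, ?_, ?_⟩
  · rw [← @Nat.card_eq_fintype_card _ (Fintype.ofFinite _)]
    have h1 : Function.Injective (fun s : ↥(GenDih.gd (N + 1)) =>
        ((1, 1, 1, s) : ↥Cfsg.Spor.J1 × ↥Cfsg.Spor.J1 × ↥Cfsg.Spor.J1 × ↥(GenDih.gd (N + 1)))) := by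
      intro a b h
      simpa using h
    have h2 := Nat.card_le_card_of_injective _ h1
    have h3 := GenDih.card_ge (N + 1)
    have h4 : N + 1 < 7 ^ (N + 1) := Nat.lt_pow_self (by norm_num)
    omega
  · simp only [range_orderOf_prod, J1.J1_spectrum, GenDih.spectrum, ← Finset.coe_image₂]
    rw [finset_eq]

end Cfsg.Agent.S3627
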