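import Cfsg.Statements.S3633
import Cfsg.Agent.Lib.Helper19.ThreePrimes

set_option autoImplicit false
open Cfsg

namespace Cfsg.Agent.S3633

/-- Let G be a finite group and ρ a set of at least three prime divisors of the order of G that are pairwise non-adjacent in the prime graph (no element of order rs for distinct r, s ∈ ρ). Then at most one prime of ρ divides the order of any given solvable normal subgroup of G; in particular G is not solvable. -/
theorem result {G : Type*} [Group G] [Finite G] (ρ : Finset ℕ) (hρ : 3 ≤ ρ.card) (hc : ((∀ r ∈ ρ, r.Prime ∧ r ∣ Nat.card G) ∧ (∀ r ∈ ρ, ∀ s ∈ ρ, r ≠ s → ¬ ∃ x : G, orderOf x = r * s)))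
    (K : Subgroup G) [K.Normal] (hK : Group.IsSolvable ↥K) :
    (∀ r ∈ ρ, ∀ s ∈ ρ, r ∣ Nat.card ↥K → s ∣ Nat.card ↥K → r = s) ∧ ¬ Group.IsSolvable G := by
  classical
  have main := Cfsg.Agent.Lib.Helper19.coclique_solvable (G := G) (↑ρ : Set ℕ)
    (fun a ha => (hc.1 a ha).1) hc.2
  constructor
  · intro r hr s hs hrK hsK
    by_contra hne
    have hne' : ((ρ.erase r).erase s).Nonempty := by
      rw [← Finset.card_pos]
      have h1 := Finset.card_erase_of_mem hr
      have h2 : s ∈ ρ.erase r := Finset.mem_erase.mpr ⟨Ne.symm hne, hs⟩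
      have h3 := Finset.card_erase_of_mem h2
      omega
    obtain ⟨t, ht⟩ := hne'
    simp only [Finset.mem_erase] at ht
    exact main _ K hK rfl r hr s hs t ht.2.2 hne (Ne.symm ht.2.1) (Ne.symm ht.1) hrK hsK
      (hc.1 t ht.2.2).2
  · intro hG
    obtain ⟨a, b, c, ha, hb, hc', hab, hac, hbc⟩ := Finset.two_lt_card_iff.mp (by omega : 2 < ρ.card)
    have hT : Group.IsSolvable (⊤ : Subgroup G) := inferInstance
    refine main _ ⊤ hT rfl a ha b hb c hc' hab hac hbc ?_ ?_ (hc.1 c hc').2
    · rw [Subgroup.card_top]; exact (hc.1 a ha).2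
    · rw [Subgroup.card_top]; exact (hc.1 b hb).2

end Cfsg.Agent.S3633
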