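import Mathlib
import Cfsg.Statements.S3680
import Cfsg.Agent.S0721
import Cfsg.Agent.Lib.Helper4.MinNormal


set_option autoImplicit false
open Cfsg Cfsg.Agent.Lib.Helper4

namespace Cfsg.Agent.S3680


theorem pretrans_of_normal {G Ω : Type*} [Group G] [MulAction G Ω] [FaithfulSMul G Ω]
    (hprim : MulAction.IsPreprimitive G Ω) (K : Subgroup G) [K.Normal] (hK : K ≠ ⊥) :
    MulAction.IsPretransitive K Ω := by
  apply MulAction.IsQuasiPreprimitive.isPretransitive_of_normal
  intro h
  apply hK
  rw [eq_bot_iff]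
  intro k hk
  rw [Subgroup.mem_bot]
  apply FaithfulSMul.eq_of_smul_eq_smul (α := Ω)
  intro a
  have h1 : a ∈ MulAction.fixedPoints K Ω := by rw [h]; trivial
  rw [one_smul]; exact h1 ⟨k, hk⟩

theorem eq_one_of_commute {G Ω : Type*} [Group G] [MulAction G Ω] [FaithfulSMul G Ω]
    (K : Subgroup G) (hK : MulAction.IsPretransitive K Ω) (c : G) (hc : ∀ k ∈ K, Commute c k)
    (ω : Ω) (h : c • ω = ω) : c = 1 := by
  apply FaithfulSMul.eq_of_smul_eq_smul (α := Ω)
  intro a
  obtain ⟨k, hk⟩ := MulAction.exists_smul_eq K ω a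
  rw [one_smul, ← hk]
  show c • ((k : G) • ω) = (k:G) • ω
  rw [smul_smul, (hc k k.2).eq, mul_smul, h]

theorem eq_of_smul_eq {G Ω : Type*} [Group G] [MulAction G Ω] [FaithfulSMul G Ω]
    (K C : Subgroup G) (hK : MulAction.IsPretransitive K Ω) (hc : ∀ c ∈ C, ∀ k ∈ K, Commute c k)
    (ω : Ω) (a b : G) (ha : a ∈ C) (hb : b ∈ C) (h : a • ω = b • ω) : a = b := by
  have h1 : b⁻¹ * a = 1 := by
    apply eq_one_of_commute K hK _ (hc _ (C.mul_mem (C.inv_mem hb) ha)) ω
    rw [mul_smul, h, inv_smul_smul]
  exact (inv_mul_eq_one.mp h1).symm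

/-- two commuting regular subgroups are isomorphic -/
theorem regular_equiv {G Ω : Type*} [Group G] [MulAction G Ω] [FaithfulSMul G Ω]
    (V W : Subgroup G) (hV : MulAction.IsPretransitive V Ω) (hW : MulAction.IsPretransitive W Ω)
    (hc : ∀ a ∈ V, ∀ b ∈ W, Commute a b) (ω : Ω) : Nonempty (V ≃* W) := by
  classical
  have hc' : ∀ b ∈ W, ∀ a ∈ V, Commute b a := fun b hb a ha => (hc a ha b hb).symm
  have hex : ∀ v : V, ∃ w : W, (w : G) • ω = (v : G)⁻¹ • ω := fun v =>
    MulAction.exists_smul_eq W ω ((v : G)⁻¹ • ω)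
  choose ψ hψ using hex
  have hmul : ∀ a b : V, ψ (a * b) = ψ a * ψ b := by
    intro a b
    apply Subtype.ext
    apply eq_of_smul_eq V W hV hc' ω _ _ (ψ (a * b)).2 (ψ a * ψ b).2
    rw [hψ, Subgroup.coe_mul, Subgroup.coe_mul, mul_inv_rev, mul_smul, ← hψ a, smul_smul,
      ((hc _ (V.inv_mem b.2) _ (ψ a).2)).eq, mul_smul, mul_smul, hψ b]
  refine ⟨MulEquiv.ofBijective (MonoidHom.mk' ψ hmul) ⟨?_, ?_⟩⟩
  · intro a b hab
    have hab' : ψ a = ψ b := hab
    have h1 : (a : G)⁻¹ • ω = (b : G)⁻¹ • ω := by rw [← hψ, ← hψ, hab']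
    have h2 := eq_of_smul_eq W V hW hc ω _ _ (V.inv_mem a.2) (V.inv_mem b.2) h1
    exact Subtype.ext (inv_injective h2)
  · intro w
    obtain ⟨v, hv⟩ := MulAction.exists_smul_eq V ω ((w : G) • ω)
    refine ⟨v⁻¹, ?_⟩
    show ψ v⁻¹ = w
    apply Subtype.ext
    apply eq_of_smul_eq V W hV hc' ω _ _ (ψ v⁻¹).2 w.2
    rw [hψ, Subgroup.coe_inv, inv_inv]
    exact hv

def prodPi (T : Type*) [Group T] (m k : ℕ) : ((Fin m → T) × (Fin k → T)) ≃* (Fin (m + k) → T) :=
  { toEquiv := (Equiv.sumArrowEquivProdArrow (Fin m) (Fin k) T).symm.trans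
      (Equiv.arrowCongr finSumFinEquiv (Equiv.refl T))
    map_mul' := by
      intro a b
      funext i
      obtain ⟨j, rfl⟩ := finSumFinEquiv.surjective i
      rcases j with j | j <;> simp [Equiv.arrowCongr] <;> rfl }



/-- The socle of a finite primitive permutation group. Let a finite group G act faithfully and primitively on a set Ω, and let N be the subgroup generated by the minimal normal subgroups of G. Then either N is an elementary abelian p-group for some prime p and acts regularly on Ω (transitively with trivial point stabilizers), or N is isomorphic to a direct product of m ≥ 1 copies of a non-abelian simple group. -/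
theorem result {G Ω : Type*} [Group G] [Finite G] [MulAction G Ω] [FaithfulSMul G Ω] [Finite Ω]
    (hprim : MulAction.IsPreprimitive G Ω) (N : Subgroup G)
    (hN : N = sSup {V : Subgroup G | V.Normal ∧ V ≠ ⊥ ∧ ∀ M : Subgroup G, M.Normal → M ≤ V → M = ⊥ ∨ M = V}) :
    (∃ p : ℕ, p.Prime ∧ IsMulCommutative N ∧ (∀ x : N, x ^ p = 1) ∧
      MulAction.IsPretransitive N Ω ∧ ∀ ω : Ω, MulAction.stabilizer N ω = ⊥) ∨
    (∃ (T : Type) (_ : Group T) (m : ℕ), 1 ≤ m ∧ IsSimpleGroup T ∧ ¬ IsMulCommutative T ∧ Nonempty (N ≃* (Fin m → T))) := by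
  classical
  have hN' : N = sSup {V : Subgroup G | IsMinNormal V} := hN
  by_cases htriv : (⊤ : Subgroup G) = ⊥
  · have hsub : ∀ g : G, g = 1 := fun g => by
      have h1 : g ∈ (⊤ : Subgroup G) := trivial
      rw [htriv] at h1; exact h1
    have hsubN : ∀ g : N, g = 1 := fun g => Subtype.ext (hsub g)
    left
    refine ⟨2, Nat.prime_two, ⟨⟨fun a b => by rw [hsubN a, hsubN b]⟩⟩, fun x => by rw [hsubN x, one_pow],
      ⟨fun x y => ?_⟩, fun ω => ?_⟩
    · obtain ⟨g, hg⟩ := MulAction.exists_smul_eq G x y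
      refine ⟨1, ?_⟩
      rw [one_smul, ← hg, hsub g, one_smul]
    · rw [eq_bot_iff]
      intro x _
      rw [Subgroup.mem_bot]; exact hsubN x
  have hne : Nonempty Ω := by
    by_contra hcon
    rw [not_nonempty_iff] at hcon
    apply htriv
    rw [eq_bot_iff]
    intro g _
    rw [Subgroup.mem_bot]
    apply FaithfulSMul.eq_of_smul_eq_smul (α := Ω)
    intro a
    exact hcon.elim a
  obtain ⟨ω⟩ := hne
  obtain ⟨V, hV, -⟩ := exists_minNormal_le (⊤ : Subgroup G) inferInstance htriv
  have hVn := hV.1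
  have htr : ∀ W : Subgroup G, IsMinNormal W → MulAction.IsPretransitive W Ω := by
    intro W hW
    have := hW.1
    exact pretrans_of_normal hprim W hW.2.1
  have hVt := htr V hV
  have hdis : ∀ W : Subgroup G, IsMinNormal W → W ≠ V → V ⊓ W = ⊥ := by
    intro W hW hne
    have := hW.1
    rcases hV.2.2 (V ⊓ W) inferInstance inf_le_left with h | h
    · exact h
    · exfalso
      have h1 : V ≤ W := inf_eq_left.mp h
      rcases hW.2.2 V hVn h1 with h2 | h2
      · exact hV.2.1 h2
      · exact hne h2.symm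
  have hcomm : ∀ W : Subgroup G, IsMinNormal W → W ≠ V → ∀ a ∈ V, ∀ b ∈ W, Commute a b := by
    intro W hW hne
    have := hW.1
    apply S0721.commute_of_normalize V W _ _ (hdis W hW hne)
    · rw [Subgroup.normalizer_eq_top]; exact le_top
    · rw [Subgroup.normalizer_eq_top]; exact le_top
  by_cases hVc : IsMulCommutative V
  · left
    have hVV : ∀ a ∈ V, ∀ b ∈ V, Commute a b := by
      intro a ha b hb
      have := hVc.is_comm.comm ⟨a, ha⟩ ⟨b, hb⟩
      exact congrArg Subtype.val this
    have huniq : ∀ W : Subgroup G, IsMinNormal W → W = V := by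
      intro W hW
      by_contra hne
      apply hW.2.1
      rw [eq_bot_iff, ← hdis W hW hne]
      intro w hw
      refine ⟨?_, hw⟩
      obtain ⟨v, hv⟩ := MulAction.exists_smul_eq V ω (w • ω)
      have h1 : (v : G)⁻¹ * w = 1 := by
        apply eq_one_of_commute V hVt _ _ ω
        · rw [mul_smul, ← hv]
          exact inv_smul_smul _ _
        · intro k hk
          exact ((hVV _ v.2 k hk).inv_left).mul_left ((hcomm W hW hne k hk w hw).symm)
      rw [← inv_mul_eq_one.mp h1]
      exact v.2
    have hNV : N = V := by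
      rw [hN']
      apply le_antisymm
      · apply sSup_le
        intro W hW
        rw [huniq W hW]
      · exact le_sSup hV
    subst hNV
    obtain ⟨p, hp, he⟩ := hV.elemAb_of_comm hVc
    refine ⟨p, hp, hVc, ?_, hVt, ?_⟩
    · intro x
      apply Subtype.ext
      rw [Subgroup.coe_pow, Subgroup.coe_one]
      exact he.2 x x.2
    · intro ω'
      rw [eq_bot_iff]
      intro x hx
      rw [Subgroup.mem_bot]
      apply Subtype.ext
      exact eq_one_of_commute N hVt x (fun k hk => hVV _ x.2 k hk) ω' hx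
  · right
    obtain ⟨T, _, m, hT, hm, ⟨e⟩⟩ := S0721.result V hV.2.1 hV.2.2
    have hTc : ¬ IsMulCommutative T := by
      intro hT
      apply hVc
      refine ⟨⟨fun a b => ?_⟩⟩
      apply e.injective
      rw [map_mul, map_mul]
      funext i
      exact hT.is_comm.comm _ _
    by_cases hex : ∃ W : Subgroup G, IsMinNormal W ∧ W ≠ V
    · obtain ⟨W, hW, hne⟩ := hex
      have hWt := htr W hW
      have hcW := hcomm W hW hne
      have huniq : ∀ U : Subgroup G, IsMinNormal U → U = V ∨ U = W := by
        intro U hU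
        by_cases hUV : U = V
        · exact Or.inl hUV
        right
        have hUW : U ≤ W := by
          intro u hu
          obtain ⟨w, hw⟩ := MulAction.exists_smul_eq W ω (u • ω)
          have h1 : (w : G)⁻¹ * u = 1 := by
            apply eq_one_of_commute V hVt _ _ ω
            · rw [mul_smul, ← hw]
              exact inv_smul_smul _ _
            · intro k hk
              exact ((hcW k hk _ w.2).symm.inv_left).mul_left ((hcomm U hU hUV k hk u hu).symm)
          rw [← inv_mul_eq_one.mp h1]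
          exact w.2
        exact (hW.2.2 U hU.1 hUW).resolve_left hU.2.1
      have hNV : N = V ⊔ W := by
        rw [hN']
        apply le_antisymm
        · apply sSup_le
          intro U hU
          rcases huniq U hU with h | h
          · rw [h]; exact le_sup_left
          · rw [h]; exact le_sup_right
        · exact sup_le (le_sSup hV) (le_sSup hW)
      obtain ⟨e1⟩ := S0721.sup_equiv_prod V W hcW (hdis W hW hne)
      obtain ⟨e2⟩ := regular_equiv V W hVt hWt hcW ω
      refine ⟨T, inferInstance, m + m, by omega, hT, hTc, ⟨?_⟩⟩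
      exact (MulEquiv.subgroupCongr hNV).trans (e1.trans ((MulEquiv.prodCongr e (e2.symm.trans e)).trans
        (prodPi T m m)))
    · push Not at hex
      have hNV : N = V := by
        rw [hN']
        apply le_antisymm
        · apply sSup_le
          intro W hW
          rw [hex W hW]
        · exact le_sSup hV
      exact ⟨T, inferInstance, m, hm, hT, hTc, ⟨(MulEquiv.subgroupCongr hNV).trans e⟩⟩


end Cfsg.Agent.S3680
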