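import Cfsg.Statements.S3681

set_option autoImplicit false
open Cfsg

namespace Cfsg.Agent.S3681

set_option linter.style.haveILetI false

/-- two permutations whose supports meet in a single point have a 3-cycle as commutator. -/
theorem commutator_isThreeCycle {α : Type*} [DecidableEq α] [Fintype α] (σ τ : Equiv.Perm α) (a : α)
    (hσ : σ a ≠ a) (hτ : τ a ≠ a) (h : ∀ x, x ≠ a → σ x = x ∨ τ x = x) :
    (σ * τ * σ⁻¹ * τ⁻¹).IsThreeCycle := by
  have F1 : τ (σ a) = σ a := by
    rcases h (σ a) hσ with h1 | h1
    · exact absurd (σ.injective h1) hσ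
    · exact h1
  have F2 : σ (τ a) = τ a := by
    rcases h (τ a) hτ with h1 | h1
    · exact h1
    · exact absurd (τ.injective h1) hτ
  have F3 : σ a ≠ τ a := by
    intro hbd
    rw [hbd] at F1
    exact hτ (τ.injective F1)
  have key : σ * τ * σ⁻¹ * τ⁻¹ = Equiv.swap a (τ a) * Equiv.swap a (σ a) := by
    ext ω
    simp only [Equiv.Perm.mul_apply]
    obtain ⟨u, hu⟩ : ∃ u, τ u = ω := ⟨τ⁻¹ ω, by simp⟩
    obtain ⟨w, hw⟩ : ∃ w, σ w = u := ⟨σ⁻¹ u, by simp⟩
    have e1 : τ⁻¹ ω = u := by rw [← hu]; simp
    have e2 : σ⁻¹ u = w := by rw [← hw]; simp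
    rw [e1, e2]
    by_cases h1 : ω = a
    · -- ω = a
      rw [h1, Equiv.swap_apply_left, Equiv.swap_apply_of_ne_of_ne hσ F3]
      have hua : u ≠ a := by
        intro hua
        rw [hua, h1] at hu
        exact hτ hu
      have hsu : σ u = u := by
        rcases h u hua with h2 | h2
        · exact h2
        · rw [hu, h1] at h2; exact absurd h2.symm hua
      have hwu : w = u := σ.injective (hw.trans hsu.symm)
      rw [hwu, hu, h1]
    by_cases h2 : ω = σ a
    · rw [h2, Equiv.swap_apply_right, Equiv.swap_apply_left]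
      have hub : u = σ a := τ.injective (by rw [hu, h2, F1])
      have hwa : w = a := σ.injective (hw.trans hub)
      rw [hwa, F2]
    by_cases h3 : ω = τ a
    · rw [h3, Equiv.swap_apply_of_ne_of_ne hτ F3.symm, Equiv.swap_apply_right]
      have hua : u = a := τ.injective (hu.trans h3)
      have hwa : w ≠ a := by
        intro hwa
        rw [hwa, hua] at hw
        exact hσ hw
      have htw : τ w = w := by
        rcases h w hwa with h4 | h4
        · rw [hw, hua] at h4; exact absurd h4.symm hwa
        · exact h4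
      rw [htw, hw, hua]
    · rw [Equiv.swap_apply_of_ne_of_ne h1 h2, Equiv.swap_apply_of_ne_of_ne h1 h3]
      have hua : u ≠ a := by
        intro hua
        rw [hua] at hu
        exact h3 hu.symm
      rcases h u hua with h4 | h4
      · have hwu : w = u := σ.injective (hw.trans h4.symm)
        rw [hwu, hu]
        rcases h ω h1 with h5 | h5
        · exact h5
        · have : u = ω := τ.injective (hu.trans h5.symm)
          rw [← this]; exact h4
      · have huω : u = ω := h4.symm.trans hu
        have hwa : w ≠ a := by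
          intro hwa
          rw [hwa, huω] at hw
          exact h2 hw.symm
        rcases h w hwa with h5 | h5
        · have hwω : w = ω := by rw [← h5, hw, huω]
          rw [hwω, ← huω, h4, huω, ← hwω, h5]
        · rw [h5, hw, huω]
  rw [key]
  exact Equiv.Perm.isThreeCycle_swap_mul_swap_same (Ne.symm hτ) (Ne.symm hσ) (Ne.symm F3)

theorem bochert {Ω : Type*} [Fintype Ω] [DecidableEq Ω] (P : Subgroup (Equiv.Perm Ω))
    (hprim : MulAction.IsPreprimitive P Ω) (hA : ¬ alternatingGroup Ω ≤ P) :
    Nat.card P * Nat.factorial ((Fintype.card Ω + 1) / 2) ≤ Nat.factorial (Fintype.card Ω) := by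
  classical
  let Good : Finset Ω → Prop := fun Δ => ∀ g ∈ P, (∀ x, x ∉ Δ → g x = x) → g = 1
  have hG0 : Good ∅ := by
    intro g _ hg
    ext x
    exact hg x (by simp)
  obtain ⟨Δ, hΔ, hmax⟩ := Finset.exists_max_image (Finset.univ.filter Good) Finset.card
    ⟨∅, by simp [hG0]⟩
  have hΔg : Good Δ := (Finset.mem_filter.mp hΔ).2
  have hmax' : ∀ Γ : Finset Ω, Δ.card < Γ.card → ¬ Good Γ := by
    intro Γ hlt hΓ
    have := hmax Γ (by simp [hΓ])
    omega
  have hcard : Fintype.card Ω ≤ 2 * Δ.card := by
    by_contra hcon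
    push Not at hcon
    have h1 : Δ.card < Δᶜ.card := by
      rw [Finset.card_compl]; omega
    have h2 := hmax' _ h1
    simp only [Good] at h2
    push Not at h2
    obtain ⟨x, hxP, hx, hx1⟩ := h2
    obtain ⟨a, ha⟩ : ∃ a, x a ≠ a := by
      by_contra hc
      push Not at hc
      exact hx1 (Equiv.ext hc)
    have haΔ : a ∉ Δ := by
      intro h
      exact ha (hx a (by simp [h]))
    have h3 : Δ.card < (insert a Δ).card := by
      rw [Finset.card_insert_of_notMem haΔ]; omega
    have h4 := hmax' _ h3
    simp only [Good] at h4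
    push Not at h4
    obtain ⟨y, hyP, hy, hy1⟩ := h4
    have hya : y a ≠ a := by
      intro h
      apply hy1
      apply hΔg y hyP
      intro z hz
      by_cases hza : z = a
      · rw [hza]; exact h
      · exact hy z (by simp [hza, hz])
    have h3c := commutator_isThreeCycle x y a ha hya (by
      intro z hza
      by_cases hz : z ∈ Δ
      · exact Or.inl (hx z (by simp [hz]))
      · exact Or.inr (hy z (by simp [hza, hz])))
    exact hA (Equiv.Perm.alternatingGroup_le_of_isPreprimitive_of_isThreeCycle_mem hprim h3c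
      (P.mul_mem (P.mul_mem (P.mul_mem hxP hyP) (P.inv_mem hxP)) (P.inv_mem hyP)))
  have hinj : Function.Injective (fun q : P × Equiv.Perm {x // x ∈ Δ} =>
      (q.1 : Equiv.Perm Ω) * Equiv.Perm.ofSubtype q.2) := by
    rintro ⟨g, s⟩ ⟨g', s'⟩ hq
    simp only at hq
    have h1 : (g' : Equiv.Perm Ω)⁻¹ * g = Equiv.Perm.ofSubtype (s' * s⁻¹) := by
      rw [map_mul, map_inv, eq_mul_inv_iff_mul_eq, mul_assoc, hq, inv_mul_cancel_left]
    have h2 : (g' : Equiv.Perm Ω)⁻¹ * g = 1 := by
      apply hΔg _ (P.mul_mem (P.inv_mem g'.2) g.2)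
      intro x hx
      rw [h1]
      exact Equiv.Perm.ofSubtype_apply_of_not_mem _ hx
    have h3 : g = g' := by
      apply Subtype.ext
      exact (inv_mul_eq_one.mp h2).symm
    subst h3
    have h4 : Equiv.Perm.ofSubtype s = Equiv.Perm.ofSubtype s' := mul_left_cancel hq
    rw [Equiv.Perm.ofSubtype_injective h4]
  have h5 := Nat.card_le_card_of_injective _ hinj
  rw [Nat.card_prod, Nat.card_perm, Nat.card_perm, Nat.card_eq_fintype_card (α := Ω),
    Nat.card_eq_fintype_card (α := {x // x ∈ Δ}), Fintype.card_coe] at h5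
  calc Nat.card P * Nat.factorial ((Fintype.card Ω + 1) / 2)
      ≤ Nat.card P * Nat.factorial Δ.card :=
        Nat.mul_le_mul_left _ (Nat.factorial_le (by omega))
    _ ≤ _ := h5

/-- Bochert's bound for primitive groups. Let a finite group G act faithfully and primitively on a finite set Ω with n elements, and suppose the image of G in the symmetric group of Ω does not contain the alternating group of Ω. Then |G| · ⌊(n + 1)/2⌋! ≤ n!, that is, the index of G in the symmetric group is at least ⌊(n + 1)/2⌋!. -/
theorem result {G Ω : Type*} [Group G] [Finite G] [MulAction G Ω] [FaithfulSMul G Ω] [Fintype Ω] [DecidableEq Ω]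
    (hprim : MulAction.IsPreprimitive G Ω) (hA : ¬ alternatingGroup Ω ≤ (MulAction.toPermHom G Ω).range) :
    Nat.card G * Nat.factorial ((Fintype.card Ω + 1) / 2) ≤ Nat.factorial (Fintype.card Ω) := by
  classical
  have hinj : Function.Injective (MulAction.toPermHom G Ω) := MulAction.toPerm_injective
  have hc : Nat.card (MulAction.toPermHom G Ω).range = Nat.card G :=
    (Nat.card_congr (MonoidHom.ofInjective hinj).toEquiv).symm
  rw [← hc]
  apply bochert _ _ hA
  let f : Ω →ₑ[(MulAction.toPermHom G Ω).rangeRestrict] Ω :=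
    { toFun := id
      map_smul' := fun g x => rfl }
  exact MulAction.IsPreprimitive.of_surjective (f := f) Function.surjective_id

end Cfsg.Agent.S3681
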