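import Cfsg.Statements.S3684
import Cfsg.Agent.Lib.Helper3.Dih
import Cfsg.Agent.Lib.Helper12.Conj

set_option autoImplicit false
open Cfsg

namespace Cfsg.Agent.S3684

open Cfsg.Agent.Lib.Helper12 (cj card_cj)

theorem card_inf_mul_relIndex {G : Type*} [Group G] (H K : Subgroup G) :
    Nat.card (K ⊓ H : Subgroup G) * K.relIndex H = Nat.card H := by
  have := Subgroup.relIndex_mul_relIndex ⊥ (K ⊓ H) H bot_le inf_le_right
  rw [Subgroup.relIndex_bot_left, Subgroup.relIndex_bot_left, Subgroup.inf_relIndex_right] at this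
  exact this

/-- A finite group with a maximal subgroup `⟨t⟩` of order two and a further involution is
dihedral of order twice a prime. -/
theorem dihedral_of_coatom {G : Type*} [Group G] [Finite G] (t t' : G) (ht : t * t = 1)
    (ht' : t' * t' = 1) (ht1 : t ≠ 1) (hco : IsCoatom (Subgroup.zpowers t))
    (hn : t' ∉ Subgroup.zpowers t) : ∃ p : ℕ, p.Prime ∧ Nonempty (G ≃* DihedralGroup p) := by
  have htinv : t⁻¹ = t := inv_eq_of_mul_eq_one_left ht
  have ht'inv : t'⁻¹ = t' := inv_eq_of_mul_eq_one_left ht'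
  have ht'1 : t' ≠ 1 := by
    rintro rfl
    exact hn (Subgroup.one_mem _)
  set x : G := t * t' with hx
  have hconj : t * x * t⁻¹ = x⁻¹ := by
    rw [hx, mul_inv_rev, htinv, ht'inv, ← mul_assoc, ht, one_mul]
  have hx1 : x ≠ 1 := by
    intro h
    apply hn
    have : t' = t⁻¹ := eq_inv_of_mul_eq_one_right h
    rw [this]
    exact Subgroup.inv_mem _ (Subgroup.mem_zpowers t)
  have hnot : t ∉ Subgroup.zpowers x := by
    rintro ⟨k, hk⟩
    have hk' : x ^ k = t := hk
    have hcomm : t * x = x * t := by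
      rw [← hk', ← zpow_add_one, ← zpow_one_add, add_comm]
    have hxx : x * x = 1 := by
      have h1 : t * x * t⁻¹ = x := by rw [hcomm, mul_inv_cancel_right]
      rw [hconj] at h1
      calc x * x = x⁻¹ * x := by rw [h1]
        _ = 1 := inv_mul_cancel x
    rcases Int.even_or_odd' k with ⟨j, rfl | rfl⟩
    · rw [zpow_mul, zpow_two, hxx, one_zpow] at hk'
      exact ht1 hk'.symm
    · rw [zpow_add, zpow_mul, zpow_two, hxx, one_zpow, one_mul, zpow_one] at hk'
      apply ht'1
      have : t * t' = t * 1 := by rw [mul_one]; exact hk'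
      exact mul_left_cancel this
  -- general fact on the subgroups generated by a power of x and t
  have key : ∀ y : G, y ∈ Subgroup.zpowers x → y ≠ 1 → t * y * t⁻¹ = y⁻¹ →
      Nat.card G = 2 * orderOf y ∧ Nonempty (G ≃* DihedralGroup (orderOf y)) := by
    intro y hy hy1 hyc
    have hny : t ∉ Subgroup.zpowers y := fun h =>
      hnot ((Subgroup.zpowers_le.2 hy) h)
    obtain ⟨e⟩ := Cfsg.Agent.Lib.Helper3.closure_pair_equiv_dihedral (orderOf y) y t rfl ht hyc hny
    have htop : Subgroup.closure ({y, t} : Set G) = ⊤ := by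
      apply hco.2
      refine lt_of_le_of_ne ?_ ?_
      · rw [Subgroup.zpowers_le]
        exact Subgroup.subset_closure (by simp)
      · intro heq
        have hyt : y ∈ Subgroup.zpowers t := by
          rw [heq]; exact Subgroup.subset_closure (by simp)
        obtain ⟨k, hk⟩ := hyt
        have hk' : t ^ k = y := hk
        rcases Int.even_or_odd' k with ⟨j, rfl | rfl⟩
        · rw [zpow_mul, zpow_two, ht, one_zpow] at hk'
          exact hy1 hk'.symm
        · rw [zpow_add, zpow_mul, zpow_two, ht, one_zpow, one_mul, zpow_one] at hk'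
          apply hny
          rw [← hk']
          exact Subgroup.mem_zpowers t
    have e2 : G ≃* DihedralGroup (orderOf y) :=
      (Subgroup.topEquiv.symm.trans (MulEquiv.subgroupCongr htop.symm)).trans e
    refine ⟨?_, ⟨e2⟩⟩
    rw [Nat.card_congr e2.toEquiv, DihedralGroup.nat_card]
  obtain ⟨hc, he⟩ := key x (Subgroup.mem_zpowers x) hx1 hconj
  refine ⟨orderOf x, ?_, he⟩
  by_contra hnp
  have h2 : 2 ≤ orderOf x := by
    have h0 : 0 < orderOf x := orderOf_pos x
    have h1 : orderOf x ≠ 1 := fun h => hx1 (orderOf_eq_one_iff.1 h)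
    omega
  obtain ⟨m, ⟨d, hd⟩, hm2, hmn⟩ := Nat.exists_dvd_of_not_prime2 h2 hnp
  have hord : orderOf (x ^ m) = d := by
    rw [orderOf_pow_of_dvd (by omega) ⟨d, hd⟩, hd]
    exact Nat.mul_div_cancel_left d (by omega)
  have hd2 : d ≠ 1 := by
    rintro rfl
    omega
  have hy1 : x ^ m ≠ 1 := by
    intro h
    rw [h, orderOf_one] at hord
    exact hd2 hord.symm
  obtain ⟨hc2, -⟩ := key (x ^ m) (Subgroup.pow_mem _ (Subgroup.mem_zpowers x) m) hy1
    (by rw [← conj_pow, hconj, inv_pow])
  rw [hord, hc, hd] at hc2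
  have : m * d = d := by omega
  have hd0 : 0 < d := by
    rcases Nat.eq_zero_or_pos d with h0 | h0
    · subst h0; omega
    · exact h0
  have : m = 1 := by
    have h3 : m * d = 1 * d := by omega
    exact Nat.eq_of_mul_eq_mul_right hd0 h3
  omega


/-- Let a finite group G act faithfully and primitively on a set Ω, and suppose the stabilizer of a point a has an orbit of length 2. Then the stabilizer of a has order 2 and G is isomorphic to the dihedral group of order 2p for some prime p. -/
theorem result {G Ω : Type*} [Group G] [Finite G] [MulAction G Ω] [FaithfulSMul G Ω] [Finite Ω]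
    (hprim : MulAction.IsPreprimitive G Ω) (a b : Ω) (h2 : Nat.card (MulAction.orbit (MulAction.stabilizer G a) b) = 2) :
    Nat.card (MulAction.stabilizer G a) = 2 ∧ ∃ p : ℕ, p.Prime ∧ Nonempty (G ≃* DihedralGroup p) := by
  haveI := hprim
  haveI : MulAction.IsPretransitive G Ω := hprim.toIsPretransitive
  haveI : Nontrivial Ω := by
    by_contra hnt
    rw [not_nontrivial_iff_subsingleton] at hnt
    have : Nat.card (MulAction.orbit (MulAction.stabilizer G a) b) ≤ 1 := Finite.card_le_one_iff_subsingleton.2 inferInstance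
    omega
  have hco : IsCoatom (MulAction.stabilizer G a) :=
    MulAction.IsPreprimitive.isCoatom_stabilizer_of_isPreprimitive G a
  set A := MulAction.stabilizer G a with hA
  set B := MulAction.stabilizer G b with hB
  obtain ⟨g, hg⟩ := MulAction.exists_smul_eq G a b
  have hBA : B = cj g A := by
    rw [hB, ← hg, MulAction.stabilizer_smul_eq_stabilizer_map_conj]
  have hst : MulAction.stabilizer A b = B.subgroupOf A := by
    ext y
    rw [MulAction.mem_stabilizer_iff, Subgroup.mem_subgroupOf, MulAction.mem_stabilizer_iff]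
    rfl
  have hrel1 : B.relIndex A = 2 := by
    rw [Subgroup.relIndex, ← hst, MulAction.index_stabilizer, ← Nat.card_coe_set_eq]
    exact h2
  have hcard : Nat.card B = Nat.card A := by rw [hBA, card_cj]
  have e1 := card_inf_mul_relIndex A B
  have e2 := card_inf_mul_relIndex B A
  rw [hrel1] at e1
  rw [inf_comm, hcard, ← e1] at e2
  have hpos : 0 < Nat.card (B ⊓ A : Subgroup G) := Nat.card_pos
  have hrel2 : A.relIndex B = 2 := Nat.eq_of_mul_eq_mul_left hpos e2
  have nA : A ≤ Subgroup.normalizer ((B ⊓ A : Subgroup G) : Set G) :=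
    Subgroup.normal_subgroupOf_iff_le_normalizer_inf.1 (Subgroup.normal_of_index_eq_two hrel1)
  have nB : B ≤ Subgroup.normalizer ((B ⊓ A : Subgroup G) : Set G) := by
    rw [inf_comm]
    exact Subgroup.normal_subgroupOf_iff_le_normalizer_inf.1 (Subgroup.normal_of_index_eq_two hrel2)
  have hnle : ¬ B ≤ A := by
    intro hle
    rw [Subgroup.relIndex_eq_one.2 hle] at hrel2
    omega
  have htop : A ⊔ B = ⊤ := hco.2 _ (lt_of_le_of_ne le_sup_left (fun h => hnle (h ▸ le_sup_right)))
  have hnorm : (B ⊓ A : Subgroup G).Normal := by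
    rw [← Subgroup.normalizer_eq_top_iff, eq_top_iff, ← htop]
    exact sup_le nA nB
  have hK : (B ⊓ A : Subgroup G) = ⊥ := by
    rw [Subgroup.eq_bot_iff_forall]
    intro k hk
    apply FaithfulSMul.eq_of_smul_eq_smul (α := Ω)
    intro ω
    obtain ⟨c, rfl⟩ := MulAction.exists_smul_eq G a ω
    have h1 : c⁻¹ * k * c⁻¹⁻¹ ∈ (B ⊓ A : Subgroup G) := hnorm.conj_mem k hk c⁻¹
    have h3 : (c⁻¹ * k * c⁻¹⁻¹) • a = a := MulAction.mem_stabilizer_iff.1 (Subgroup.mem_inf.1 h1).2
    rw [one_smul]
    calc k • c • a = c • (c⁻¹ * k * c⁻¹⁻¹) • a := by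
          simp only [smul_smul]; congr 1; group
      _ = c • a := by rw [h3]
  have hA2 : Nat.card A = 2 := by
    rw [← e1, hK, Subgroup.card_bot]
  refine ⟨hA2, ?_⟩
  haveI : Nontrivial A := Finite.one_lt_card_iff_nontrivial.1 (by omega)
  obtain ⟨⟨t, htA⟩, ht1⟩ := exists_ne (1 : A)
  have ht1' : t ≠ 1 := fun h => ht1 (Subtype.ext h)
  have htt : t * t = 1 := by
    have h1 : (⟨t, htA⟩ : A) ^ 2 = 1 := by
      rw [← hA2]; exact pow_card_eq_one'
    have := congrArg Subtype.val h1
    simpa [pow_two] using this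
  have hzA : Subgroup.zpowers t = A := by
    apply Subgroup.eq_of_le_of_card_ge (Subgroup.zpowers_le.2 htA)
    rw [hA2, Nat.card_zpowers]
    have h0 : 0 < orderOf t := orderOf_pos t
    have h1 : orderOf t ≠ 1 := fun h => ht1' (orderOf_eq_one_iff.1 h)
    omega
  apply dihedral_of_coatom t (g * t * g⁻¹) htt
  · calc g * t * g⁻¹ * (g * t * g⁻¹) = g * (t * t) * g⁻¹ := by group
      _ = 1 := by rw [htt]; group
  · exact ht1'
  · rw [hzA]; exact hco
  · rw [hzA]
    intro hmem
    have h1 : g * t * g⁻¹ ∈ B := by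
      rw [hBA]; exact Cfsg.Agent.Lib.Helper12.conj_mem_cj htA
    have h2 : g * t * g⁻¹ ∈ (B ⊓ A : Subgroup G) := Subgroup.mem_inf.2 ⟨h1, hmem⟩
    rw [hK, Subgroup.mem_bot] at h2
    apply ht1'
    have : t = g⁻¹ * (g * t * g⁻¹) * g := by group
    rw [this, h2]; group

end Cfsg.Agent.S3684
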