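import Cfsg.Statements.S3696
import Cfsg.Agent.Lib.Helper12.AbPerm

set_option autoImplicit false
open Cfsg

namespace Cfsg.Agent.S3696

/-- Let p be a prime, Ω a finite set with n ≥ p elements, and A an abelian p-subgroup of the symmetric group on Ω whose elements of order dividing p number p^k (so k is the rank of A). Then |A| · k^k ≤ n^k, that is, |A| ≤ (n/k)^k. -/
theorem result {Ω : Type*} [Fintype Ω] [DecidableEq Ω]
    (p : ℕ) (hp : p.Prime) (hn : p ≤ Fintype.card Ω) (A : Subgroup (Equiv.Perm Ω)) (hA : IsPGroup p A) (hab : IsMulCommutative A)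
    (k : ℕ) (hk : Nat.card {x : A // x ^ p = 1} = p ^ k) :
    Nat.card A * k ^ k ≤ Fintype.card Ω ^ k := by
  have : Fact p.Prime := ⟨hp⟩
  have hab' : ∀ x ∈ A, ∀ y ∈ A, x * y = y * x := by
    intro x hx y hy
    exact congrArg Subtype.val (hab.is_comm.comm (⟨x, hx⟩ : A) ⟨y, hy⟩)
  have hk' : Nat.card (Cfsg.Agent.Lib.Helper12.AbPerm.om p A hab') = p ^ k := by
    rw [← hk]
    apply Nat.card_congr
    exact
      { toFun := fun x => ⟨⟨x.1, x.2.1⟩, Subtype.ext (by simpa using x.2.2)⟩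
        invFun := fun x => ⟨x.1.1, ⟨x.1.2, by simpa using congrArg Subtype.val x.2⟩⟩
        left_inv := fun x => rfl
        right_inv := fun x => rfl }
  have h := Cfsg.Agent.Lib.Helper12.AbPerm.main p (Nat.card A) A le_rfl hA hab' k hk'
  unfold Cfsg.Agent.Lib.Helper12.AbPerm.B at h
  calc Nat.card A * k ^ k ≤ (Cfsg.Agent.Lib.Helper12.AbPerm.mv A).card ^ k := h
    _ ≤ Fintype.card Ω ^ k := Nat.pow_le_pow_left (Finset.card_le_univ _) k

end Cfsg.Agent.S3696
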