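import Cfsg.Statements.S3802
import Cfsg.Agent.Lib.Helper20.Subnormal

set_option autoImplicit false
open Cfsg

namespace Cfsg.Agent.S3802

open Cfsg.Agent.Lib.Helper20

theorem result {G : Type*} [Group G] [Finite G] (M N : Subgroup G) (hM : IsCoatom M) (hN : N.IsSubnormal) (hNM : N ≤ M) :
    N ≤ Subgroup.normalCore M := by
  classical
  set K := Subgroup.normalCore M with hK
  have hKM : K ≤ M := Subgroup.normalCore_le M
  -- the quotient is nontrivial
  have htop : (⊤ : Subgroup (G ⧸ K)) ≠ ⊥ := by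
    intro h
    apply hM.1
    rw [eq_top_iff]
    intro g _
    have : (QuotientGroup.mk' K g) ∈ (⊤ : Subgroup (G ⧸ K)) := Subgroup.mem_top _
    rw [h, Subgroup.mem_bot] at this
    exact hKM ((QuotientGroup.eq_one_iff g).1 this)
  obtain ⟨L', -, hL'⟩ := exists_minNormalIn (G := G ⧸ K) (L := ⊤) (H := ⊤) le_rfl htop
    (by rw [Subgroup.normalizer_eq_top])
  have hNq : (N.map (QuotientGroup.mk' K)).IsSubnormal := hN.quotient
  have hnorm := minNormal_le_normalizer hNq hL'
  have hL'normal : L'.Normal := by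
    rw [← Subgroup.normalizer_eq_top_iff, eq_top_iff]; exact hL'.2.2.1
  set L := L'.comap (QuotientGroup.mk' K) with hL
  have hLnormal : L.Normal := hL'normal.comap _
  set X := (N.map (QuotientGroup.mk' K)).comap (QuotientGroup.mk' K) with hX
  have hXM : X ≤ M := by
    intro x hx
    obtain ⟨n, hn, hnx⟩ := hx
    have : n⁻¹ * x ∈ K := by
      rw [← QuotientGroup.eq_one_iff]
      have h1 : (QuotientGroup.mk' K) (n⁻¹ * x) = 1 := by rw [map_mul, map_inv, hnx]; simp
      exact h1
    have h2 := M.mul_mem (hNM hn) (hKM this)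
    simpa using h2
  have hNX : N ≤ X := Subgroup.le_comap_map _ _
  have hLX : ∀ l ∈ L, ∀ x ∈ X, l * x * l⁻¹ ∈ X := by
    intro l hl x hx
    have h1 := (Subgroup.le_normalizer_iff.1 hnorm) _ hl _ hx
    rw [hX, Subgroup.mem_comap]
    simpa using h1
  have hLM : ¬ L ≤ M := by
    intro h
    have h1 : L ≤ K := (Subgroup.normal_le_normalCore).2 h
    apply hL'.2.1
    rw [eq_bot_iff]
    intro y hy
    obtain ⟨g, rfl⟩ := QuotientGroup.mk'_surjective K y
    have : g ∈ K := h1 hy
    rw [Subgroup.mem_bot]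
    exact (QuotientGroup.eq_one_iff g).2 this
  have hsup : M ⊔ L = ⊤ := by
    apply hM.2
    exact lt_of_le_of_ne le_sup_left (fun h => hLM (by rw [h]; exact le_sup_right))
  intro n hn
  have hnX := hNX hn
  change n ∈ Subgroup.normalCore M
  intro g
  have hg : g ∈ M ⊔ L := by rw [hsup]; trivial
  have : (g : G) ∈ ((M ⊔ L : Subgroup G) : Set G) := hg
  rw [Subgroup.mul_normal] at this
  obtain ⟨m, hm, l, hl, rfl⟩ := this
  have h1 := hXM (hLX l hl n hnX)
  have h2 := M.mul_mem (M.mul_mem hm h1) (M.inv_mem hm)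
  simpa [mul_assoc] using h2

end Cfsg.Agent.S3802
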