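import Cfsg.Statements.S3815

set_option autoImplicit false
open Cfsg

namespace Cfsg.Agent.S3815

theorem result {G : Type*} [Group G] [Finite G] {p : ℕ} [Fact p.Prime]
    (d : G) (hd : (orderOf d).Coprime p)
    (h : ∀ g : G, (orderOf g).Coprime p → (orderOf (d * g)).Coprime p) :
    d ∈ Cfsg.pPrimeCore p G := by
  classical
  -- the submonoid of all such elements
  let M : Submonoid G :=
    { carrier := {e | ∀ g : G, (orderOf g).Coprime p → (orderOf (e * g)).Coprime p}
      one_mem' := by intro g hg; simpa using hg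
      mul_mem' := by
        intro a b ha hb g hg
        rw [mul_assoc]
        exact ha _ (hb _ hg) }
  let D : Subgroup G :=
    { M with
      inv_mem' := by
        intro a ha
        have : a⁻¹ = a ^ (orderOf a - 1) := by
          have h1 : 0 < orderOf a := orderOf_pos a
          rw [eq_comm, ← mul_left_inj a, ← pow_succ, Nat.sub_add_cancel h1, pow_orderOf_eq_one]
          simp
        rw [this]
        exact M.pow_mem ha _ }
  have hmem : ∀ e, e ∈ D ↔ ∀ g : G, (orderOf g).Coprime p → (orderOf (e * g)).Coprime p := fun e => Iff.rfl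
  have hnormal : D.Normal := by
    constructor
    intro a ha x
    rw [hmem] at ha ⊢
    intro g hg
    have h1 : x * a * x⁻¹ * g = MulAut.conj x (a * (x⁻¹ * g * x)) := by
      simp [mul_assoc]
    have h2 : orderOf (x⁻¹ * g * x) = orderOf g := by
      have : x⁻¹ * g * x = MulAut.conj x⁻¹ g := by simp
      rw [this, MulEquiv.orderOf_eq]
    rw [h1, MulEquiv.orderOf_eq]
    apply ha
    rw [h2]; exact hg
  have hcard : (Nat.card D).Coprime p := by
    rw [Nat.coprime_comm, Nat.Prime.coprime_iff_not_dvd Fact.out]
    intro hdvd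
    obtain ⟨⟨e, he⟩, hoe⟩ := exists_prime_orderOf_dvd_card' (G := D) p hdvd
    have h1 : orderOf e = p := by
      rw [← hoe]; exact (Subgroup.orderOf_mk e he).symm
    have h2 := (hmem e).1 he 1 (by simp)
    rw [mul_one, h1] at h2
    exact (Fact.out : p.Prime).one_lt.ne' ((Nat.coprime_self p).1 h2)
  have hdD : d ∈ D := (hmem d).2 h
  exact (le_sSup (show D ∈ {N : Subgroup G | N.Normal ∧ (Nat.card N).Coprime p} from ⟨hnormal, hcard⟩)) hdD

end Cfsg.Agent.S3815
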