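import Mathlib
import Cfsg.Statements.S3820
import Cfsg.Agent.Lib.Helper20.Subnormal

set_option autoImplicit false
open Cfsg

namespace Cfsg.Agent.S3820

open Cfsg.Agent.Lib.Helper20

theorem result {G : Type*} [Group G] [Finite G] (S H : Subgroup G) (hSH : S ≤ H)
    (hS : Cfsg.IsPronormal S) :
    Cfsg.IsPronormal H ↔
      ∀ g ∈ Subgroup.normalizer (S : Set G), ∃ w ∈ H ⊔ H.map (MulAut.conj g).toMonoidHom,
        H.map (MulAut.conj g).toMonoidHom = H.map (MulAut.conj w).toMonoidHom := by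
  constructor
  · intro h g _
    exact h g
  · intro h g
    obtain ⟨x, hx, hxS⟩ := hS g
    change x ∈ S ⊔ cj g S at hx
    change cj g S = cj x S at hxS
    have hn : x⁻¹ * g ∈ Subgroup.normalizer (S : Set G) := by
      apply mem_normalizer_of_cj_eq
      rw [← cj_cj, hxS, cj_inv_cj]
    obtain ⟨w, hw, hwH⟩ := h _ hn
    change w ∈ H ⊔ cj (x⁻¹ * g) H at hw
    change cj (x⁻¹ * g) H = cj w H at hwH
    have hxK : x ∈ H ⊔ cj g H := (sup_le_sup hSH (cj_mono hSH)) hx
    have hwK : w ∈ H ⊔ cj g H := by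
      have : H ⊔ cj (x⁻¹ * g) H ≤ H ⊔ cj g H := by
        apply sup_le le_sup_left
        intro y hy
        rw [← cj_cj, mem_cj] at hy
        have h1 : x⁻¹⁻¹ * y * x⁻¹ ∈ H ⊔ cj g H := (le_sup_right : cj g H ≤ H ⊔ cj g H) hy
        have h2 := Subgroup.mul_mem _ (Subgroup.mul_mem _ (Subgroup.inv_mem _ hxK) h1) hxK
        simpa [mul_assoc] using h2
      exact this hw
    refine ⟨x * w, Subgroup.mul_mem _ hxK hwK, ?_⟩
    change cj g H = cj (x * w) H
    rw [← cj_cj, ← hwH, cj_cj]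
    simp

end Cfsg.Agent.S3820
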