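import Mathlib
import Cfsg.Statements.S3821
import Cfsg.Agent.Lib.Helper20.Subnormal

set_option autoImplicit false
open Cfsg

namespace Cfsg.Agent.S3821

open Cfsg.Agent.Lib.Helper20

theorem subgroupOf_cj {G : Type*} [Group G] (A H : Subgroup G) (a : A) :
    cj a (H.subgroupOf A) = (cj (a : G) H).subgroupOf A := by
  ext y
  rw [mem_cj, Subgroup.mem_subgroupOf, Subgroup.mem_subgroupOf, mem_cj]
  simp

theorem result {G : Type*} [Group G] [Finite G] (A H : Subgroup G) [A.Normal] (hHA : H ≤ A) :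
    Cfsg.IsPronormal H ↔ (Cfsg.IsPronormal (H.subgroupOf A) ∧ A ⊔ Subgroup.normalizer (H : Set G) = ⊤) := by
  have hcjA : ∀ g : G, cj g H ≤ A := by
    intro g y hy
    rw [mem_cj] at hy
    have h1 := hHA hy
    have h2 := (inferInstance : A.Normal).conj_mem _ h1 g
    simpa [mul_assoc] using h2
  constructor
  · intro h
    constructor
    · intro a
      obtain ⟨x, hx, hxH⟩ := h (a : G)
      change x ∈ H ⊔ cj (a : G) H at hx
      change cj (a : G) H = cj x H at hxH
      have hxA : x ∈ A := (sup_le hHA (hcjA a)) hx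
      refine ⟨⟨x, hxA⟩, ?_, ?_⟩
      · change (⟨x, hxA⟩ : A) ∈ H.subgroupOf A ⊔ cj a (H.subgroupOf A)
        rw [subgroupOf_cj, ← Subgroup.subgroupOf_sup hHA (hcjA a), Subgroup.mem_subgroupOf]
        exact hx
      · change cj a (H.subgroupOf A) = cj (⟨x, hxA⟩ : A) (H.subgroupOf A)
        rw [subgroupOf_cj, subgroupOf_cj, hxH]
    · rw [eq_top_iff]
      intro g _
      obtain ⟨x, hx, hxH⟩ := h g
      change x ∈ H ⊔ cj g H at hx
      change cj g H = cj x H at hxH
      have hxA : x ∈ A := (sup_le hHA (hcjA g)) hx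
      have hn : x⁻¹ * g ∈ Subgroup.normalizer (H : Set G) := by
        apply mem_normalizer_of_cj_eq
        rw [← cj_cj, hxH, cj_inv_cj]
      have : g = x * (x⁻¹ * g) := by simp
      rw [this]
      exact Subgroup.mul_mem _ ((le_sup_left : A ≤ _) hxA) ((le_sup_right : _ ≤ A ⊔ _) hn)
  · rintro ⟨h1, h2⟩ g
    have hg : (g : G) ∈ ((A ⊔ Subgroup.normalizer (H : Set G) : Subgroup G) : Set G) := by
      rw [h2]; trivial
    rw [Subgroup.normal_mul] at hg
    obtain ⟨a, ha, n, hn, rfl⟩ := hg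
    have hgH : cj (a * n) H = cj a H := by
      rw [← cj_cj, cj_eq_of_mem_normalizer hn]
    obtain ⟨x, hx, hxH⟩ := h1 ⟨a, ha⟩
    change x ∈ H.subgroupOf A ⊔ cj (⟨a, ha⟩ : A) (H.subgroupOf A) at hx
    change cj (⟨a, ha⟩ : A) (H.subgroupOf A) = cj x (H.subgroupOf A) at hxH
    rw [subgroupOf_cj, ← Subgroup.subgroupOf_sup hHA (hcjA a), Subgroup.mem_subgroupOf] at hx
    rw [subgroupOf_cj, subgroupOf_cj, Subgroup.subgroupOf_inj, inf_eq_left.2 (hcjA _), inf_eq_left.2 (hcjA _)] at hxH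
    refine ⟨x, ?_, ?_⟩
    · change (x : G) ∈ H ⊔ cj (a * n) H
      rw [hgH]; exact hx
    · change cj (a * n) H = cj (x : G) H
      rw [hgH]; exact hxH

end Cfsg.Agent.S3821
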