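import Cfsg.Statements.S3825
import Mathlib

set_option autoImplicit false
open Cfsg commutatorElement

namespace Cfsg.Agent.S3825




/-- Let U be a subgroup of a finite group H and w an involution of H normalizing U and commuting with exactly two elements of U, the identity and y. If V is a non-cyclic elementary abelian 2-subgroup of U containing y which is normal in U and invariant under w, then V is a Sylow 2-subgroup of U, V has order 4, and U/V is abelian. -/
theorem result {H : Type*} [Group H] [Finite H] (U : Subgroup H) (w : H) (hw : orderOf w = 2)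
    (hwU : w ∈ Subgroup.normalizer (U : Set H)) (y : H) (hy : y ≠ 1) (hyU : y ∈ U)
    (hfix : ∀ u ∈ U, w * u * w⁻¹ = u ↔ (u = 1 ∨ u = y))
    (V : Subgroup H) (hVU : V ≤ U) (hVn : (V.subgroupOf U).Normal) (hVw : ∀ v ∈ V, w * v * w⁻¹ ∈ V)
    (hVe : Cfsg.IsElementaryAbelian 2 V) (hVc : ¬ IsCyclic ↥V) (hyV : y ∈ V) :
    ¬ 2 ∣ V.relIndex U ∧ Nat.card ↥V = 4 ∧ ⁅U, U⁆ ≤ V := by
  classical
  have hww : w * w = 1 := by
    have := pow_orderOf_eq_one w
    rwa [hw, sq] at this
  have hwinv : w⁻¹ = w := inv_eq_of_mul_eq_one_left hww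
  have hσU : ∀ u ∈ U, w * u * w⁻¹ ∈ U := fun u hu => (Subgroup.mem_normalizer_iff.1 hwU u).1 hu
  have hVcomm : ∀ a ∈ V, ∀ b ∈ V, a * b = b * a := fun a ha b hb =>
    congrArg Subtype.val (hVe.1.is_comm.comm ⟨a, ha⟩ ⟨b, hb⟩)
  have hVsq : ∀ a ∈ V, a * a = 1 := fun a ha => by
    have := hVe.2 a ha
    rwa [sq] at this
  have hVinv : ∀ a ∈ V, a⁻¹ = a := fun a ha => inv_eq_of_mul_eq_one_left (hVsq a ha)
  have hσσ : ∀ u : H, w * (w * u * w⁻¹) * w⁻¹ = u := by
    intro u
    rw [hwinv]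
    calc w * (w * u * w) * w = (w * w) * u * (w * w) := by group
      _ = u := by rw [hww]; group
  -- commutators with w lie in {1, y}
  have hc : ∀ v ∈ V, w * v * w⁻¹ * v⁻¹ = 1 ∨ w * v * w⁻¹ * v⁻¹ = y := by
    intro v hv
    have hcV : w * v * w⁻¹ * v⁻¹ ∈ V := V.mul_mem (hVw v hv) (V.inv_mem hv)
    apply (hfix _ (hVU hcV)).1
    have h1 : w * (w * v * w⁻¹ * v⁻¹) * w⁻¹ = (w * (w * v * w⁻¹) * w⁻¹) * (w * v * w⁻¹)⁻¹ := by group
    rw [h1, hσσ, hVcomm v hv _ (V.inv_mem (hVw v hv)), hVinv _ (hVw v hv), hVinv v hv]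
  have hyo : orderOf y = 2 := orderOf_eq_prime (by rw [sq]; exact hVsq y hyV) hy
  have hzy : ∀ x : H, x ∈ Subgroup.zpowers y ↔ x = 1 ∨ x = y := by
    intro x
    constructor
    · intro hx
      rw [← mem_powers_iff_mem_zpowers, mem_powers_iff_mem_range_orderOf, hyo] at hx
      simp only [Finset.mem_image, Finset.mem_range] at hx
      obtain ⟨k, hk, rfl⟩ := hx
      interval_cases k
      · left; simp
      · right; simp
    · rintro (rfl | rfl)
      · exact one_mem _
      · exact Subgroup.mem_zpowers _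
  let φ : V →* V := MonoidHom.mk' (fun v => ⟨w * v * w⁻¹ * (v : H)⁻¹, V.mul_mem (hVw v v.2) (V.inv_mem v.2)⟩) (by
    intro a b
    apply Subtype.ext
    have h1 := hVcomm _ (V.inv_mem a.2) _ (V.mul_mem (hVw b b.2) (V.inv_mem b.2))
    change w * ((a : H) * b) * w⁻¹ * ((a : H) * b)⁻¹ = (w * a * w⁻¹ * (a : H)⁻¹) * (w * b * w⁻¹ * (b : H)⁻¹)
    calc w * ((a : H) * b) * w⁻¹ * ((a : H) * b)⁻¹ = (w * a * w⁻¹) * ((w * b * w⁻¹ * (b : H)⁻¹) * (a : H)⁻¹) := by group
      _ = (w * a * w⁻¹) * ((a : H)⁻¹ * (w * b * w⁻¹ * (b : H)⁻¹)) := by rw [h1]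
      _ = _ := by group)
  have hcardK : Nat.card ((Subgroup.zpowers y).subgroupOf V) = 2 := by
    rw [Nat.card_congr (Subgroup.subgroupOfEquivOfLe (Subgroup.zpowers_le.2 hyV)).toEquiv, Nat.card_zpowers, hyo]
  have hker : φ.ker ≤ (Subgroup.zpowers y).subgroupOf V := by
    intro v hv
    rw [Subgroup.mem_subgroupOf, hzy]
    apply (hfix _ (hVU v.2)).1
    have h1 : w * v * w⁻¹ * (v : H)⁻¹ = 1 := congrArg Subtype.val (MonoidHom.mem_ker.1 hv)
    exact mul_inv_eq_one.1 h1
  have hrange : φ.range ≤ (Subgroup.zpowers y).subgroupOf V := by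
    rintro _ ⟨v, rfl⟩
    rw [Subgroup.mem_subgroupOf, hzy]
    exact hc v v.2
  have hV4 : Nat.card V ≤ 4 := by
    rw [← Subgroup.card_mul_index φ.ker, Subgroup.index_ker]
    calc _ ≤ 2 * 2 := Nat.mul_le_mul (hcardK ▸ Subgroup.card_le_of_le hker) (hcardK ▸ Subgroup.card_le_of_le hrange)
      _ = 4 := by norm_num
  have hVp : IsPGroup 2 V := by
    intro v
    refine ⟨1, ?_⟩
    apply Subtype.ext
    simpa using hVe.2 v v.2
  have hVcard : Nat.card V = 4 := by
    haveI : Fact (Nat.Prime 2) := ⟨Nat.prime_two⟩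
    obtain ⟨k, hk⟩ := hVp.exists_card_eq
    rcases k with _ | _ | _ | k
    · exfalso; apply hVc
      haveI : Subsingleton V := Finite.card_le_one_iff_subsingleton.1 (by rw [hk]; simp)
      exact isCyclic_of_subsingleton
    · exfalso; apply hVc
      exact isCyclic_of_prime_card (p := 2) (by rw [hk]; simp)
    · rw [hk]; norm_num
    · exfalso
      rw [hk] at hV4
      have : 2 ^ 3 ≤ 2 ^ (k + 1 + 1 + 1) := Nat.pow_le_pow_right (by norm_num) (by omega)
      omega
  -- an element v0 with [w, v0] = y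
  obtain ⟨v0, hv0V, hv0⟩ : ∃ v0 ∈ V, w * v0 * w⁻¹ * v0⁻¹ = y := by
    by_contra hcon
    push Not at hcon
    have h1 : V ≤ Subgroup.zpowers y := by
      intro v hv
      rw [hzy]
      apply (hfix _ (hVU hv)).1
      rcases hc v hv with h | h
      · exact mul_inv_eq_one.1 h
      · exact absurd h (hcon v hv)
    have h2 := Subgroup.card_le_of_le h1
    rw [hVcard, Nat.card_zpowers, hyo] at h2
    omega
  have hv0' : w * v0 * w⁻¹ = y * v0 := by rw [← hv0]; group
  -- fixed-point-freeness modulo V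
  have hfpf : ∀ u ∈ U, u⁻¹ * (w * u * w⁻¹) ∈ V → u ∈ V := by
    intro u hu hv
    set v := u⁻¹ * (w * u * w⁻¹) with hvdef
    have h1 : w * u * w⁻¹ = u * v := by rw [hvdef]; group
    have h2 : v * (w * v * w⁻¹) = 1 := by
      have h3 := hσσ u
      rw [h1] at h3
      have h4 : w * (u * v) * w⁻¹ = (w * u * w⁻¹) * (w * v * w⁻¹) := by group
      rw [h4, h1, mul_assoc] at h3
      exact mul_eq_left.1 h3
    have h3 : w * v * w⁻¹ = v := by
      have := eq_inv_of_mul_eq_one_right h2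
      rw [this, hVinv v hv]
    rcases (hfix v (hVU hv)).1 h3 with h4 | h4
    · rw [h4, mul_one] at h1
      rcases (hfix u hu).1 h1 with h5 | h5
      · rw [h5]; exact one_mem _
      · rw [h5]; exact hyV
    · have h5 : w * (u * v0) * w⁻¹ = u * v0 := by
        have h6 : w * (u * v0) * w⁻¹ = (w * u * w⁻¹) * (w * v0 * w⁻¹) := by group
        rw [h6, h1, h4, hv0']
        calc u * y * (y * v0) = u * (y * y) * v0 := by group
          _ = u * v0 := by rw [hVsq y hyV, mul_one]
      have h7 : u * v0 ∈ V := by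
        rcases (hfix _ (U.mul_mem hu (hVU hv0V))).1 h5 with h8 | h8
        · rw [h8]; exact one_mem _
        · rw [h8]; exact hyV
      have := V.mul_mem h7 (V.inv_mem hv0V)
      simpa using this
  let σ : U →* U := MonoidHom.mk' (fun u => ⟨w * u * w⁻¹, hσU u u.2⟩) (by
    intro a b
    apply Subtype.ext
    change w * ((a : H) * b) * w⁻¹ = (w * a * w⁻¹) * (w * b * w⁻¹)
    group)
  let σb := QuotientGroup.map (V.subgroupOf U) (V.subgroupOf U) σ (by
    intro u hu
    rw [Subgroup.mem_comap, Subgroup.mem_subgroupOf]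
    exact hVw u hu)
  have hσb : ∀ u : U, σb (QuotientGroup.mk u) = QuotientGroup.mk (σ u) := fun u => rfl
  have hF : MonoidHom.FixedPointFree σb := by
    intro x hx
    obtain ⟨u, rfl⟩ := QuotientGroup.mk_surjective x
    rw [hσb, eq_comm, QuotientGroup.eq] at hx
    rw [QuotientGroup.eq_one_iff, Subgroup.mem_subgroupOf]
    exact hfpf u u.2 hx
  have hI : Function.Involutive σb := by
    intro x
    obtain ⟨u, rfl⟩ := QuotientGroup.mk_surjective x
    rw [hσb, hσb]
    congr 1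
    exact Subtype.ext (hσσ u)
  refine ⟨?_, hVcard, ?_⟩
  · have h1 := hF.odd_card_of_involutive hI
    rw [← Subgroup.index_eq_card] at h1
    intro h2
    exact (Nat.not_even_iff_odd.2 h1) (even_iff_two_dvd.2 h2)
  · rw [Subgroup.commutator_le]
    intro a ha b hb
    have h1 := hF.commute_all_of_involutive hI (QuotientGroup.mk ⟨a, ha⟩) (QuotientGroup.mk ⟨b, hb⟩)
    have h2 : (QuotientGroup.mk (⁅(⟨a, ha⟩ : U), ⟨b, hb⟩⁆) : U ⧸ V.subgroupOf U) = 1 := by
      rw [commutatorElement_def, QuotientGroup.mk_mul, QuotientGroup.mk_mul, QuotientGroup.mk_mul,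
        QuotientGroup.mk_inv, QuotientGroup.mk_inv, h1.eq]
      group
    rw [QuotientGroup.eq_one_iff, Subgroup.mem_subgroupOf] at h2
    exact h2

end Cfsg.Agent.S3825
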