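import Cfsg.Statements.S3835
import Mathlib
import Cfsg.Agent.Lib.Helper5.AltP

set_option autoImplicit false
open Cfsg

namespace Cfsg.Agent.S3835

open Cfsg.Agent.Lib.Helper5.Dk Cfsg.Agent.Lib.Helper5.AltP Cfsg.Agent.S2231 Cfsg.Agent.Lib.Helper1

/-- Let p be an odd prime and n a natural number. The alternating group of degree n has a subgroup isomorphic to Qd(p) (the natural semidirect product of an elementary abelian group of order p² by SL₂(p)) if and only if n ≥ p²; and if n < p² then Qd(p) is not even involved in it. -/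
theorem result {p : ℕ} [Fact p.Prime] (hp : p ≠ 2) (n : ℕ) : ((∃ H : Subgroup (alternatingGroup (Fin n)), Nonempty (↥H ≃* ↥(Cfsg.qd p))) ↔ p ^ 2 ≤ n) ∧ (n < p ^ 2 → ¬ Cfsg.Involves ↥(Cfsg.qd p) ↥(alternatingGroup (Fin n))) := by
  have hc : n < p ^ 2 → ¬ Cfsg.Involves ↥(Cfsg.qd p) ↥(alternatingGroup (Fin n)) := by
    intro hn h
    obtain ⟨X, f, hf⟩ := involves_iff.mp h
    exact not_abP_qd ((abP_alt (p := p) hn).of_section X f hf)
  refine ⟨⟨?_, ?_⟩, hc⟩
  · rintro ⟨H, ⟨e⟩⟩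
    by_contra hn
    exact hc (not_le.mp hn) (involves_iff.mpr ⟨H, e.toMonoidHom, e.surjective⟩)
  · intro hn
    have hfin : Finite ↥(Cfsg.qd p) := inferInstance
    obtain ⟨ψ, hψ⟩ := exists_embedding (QdC.ofEquiv (MulEquiv.refl ↥(Cfsg.qd p))) hp hn
    exact ⟨ψ.range, ⟨(MonoidHom.ofInjective hψ).symm⟩⟩

end Cfsg.Agent.S3835
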