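import Mathlib
import Cfsg.Statements.S3858
import Cfsg.Agent.Lib.Helper20.SylowExtra

set_option autoImplicit false
open Cfsg

namespace Cfsg.Agent.S3858

open Cfsg.Agent.Lib.Helper20

theorem result {G : Type*} [Group G] [Finite G] (T : Subgroup G) [T.Normal] (hT : IsSimpleGroup T) (hna : ¬ IsMulCommutative T)
    (hC : Subgroup.centralizer (T : Set G) = ⊥) {r : ℕ} [Fact r.Prime] (R : Sylow r G) (hR0 : (R : Subgroup G) ⊓ T ≠ ⊥) :
    (∃! M : Subgroup G, IsCoatom M ∧ (R : Subgroup G) ≤ M) ↔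
      ((∃ M : Subgroup G, IsCoatom M ∧ ¬ r ∣ M.index) ∧
        ∀ M₁ M₂ : Subgroup G, IsCoatom M₁ → ¬ r ∣ M₁.index → IsCoatom M₂ → ¬ r ∣ M₂.index → ∃ g : G, M₂ = M₁.map (MulAut.conj g).toMonoidHom) := by
  have hidx : ∀ M : Subgroup G, (R : Subgroup G) ≤ M → ¬ r ∣ M.index := by
    intro M hM hdvd
    exact R.not_dvd_index (hdvd.trans (Subgroup.index_dvd_of_le hM))
  constructor
  · rintro ⟨M, ⟨hM, hRM⟩, hMu⟩
    refine ⟨⟨M, hM, hidx M hRM⟩, ?_⟩
    intro M₁ M₂ h1 h1' h2 h2'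
    obtain ⟨g₁, hg₁⟩ := exists_le_cj_of_not_dvd_index (R : Subgroup G) R.isPGroup' M₁ h1'
    obtain ⟨g₂, hg₂⟩ := exists_le_cj_of_not_dvd_index (R : Subgroup G) R.isPGroup' M₂ h2'
    have e1 : cj g₁ M₁ = M := hMu _ ⟨isCoatom_cj g₁ h1, hg₁⟩
    have e2 : cj g₂ M₂ = M := hMu _ ⟨isCoatom_cj g₂ h2, hg₂⟩
    refine ⟨g₂⁻¹ * g₁, ?_⟩
    change M₂ = cj (g₂⁻¹ * g₁) M₁
    rw [← cj_cj, e1, ← e2, cj_inv_cj]
  · rintro ⟨-, hconj⟩
    have hNne : Subgroup.normalizer ((R : Subgroup G) : Set G) ≠ ⊤ := by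
      intro h
      have hRn : (R : Subgroup G).Normal := Subgroup.normalizer_eq_top_iff.1 h
      have h1 : (((R : Subgroup G) ⊓ T).subgroupOf T).Normal := inferInstance
      rcases hT.eq_bot_or_eq_top_of_normal _ h1 with h2 | h2
      · rw [Subgroup.subgroupOf_eq_bot, disjoint_iff, inf_eq_left.2 inf_le_right] at h2
        exact hR0 h2
      · rw [Subgroup.subgroupOf_eq_top] at h2
        have hTR : T ≤ (R : Subgroup G) := h2.trans inf_le_left
        have hp : IsPGroup r T := R.isPGroup'.to_le hTR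
        exact hna (isMulCommutative_of_simple_pgroup hT hp)
    obtain ⟨L, hL, hNL⟩ := exists_coatom_ge hNne
    have hRL : (R : Subgroup G) ≤ L := Subgroup.le_normalizer.trans hNL
    refine ⟨L, ⟨hL, hRL⟩, ?_⟩
    rintro M ⟨hM, hRM⟩
    obtain ⟨g, hg⟩ := hconj L M hL (hidx L hRL) hM (hidx M hRM)
    change M = cj g L at hg
    have h1 : ((g • R : Sylow r G) : Subgroup G) ≤ M := by
      rw [sylow_smul_coe, hg]; exact cj_mono hRL
    obtain ⟨m, hm, hmR⟩ := sylow_conj_in_overgroup R (g • R) M hRM h1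
    rw [smul_smul, Sylow.smul_eq_iff_mem_normalizer] at hmR
    have h2 : cj (m * g) L = L := cj_eq_of_mem_normalizer (Subgroup.le_normalizer (hNL hmR))
    rw [← cj_cj, ← hg, cj_eq_of_mem_normalizer (Subgroup.le_normalizer hm)] at h2
    exact h2

end Cfsg.Agent.S3858
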