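import Mathlib
import Cfsg.Statements.S3859
import Cfsg.Agent.Lib.Helper20.SylowExtra

set_option autoImplicit false
open Cfsg

namespace Cfsg.Agent.S3859

open Cfsg.Agent.Lib.Helper20

theorem result {G : Type*} [Group G] [Finite G] (T : Subgroup G) [T.Normal] (hT : IsSimpleGroup T) (hna : ¬ IsMulCommutative T)
    (hC : Subgroup.centralizer (T : Set G) = ⊥) {r : ℕ} [Fact r.Prime] (R : Sylow r G) (hR0 : (R : Subgroup G) ⊓ T ≠ ⊥)
    (huniq : ∃! M : Subgroup G, IsCoatom M ∧ (R : Subgroup G) ≤ M) : IsPGroup r (G ⧸ T) := by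
  obtain ⟨M, ⟨hM, hRM⟩, hMu⟩ := huniq
  have hsup : (R : Subgroup G) ⊔ T = ⊤ := by
    by_contra hne
    obtain ⟨M', hM', hle⟩ := exists_coatom_ge hne
    have hM'M : M' = M := hMu M' ⟨hM', le_sup_left.trans hle⟩
    have hTM : T ≤ M := hM'M ▸ (le_sup_right.trans hle)
    set D := (R : Subgroup G) ⊓ T with hD
    have hRD : (R : Subgroup G) ≤ Subgroup.normalizer (D : Set G) := by
      refine le_trans ?_ Subgroup.inf_normalizer_le_normalizer_inf
      exact le_inf Subgroup.le_normalizer (by rw [Subgroup.normalizer_eq_top]; exact le_top)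
    have hDne : Subgroup.normalizer (D : Set G) ≠ ⊤ := by
      intro h
      have hDn : D.Normal := Subgroup.normalizer_eq_top_iff.1 h
      have h1 : (D.subgroupOf T).Normal := inferInstance
      rcases hT.eq_bot_or_eq_top_of_normal _ h1 with h2 | h2
      · rw [Subgroup.subgroupOf_eq_bot, disjoint_iff, inf_eq_left.2 inf_le_right] at h2
        exact hR0 h2
      · rw [Subgroup.subgroupOf_eq_top] at h2
        have hTR : T ≤ (R : Subgroup G) := h2.trans inf_le_left
        have hp : IsPGroup r T := R.isPGroup'.to_le hTR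
        exact hna (isMulCommutative_of_simple_pgroup hT hp)
    obtain ⟨M'', hM'', hle''⟩ := exists_coatom_ge hDne
    have hM''M : M'' = M := hMu M'' ⟨hM'', hRD.trans hle''⟩
    have hfr := frattini_inf_normal R T
    have : (⊤ : Subgroup G) ≤ M := by
      rw [← hfr]
      exact sup_le (hM''M ▸ hle'') hTM
    exact hM.1 (top_le_iff.1 this)
  apply R.isPGroup'.of_surjective ((QuotientGroup.mk' T).comp (R : Subgroup G).subtype)
  intro x
  obtain ⟨g, rfl⟩ := QuotientGroup.mk'_surjective T x
  have hg : (g : G) ∈ (((R : Subgroup G) ⊔ T : Subgroup G) : Set G) := by rw [hsup]; trivial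
  rw [Subgroup.mul_normal] at hg
  obtain ⟨a, ha, t, ht, rfl⟩ := hg
  refine ⟨⟨a, ha⟩, ?_⟩
  simp only [MonoidHom.coe_comp, Function.comp_apply, Subgroup.subtype_apply, map_mul]
  have : (QuotientGroup.mk' T) t = 1 := (QuotientGroup.eq_one_iff t).2 ht
  rw [this, mul_one]

end Cfsg.Agent.S3859
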