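import Mathlib
import Cfsg.Statements.S3863
import Cfsg.Agent.Lib.Helper20.ConjClass

set_option autoImplicit false
open Cfsg

namespace Cfsg.Agent.S3863

open Cfsg.Agent.Lib.Helper20

theorem exists_two_elt {G : Type*} [Group G] [Finite G] (x : G) (hx : IsConj x x⁻¹) :
    ∃ t : G, (∃ j : ℕ, orderOf t = 2 ^ j) ∧ t * x * t⁻¹ = x⁻¹ := by
  obtain ⟨g, hg⟩ := isConj_iff.1 hx
  obtain ⟨j, m, hm, hjm⟩ := Nat.exists_eq_two_pow_mul_odd (orderOf_pos g).ne'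
  refine ⟨g ^ m, ⟨j, ?_⟩, ?_⟩
  · rw [orderOf_pow_of_dvd hm.pos.ne' ⟨2 ^ j, by rw [hjm, mul_comm]⟩, hjm]
    exact Nat.mul_div_cancel _ hm.pos
  · obtain ⟨k, rfl⟩ := hm
    have h2 : Commute (g ^ 2) x := by
      have : g ^ 2 * x * (g ^ 2)⁻¹ = x := by
        have e : g ^ 2 * x * (g ^ 2)⁻¹ = g * (g * x * g⁻¹) * g⁻¹ := by
          simp [pow_two, mul_assoc]
        rw [e, hg]
        have e2 : g * x⁻¹ * g⁻¹ = (g * x * g⁻¹)⁻¹ := by simp [mul_assoc]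
        rw [e2, hg, inv_inv]
      exact mul_inv_eq_iff_eq_mul.1 this
    have h3 : Commute ((g ^ 2) ^ k) x⁻¹ := (h2.pow_left k).inv_right
    have e : g ^ (2 * k + 1) = (g ^ 2) ^ k * g := by rw [pow_succ, pow_mul]
    rw [e]
    have e3 : (g ^ 2) ^ k * g * x * ((g ^ 2) ^ k * g)⁻¹ = (g ^ 2) ^ k * (g * x * g⁻¹) * ((g ^ 2) ^ k)⁻¹ := by
      simp [mul_assoc]
    rw [e3, hg, h3.eq]; simp

theorem result {G : Type*} [Group G] [Finite G] (x : G) (hx : IsConj x x⁻¹) : (∃ t : G, (∃ j : ℕ, orderOf t = 2 ^ j) ∧ t * x * t⁻¹ = x⁻¹) ∧ (Odd (Subgroup.centralizer ({x} : Set G)).index → x ^ 2 = 1) ∧ ∀ (N : Subgroup G) [N.Normal], Odd N.index → ∃ hxN : x ∈ N, IsConj (⟨x, hxN⟩ : N) (⟨x, hxN⟩ : N)⁻¹ := by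
  obtain ⟨t, ⟨j, hj⟩, ht⟩ := exists_two_elt x hx
  refine ⟨⟨t, ⟨j, hj⟩, ht⟩, ?_, ?_⟩
  · intro hodd
    rw [← card_conjClass_eq_index] at hodd
    obtain ⟨y, hy, hyy⟩ := exists_fixed_of_involution_of_odd {y : G | IsConj x y} hodd (fun y => y⁻¹)
      (by
        intro y hy
        have h1 : IsConj x⁻¹ y⁻¹ := by
          obtain ⟨c, hc⟩ := isConj_iff.1 hy
          exact isConj_iff.2 ⟨c, by rw [← hc]; simp [mul_assoc]⟩
        exact hx.trans h1)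
      (by intro y _; simp)
    obtain ⟨c, hc⟩ := isConj_iff.1 hy
    have h1 : y ^ 2 = 1 := by
      rw [pow_two]
      nth_rewrite 1 [← hyy]
      simp
    have h2 : (c * x * c⁻¹) ^ 2 = 1 := by rw [hc]; exact h1
    rw [conj_pow] at h2
    have h3 : x ^ 2 = c⁻¹ * (c * x ^ 2 * c⁻¹) * c := by simp [mul_assoc]
    rw [h3, h2]; simp
  · intro N _ hodd
    -- elements whose image has 2-power order lie in N
    have hmem : ∀ y : G, ∀ k : ℕ, y ^ (2 ^ k) ∈ N → y ∈ N := by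
      intro y k hy
      have h1 : (QuotientGroup.mk' N y) ^ (2 ^ k) = 1 := by
        rw [← map_pow]; exact (QuotientGroup.eq_one_iff _).2 hy
      have h2 : orderOf (QuotientGroup.mk' N y) ∣ 2 ^ k := orderOf_dvd_of_pow_eq_one h1
      have h3 : orderOf (QuotientGroup.mk' N y) ∣ N.index := by
        rw [Subgroup.index_eq_card]; exact orderOf_dvd_natCard _
      have h4 : Nat.Coprime (2 ^ k) N.index := Nat.Coprime.pow_left _ (Nat.coprime_two_left.2 hodd)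
      have h5 : orderOf (QuotientGroup.mk' N y) = 1 := Nat.eq_one_of_dvd_coprimes h4 h2 h3
      exact (QuotientGroup.eq_one_iff _).1 (orderOf_eq_one_iff.1 h5)
    have htN : t ∈ N := hmem t j (by rw [← hj, pow_orderOf_eq_one]; exact N.one_mem)
    have hx2 : x ^ 2 ∈ N := by
      have h1 : x * t * x⁻¹ ∈ N := (inferInstance : N.Normal).conj_mem t htN x
      have h2 : x * t * x⁻¹ * t⁻¹ ∈ N := N.mul_mem h1 (N.inv_mem htN)
      have h3 : x * t * x⁻¹ * t⁻¹ = x ^ 2 := by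
        have : t * x⁻¹ * t⁻¹ = x := by
          have e2 : t * x⁻¹ * t⁻¹ = (t * x * t⁻¹)⁻¹ := by simp [mul_assoc]
          rw [e2, ht, inv_inv]
        calc x * t * x⁻¹ * t⁻¹ = x * (t * x⁻¹ * t⁻¹) := by simp [mul_assoc]
          _ = x ^ 2 := by rw [this, pow_two]
      rwa [h3] at h2
    have hxN : x ∈ N := hmem x 1 (by simpa using hx2)
    refine ⟨hxN, ?_⟩
    rw [isConj_iff]
    exact ⟨⟨t, htN⟩, Subtype.ext ht⟩

end Cfsg.Agent.S3863
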