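import Cfsg.Statements.S3866
import Mathlib

set_option autoImplicit false
open Cfsg

namespace Cfsg.Agent.S3866


theorem commutator_le_of_closure {G : Type*} [Group G] (N : Subgroup G) [N.Normal] (k : Set G)
    (hk : Subgroup.closure k = ⊤)
    (h : ∀ x ∈ k, ∀ y ∈ k, x * y * x⁻¹ * y⁻¹ ∈ N) : commutator G ≤ N := by
  rw [← Subgroup.Normal.quotient_commutative_iff_commutator_le]
  have h1 : Subgroup.closure ((QuotientGroup.mk' N) '' k) = ⊤ := by
    rw [← MonoidHom.map_closure, hk, ← MonoidHom.range_eq_map, MonoidHom.range_eq_top]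
    exact QuotientGroup.mk'_surjective N
  have h2 : IsMulCommutative (Subgroup.closure ((QuotientGroup.mk' N) '' k)) := by
    apply Subgroup.isMulCommutative_closure
    rintro _ ⟨x, hx, rfl⟩ _ ⟨y, hy, rfl⟩
    have h3 := h x hx y hy
    have h4 : (QuotientGroup.mk' N) (x * y * x⁻¹ * y⁻¹) = 1 := by
      rw [QuotientGroup.mk'_apply, QuotientGroup.eq_one_iff]; exact h3
    rw [map_mul, map_mul, map_mul, map_inv, map_inv] at h4
    have h5 := mul_inv_eq_one.1 h4
    exact mul_inv_eq_iff_eq_mul.1 h5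
  refine ⟨⟨fun a b => ?_⟩⟩
  have ha : a ∈ Subgroup.closure ((QuotientGroup.mk' N) '' k) := h1 ▸ Subgroup.mem_top a
  have hb : b ∈ Subgroup.closure ((QuotientGroup.mk' N) '' k) := h1 ▸ Subgroup.mem_top b
  have := h2.is_comm.comm ⟨a, ha⟩ ⟨b, hb⟩
  exact congrArg Subtype.val this



/-- Let A be a commutative normal subgroup of the finite group G with G generated by A and an element x. Then a ↦ x a x⁻¹ a⁻¹ is a surjective homomorphism from A onto the commutator subgroup of G whose kernel is the centralizer of x in A; in particular the commutator subgroup has order equal to the index in A of that centralizer. -/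
theorem result {G : Type*} [Group G] [Finite G] (A : Subgroup G) [A.Normal] (hA : IsMulCommutative A) (x : G) (hgen : A ⊔ Subgroup.zpowers x = ⊤) : (∀ a ∈ A, x * a * x⁻¹ * a⁻¹ ∈ commutator G) ∧ (∀ c ∈ commutator G, ∃ a ∈ A, x * a * x⁻¹ * a⁻¹ = c) ∧ (∀ a ∈ A, ∀ b ∈ A, x * (a * b) * x⁻¹ * (a * b)⁻¹ = (x * a * x⁻¹ * a⁻¹) * (x * b * x⁻¹ * b⁻¹)) ∧ Nat.card (commutator G) * Nat.card ↥(A ⊓ Subgroup.centralizer ({x} : Set G)) = Nat.card A := by
  classical
  have hcomm : ∀ a ∈ A, ∀ b ∈ A, a * b = b * a := fun a ha b hb =>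
    congrArg Subtype.val (hA.is_comm.comm ⟨a, ha⟩ ⟨b, hb⟩)
  have hconj : ∀ a ∈ A, x * a * x⁻¹ ∈ A := fun a ha => ‹A.Normal›.conj_mem a ha x
  have hmul : ∀ a ∈ A, ∀ b ∈ A, x * (a * b) * x⁻¹ * (a * b)⁻¹ = (x * a * x⁻¹ * a⁻¹) * (x * b * x⁻¹ * b⁻¹) := by
    intro a ha b hb
    have h1 := hcomm _ (A.inv_mem ha) _ (A.mul_mem (hconj b hb) (A.inv_mem hb))
    calc x * (a * b) * x⁻¹ * (a * b)⁻¹ = (x * a * x⁻¹) * ((x * b * x⁻¹ * b⁻¹) * a⁻¹) := by group
      _ = (x * a * x⁻¹) * (a⁻¹ * (x * b * x⁻¹ * b⁻¹)) := by rw [h1]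
      _ = _ := by group
  let φ : A →* G := MonoidHom.mk' (fun a => x * a * x⁻¹ * (a : G)⁻¹) (fun a b => hmul a a.2 b b.2)
  have hφ : ∀ a : A, φ a = x * a * x⁻¹ * (a : G)⁻¹ := fun a => rfl
  have hφA : φ.range ≤ A := by
    rintro _ ⟨a, rfl⟩
    exact A.mul_mem (hconj a a.2) (A.inv_mem a.2)
  have hmem : ∀ a ∈ A, x * a * x⁻¹ * a⁻¹ ∈ commutator G := by
    intro a _
    have := Subgroup.commutator_mem_commutator (Subgroup.mem_top x) (Subgroup.mem_top a)
    rwa [commutatorElement_def] at this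
  have hnorm : φ.range.Normal := by
    rw [← Subgroup.normalizer_eq_top_iff, eq_top_iff, ← hgen, sup_le_iff]
    constructor
    · intro a ha
      rw [Subgroup.mem_normalizer_iff]
      intro c
      constructor
      · intro hc
        have : a * c * a⁻¹ = c := by
          rw [hcomm a ha c (hφA hc)]; group
        rw [this]; exact hc
      · intro hc
        have hcA : c ∈ A := by
          have := hφA hc
          have h2 := A.mul_mem (A.mul_mem (A.inv_mem ha) this) ha
          simpa [mul_assoc] using h2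
        have : a * c * a⁻¹ = c := by
          rw [hcomm a ha c hcA]; group
        rw [this] at hc; exact hc
    · rw [Subgroup.zpowers_le]
      rw [Subgroup.mem_normalizer_iff]
      intro c
      constructor
      · rintro ⟨a, rfl⟩
        refine ⟨⟨x * a * x⁻¹, hconj a a.2⟩, ?_⟩
        rw [hφ, hφ]; group
      · rintro ⟨a, ha⟩
        have hx' : x⁻¹ * a * x ∈ A := by simpa using ‹A.Normal›.conj_mem a a.2 x⁻¹
        refine ⟨⟨x⁻¹ * a * x, hx'⟩, ?_⟩
        rw [hφ] at ha ⊢
        have : c = x⁻¹ * (x * c * x⁻¹) * x := by group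
        rw [this, ← ha]; group
  have hle : commutator G ≤ φ.range := by
    apply commutator_le_of_closure φ.range ((A : Set G) ∪ {x})
    · rw [Subgroup.closure_union, Subgroup.closure_eq, ← Subgroup.zpowers_eq_closure, hgen]
    · rintro a (ha | ha) b (hb | hb)
      · have : a * b * a⁻¹ * b⁻¹ = 1 := by rw [hcomm a ha b hb]; group
        rw [this]; exact one_mem _
      · rw [Set.mem_singleton_iff] at hb
        subst hb
        have : a * b * a⁻¹ * b⁻¹ = (φ ⟨a, ha⟩)⁻¹ := by rw [hφ]; group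
        rw [this]; exact inv_mem ⟨_, rfl⟩
      · rw [Set.mem_singleton_iff] at ha
        subst ha
        exact ⟨⟨b, hb⟩, rfl⟩
      · rw [Set.mem_singleton_iff] at ha hb
        rw [ha, hb]
        have : x * x * x⁻¹ * x⁻¹ = 1 := by group
        rw [this]; exact one_mem _
  have heq : φ.range = commutator G := le_antisymm (by rintro _ ⟨a, rfl⟩; exact hmem a a.2) hle
  refine ⟨hmem, ?_, hmul, ?_⟩
  · intro c hc
    obtain ⟨a, ha⟩ := hle hc
    exact ⟨a, a.2, ha⟩
  · have hker : φ.ker = (A ⊓ Subgroup.centralizer ({x} : Set G)).subgroupOf A := by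
      ext a
      rw [MonoidHom.mem_ker, hφ, Subgroup.mem_subgroupOf, Subgroup.mem_inf, Subgroup.mem_centralizer_singleton_iff]
      constructor
      · intro h
        refine ⟨a.2, ?_⟩
        have h5 := mul_inv_eq_one.1 h
        exact (mul_inv_eq_iff_eq_mul.1 h5).symm
      · rintro ⟨_, h⟩
        rw [← h]; group
    have h1 := Subgroup.card_mul_index φ.ker
    rw [Subgroup.index_ker, heq, hker, Nat.card_congr (Subgroup.subgroupOfEquivOfLe inf_le_left).toEquiv] at h1
    rw [mul_comm]; exact h1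

end Cfsg.Agent.S3866
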