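import Cfsg.Statements.S3867
import Mathlib
import Cfsg.Agent.Lib.Helper20.SylowExtra
import Cfsg.Agent.Lib.Helper22.Index

set_option autoImplicit false
open Cfsg Cfsg.Agent.Lib.Helper20

namespace Cfsg.Agent.S3867


theorem normalizer_sup_normal {G : Type*} [Group G] [Finite G] {p : ℕ} [Fact p.Prime] (P : Sylow p G)
    (M : Subgroup G) [hM : M.Normal] :
    Subgroup.normalizer (((P : Subgroup G) ⊔ M : Subgroup G) : Set G) = Subgroup.normalizer ((P : Subgroup G) : Set G) ⊔ M := by
  apply le_antisymm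
  · intro g hg
    have h1 : ((g • P : Sylow p G) : Subgroup G) ≤ (P : Subgroup G) ⊔ M := by
      intro x hx
      rw [sylow_smul_coe, mem_cj] at hx
      have h2 : g⁻¹ * x * g ∈ (P : Subgroup G) ⊔ M := le_sup_left (a := (P : Subgroup G)) hx
      have h3 := (Subgroup.mem_normalizer_iff.1 hg _).1 h2
      have h4 : g * (g⁻¹ * x * g) * g⁻¹ = x := by group
      rwa [h4] at h3
    obtain ⟨m, hm, hmP⟩ := sylow_conj_in_overgroup P (g • P) _ le_sup_left h1
    rw [← mul_smul, Sylow.smul_eq_iff_mem_normalizer] at hmP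
    have h5 : (P : Subgroup G) ⊔ M ≤ Subgroup.normalizer ((P : Subgroup G) : Set G) ⊔ M :=
      sup_le_sup_right Subgroup.le_normalizer M
    have h6 : g = m⁻¹ * (m * g) := by group
    rw [h6]
    exact mul_mem (inv_mem (h5 hm)) (le_sup_left (b := M) hmP)
  · rw [sup_le_iff]
    constructor
    · intro g hg
      rw [Subgroup.mem_normalizer_iff_map_conj_eq, Subgroup.map_sup,
        Subgroup.mem_normalizer_iff_map_conj_eq.1 hg]
      congr 1
      have : g ∈ Subgroup.normalizer (M : Set G) := by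
        rw [Subgroup.normalizer_eq_top_iff.2 hM]; exact Subgroup.mem_top g
      exact Subgroup.mem_normalizer_iff_map_conj_eq.1 this
    · exact le_sup_right.trans Subgroup.le_normalizer

theorem card_sylow_quotient {G : Type*} [Group G] [Finite G] {p : ℕ} [Fact p.Prime] (P : Sylow p G)
    (M : Subgroup G) [hM : M.Normal] :
    Nat.card (Sylow p (G ⧸ M)) = (Subgroup.normalizer ((P : Subgroup G) : Set G) ⊔ M).index := by
  have hs := QuotientGroup.mk'_surjective M
  have e : Nat.card (Sylow p (G ⧸ M)) =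
      (Subgroup.normalizer (((P : Subgroup G).map (QuotientGroup.mk' M) : Subgroup (G ⧸ M)) : Set (G ⧸ M))).index :=
    Sylow.card_eq_index_normalizer (Sylow.mapSurjective hs P)
  rw [e, ← Subgroup.index_comap_of_surjective _ hs, Subgroup.comap_normalizer_eq_of_surjective _ hs,
    Subgroup.comap_map_eq, QuotientGroup.ker_mk', normalizer_sup_normal]

theorem mem_normalizer_of_mul_mem {G : Type*} [Group G] [Finite G] {p : ℕ} [Fact p.Prime] (P : Sylow p G)
    (M N : Subgroup G) [hM : M.Normal] [hN : N.Normal] (hMN : M ⊓ N = ⊥) (m n : G) (hm : m ∈ M) (hn : n ∈ N)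
    (hmn : m * n ∈ Subgroup.normalizer ((P : Subgroup G) : Set G)) :
    m ∈ Subgroup.normalizer ((P : Subgroup G) : Set G) := by
  set T : Subgroup G := M ⊓ ((P : Subgroup G) ⊔ N) with hT
  have hTp : IsPGroup p T := by
    rintro ⟨g, hgM, hgPN⟩
    obtain ⟨x, hx, n', hn', rfl⟩ := Subgroup.mem_sup_of_normal_right.1 hgPN
    obtain ⟨k, hk⟩ := P.2 ⟨x, hx⟩
    have hk' : x ^ p ^ k = 1 := by simpa using congrArg Subtype.val hk
    refine ⟨k, Subtype.ext ?_⟩
    have h1 : (x * n') ^ p ^ k ∈ N := by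
      rw [← QuotientGroup.eq_one_iff, QuotientGroup.mk_pow, QuotientGroup.mk_mul,
        (QuotientGroup.eq_one_iff n').2 hn', mul_one, ← QuotientGroup.mk_pow, hk']
      rfl
    have h2 : (x * n') ^ p ^ k ∈ M ⊓ N := ⟨M.pow_mem hgM _, h1⟩
    rw [hMN, Subgroup.mem_bot] at h2
    exact h2
  have hPT : (P : Subgroup G) ≤ Subgroup.normalizer (T : Set G) := by
    intro x hx
    rw [Subgroup.mem_normalizer_iff_map_conj_eq, hT, Subgroup.map_inf _ _ _ (MulAut.conj x).injective]
    congr 1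
    · have : x ∈ Subgroup.normalizer (M : Set G) := by
        rw [Subgroup.normalizer_eq_top_iff.2 hM]; exact Subgroup.mem_top x
      exact Subgroup.mem_normalizer_iff_map_conj_eq.1 this
    · have : x ∈ Subgroup.normalizer (((P : Subgroup G) ⊔ N : Subgroup G) : Set G) :=
        Subgroup.le_normalizer (le_sup_left (a := (P : Subgroup G)) hx)
      exact Subgroup.mem_normalizer_iff_map_conj_eq.1 this
  have hTP : T ≤ P := by
    have h1 := P.is_maximal' (IsPGroup.to_sup_of_normal_right' P.2 hTp hPT) le_sup_left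
    rw [← h1]; exact le_sup_right
  have hconj : ∀ x ∈ (P : Subgroup G), m * x * m⁻¹ ∈ (P : Subgroup G) := by
    intro x hx
    have h1 : (m * n) * x * (m * n)⁻¹ ∈ (P : Subgroup G) := (Subgroup.mem_normalizer_iff.1 hmn x).1 hx
    have h2 : m * x * m⁻¹ * x⁻¹ ∈ T := by
      refine ⟨by
        have h0 : m * x * m⁻¹ * x⁻¹ = m * (x * m⁻¹ * x⁻¹) := by group
        rw [h0]
        exact M.mul_mem hm (hM.conj_mem _ (M.inv_mem hm) x), ?_⟩
      have h3 : m * x * m⁻¹ * x⁻¹ = ((m * n) * x * (m * n)⁻¹) * (m * (n * (x⁻¹ * n⁻¹ * x⁻¹⁻¹)) * m⁻¹) * x⁻¹ := by group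
      change m * x * m⁻¹ * x⁻¹ ∈ (P : Subgroup G) ⊔ N
      rw [h3]
      refine mul_mem (mul_mem (le_sup_left (a := (P : Subgroup G)) h1) (le_sup_right (a := (P : Subgroup G)) ?_))
        (le_sup_left (a := (P : Subgroup G)) (inv_mem hx))
      exact hN.conj_mem _ (N.mul_mem hn (hN.conj_mem _ (N.inv_mem hn) x⁻¹)) m
    have h4 := (P : Subgroup G).mul_mem (hTP h2) hx
    simpa using h4
  rw [Subgroup.mem_normalizer_iff_map_conj_eq]
  apply Subgroup.eq_of_le_of_card_ge
  · rintro _ ⟨x, hx, rfl⟩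
    exact hconj x hx
  · rw [Subgroup.card_map_of_injective (MulAut.conj m).injective]



/-- Let M and N be nontrivial normal subgroups of the finite group G with M ⊓ N trivial, and let p be a prime. Writing n(X) for the number of Sylow p-subgroups of a group X, one has n(G) · n(G/MN) = n(G/M) · n(G/N). -/
theorem result {G : Type*} [Group G] [Finite G] (p : ℕ) [Fact p.Prime] (M N : Subgroup G) [M.Normal] [N.Normal] (hM : M ≠ ⊥) (hN : N ≠ ⊥) (hMN : M ⊓ N = ⊥) : Nat.card (Sylow p G) * Nat.card (Sylow p (G ⧸ (M ⊔ N))) = Nat.card (Sylow p (G ⧸ M)) * Nat.card (Sylow p (G ⧸ N)) := by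
  classical
  obtain ⟨P⟩ : Nonempty (Sylow p G) := inferInstance
  set L := Subgroup.normalizer ((P : Subgroup G) : Set G) with hL
  have h0 : Nat.card (Sylow p G) = L.index := Sylow.card_eq_index_normalizer P
  rw [card_sylow_quotient P M, card_sylow_quotient P N, card_sylow_quotient P (M ⊔ N), h0, ← hL]
  have h1 : L.relIndex M * (L ⊔ M).index = L.index := by
    rw [Cfsg.Agent.Lib.Helper22.relIndex_eq_relIndex_sup_of_normal M L]
    exact Subgroup.relIndex_mul_index le_sup_left
  have h2 : (L ⊔ N).relIndex M * (L ⊔ (M ⊔ N)).index = (L ⊔ N).index := by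
    rw [Cfsg.Agent.Lib.Helper22.relIndex_eq_relIndex_sup_of_normal M (L ⊔ N)]
    have h3 : L ⊔ (M ⊔ N) = L ⊔ N ⊔ M := by
      rw [sup_assoc, sup_comm N M]
    rw [h3]
    exact Subgroup.relIndex_mul_index le_sup_left
  have h3 : L.relIndex M = (L ⊔ N).relIndex M := by
    rw [← Subgroup.inf_relIndex_right L M, ← Subgroup.inf_relIndex_right (L ⊔ N) M]
    congr 1
    apply le_antisymm (inf_le_inf_right M le_sup_left)
    rintro m ⟨hmLN, hmM⟩
    refine ⟨?_, hmM⟩
    obtain ⟨l, hl, n, hn, rfl⟩ := Subgroup.mem_sup_of_normal_right.1 hmLN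
    have h4 : (l * n) * n⁻¹ ∈ L := by simpa using hl
    exact mem_normalizer_of_mul_mem P M N hMN (l * n) n⁻¹ hmM (N.inv_mem hn) h4
  rw [← h1, ← h2, h3]
  ring

end Cfsg.Agent.S3867
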