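import Cfsg.Statements.S3881
import Mathlib
import Cfsg.Agent.Lib.Helper20.Metacyclic3

set_option autoImplicit false
open Cfsg Cfsg.Agent.Lib.Helper20

namespace Cfsg.Agent.S3881




/-- Let p be an odd prime and G a finite metacyclic p-group (G has a cyclic normal subgroup with cyclic quotient). Suppose G is non-abelian with |G'| = p^n. Then for 1 ≤ i ≤ n the number of elements of G whose conjugacy class has exactly p^i elements is |Z(G)| · (p^(2i) − p^(2i−2)). -/
theorem result {G : Type*} [Group G] [Finite G] {p : ℕ} [Fact p.Prime] (hp : p ≠ 2) (hG : IsPGroup p G) (hmc : Cfsg.IsMetacyclic G) (n : ℕ) (hn : n ≠ 0) (hGn : Nat.card ↥(commutator G) = p ^ n) (i : ℕ) (hi : 1 ≤ i) (hin : i ≤ n) :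
    Nat.card {g : G // (Subgroup.centralizer ({g} : Set G)).index = p ^ i} =
      Nat.card ↥(Subgroup.center G) * (p ^ (2 * i) - p ^ (2 * i - 2)) := by
  classical
  have hpp : p.Prime := Fact.out
  obtain ⟨D⟩ := exists_MC hG hmc
  have hn' : orderOf D.c = p ^ n := by rw [← D.card_commutator, hGn]
  have hZ := D.card_center_mul hp hG hn'
  have hT : ∀ j : ℕ, j ≤ n → Nat.card {g : G // (Subgroup.centralizer ({g} : Set G)).index ≤ p ^ j} =
      Nat.card (Subgroup.center G) * p ^ (2 * j) := by
    intro j hj
    have h1 := D.card_index_le hp hG hn' (s := n - j) (by omega)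
    have h2 : n - (n - j) = j := by omega
    rw [h2, ← hZ] at h1
    have h3 : p ^ (2 * n) = p ^ (2 * j) * p ^ (2 * (n - j)) := by rw [← pow_add]; congr 1; omega
    rw [h3, ← mul_assoc] at h1
    exact Nat.eq_of_mul_eq_mul_right (pow_pos hpp.pos _) h1
  haveI := Fintype.ofFinite G
  have hsplit : Nat.card {g : G // (Subgroup.centralizer ({g} : Set G)).index ≤ p ^ i} =
      Nat.card {g : G // (Subgroup.centralizer ({g} : Set G)).index = p ^ i} +
      Nat.card {g : G // (Subgroup.centralizer ({g} : Set G)).index ≤ p ^ (i - 1)} := by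
    simp only [Nat.card_eq_fintype_card, Fintype.card_subtype]
    rw [← Finset.card_union_of_disjoint]
    · congr 1
      ext g
      simp only [Finset.mem_filter, Finset.mem_univ, true_and, Finset.mem_union]
      obtain ⟨e, he⟩ := hG.exists_card_eq
      have h1 : (Subgroup.centralizer ({g} : Set G)).index ∣ p ^ e := he ▸ Subgroup.index_dvd_card _
      obtain ⟨j, -, hj⟩ := (Nat.dvd_prime_pow hpp).1 h1
      rw [hj, Nat.pow_le_pow_iff_right hpp.one_lt, Nat.pow_le_pow_iff_right hpp.one_lt,
        Nat.pow_right_injective hpp.two_le |>.eq_iff]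
      omega
    · rw [Finset.disjoint_filter]
      intro g _ h1 h2
      rw [h1, Nat.pow_le_pow_iff_right hpp.one_lt] at h2
      omega
  rw [hT i hin, hT (i - 1) (by omega)] at hsplit
  have h4 : 2 * (i - 1) = 2 * i - 2 := by omega
  rw [h4] at hsplit
  rw [Nat.mul_sub, hsplit]
  omega

end Cfsg.Agent.S3881
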