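import Cfsg.Statements.S3883
import Mathlib
import Cfsg.Agent.Lib.Helper20.Metacyclic6

set_option autoImplicit false
open Cfsg Cfsg.Agent.Lib.Helper20

namespace Cfsg.Agent.S3883




/-- Let p be an odd prime and G a finite metacyclic p-group (G has a cyclic normal subgroup with cyclic quotient). Suppose G is non-abelian. Then an element g of G lies outside the Frattini subgroup if and only if its centralizer C_G(g) is abelian. -/
theorem result {G : Type*} [Group G] [Finite G] {p : ℕ} [Fact p.Prime] (hp : p ≠ 2) (hG : IsPGroup p G) (hmc : Cfsg.IsMetacyclic G) (hna : ¬ IsMulCommutative G) (g : G) :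
    g ∉ frattini G ↔ IsMulCommutative ↥(Subgroup.centralizer ({g} : Set G)) := by
  classical
  have hpp : p.Prime := Fact.out
  obtain ⟨D⟩ := exists_MC hG hmc
  obtain ⟨n, hn⟩ := D.exists_orderOf_c hG
  have hn1 : 1 ≤ n := by
    rcases n with _ | n
    · exfalso; apply hna
      have h1 : commutator G = ⊥ := by
        rw [← Subgroup.card_eq_one, D.card_commutator, hn, pow_zero]
      have h2 : IsMulCommutative (G ⧸ (⊥ : Subgroup G)) :=
        Subgroup.Normal.quotient_commutative_iff_commutator_le.2 h1.le
      refine ⟨⟨fun x y => ?_⟩⟩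
      have h3 := h2.is_comm.comm (QuotientGroup.mk x) (QuotientGroup.mk y)
      rw [← QuotientGroup.mk_mul, ← QuotientGroup.mk_mul, QuotientGroup.eq, Subgroup.mem_bot] at h3
      exact (inv_mul_eq_one.1 h3)
    · omega
  rw [D.mem_frattini_iff hp hG hn hn1, metacyclic_abelian_iff hp hG hmc]
  set C := Subgroup.centralizer ({g} : Set G) with hC
  have h1 := Subgroup.card_mul_index C
  have h2 := Subgroup.card_mul_index (commutator G)
  rw [D.card_commutator, hn] at h2
  obtain ⟨e, he⟩ := hG.exists_card_eq
  have h3 : C.index ∣ p ^ e := he ▸ Subgroup.index_dvd_card _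
  obtain ⟨j, -, hj⟩ := (Nat.dvd_prime_pow hpp).1 h3
  rw [hj, Nat.pow_le_pow_iff_right hpp.one_lt]
  rw [hj] at h1
  have hCpos : 0 < Nat.card C := Nat.card_pos
  have hIpos : 0 < (commutator G).index := Nat.pos_of_ne_zero Subgroup.index_ne_zero_of_finite
  constructor
  · intro h
    have hnj : n ≤ j := by omega
    have h4 : p ^ j = p ^ n * p ^ (j - n) := by rw [← pow_add]; congr 1; omega
    rw [h4, ← h2] at h1
    have h5 : p ^ n * (Nat.card C * p ^ (j - n)) = p ^ n * (commutator G).index := by
      rw [← h1]; ring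
    have h6 := Nat.eq_of_mul_eq_mul_left (pow_pos hpp.pos _) h5
    rw [← h6]
    exact Nat.le_mul_of_pos_right _ (pow_pos hpp.pos _)
  · intro h hjn
    have h4 : p ^ n = p ^ j * p ^ (n - j) := by rw [← pow_add]; congr 1; omega
    rw [h4, ← h1] at h2
    have h5 : p ^ j * (p ^ (n - j) * (commutator G).index) = p ^ j * Nat.card C := by
      rw [← mul_assoc, h2]; ring
    have h6 := Nat.eq_of_mul_eq_mul_left (pow_pos hpp.pos _) h5
    have h7 : 1 < p ^ (n - j) := Nat.one_lt_pow (by omega) hpp.one_lt
    rw [← h6] at h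
    nlinarith

end Cfsg.Agent.S3883
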