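import Cfsg.Statements.S3884
import Mathlib
import Cfsg.Agent.Lib.Helper20.Metacyclic7

set_option autoImplicit false
open Cfsg Cfsg.Agent.Lib.Helper20

namespace Cfsg.Agent.S3884


theorem solve_unit {p : ℕ} [hp : Fact p.Prime] (w m c : ℕ) (hw : Nat.Coprime w p) :
    ∃ x : ℕ, p ^ m ∣ x * w + c := by
  haveI : NeZero (p ^ m) := ⟨pow_ne_zero _ hp.out.ne_zero⟩
  have hu : IsUnit (w : ZMod (p ^ m)) := (ZMod.isUnit_iff_coprime w (p ^ m)).2 (hw.pow_right m)
  obtain ⟨v, hv⟩ := hu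
  refine ⟨(-(c : ZMod (p ^ m)) * ((v⁻¹ : (ZMod (p ^ m))ˣ) : ZMod (p ^ m))).val, ?_⟩
  rw [← ZMod.natCast_eq_zero_iff]
  push_cast
  rw [ZMod.natCast_zmod_val, ← hv, mul_assoc, Units.inv_mul]
  ring

theorem gs_pow_eq {p : ℕ} [hp : Fact p.Prime] (hodd : p ≠ 2) (d : ℕ) (hd : p ∣ d) (s : ℕ) :
    ∃ w : ℕ, Nat.Coprime w p ∧ gs (d + 1) (p ^ s) = p ^ s * w := by
  obtain ⟨w, hw⟩ := (pow_dvd_gs_iff hodd d hd (p ^ s) s).2 dvd_rfl
  refine ⟨w, ?_, hw⟩
  rw [Nat.coprime_comm, hp.out.coprime_iff_not_dvd]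
  rintro ⟨w', rfl⟩
  have h1 : p ^ (s + 1) ∣ gs (d + 1) (p ^ s) := ⟨w', by rw [hw, pow_succ]; ring⟩
  rw [pow_dvd_gs_iff hodd d hd] at h1
  have h2 := Nat.le_of_dvd (pow_pos hp.out.pos _) h1
  exact absurd h2 (not_le.2 (Nat.pow_lt_pow_right hp.out.one_lt (by omega)))


/-- Let p be an odd prime and G a finite metacyclic p-group (G has a cyclic normal subgroup with cyclic quotient). Then G is the product of two cyclic subgroups with trivial intersection: there are cyclic subgroups A and B with A ∩ B = 1 and |A| · |B| = |G|. -/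
theorem result {G : Type*} [Group G] [Finite G] {p : ℕ} [Fact p.Prime] (hp : p ≠ 2) (hG : IsPGroup p G) (hmc : Cfsg.IsMetacyclic G) : ∃ A B : Subgroup G, IsCyclic ↥A ∧ IsCyclic ↥B ∧ A ⊓ B = ⊥ ∧ Nat.card ↥A * Nat.card ↥B = Nat.card G := by
  classical
  have hpp : p.Prime := Fact.out
  obtain ⟨D⟩ := exists_MC hG hmc
  haveI hN : (Subgroup.zpowers D.a).Normal := D.hN
  set N := Subgroup.zpowers D.a with hNdef
  obtain ⟨m, hm⟩ := (IsPGroup.iff_orderOf.1 hG) D.a
  set q : G ⧸ N := QuotientGroup.mk D.b with hq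
  obtain ⟨n, hn⟩ := (IsPGroup.iff_orderOf.1 (hG.to_quotient N)) q
  have haN : ∀ j : ℕ, D.a ^ j ∈ N := fun j => Subgroup.pow_mem _ (Subgroup.mem_zpowers _) j
  have hcq : Nat.card (G ⧸ N) = p ^ n := by
    rw [← hn]
    symm
    apply orderOf_eq_card_of_forall_mem_zpowers
    intro g
    obtain ⟨g, rfl⟩ := QuotientGroup.mk_surjective g
    obtain ⟨x, y, rfl⟩ := D.hgen g
    rw [QuotientGroup.mk_mul, (QuotientGroup.eq_one_iff _).2 (haN x), one_mul, QuotientGroup.mk_pow]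
    exact Subgroup.pow_mem _ (Subgroup.mem_zpowers _) y
  have hcardG : Nat.card G = p ^ m * p ^ n := by
    rw [← Subgroup.card_mul_index N, Subgroup.index_eq_card, hcq, hNdef, Nat.card_zpowers, hm]
  have hmkN : ∀ β : G, (QuotientGroup.mk β : G ⧸ N) = q → ∀ j : ℕ, β ^ j ∈ N ↔ p ^ n ∣ j := by
    intro β hβ j
    rw [← hn, orderOf_dvd_iff_pow_eq_one, ← hβ, ← QuotientGroup.mk_pow, QuotientGroup.eq_one_iff]
  have hbN := hmkN D.b rfl
  obtain ⟨t, ht⟩ : ∃ t : ℕ, D.b ^ (p ^ n) = D.a ^ t := by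
    have h1 : D.b ^ (p ^ n) ∈ Subgroup.zpowers D.a := (hbN _).2 dvd_rfl
    obtain ⟨t, ht⟩ := mem_powers_iff_mem_zpowers.2 h1
    exact ⟨t, ht.symm⟩
  by_cases h1 : ∃ t, D.b ^ (p ^ n) = D.a ^ t ∧ p ^ n ∣ t
  · clear ht t
    obtain ⟨t, ht, t', rfl⟩ := h1
    obtain ⟨w, hw, hgs⟩ := gs_pow_eq hp D.d D.hd n
    obtain ⟨j, hj⟩ := solve_unit (p := p) w m t' hw
    set β := D.a ^ j * D.b with hβdef
    have hβ : β ^ (p ^ n) = 1 := by
      have h2 := D.pow_formula j 1 (p ^ n)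
      rw [pow_one, pow_one, one_mul, ht, ← pow_add] at h2
      rw [hβdef, h2]
      apply orderOf_dvd_iff_pow_eq_one.1
      rw [hm]
      have h3 : D.r = D.d + 1 := rfl
      rw [h3, hgs]
      obtain ⟨z, hz⟩ := hj
      exact ⟨p ^ n * z, by
        calc j * (p ^ n * w) + p ^ n * t' = p ^ n * (j * w + t') := by ring
          _ = _ := by rw [hz]; ring⟩
    have hβq : (QuotientGroup.mk β : G ⧸ N) = q := by
      rw [hβdef, QuotientGroup.mk_mul, (QuotientGroup.eq_one_iff _).2 (haN j), one_mul]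
    have hβN := hmkN β hβq
    have hoβ : orderOf β = p ^ n :=
      Nat.dvd_antisymm (orderOf_dvd_of_pow_eq_one hβ)
        ((hβN _).1 (by rw [pow_orderOf_eq_one]; exact one_mem _))
    refine ⟨N, Subgroup.zpowers β, inferInstance, inferInstance, ?_, ?_⟩
    · rw [eq_bot_iff]
      rintro g ⟨hg1, hg2⟩
      obtain ⟨k, rfl⟩ := mem_powers_iff_mem_zpowers.2 hg2
      obtain ⟨k', rfl⟩ := (hβN k).1 hg1
      change β ^ (p ^ n * k') ∈ (⊥ : Subgroup G)
      rw [pow_mul, hβ, one_pow]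
      exact one_mem _
    · rw [hNdef, Nat.card_zpowers, Nat.card_zpowers, hm, hoβ, hcardG]
  · push Not at h1
    have htn : ¬ p ^ n ∣ t := h1 t ht
    have ht0 : t ≠ 0 := by
      rintro rfl
      exact htn (dvd_zero _)
    obtain ⟨s, u, hu, rfl⟩ := Nat.exists_eq_pow_mul_and_not_dvd ht0 p hpp.ne_one
    have hsn : s < n := by
      by_contra hcon
      push Not at hcon
      exact htn (Dvd.dvd.mul_right (pow_dvd_pow p hcon) u)
    have hsm : s < m := by
      by_contra hcon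
      push Not at hcon
      apply h1 0 _ (dvd_zero _)
      rw [ht, pow_zero]
      apply orderOf_dvd_iff_pow_eq_one.1
      rw [hm]
      exact Dvd.dvd.mul_right (pow_dvd_pow p hcon) u
    set y := p ^ (n - s) with hy
    set d' := D.d * gs (D.d + 1) y with hd'
    have hry : D.r ^ y = d' + 1 := pow_eq_mul_gs_add_one D.d y
    have hpd' : p ∣ d' := Dvd.dvd.mul_right D.hd _
    obtain ⟨w, hw, hgs⟩ := gs_pow_eq hp d' hpd' s
    obtain ⟨x, hx⟩ := solve_unit (p := p) w m u hw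
    have hxp : ¬ p ∣ x := by
      intro h
      have h2 : p ∣ x * w + u := (dvd_pow_self p (by omega)).trans hx
      exact hu ((Nat.dvd_add_right (Dvd.dvd.mul_right h w)).1 h2)
    set α := D.a ^ x * D.b ^ y with hαdef
    have formula : ∀ k : ℕ, α ^ k = D.a ^ (x * gs (d' + 1) k) * D.b ^ (y * k) := by
      intro k
      rw [hαdef, D.pow_formula, hry]
    have hα : α ^ (p ^ s) = 1 := by
      have h2 : y * p ^ s = p ^ n := by
        rw [hy, ← pow_add]
        congr 1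
        omega
      rw [formula, hgs, h2, ht, ← pow_add]
      apply orderOf_dvd_iff_pow_eq_one.1
      rw [hm]
      obtain ⟨z, hz⟩ := hx
      exact ⟨p ^ s * z, by
        calc x * (p ^ s * w) + p ^ s * u = p ^ s * (x * w + u) := by ring
          _ = _ := by rw [hz]; ring⟩
    have key : ∀ e f : ℕ, D.a ^ e = D.b ^ f → p ^ s ∣ e := by
      intro e f h
      have h2 : D.b ^ f ∈ N := h ▸ haN e
      obtain ⟨f', rfl⟩ := (hbN f).1 h2
      rw [pow_mul, ht, ← pow_mul, pow_eq_pow_iff_modEq, hm] at h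
      rw [Nat.ModEq.dvd_iff h (pow_dvd_pow p hsm.le)]
      exact Dvd.dvd.mul_right (Dvd.intro _ rfl) _
    have hαB : ∀ k : ℕ, α ^ k ∈ Subgroup.zpowers D.b → p ^ s ∣ k := by
      intro k hk
      rw [formula] at hk
      have h2 : D.a ^ (x * gs (d' + 1) k) ∈ Subgroup.zpowers D.b :=
        (Subgroup.mul_mem_cancel_right _ (Subgroup.pow_mem _ (Subgroup.mem_zpowers _) _)).1 hk
      obtain ⟨f, hf⟩ := mem_powers_iff_mem_zpowers.2 h2
      have h3 := key _ f hf.symm
      have h4 : Nat.Coprime (p ^ s) x := ((hpp.coprime_iff_not_dvd).2 hxp).pow_left s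
      exact (pow_dvd_gs_iff hp d' hpd' k s).1 (h4.dvd_of_dvd_mul_left h3)
    have hoα : orderOf α = p ^ s :=
      Nat.dvd_antisymm (orderOf_dvd_of_pow_eq_one hα)
        (hαB _ (by rw [pow_orderOf_eq_one]; exact one_mem _))
    have hob : orderOf D.b = p ^ n * p ^ (m - s) := by
      have hdvd : p ^ n ∣ orderOf D.b := (hbN _).1 (by rw [pow_orderOf_eq_one]; exact one_mem _)
      have h3 : orderOf (D.b ^ (p ^ n)) = orderOf D.b / p ^ n :=
        orderOf_pow_of_dvd (pow_ne_zero _ hpp.ne_zero) hdvd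
      have h4 : orderOf (D.a ^ (p ^ s * u)) = p ^ (m - s) := by
        rw [orderOf_pow, hm]
        have h5 : p ^ m = p ^ s * p ^ (m - s) := by
          rw [← pow_add]; congr 1; omega
        have h6 : Nat.Coprime (p ^ (m - s)) u := ((hpp.coprime_iff_not_dvd).2 hu).pow_left _
        rw [h5, Nat.gcd_mul_left, h6.gcd_eq_one, mul_one]
        exact Nat.mul_div_cancel_left _ (pow_pos hpp.pos _)
      rw [ht, h4] at h3
      rw [h3]
      exact (Nat.mul_div_cancel' hdvd).symm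
    refine ⟨Subgroup.zpowers α, Subgroup.zpowers D.b, inferInstance, inferInstance, ?_, ?_⟩
    · rw [eq_bot_iff]
      rintro g ⟨hg1, hg2⟩
      obtain ⟨k, rfl⟩ := mem_powers_iff_mem_zpowers.2 hg1
      obtain ⟨k', rfl⟩ := hαB k hg2
      change α ^ (p ^ s * k') ∈ (⊥ : Subgroup G)
      rw [pow_mul, hα, one_pow]
      exact one_mem _
    · rw [Nat.card_zpowers, Nat.card_zpowers, hoα, hob, hcardG]
      have h5 : p ^ m = p ^ s * p ^ (m - s) := by
        rw [← pow_add]; congr 1; omega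
      rw [h5]; ring

end Cfsg.Agent.S3884
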