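import Cfsg.Statements.S3886
import Mathlib
import Cfsg.Agent.Lib.Helper20.Metacyclic5

set_option autoImplicit false
open Cfsg Cfsg.Agent.Lib.Helper20

namespace Cfsg.Agent.S3886




/-- Let p be an odd prime and G a finite metacyclic p-group (G has a cyclic normal subgroup with cyclic quotient). Then the largest value of |R| · |Z(R)| over subgroups R of G is |G : G'|², and the subgroups attaining it (the centrally large subgroups) are exactly the non-abelian subgroups together with the maximal abelian subgroups of G. -/
theorem result {G : Type*} [Group G] [Finite G] {p : ℕ} [Fact p.Prime] (hp : p ≠ 2) (hG : IsPGroup p G) (hmc : Cfsg.IsMetacyclic G) : Cfsg.maxCentralProduct G = (commutator G).index ^ 2 ∧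
    ∀ R : Subgroup G, Cfsg.IsCentrallyLarge R ↔ (¬ IsMulCommutative ↥R ∨ Maximal (fun K : Subgroup G => IsMulCommutative ↥K) R) := by
  classical
  have hpp : p.Prime := Fact.out
  set idx := (commutator G).index with hidx
  have key : ∀ R : Subgroup G, Nat.card ↥R * Nat.card ↥(Subgroup.center ↥R) ≤ idx ^ 2 ∧
      (Nat.card ↥R * Nat.card ↥(Subgroup.center ↥R) = idx ^ 2 ↔
        (¬ IsMulCommutative ↥R ∨ Maximal (fun K : Subgroup G => IsMulCommutative ↥K) R)) := by
    intro R
    by_cases hR : IsMulCommutative ↥R
    · have h1 : Subgroup.center ↥R = ⊤ := Subgroup.center_eq_top_iff.2 hR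
      have h2 := metacyclic_card_le_of_abelian hp hG hmc R hR
      rw [h1, Subgroup.card_top, ← sq]
      refine ⟨Nat.pow_le_pow_left h2 2, ?_⟩
      rw [metacyclic_maximal_abelian_iff hp hG hmc]
      constructor
      · intro h
        right
        exact Nat.pow_left_injective (n := 2) (by omega) h
      · rintro (h | h)
        · exact absurd hR h
        · rw [h]
    · have h1 := metacyclic_card_of_nonabelian hp hG hmc R hR
      have h2 := index_center_eq hp (hG.to_subgroup R) (isMetacyclic_subgroup hmc R)
      have h3 := Subgroup.card_mul_index (Subgroup.center ↥R)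
      rw [h2, h1] at h3
      have hc : 0 < Nat.card (commutator ↥R) := Nat.card_pos
      have h4 : Nat.card (commutator ↥R) * (Nat.card (Subgroup.center ↥R) * Nat.card (commutator ↥R)) =
          Nat.card (commutator ↥R) * idx := by
        rw [mul_comm _ idx, ← h3]; ring
      have h5 := Nat.eq_of_mul_eq_mul_left hc h4
      have h6 : Nat.card ↥R * Nat.card ↥(Subgroup.center ↥R) = idx ^ 2 := by
        rw [h1, sq]
        calc idx * Nat.card (commutator ↥R) * Nat.card (Subgroup.center ↥R)
            = idx * (Nat.card (Subgroup.center ↥R) * Nat.card (commutator ↥R)) := by ring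
          _ = idx * idx := by rw [h5]
      exact ⟨h6.le, ⟨fun _ => Or.inl hR, fun _ => h6⟩⟩
  have hmax : Cfsg.maxCentralProduct G = idx ^ 2 := by
    unfold Cfsg.maxCentralProduct
    apply IsGreatest.csSup_eq
    constructor
    · refine ⟨⊤, (key ⊤).2.2 ?_⟩
      by_cases h : IsMulCommutative ↥(⊤ : Subgroup G)
      · right
        exact ⟨h, fun K _ _ => le_top⟩
      · left; exact h
    · rintro k ⟨R, rfl⟩
      exact (key R).1
  refine ⟨hmax, fun R => ?_⟩
  unfold Cfsg.IsCentrallyLarge
  rw [hmax]
  exact (key R).2

end Cfsg.Agent.S3886
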