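import Cfsg.Statements.S3887
import Mathlib
import Cfsg.Agent.Lib.Helper20.Metacyclic7

set_option autoImplicit false
open Cfsg Cfsg.Agent.Lib.Helper20

namespace Cfsg.Agent.S3887




/-- Let p be an odd prime and G a finite metacyclic p-group (G has a cyclic normal subgroup with cyclic quotient). Then a subgroup R of G maximizes |R| · |C_G(R)| over all subgroups of G if and only if R contains the center of G. -/
theorem result {G : Type*} [Group G] [Finite G] {p : ℕ} [Fact p.Prime] (hp : p ≠ 2) (hG : IsPGroup p G) (hmc : Cfsg.IsMetacyclic G) (R : Subgroup G) : Cfsg.IsCentralizerLarge R ↔ Subgroup.center G ≤ R := by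
  classical
  have hmax : Cfsg.maxCentralizerProduct G = Nat.card G * Nat.card (Subgroup.center G) := by
    unfold Cfsg.maxCentralizerProduct
    apply IsGreatest.csSup_eq
    constructor
    · exact ⟨⊤, MC.measure_eq hp hG hmc ⊤ le_top⟩
    · rintro k ⟨R, rfl⟩
      exact MC.measure_le hp hG hmc R
  unfold Cfsg.IsCentralizerLarge
  rw [hmax]
  constructor
  · intro h
    have hC : Subgroup.centralizer ((R ⊔ Subgroup.center G : Subgroup G) : Set G)
        = Subgroup.centralizer (R : Set G) := by
      apply le_antisymm
      · exact Subgroup.centralizer_le (show R ≤ R ⊔ Subgroup.center G from le_sup_left)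
      · intro x hx
        have h1 : R ⊔ Subgroup.center G ≤ Subgroup.centralizer ({x} : Set G) := by
          rw [sup_le_iff]
          constructor
          · intro y hy
            rw [Subgroup.mem_centralizer_singleton_iff]
            exact Subgroup.mem_centralizer_iff.1 hx y hy
          · exact Subgroup.center_le_centralizer _
        rw [Subgroup.mem_centralizer_iff]
        intro y hy
        exact Subgroup.mem_centralizer_singleton_iff.1 (h1 hy)
    have h2 := MC.measure_le hp hG hmc (R ⊔ Subgroup.center G)
    rw [hC, ← h] at h2
    have hpos : 0 < Nat.card (Subgroup.centralizer (R : Set G)) := Nat.card_pos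
    have h3 : Nat.card (R ⊔ Subgroup.center G : Subgroup G) ≤ Nat.card R := Nat.le_of_mul_le_mul_right h2 hpos
    have h4 : R = R ⊔ Subgroup.center G := Subgroup.eq_of_le_of_card_ge le_sup_left h3
    rw [h4]
    exact le_sup_right
  · intro h
    exact MC.measure_eq hp hG hmc R h

end Cfsg.Agent.S3887
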