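import Cfsg.Statements.S3897
import Mathlib
import Cfsg.Agent.Lib.Helper20.ClassCount

set_option autoImplicit false
open Cfsg Cfsg.Agent.Lib.Helper20

namespace Cfsg.Agent.S3897




/-- Let p be an odd prime and G a finite group with Sylow p-subgroup P, and write k_p(G) for the number of conjugacy classes of G consisting of p-elements (elements of p-power order, the identity included). Then k_p(G) > (p + 1)|P|/(2p) if and only if G has a normal p-complement and P is abelian. -/
theorem result {G : Type*} [Group G] [Finite G] {p : ℕ} [Fact p.Prime] (hp : p ≠ 2) (P : Sylow p G) :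
    (p + 1) * Nat.card ↥(P : Subgroup G) < 2 * p * Nat.card {c : ConjClasses G // ∀ x ∈ c.carrier, ∃ k : ℕ, orderOf x = p ^ k} ↔
      Cfsg.HasNormalPComplement p G ∧ IsMulCommutative ↥(P : Subgroup G) := by
  classical
  have hpp : p.Prime := Fact.out
  constructor
  · intro hk
    have hNC : Subgroup.normalizer ((P : Subgroup G) : Set G) ≤ Subgroup.centralizer ((P : Subgroup G) : Set G) := by
      by_contra hcon
      have := card_pclasses_le P hcon
      omega
    refine ⟨⟨P, _, inferInstance, MonoidHom.ker_transferSylow_isComplement' P hNC⟩, ⟨⟨?_⟩⟩⟩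
    intro a b
    apply Subtype.ext
    have h1 := hNC (Subgroup.le_normalizer b.2)
    exact Subgroup.mem_centralizer_iff.1 h1 a a.2
  · rintro ⟨⟨P', N, hN, hcompl⟩, hab⟩
    have hcardP : Nat.card (P' : Subgroup G) = Nat.card (P : Subgroup G) := by
      rw [P'.card_eq_multiplicity, P.card_eq_multiplicity]
    have hmul : Nat.card N * Nat.card (P : Subgroup G) = Nat.card G := by
      rw [← hcardP]; exact hcompl.card_mul_card
    have hcop : Nat.Coprime (Nat.card N) (Nat.card (P : Subgroup G)) := by
      have h1 : Nat.card N = (P : Subgroup G).index := by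
        have h2 := Subgroup.card_mul_index (P : Subgroup G)
        rw [← hmul, mul_comm] at h2
        exact (Nat.eq_of_mul_eq_mul_right Nat.card_pos h2).symm
      obtain ⟨k, hk⟩ := P.2.exists_card_eq
      rw [hk, h1]
      exact Nat.Coprime.pow_right _ (((hpp.coprime_iff_not_dvd).2 P.not_dvd_index).symm)
    have hc : Subgroup.IsComplement' N (P : Subgroup G) := Subgroup.isComplement'_of_coprime hmul hcop
    have hinj : Function.Injective (fun u : (P : Subgroup G) =>
        mkClass (fun n => ∃ k : ℕ, n = p ^ k) (u : G) (orderOf_mem_sylow P u)) := by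
      intro u v huv
      rw [mkClass_eq_iff] at huv
      obtain ⟨g, hg⟩ := huv
      obtain ⟨⟨⟨n, hn⟩, ⟨w, hw⟩⟩, hnw⟩ := hc.2 g
      have hnw' : n * w = g := hnw
      have hwu : w * (u : G) * w⁻¹ = u := by
        have h1 := hab.is_comm.comm ⟨w, hw⟩ u
        have h2 : w * (u : G) = u * w := congrArg Subtype.val h1
        rw [h2]; group
      have h3 : n * (u : G) * n⁻¹ = v := by
        rw [← hg, ← hnw']
        calc n * (u : G) * n⁻¹ = n * (w * (u : G) * w⁻¹) * n⁻¹ := by rw [hwu]
          _ = _ := by group
      have h4 : (v : G) * (u : G)⁻¹ ∈ N := by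
        rw [← h3]
        have h5 : n * (u : G) * n⁻¹ * (u : G)⁻¹ = n * ((u : G) * n⁻¹ * (u : G)⁻¹) := by group
        rw [h5]
        exact N.mul_mem hn (hN.conj_mem _ (N.inv_mem hn) _)
      have h6 : (v : G) * (u : G)⁻¹ ∈ (P : Subgroup G) := mul_mem v.2 (inv_mem u.2)
      have h7 : (v : G) * (u : G)⁻¹ ∈ N ⊓ (P : Subgroup G) := ⟨h4, h6⟩
      rw [hc.disjoint.eq_bot, Subgroup.mem_bot] at h7
      apply Subtype.ext
      exact (mul_inv_eq_one.1 h7).symm
    have hle := Nat.card_le_card_of_injective _ hinj
    have hpos : 0 < Nat.card (P : Subgroup G) := Nat.card_pos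
    have h2 := hpp.two_le
    calc (p + 1) * Nat.card (P : Subgroup G) < 2 * p * Nat.card (P : Subgroup G) :=
          Nat.mul_lt_mul_of_pos_right (by omega) hpos
      _ ≤ _ := Nat.mul_le_mul_left _ hle

end Cfsg.Agent.S3897
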