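import Cfsg.Statements.S3899
import Mathlib
import Cfsg.Agent.Lib.Helper20.ClassCount2

set_option autoImplicit false
open Cfsg Cfsg.Agent.Lib.Helper20 commutatorElement

namespace Cfsg.Agent.S3899


/-- normal complements for a family of primes -/
theorem hall_of_complements {G : Type*} [Group G] [Finite G] (π : Finset ℕ) (hπ : ∀ r ∈ π, r.Prime)
    (hK : ∀ r ∈ π, ∃ K : Subgroup G, K.Normal ∧ ¬ r ∣ Nat.card K ∧ (∃ j : ℕ, K.index = r ^ j) ∧ commutator G ≤ K) :
    (∃ N : Subgroup G, N.Normal ∧ (∀ r : ℕ, r.Prime → r ∣ Nat.card ↥N → r ∉ π) ∧ ∀ r : ℕ, r.Prime → r ∣ N.index → r ∈ π) ∧ ∃ H : Subgroup G, Cfsg.IsPiHall (↑π : Set ℕ) H ∧ IsMulCommutative ↥H := by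
  classical
  choose K hKn hKc hKi hKd using hK
  set N : Subgroup G := ⨅ (r : ℕ) (h : r ∈ π), K r h with hN
  haveI hNn : N.Normal := Subgroup.normal_iInf_normal fun r => Subgroup.normal_iInf_normal fun h => hKn r h
  have hNle : ∀ r (h : r ∈ π), N ≤ K r h := fun r h => (iInf_le _ r).trans (iInf_le _ h)
  have h1 : ∀ r : ℕ, r.Prime → r ∣ Nat.card ↥N → r ∉ π := by
    intro r _ hrd hrπ
    exact hKc r hrπ (hrd.trans (Subgroup.card_dvd_of_le (hNle r hrπ)))
  have h2 : ∀ r : ℕ, r.Prime → r ∣ N.index → r ∈ π := by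
    intro s hs hsd
    by_contra hsπ
    haveI : Fact s.Prime := ⟨hs⟩
    obtain ⟨S⟩ : Nonempty (Sylow s G) := inferInstance
    have hSN : (S : Subgroup G) ≤ N := by
      rw [hN]
      refine le_iInf fun r => le_iInf fun hr => ?_
      intro x hx
      haveI := hKn r hr
      obtain ⟨j, hj⟩ := hKi r hr
      obtain ⟨i, hi⟩ := (IsPGroup.iff_orderOf.1 S.2) ⟨x, hx⟩
      have hi' : orderOf x = s ^ i := by rw [← hi, ← Subgroup.orderOf_coe]
      by_cases hj0 : j = 0
      · rw [hj0, pow_zero, Subgroup.index_eq_one] at hj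
        rw [hj]; exact Subgroup.mem_top x
      have hrp : r.Prime := hπ r hr
      have hcop : Nat.Coprime (K r hr).index (orderOf x) := by
        rw [hj, hi']
        apply Nat.Coprime.pow
        rw [Nat.coprime_primes hrp hs]
        rintro rfl
        exact hsπ hr
      obtain ⟨m, hm⟩ := exists_pow_eq_self_of_coprime hcop
      exact hm ▸ (K r hr).pow_mem ((K r hr).pow_index_mem x) m
    exact S.not_dvd_index (hsd.trans (Subgroup.index_dvd_of_le hSN))
  refine ⟨⟨N, hNn, h1, h2⟩, ?_⟩
  have hcop : Nat.Coprime (Nat.card N) N.index :=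
    Nat.coprime_of_dvd fun k hk hk1 hk2 => h1 k hk hk1 (h2 k hk hk2)
  obtain ⟨H, hH⟩ := Subgroup.exists_right_complement'_of_coprime hcop
  refine ⟨H, ⟨?_, ?_⟩, ⟨⟨?_⟩⟩⟩
  · intro q hq hqd
    rw [← hH.symm.index_eq_card] at hqd
    exact h2 q hq hqd
  · intro q hq hqπ hqd
    rw [hH.index_eq_card] at hqd
    exact h1 q hq hqd hqπ
  · intro a b
    have h3 : ⁅(a : G), (b : G)⁆ ∈ N := by
      rw [hN]
      simp only [Subgroup.mem_iInf]
      intro r hr
      exact hKd r hr (Subgroup.commutator_mem_commutator (Subgroup.mem_top _) (Subgroup.mem_top _))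
    have h4 : ⁅(a : G), (b : G)⁆ ∈ H := by
      rw [commutatorElement_def]
      exact H.mul_mem (H.mul_mem (H.mul_mem a.2 b.2) (H.inv_mem a.2)) (H.inv_mem b.2)
    have h5 : ⁅(a : G), (b : G)⁆ ∈ N ⊓ H := ⟨h3, h4⟩
    rw [hH.disjoint.eq_bot, Subgroup.mem_bot, commutatorElement_eq_one_iff_mul_comm] at h5
    exact Subtype.ext h5


/-- Let π be a finite non-empty set of odd primes with smallest member p and G a finite group. Write k_π(G) for the number of conjugacy classes of G consisting of π-elements (elements all of whose order's prime divisors lie in π) and |G|_π for the π-part of the order of G. If k_π(G) > (p + 1)|G|_π/(2p), then G has a normal π-complement (a normal subgroup of order prime to π whose index is a π-number) and an abelian Hall π-subgroup. -/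
theorem result {G : Type*} [Group G] [Finite G] (π : Finset ℕ) (hπ : ∀ r ∈ π, r.Prime) (h2 : 2 ∉ π) (p : ℕ) (hp : p ∈ π)
    (hmin : ∀ r ∈ π, p ≤ r) (hk : (p + 1) * π.prod (fun r => r ^ (Nat.card G).factorization r) < 2 * p * Nat.card {c : ConjClasses G // ∀ x ∈ c.carrier, ∀ r : ℕ, r.Prime → r ∣ orderOf x → r ∈ π}) :
    (∃ N : Subgroup G, N.Normal ∧ (∀ r : ℕ, r.Prime → r ∣ Nat.card ↥N → r ∉ π) ∧ ∀ r : ℕ, r.Prime → r ∣ N.index → r ∈ π) ∧ ∃ H : Subgroup G, Cfsg.IsPiHall (↑π : Set ℕ) H ∧ IsMulCommutative ↥H := by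
  classical
  apply hall_of_complements π hπ
  intro r hr
  haveI : Fact r.Prime := ⟨hπ r hr⟩
  have hrp : r.Prime := hπ r hr
  have hpp : p.Prime := hπ p hp
  obtain ⟨R⟩ : Nonempty (Sylow r G) := inferInstance
  have hNC : Subgroup.normalizer ((R : Subgroup G) : Set G) ≤ Subgroup.centralizer ((R : Subgroup G) : Set G) := by
    by_contra hcon
    have h1 := card_pclasses_le R hcon
    have h2 := card_KCl_le_mul π hπ r hr G
    rw [R.card_eq_multiplicity] at h1
    rw [← Finset.mul_prod_erase π _ hr] at hk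
    set E := (π.erase r).prod (fun s => s ^ (Nat.card G).factorization s) with hE
    set nr := r ^ (Nat.card G).factorization r with hnr
    set kr := Nat.card {c : ConjClasses G // ∀ x ∈ c.carrier, ∃ k : ℕ, orderOf x = r ^ k} with hkr
    have h2' : Nat.card {c : ConjClasses G // ∀ x ∈ c.carrier, ∀ r : ℕ, r.Prime → r ∣ orderOf x → r ∈ π} ≤ kr * E := h2
    have h3 : (p + 1) * (nr * E) < 2 * p * (kr * E) := lt_of_lt_of_le hk (Nat.mul_le_mul_left _ h2')
    have h4 : (p + 1) * nr < 2 * p * kr := by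
      have h5 : ((p + 1) * nr) * E < (2 * p * kr) * E := by
        calc ((p + 1) * nr) * E = (p + 1) * (nr * E) := by ring
          _ < 2 * p * (kr * E) := h3
          _ = _ := by ring
      exact Nat.lt_of_mul_lt_mul_right h5
    have h6 : r * ((p + 1) * nr) < p * ((r + 1) * nr) := by
      calc r * ((p + 1) * nr) < r * (2 * p * kr) := Nat.mul_lt_mul_of_pos_left h4 hrp.pos
        _ = p * (2 * r * kr) := by ring
        _ ≤ p * ((r + 1) * nr) := Nat.mul_le_mul_left _ h1
    have h7 : (r * (p + 1)) * nr < (p * (r + 1)) * nr := by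
      calc (r * (p + 1)) * nr = r * ((p + 1) * nr) := by ring
        _ < p * ((r + 1) * nr) := h6
        _ = _ := by ring
    have h8 := Nat.lt_of_mul_lt_mul_right h7
    have h9 := hmin r hr
    nlinarith
  have hcompl := MonoidHom.ker_transferSylow_isComplement' R hNC
  refine ⟨(MonoidHom.transferSylow R hNC).ker, inferInstance, MonoidHom.not_dvd_card_ker_transferSylow R hNC,
    ?_, ?_⟩
  · rw [hcompl.symm.index_eq_card]
    exact R.2.exists_card_eq
  · rw [commutator_def, Subgroup.commutator_le]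
    intro a _ b _
    rw [MonoidHom.mem_ker, map_commutatorElement, commutatorElement_eq_one_iff_mul_comm]
    set a' := MonoidHom.transferSylow R hNC a
    set b' := MonoidHom.transferSylow R hNC b
    apply Subtype.ext
    have h1 := hNC (Subgroup.le_normalizer b'.2)
    exact Subgroup.mem_centralizer_iff.1 h1 a' a'.2

end Cfsg.Agent.S3899
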