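import Cfsg.Statements.S3903
import Mathlib
import Cfsg.Agent.Lib.Helper20.MaxSylow
import Cfsg.Agent.Lib.Helper20.SylowExtra

set_option autoImplicit false
open Cfsg Cfsg.Agent.Lib.Helper20

namespace Cfsg.Agent.S3903


theorem centralizer_isPGroup {G : Type*} [Group G] [Finite G] (N : Subgroup G) [N.Normal]
    (h : ∀ x : G, x ∉ N → IsPrimePow (orderOf x)) (y : G) (hy : y ∉ N) (q b : ℕ) (hq : q.Prime)
    (hyo : orderOf y = q ^ b) : IsPGroup q (Subgroup.centralizer ({y} : Set G)) := by
  classical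
  haveI : Fact q.Prime := ⟨hq⟩
  have hb : b ≠ 0 := by
    rintro rfl
    rw [pow_zero, orderOf_eq_one_iff] at hyo
    exact hy (hyo ▸ one_mem N)
  set C := Subgroup.centralizer ({y} : Set G) with hC
  have hcard : Nat.card C = q ^ (Nat.card C).primeFactorsList.length := by
    apply Nat.eq_prime_pow_of_unique_prime_dvd Nat.card_pos.ne'
    intro r hr hrd
    by_contra hrq
    haveI : Fact r.Prime := ⟨hr⟩
    obtain ⟨w, hw⟩ := exists_prime_orderOf_dvd_card' r hrd
    have hw' : orderOf (w : G) = r := by rw [Subgroup.orderOf_coe]; exact hw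
    have hcomm : Commute y (w : G) := (Subgroup.mem_centralizer_singleton_iff.1 w.2).symm
    have hcop : Nat.Coprime (orderOf y) (orderOf (w : G)) := by
      rw [hyo, hw']; exact Nat.Coprime.pow_left _ ((Nat.coprime_primes hq hr).2 (Ne.symm hrq))
    have hord := hcomm.orderOf_mul_eq_mul_orderOf_of_coprime hcop
    by_cases hmem : y * (w : G) ∈ N
    · have h1 : (y * (w : G)) ^ (orderOf y) ∈ N := N.pow_mem hmem _
      rw [hcomm.mul_pow, pow_orderOf_eq_one, one_mul] at h1
      obtain ⟨m, hm⟩ := exists_pow_eq_self_of_coprime hcop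
      have h2 : (w : G) ∈ N := hm ▸ N.pow_mem h1 m
      exact hy ((N.mul_mem_cancel_right h2).1 hmem)
    · have h1 := h _ hmem
      rw [hord, hyo, hw'] at h1
      obtain ⟨p0, -, huniq⟩ := isPrimePow_iff_unique_prime_dvd.1 h1
      have h2 := huniq q ⟨hq, Dvd.dvd.mul_right (dvd_pow_self q hb) r⟩
      have h3 := huniq r ⟨hr, Dvd.intro_left _ rfl⟩
      exact hrq (h3.trans h2.symm)
  exact IsPGroup.of_card hcard


/-- Let N be a proper normal subgroup of the finite group G such that every element x of G outside N has prime power order and has centralizer C_G(x) a maximal subgroup of G. Then N is solvable. -/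
theorem result {G : Type*} [Group G] [Finite G] (N : Subgroup G) [N.Normal] (hN : N ≠ ⊤)
    (h : ∀ x : G, x ∉ N → IsPrimePow (orderOf x) ∧ IsCoatom (Subgroup.centralizer ({x} : Set G))) : Group.IsSolvable ↥N := by
  classical
  obtain ⟨x, hx⟩ : ∃ x : G, x ∉ N := by
    by_contra hcon
    push Not at hcon
    exact hN (eq_top_iff.2 fun g _ => hcon g)
  have hpp : ∀ y : G, y ∉ N → IsPrimePow (orderOf y) := fun y hy => (h y hy).1
  obtain ⟨p, a, hp, ha, hxo⟩ := (isPrimePow_nat_iff _).1 (h x hx).1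
  haveI : Fact p.Prime := ⟨hp⟩
  by_cases hGp : IsPGroup p G
  · exact isSolvable_of_isPGroup (hGp.to_subgroup N)
  have hsyl : ∀ y : G, y ∉ N → (∃ b, orderOf y = p ^ b) →
      ∃ Q : Sylow p G, (Q : Subgroup G) = Subgroup.centralizer ({y} : Set G) := by
    rintro y hy ⟨b, hb⟩
    have h1 := centralizer_isPGroup N hpp y hy p b hp hb
    obtain ⟨Q, hQ⟩ := h1.exists_le_sylow
    refine ⟨Q, ?_⟩
    rcases (h y hy).2.le_iff.1 hQ with h2 | h2
    · exfalso
      apply hGp
      have h3 := Q.2
      rw [h2] at h3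
      exact h3.of_equiv Subgroup.topEquiv
    · exact h2
  obtain ⟨P, hP⟩ := hsyl x hx ⟨a, hxo.symm⟩
  have hmax : IsCoatom (P : Subgroup G) := hP ▸ (h x hx).2
  have hxP : x ∈ (P : Subgroup G) := by
    rw [hP]; exact Subgroup.mem_centralizer_singleton_iff.2 rfl
  by_cases hNP : N ≤ P
  · exact isSolvable_of_isPGroup (P.2.to_le hNP)
  have hsup : N ⊔ P = ⊤ := by
    by_contra hcon
    have h1 := (hmax.le_iff.1 (le_sup_right : (P : Subgroup G) ≤ N ⊔ P)).resolve_left hcon
    exact hNP (h1 ▸ le_sup_left)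
  have hidx : N.index = N.relIndex P := by
    rw [← Subgroup.relIndex_top_right, ← hsup, Subgroup.relIndex_sup_left]
  obtain ⟨e, he⟩ : ∃ e, N.index = p ^ e := by
    have h1 : N.index ∣ Nat.card (P : Subgroup G) := hidx ▸ Subgroup.relIndex_dvd_card N P
    obtain ⟨k, hk⟩ := P.2.exists_card_eq
    rw [hk] at h1
    obtain ⟨e, -, he⟩ := (Nat.dvd_prime_pow hp).1 h1
    exact ⟨e, he⟩
  have hall : ∀ y : G, y ∉ N → ∃ b, orderOf y = p ^ b := by
    intro y hy
    obtain ⟨q, b, hq, hb, hyo⟩ := (isPrimePow_nat_iff _).1 (h y hy).1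
    by_cases hqp : q = p
    · exact ⟨b, by rw [← hyo, hqp]⟩
    · exfalso
      have hcop : Nat.Coprime N.index (orderOf y) := by
        rw [he, ← hyo]; exact Nat.Coprime.pow _ _ ((Nat.coprime_primes hp hq).2 (Ne.symm hqp))
      obtain ⟨m, hm⟩ := exists_pow_eq_self_of_coprime hcop
      exact hy (hm ▸ N.pow_mem (N.pow_index_mem y) m)
  -- counting
  let As := {y : G // y ∉ N}
  let Bs := {u : (P : Subgroup G) // (u : G) ∉ N}
  let Zs := {u : (P : Subgroup G) // (u : G) ∉ N ∧ ∀ v : (P : Subgroup G), v * u = u * v}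
  let f : (G ⧸ (P : Subgroup G)) × Zs → As := fun cz =>
    ⟨cz.1.out * ((cz.2 : (P : Subgroup G)) : G) * cz.1.out⁻¹, fun hmem => cz.2.2.1 (by
      have := ‹N.Normal›.conj_mem _ hmem cz.1.out⁻¹
      simpa [mul_assoc] using this)⟩
  have hf : Function.Surjective f := by
    rintro ⟨y, hy⟩
    obtain ⟨Q, hQ⟩ := hsyl y hy (hall y hy)
    obtain ⟨g, hg⟩ := MulAction.exists_smul_eq G P Q
    have hQP : ∀ w : G, w ∈ (Q : Subgroup G) ↔ g⁻¹ * w * g ∈ (P : Subgroup G) := by
      intro w
      rw [← hg, Sylow.coe_subgroup_smul, Subgroup.mem_pointwise_smul_iff_inv_smul_mem]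
      simp [MulAut.smul_def]
    have hyQ : y ∈ (Q : Subgroup G) := by
      rw [hQ]; exact Subgroup.mem_centralizer_singleton_iff.2 rfl
    have hzP : g⁻¹ * y * g ∈ (P : Subgroup G) := (hQP y).1 hyQ
    have hzN : g⁻¹ * y * g ∉ N := by
      intro hmem
      have := ‹N.Normal›.conj_mem _ hmem g
      apply hy
      simpa [mul_assoc] using this
    have hzc : ∀ v : (P : Subgroup G), v * ⟨g⁻¹ * y * g, hzP⟩ = ⟨g⁻¹ * y * g, hzP⟩ * v := by
      intro v
      have h1 : g * (v : G) * g⁻¹ ∈ (Q : Subgroup G) := by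
        rw [hQP]
        have : g⁻¹ * (g * (v : G) * g⁻¹) * g = v := by group
        rw [this]; exact v.2
      rw [hQ, Subgroup.mem_centralizer_singleton_iff] at h1
      apply Subtype.ext
      change (v : G) * (g⁻¹ * y * g) = g⁻¹ * y * g * (v : G)
      calc (v : G) * (g⁻¹ * y * g) = g⁻¹ * ((g * (v : G) * g⁻¹) * y) * g := by group
        _ = g⁻¹ * (y * (g * (v : G) * g⁻¹)) * g := by rw [h1]
        _ = _ := by group
    refine ⟨(QuotientGroup.mk g, ⟨⟨g⁻¹ * y * g, hzP⟩, hzN, hzc⟩), ?_⟩
    apply Subtype.ext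
    obtain ⟨u0, hu0⟩ := QuotientGroup.mk_out_eq_mul (P : Subgroup G) g
    change (QuotientGroup.mk g : G ⧸ (P : Subgroup G)).out * (g⁻¹ * y * g) *
      (QuotientGroup.mk g : G ⧸ (P : Subgroup G)).out⁻¹ = y
    rw [hu0]
    have h2 := congrArg Subtype.val (hzc u0)
    have h3 : (u0 : G) * (g⁻¹ * y * g) = g⁻¹ * y * g * (u0 : G) := h2
    calc g * (u0 : G) * (g⁻¹ * y * g) * (g * (u0 : G))⁻¹
        = g * ((u0 : G) * (g⁻¹ * y * g)) * (u0 : G)⁻¹ * g⁻¹ := by group
      _ = g * (g⁻¹ * y * g * (u0 : G)) * (u0 : G)⁻¹ * g⁻¹ := by rw [h3]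
      _ = y := by group
  have hc1 : Nat.card As ≤ (P : Subgroup G).index * Nat.card Zs := by
    have := Nat.card_le_card_of_surjective f hf
    rwa [Nat.card_prod, ← Subgroup.index_eq_card] at this
  have hc2 : Nat.card N + Nat.card As = Nat.card G := by
    rw [← Nat.card_sum]
    exact Nat.card_congr (Equiv.sumCompl (· ∈ N))
  have hc3 : Nat.card (N.subgroupOf P) + Nat.card Bs = Nat.card (P : Subgroup G) := by
    rw [← Nat.card_sum]
    exact Nat.card_congr (Equiv.sumCompl (fun u : (P : Subgroup G) => (u : G) ∈ N))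
  have hc4 : Nat.card (N.subgroupOf P) * N.index = Nat.card (P : Subgroup G) := by
    rw [hidx]; exact Subgroup.card_mul_index (N.subgroupOf P)
  have hc5 : Nat.card N * N.index = Nat.card G := Subgroup.card_mul_index N
  have hc6 : Nat.card (P : Subgroup G) * (P : Subgroup G).index = Nat.card G := Subgroup.card_mul_index _
  have hi : 0 < (P : Subgroup G).index := Nat.pos_of_ne_zero (Subgroup.index_ne_zero_of_finite)
  have hNi : 0 < N.index := Nat.pos_of_ne_zero (Subgroup.index_ne_zero_of_finite)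
  have hc7 : Nat.card N = Nat.card (N.subgroupOf P) * (P : Subgroup G).index := by
    apply Nat.eq_of_mul_eq_mul_right hNi
    rw [hc5, ← hc6, ← hc4]; ring
  have hc8 : Nat.card Bs ≤ Nat.card Zs := by
    apply Nat.le_of_mul_le_mul_left _ hi
    have h1 : Nat.card As = (P : Subgroup G).index * Nat.card Bs := by
      have h2 : Nat.card N + Nat.card As = Nat.card N + (P : Subgroup G).index * Nat.card Bs := by
        rw [hc2, ← hc6, ← hc3, hc7]; ring
      exact Nat.add_left_cancel h2
    rw [← h1]; exact hc1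
  let ι : Zs → Bs := fun u => ⟨u.1, u.2.1⟩
  have hι : Function.Injective ι := by
    intro u v huv
    apply Subtype.ext
    exact congrArg (fun w : Bs => (w : (P : Subgroup G))) huv
  have hιb := hι.bijective_of_nat_card_le hc8
  have hcentral : ∀ z ∈ (P : Subgroup G), z ∉ N → ∀ u ∈ (P : Subgroup G), u * z = z * u := by
    intro z hz hzN u hu
    obtain ⟨w, hw⟩ := hιb.2 ⟨⟨z, hz⟩, hzN⟩
    have h1 : (w : (P : Subgroup G)) = ⟨z, hz⟩ := congrArg (fun w : Bs => (w : (P : Subgroup G))) hw
    have h2 := w.2.2 ⟨u, hu⟩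
    rw [h1] at h2
    exact congrArg Subtype.val h2
  have hab : ∀ a ∈ P, ∀ b ∈ P, a * b = b * a := by
    intro a ha b hb
    by_cases haN : a ∈ N
    · by_cases hbN : b ∈ N
      · have h1 : a * x ∉ N := fun hmem => hx ((N.mul_mem_cancel_left haN).1 hmem)
        have h2 := hcentral (a * x) (mul_mem ha hxP) h1 b hb
        have h3 := hcentral x hxP hx b hb
        have h4 : a * b * x = b * a * x := by
          calc a * b * x = a * (b * x) := by group
            _ = a * (x * b) := by rw [h3]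
            _ = a * x * b := by group
            _ = b * (a * x) := h2.symm
            _ = b * a * x := by group
        exact mul_right_cancel h4
      · exact hcentral b hb hbN a ha
    · exact (hcentral a ha haN b hb).symm
  haveI := isSolvable_of_abelian_maximal_sylow P hmax hab
  infer_instance

end Cfsg.Agent.S3903
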