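import Cfsg.Statements.S3908
import Mathlib
import Cfsg.Agent.S0016
import Cfsg.Agent.Lib.Helper20.Abelian
import Cfsg.Agent.Lib.Helper20.MaxAbelian
import Cfsg.Agent.Lib.Helper20.Radical
import Cfsg.Agent.Lib.Helper1.Basic

set_option autoImplicit false
open Cfsg Cfsg.Agent.Lib.Helper20

namespace Cfsg.Agent.S3908


theorem cyc_aux {G : Type*} [Group G] [Finite G] {p : ℕ} (hp : p.Prime) (y a : G) (hy : orderOf y = p ^ 2)
    (ha : a ∈ Subgroup.zpowers y) (hao : orderOf a = p) : Subgroup.zpowers a = Subgroup.zpowers (y ^ p) := by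
  obtain ⟨i, hi⟩ := mem_powers_iff_mem_zpowers.2 ha
  have hi' : y ^ i = a := hi
  subst hi'
  have h1 : (y ^ i) ^ p = 1 := by rw [← hao]; exact pow_orderOf_eq_one _
  rw [← pow_mul] at h1
  have h2 : p ^ 2 ∣ i * p := hy ▸ orderOf_dvd_of_pow_eq_one h1
  have h3 : p ∣ i := by
    rw [sq] at h2
    exact Nat.dvd_of_mul_dvd_mul_right hp.pos h2
  obtain ⟨j, rfl⟩ := h3
  have h4 : orderOf (y ^ p) = p := by
    rw [orderOf_pow_of_dvd hp.ne_zero (by rw [hy]; exact Dvd.intro_left _ (by ring)), hy, sq]
    exact Nat.mul_div_cancel _ hp.pos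
  apply Subgroup.eq_of_le_of_card_ge
  · rw [Subgroup.zpowers_le, pow_mul]
    exact Subgroup.pow_mem _ (Subgroup.mem_zpowers _) j
  · rw [Nat.card_zpowers, Nat.card_zpowers, hao, h4]

theorem core {G : Type*} [Group G] [Finite G] (hB : ∀ A B : Subgroup G, IsMulCommutative ↥A → IsMulCommutative ↥B → Nat.card ↥A = Nat.card ↥B → ∃ g : G, B = A.map (MulAut.conj g).toMonoidHom)
    (p : ℕ) [hpf : Fact p.Prime] (P : Sylow p G) :
    (∀ H K : Subgroup ↥(P : Subgroup G), Nat.card H = p → Nat.card K = p → H = K) ∨ ∀ x ∈ (P : Subgroup G), x ^ p = 1 := by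
  classical
  have hp : p.Prime := hpf.out
  by_contra hcon
  push Not at hcon
  obtain ⟨⟨H, K, hH, hK, hHK⟩, x, hxP, hx⟩ := hcon
  haveI : Nontrivial (P : Subgroup G) := by
    rw [← Finite.one_lt_card_iff_nontrivial]
    calc 1 < p := hp.one_lt
      _ = Nat.card H := hH.symm
      _ ≤ _ := Subgroup.card_le_card_group H
  have hcz : p ∣ Nat.card (Subgroup.center (P : Subgroup G)) := by
    haveI := P.2.center_nontrivial
    obtain ⟨k, hk⟩ := (P.2.to_subgroup (Subgroup.center (P : Subgroup G))).exists_card_eq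
    rw [hk]
    apply dvd_pow_self
    rintro rfl
    rw [pow_zero] at hk
    have := Finite.one_lt_card (α := Subgroup.center (P : Subgroup G))
    omega
  obtain ⟨z, hz⟩ := exists_prime_orderOf_dvd_card' p hcz
  have hz' : orderOf ((z : (P : Subgroup G))) = p := by rw [Subgroup.orderOf_coe]; exact hz
  obtain ⟨h, hh, hhz⟩ : ∃ h : (P : Subgroup G), orderOf h = p ∧ h ∉ Subgroup.zpowers (z : (P : Subgroup G)) := by
    by_contra hall
    push Not at hall
    have key : ∀ L : Subgroup ↥(P : Subgroup G), Nat.card L = p → L = Subgroup.zpowers (z : (P : Subgroup G)) := by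
      intro L hL
      apply Subgroup.eq_of_le_of_card_ge
      · intro l hl
        by_cases hl1 : l = 1
        · rw [hl1]; exact one_mem _
        · apply hall
          have h1 : orderOf l ∣ p := by
            have := orderOf_dvd_natCard (⟨l, hl⟩ : L)
            rwa [← Subgroup.orderOf_coe, hL] at this
          rcases (Nat.dvd_prime hp).1 h1 with h2 | h2
          · exact absurd (orderOf_eq_one_iff.1 h2) hl1
          · exact h2
      · rw [Nat.card_zpowers, hz', hL]
    exact hHK ((key H hH).trans (key K hK).symm)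
  -- pass to G
  set z0 : G := ((z : (P : Subgroup G)) : G) with hz0
  set h0 : G := (h : G) with hh0
  have hz0o : orderOf z0 = p := by rw [hz0, Subgroup.orderOf_coe]; exact hz'
  have hh0o : orderOf h0 = p := by rw [hh0, Subgroup.orderOf_coe]; exact hh
  have hh0z : h0 ∉ Subgroup.zpowers z0 := by
    rintro ⟨i, hi⟩
    apply hhz
    refine ⟨i, ?_⟩
    apply Subtype.ext
    simpa using hi
  have hcomm : h0 * z0 = z0 * h0 := by
    have h1 := Subgroup.mem_center_iff.1 z.2 h
    exact congrArg Subtype.val h1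
  set E := Subgroup.zpowers z0 ⊔ Subgroup.zpowers h0 with hE
  have hEc : IsMulCommutative E := by
    apply isMulCommutative_sup_zpowers _ inferInstance
    rw [Subgroup.mem_centralizer_iff]
    rintro _ ⟨i, rfl⟩
    exact ((Commute.zpow_right (show Commute h0 z0 from hcomm) i).eq).symm
  have hEcard : Nat.card E = p ^ 2 := by
    have h1 : Nat.card E ∣ p ^ 2 := by
      have := card_sup_dvd_of_le_normalizer (Subgroup.zpowers z0) (Subgroup.zpowers h0) (by
        rw [Subgroup.zpowers_le, Subgroup.mem_normalizer_iff]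
        intro w
        constructor
        · rintro ⟨i, rfl⟩
          refine ⟨i, ?_⟩
          have h2 : Commute h0 (z0 ^ i) := Commute.zpow_right hcomm i
          change z0 ^ i = h0 * z0 ^ i * h0⁻¹
          rw [h2.eq]; group
        · rintro ⟨i, hi⟩
          refine ⟨i, ?_⟩
          have h2 : Commute h0 (z0 ^ i) := Commute.zpow_right hcomm i
          have hi' : z0 ^ i = h0 * w * h0⁻¹ := hi
          change z0 ^ i = w
          have h3 : w = h0⁻¹ * (z0 ^ i) * h0 := by rw [hi']; group
          rw [h3, mul_assoc, ← h2.eq]; group)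
      rwa [Nat.card_zpowers, Nat.card_zpowers, hz0o, hh0o, ← sq] at this
    obtain ⟨k, hk, hk2⟩ := (Nat.dvd_prime_pow hp).1 h1
    have h3 : p < Nat.card E := by
      have h4 : Subgroup.zpowers z0 < E := by
        refine lt_of_le_of_ne le_sup_left ?_
        intro h5
        apply hh0z
        rw [h5]
        exact (le_sup_right : Subgroup.zpowers h0 ≤ E) (Subgroup.mem_zpowers h0)
      have := Cfsg.Agent.Lib.Helper1.card_lt_of_lt h4
      rwa [Nat.card_zpowers, hz0o] at this
    rw [hk2] at h3 ⊢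
    have h6 : 1 < k := by
      by_contra h7
      have h8 : k ≤ 1 := by omega
      have := Nat.pow_le_pow_right hp.pos h8
      rw [pow_one] at this
      omega
    have : k = 2 := by omega
    rw [this]
  -- an element of order p^2
  obtain ⟨j, hj⟩ := (IsPGroup.iff_orderOf.1 P.2) ⟨x, hxP⟩
  have hj' : orderOf x = p ^ j := by rw [← hj, ← Subgroup.orderOf_coe]
  have hj2 : 2 ≤ j := by
    by_contra h1
    apply hx
    have h2 : j ≤ 1 := by omega
    have h3 : orderOf x ∣ p := by
      rw [hj']
      calc p ^ j ∣ p ^ 1 := pow_dvd_pow p h2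
        _ = p := pow_one p
    exact orderOf_dvd_iff_pow_eq_one.1 h3
  set y := x ^ (p ^ (j - 2)) with hy
  have hyo : orderOf y = p ^ 2 := by
    rw [hy, orderOf_pow_of_dvd (pow_ne_zero _ hp.ne_zero) (by rw [hj']; exact pow_dvd_pow p (by omega)), hj']
    rw [Nat.pow_div (by omega) hp.pos]
    congr 1
    omega
  obtain ⟨g, hg⟩ := hB (Subgroup.zpowers y) E inferInstance hEc (by rw [Nat.card_zpowers, hyo, hEcard])
  have hzE : z0 ∈ E := (le_sup_left : Subgroup.zpowers z0 ≤ E) (Subgroup.mem_zpowers z0)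
  have hhE : h0 ∈ E := (le_sup_right : Subgroup.zpowers h0 ≤ E) (Subgroup.mem_zpowers h0)
  rw [hg] at hzE hhE
  obtain ⟨a, ha, haz⟩ := hzE
  obtain ⟨b, hb, hbh⟩ := hhE
  have haz' : g * a * g⁻¹ = z0 := haz
  have hbh' : g * b * g⁻¹ = h0 := hbh
  have hao : orderOf a = p := by
    rw [← hz0o, ← haz']
    exact ((MulAut.conj g).orderOf_eq a).symm
  have hbo : orderOf b = p := by
    rw [← hh0o, ← hbh']
    exact ((MulAut.conj g).orderOf_eq b).symm
  have h1 := cyc_aux hp y a hyo ha hao
  have h2 := cyc_aux hp y b hyo hb hbo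
  have h3 : b ∈ Subgroup.zpowers a := by
    rw [h1, ← h2]; exact Subgroup.mem_zpowers b
  obtain ⟨i, hi⟩ := h3
  apply hh0z
  refine ⟨i, ?_⟩
  change z0 ^ i = h0
  rw [← haz', ← hbh', ← hi]
  simp [conj_zpow]


/-- Let G be a finite group in which any two abelian subgroups of the same order are conjugate. Then a Sylow 2-subgroup of G is cyclic, elementary abelian or generalized quaternion, and for an odd prime p a Sylow p-subgroup of G is cyclic or has exponent dividing p. -/
theorem result {G : Type*} [Group G] [Finite G] (hB : ∀ A B : Subgroup G, IsMulCommutative ↥A → IsMulCommutative ↥B → Nat.card ↥A = Nat.card ↥B → ∃ g : G, B = A.map (MulAut.conj g).toMonoidHom) :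
    (∀ P : Sylow 2 G, IsCyclic ↥(P : Subgroup G) ∨ Cfsg.IsElementaryAbelian 2 (P : Subgroup G) ∨ ∃ k : ℕ, Nonempty (↥(P : Subgroup G) ≃* QuaternionGroup (2 ^ k))) ∧
    ∀ (p : ℕ) [Fact p.Prime], p ≠ 2 → ∀ P : Sylow p G, IsCyclic ↥(P : Subgroup G) ∨ ∀ x ∈ (P : Subgroup G), x ^ p = 1 := by
  classical
  constructor
  · intro P
    rcases core hB 2 P with h | h
    · rcases Cfsg.Agent.S0016.result 2 P.2 h with h1 | ⟨-, h1⟩
      · exact Or.inl h1
      · exact Or.inr (Or.inr h1)
    · right; left
      refine ⟨⟨⟨?_⟩⟩, h⟩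
      intro a b
      apply Subtype.ext
      change (a : G) * b = b * a
      have ha := h a a.2
      have hb := h b b.2
      have hab := h (a * b) (mul_mem a.2 b.2)
      have h1 : (a : G)⁻¹ = a := by rw [inv_eq_iff_mul_eq_one, ← sq]; exact ha
      have h2 : (b : G)⁻¹ = b := by rw [inv_eq_iff_mul_eq_one, ← sq]; exact hb
      have h3 : ((a : G) * b)⁻¹ = a * b := by rw [inv_eq_iff_mul_eq_one, ← sq]; exact hab
      rw [← h3, mul_inv_rev, h1, h2]
  · intro p _ hp2 P
    rcases core hB p P with h | h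
    · rcases Cfsg.Agent.S0016.result p P.2 h with h1 | ⟨h1, -⟩
      · exact Or.inl h1
      · exact absurd h1 hp2
    · exact Or.inr h

end Cfsg.Agent.S3908
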