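import Cfsg.Statements.S3909
import Mathlib

set_option autoImplicit false
open Cfsg

namespace Cfsg.Agent.S3909




/-- Let G be a finite group in which any two abelian subgroups of the same order are conjugate. Let M be a normal subgroup of G. If M contains an element of the same order as a ∈ G, then a ∈ M; and if M is elementary abelian of order p^t with p prime and t ≥ 2, then M is the unique Sylow p-subgroup of G. -/
theorem result {G : Type*} [Group G] [Finite G] (hB : ∀ A B : Subgroup G, IsMulCommutative ↥A → IsMulCommutative ↥B → Nat.card ↥A = Nat.card ↥B → ∃ g : G, B = A.map (MulAut.conj g).toMonoidHom) (M : Subgroup G) [M.Normal] :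
    (∀ a : G, (∃ m ∈ M, orderOf m = orderOf a) → a ∈ M) ∧
    ∀ (p t : ℕ) [Fact p.Prime], 2 ≤ t → Nat.card ↥M = p ^ t → Cfsg.IsElementaryAbelian p M → ∀ P : Sylow p G, (P : Subgroup G) = M := by
  classical
  have h1 : ∀ a : G, (∃ m ∈ M, orderOf m = orderOf a) → a ∈ M := by
    rintro a ⟨m, hm, hma⟩
    obtain ⟨g, hg⟩ := hB (Subgroup.zpowers m) (Subgroup.zpowers a) inferInstance inferInstance
      (by rw [Nat.card_zpowers, Nat.card_zpowers, hma])
    have ha : a ∈ Subgroup.zpowers a := Subgroup.mem_zpowers a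
    rw [hg] at ha
    obtain ⟨y, hy, rfl⟩ := ha
    have hyM : y ∈ M := (Subgroup.zpowers_le.2 hm) hy
    exact ‹M.Normal›.conj_mem y hyM g
  refine ⟨h1, ?_⟩
  intro p t _ ht hM hE P
  have hp : p.Prime := Fact.out
  have hMp : IsPGroup p M := IsPGroup.of_card hM
  refine le_antisymm ?_ (hMp.le_sylow_of_normal P)
  intro x hx
  -- first: x ^ p = 1
  have hxp : x ^ p = 1 := by
    by_contra hne
    obtain ⟨k, hk⟩ := (P.2 ⟨x, hx⟩)
    have hk' : x ^ p ^ k = 1 := by simpa using congrArg Subtype.val hk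
    obtain ⟨j, hj, hord⟩ := (Nat.dvd_prime_pow hp).1 (orderOf_dvd_of_pow_eq_one hk')
    have hj2 : 2 ≤ j := by
      by_contra hlt
      apply hne
      have : j ≤ 1 := by omega
      have hd : orderOf x ∣ p := by
        rw [hord]
        calc p ^ j ∣ p ^ 1 := pow_dvd_pow p this
          _ = p := pow_one p
      exact orderOf_dvd_iff_pow_eq_one.1 hd
    set y := x ^ (p ^ (j - 2)) with hy
    have hyord : orderOf y = p ^ 2 := by
      rw [hy, orderOf_pow_of_dvd (pow_ne_zero _ hp.ne_zero) (by rw [hord]; exact pow_dvd_pow p (by omega)), hord]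
      rw [Nat.pow_div (by omega) hp.pos]
      congr 1; omega
    obtain ⟨K, hK⟩ := Sylow.exists_subgroup_card_pow_prime (G := M) p (n := 2) (by rw [hM]; exact pow_dvd_pow p ht)
    have hBc : IsMulCommutative (K.map M.subtype) := by
      refine ⟨⟨?_⟩⟩
      rintro ⟨_, ⟨a, ha, rfl⟩⟩ ⟨_, ⟨b, hb, rfl⟩⟩
      apply Subtype.ext
      have := congrArg Subtype.val (hE.1.is_comm.comm a b)
      exact this
    obtain ⟨g, hg⟩ := hB (K.map M.subtype) (Subgroup.zpowers y) hBc inferInstance
      (by rw [Nat.card_zpowers, hyord, Subgroup.card_map_of_injective M.subtype_injective, hK])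
    have hy' : y ∈ Subgroup.zpowers y := Subgroup.mem_zpowers y
    rw [hg] at hy'
    obtain ⟨_, ⟨b, hb, rfl⟩, hby⟩ := hy'
    have hbp : (b : G) ^ p = 1 := hE.2 b b.2
    have hyp : y ^ p = 1 := by
      rw [← hby, ← map_pow]
      simp [hbp]
    have := orderOf_dvd_of_pow_eq_one hyp
    rw [hyord] at this
    have h3 := Nat.le_of_dvd hp.pos this
    have h4 : p < p ^ 2 := by nlinarith [hp.one_lt]
    omega
  by_cases hx1 : x = 1
  · rw [hx1]; exact one_mem _
  · apply h1
    have hMnt : Nontrivial M := by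
      rw [← Finite.one_lt_card_iff_nontrivial, hM]
      exact Nat.one_lt_pow (by omega) hp.one_lt
    obtain ⟨m, hm⟩ := exists_ne (1 : M)
    refine ⟨m, m.2, ?_⟩
    rw [orderOf_eq_prime hxp hx1, orderOf_eq_prime (hE.2 m m.2) (by simpa using hm)]

end Cfsg.Agent.S3909
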