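import Cfsg.Statements.S3910
import Mathlib
import Cfsg.Agent.Lib.Helper1.Basic
import Cfsg.Agent.Lib.Helper20.SylowExtra

set_option autoImplicit false
open Cfsg Cfsg.Agent.Lib.Helper20

namespace Cfsg.Agent.S3910


theorem mem_of_pow_mem_coprime {G : Type*} [Group G] (M : Subgroup G) (y : G) (a b : ℕ)
    (ha : y ^ a ∈ M) (hb : y ^ b ∈ M) (hab : Nat.Coprime a b) : y ∈ M := by
  have h := Nat.gcd_eq_gcd_ab a b
  rw [hab] at h
  have h2 : y = (y ^ a) ^ (Nat.gcdA a b) * (y ^ b) ^ (Nat.gcdB a b) := by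
    rw [← zpow_natCast, ← zpow_natCast, ← zpow_mul, ← zpow_mul, ← zpow_add, ← h]
    simp
  rw [h2]
  exact M.mul_mem (M.zpow_mem ha _) (M.zpow_mem hb _)

/-- an element outside a normal subgroup of index `p` has a `p`-power-order power outside it -/
theorem exists_pelement_not_mem {G : Type*} [Group G] [Finite G] (M : Subgroup G) [M.Normal] (p : ℕ) (hp : p.Prime)
    (hM : M.index = p) (g : G) (hg : g ∉ M) : ∃ (m i : ℕ), g ^ m ∉ M ∧ orderOf (g ^ m) = p ^ i := by
  obtain ⟨e, n', hn', hord⟩ := Nat.exists_eq_pow_mul_and_not_dvd (orderOf_pos g).ne' p hp.one_lt.ne'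
  refine ⟨n', e, ?_, ?_⟩
  · intro h
    apply hg
    have h2 : g ^ p ∈ M := hM ▸ M.pow_index_mem g
    exact mem_of_pow_mem_coprime M g n' p h h2 ((Nat.Prime.coprime_iff_not_dvd hp).2 hn').symm
  · have hn0 : n' ≠ 0 := by rintro rfl; exact hn' (dvd_zero p)
    rw [orderOf_pow_of_dvd hn0 (by rw [hord]; exact Dvd.intro_left _ rfl), hord]
    exact Nat.mul_div_cancel _ (Nat.pos_of_ne_zero hn0)



/-- A finite nilpotent group in which any two abelian subgroups of the same order are conjugate is cyclic. -/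
theorem result {G : Type*} [Group G] [Finite G] (hB : ∀ A B : Subgroup G, IsMulCommutative ↥A → IsMulCommutative ↥B → Nat.card ↥A = Nat.card ↥B → ∃ g : G, B = A.map (MulAut.conj g).toMonoidHom) (hnil : Group.IsNilpotent G) : IsCyclic G := by
  classical
  have h1 : ∀ (M : Subgroup G) [M.Normal] (a : G), (∃ m ∈ M, orderOf m = orderOf a) → a ∈ M := by
    rintro M hMn a ⟨m, hm, hma⟩
    obtain ⟨g, hg⟩ := hB (Subgroup.zpowers m) (Subgroup.zpowers a) inferInstance inferInstance
      (by rw [Nat.card_zpowers, Nat.card_zpowers, hma])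
    have ha : a ∈ Subgroup.zpowers a := Subgroup.mem_zpowers a
    rw [hg] at ha
    obtain ⟨y, hy, rfl⟩ := ha
    have hyM : y ∈ M := (Subgroup.zpowers_le.2 hm) hy
    exact hMn.conj_mem y hyM g
  have hcoN : ∀ H : Subgroup G, IsCoatom H → H.Normal :=
    ((Group.isNilpotent_of_finite_tfae (G := G)).out 0 2).1 hnil
  -- key: one-sided containment
  have key : ∀ (p : ℕ) (M1 M2 : Subgroup G), p.Prime → M1.Normal → M2.Normal → M1.index = p → M2.index = p →
      M1 = M2 := by
    intro p M1 M2 hp hn1 hn2 hi1 hi2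
    by_contra hne
    have hcard : Nat.card M1 = Nat.card M2 := by
      have e1 := M1.card_mul_index
      have e2 := M2.card_mul_index
      rw [hi1] at e1; rw [hi2] at e2
      exact Nat.eq_of_mul_eq_mul_right hp.pos (e1.trans e2.symm)
    have hn12 : ¬ M1 ≤ M2 := fun h => hne (Subgroup.eq_of_le_of_card_ge h hcard.ge)
    have hn21 : ¬ M2 ≤ M1 := fun h => hne (Subgroup.eq_of_le_of_card_ge h hcard.le).symm
    obtain ⟨a, haM1, haM2⟩ := SetLike.not_le_iff_exists.1 hn12
    obtain ⟨b, hbM2, hbM1⟩ := SetLike.not_le_iff_exists.1 hn21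
    obtain ⟨m, i, ha', hao⟩ := exists_pelement_not_mem M2 p hp hi2 a haM2
    obtain ⟨n, j, hb', hbo⟩ := exists_pelement_not_mem M1 p hp hi1 b hbM1
    rcases le_total i j with hij | hij
    · apply ha'
      apply h1 M2
      refine ⟨(b ^ n) ^ (p ^ (j - i)), M2.pow_mem (M2.pow_mem hbM2 _) _, ?_⟩
      rw [orderOf_pow_of_dvd (pow_ne_zero _ hp.ne_zero) (by rw [hbo]; exact pow_dvd_pow p (by omega)), hbo, hao,
        Nat.pow_div (by omega) hp.pos]
      congr 1; omega
    · apply hb'
      apply h1 M1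
      refine ⟨(a ^ m) ^ (p ^ (i - j)), M1.pow_mem (M1.pow_mem haM1 _) _, ?_⟩
      rw [orderOf_pow_of_dvd (pow_ne_zero _ hp.ne_zero) (by rw [hao]; exact pow_dvd_pow p (by omega)), hbo, hao,
        Nat.pow_div (by omega) hp.pos]
      congr 1; omega
  -- choose x in the fewest coatoms
  let f : G → ℕ := fun x => Nat.card {M : Subgroup G // IsCoatom M ∧ x ∈ M}
  obtain ⟨x, hx⟩ := Finite.exists_min f
  have hx0 : ∀ M : Subgroup G, IsCoatom M → x ∉ M := by
    intro M hM hxM
    haveI hMn := hcoN M hM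
    have hp : M.index.Prime := Cfsg.Agent.Lib.Helper1.index_prime_of_isCoatom_of_normal hM
    obtain ⟨g, hg⟩ : ∃ g, g ∉ M := by
      by_contra hcon
      push Not at hcon
      exact hM.1 (eq_top_iff.2 fun g _ => hcon g)
    obtain ⟨m, i, hy, hyo⟩ := exists_pelement_not_mem M _ hp rfl g hg
    set y := g ^ m with hydef
    have hlt : f (x * y) < f x := by
      apply Set.Finite.card_lt_card (s := {M : Subgroup G | IsCoatom M ∧ x * y ∈ M})
        (t := {M : Subgroup G | IsCoatom M ∧ x ∈ M}) (Set.toFinite _)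
      refine ⟨?_, ?_⟩
      · rintro K ⟨hK, hxy⟩
        refine ⟨hK, ?_⟩
        haveI hKn := hcoN K hK
        have hq : K.index.Prime := Cfsg.Agent.Lib.Helper1.index_prime_of_isCoatom_of_normal hK
        by_cases hpq : K.index = M.index
        · have : K = M := key _ K M hp hKn hMn hpq rfl
          rw [this]; exact hxM
        · have hyK : y ∈ K := by
            apply mem_of_pow_mem_coprime K y K.index (M.index ^ i) (K.pow_index_mem y)
            · rw [← hyo, pow_orderOf_eq_one]; exact one_mem _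
            · exact Nat.Coprime.pow_right _ ((Nat.coprime_primes hq hp).2 hpq)
          have := K.mul_mem hxy (K.inv_mem hyK)
          simpa using this
      · intro hsub
        have := hsub (⟨hM, hxM⟩ : M ∈ {M : Subgroup G | IsCoatom M ∧ x ∈ M})
        apply hy
        have h3 := M.mul_mem (M.inv_mem hxM) this.2
        simpa using h3
    exact absurd (hx (x * y)) (not_le_of_gt hlt)
  have htop : Subgroup.zpowers x = ⊤ := by
    by_contra hne
    obtain ⟨M, hM, hle⟩ := exists_coatom_ge hne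
    exact hx0 M hM (hle (Subgroup.mem_zpowers x))
  exact ⟨x, fun g => by
    have : g ∈ Subgroup.zpowers x := htop ▸ Subgroup.mem_top g
    exact this⟩

end Cfsg.Agent.S3910
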