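import Cfsg.Statements.S3911
import Mathlib
import Cfsg.Agent.S3908
import Cfsg.Agent.S3909

set_option autoImplicit false
open Cfsg

namespace Cfsg.Agent.S3911

theorem sylow_normal {H C : Type*} [Group H] [Finite H] [Group C] (φ : H →* C)
    (hcomm : ∀ x y : H, φ x * φ y = φ y * φ x)
    (hmin : ∀ L : Subgroup H, L.map φ = φ.range → L = ⊤)
    (q : ℕ) [Fact q.Prime] (Q : Sylow q H) : (Q : Subgroup H).Normal := by
  haveI hKn : (φ.ker ⊔ (Q : Subgroup H)).Normal := by
    constructor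
    intro k hk x
    have h0 : x * k * x⁻¹ = (x * k * x⁻¹ * k⁻¹) * k := by group
    rw [h0]
    refine mul_mem (Subgroup.mem_sup_left ?_) hk
    rw [MonoidHom.mem_ker]
    simp only [map_mul, map_inv]
    rw [hcomm x k]
    group
  have h1 := Sylow.normalizer_sup_eq_top' Q (le_sup_right : (Q : Subgroup H) ≤ φ.ker ⊔ Q)
  have h2 : (Subgroup.normalizer ((Q : Subgroup H) : Set H)) ⊔ φ.ker = ⊤ := by
    rw [eq_top_iff, ← h1]
    refine sup_le le_sup_left (sup_le le_sup_right ?_)
    exact le_trans Subgroup.le_normalizer le_sup_left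
  have h3 : (Subgroup.normalizer ((Q : Subgroup H) : Set H)).map φ = φ.range := by
    rw [MonoidHom.range_eq_map, ← h2, Subgroup.map_sup, (Subgroup.map_eq_bot_iff _).2 le_rfl, sup_bot_eq]
  have h4 := hmin _ h3
  exact Subgroup.normalizer_eq_top_iff.mp h4

theorem sylow_bot_of_le_ker {H C : Type*} [Group H] [Finite H] [Group C] (φ : H →* C)
    (hcomm : ∀ x y : H, φ x * φ y = φ y * φ x)
    (hmin : ∀ L : Subgroup H, L.map φ = φ.range → L = ⊤)
    (q : ℕ) [Fact q.Prime] (Q : Sylow q H) (hQ : (Q : Subgroup H) ≤ φ.ker) :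
    (Q : Subgroup H) = ⊥ := by
  haveI := sylow_normal φ hcomm hmin q Q
  obtain ⟨L, hL⟩ := Subgroup.exists_right_complement'_of_coprime Q.card_coprime_index
  have hsup : (Q : Subgroup H) ⊔ L = ⊤ := hL.sup_eq_top
  have h3 : L.map φ = φ.range := by
    rw [MonoidHom.range_eq_map, ← hsup, Subgroup.map_sup, (Subgroup.map_eq_bot_iff _).2 hQ, bot_sup_eq]
  have hLtop := hmin L h3
  have h4 := hL.disjoint
  rw [hLtop] at h4
  exact disjoint_top.mp h4

theorem comm_of_sylow {H : Type*} [Group H] [Finite H]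
    (hn : ∀ {p : ℕ} [Fact p.Prime] (P : Sylow p H), (↑P : Subgroup H).Normal)
    (hc : ∀ (p : ℕ) [Fact p.Prime] (P : Sylow p H), ∀ x ∈ (P : Subgroup H), ∀ y ∈ (P : Subgroup H), x * y = y * x)
    (x y : H) : x * y = y * x := by
  let e := Sylow.directProductOfNormal hn
  obtain ⟨a, rfl⟩ := e.surjective x
  obtain ⟨b, rfl⟩ := e.surjective y
  rw [← map_mul, ← map_mul]
  congr 1
  funext p P
  haveI : Fact (p : ℕ).Prime := ⟨Nat.prime_of_mem_primeFactors p.2⟩
  exact Subtype.ext (hc p P _ (a p P).2 _ (b p P).2)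

theorem key_cyc {G : Type*} [Group G] [Finite G] (hB : ∀ A B : Subgroup G, IsMulCommutative ↥A → IsMulCommutative ↥B → Nat.card ↥A = Nat.card ↥B → ∃ g : G, B = A.map (MulAut.conj g).toMonoidHom) (M : Subgroup G) [M.Normal] (hM : Odd (Nat.card ↥M))
    (q : ℕ) [hqf : Fact q.Prime] (hq : q ∣ Nat.card ↥M) (x : G) (u : ℕ) (hx : orderOf x = q ^ u) (hxM : x ∉ M) :
    (∀ P : Sylow q G, IsCyclic ↥(P : Subgroup G)) ∧
      ∃ z ∈ Subgroup.zpowers x, z ∈ M ∧ orderOf z = q ^ (Nat.card ↥M).factorization q := by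
  have hS9 := (Cfsg.Agent.S3909.result hB M).1
  have hS8 := (Cfsg.Agent.S3908.result hB).2
  have hq2 : q ≠ 2 := by
    rintro rfl
    exact hM.not_two_dvd_nat hq
  obtain ⟨m, hm⟩ := exists_prime_orderOf_dvd_card' q hq
  have hm' : orderOf (m : G) = q := by rw [Subgroup.orderOf_coe]; exact hm
  have hxq : x ^ q ≠ 1 := by
    intro h
    have h1 : orderOf x ∣ q := orderOf_dvd_of_pow_eq_one h
    rcases (Nat.dvd_prime hqf.out).1 h1 with h2 | h2
    · rw [orderOf_eq_one_iff] at h2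
      exact hxM (h2 ▸ M.one_mem)
    · exact hxM (hS9 x ⟨m, m.2, by rw [hm', h2]⟩)
  have hpz : IsPGroup q ↥(Subgroup.zpowers x) := IsPGroup.of_card (n := u) (by rw [Nat.card_zpowers, hx])
  obtain ⟨P₀, hP₀⟩ := hpz.exists_le_sylow
  have hcyc : ∀ P : Sylow q G, IsCyclic ↥(P : Subgroup G) := by
    intro P
    rcases hS8 q hq2 P with h | h
    · exact h
    · exfalso
      obtain ⟨g, hg⟩ := MulAction.exists_smul_eq G P P₀
      have h1 : x ∈ ((g • P : Sylow q G) : Subgroup G) := by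
        rw [hg]; exact hP₀ (Subgroup.mem_zpowers x)
      rw [Sylow.coe_subgroup_smul, Subgroup.mem_pointwise_smul_iff_inv_smul_mem] at h1
      have h2 := h _ h1
      rw [MulAut.smul_def, MulAut.conj_inv_apply] at h2
      have h3 : (g⁻¹ * x * g) ^ q = g⁻¹ * x ^ q * g := by
        have := conj_pow (a := g⁻¹) (b := x) (i := q)
        simpa using this
      rw [h3] at h2
      apply hxq
      have : x ^ q = g * (g⁻¹ * x ^ q * g) * g⁻¹ := by group
      rw [this, h2]; group
  refine ⟨hcyc, ?_⟩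
  set v := (Nat.card ↥M).factorization q with hv
  obtain ⟨Q₀⟩ := (inferInstance : Nonempty (Sylow q ↥M))
  set K : Subgroup G := (Q₀ : Subgroup ↥M).map M.subtype with hK
  have hKcard : Nat.card ↥K = q ^ v := by
    rw [hK, Subgroup.card_map_of_injective M.subtype_injective, Q₀.card_eq_multiplicity]
  have hKp : IsPGroup q ↥K := IsPGroup.of_card hKcard
  obtain ⟨P', hP'⟩ := hKp.exists_le_sylow
  haveI := hcyc P'
  haveI : IsCyclic ↥K := isCyclic_of_injective (Subgroup.inclusion hP') (Subgroup.inclusion_injective hP')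
  obtain ⟨y, hy⟩ := IsCyclic.exists_ofOrder_eq_natCard (α := ↥K)
  have hyM : (y : G) ∈ M := (Subgroup.map_subtype_le _) y.2
  have hy' : orderOf (y : G) = q ^ v := by rw [Subgroup.orderOf_coe, hy, hKcard]
  have hqpos : 0 < q := hqf.out.pos
  by_cases huv : u ≤ v
  · exfalso
    apply hxM
    refine hS9 x ⟨(y : G) ^ (q ^ (v - u)), M.pow_mem hyM _, ?_⟩
    rw [orderOf_pow_of_dvd (pow_ne_zero _ hqpos.ne') (by rw [hy']; exact pow_dvd_pow _ (Nat.sub_le _ _)), hy', hx,
      Nat.pow_div (Nat.sub_le _ _) hqpos]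
    congr 1; omega
  · push Not at huv
    have hz : orderOf (x ^ (q ^ (u - v))) = q ^ v := by
      rw [orderOf_pow_of_dvd (pow_ne_zero _ hqpos.ne') (by rw [hx]; exact pow_dvd_pow _ (Nat.sub_le _ _)), hx,
        Nat.pow_div (Nat.sub_le _ _) hqpos]
      congr 1; omega
    exact ⟨x ^ (q ^ (u - v)), Subgroup.pow_mem _ (Subgroup.mem_zpowers x) _, hS9 _ ⟨y, hyM, by rw [hy', hz]⟩, hz⟩

theorem exists_lift {G : Type*} [Group G] [Finite G] (hB : ∀ A B : Subgroup G, IsMulCommutative ↥A → IsMulCommutative ↥B → Nat.card ↥A = Nat.card ↥B → ∃ g : G, B = A.map (MulAut.conj g).toMonoidHom) (M : Subgroup G) [M.Normal] (hM : Odd (Nat.card ↥M))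
    (A : Subgroup (G ⧸ M)) (hA : IsMulCommutative ↥A) :
    ∃ N : Subgroup G, IsMulCommutative ↥N ∧ N.map (QuotientGroup.mk' M) = A ∧
      ∀ q : ℕ, q.Prime → (Nat.card ↥N).factorization q =
        if q ∣ Nat.card ↥A then (Nat.card ↥A).factorization q + (Nat.card ↥M).factorization q else 0 := by
  classical
  obtain ⟨N, hN⟩ := (Set.toFinite {N : Subgroup G | N.map (QuotientGroup.mk' M) = A}).exists_minimal
    ⟨A.comap (QuotientGroup.mk' M), Subgroup.map_comap_eq_self_of_surjective (QuotientGroup.mk'_surjective M) A⟩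
  have hNA : N.map (QuotientGroup.mk' M) = A := hN.1
  have hNmin : ∀ L : Subgroup G, L ≤ N → L.map (QuotientGroup.mk' M) = A → L = N :=
    fun L hL hLA => le_antisymm hL (hN.2 hLA hL)
  set φ : ↥N →* G ⧸ M := (QuotientGroup.mk' M).comp N.subtype with hφ
  have hrange : φ.range = A := by
    rw [hφ, ← MonoidHom.map_range, Subgroup.range_subtype, hNA]
  have hφA : ∀ x : ↥N, φ x ∈ A := fun x => hrange ▸ ⟨x, rfl⟩
  have hcomm : ∀ x y : ↥N, φ x * φ y = φ y * φ x := by
    intro x y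
    have := hA.is_comm.comm (⟨φ x, hφA x⟩ : ↥A) ⟨φ y, hφA y⟩
    exact congrArg Subtype.val this
  have hmin : ∀ L : Subgroup ↥N, L.map φ = φ.range → L = ⊤ := by
    intro L hL
    have h1 : (L.map N.subtype).map (QuotientGroup.mk' M) = A := by
      rw [Subgroup.map_map, ← hrange, ← hL]
    have h2 := hNmin _ (Subgroup.map_subtype_le L) h1
    rw [eq_top_iff]
    intro x _
    have hx : (x : G) ∈ L.map N.subtype := by rw [h2]; exact x.2
    obtain ⟨y, hy, hyx⟩ := hx
    have : y = x := Subtype.ext hyx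
    exact this ▸ hy
  have hker : ∀ x : ↥N, x ∈ φ.ker ↔ (x : G) ∈ M := by
    intro x
    rw [MonoidHom.mem_ker, hφ]
    simp [QuotientGroup.eq_one_iff]
  have hnorm : ∀ {p : ℕ} [Fact p.Prime] (P : Sylow p ↥N), (↑P : Subgroup ↥N).Normal :=
    fun {p} _ P => sylow_normal φ hcomm hmin p P
  have hord : ∀ (p : ℕ) [Fact p.Prime] (P : Sylow p ↥N), ∀ w ∈ (P : Subgroup ↥N), ∃ k, orderOf (w : G) = p ^ k := by
    intro p _ P w hw
    obtain ⟨k, hk⟩ := IsPGroup.iff_orderOf.mp P.2 ⟨w, hw⟩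
    refine ⟨k, ?_⟩
    rw [Subgroup.orderOf_coe, ← hk, Subgroup.orderOf_mk w hw]
  have hNcomm : ∀ x y : ↥N, x * y = y * x := by
    apply comm_of_sylow hnorm
    intro p _ P x hx y hy
    by_cases hpM : p ∣ Nat.card ↥M
    · by_cases hPk : (P : Subgroup ↥N) ≤ φ.ker
      · have hbot := sylow_bot_of_le_ker φ hcomm hmin p P hPk
        rw [hbot, Subgroup.mem_bot] at hx hy
        rw [hx, hy]
      · obtain ⟨w, hw, hwk⟩ := SetLike.not_le_iff_exists.mp hPk
        obtain ⟨k, hk⟩ := hord p P w hw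
        have hcyc := (key_cyc hB M hM p hpM (w : G) k hk (fun h => hwk ((hker w).2 h))).1
        have hPp : IsPGroup p ↥((P : Subgroup ↥N).map N.subtype) := P.2.map _
        obtain ⟨P', hP'⟩ := hPp.exists_le_sylow
        haveI := hcyc P'
        letI := IsCyclic.commGroup (α := ↥(P' : Subgroup G))
        have hx' : (x : G) ∈ (P' : Subgroup G) := hP' ⟨x, hx, rfl⟩
        have hy' : (y : G) ∈ (P' : Subgroup G) := hP' ⟨y, hy, rfl⟩
        have := mul_comm (⟨(x : G), hx'⟩ : ↥(P' : Subgroup G)) ⟨(y : G), hy'⟩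
        have h3 : (x : G) * y = y * x := congrArg Subtype.val this
        exact Subtype.ext h3
    · have hz : x * y * x⁻¹ * y⁻¹ ∈ (P : Subgroup ↥N) :=
        mul_mem (mul_mem (mul_mem hx hy) (inv_mem hx)) (inv_mem hy)
      have hzk : x * y * x⁻¹ * y⁻¹ ∈ φ.ker := by
        rw [MonoidHom.mem_ker]
        simp only [map_mul, map_inv]
        rw [hcomm x y]; group
      obtain ⟨k, hk⟩ := hord p P _ hz
      have hzM := (hker _).1 hzk
      have hdvd : orderOf ((x * y * x⁻¹ * y⁻¹ : ↥N) : G) ∣ Nat.card ↥M := by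
        have := orderOf_dvd_natCard (⟨_, hzM⟩ : ↥M)
        rwa [← Subgroup.orderOf_coe] at this
      have hk0 : k = 0 := by
        by_contra hk0
        apply hpM
        refine dvd_trans ?_ hdvd
        rw [hk]; exact dvd_pow_self p hk0
      rw [hk0, pow_zero, orderOf_eq_one_iff] at hk
      have h1 : x * y * x⁻¹ * y⁻¹ = 1 := Subtype.ext hk
      have : x * y = (x * y * x⁻¹ * y⁻¹) * (y * x) := by group
      rw [this, h1, one_mul]
  refine ⟨N, ⟨⟨hNcomm⟩⟩, hNA, ?_⟩
  intro q hq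
  haveI : Fact q.Prime := ⟨hq⟩
  have hcard : Nat.card ↥φ.ker * Nat.card ↥A = Nat.card ↥N := by
    rw [← hrange, ← Subgroup.index_ker, Subgroup.card_mul_index]
  obtain ⟨Q⟩ := (inferInstance : Nonempty (Sylow q ↥N))
  have hQbot : (Q : Subgroup ↥N) = ⊥ → (Nat.card ↥N).factorization q = 0 := by
    intro h
    have h1 := Q.card_eq_multiplicity
    rw [h, Subgroup.card_bot] at h1
    by_contra h0
    have := Nat.one_lt_pow h0 hq.one_lt
    omega
  have hkpos : Nat.card ↥φ.ker ≠ 0 := Nat.card_pos.ne'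
  have hApos : Nat.card ↥A ≠ 0 := Nat.card_pos.ne'
  have hMpos : Nat.card ↥M ≠ 0 := Nat.card_pos.ne'
  by_cases hqA : q ∣ Nat.card ↥A
  · rw [if_pos hqA, ← hcard, Nat.factorization_mul hkpos hApos, Finsupp.add_apply, add_comm]
    congr 1
    apply le_antisymm
    · have hdvd : Nat.card ↥φ.ker ∣ Nat.card ↥M := by
        let f : ↥φ.ker →* ↥M :=
          { toFun := fun x => ⟨((x : ↥N) : G), (hker _).1 x.2⟩
            map_one' := rfl
            map_mul' := fun _ _ => rfl }
        apply Subgroup.card_dvd_of_injective f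
        intro a b hab
        have : ((a : ↥N) : G) = ((b : ↥N) : G) := congrArg (fun t : ↥M => (t : G)) hab
        exact Subtype.ext (Subtype.ext this)
      exact (Nat.factorization_le_iff_dvd hkpos hMpos).2 hdvd q
    · by_cases hqM : q ∣ Nat.card ↥M
      · have hPk : ¬ (Q : Subgroup ↥N) ≤ φ.ker := by
          intro hPk
          have h0 := hQbot (sylow_bot_of_le_ker φ hcomm hmin q Q hPk)
          have h1 : q ∣ Nat.card ↥N := by rw [← hcard]; exact Dvd.dvd.mul_left hqA _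
          have h2 := (hq.dvd_iff_one_le_factorization Nat.card_pos.ne').1 h1
          omega
        obtain ⟨w, hw, hwk⟩ := SetLike.not_le_iff_exists.mp hPk
        obtain ⟨k, hk⟩ := hord q Q w hw
        obtain ⟨z, hzw, hzM, hzo⟩ := (key_cyc hB M hM q hqM (w : G) k hk (fun h => hwk ((hker w).2 h))).2
        have hzN : z ∈ N := by
          have : Subgroup.zpowers (w : G) ≤ N := by
            rw [Subgroup.zpowers_le]; exact w.2
          exact this hzw
        have hzk : (⟨z, hzN⟩ : ↥N) ∈ φ.ker := (hker _).2 hzM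
        have h1 := orderOf_dvd_natCard (⟨⟨z, hzN⟩, hzk⟩ : ↥φ.ker)
        rw [← Subgroup.orderOf_coe, ← Subgroup.orderOf_coe] at h1
        change orderOf z ∣ _ at h1
        rw [hzo] at h1
        exact (hq.pow_dvd_iff_le_factorization hkpos).1 h1
      · rw [Nat.factorization_eq_zero_of_not_dvd hqM]
        exact Nat.zero_le _
  · rw [if_neg hqA]
    apply hQbot
    apply sylow_bot_of_le_ker φ hcomm hmin q Q
    intro w hw
    rw [MonoidHom.mem_ker]
    obtain ⟨k, hk⟩ := IsPGroup.iff_orderOf.mp Q.2 ⟨w, hw⟩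
    have hk' : orderOf w = q ^ k := by rw [← hk, Subgroup.orderOf_mk w hw]
    have h1 : orderOf (φ w) ∣ q ^ k := hk' ▸ orderOf_map_dvd φ w
    obtain ⟨j, _, hj⟩ := (Nat.dvd_prime_pow hq).1 h1
    have h2 : orderOf (φ w) ∣ Nat.card ↥A := by
      have := orderOf_dvd_natCard (⟨φ w, hφA w⟩ : ↥A)
      rwa [← Subgroup.orderOf_coe] at this
    have hj0 : j = 0 := by
      by_contra hj0
      apply hqA
      refine dvd_trans ?_ h2
      rw [hj]; exact dvd_pow_self q hj0
    rw [hj0, pow_zero, orderOf_eq_one_iff] at hj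
    exact hj

/-- Let G be a finite group in which any two abelian subgroups of the same order are conjugate. If M is a normal subgroup of G of odd order, then any two abelian subgroups of G/M of the same order are conjugate in G/M. -/
theorem result {G : Type*} [Group G] [Finite G] (hB : ∀ A B : Subgroup G, IsMulCommutative ↥A → IsMulCommutative ↥B → Nat.card ↥A = Nat.card ↥B → ∃ g : G, B = A.map (MulAut.conj g).toMonoidHom) (M : Subgroup G) [M.Normal] (hM : Odd (Nat.card ↥M)) :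
    ∀ A B : Subgroup (G ⧸ M), IsMulCommutative ↥A → IsMulCommutative ↥B → Nat.card ↥A = Nat.card ↥B →
      ∃ g : G ⧸ M, B = A.map (MulAut.conj g).toMonoidHom := by
  intro A B hA hB' hcard
  obtain ⟨N₁, hc₁, hm₁, hf₁⟩ := exists_lift hB M hM A hA
  obtain ⟨N₂, hc₂, hm₂, hf₂⟩ := exists_lift hB M hM B hB'
  have hNN : Nat.card ↥N₁ = Nat.card ↥N₂ := by
    apply Nat.eq_of_factorization_eq Nat.card_pos.ne' Nat.card_pos.ne'
    intro q
    by_cases hq : q.Prime
    · rw [hf₁ q hq, hf₂ q hq, hcard]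
    · rw [Nat.factorization_eq_zero_of_not_prime _ hq, Nat.factorization_eq_zero_of_not_prime _ hq]
  obtain ⟨g, hg⟩ := hB N₁ N₂ hc₁ hc₂ hNN
  refine ⟨QuotientGroup.mk' M g, ?_⟩
  rw [← hm₂, ← hm₁, hg, Subgroup.map_map, Subgroup.map_map]
  congr 1

end Cfsg.Agent.S3911
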