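import Cfsg.Statements.S3917
import Mathlib
import Cfsg.Agent.Lib.Helper20.Abelian
import Cfsg.Agent.Lib.Helper20.SylowExtra

set_option autoImplicit false
open Cfsg Cfsg.Agent.Lib.Helper20

namespace Cfsg.Agent.S3917




/-- Say that a group has self-centralizing non-cyclic subgroups when every non-cyclic subgroup H satisfies C_G(H) ≤ H. A finite abelian group with self-centralizing non-cyclic subgroups is cyclic or elementary abelian of order p² for a prime p. -/
theorem result {G : Type*} [CommGroup G] [Finite G] (hX : (∀ H : Subgroup G, ¬ IsCyclic ↥H → Subgroup.centralizer (H : Set G) ≤ H)) :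
    IsCyclic G ∨ ∃ p : ℕ, p.Prime ∧ Nat.card G = p ^ 2 ∧ Monoid.exponent G = p := by
  classical
  by_cases hc : IsCyclic G
  · exact Or.inl hc
  right
  obtain ⟨p, hp, z, c, hz, hcc, hcz⟩ := exists_prime_order_pair_of_not_isCyclic hc
  refine ⟨p, hp, ?_⟩
  set H := Subgroup.zpowers z ⊔ Subgroup.zpowers c with hH
  have hexp : ∀ h ∈ H, h ^ p = 1 := by
    have : H ≤ (powMonoidHom p : G →* G).ker := by
      rw [hH, sup_le_iff, Subgroup.zpowers_le, Subgroup.zpowers_le, MonoidHom.mem_ker, MonoidHom.mem_ker]
      constructor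
      · rw [powMonoidHom_apply, ← hz, pow_orderOf_eq_one]
      · rw [powMonoidHom_apply, ← hcc, pow_orderOf_eq_one]
    intro h hh
    exact this hh
  have hcard : Nat.card H = p ^ 2 := by
    have h1 : (Subgroup.zpowers z).relIndex H = p := by
      rw [hH, Subgroup.relIndex_sup_left, ← Subgroup.inf_relIndex_right, zpowers_inf_zpowers_eq_bot hp hcc hcz,
        Subgroup.relIndex_bot_left, Nat.card_zpowers, hcc]
    have h2 := card_mul_relIndex_of_le (le_sup_left : Subgroup.zpowers z ≤ H)
    rw [h1, Nat.card_zpowers, hz] at h2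
    rw [← h2, sq]
  have hHnc : ¬ IsCyclic H := by
    intro hcyc
    have h1 := IsCyclic.exponent_eq_card (α := H)
    have h2 : Monoid.exponent H ∣ p := by
      apply Monoid.exponent_dvd_of_forall_pow_eq_one
      rintro ⟨h, hh⟩
      exact Subtype.ext (hexp h hh)
    rw [h1, hcard] at h2
    have h3 := Nat.le_of_dvd hp.pos h2
    have h4 : p < p ^ 2 := by nlinarith [hp.one_lt]
    omega
  have htop : H = ⊤ := by
    have := hX H hHnc
    rw [eq_top_iff]
    refine le_trans ?_ this
    intro g _
    rw [Subgroup.mem_centralizer_iff]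
    intro h _
    exact mul_comm _ _
  have hG : Nat.card G = p ^ 2 := by
    rw [← hcard, htop, Subgroup.card_top]
  refine ⟨hG, ?_⟩
  haveI : Nontrivial G := by
    rw [← Finite.one_lt_card_iff_nontrivial, hG]
    exact Nat.one_lt_pow (by omega) hp.one_lt
  rw [Monoid.exponent_eq_prime_iff hp]
  intro g hg
  haveI : Fact p.Prime := ⟨hp⟩
  exact orderOf_eq_prime (hexp g (htop ▸ Subgroup.mem_top g)) hg

end Cfsg.Agent.S3917
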