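import Cfsg.Statements.S3918
import Cfsg.Agent.Lib.Helper17.NormalRankTwo
import Cfsg.Agent.Lib.Helper1.RankTwo
import Cfsg.Agent.Lib.Helper4.Basic

set_option autoImplicit false
open Cfsg

namespace Cfsg.Agent.S3918

open Cfsg.Agent.Lib.Helper17

theorem comm_of_card_le {X : Type*} [Group X] [Finite X] {p : ℕ} [hp : Fact p.Prime] {n : ℕ}
    (hn : Nat.card X = p ^ n) (h2 : n ≤ 2) : IsMulCommutative X := by
  interval_cases n
  · rw [pow_zero, Nat.card_eq_one_iff_unique] at hn
    haveI := hn.1
    exact ⟨⟨fun a b => Subsingleton.elim _ _⟩⟩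
  · rw [pow_one] at hn
    haveI : IsCyclic X := isCyclic_of_prime_card hn
    obtain ⟨c, hc⟩ := IsCyclic.exists_generator (α := X)
    refine ⟨⟨fun a b => ?_⟩⟩
    obtain ⟨i, hi⟩ := Subgroup.mem_zpowers_iff.mp (hc a)
    obtain ⟨j, hj⟩ := Subgroup.mem_zpowers_iff.mp (hc b)
    rw [← hi, ← hj]; exact zpow_mul_comm c i j
  · exact IsPGroup.isMulCommutative_of_card_eq_prime_sq hn

/-- Say that a group has self-centralizing non-cyclic subgroups when every non-cyclic subgroup H satisfies C_G(H) ≤ H. For an odd prime p, a finite non-abelian p-group has self-centralizing non-cyclic subgroups if and only if it has order p³. -/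
theorem result {G : Type*} [Group G] [Finite G] {p : ℕ} [Fact p.Prime] (hp : p ≠ 2) (hG : IsPGroup p G) (hna : ¬ IsMulCommutative G) :
    (∀ H : Subgroup G, ¬ IsCyclic ↥H → Subgroup.centralizer (H : Set G) ≤ H) ↔ Nat.card G = p ^ 3 := by
  have hpp : p.Prime := Fact.out
  obtain ⟨n, hn⟩ := IsPGroup.iff_card.mp hG
  have hn3 : 3 ≤ n := by
    by_contra h
    exact hna (comm_of_card_le hn (by omega))
  constructor
  · intro hsc
    have hncyc : ¬ IsCyclic ↥(⊤ : Subgroup G) := by
      intro hc
      apply hna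
      obtain ⟨c, hc⟩ := IsCyclic.exists_generator (α := ↥(⊤ : Subgroup G))
      refine ⟨⟨fun a b => ?_⟩⟩
      obtain ⟨i, hi⟩ := Subgroup.mem_zpowers_iff.mp (hc ⟨a, Subgroup.mem_top a⟩)
      obtain ⟨j, hj⟩ := Subgroup.mem_zpowers_iff.mp (hc ⟨b, Subgroup.mem_top b⟩)
      have h1 : (⟨a, Subgroup.mem_top a⟩ : ↥(⊤ : Subgroup G)) * ⟨b, Subgroup.mem_top b⟩
          = ⟨b, Subgroup.mem_top b⟩ * ⟨a, Subgroup.mem_top a⟩ := by
        rw [← hi, ← hj]; exact zpow_mul_comm c i j
      exact congrArg Subtype.val h1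
    obtain ⟨A, _, hAn, hAe, hAc⟩ := exists_normal_rank_two hp hG ⊤ inferInstance hncyc
    have hAnc : ¬ IsCyclic ↥A := by
      intro hc
      obtain ⟨c, hc⟩ := IsCyclic.exists_generator (α := ↥A)
      have h1 : orderOf c = Nat.card ↥A := orderOf_eq_card_of_forall_mem_zpowers hc
      have h2 : (c : G) ^ p = 1 := hAe.2 c c.2
      have h3 : orderOf c ∣ p := by
        apply orderOf_dvd_of_pow_eq_one
        apply Subtype.ext
        simpa using h2
      rw [h1, hAc] at h3
      have h4 := Nat.le_of_dvd hpp.pos h3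
      nlinarith [hpp.one_lt]
    have hCA := hsc A hAnc
    have hidx := Cfsg.Agent.Lib.Helper1.index_centralizer_le_of_card_le_sq hG A hAc le_rfl
    have hcard : Nat.card ↥(Subgroup.centralizer (A : Set G)) ≤ p ^ 2 := by
      rw [← hAc]; exact Subgroup.card_le_of_le hCA
    have h5 : Nat.card G ≤ p ^ 3 := by
      rw [← Subgroup.card_mul_index (Subgroup.centralizer (A : Set G))]
      calc _ ≤ p ^ 2 * p := Nat.mul_le_mul hcard hidx
        _ = p ^ 3 := by ring
    rw [hn] at h5 ⊢
    have h6 : n ≤ 3 := (Nat.pow_le_pow_iff_right hpp.one_lt).mp h5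
    have : n = 3 := by omega
    rw [this]
  · intro hc3 H hH
    obtain ⟨i, hi, hic⟩ := (Nat.dvd_prime_pow hpp).mp (hc3 ▸ Subgroup.card_subgroup_dvd_card H)
    have hi2 : 2 ≤ i := by
      by_contra h
      apply hH
      have hi1 : i = 0 ∨ i = 1 := by omega
      rcases hi1 with rfl | rfl
      · rw [pow_zero] at hic
        rw [Subgroup.card_eq_one.mp hic]
        infer_instance
      · rw [pow_one] at hic
        exact isCyclic_of_prime_card hic
    have hi3 : i = 2 ∨ i = 3 := by omega
    rcases hi3 with rfl | rfl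
    · intro x hx
      by_contra hxH
      apply hna
      have hHc : IsMulCommutative ↥H := IsPGroup.isMulCommutative_of_card_eq_prime_sq hic
      have hZc : IsMulCommutative ↥(Subgroup.zpowers x) := by
        rw [Cfsg.Agent.Lib.Helper4.isMulCommutative_iff]
        intro a ha b hb
        obtain ⟨i, rfl⟩ := Subgroup.mem_zpowers_iff.mp ha
        obtain ⟨j, rfl⟩ := Subgroup.mem_zpowers_iff.mp hb
        exact zpow_mul_comm x i j
      have hcomm : ∀ a ∈ H, ∀ b ∈ Subgroup.zpowers x, a * b = b * a := by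
        intro a ha b hb
        obtain ⟨j, rfl⟩ := Subgroup.mem_zpowers_iff.mp hb
        have h1 : Commute a x := (Subgroup.mem_centralizer_iff.mp hx a ha)
        exact h1.zpow_right j
      have hsup := Cfsg.Agent.Lib.Helper4.isMulCommutative_sup hHc hZc hcomm
      have htop : H ⊔ Subgroup.zpowers x = ⊤ := by
        obtain ⟨j, hj, hjc⟩ := (Nat.dvd_prime_pow hpp).mp
          (hc3 ▸ Subgroup.card_subgroup_dvd_card (H ⊔ Subgroup.zpowers x))
        have h1 : Nat.card ↥H ≤ Nat.card ↥(H ⊔ Subgroup.zpowers x) :=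
          Subgroup.card_le_of_le le_sup_left
        have h2 : Nat.card ↥H ≠ Nat.card ↥(H ⊔ Subgroup.zpowers x) := by
          intro h
          have h3 : H = H ⊔ Subgroup.zpowers x := Subgroup.eq_of_le_of_card_ge le_sup_left h.ge
          apply hxH
          rw [h3]
          exact (le_sup_right : Subgroup.zpowers x ≤ _) (Subgroup.mem_zpowers x)
        rw [hic, hjc] at h1 h2
        have h4 : 2 ≤ j := (Nat.pow_le_pow_iff_right hpp.one_lt).mp h1
        have h5 : j ≠ 2 := by rintro rfl; exact h2 rfl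
        have h6 : j = 3 := by omega
        apply Subgroup.eq_top_of_card_eq
        rw [hjc, h6, hc3]
      rw [htop, Cfsg.Agent.Lib.Helper4.isMulCommutative_iff] at hsup
      exact ⟨⟨fun a b => hsup a (Subgroup.mem_top a) b (Subgroup.mem_top b)⟩⟩
    · have : H = ⊤ := Subgroup.eq_top_of_card_eq H (by rw [hic, hc3])
      rw [this]; exact le_top

end Cfsg.Agent.S3918
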