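import Cfsg.Statements.S3919
import Mathlib
import Cfsg.Agent.S0112
import Cfsg.Agent.Lib.Helper23.MaxClass
import Cfsg.Agent.Lib.Helper23.TwoMaxClass
import Cfsg.Agent.Lib.Helper18.UniqueInvolution

set_option autoImplicit false
open Cfsg

namespace Cfsg.Agent.S3919


theorem mem_zp {L : Type*} [Group L] {z w : L} (hz : z * z = 1) (h : w ∈ Subgroup.zpowers z) :
    w = 1 ∨ w = z := by
  obtain ⟨k, rfl⟩ := h
  have hz2 : z ^ (2 : ℤ) = 1 := by
    rw [zpow_ofNat, sq, hz]
  simp only
  rcases Int.even_or_odd' k with ⟨m, rfl | rfl⟩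
  · left
    rw [zpow_mul, hz2, one_zpow]
  · right
    rw [zpow_add, zpow_mul, hz2, one_zpow, one_mul, zpow_one]

/-- Klein four from an involution and a central involution. -/
theorem four_of {G : Type*} [Group G] [Finite G] (u z : G) (hu : u * u = 1) (hz : z * z = 1)
    (hu1 : u ≠ 1) (hz1 : z ≠ 1) (huz : u ≠ z) (hzc : ∀ x, x * z = z * x) :
    ∃ V : Subgroup G, Nat.card V = 4 ∧ ¬ IsCyclic V := by
  haveI : Fact (Nat.Prime 2) := ⟨Nat.prime_two⟩
  haveI hKn : (Subgroup.zpowers z).Normal := by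
    constructor
    intro n hn g
    rcases mem_zp hz hn with rfl | rfl
    · simp
    · have : g * n * g⁻¹ = n := by rw [hzc g]; group
      rw [this]; exact hn
  have hdisj : Subgroup.zpowers z ⊓ Subgroup.zpowers u = ⊥ := by
    rw [eq_bot_iff]
    intro x hx
    obtain ⟨h1, h2⟩ := Subgroup.mem_inf.mp hx
    rw [Subgroup.mem_bot]
    rcases mem_zp hz h1 with h | h
    · exact h
    · rcases mem_zp hu h2 with h' | h'
      · exact h'
      · exact absurd (h'.symm.trans h) huz
  have hcu : Nat.card (Subgroup.zpowers u) = 2 := by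
    rw [Nat.card_zpowers]; exact orderOf_eq_prime (by rw [sq]; exact hu) hu1
  have hcz : Nat.card (Subgroup.zpowers z) = 2 := by
    rw [Nat.card_zpowers]; exact orderOf_eq_prime (by rw [sq]; exact hz) hz1
  have h1 : (Subgroup.zpowers z).relIndex (Subgroup.zpowers u ⊔ Subgroup.zpowers z) = 2 := by
    rw [Subgroup.relIndex_sup_right, ← Subgroup.inf_relIndex_right, hdisj,
      Subgroup.relIndex_bot_left, hcu]
  have hcard : Nat.card ↥(Subgroup.zpowers u ⊔ Subgroup.zpowers z) = 4 := by
    have := Subgroup.relIndex_mul_relIndex ⊥ (Subgroup.zpowers z)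
      (Subgroup.zpowers u ⊔ Subgroup.zpowers z) bot_le le_sup_right
    rw [h1, Subgroup.relIndex_bot_left, Subgroup.relIndex_bot_left, hcz] at this
    omega
  refine ⟨Subgroup.zpowers u ⊔ Subgroup.zpowers z, hcard, ?_⟩
  intro hcyc
  obtain ⟨w, hw⟩ := IsCyclic.exists_ofOrder_eq_natCard
    (α := ↥(Subgroup.zpowers u ⊔ Subgroup.zpowers z))
  rw [hcard] at hw
  have hw2 : w * w = 1 := by
    have hmem : (w : G) ∈ ((Subgroup.zpowers u ⊔ Subgroup.zpowers z : Subgroup G) : Set G) := w.2
    rw [Subgroup.mul_normal] at hmem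
    obtain ⟨x, hx, y, hy, hxy⟩ := Set.mem_mul.mp hmem
    apply Subtype.ext
    have hxx : x * x = 1 := by
      rcases mem_zp hu hx with rfl | rfl
      · simp
      · exact hu
    have hyc : x * y = y * x := by
      rcases mem_zp hz hy with rfl | rfl
      · simp
      · exact hzc x
    have hyy : y * y = 1 := by
      rcases mem_zp hz hy with rfl | rfl
      · simp
      · exact hz
    show (w : G) * (w : G) = 1
    rw [← hxy]
    calc x * y * (x * y) = x * (y * x) * y := by group
      _ = (x * x) * (y * y) := by rw [← hyc]; group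
      _ = 1 := by rw [hxx, hyy, one_mul]
  have : orderOf w ∣ 2 := orderOf_dvd_of_pow_eq_one (by rw [sq]; exact hw2)
  rw [hw] at this
  norm_num at this

/-- elements of order dividing two in a cyclic 2-group -/
theorem sq_one_zpowers {G : Type*} [Group G] (a : G) (m : ℕ) (hm1 : 1 ≤ m) (hm : orderOf a = 2 ^ m)
    (u : G) (hu : u ∈ Subgroup.zpowers a) (huu : u * u = 1) : u = 1 ∨ u = a ^ 2 ^ (m - 1) := by
  obtain ⟨k, rfl⟩ := Subgroup.mem_zpowers_iff.mp hu
  have h1 : a ^ (k + k) = 1 := by rw [zpow_add]; exact huu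
  have h2 : ((2 ^ m : ℕ) : ℤ) ∣ k + k := by
    rw [← hm]; exact orderOf_dvd_iff_zpow_eq_one.mpr h1
  obtain ⟨e, rfl⟩ : ∃ e, m = e + 1 := ⟨m - 1, by omega⟩
  have h3 : ((2 ^ e : ℕ) : ℤ) ∣ k := by
    obtain ⟨c, hc⟩ := h2
    refine ⟨c, ?_⟩
    push_cast at hc ⊢
    rw [pow_succ] at hc
    linarith
  obtain ⟨c, rfl⟩ := h3
  have hz : (a ^ 2 ^ e) * (a ^ 2 ^ e) = 1 := by
    rw [← pow_add, ← two_mul, ← pow_succ', ← hm, pow_orderOf_eq_one]
  simp only [Nat.add_sub_cancel]
  apply mem_zp hz
  rw [zpow_mul, zpow_natCast]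
  exact Subgroup.zpow_mem_zpowers _ c

theorem backward {G : Type*} [Group G] [Finite G] (m : ℕ) (a g : G) (hm2 : 2 ≤ m)
    (hm : orderOf a = 2 ^ m) (hg : g ∉ Subgroup.zpowers a) (hidx : (Subgroup.zpowers a).index = 2)
    (hfix : ∀ x ∈ Subgroup.zpowers a, x * g = g * x → x = 1 ∨ x = a ^ 2 ^ (m - 1))
    (H : Subgroup G) (hH : ¬ IsCyclic ↥H) : Subgroup.centralizer (H : Set G) ≤ H := by
  set A := Subgroup.zpowers a with hA
  set z := a ^ 2 ^ (m - 1) with hz
  have hAab : ∀ x ∈ A, ∀ y ∈ A, x * y = y * x := by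
    intro x hx y hy
    obtain ⟨k, rfl⟩ := Subgroup.mem_zpowers_iff.mp hx
    obtain ⟨l, rfl⟩ := Subgroup.mem_zpowers_iff.mp hy
    exact (Commute.refl a).zpow_zpow k l
  have hHA : ¬ H ≤ A := fun h => hH (Subgroup.isCyclic_of_le h)
  obtain ⟨h, hhH, hhA⟩ := SetLike.not_le_iff_exists.mp hHA
  -- fixed points of h
  have hfixh : ∀ x ∈ A, x * h = h * x → x = 1 ∨ x = z := by
    intro x hx hxh
    apply hfix x hx
    have h1 : g⁻¹ * h ∈ A := by
      rw [Subgroup.mul_mem_iff_of_index_two hidx, Subgroup.inv_mem_iff]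
      exact ⟨fun h' => absurd h' hg, fun h' => absurd h' hhA⟩
    have h2 := hAab x hx _ h1
    calc x * g = x * h * (g⁻¹ * h)⁻¹ := by group
      _ = h * x * (g⁻¹ * h)⁻¹ := by rw [hxh]
      _ = h * (g⁻¹ * h)⁻¹ * ((g⁻¹ * h) * x) * (g⁻¹ * h)⁻¹ := by group
      _ = h * (g⁻¹ * h)⁻¹ * (x * (g⁻¹ * h)) * (g⁻¹ * h)⁻¹ := by rw [h2]
      _ = g * x := by group
  -- z ∈ H
  have hzH : z ∈ H := by
    by_contra hzH
    apply hH
    have hbot : ∀ x ∈ H, x ∈ A → x = 1 := by
      intro x hxH hxA
      by_contra hx1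
      have h2G : IsPGroup 2 ↥A := by
        apply IsPGroup.of_card (n := m)
        rw [hA, Nat.card_zpowers, hm]
      obtain ⟨e, he⟩ := Cfsg.Agent.Lib.Helper18.exists_pow_orderOf_two h2G ⟨x, hxA⟩
        (fun h' => hx1 (congrArg Subtype.val h'))
      have he' : orderOf (x ^ 2 ^ e) = 2 := by
        rw [← Subgroup.orderOf_coe] at he
        exact he
      have h3 : (x ^ 2 ^ e) * (x ^ 2 ^ e) = 1 := by
        have := pow_orderOf_eq_one (x ^ 2 ^ e)
        rw [he', sq] at this
        exact this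
      rcases sq_one_zpowers a m (by omega) hm _ (Subgroup.pow_mem _ hxA _) h3 with h4 | h4
      · rw [h4, orderOf_one] at he'
        norm_num at he'
      · apply hzH
        rw [hz, ← h4]
        exact Subgroup.pow_mem _ hxH _
    have hHeq : H = Subgroup.zpowers h := by
      apply le_antisymm
      · intro x hx
        by_cases hxA : x ∈ A
        · rw [hbot x hx hxA]; exact one_mem _
        · have h1 : x * h⁻¹ ∈ A := by
            rw [Subgroup.mul_mem_iff_of_index_two hidx, Subgroup.inv_mem_iff]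
            exact ⟨fun h' => absurd h' hxA, fun h' => absurd h' hhA⟩
          have h2 := hbot _ (H.mul_mem hx (H.inv_mem hhH)) h1
          have : x = h := by
            calc x = (x * h⁻¹) * h := by group
              _ = h := by rw [h2, one_mul]
          rw [this]; exact Subgroup.mem_zpowers h
      · rw [Subgroup.zpowers_le]; exact hhH
    rw [hHeq]
    infer_instance
  intro c hc
  have hch : c * h = h * c := by
    have := Subgroup.mem_centralizer_iff.mp hc h hhH
    exact this.symm
  by_cases hcA : c ∈ A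
  · rcases hfixh c hcA hch with h1 | h1
    · rw [h1]; exact one_mem _
    · rw [h1]; exact hzH
  · have h1 : c * h⁻¹ ∈ A := by
      rw [Subgroup.mul_mem_iff_of_index_two hidx, Subgroup.inv_mem_iff]
      exact ⟨fun h' => absurd h' hcA, fun h' => absurd h' hhA⟩
    have h2 : (c * h⁻¹) * h = h * (c * h⁻¹) := by
      calc c * h⁻¹ * h = h⁻¹ * (h * c) := by group
        _ = h⁻¹ * (c * h) := by rw [hch]
        _ = h⁻¹ * (c * h) * (h * h⁻¹) := by group
        _ = h⁻¹ * (h * c) * (h * h⁻¹) := by rw [hch]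
        _ = (c * h) * h⁻¹ := by group
        _ = (h * c) * h⁻¹ := by rw [hch]
        _ = h * (c * h⁻¹) := by group
    have h3 : c = (c * h⁻¹) * h := by group
    rcases hfixh _ h1 h2 with h4 | h4
    · rw [h3, h4, one_mul]; exact hhH
    · rw [h3, h4]; exact H.mul_mem hzH hhH

theorem quat_case {G : Type*} [Group G] [Finite G]
    (huniq : ∀ u v : G, orderOf u = 2 → orderOf v = 2 → u = v)
    (m : ℕ) (a b : G) (h1 : orderOf a = 2 * 2 ^ (m + 1)) (h2 : b * b = a ^ (2 ^ (m + 1)))
    (h3 : b * a * b⁻¹ = a⁻¹) (h4 : b ∉ Subgroup.zpowers a) (h5 : Nat.card G = 4 * 2 ^ (m + 1)) :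
    ∃ V : Subgroup G, Nat.card V = 2 ^ 2 ∧ Subgroup.centralizer (V : Set G) = V := by
  haveI : Fact (Nat.Prime 2) := ⟨Nat.prime_two⟩
  have hidx : (Subgroup.zpowers a).index = 2 := by
    have := (Subgroup.zpowers a).card_mul_index
    rw [Nat.card_zpowers, h1, h5] at this
    have hpos : 0 < 2 ^ (m + 1) := by positivity
    nlinarith
  have hbb2 : orderOf (b * b) = 2 := by
    rw [h2, orderOf_pow_of_dvd (by positivity) (by rw [h1]; exact Dvd.intro_left 2 rfl), h1]
    exact Nat.mul_div_cancel _ (by positivity)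
  have hb4 : orderOf b = 4 := by
    have := orderOf_eq_prime_pow (x := b) (p := 2) (n := 1) ?_ ?_
    · simpa using this
    · rw [pow_one, sq]
      intro h
      rw [h, orderOf_one] at hbb2
      norm_num at hbb2
    · show b ^ 4 = 1
      have h4' : b ^ 4 = (b ^ 2) ^ 2 := by rw [← pow_mul]
      rw [h4', sq b, ← hbb2, pow_orderOf_eq_one]
  refine ⟨Subgroup.zpowers b, by rw [Nat.card_zpowers, hb4]; norm_num, ?_⟩
  apply le_antisymm
  · intro x hx
    have hxb : x * b = b * x := by
      have := Subgroup.mem_centralizer_iff.mp hx b (Subgroup.mem_zpowers b)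
      exact this.symm
    have hinv : ∀ w ∈ Subgroup.zpowers a, b * w * b⁻¹ = w⁻¹ := by
      intro w hw
      obtain ⟨k, rfl⟩ := Subgroup.mem_zpowers_iff.mp hw
      have : b * a ^ k * b⁻¹ = (b * a * b⁻¹) ^ k := by
        rw [conj_zpow]
      rw [this, h3, inv_zpow]
    have key : ∀ w ∈ Subgroup.zpowers a, w * b = b * w → w ∈ Subgroup.zpowers b := by
      intro w hw hwb
      have h6 := hinv w hw
      have h7 : w * w = 1 := by
        have : w = w⁻¹ := by
          calc w = (w * b) * b⁻¹ := by group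
            _ = b * w * b⁻¹ := by rw [hwb]
            _ = w⁻¹ := h6
        calc w * w = w * w⁻¹ := by rw [← this]
          _ = 1 := mul_inv_cancel w
      by_cases hw1 : w = 1
      · rw [hw1]; exact one_mem _
      · have : orderOf w = 2 := orderOf_eq_prime (by rw [sq]; exact h7) hw1
        rw [huniq w (b * b) this hbb2]
        exact Subgroup.mul_mem _ (Subgroup.mem_zpowers b) (Subgroup.mem_zpowers b)
    by_cases hxA : x ∈ Subgroup.zpowers a
    · exact key x hxA hxb
    · have h6 : x * b⁻¹ ∈ Subgroup.zpowers a := by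
        rw [Subgroup.mul_mem_iff_of_index_two hidx, Subgroup.inv_mem_iff]
        exact ⟨fun h' => absurd h' hxA, fun h' => absurd h' h4⟩
      have h7 : (x * b⁻¹) * b = b * (x * b⁻¹) := by
        calc x * b⁻¹ * b = (x * b) * b⁻¹ := by group
          _ = (b * x) * b⁻¹ := by rw [hxb]
          _ = b * (x * b⁻¹) := by group
      have h8 := key _ h6 h7
      have : x = (x * b⁻¹) * b := by group
      rw [this]
      exact Subgroup.mul_mem _ h8 (Subgroup.mem_zpowers b)
  · exact Subgroup.le_centralizer_iff_isMulCommutative.mpr inferInstance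


/-- Say that a group has self-centralizing non-cyclic subgroups when every non-cyclic subgroup H satisfies C_G(H) ≤ H. A finite non-abelian 2-group G of order 2^n has self-centralizing non-cyclic subgroups if and only if G has nilpotency class n − 1 (that is, G is dihedral, semidihedral or generalized quaternion). -/
theorem result {G : Type*} [Group G] [Finite G] (hna : ¬ IsMulCommutative G) (n : ℕ) (hG : Nat.card G = 2 ^ n) :
    (∀ H : Subgroup G, ¬ IsCyclic ↥H → Subgroup.centralizer (H : Set G) ≤ H) ↔ (⊤ : Subgroup G).lowerCentralSeries (n - 2) ≠ ⊥ := by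
  classical
  haveI : Fact (Nat.Prime 2) := ⟨Nat.prime_two⟩
  have hP : IsPGroup 2 G := IsPGroup.of_card hG
  haveI : Group.IsNilpotent G := hP.isNilpotent
  have hn2 : 2 ≤ n := by
    by_contra hcon
    apply hna
    have hdvd : Nat.card G ∣ 2 := by
      rw [hG]
      have h1 : n ≤ 1 := by omega
      calc 2 ^ n ∣ 2 ^ 1 := pow_dvd_pow 2 h1
        _ = 2 := by norm_num
    haveI := isCyclic_of_card_dvd_prime hdvd
    infer_instance
  have hle := Cfsg.Agent.Lib.Helper23.nilpotencyClass_le_of_card 2 n G hG hn2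
  have hiff : (⊤ : Subgroup G).lowerCentralSeries (n - 2) ≠ ⊥ ↔
      Group.nilpotencyClass G = n - 1 := by
    rw [Ne, Subgroup.lowerCentralSeries_eq_bot_iff_nilpotencyClass_le]
    omega
  rw [hiff]
  constructor
  · intro hPP
    have hfin : ∀ V : Subgroup G, Nat.card V = 2 ^ 2 → Subgroup.centralizer (V : Set G) = V →
        Group.nilpotencyClass G = n - 1 := fun V hV hC => Cfsg.Agent.S0112.result n hG V hV hC
    have hnt : Nontrivial G := by
      by_contra h
      rw [not_nontrivial_iff_subsingleton] at h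
      exact hna ⟨⟨fun a b => Subsingleton.elim _ _⟩⟩
    have hcn := hP.center_nontrivial
    obtain ⟨w, hw⟩ := exists_ne (1 : Subgroup.center G)
    obtain ⟨e, he⟩ := Cfsg.Agent.Lib.Helper18.exists_pow_orderOf_two
      (hP.to_subgroup (Subgroup.center G)) w hw
    set z0 : G := ((w ^ 2 ^ e : Subgroup.center G) : G) with hz0
    have hz0o : orderOf z0 = 2 := by rw [← he, ← Subgroup.orderOf_coe]
    have hz0c : ∀ x, x * z0 = z0 * x := by
      intro x
      exact (Subgroup.mem_center_iff.mp (w ^ 2 ^ e).2 x)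
    have hz02 : z0 * z0 = 1 := by rw [← sq, ← hz0o, pow_orderOf_eq_one]
    have hz01 : z0 ≠ 1 := by
      intro h
      rw [h, orderOf_one] at hz0o
      norm_num at hz0o
    by_cases hinv : ∃ u : G, orderOf u = 2 ∧ u ≠ z0
    · obtain ⟨u, huo, hune⟩ := hinv
      have hu2 : u * u = 1 := by rw [← sq, ← huo, pow_orderOf_eq_one]
      have hu1 : u ≠ 1 := by
        intro h
        rw [h, orderOf_one] at huo
        norm_num at huo
      obtain ⟨V, hV4, hVc⟩ := four_of u z0 hu2 hz02 hu1 hz01 hune hz0c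
      have hV4' : Nat.card V = 2 ^ 2 := by rw [hV4]; norm_num
      apply hfin V hV4'
      apply le_antisymm (hPP V hVc)
      exact Subgroup.le_centralizer_iff_isMulCommutative.mpr
        (IsPGroup.isMulCommutative_of_card_eq_prime_sq hV4')
    · push Not at hinv
      have huniq : ∀ u v : G, orderOf u = 2 → orderOf v = 2 → u = v := by
        intro u v hu hv
        rw [hinv u hu, hinv v hv]
      rcases Cfsg.Agent.Lib.Helper18.cyclic_or_quaternion_rel hP huniq with
        h | ⟨m, a, b, h1, h2, h3, h4, h5⟩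
      · exact absurd (IsCyclic.isMulCommutative (α := G)) hna
      · obtain ⟨V, hV, hC⟩ := quat_case huniq m a b h1 h2 h3 h4 h5
        exact hfin V hV hC
  · intro hc
    have h4 := Cfsg.Agent.Lib.Helper23.index_commutator_of_nilpotencyClass n hn2 G hG hc
    have hcne : commutator G ≠ ⊥ := by
      intro h
      exact hna ((commutator_eq_bot_iff G).mp h)
    obtain ⟨m, a, g, hm2, hm, hcard, hg, hidx, hfix, hgg, hconj⟩ :=
      Cfsg.Agent.Lib.Helper23.taussky hP h4 hcne
    intro H hH
    exact backward m a g hm2 hm hg hidx hfix H hH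

end Cfsg.Agent.S3919
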