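import Cfsg.Statements.S3920

set_option autoImplicit false
open Cfsg

namespace Cfsg.Agent.S3920

open DihedralGroup

theorem two_val {n : ℕ} [NeZero n] (z : ZMod n) (hz : 2 * z = 0) (hz0 : z ≠ 0) :
    2 * z.val = n := by
  have h1 : ((2 * z.val : ℕ) : ZMod n) = 0 := by
    push_cast
    rw [ZMod.natCast_zmod_val]; exact hz
  rw [ZMod.natCast_eq_zero_iff] at h1
  obtain ⟨t, ht⟩ := h1
  have h2 : z.val < n := ZMod.val_lt z
  have h3 : 0 < z.val := by
    rw [Nat.pos_iff_ne_zero]; intro h; exact hz0 ((ZMod.val_eq_zero z).1 h)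
  have ht1 : t = 1 := by
    rcases t with _ | _ | t
    · omega
    · rfl
    · exfalso
      have : n * (t + 1 + 1) = n * t + 2 * n := by ring
      have h5 : 0 ≤ n * t := Nat.zero_le _
      omega
  subst ht1
  omega

theorem two_unique {n : ℕ} [NeZero n] {x y : ZMod n} (hx : 2 * x = 0) (hy : 2 * y = 0)
    (hx0 : x ≠ 0) (hy0 : y ≠ 0) : x = y := by
  apply ZMod.val_injective
  have := two_val x hx hx0
  have := two_val y hy hy0
  omega

theorem exists_invol {a : ℕ} (d : ZMod (2 ^ a)) (hd : d ≠ 0) :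
    ∃ m : ℕ, (m : ZMod (2 ^ a)) * d ≠ 0 ∧ 2 * ((m : ZMod (2 ^ a)) * d) = 0 := by
  have h1 : addOrderOf d ∣ 2 ^ a := by
    have := addOrderOf_dvd_card (x := d)
    rwa [ZMod.card] at this
  obtain ⟨b, hb, hb2⟩ := (Nat.dvd_prime_pow Nat.prime_two).1 h1
  have hb0 : b ≠ 0 := by
    rintro rfl
    rw [pow_zero, AddMonoid.addOrderOf_eq_one_iff] at hb2
    exact hd hb2
  obtain ⟨c, rfl⟩ := Nat.exists_eq_succ_of_ne_zero hb0
  refine ⟨2 ^ c, ?_, ?_⟩
  · rw [← nsmul_eq_mul]
    apply nsmul_ne_zero_of_lt_addOrderOf (by positivity)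
    rw [hb2, pow_succ]
    have : 0 < 2 ^ c := by positivity
    omega
  · have h3 : (2 ^ (c + 1)) • d = 0 := by rw [← hb2]; exact addOrderOf_nsmul_eq_zero d
    rw [nsmul_eq_mul] at h3
    rw [← mul_assoc, ← h3]
    push_cast
    ring


theorem odd_two {n : ℕ} [NeZero n] (hn : Odd n) (z : ZMod n) (hz : 2 * z = 0) : z = 0 := by
  by_contra hz0
  have := two_val z hz hz0
  obtain ⟨t, ht⟩ := hn
  omega

/-- The two-torsion of `ZMod n` lies in every nontrivial subgroup, when `n` is odd or a
power of two. -/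
theorem tors_mem {n : ℕ} [NeZero n] (hn : Odd n ∨ ∃ k : ℕ, n = 2 ^ k)
    (H : Subgroup (DihedralGroup n)) (d : ZMod n) (hd : d ≠ 0) (hdH : r d ∈ H)
    (k : ZMod n) (hk : 2 * k = 0) : r k ∈ H := by
  by_cases hk0 : k = 0
  · subst hk0
    exact H.one_mem
  rcases hn with hn | ⟨a, rfl⟩
  · exact absurd (odd_two hn k hk) hk0
  · obtain ⟨m, hm1, hm2⟩ := exists_invol d hd
    have h1 : k = (m : ZMod (2 ^ a)) * d := two_unique hk hm2 hk0 hm1
    have h2 : (r d) ^ m = r ((m : ZMod (2 ^ a)) * d) := by
      clear hm1 hm2 h1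
      induction m with
      | zero => simp
      | succ m ih =>
        rw [pow_succ, ih, r_mul_r]
        congr 1
        push_cast
        ring
    rw [h1, ← h2]
    exact H.pow_mem hdH m

theorem fwd {n : ℕ} [NeZero n] (hn : Odd n ∨ ∃ k : ℕ, n = 2 ^ k)
    (H : Subgroup (DihedralGroup n)) (hH : ¬ IsCyclic ↥H) :
    Subgroup.centralizer (H : Set (DihedralGroup n)) ≤ H := by
  -- a reflection in H
  have h1 : ∃ i, sr i ∈ H := by
    by_contra hcon
    push_neg at hcon
    apply hH
    have hle : H ≤ Subgroup.zpowers (r (1 : ZMod n)) := by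
      intro g hg
      rcases g with j | j
      · rw [Subgroup.mem_zpowers_iff]
        refine ⟨(j.val : ℤ), ?_⟩
        rw [zpow_natCast, r_one_pow, ZMod.natCast_zmod_val]
      · exact absurd hg (hcon j)
    exact Subgroup.isCyclic_of_le hle
  obtain ⟨i, hi⟩ := h1
  have h2 : ∃ d, d ≠ 0 ∧ r d ∈ H := by
    by_contra hcon
    push_neg at hcon
    apply hH
    have hle : H ≤ Subgroup.zpowers (sr i) := by
      intro g hg
      rcases g with j | j
      · have : j = 0 := by
          by_contra hj
          exact hcon j hj hg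
        subst this
        exact Subgroup.one_mem _
      · have h3 : r (j - i) ∈ H := by
          rw [← sr_mul_sr]
          exact H.mul_mem hi hg
        have : j - i = 0 := by
          by_contra hj
          exact hcon _ hj h3
        have : j = i := sub_eq_zero.1 this
        subst this
        exact Subgroup.mem_zpowers _
    exact Subgroup.isCyclic_of_le hle
  obtain ⟨d, hd0, hd⟩ := h2
  intro c hc
  rw [Subgroup.mem_centralizer_iff] at hc
  have c1 := hc _ hi
  have c2 := hc _ hd
  rcases c with k | k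
  · rw [sr_mul_r, r_mul_sr] at c1
    have h3 : i + k = i - k := by
      injection c1
    have h4 : 2 * k = 0 := by
      have : k = -k := by
        have := h3
        rw [sub_eq_add_neg] at this
        exact add_left_cancel this
      calc 2 * k = k + k := by ring
        _ = k + -k := by rw [← this]
        _ = 0 := by ring
    exact tors_mem hn H d hd0 hd k h4
  · rw [sr_mul_sr, sr_mul_sr] at c1
    rw [r_mul_sr, sr_mul_r] at c2
    have h3 : k - i = i - k := by injection c1
    have h4 : k - d = k + d := by injection c2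
    have h5 : 2 * (k - i) = 0 := by
      calc 2 * (k - i) = (k - i) + (k - i) := by ring
        _ = (k - i) + (i - k) := by rw [← h3]
        _ = 0 := by ring
    have h6 : r (k - i) ∈ H := tors_mem hn H d hd0 hd _ h5
    have h7 : sr k = sr i * r (k - i) := by
      rw [sr_mul_r]; congr 1; ring
    rw [h7]
    exact H.mul_mem hi h6

/-- The dihedral subgroup of order `2p`. -/
def subD (n p : ℕ) : Subgroup (DihedralGroup n) where
  carrier := {g | match g with
    | r i => (p : ZMod n) * i = 0
    | sr i => (p : ZMod n) * i = 0}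
  one_mem' := by
    show (p : ZMod n) * 0 = 0
    simp
  mul_mem' := by
    intro a b ha hb
    rcases a with i | i <;> rcases b with j | j
    · show (p : ZMod n) * (i + j) = 0
      have ha' : (p : ZMod n) * i = 0 := ha
      have hb' : (p : ZMod n) * j = 0 := hb
      rw [mul_add, ha', hb', add_zero]
    · show (p : ZMod n) * (j - i) = 0
      have ha' : (p : ZMod n) * i = 0 := ha
      have hb' : (p : ZMod n) * j = 0 := hb
      rw [mul_sub, ha', hb', sub_zero]
    · show (p : ZMod n) * (i + j) = 0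
      have ha' : (p : ZMod n) * i = 0 := ha
      have hb' : (p : ZMod n) * j = 0 := hb
      rw [mul_add, ha', hb', add_zero]
    · show (p : ZMod n) * (j - i) = 0
      have ha' : (p : ZMod n) * i = 0 := ha
      have hb' : (p : ZMod n) * j = 0 := hb
      rw [mul_sub, ha', hb', sub_zero]
  inv_mem' := by
    intro a ha
    rcases a with i | i
    · show (p : ZMod n) * (-i) = 0
      have ha' : (p : ZMod n) * i = 0 := ha
      rw [mul_neg, ha', neg_zero]
    · exact ha

theorem r_mem_subD {n p : ℕ} (i : ZMod n) : r i ∈ subD n p ↔ (p : ZMod n) * i = 0 := Iff.rfl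

theorem sr_mem_subD {n p : ℕ} (i : ZMod n) : sr i ∈ subD n p ↔ (p : ZMod n) * i = 0 := Iff.rfl

theorem bwd {n : ℕ} [NeZero n]
    (h : ∀ H : Subgroup (DihedralGroup n), ¬ IsCyclic ↥H →
      Subgroup.centralizer (H : Set (DihedralGroup n)) ≤ H) :
    Odd n ∨ ∃ k : ℕ, n = 2 ^ k := by
  by_contra hcon
  push_neg at hcon
  obtain ⟨hodd, hpow⟩ := hcon
  rcases Nat.eq_two_pow_or_exists_odd_prime_and_dvd n with ⟨k, hk⟩ | ⟨p, hp, ⟨q, hq⟩, hpo⟩
  · exact hpow k hk
  rw [Nat.not_odd_iff_even] at hodd
  obtain ⟨t, ht⟩ := hodd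
  have hn0 : n ≠ 0 := NeZero.ne n
  have hq0 : 0 < q := by
    rcases Nat.eq_zero_or_pos q with h0 | h0
    · subst h0; simp at hq; exact absurd hq hn0
    · exact h0
  have ht0 : 0 < t := by omega
  have hnc : ¬ IsCyclic ↥(subD n p) := by
    intro hc
    have m1 : r (q : ZMod n) ∈ subD n p := by
      rw [r_mem_subD, ← Nat.cast_mul, ← hq]
      exact ZMod.natCast_self n
    have m2 : sr (0 : ZMod n) ∈ subD n p := by
      rw [sr_mem_subD, mul_zero]
    have hcomm : (⟨r (q : ZMod n), m1⟩ : subD n p) * ⟨sr 0, m2⟩ = ⟨sr 0, m2⟩ * ⟨r (q : ZMod n), m1⟩ :=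
      (IsCyclic.isMulCommutative (α := subD n p)).is_comm.comm _ _
    have h2 : r (q : ZMod n) * sr 0 = sr 0 * r (q : ZMod n) := congrArg Subtype.val hcomm
    rw [r_mul_sr, sr_mul_r] at h2
    have h3 : (0 : ZMod n) - q = 0 + q := by injection h2
    have h4 : ((2 * q : ℕ) : ZMod n) = 0 := by
      push_cast
      calc (2 : ZMod n) * q = (0 + q) - (0 - q) := by ring
        _ = 0 := by rw [h3]; ring
    rw [ZMod.natCast_eq_zero_iff, hq] at h4
    have h5 : p ∣ 2 := by
      rw [mul_comm 2 q, mul_comm p q] at h4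
      exact Nat.dvd_of_mul_dvd_mul_left hq0 h4
    have h6 : p = 2 := (Nat.prime_dvd_prime_iff_eq hp Nat.prime_two).1 h5
    subst h6
    exact absurd hpo (by decide)
  have hz : r (t : ZMod n) ∈ Subgroup.centralizer (subD n p : Set (DihedralGroup n)) := by
    have htt : (t : ZMod n) + t = 0 := by
      rw [← Nat.cast_add, ← ht]
      exact ZMod.natCast_self n
    rw [Subgroup.mem_centralizer_iff]
    intro g _
    rcases g with j | j
    · rw [r_mul_r, r_mul_r, add_comm]
    · rw [sr_mul_r, r_mul_sr]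
      congr 1
      calc j + (t : ZMod n) = j - t + (t + t) := by ring
        _ = j - t := by rw [htt, add_zero]
  have hz2 := h _ hnc hz
  rw [r_mem_subD, ← Nat.cast_mul, ZMod.natCast_eq_zero_iff, ht] at hz2
  have h5 : 2 ∣ p := by
    have : t * 2 ∣ t * p := by
      have e1 : t + t = t * 2 := by ring
      rw [e1, mul_comm p t] at hz2
      exact hz2
    exact Nat.dvd_of_mul_dvd_mul_left ht0 this
  obtain ⟨u, hu⟩ := hpo
  omega


/-- Say that a group has self-centralizing non-cyclic subgroups when every non-cyclic subgroup H satisfies C_G(H) ≤ H. For n ≥ 3, the dihedral group of order 2n has self-centralizing non-cyclic subgroups if and only if n is odd or a power of 2. -/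
theorem result (n : ℕ) (hn : 3 ≤ n) : (∀ H : Subgroup (DihedralGroup n), ¬ IsCyclic ↥H → Subgroup.centralizer (H : Set (DihedralGroup n)) ≤ H) ↔ (Odd n ∨ ∃ k : ℕ, n = 2 ^ k) := by
  haveI : NeZero n := ⟨by omega⟩
  exact ⟨bwd, fun h H hH => fwd h H hH⟩

end Cfsg.Agent.S3920
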