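import Cfsg.Statements.S3939
import Mathlib
import Cfsg.Agent.Lib.Helper1.Transfer
import Cfsg.Agent.Lib.Helper1.Nilp
import Cfsg.Agent.Lib.Helper4.NilpFusion

set_option autoImplicit false
open Cfsg

namespace Cfsg.Agent.S3939

open Cfsg.Agent.Lib.Helper1 Cfsg.Agent.Lib.Helper4
open scoped commutatorElement

theorem le_upper {G : Type*} [Group G] [Finite G] {p : ℕ} [Fact p.Prime] (P K : Subgroup G)
    (hP : IsPGroup p P) (hKP : ∀ y : G, ∃ k ∈ K, ∃ s ∈ P, y = k * s) :
    ∀ (n : ℕ) (U : Subgroup G), Nat.card U ≤ n → U.Normal → U ≤ P →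
      U ≤ Subgroup.centralizer (K : Set G) → ∃ N, U ≤ Subgroup.upperCentralSeries G N := by
  intro n
  induction n with
  | zero =>
    intro U hU
    have := Nat.card_pos (α := U)
    omega
  | succ n ih =>
    intro U hU hUn hUP hUK
    by_cases hne : U = ⊥
    · exact ⟨0, by rw [hne]; exact bot_le⟩
    have hlt : ⁅U, P⁆ < U := commutator_lt_of_pgroups (hP.to_le hUP) hP (by
        rw [Subgroup.normalizer_eq_top_iff.mpr hUn]; exact le_top) hne
    have heq : ⁅U, (⊤ : Subgroup G)⁆ ≤ ⁅U, P⁆ := by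
      rw [Subgroup.commutator_le]
      intro u hu y _
      obtain ⟨k, hk, s, hs, rfl⟩ := hKP y
      have hc : ∀ v ∈ U, k * v = v * k := by
        intro v hv
        exact (Subgroup.mem_centralizer_iff.mp (hUK hv) k hk)
      have hus : ⁅u, s⁆ ∈ U := by
        rw [commutatorElement_def, mul_assoc, mul_assoc]
        refine U.mul_mem hu ?_
        rw [← mul_assoc]
        exact hUn.conj_mem _ (U.inv_mem hu) s
      have h1 : ⁅u, k * s⁆ = ⁅u, s⁆ := by
        have h2 : ⁅u, k * s⁆ = (u * k) * (s * u⁻¹ * s⁻¹) * k⁻¹ := by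
          rw [commutatorElement_def]; group
        rw [h2, ← hc u hu]
        have h3 : k * u * (s * u⁻¹ * s⁻¹) * k⁻¹ = k * ⁅u, s⁆ * k⁻¹ := by
          rw [commutatorElement_def]; group
        rw [h3, hc _ hus, mul_inv_cancel_right]
      rw [h1]
      exact Subgroup.commutator_mem_commutator hu hs
    have hlt' : ⁅U, (⊤ : Subgroup G)⁆ < U := lt_of_le_of_lt heq hlt
    obtain ⟨N, hN⟩ := ih ⁅U, (⊤ : Subgroup G)⁆ (by
        have := card_lt_of_lt hlt'
        omega) inferInstance (hlt'.le.trans hUP) (hlt'.le.trans hUK)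
    refine ⟨N + 1, fun u hu => ?_⟩
    rw [Subgroup.mem_upperCentralSeries_succ_iff]
    intro y
    exact hN (Subgroup.commutator_mem_commutator hu (Subgroup.mem_top y))

theorem pcase {G : Type*} [Group G] [Finite G] {p : ℕ} [Fact p.Prime] (g : G) (k : ℕ)
    (hg : g ^ p ^ k = 1)
    (h : ∀ x : G, Group.IsNilpotent ↥(Subgroup.closure ({x, g} : Set G))) :
    ∃ N, g ∈ Subgroup.upperCentralSeries G N := by
  have hpp : p.Prime := Fact.out
  set K := Cfsg.pResidual p G with hK
  haveI hKn : K.Normal := pResidual_normal p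
  have hKg : K ≤ Subgroup.centralizer {g} := by
    rw [hK, Cfsg.pResidual, Subgroup.closure_le]
    intro x hx
    rw [SetLike.mem_coe, Subgroup.mem_centralizer_singleton_iff]
    have hx' : Nat.Coprime (orderOf x) p := hx
    exact commute_of_coprime_pow_mem (h x) (Subgroup.subset_closure (by simp))
      (Subgroup.subset_closure (by simp)) (Nat.Coprime.pow_right k hx') (pow_orderOf_eq_one x) hg
  have hgK : g ∈ Subgroup.centralizer (K : Set G) := by
    rw [Subgroup.mem_centralizer_iff]
    intro x hx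
    exact (Subgroup.mem_centralizer_singleton_iff.mp (hKg hx))
  obtain ⟨P, hgP⟩ : ∃ P : Sylow p G, g ∈ P := by
    have h1 : IsPGroup p (Subgroup.zpowers g) := by
      rw [IsPGroup.iff_card]
      have : Nat.card (Subgroup.zpowers g) ∣ p ^ k := by
        rw [Nat.card_zpowers]; exact orderOf_dvd_of_pow_eq_one hg
      obtain ⟨j, _, hj⟩ := (Nat.dvd_prime_pow hpp).mp this
      exact ⟨j, hj⟩
    obtain ⟨P, hP⟩ := h1.exists_le_sylow
    exact ⟨P, hP (Subgroup.mem_zpowers g)⟩
  have hsup := sylow_sup_eq_top_of_isPGroup_quotient P (isPGroup_quotient_pResidual (G := G) p)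
  have hKP : ∀ y : G, ∃ k ∈ K, ∃ s ∈ (P : Subgroup G), y = k * s := by
    intro y
    have h1 : y ∈ (K ⊔ P : Subgroup G) := by rw [sup_comm, hsup]; trivial
    rw [← SetLike.mem_coe, Subgroup.normal_mul] at h1
    obtain ⟨k, hk, s, hs, rfl⟩ := Set.mem_mul.mp h1
    exact ⟨k, hk, s, hs, rfl⟩
  have hCn : (Subgroup.centralizer (K : Set G)).Normal := inferInstance
  have hUn : ((P : Subgroup G) ⊓ Subgroup.centralizer (K : Set G)).Normal := by
    constructor
    intro u hu y
    obtain ⟨huP, huC⟩ := Subgroup.mem_inf.mp hu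
    obtain ⟨k, hk, s, hs, rfl⟩ := hKP y
    have h1 : s * u * s⁻¹ ∈ Subgroup.centralizer (K : Set G) := hCn.conj_mem u huC s
    have h2 : k * s * u * (k * s)⁻¹ = s * u * s⁻¹ := by
      have : k * s * u * (k * s)⁻¹ = k * (s * u * s⁻¹) * k⁻¹ := by group
      rw [this, Subgroup.mem_centralizer_iff.mp h1 k hk, mul_inv_cancel_right]
    rw [h2]
    exact Subgroup.mem_inf.mpr ⟨(P : Subgroup G).mul_mem ((P : Subgroup G).mul_mem hs huP)
      ((P : Subgroup G).inv_mem hs), h1⟩
  obtain ⟨N, hN⟩ := le_upper (P : Subgroup G) K P.isPGroup' hKP _ _ le_rfl hUn inf_le_left inf_le_right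
  exact ⟨N, hN (Subgroup.mem_inf.mpr ⟨hgP, hgK⟩)⟩

theorem nilp_le {G : Type*} [Group G] {H K : Subgroup G} (hHK : H ≤ K) (hK : Group.IsNilpotent K) :
    Group.IsNilpotent H :=
  Group.nilpotent_of_mulEquiv (MonoidHom.ofInjective (Subgroup.inclusion_injective hHK)).symm

theorem gen {G : Type*} [Group G] [Finite G] : ∀ (n : ℕ) (g : G), orderOf g = n →
    (∀ x : G, Group.IsNilpotent ↥(Subgroup.closure ({x, g} : Set G))) →
    g ∈ ⨆ n : ℕ, Subgroup.upperCentralSeries G n := by
  intro n
  induction n using Nat.strong_induction_on with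
  | _ n ih =>
    intro g hgn h
    have hn0 : n ≠ 0 := by rw [← hgn]; exact (orderOf_pos g).ne'
    by_cases hn1 : n = 1
    · rw [hn1, orderOf_eq_one_iff] at hgn
      rw [hgn]; exact Subgroup.one_mem _
    set p := n.minFac with hp
    have hpp : p.Prime := Nat.minFac_prime hn1
    haveI := Fact.mk hpp
    obtain ⟨k, m, hm, hnm⟩ := Nat.exists_eq_pow_mul_and_not_dvd hn0 p hpp.ne_one
    have hpow : ∀ j : ℕ, ∀ x : G, Group.IsNilpotent ↥(Subgroup.closure ({x, g ^ j} : Set G)) := by
      intro j x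
      refine nilp_le ?_ (h x)
      rw [Subgroup.closure_le]
      rintro y (rfl | rfl)
      · exact Subgroup.subset_closure (by simp)
      · exact Subgroup.pow_mem _ (Subgroup.subset_closure (by simp)) _
    by_cases hm1 : m = 1
    · obtain ⟨N, hN⟩ := pcase (p := p) g k (by
        rw [← mul_one (p ^ k), ← hm1, ← hnm, ← hgn]; exact pow_orderOf_eq_one g) h
      exact Subgroup.mem_iSup_of_mem N hN
    have hk0 : k ≠ 0 := by
      rintro rfl
      apply hm
      rw [pow_zero, one_mul] at hnm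
      rw [← hnm]; exact Nat.minFac_dvd n
    have hm0 : m ≠ 0 := by rintro rfl; simp at hnm; exact hn0 hnm
    have hpk : 1 < p ^ k := Nat.one_lt_pow hk0 hpp.one_lt
    have h1 : g ^ (p ^ k) ∈ ⨆ n : ℕ, Subgroup.upperCentralSeries G n := by
      refine ih m ?_ _ ?_ (hpow _)
      · rw [hnm]; nlinarith [Nat.pos_of_ne_zero hm0]
      · rw [orderOf_pow_of_dvd (by positivity) (by rw [hgn, hnm]; exact dvd_mul_right _ _), hgn, hnm]
        exact Nat.mul_div_cancel_left _ (by positivity)
    have h2 : g ^ m ∈ ⨆ n : ℕ, Subgroup.upperCentralSeries G n := by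
      refine ih (p ^ k) ?_ _ ?_ (hpow _)
      · rw [hnm]
        have : 1 < m := by omega
        nlinarith
      · rw [orderOf_pow_of_dvd hm0 (by rw [hgn, hnm]; exact dvd_mul_left _ _), hgn, hnm]
        exact Nat.mul_div_cancel _ (Nat.pos_of_ne_zero hm0)
    have hcop : Nat.Coprime (p ^ k) m := Nat.Coprime.pow_left k ((Nat.Prime.coprime_iff_not_dvd hpp).mpr hm)
    have hb := Nat.gcd_eq_gcd_ab (p ^ k) m
    rw [hcop] at hb
    have h3 : g = (g ^ (p ^ k)) ^ (Nat.gcdA (p ^ k) m) * (g ^ m) ^ (Nat.gcdB (p ^ k) m) := by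
      rw [← zpow_natCast g, ← zpow_natCast g, ← zpow_mul, ← zpow_mul, ← zpow_add, ← hb]
      simp
    rw [h3]
    exact Subgroup.mul_mem _ (Subgroup.zpow_mem _ h1 _) (Subgroup.zpow_mem _ h2 _)

theorem upper_sub {G : Type*} [Group G] (H : Subgroup G) : ∀ (n : ℕ) (h : H),
    (h : G) ∈ Subgroup.upperCentralSeries G n → h ∈ Subgroup.upperCentralSeries H n := by
  intro n
  induction n with
  | zero =>
    intro h hh
    simp only [Subgroup.upperCentralSeries_zero, Subgroup.mem_bot] at hh ⊢
    exact Subtype.ext hh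
  | succ n ih =>
    intro h hh
    rw [Subgroup.mem_upperCentralSeries_succ_iff] at hh ⊢
    intro y
    exact ih _ (hh y)

/-- In a finite group G the set of elements g such that the subgroup generated by g and x is nilpotent for every x ∈ G is exactly the hypercenter of G (the last term of the upper central series). -/
theorem result {G : Type*} [Group G] [Finite G] (g : G) :
    (∀ x : G, Group.IsNilpotent ↥(Subgroup.closure ({x, g} : Set G))) ↔ g ∈ ⨆ n : ℕ, Subgroup.upperCentralSeries G n := by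
  constructor
  · intro h
    exact gen _ g rfl h
  · intro hg x
    obtain ⟨N, hN⟩ := (Subgroup.mem_iSup_of_directed
      (Subgroup.upperCentralSeries_mono G).directed_le).mp hg
    set H := Subgroup.closure ({x, g} : Set G) with hH
    have hxH : x ∈ H := Subgroup.subset_closure (by simp)
    have hgH : g ∈ H := Subgroup.subset_closure (by simp)
    set Zn := Subgroup.upperCentralSeries H N with hZn
    have hgZ : (⟨g, hgH⟩ : H) ∈ Zn := upper_sub H N _ hN
    have hall : ∀ h : H, (QuotientGroup.mk h : H ⧸ Zn) ∈ Subgroup.zpowers (QuotientGroup.mk (⟨x, hxH⟩ : H) : H ⧸ Zn) := by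
      have h1 : H ≤ ((Subgroup.zpowers (QuotientGroup.mk (⟨x, hxH⟩ : H) : H ⧸ Zn)).comap
          (QuotientGroup.mk' Zn)).map H.subtype := by
        conv_lhs => rw [hH]
        rw [Subgroup.closure_le]
        rintro y (rfl | rfl)
        · exact ⟨⟨y, hxH⟩, by simp, rfl⟩
        · refine ⟨⟨y, hgH⟩, ?_, rfl⟩
          simp only [Subgroup.coe_comap, Set.mem_preimage, QuotientGroup.mk'_apply, SetLike.mem_coe]
          rw [(QuotientGroup.eq_one_iff _).mpr hgZ]
          exact Subgroup.one_mem _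
      intro h
      obtain ⟨h', hh', he⟩ := h1 h.2
      have : h' = h := Subtype.ext he
      rw [← this]
      exact hh'
    refine ⟨N + 1, ?_⟩
    rw [eq_top_iff]
    intro h _
    rw [Subgroup.mem_upperCentralSeries_succ_iff]
    intro y
    obtain ⟨i, hi⟩ := Subgroup.mem_zpowers_iff.mp (hall h)
    obtain ⟨j, hj⟩ := Subgroup.mem_zpowers_iff.mp (hall y)
    rw [← hZn, ← QuotientGroup.eq_one_iff]
    rw [commutatorElement_def, QuotientGroup.mk_mul, QuotientGroup.mk_mul, QuotientGroup.mk_mul, QuotientGroup.mk_inv, QuotientGroup.mk_inv, ← hi, ← hj]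
    rw [← zpow_add, add_comm, zpow_add]
    group

end Cfsg.Agent.S3939
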