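import Cfsg.Statements.S3949

set_option autoImplicit false
open Cfsg

namespace Cfsg.Agent.S3949

/-- Let G be a finite group and α an automorphism of G of order 2 such that the elements g·α(g)⁻¹ generate G. Let j be a positive integer such that 2^j divides the order of no element inverted by α. Then the set of values of the j-th iterate of the map c ↦ c·α(c)⁻¹ is exactly the set of elements of odd order inverted by α. -/
theorem result {G : Type*} [Group G] [Finite G] (α : MulAut G) (hα : orderOf α = 2) (hG : Subgroup.closure (Set.range (fun c : G => c * (α c)⁻¹)) = ⊤)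
    (j : ℕ) (hj : ∀ g : G, α g = g⁻¹ → ¬ 2 ^ j ∣ orderOf g) :
    Set.range ((fun c : G => c * (α c)⁻¹)^[j]) = {g : G | Odd (orderOf g) ∧ α g = g⁻¹} := by
  have hαα : ∀ c : G, α (α c) = c := by
    intro c
    have h2 : α ^ 2 = 1 := by rw [← hα]; exact pow_orderOf_eq_one α
    have := congrArg (fun β : MulAut G => β c) h2
    simpa [pow_two] using this
  set f : G → G := fun c : G => c * (α c)⁻¹ with hf
  have hinv : ∀ c : G, α (f c) = (f c)⁻¹ := by
    intro c
    simp [hf, hαα]
  have hpow : ∀ (g : G), α g = g⁻¹ → ∀ k : ℕ, α (g ^ k) = (g ^ k)⁻¹ := by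
    intro g hg k
    rw [map_pow, hg, inv_pow]
  have hiter : ∀ (k : ℕ) (g : G), α g = g⁻¹ → f^[k] g = g ^ (2 ^ k) := by
    intro k
    induction k with
    | zero => intro g _; simp
    | succ k ih =>
      intro g hg
      rw [Function.iterate_succ_apply]
      have h1 : f g = g ^ 2 := by simp [hf, hg, pow_two]
      rw [h1, ih _ (hpow g hg 2), ← pow_mul, pow_succ, mul_comm]
  obtain ⟨k, rfl⟩ : ∃ k, j = k + 1 := by
    rcases j with _ | k
    · exact absurd (by simp) (hj 1 (by simp))
    · exact ⟨k, rfl⟩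
  ext g
  simp only [Set.mem_range, Set.mem_setOf_eq]
  constructor
  · rintro ⟨c, rfl⟩
    rw [Function.iterate_succ_apply, hiter k _ (hinv c)]
    refine ⟨?_, hpow _ (hinv c) _⟩
    have hn := hj _ (hinv c)
    have hpos : orderOf (f c) ≠ 0 := (orderOf_pos _).ne'
    obtain ⟨a, m, hm, hnm⟩ := Nat.exists_eq_two_pow_mul_odd hpos
    have hak : a ≤ k := by
      by_contra hlt
      push_neg at hlt
      apply hn
      rw [hnm]
      exact Dvd.dvd.mul_right (pow_dvd_pow 2 hlt) m
    have : orderOf (f c ^ 2 ^ k) ∣ m := by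
      apply orderOf_dvd_of_pow_eq_one
      rw [← pow_mul]
      apply orderOf_dvd_iff_pow_eq_one.mp
      rw [hnm]
      exact Nat.mul_dvd_mul_right (pow_dvd_pow 2 hak) m
    exact Odd.of_dvd_nat hm this
  · rintro ⟨hodd, hg⟩
    have hcop : (2 ^ (k + 1)).Coprime (orderOf g) := by
      apply Nat.Coprime.pow_left
      exact (Nat.coprime_two_left).mpr hodd
    obtain ⟨m, hm⟩ := exists_pow_eq_self_of_coprime hcop
    refine ⟨g ^ m, ?_⟩
    rw [hiter _ _ (hpow g hg m), ← pow_mul, mul_comm, pow_mul, hm]

end Cfsg.Agent.S3949
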