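import Cfsg.Statements.S3982
import Cfsg.Agent.Lib.Helper17.Basic
import Cfsg.Agent.Lib.Helper24.InvSylow

set_option autoImplicit false
open Cfsg

namespace Cfsg.Agent.S3982

open Cfsg.Agent.Lib.Helper17 Cfsg.Agent.Lib.Helper24 in

/-- Let p be an odd prime and G a finite group of even order divisible by p in which the centralizer of every non-identity p-element has odd order. If some nontrivial p-subgroup of G has a normalizer of even order, then the normalizer of every Sylow p-subgroup of G has even order. -/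
theorem result {G : Type*} [Group G] [Finite G] (p : ℕ) [Fact p.Prime] (hp2 : p ≠ 2) (hpG : p ∣ Nat.card G) (h2G : 2 ∣ Nat.card G) (hC : ∀ g : G, g ≠ 1 → (∃ k : ℕ, orderOf g = p ^ k) → Odd (Nat.card ↥(Subgroup.centralizer ({g} : Set G)))) (Q : Subgroup G) (hQ : IsPGroup p ↥Q) (hQ1 : Q ≠ ⊥) (hev : Even (Nat.card ↥(Subgroup.normalizer (Q : Set G)))) (P : Sylow p G) : Even (Nat.card ↥(Subgroup.normalizer ((P : Subgroup G) : Set G))) := by
  have hC' : OddCent p G := hC
  haveI : Fact (Nat.Prime 2) := ⟨Nat.prime_two⟩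
  obtain ⟨y', hy'⟩ := exists_prime_orderOf_dvd_card' 2 (even_iff_two_dvd.mp hev)
  have hy : orderOf (y' : G) = 2 := by rw [Subgroup.orderOf_coe]; exact hy'
  have hinvQ := inverts_of_normalizes hC' hy Q hQ y'.2
  obtain ⟨u, hu, hu1⟩ : ∃ u ∈ Q, u ≠ 1 := by
    by_contra hcon
    push Not at hcon
    apply hQ1
    rw [eq_bot_iff]
    intro x hx
    exact Subgroup.mem_bot.mpr (hcon x hx)
  have hup : ∃ k : ℕ, orderOf u = p ^ k := by
    obtain ⟨k, hk⟩ := IsPGroup.iff_orderOf.mp hQ ⟨u, hu⟩
    rw [Subgroup.orderOf_mk] at hk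
    exact ⟨k, hk⟩
  obtain ⟨S, hS⟩ := exists_sylow_inverted hC' hy hu1 hup (hinvQ u hu)
  have hyS : (y' : G) ∈ Subgroup.normalizer ((S : Subgroup G) : Set G) := by
    apply mem_normalizer_of_map_conj_le
    rintro _ ⟨r, hr, rfl⟩
    show (y' : G) * r * (y' : G)⁻¹ ∈ (S : Subgroup G)
    rw [hS r hr]
    exact Subgroup.inv_mem _ hr
  have hevS : 2 ∣ Nat.card ↥(Subgroup.normalizer ((S : Subgroup G) : Set G)) := by
    have h1 := orderOf_dvd_natCard (⟨(y' : G), hyS⟩ : ↥(Subgroup.normalizer ((S : Subgroup G) : Set G)))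
    rwa [Subgroup.orderOf_mk, hy] at h1
  have h1 : Nat.card (Sylow p G) = (Subgroup.normalizer ((P : Subgroup G) : Set G)).index := Sylow.card_eq_index_normalizer P
  have h2 : Nat.card (Sylow p G) = (Subgroup.normalizer ((S : Subgroup G) : Set G)).index := Sylow.card_eq_index_normalizer S
  have h3 := Subgroup.card_mul_index (Subgroup.normalizer ((P : Subgroup G) : Set G))
  have h4 := Subgroup.card_mul_index (Subgroup.normalizer ((S : Subgroup G) : Set G))
  rw [← h1] at h3
  rw [← h2] at h4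
  have hpos : 0 < Nat.card (Sylow p G) := Nat.card_pos
  have h5 : Nat.card ↥(Subgroup.normalizer ((P : Subgroup G) : Set G)) =
      Nat.card ↥(Subgroup.normalizer ((S : Subgroup G) : Set G)) :=
    Nat.eq_of_mul_eq_mul_right hpos (h3.trans h4.symm)
  rw [h5]
  exact even_iff_two_dvd.mpr hevS

end Cfsg.Agent.S3982
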