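import Mathlib
import Cfsg.Statements.S3983

set_option autoImplicit false
open scoped Pointwise
open Cfsg

namespace Cfsg.Agent.S3983

/-- Let P be a Sylow p-subgroup of the finite group G that meets each conjugate g P g⁻¹ with g outside N_G(P) trivially, and let U be a subgroup of G of order divisible by p. Then a Sylow p-subgroup Q of U has the same property inside U: Q meets each conjugate u Q u⁻¹ with u ∈ U outside N_U(Q) trivially. -/
theorem result {G : Type*} [Group G] [Finite G] (p : ℕ) [Fact p.Prime] (P : Sylow p G) (hTI : ∀ g : G, g ∉ Subgroup.normalizer ((P : Subgroup G) : Set G) → (P : Subgroup G) ⊓ (MulAut.conj g • (P : Subgroup G)) = ⊥) (U : Subgroup G) (hU : p ∣ Nat.card ↥U) (Q : Sylow p ↥U) : ∀ u : ↥U, u ∉ Subgroup.normalizer ((Q : Subgroup ↥U) : Set ↥U) → (Q : Subgroup ↥U) ⊓ (MulAut.conj u • (Q : Subgroup ↥U)) = ⊥ := by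
  intro u hu
  by_contra hne
  apply hu
  obtain ⟨x, hx, hx1⟩ : ∃ x ∈ (Q : Subgroup U) ⊓ (MulAut.conj u • (Q : Subgroup U)), x ≠ 1 := by
    by_contra h
    push Not at h
    exact hne ((Subgroup.eq_bot_iff_forall _).2 h)
  have hQp : IsPGroup p ((Q : Subgroup U).map U.subtype) := Q.2.map _
  obtain ⟨P', hP'⟩ := hQp.exists_le_sylow
  obtain ⟨g, rfl⟩ := MulAction.exists_smul_eq G P P'
  have memP : ∀ y : G, y ∈ ((g • P : Sylow p G) : Subgroup G) ↔ g⁻¹ * y * g ∈ (P : Subgroup G) := by
    intro y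
    rw [Sylow.coe_subgroup_smul, Subgroup.mem_pointwise_smul_iff_inv_smul_mem]
    simp [MulAut.smul_def, MulAction.toEndHom, MulDistribMulAction.toMonoidEnd, ConjAct.smul_def]
  have hQle : ∀ y : U, y ∈ (Q : Subgroup U) → g⁻¹ * (y : G) * g ∈ (P : Subgroup G) := by
    intro y hy
    rw [← memP]
    exact hP' (Subgroup.mem_map.2 ⟨y, hy, rfl⟩)
  have hx2 : u⁻¹ * x * u ∈ (Q : Subgroup U) := by
    have := (Subgroup.mem_inf.1 hx).2
    rw [Subgroup.mem_pointwise_smul_iff_inv_smul_mem] at this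
    simpa [MulAut.smul_def] using this
  set w : G := g⁻¹ * (u : G) * g with hw
  have hwN : w ∈ Subgroup.normalizer ((P : Subgroup G) : Set G) := by
    by_contra hwN
    have h1 := hTI w hwN
    have ha : g⁻¹ * (x : G) * g ∈ (P : Subgroup G) ⊓ (MulAut.conj w • (P : Subgroup G)) := by
      refine Subgroup.mem_inf.2 ⟨hQle x hx.1, ?_⟩
      rw [Subgroup.mem_pointwise_smul_iff_inv_smul_mem]
      have h2 := hQle _ hx2
      simp only [MulAut.smul_def, MulAut.conj_inv_apply]
      have : w⁻¹ * (g⁻¹ * (x : G) * g) * w = g⁻¹ * ((u⁻¹ * x * u : U) : G) * g := by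
        simp only [hw, Subgroup.coe_mul, Subgroup.coe_inv]
        group
      rw [this]
      exact h2
    rw [h1, Subgroup.mem_bot] at ha
    apply hx1
    have : (x : G) = 1 := by
      have h3 : (x : G) = g * (g⁻¹ * (x : G) * g) * g⁻¹ := by group
      rw [h3, ha]; group
    exact Subtype.ext this
  -- Q is the full intersection
  have hQeq : (Q : Subgroup U) = (((g • P : Sylow p G) : Subgroup G)).subgroupOf U := by
    have hp : IsPGroup p ((((g • P : Sylow p G) : Subgroup G)).subgroupOf U) :=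
      (g • P : Sylow p G).2.comap_of_injective _ U.subtype_injective
    refine (Q.3 hp ?_).symm
    intro y hy
    rw [Subgroup.mem_subgroupOf, memP]
    exact hQle y hy
  rw [Subgroup.mem_normalizer_iff]
  intro h
  rw [hQeq, Subgroup.mem_subgroupOf, Subgroup.mem_subgroupOf, memP, memP]
  rw [Subgroup.mem_normalizer_iff] at hwN
  rw [hwN (g⁻¹ * (h : G) * g)]
  have : w * (g⁻¹ * (h : G) * g) * w⁻¹ = g⁻¹ * ((u * h * u⁻¹ : U) : G) * g := by
    simp only [hw, Subgroup.coe_mul, Subgroup.coe_inv]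
    group
  rw [this]

end Cfsg.Agent.S3983
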