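import Mathlib
import Cfsg.Agent.Lib.Helper18.PPrimeConj
import Cfsg.Statements.S3984

set_option autoImplicit false
open scoped Pointwise
open Cfsg

namespace Cfsg.Agent.S3984

/-- Let P be a Sylow p-subgroup of the finite group G that meets each conjugate g P g⁻¹ with g outside N_G(P) trivially, and let N be a normal subgroup of G of order prime to p. Then every Sylow p-subgroup Q of G ⧸ N meets each conjugate x Q x⁻¹ with x outside its normalizer trivially. -/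
theorem result {G : Type*} [Group G] [Finite G] (p : ℕ) [Fact p.Prime] (P : Sylow p G) (hTI : ∀ g : G, g ∉ Subgroup.normalizer ((P : Subgroup G) : Set G) → (P : Subgroup G) ⊓ (MulAut.conj g • (P : Subgroup G)) = ⊥) (N : Subgroup G) [N.Normal] (hN : (Nat.card ↥N).Coprime p) (Q : Sylow p (G ⧸ N)) : ∀ x : G ⧸ N, x ∉ Subgroup.normalizer ((Q : Subgroup (G ⧸ N)) : Set (G ⧸ N)) → (Q : Subgroup (G ⧸ N)) ⊓ (MulAut.conj x • (Q : Subgroup (G ⧸ N))) = ⊥ := by
  have hp : p.Prime := Fact.out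
  have hNp : ¬ p ∣ Nat.card N := by
    intro h
    have := Nat.Coprime.eq_one_of_dvd hN.symm h
    exact hp.one_lt.ne' this
  intro xb hxb
  by_contra hne
  apply hxb
  obtain ⟨yb, hyb, hyb1⟩ : ∃ y ∈ (Q : Subgroup (G ⧸ N)) ⊓ (MulAut.conj xb • (Q : Subgroup (G ⧸ N))), y ≠ 1 := by
    by_contra h
    push Not at h
    exact hne ((Subgroup.eq_bot_iff_forall _).2 h)
  obtain ⟨hy1, hy2⟩ := Subgroup.mem_inf.1 hyb
  rw [Subgroup.mem_pointwise_smul_iff_inv_smul_mem] at hy2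
  simp only [MulAut.smul_def, MulAut.conj_inv_apply] at hy2
  set Pb : Sylow p (G ⧸ N) := P.mapSurjective (QuotientGroup.mk'_surjective N) with hPb
  have hPbc : (Pb : Subgroup (G ⧸ N)) = (P : Subgroup G).map (QuotientGroup.mk' N) :=
    Sylow.coe_mapSurjective _ P
  obtain ⟨gb, hgb⟩ := MulAction.exists_smul_eq (G ⧸ N) Pb Q
  have memQ : ∀ z : G ⧸ N, z ∈ (Q : Subgroup (G ⧸ N)) ↔
      gb⁻¹ * z * gb ∈ (P : Subgroup G).map (QuotientGroup.mk' N) := by
    intro z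
    rw [← hgb, Sylow.coe_subgroup_smul, Subgroup.mem_pointwise_smul_iff_inv_smul_mem, ← hPbc]
    simp [MulAut.smul_def]
  obtain ⟨g, rfl⟩ := QuotientGroup.mk_surjective gb
  obtain ⟨x, rfl⟩ := QuotientGroup.mk_surjective xb
  obtain ⟨a, haP, ha⟩ := (memQ yb).1 hy1
  obtain ⟨b, hbP, hb⟩ := (memQ _).1 hy2
  have hu : (QuotientGroup.mk (g * a * g⁻¹) : G ⧸ N) = yb := by
    have h1 : (QuotientGroup.mk a : G ⧸ N) = (QuotientGroup.mk g : G ⧸ N)⁻¹ * yb * QuotientGroup.mk g := ha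
    rw [QuotientGroup.mk_mul, QuotientGroup.mk_mul, h1, QuotientGroup.mk_inv]
    group
  have hv : (QuotientGroup.mk ((x * g) * b * (x * g)⁻¹) : G ⧸ N) = yb := by
    have h1 : (QuotientGroup.mk b : G ⧸ N) = (QuotientGroup.mk g : G ⧸ N)⁻¹ *
      ((QuotientGroup.mk x : G ⧸ N)⁻¹ * yb * QuotientGroup.mk x) * QuotientGroup.mk g := hb
    rw [QuotientGroup.mk_mul, QuotientGroup.mk_mul, h1, QuotientGroup.mk_inv, QuotientGroup.mk_mul]
    group
  have huv : (g * a * g⁻¹)⁻¹ * ((x * g) * b * (x * g)⁻¹) ∈ N := by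
    rw [← QuotientGroup.eq, hu, hv]
  have hpel : ∀ c ∈ (P : Subgroup G), ∀ h : G, ∃ k : ℕ, (h * c * h⁻¹) ^ p ^ k = 1 := by
    intro c hc h
    obtain ⟨k, hk⟩ := P.2 ⟨c, hc⟩
    have hk' : c ^ p ^ k = 1 := by simpa using congrArg Subtype.val hk
    exact ⟨k, by rw [conj_pow, hk']; group⟩
  obtain ⟨n, hn, hnu⟩ := Cfsg.Agent.Lib.Helper18.exists_conj_of_pprime_normal N hNp
    (hpel a haP g) (hpel b hbP (x * g)) huv
  have ha1 : a ≠ 1 := by
    rintro rfl
    apply hyb1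
    rw [← hu]
    simp
  set w : G := (n * g)⁻¹ * (x * g) with hw
  have hab : w⁻¹ * a * w = b := by
    have h1 : a = (n * g)⁻¹ * (n * (g * a * g⁻¹) * n⁻¹) * (n * g) := by group
    rw [h1, hnu, hw]
    group
  have hwN : w ∈ Subgroup.normalizer ((P : Subgroup G) : Set G) := by
    by_contra hwN
    have h1 := hTI w hwN
    have h2 : a ∈ (P : Subgroup G) ⊓ (MulAut.conj w • (P : Subgroup G)) := by
      refine Subgroup.mem_inf.2 ⟨haP, ?_⟩
      rw [Subgroup.mem_pointwise_smul_iff_inv_smul_mem]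
      simp only [MulAut.smul_def, MulAut.conj_inv_apply]
      rw [hab]; exact hbP
    rw [h1, Subgroup.mem_bot] at h2
    exact ha1 h2
  have hwb : (QuotientGroup.mk' N) w ∈
      Subgroup.normalizer (((P : Subgroup G).map (QuotientGroup.mk' N) : Subgroup (G ⧸ N)) : Set (G ⧸ N)) :=
    Subgroup.le_normalizer_map _ ⟨w, hwN, rfl⟩
  have hwb' : (QuotientGroup.mk' N) w =
      (QuotientGroup.mk g : G ⧸ N)⁻¹ * QuotientGroup.mk x * QuotientGroup.mk g := by
    have hn1 : (QuotientGroup.mk n : G ⧸ N) = 1 := (QuotientGroup.eq_one_iff n).2 hn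
    change (QuotientGroup.mk w : G ⧸ N) = _
    rw [hw, QuotientGroup.mk_mul, QuotientGroup.mk_inv, QuotientGroup.mk_mul, QuotientGroup.mk_mul, hn1]
    group
  rw [Subgroup.mem_normalizer_iff]
  intro z
  rw [memQ, memQ]
  rw [Subgroup.mem_normalizer_iff] at hwb
  rw [hwb ((QuotientGroup.mk g : G ⧸ N)⁻¹ * z * QuotientGroup.mk g), hwb']
  have : (QuotientGroup.mk g : G ⧸ N)⁻¹ * QuotientGroup.mk x * QuotientGroup.mk g *
      ((QuotientGroup.mk g : G ⧸ N)⁻¹ * z * QuotientGroup.mk g) *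
      ((QuotientGroup.mk g : G ⧸ N)⁻¹ * QuotientGroup.mk x * QuotientGroup.mk g)⁻¹ =
      (QuotientGroup.mk g : G ⧸ N)⁻¹ * (QuotientGroup.mk x * z * (QuotientGroup.mk x : G ⧸ N)⁻¹) *
        QuotientGroup.mk g := by group
  rw [this]

end Cfsg.Agent.S3984
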