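import Mathlib
import Cfsg.Statements.S3985

set_option autoImplicit false
open scoped Pointwise
open Cfsg

namespace Cfsg.Agent.S3985

theorem conj_pow_pow {G : Type*} [Group G] {c a : G} {k : ℕ} (h : c * a * c⁻¹ = a ^ k) (i : ℕ) :
    c ^ i * a * (c ^ i)⁻¹ = a ^ (k ^ i) := by
  induction i with
  | zero => simp
  | succ i ih =>
    calc c ^ (i + 1) * a * (c ^ (i + 1))⁻¹ = c * (c ^ i * a * (c ^ i)⁻¹) * c⁻¹ := by
          rw [pow_succ']; group
      _ = c * a ^ (k ^ i) * c⁻¹ := by rw [ih]
      _ = (c * a * c⁻¹) ^ (k ^ i) := by rw [conj_pow]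
      _ = a ^ (k ^ (i + 1)) := by rw [h, ← pow_mul, pow_succ']

/-- Let P be a cyclic Sylow p-subgroup of the finite group G. Then P meets each conjugate g P g⁻¹ with g outside N_G(P) trivially if and only if P is weakly self-centralizing: C_G(x) = C_G(P) for every non-identity x ∈ P. -/
theorem result {G : Type*} [Group G] [Finite G] (p : ℕ) [Fact p.Prime] (P : Sylow p G) (hcyc : IsCyclic ↥(P : Subgroup G)) : (∀ g : G, g ∉ Subgroup.normalizer ((P : Subgroup G) : Set G) → (P : Subgroup G) ⊓ (MulAut.conj g • (P : Subgroup G)) = ⊥) ↔ ∀ x : G, x ∈ (P : Subgroup G) → x ≠ 1 → Subgroup.centralizer ({x} : Set G) = Subgroup.centralizer ((P : Subgroup G) : Set G) := by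
  have hp : p.Prime := Fact.out
  have memc : ∀ g y : G, y ∈ MulAut.conj g • (P : Subgroup G) ↔ g⁻¹ * y * g ∈ (P : Subgroup G) := by
    intro g y
    rw [Subgroup.mem_pointwise_smul_iff_inv_smul_mem]
    simp [MulAut.smul_def]
  obtain ⟨a, ha⟩ := hcyc.exists_generator
  have hgen : ∀ y ∈ (P : Subgroup G), ∃ i : ℕ, (a : G) ^ i = y := by
    intro y hy
    have h1 : (⟨y, hy⟩ : (P : Subgroup G)) ∈ Submonoid.powers a := by
      rw [mem_powers_iff_mem_zpowers]; exact ha _
    obtain ⟨i, hi⟩ := h1
    exact ⟨i, by simpa using congrArg Subtype.val hi⟩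
  have hPcomm : ∀ y ∈ (P : Subgroup G), ∀ z ∈ (P : Subgroup G), y * z = z * y := by
    intro y hy z hz
    obtain ⟨i, rfl⟩ := hgen y hy
    obtain ⟨j, rfl⟩ := hgen z hz
    rw [← pow_add, ← pow_add, add_comm]
  constructor
  · intro hTI x hxP hx1
    apply le_antisymm
    · intro c hc
      rw [Subgroup.mem_centralizer_singleton_iff] at hc
      have hcN : c ∈ Subgroup.normalizer ((P : Subgroup G) : Set G) := by
        by_contra hcN
        have h1 := hTI c hcN
        have h2 : x ∈ (P : Subgroup G) ⊓ (MulAut.conj c • (P : Subgroup G)) := by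
          refine Subgroup.mem_inf.2 ⟨hxP, ?_⟩
          rw [memc]
          have : c⁻¹ * x * c = x := by
            calc c⁻¹ * x * c = c⁻¹ * (x * c) := by group
              _ = c⁻¹ * (c * x) := by rw [hc]
              _ = x := by group
          rw [this]; exact hxP
        rw [h1, Subgroup.mem_bot] at h2
        exact hx1 h2
      obtain ⟨n, hn⟩ := P.2.exists_card_eq
      have hoa : orderOf (a : G) = p ^ n := by
        rw [Subgroup.orderOf_coe, orderOf_eq_card_of_forall_mem_zpowers ha, hn]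
      obtain ⟨k, hk⟩ := hgen (c * a * c⁻¹) ((Subgroup.mem_normalizer_iff.1 hcN a).1 a.2)
      obtain ⟨j, hj⟩ := hgen x hxP
      have hkj : k * j ≡ j [MOD p ^ n] := by
        rw [← hoa, ← pow_eq_pow_iff_modEq, pow_mul, hk, conj_pow, hj]
        calc c * x * c⁻¹ = (c * x) * c⁻¹ := by group
          _ = x * c * c⁻¹ := by rw [hc]
          _ = x := by group
      have hjn : ¬ p ^ n ∣ j := by
        intro h
        apply hx1
        rw [← hj, ← hoa] at *
        exact orderOf_dvd_iff_pow_eq_one.1 h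
      have hpk : (p : ℤ) ∣ (k : ℤ) - 1 := by
        by_contra hnd
        have h1 : ((p ^ n : ℕ) : ℤ) ∣ (j : ℤ) - ((k * j : ℕ) : ℤ) := (Nat.modEq_iff_dvd.1 hkj)
        have h2 : ((p ^ n : ℕ) : ℤ) ∣ ((k : ℤ) - 1) * (j : ℤ) := by
          have : ((k : ℤ) - 1) * (j : ℤ) = -((j : ℤ) - ((k * j : ℕ) : ℤ)) := by push_cast; ring
          rw [this]; exact (dvd_neg).2 h1
        have hcop : IsCoprime ((p ^ n : ℕ) : ℤ) ((k : ℤ) - 1) := by
          push_cast
          apply IsCoprime.pow_left
          exact ((Nat.prime_iff_prime_int.1 hp).coprime_iff_not_dvd).2 hnd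
        have h3 := hcop.dvd_of_dvd_mul_left h2
        exact hjn (Int.natCast_dvd_natCast.1 h3)
      have hn0 : n ≠ 0 := by
        rintro rfl
        apply hjn
        simp
      obtain ⟨n', rfl⟩ : ∃ n', n = n' + 1 := ⟨n - 1, by omega⟩
      have h4 : ((p : ℤ) ^ (n' + 1)) ∣ (k : ℤ) ^ p ^ n' - 1 ^ p ^ n' := dvd_sub_pow_of_dvd_sub hpk n'
      have h5 : 1 ≡ k ^ p ^ n' [MOD p ^ (n' + 1)] := by
        rw [Nat.modEq_iff_dvd]
        push_cast
        simpa using h4
      have h6 : c ^ (p ^ n') * a * (c ^ (p ^ n'))⁻¹ = a := by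
        rw [conj_pow_pow hk.symm]
        have := (pow_eq_pow_iff_modEq (x := (a : G)) (n := 1) (m := k ^ p ^ n')).2 (by rw [hoa]; exact h5)
        rw [← this, pow_one]
      obtain ⟨s, m', hm', hsm⟩ := Nat.exists_eq_pow_mul_and_not_dvd (orderOf_pos c).ne' p hp.ne_one
      have hm0 : m' ≠ 0 := by
        rintro rfl
        exact hm' (dvd_zero _)
      have h7 : c ^ m' ∈ (P : Subgroup G) := by
        have ho : orderOf (c ^ m') = p ^ s := by
          rw [orderOf_pow_of_dvd hm0 (by rw [hsm]; exact Dvd.intro_left _ rfl), hsm]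
          exact Nat.mul_div_cancel _ (Nat.pos_of_ne_zero hm0)
        have hzp : IsPGroup p (Subgroup.zpowers (c ^ m')) := by
          apply IsPGroup.of_card (n := s)
          rw [Nat.card_zpowers, ho]
        have h8 : c ^ m' ∈ Subgroup.zpowers (c ^ m') ⊓ (P : Subgroup G) := by
          rw [← hzp.inf_normalizer_sylow]
          exact ⟨Subgroup.mem_zpowers _, Subgroup.pow_mem _ hcN _⟩
        exact h8.2
      have hC1 : c ^ (p ^ n') ∈ Subgroup.centralizer ({(a : G)} : Set G) := by
        rw [Subgroup.mem_centralizer_singleton_iff]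
        calc c ^ (p ^ n') * a = (c ^ (p ^ n') * a * (c ^ (p ^ n'))⁻¹) * c ^ (p ^ n') := by group
          _ = a * c ^ (p ^ n') := by rw [h6]
      have hC2 : c ^ m' ∈ Subgroup.centralizer ({(a : G)} : Set G) := by
        rw [Subgroup.mem_centralizer_singleton_iff]
        exact hPcomm _ h7 _ a.2
      have hcop : Nat.Coprime (p ^ n') m' :=
        Nat.Coprime.pow_left _ ((Nat.Prime.coprime_iff_not_dvd hp).2 hm')
      have hb : ((p ^ n' : ℕ) : ℤ) * Nat.gcdA (p ^ n') m' + (m' : ℤ) * Nat.gcdB (p ^ n') m' = 1 := by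
        have := Nat.gcd_eq_gcd_ab (p ^ n') m'
        rw [hcop.gcd_eq_one] at this
        exact_mod_cast this.symm
      have hcc : c = (c ^ (p ^ n')) ^ (Nat.gcdA (p ^ n') m') * (c ^ m') ^ (Nat.gcdB (p ^ n') m') := by
        rw [← zpow_natCast, ← zpow_natCast, ← zpow_mul, ← zpow_mul, ← zpow_add, hb, zpow_one]
      have hcC : c ∈ Subgroup.centralizer ({(a : G)} : Set G) := by
        rw [hcc]
        exact Subgroup.mul_mem _ (Subgroup.zpow_mem _ hC1 _) (Subgroup.zpow_mem _ hC2 _)
      rw [Subgroup.mem_centralizer_singleton_iff] at hcC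
      rw [Subgroup.mem_centralizer_iff]
      intro y hy
      obtain ⟨i, rfl⟩ := hgen y hy
      exact ((Commute.pow_right (show Commute c (a : G) from hcC) i).eq).symm
    · intro c hc
      rw [Subgroup.mem_centralizer_singleton_iff]
      exact ((Subgroup.mem_centralizer_iff.1 hc) x hxP).symm
  · intro hC g hg
    by_contra hne
    apply hg
    obtain ⟨y, hy, hy1⟩ : ∃ y ∈ (P : Subgroup G) ⊓ (MulAut.conj g • (P : Subgroup G)), y ≠ 1 := by
      by_contra h
      push Not at h
      exact hne ((Subgroup.eq_bot_iff_forall _).2 h)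
    obtain ⟨hyP, hyg⟩ := Subgroup.mem_inf.1 hy
    rw [memc] at hyg
    have hCy := hC y hyP hy1
    have hle : ((g • P : Sylow p G) : Subgroup G) ≤ Subgroup.centralizer ((P : Subgroup G) : Set G) := by
      intro z hz
      rw [Sylow.coe_subgroup_smul, memc] at hz
      rw [← hCy, Subgroup.mem_centralizer_singleton_iff]
      have h1 := hPcomm _ hz _ hyg
      calc z * y = g * ((g⁻¹ * z * g) * (g⁻¹ * y * g)) * g⁻¹ := by group
        _ = g * ((g⁻¹ * y * g) * (g⁻¹ * z * g)) * g⁻¹ := by rw [h1]
        _ = y * z := by group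
    have hle2 : ((g • P : Sylow p G) : Subgroup G) ≤ Subgroup.normalizer ((P : Subgroup G) : Set G) := by
      intro z hz
      have h1 := Subgroup.mem_centralizer_iff.1 (hle hz)
      rw [Subgroup.mem_normalizer_iff]
      intro w
      constructor
      · intro hw
        have : z * w * z⁻¹ = w := by rw [← h1 w hw]; group
        rw [this]; exact hw
      · intro hw
        have h2 := h1 _ hw
        have : w = z * w * z⁻¹ := by
          calc w = z⁻¹ * ((z * w * z⁻¹) * z) := by group
            _ = z⁻¹ * (z * (z * w * z⁻¹)) := by rw [h2]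
            _ = z * w * z⁻¹ := by group
        rw [this]; exact hw
    have hle3 : ((g • P : Sylow p G) : Subgroup G) ≤ (P : Subgroup G) := by
      have h1 := (g • P : Sylow p G).2.inf_normalizer_sylow P
      have h2 : ((g • P : Sylow p G) : Subgroup G) ⊓ Subgroup.normalizer ((P : Subgroup G) : Set G)
          = ((g • P : Sylow p G) : Subgroup G) := inf_eq_left.2 hle2
      rw [← h2]
      exact le_trans (le_of_eq h1) inf_le_right
    have heq : g • P = P := Sylow.ext (((g • P : Sylow p G).3 P.2 hle3).symm)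
    exact Sylow.smul_eq_iff_mem_normalizer.1 heq

end Cfsg.Agent.S3985
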