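import Cfsg.Statements.S3987
import Cfsg.Agent.Lib.Helper22.Kazarin
import Cfsg.Agent.Lib.Helper20.Primary
import Cfsg.Agent.Lib.Helper4.ClassSize

set_option autoImplicit false
open Cfsg

namespace Cfsg.Agent.S3987

open Subgroup

theorem commute_of_index {G : Type*} [Group G] [Finite G] (x y : G)
    (h : (centralizer ({x * y} : Set G)).index = (centralizer ({x} : Set G)).index * (centralizer ({y} : Set G)).index) :
    Commute x y := by
  have hle : centralizer ({x} : Set G) ⊓ centralizer ({y} : Set G) ≤ centralizer ({x * y} : Set G) := by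
    intro g hg
    rw [mem_inf, mem_centralizer_singleton_iff, mem_centralizer_singleton_iff] at hg
    rw [mem_centralizer_singleton_iff, ← mul_assoc, hg.1, mul_assoc, hg.2, mul_assoc]
  have h1 : (centralizer ({x} : Set G) ⊓ centralizer ({y} : Set G)).index ≤ (centralizer ({x * y} : Set G)).index := by
    rw [h]; exact index_inf_le
  have h2 : (centralizer ({x * y} : Set G)).index ∣ (centralizer ({x} : Set G) ⊓ centralizer ({y} : Set G)).index :=
    index_dvd_of_le hle
  have h3 : (centralizer ({x} : Set G) ⊓ centralizer ({y} : Set G)).index = (centralizer ({x * y} : Set G)).index :=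
    le_antisymm h1 (Nat.le_of_dvd (Nat.pos_of_ne_zero (index_ne_zero_of_finite)) h2)
  have h4 : centralizer ({x} : Set G) ⊓ centralizer ({y} : Set G) = centralizer ({x * y} : Set G) :=
    by
      refine le_antisymm hle ?_
      rw [← relIndex_eq_one]
      have h5 := relIndex_mul_index hle
      rw [h3] at h5
      exact Nat.eq_of_mul_eq_mul_right (Nat.pos_of_ne_zero index_ne_zero_of_finite) (by rw [h5, one_mul])
  have h5 : x * y ∈ centralizer ({x * y} : Set G) := by
    rw [mem_centralizer_singleton_iff]
  rw [← h4, mem_inf, mem_centralizer_singleton_iff] at h5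
  have h6 := h5.1
  have : x * (y * x) = x * (x * y) := by rw [← mul_assoc, h6]
  exact (mul_left_cancel this).symm

/-- Let p be a prime and G a finite group. Then some Sylow p-subgroup of G is a direct factor of G (normal with a normal complement) if and only if for every element x of p-power order and every element y whose order is a power of a prime other than p, the conjugacy class of x y has as many elements as the product of the sizes of the classes of x and of y. -/
theorem result {G : Type*} [Group G] [Finite G] (p : ℕ) [Fact p.Prime] : (∃ (P : Sylow p G) (K : Subgroup G), (P : Subgroup G).Normal ∧ K.Normal ∧ (P : Subgroup G) ⊓ K = ⊥ ∧ (P : Subgroup G) ⊔ K = ⊤) ↔ ∀ x y : G, (∃ a : ℕ, orderOf x = p ^ a) → (∃ q b : ℕ, q.Prime ∧ q ≠ p ∧ orderOf y = q ^ b) → (Subgroup.centralizer ({x * y} : Set G)).index = (Subgroup.centralizer ({x} : Set G)).index * (Subgroup.centralizer ({y} : Set G)).index := by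
  have hp : p.Prime := Fact.out
  constructor
  · rintro ⟨P, K, hPn, hKn, hPK, hPK'⟩ x y ⟨a, ha⟩ ⟨q, b, hq, hqp, hb⟩
    have : Fact q.Prime := ⟨hq⟩
    have hKi : K.index ∣ Nat.card (P : Subgroup G) := by
      rw [← relIndex_top_right, ← hPK', relIndex_sup_right]
      exact relIndex_dvd_card _ _
    obtain ⟨n, hn⟩ := P.2.exists_card_eq
    rw [hn] at hKi
    have hxP : x ∈ (P : Subgroup G) := by
      have h1 : IsPGroup p (zpowers x) := by
        rw [IsPGroup.iff_card]
        exact ⟨a, by rw [Nat.card_zpowers, ha]⟩
      exact Cfsg.Agent.Lib.Helper22.pgroup_le_of_normal_of_not_dvd_index h1 P.not_dvd_index (mem_zpowers x)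
    have hyK : y ∈ K := by
      have h1 : IsPGroup q (zpowers y) := by
        rw [IsPGroup.iff_card]
        exact ⟨b, by rw [Nat.card_zpowers, hb]⟩
      have h2 : ¬ q ∣ K.index := by
        intro h
        exact hqp ((Nat.prime_dvd_prime_iff_eq hq hp).1 (hq.dvd_of_dvd_pow (h.trans hKi)))
      exact Cfsg.Agent.Lib.Helper22.pgroup_le_of_normal_of_not_dvd_index h1 h2 (mem_zpowers y)
    have hcomm : ∀ u ∈ (P : Subgroup G), ∀ v ∈ K, Commute u v := fun u hu v hv =>
      commute_of_normal_of_disjoint _ _ hPn hKn (disjoint_iff.2 hPK) u v hu hv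
    have hxy : Commute x y := hcomm x hxP y hyK
    have hco : Nat.Coprime (orderOf x) (orderOf y) := by
      rw [ha, hb]
      exact Nat.Coprime.pow _ _ ((Nat.coprime_primes hp hq).2 hqp.symm)
    have hle := Cfsg.Agent.Lib.Helper4.centralizer_mul_le_of_coprime hxy hco
    have hle' : centralizer ({x} : Set G) ⊓ centralizer ({y} : Set G) ≤ centralizer ({x * y} : Set G) := by
      intro g hg
      rw [mem_inf, mem_centralizer_singleton_iff, mem_centralizer_singleton_iff] at hg
      rw [mem_centralizer_singleton_iff, ← mul_assoc, hg.1, mul_assoc, hg.2, mul_assoc]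
    rw [le_antisymm hle hle']
    have hx1 : (centralizer ({x} : Set G)).index ∣ p ^ n := by
      refine (index_dvd_of_le ?_).trans hKi
      intro v hv
      rw [mem_centralizer_singleton_iff]
      exact ((hcomm x hxP v hv).eq).symm
    have hy1 : (centralizer ({y} : Set G)).index ∣ (P : Subgroup G).index := by
      refine index_dvd_of_le ?_
      intro u hu
      rw [mem_centralizer_singleton_iff]
      exact (hcomm u hu y hyK).eq
    have hcop : Nat.Coprime (centralizer ({x} : Set G)).index (centralizer ({y} : Set G)).index := by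
      refine Nat.Coprime.of_dvd hx1 hy1 ?_
      exact Nat.Coprime.pow_left _ ((Nat.Prime.coprime_iff_not_dvd hp).2 P.not_dvd_index)
    refine le_antisymm index_inf_le (Nat.le_of_dvd (Nat.pos_of_ne_zero index_ne_zero_of_finite) ?_)
    exact hcop.mul_dvd_of_dvd_of_dvd (index_dvd_of_le inf_le_left) (index_dvd_of_le inf_le_right)
  · intro h
    have hcomm : ∀ x y : G, (∃ a : ℕ, orderOf x = p ^ a) → (∃ q b : ℕ, q.Prime ∧ q ≠ p ∧ orderOf y = q ^ b) →
        Commute x y := fun x y hx hy => commute_of_index x y (h x y hx hy)
    obtain ⟨P⟩ : Nonempty (Sylow p G) := inferInstance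
    have hPo : ∀ x ∈ (P : Subgroup G), ∃ a : ℕ, orderOf x = p ^ a := by
      intro x hx
      obtain ⟨a, ha⟩ := (IsPGroup.iff_orderOf.1 P.2) ⟨x, hx⟩
      exact ⟨a, by rw [← ha, Subgroup.orderOf_mk]⟩
    have hPn : (P : Subgroup G).Normal := by
      rw [← normalizer_eq_top_iff, ← index_eq_one]
      by_contra hne
      obtain ⟨q, hq, hqd⟩ := Nat.exists_prime_and_dvd hne
      have : Fact q.Prime := ⟨hq⟩
      by_cases hqp : q = p
      · subst hqp
        exact P.not_dvd_index (hqd.trans (index_dvd_of_le le_normalizer))
      · obtain ⟨Q⟩ : Nonempty (Sylow q G) := inferInstance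
        refine Q.not_dvd_index (hqd.trans (index_dvd_of_le ?_))
        intro y hy
        have hyo : ∃ q b : ℕ, q.Prime ∧ q ≠ p ∧ orderOf y = q ^ b := by
          obtain ⟨b, hb⟩ := (IsPGroup.iff_orderOf.1 Q.2) ⟨y, hy⟩
          exact ⟨q, b, hq, hqp, by rw [← hb, Subgroup.orderOf_mk]⟩
        refine centralizer_le_normalizer ((P : Subgroup G) : Set G) ?_
        rw [mem_centralizer_iff]
        intro x hx
        exact (hcomm x y (hPo x hx) hyo).eq
    have hcop : Nat.Coprime (Nat.card (P : Subgroup G)) (P : Subgroup G).index := by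
      obtain ⟨n, hn⟩ := P.2.exists_card_eq
      rw [hn]
      exact Nat.Coprime.pow_left _ ((Nat.Prime.coprime_iff_not_dvd hp).2 P.not_dvd_index)
    obtain ⟨H, hH⟩ := exists_right_complement'_of_coprime hcop
    have hHc : H ≤ centralizer ((P : Subgroup G) : Set G) := by
      intro g hg
      refine Cfsg.Agent.Lib.Helper20.mem_of_primary_mem _ g ?_
      rintro q z hq hz ⟨k, hk⟩
      rw [mem_centralizer_iff]
      intro x hx
      by_cases hk0 : k = 0
      · subst hk0
        rw [pow_zero, orderOf_eq_one_iff] at hk
        rw [hk, one_mul, mul_one]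
      · have hzH : z ∈ H := (zpowers_le.2 hg) hz
        have h1 : q ∣ Nat.card H := by
          have h2 : orderOf z ∣ Nat.card H := by
            have := orderOf_dvd_natCard (⟨z, hzH⟩ : H)
            rwa [Subgroup.orderOf_mk] at this
          exact (dvd_pow_self q hk0).trans (hk ▸ h2)
        have hqp : q ≠ p := by
          rintro rfl
          have h3 : Nat.card H = (P : Subgroup G).index := hH.card_right
          rw [h3] at h1
          exact P.not_dvd_index h1
        exact (hcomm x z (hPo x hx) ⟨q, k, hq, hqp, hk⟩).eq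
    have hHn : H.Normal := by
      rw [← normalizer_eq_top_iff, eq_top_iff, ← hH.sup_eq_top]
      refine sup_le ?_ le_normalizer
      refine le_trans ?_ (centralizer_le_normalizer (H : Set G))
      exact le_centralizer_iff.1 hHc
    exact ⟨P, H, hPn, hHn, hH.disjoint.eq_bot, hH.sup_eq_top⟩

end Cfsg.Agent.S3987
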