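import Cfsg.Statements.S4002
import Cfsg.Agent.S3633

set_option autoImplicit false
open Cfsg

namespace Cfsg.Agent.S4002

theorem three_primes (n : ℕ) (hn : 7 ≤ n) : ∃ p q r : ℕ, p.Prime ∧ q.Prime ∧ r.Prime ∧ p < q ∧ q < r ∧
    r ≤ n ∧ n < p * q := by
  by_cases h1 : n ≤ 14
  · exact ⟨3, 5, 7, by norm_num, by norm_num, by norm_num, by norm_num, by norm_num, hn, by omega⟩
  by_cases h2 : n ≤ 34
  · exact ⟨5, 7, 11, by norm_num, by norm_num, by norm_num, by norm_num, by norm_num, by omega,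
      by omega⟩
  obtain ⟨m, hm⟩ : ∃ m, m = n / 8 := ⟨_, rfl⟩
  have hm4 : 4 ≤ m := by omega
  obtain ⟨p, hp, hp1, hp2⟩ := Nat.exists_prime_lt_and_le_two_mul m (by omega)
  obtain ⟨q, hq, hq1, hq2⟩ := Nat.exists_prime_lt_and_le_two_mul (2 * m) (by omega)
  obtain ⟨r, hr, hr1, hr2⟩ := Nat.exists_prime_lt_and_le_two_mul (4 * m) (by omega)
  refine ⟨p, q, r, hp, hq, hr, by omega, by omega, by omega, ?_⟩
  have h3 : n < 8 * m + 8 := by omega
  have h4 : (m + 1) * (2 * m + 1) ≤ p * q := Nat.mul_le_mul hp1 hq1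
  nlinarith

/-- If the set of element orders of a finite group G is {1, 2, …, n} with n ≥ 7, then G is not solvable. -/
theorem result {G : Type*} [Group G] [Finite G] (n : ℕ) (hn : 7 ≤ n) (h : Set.range (orderOf : G → ℕ) = {k : ℕ | 1 ≤ k ∧ k ≤ n}) : ¬ Group.IsSolvable G := by
  obtain ⟨p, q, r, hp, hq, hr, hpq, hqr, hrn, hlt⟩ := three_primes n hn
  have hmem : ∀ k, 1 ≤ k → k ≤ n → ∃ x : G, orderOf x = k := by
    intro k h1 h2
    have : k ∈ Set.range (orderOf : G → ℕ) := by rw [h]; exact ⟨h1, h2⟩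
    exact this
  have hnot : ∀ k, n < k → ¬ ∃ x : G, orderOf x = k := by
    rintro k h1 ⟨x, hx⟩
    have : k ∈ Set.range (orderOf : G → ℕ) := ⟨x, hx⟩
    rw [h] at this
    exact absurd this.2 (by omega)
  have hdvd : ∀ k, 1 ≤ k → k ≤ n → k ∣ Nat.card G := by
    intro k h1 h2
    obtain ⟨x, hx⟩ := hmem k h1 h2
    rw [← hx]; exact orderOf_dvd_natCard x
  have hcard : ({p, q, r} : Finset ℕ).card = 3 := by
    rw [Finset.card_eq_three]
    exact ⟨p, q, r, by omega, by omega, by omega, rfl⟩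
  have hpr : n < p * r := lt_of_lt_of_le hlt (Nat.mul_le_mul_left p hqr.le)
  have hqr' : n < q * r := lt_of_lt_of_le hpr (Nat.mul_le_mul_right r hpq.le)
  refine (Cfsg.Agent.S3633.result (G := G) {p, q, r} hcard.ge ⟨?_, ?_⟩ ⊥ inferInstance).2
  · intro s hs
    simp only [Finset.mem_insert, Finset.mem_singleton] at hs
    rcases hs with rfl | rfl | rfl
    · exact ⟨hp, hdvd _ hp.one_lt.le (by omega)⟩
    · exact ⟨hq, hdvd _ hq.one_lt.le (by omega)⟩
    · exact ⟨hr, hdvd _ hr.one_lt.le (by omega)⟩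
  · intro s hs t ht hst
    simp only [Finset.mem_insert, Finset.mem_singleton] at hs ht
    apply hnot
    rcases hs with rfl | rfl | rfl <;> rcases ht with rfl | rfl | rfl <;>
      first
      | exact absurd rfl hst
      | assumption
      | (rw [mul_comm]; assumption)

end Cfsg.Agent.S4002
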