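import Mathlib
import Cfsg.Statements.S4013

set_option autoImplicit false
open scoped Pointwise
open Cfsg

namespace Cfsg.Agent.S4013

/-- Let G be a finite p-group (p prime) and N < M normal subgroups of G such that for some g ∈ M ∖ N the conjugacy class of g is exactly M ∖ N. Then p = 2 and N has index 2 in M. -/
theorem result {G : Type*} [Group G] [Finite G] (p : ℕ) [Fact p.Prime] (hG : IsPGroup p G) (N M : Subgroup G) [N.Normal] [M.Normal] (hNM : N < M) (g : G) (hgM : g ∈ M) (hgN : g ∉ N) (hcl : {h : G | IsConj g h} = (M : Set G) \ (N : Set G)) : p = 2 ∧ N.relIndex M = 2 := by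
  have hp : p.Prime := Fact.out
  have hG' : IsPGroup p (ConjAct G) := hG
  obtain ⟨c, hc⟩ := hG'.card_orbit g
  have horb : (MulAction.orbit (ConjAct G) g : Set G) = {h : G | IsConj g h} := by
    ext h
    rw [ConjAct.mem_orbit_conjAct, Set.mem_setOf_eq, isConj_comm]
  rw [horb, hcl, Nat.card_coe_set_eq, Set.ncard_diff (by exact_mod_cast hNM.le)] at hc
  rw [← Nat.card_coe_set_eq, ← Nat.card_coe_set_eq] at hc
  have hc' : Nat.card M - Nat.card N = p ^ c := hc
  obtain ⟨a, ha⟩ := (hG.to_subgroup N).exists_card_eq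
  obtain ⟨b, hb⟩ := (hG.to_subgroup M).index (N.subgroupOf M)
  have hb' : N.relIndex M = p ^ b := hb
  have hmul : N.relIndex M * Nat.card N = Nat.card M := by
    have := Subgroup.relIndex_mul_relIndex ⊥ N M bot_le hNM.le
    rw [Subgroup.relIndex_bot_left, Subgroup.relIndex_bot_left] at this
    rw [mul_comm]; exact this
  have hb1 : N.relIndex M ≠ 1 := by
    rw [Ne, Subgroup.relIndex_eq_one]
    exact fun h => hgN (h hgM)
  have hb0 : b ≠ 0 := by
    rintro rfl
    exact hb1 (by simpa using hb')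
  rw [← hmul, hb', ha] at hc'
  have h1 : p ^ a * (p ^ b - 1) = p ^ c := by
    rw [← hc', Nat.mul_sub, mul_one, mul_comm]
  have h2 : (p ^ b - 1) ∣ p ^ c := ⟨p ^ a, by rw [← h1, mul_comm]⟩
  obtain ⟨d, -, hd⟩ := (Nat.dvd_prime_pow hp).1 h2
  have hpb : 1 ≤ p ^ b := Nat.one_le_pow _ _ hp.pos
  have hd0 : d = 0 := by
    by_contra hd0
    have h3 : p ∣ p ^ b - 1 := by rw [hd]; exact dvd_pow_self _ hd0
    have h4 : p ∣ p ^ b := dvd_pow_self _ hb0
    have h5 : p ∣ 1 := by
      have := (Nat.dvd_sub h4 h3)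
      rwa [Nat.sub_sub_self hpb] at this
    exact hp.one_lt.ne' (Nat.dvd_one.1 h5)
  subst hd0
  have h6 : p ^ b = 2 := by rw [pow_zero] at hd; omega
  have h7 : p ∣ 2 := by rw [← h6]; exact dvd_pow_self _ hb0
  have h8 : p = 2 := (Nat.prime_dvd_prime_iff_eq hp Nat.prime_two).1 h7
  exact ⟨h8, by rw [hb', h6]⟩

end Cfsg.Agent.S4013
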