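import Cfsg.Statements.S4014
import Mathlib

set_option autoImplicit false
open Cfsg

namespace Cfsg.Agent.S4014

open scoped commutatorElement
open RegularWreathProduct

lemma ns_inj {A B : Type*} [Group A] [Group B] (f : A →* B) (hf : Function.Injective f) {j : ℕ}
    (h : derivedSeries A j ≠ ⊥) : derivedSeries B j ≠ ⊥ := by
  intro hB
  apply h
  have := map_derivedSeries_le_derivedSeries f j
  rw [hB, le_bot_iff, Subgroup.map_eq_bot_iff_of_injective _ hf] at this
  exact this

lemma ns_surj {A B : Type*} [Group A] [Group B] (f : A →* B) (hf : Function.Surjective f) {j : ℕ}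
    (h : derivedSeries B j ≠ ⊥) : derivedSeries A j ≠ ⊥ := by
  intro hA
  apply h
  rw [← map_derivedSeries_eq hf j, hA, Subgroup.map_bot]

lemma map_comm_le {G : Type*} [Group G] (j : ℕ) :
    (derivedSeries ↥(commutator G) j).map (commutator G).subtype ≤ derivedSeries G (j + 1) := by
  induction j with
  | zero =>
    rw [derivedSeries_zero, derivedSeries_succ, derivedSeries_zero, ← MonoidHom.range_eq_map,
      Subgroup.range_subtype, commutator_def]
  | succ j ih =>
    rw [derivedSeries_succ, Subgroup.map_commutator, derivedSeries_succ G (j + 1)]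
    exact Subgroup.commutator_mono ih ih

lemma ns_comm {G : Type*} [Group G] {j : ℕ} (h : derivedSeries ↥(commutator G) j ≠ ⊥) :
    derivedSeries G (j + 1) ≠ ⊥ := by
  intro hG
  apply h
  have := map_comm_le (G := G) j
  rw [hG, le_bot_iff, Subgroup.map_eq_bot_iff_of_injective _ (Subgroup.subtype_injective _)] at this
  exact this

def bs (D Q : Type*) [Group D] [Group Q] : (Q → D) →* D ≀ᵣ Q where
  toFun f := ⟨f, 1⟩
  map_one' := rfl
  map_mul' a b := by
    ext <;> simp [RegularWreathProduct.mul_def]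

lemma ns_wreath {D Q : Type*} [Group D] [Group Q] [Nontrivial Q] {j : ℕ}
    (h : derivedSeries D j ≠ ⊥) : derivedSeries (D ≀ᵣ Q) (j + 1) ≠ ⊥ := by
  classical
  apply ns_comm
  set S : Subgroup (Q → D) := (commutator (D ≀ᵣ Q)).comap (bs D Q) with hS
  let f₁ : S →* D := (Pi.evalMonoidHom (fun _ : Q => D) 1).comp S.subtype
  let f₂ : S →* ↥(commutator (D ≀ᵣ Q)) :=
    ((bs D Q).comp S.subtype).codRestrict _ (fun s => s.2)
  have h₂ : Function.Injective f₂ := by
    intro a b hab
    have := congrArg (fun w : ↥(commutator (D ≀ᵣ Q)) => (w : D ≀ᵣ Q).left) hab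
    exact Subtype.ext this
  have h₁ : Function.Surjective f₁ := by
    intro d
    obtain ⟨q, hq⟩ := exists_ne (1 : Q)
    set b : Q → D := Pi.mulSingle 1 d with hb
    have hmem : (b * fun x => (b (q⁻¹ * x))⁻¹) ∈ S := by
      rw [hS, Subgroup.mem_comap]
      have : bs D Q (b * fun x => (b (q⁻¹ * x))⁻¹) = ⁅bs D Q b, (inl q : D ≀ᵣ Q)⁆ := by
        rw [commutatorElement_def]
        ext <;> simp [bs, RegularWreathProduct.mul_def]
      rw [this, commutator_def]
      exact Subgroup.commutator_mem_commutator (Subgroup.mem_top _) (Subgroup.mem_top _)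
    refine ⟨⟨_, hmem⟩, ?_⟩
    change (b * fun x => (b (q⁻¹ * x))⁻¹) 1 = d
    have hq' : q⁻¹ ≠ 1 := by simpa using hq
    simp [hb, Pi.mulSingle_eq_of_ne hq']
  exact ns_inj f₂ h₂ (ns_surj f₁ h₁ h)

lemma ns_iter (Z : Type) [Group Z] [Finite Z] [Nontrivial Z] (k : ℕ) :
    derivedSeries (IteratedWreathProduct Z (k + 1)) k ≠ ⊥ := by
  induction k with
  | zero =>
    rw [derivedSeries_zero]
    have : Nontrivial (IteratedWreathProduct Z 1) := by
      rw [← Finite.one_lt_card_iff_nontrivial, IteratedWreathProduct.card]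
      simpa using Finite.one_lt_card (α := Z)
    exact top_ne_bot
  | succ k ih =>
    exact ns_wreath (D := IteratedWreathProduct Z (k + 1)) (Q := Z) ih

lemma comm_le_of_card {Q : Type*} [Group Q] [Finite Q] {p : ℕ} [Fact p.Prime] {a : ℕ}
    {H K : Subgroup Q} (hHK : H ≤ K) (hH : Nat.card H = p ^ a) (hK : Nat.card K = p ^ (a + 1)) :
    ⁅K, K⁆ ≤ H := by
  have hp := (Fact.out : p.Prime)
  have hidx : (H.subgroupOf K).index = p := by
    have h1 := (H.subgroupOf K).card_mul_index
    rw [Nat.card_congr (Subgroup.subgroupOfEquivOfLe hHK).toEquiv, hH, hK, pow_succ] at h1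
    exact Nat.eq_of_mul_eq_mul_left (pow_pos hp.pos a) h1
  have hn : (H.subgroupOf K).Normal := by
    apply Subgroup.normal_of_index_eq_minFac_card
    rw [hidx, hK, Nat.Prime.pow_minFac hp (by omega)]
  have hc : Nat.card (K ⧸ H.subgroupOf K) = p := hidx
  have hcyc : IsCyclic (K ⧸ H.subgroupOf K) := isCyclic_of_prime_card hc
  rw [Subgroup.commutator_le]
  intro x hx y hy
  have : ((⁅(⟨x, hx⟩ : K), ⟨y, hy⟩⁆ : K) : K ⧸ H.subgroupOf K) = 1 := by
    rw [commutatorElement_def]
    simp only [QuotientGroup.mk_mul, QuotientGroup.mk_inv]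
    rw [hcyc.isMulCommutative.is_comm.comm (QuotientGroup.mk (⟨x, hx⟩ : K))
      (QuotientGroup.mk (⟨y, hy⟩ : K))]
    group
  rw [QuotientGroup.eq_one_iff] at this
  exact this

lemma der_le {Q : Type*} [Group Q] [Finite Q] {p : ℕ} [Fact p.Prime] (hQ : IsPGroup p Q) (j : ℕ) :
    ∀ H : Subgroup Q, Nat.card H * p ^ j = Nat.card Q → derivedSeries Q j ≤ H := by
  induction j with
  | zero =>
    intro H hH
    rw [Subgroup.eq_top_of_card_eq H (by simpa using hH)]
    exact le_top
  | succ j ih =>
    intro H hH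
    obtain ⟨a, ha⟩ := IsPGroup.iff_card.1 (hQ.to_subgroup H)
    have hdvd : p ^ (a + 1) ∣ Nat.card Q := ⟨p ^ j, by rw [← hH, ha]; ring⟩
    obtain ⟨K, hK, hHK⟩ := Sylow.exists_subgroup_card_pow_succ hdvd ha
    have h1 := ih K (by rw [hK, ← hH, ha]; ring)
    rw [derivedSeries_succ]
    exact (Subgroup.commutator_mono h1 h1).trans (comm_le_of_card hHK ha hK)

/-- Let p be a prime, n ≥ 1, and P a Sylow p-subgroup of the symmetric group on n letters. Then the derived length of P is exactly k = ⌊log_p n⌋ (the largest k with p^k ≤ n): the k-th derived subgroup of P is trivial and, when k ≥ 1, the (k−1)-st is not. -/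
theorem result (p : ℕ) [Fact p.Prime] (n : ℕ) (hn : 1 ≤ n) (P : Sylow p (Equiv.Perm (Fin n))) : derivedSeries ↥(P : Subgroup (Equiv.Perm (Fin n))) (Nat.log p n) = ⊥ ∧ (1 ≤ Nat.log p n → derivedSeries ↥(P : Subgroup (Equiv.Perm (Fin n))) (Nat.log p n - 1) ≠ ⊥) := by
  have hp := (Fact.out : p.Prime)
  have hP : IsPGroup p ↥(P : Subgroup (Equiv.Perm (Fin n))) := P.isPGroup'
  constructor
  · rw [eq_bot_iff]
    intro g hg
    rw [Subgroup.mem_bot]
    apply Subtype.ext
    apply Equiv.ext
    intro a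
    obtain ⟨j, hj⟩ := hP.index (MulAction.stabilizer ↥(P : Subgroup (Equiv.Perm (Fin n))) a)
    have h1 : p ^ j ≤ n := by
      rw [← hj, MulAction.index_stabilizer]
      calc _ ≤ Nat.card (Fin n) := Set.ncard_le_card _
        _ = n := by simp
    have h2 : j ≤ Nat.log p n := Nat.le_log_of_pow_le hp.one_lt h1
    have h3 := der_le hP j (MulAction.stabilizer ↥(P : Subgroup (Equiv.Perm (Fin n))) a)
      (by rw [← hj]; exact Subgroup.card_mul_index _)
    have h4 := h3 (derivedSeries_antitone _ h2 hg)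
    exact h4
  · intro hk
    obtain ⟨k, hk'⟩ : ∃ k, Nat.log p n = k + 1 := ⟨Nat.log p n - 1, by omega⟩
    rw [hk', Nat.add_sub_cancel]
    have hpk : p ^ (k + 1) ≤ n := by
      rw [← hk']; exact Nat.pow_log_le_self p (by omega)
    let Z := Multiplicative (ZMod p)
    have hZ : Nat.card Z = p := by simp [Z]
    have : Nontrivial Z := by
      rw [← Finite.one_lt_card_iff_nontrivial, hZ]; exact hp.one_lt
    have hW : IsPGroup p (IteratedWreathProduct Z (k + 1)) := by
      apply IsPGroup.of_card (n := ∑ i ∈ Finset.range (k + 1), p ^ i)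
      rw [IteratedWreathProduct.card, hZ]
    obtain ⟨ι⟩ : Nonempty ((Fin (k + 1) → Z) ↪ Fin n) := by
      apply Function.Embedding.nonempty_of_card_le
      rw [← Nat.card_eq_fintype_card, ← Nat.card_eq_fintype_card, Nat.card_fun, hZ]
      simpa using hpk
    let g : IteratedWreathProduct Z (k + 1) →* Equiv.Perm (Fin n) :=
      (Equiv.Perm.viaEmbeddingHom ι).comp (iteratedWreathToPermHom Z (k + 1))
    have hg : Function.Injective g :=
      (Equiv.Perm.viaEmbeddingHom_injective ι).comp (iteratedWreathToPermHomInj Z (k + 1))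
    have hr : IsPGroup p g.range := hW.of_surjective g.rangeRestrict g.rangeRestrict_surjective
    obtain ⟨R, hR⟩ := hr.exists_le_sylow
    let g' : IteratedWreathProduct Z (k + 1) →* ↥(R : Subgroup (Equiv.Perm (Fin n))) :=
      g.codRestrict _ (fun w => hR ⟨w, rfl⟩)
    have hg' : Function.Injective g' := by
      intro a b hab
      exact hg (congrArg Subtype.val hab)
    have h1 := ns_inj g' hg' (ns_iter Z k)
    exact ns_inj (R.equiv P).toMonoidHom (R.equiv P).injective h1

end Cfsg.Agent.S4014
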