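import Mathlib
import Cfsg.Statements.S4023
import Cfsg.Agent.S0016
import Cfsg.Agent.Lib.Helper23.SecRank

set_option autoImplicit false
open Cfsg

namespace Cfsg.Agent.S4023

open Subgroup QuaternionGroup
open scoped Pointwise

section basic
variable {T : Type*} [Group T] [Finite T] {p : ℕ} [Fact p.Prime]

theorem inf_bot (N : Subgroup T) (g : T) (hg : orderOf g = p) (hgN : g ∉ N) :
    zpowers g ⊓ N = ⊥ := by
  have hc : Nat.card (zpowers g) = p := by rw [Nat.card_zpowers, hg]
  have : Fact (Nat.card (zpowers g)).Prime := ⟨by rw [hc]; exact Fact.out⟩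
  rcases Subgroup.eq_bot_or_eq_top_of_prime_card (N.subgroupOf (zpowers g)) with h | h
  · rw [Subgroup.subgroupOf_eq_bot] at h
    rw [inf_comm]
    exact h.eq_bot
  · rw [Subgroup.subgroupOf_eq_top] at h
    exact absurd (h (mem_zpowers g)) hgN

theorem step (N : Subgroup T) (g : T) (hg : orderOf g = p) (hgN : g ∉ N)
    (hn : g ∈ normalizer (N : Set T)) : Nat.card (zpowers g ⊔ N : Subgroup T) = p * Nat.card N := by
  rw [Cfsg.Agent.Lib.Helper23.card_sup_eq_mul (zpowers g) N (zpowers_le.2 hn) (inf_bot N g hg hgN),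
    Nat.card_zpowers, hg]

omit [Finite T] in
theorem comm_step (N : Subgroup T) (g : T) (hN : IsMulCommutative N)
    (hc : N ≤ centralizer {g}) : IsMulCommutative (zpowers g ⊔ N : Subgroup T) := by
  rw [← Subgroup.le_centralizer_iff_isMulCommutative]
  have h1 : N ≤ centralizer (N : Set T) := Subgroup.le_centralizer_iff_isMulCommutative.2 hN
  have h2 : zpowers g ≤ centralizer (N : Set T) := by
    rw [zpowers_le, mem_centralizer_iff]
    intro n hn
    have := mem_centralizer_iff.1 (hc hn) g rfl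
    exact this.symm
  have h3 : N ≤ centralizer ((zpowers g : Subgroup T) : Set T) := Subgroup.le_centralizer_iff.1 h2
  have h4 : zpowers g ≤ centralizer ((zpowers g : Subgroup T) : Set T) :=
    Subgroup.le_centralizer_iff_isMulCommutative.2 inferInstance
  apply sup_le
  · rw [Subgroup.le_centralizer_iff]
    exact sup_le h4 h3
  · rw [Subgroup.le_centralizer_iff]
    exact sup_le h2 h1

/-- all subgroups of equal order are isomorphic -/
def Iso (T : Type*) [Group T] : Prop :=
  ∀ H K : Subgroup T, Nat.card H = Nat.card K → Nonempty (H ≃* K)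

omit [Finite T] in
theorem Iso.of_equiv {Q : Type*} [Group Q] (e : T ≃* Q) (h : Iso T) : Iso Q := by
  intro H K hHK
  let eH : H ≃* H.map e.symm.toMonoidHom := H.equivMapOfInjective _ e.symm.injective
  let eK : K ≃* K.map e.symm.toMonoidHom := K.equivMapOfInjective _ e.symm.injective
  obtain ⟨f⟩ := h (H.map e.symm.toMonoidHom) (K.map e.symm.toMonoidHom)
    (by rw [← Nat.card_congr eH.toEquiv, ← Nat.card_congr eK.toEquiv, hHK])
  exact ⟨(eH.trans f).trans eK.symm⟩

omit [Finite T] in
theorem comm_of_equiv {H K : Subgroup T} (e : H ≃* K) (h : IsMulCommutative H) :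
    IsMulCommutative K := by
  refine ⟨⟨fun a b => ?_⟩⟩
  apply e.symm.injective
  rw [map_mul, map_mul]
  exact h.is_comm.comm _ _

theorem exists_central (hT : IsPGroup p T) [Nontrivial T] :
    ∃ z : T, z ∈ center T ∧ orderOf z = p := by
  have := hT.center_nontrivial
  have h1 : p ∣ Nat.card (center T) := by
    obtain ⟨n, hn⟩ := IsPGroup.iff_card.1 (hT.to_subgroup (center T))
    rw [hn]
    apply dvd_pow_self
    rintro rfl
    rw [pow_zero] at hn
    exact absurd (Finite.one_lt_card (α := center T)) (by omega)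
  obtain ⟨z, hz⟩ := exists_prime_orderOf_dvd_card' p h1
  exact ⟨z, z.2, by rw [← hz, Subgroup.orderOf_coe]⟩


omit [Finite T] [Fact p.Prime] in
theorem normal_zpowers {c : T} (hc : c ∈ center T) : (zpowers c).Normal := by
  refine ⟨fun n hn g => ?_⟩
  have h1 : n ∈ center T := (zpowers_le.2 hc) hn
  have h2 : g * n = n * g := mem_center_iff.1 h1 g
  rw [h2, mul_inv_cancel_right]
  exact hn

omit [Finite T] [Fact p.Prime] in
theorem mem_normalizer_of_le_centralizer {N : Subgroup T} {g : T} (hc : N ≤ centralizer {g}) :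
    g ∈ normalizer (N : Set T) := by
  rw [mem_normalizer_iff]
  intro h
  constructor
  · intro hh
    have h1 : g * h = h * g := mem_centralizer_iff.1 (hc hh) g rfl
    rw [h1, mul_inv_cancel_right]
    exact hh
  · intro hh
    have h1 : g * (g * h * g⁻¹) = (g * h * g⁻¹) * g := mem_centralizer_iff.1 (hc hh) g rfl
    have h2 : g * h * g⁻¹ = h := by
      have : g * (g * h * g⁻¹) = g * h := by rw [h1]; group
      exact mul_left_cancel this
    rwa [h2] at hh

omit [Finite T] [Fact p.Prime] in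
theorem pow_eq_one_of_mem_zpowers {g a : T} (hg : orderOf g = p) (ha : a ∈ zpowers g) :
    a ^ p = 1 := by
  obtain ⟨k, rfl⟩ := ha
  rw [← zpow_natCast, ← zpow_mul, mul_comm, zpow_mul, zpow_natCast, ← hg, pow_orderOf_eq_one,
    one_zpow]

theorem unique_of_sq (hT : IsPGroup p T) (hiso : Iso T) (x₀ : T) (hx₀ : orderOf x₀ = p ^ 2) :
    ∀ H K : Subgroup T, Nat.card H = p → Nat.card K = p → H = K := by
  have hp : p.Prime := Fact.out
  have : Nontrivial T := by
    refine ⟨x₀, 1, ?_⟩
    rintro rfl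
    rw [orderOf_one] at hx₀
    have := hp.one_lt
    nlinarith
  obtain ⟨z, hzc, hz⟩ := exists_central hT
  suffices h : ∀ H : Subgroup T, Nat.card H = p → H = zpowers z by
    intro H K hH hK
    rw [h H hH, h K hK]
  intro H hH
  by_contra hne
  have hzcard : Nat.card (zpowers z) = p := by rw [Nat.card_zpowers, hz]
  obtain ⟨h, hhH, hhz⟩ : ∃ h ∈ H, h ∉ zpowers z := by
    by_contra hcon
    push Not at hcon
    exact hne (Subgroup.eq_of_le_of_card_ge hcon (by rw [hH, hzcard]))
  have hh1 : h ≠ 1 := by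
    rintro rfl
    exact hhz (one_mem _)
  have hho : orderOf h = p := by
    have h1 : orderOf (⟨h, hhH⟩ : H) ∣ Nat.card H := orderOf_dvd_natCard _
    rw [hH, Subgroup.orderOf_mk] at h1
    rcases (Nat.dvd_prime hp).1 h1 with h2 | h2
    · exact absurd (orderOf_eq_one_iff.1 h2) hh1
    · exact h2
  have hnz : (zpowers z).Normal := normal_zpowers hzc
  have hcard : Nat.card (zpowers h ⊔ zpowers z : Subgroup T) = p ^ 2 := by
    rw [step (zpowers z) h hho hhz (by rw [normalizer_eq_top_iff.2 hnz]; exact mem_top _), hzcard,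
      sq]
  have hexp : ∀ y ∈ (zpowers h ⊔ zpowers z : Subgroup T), y ^ p = 1 := by
    intro y hy
    have h1 : y ∈ ((zpowers h ⊔ zpowers z : Subgroup T) : Set T) := hy
    rw [Subgroup.mul_normal] at h1
    obtain ⟨a, ha, b, hb, rfl⟩ := Set.mem_mul.1 h1
    have hbc : b ∈ center T := (zpowers_le.2 hzc) hb
    have hcomm : Commute a b := mem_center_iff.1 hbc a
    rw [hcomm.mul_pow, pow_eq_one_of_mem_zpowers hho ha, pow_eq_one_of_mem_zpowers hz hb, one_mul]
  obtain ⟨e⟩ := hiso (zpowers h ⊔ zpowers z) (zpowers x₀) (by rw [hcard, Nat.card_zpowers, hx₀])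
  have h1 : (e.symm ⟨x₀, mem_zpowers x₀⟩) ^ p = 1 := by
    apply Subtype.ext
    rw [Subgroup.coe_pow]
    exact hexp _ (e.symm ⟨x₀, mem_zpowers x₀⟩).2
  rw [← map_pow, map_eq_one_iff e.symm e.symm.injective] at h1
  have h2 : x₀ ^ p = 1 := congrArg Subtype.val h1
  have h3 := orderOf_dvd_of_pow_eq_one h2
  rw [hx₀] at h3
  have h4 := Nat.le_of_dvd hp.pos h3
  have := hp.one_lt
  nlinarith

theorem exp_p (hT : IsPGroup p T) (h : ¬ ∃ x : T, orderOf x = p ^ 2) (y : T) : y ^ p = 1 := by
  have hp : p.Prime := Fact.out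
  obtain ⟨k, hk⟩ := hT y
  obtain ⟨j, -, hj⟩ := (Nat.dvd_prime_pow hp).1 (orderOf_dvd_of_pow_eq_one hk)
  by_cases hj1 : j ≤ 1
  · apply orderOf_dvd_iff_pow_eq_one.1
    rw [hj]
    calc p ^ j ∣ p ^ 1 := pow_dvd_pow p hj1
      _ = p := pow_one p
  · exfalso
    apply h
    refine ⟨y ^ (p ^ (j - 2)), ?_⟩
    rw [orderOf_pow_of_dvd (pow_ne_zero _ hp.ne_zero) (by rw [hj]; exact pow_dvd_pow p (by omega)),
      hj, Nat.pow_div (by omega) hp.pos]
    congr 1
    omega

end basic

def parity (m : ℕ) : QuaternionGroup m → Multiplicative (ZMod 2)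
  | a i => Multiplicative.ofAdd (ZMod.castHom (dvd_mul_right 2 m) (ZMod 2) i)
  | xa i => Multiplicative.ofAdd (ZMod.castHom (dvd_mul_right 2 m) (ZMod 2) i)

def parityHom (m : ℕ) (hm : 2 ∣ m) : QuaternionGroup m →* Multiplicative (ZMod 2) :=
  MonoidHom.mk' (parity m) (by
    have hm0 : ((m : ℕ) : ZMod 2) = 0 := (ZMod.natCast_eq_zero_iff m 2).2 hm
    rintro (i | i) (j | j)
    · simp only [a_mul_a, parity, map_add, ofAdd_add]
    · simp only [a_mul_xa, parity, map_sub, ← ofAdd_add]
      congr 1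
      rw [CharTwo.sub_eq_add, add_comm]
    · simp only [xa_mul_a, parity, map_add, ofAdd_add]
    · simp only [xa_mul_xa, parity, map_add, map_sub, map_natCast, hm0, zero_add, ← ofAdd_add]
      congr 1
      rw [CharTwo.sub_eq_add, add_comm])

theorem card_ker (m : ℕ) [NeZero m] (hm : 2 ∣ m) : Nat.card (parityHom m hm).ker = 2 * m := by
  have h1 : (parityHom m hm).range = ⊤ := by
    rw [MonoidHom.range_eq_top]
    intro y
    have : y = Multiplicative.ofAdd 0 ∨ y = Multiplicative.ofAdd 1 := by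
      revert y; decide
    rcases this with rfl | rfl
    · exact ⟨1, map_one _⟩
    · refine ⟨a 1, ?_⟩
      change parity m (a 1) = _
      simp [parity]
  have h2 := Subgroup.index_ker (parityHom m hm)
  rw [h1, Subgroup.card_top] at h2
  have h3 : Nat.card (Multiplicative (ZMod 2)) = 2 := by
    simp [Nat.card_eq_fintype_card]
  have h4 := Subgroup.card_mul_index (parityHom m hm).ker
  rw [h2, h3, Nat.card_eq_fintype_card (α := QuaternionGroup m), QuaternionGroup.card] at h4
  omega


theorem not_iso_quaternion (m : ℕ) [NeZero m] (hm : 2 ∣ m) (hm2 : 2 < m) :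
    ¬ Iso (QuaternionGroup m) := by
  intro h
  obtain ⟨e⟩ := h (zpowers (a 1)) (parityHom m hm).ker
    (by rw [Nat.card_zpowers, orderOf_a_one, card_ker])
  have hc : IsMulCommutative (parityHom m hm).ker := comm_of_equiv e inferInstance
  have h1 : (xa 0 : QuaternionGroup m) ∈ (parityHom m hm).ker := by
    rw [MonoidHom.mem_ker]
    change parity m (xa 0) = 1
    simp [parity]
  have h2 : (a 2 : QuaternionGroup m) ∈ (parityHom m hm).ker := by
    rw [MonoidHom.mem_ker]
    change Multiplicative.ofAdd (ZMod.castHom (dvd_mul_right 2 m) (ZMod 2) 2) = 1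
    have : (2 : ZMod 2) = 0 := by decide
    rw [map_ofNat, this]
    rfl
  have h3 := congrArg Subtype.val (hc.is_comm.comm ⟨xa 0, h1⟩ ⟨a 2, h2⟩)
  simp only [Subgroup.coe_mul, xa_mul_a, a_mul_xa, xa.injEq] at h3
  have h4 : ((4 : ℕ) : ZMod (2 * m)) = 0 := by
    have : (4 : ZMod (2 * m)) = (0 + 2) - (0 - 2) := by ring
    push_cast
    rw [this, h3, sub_self]
  rw [ZMod.natCast_eq_zero_iff] at h4
  have := Nat.le_of_dvd (by norm_num) h4
  omega


section expp
variable {T : Type*} [Group T] [Finite T] {p : ℕ} [Fact p.Prime]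

omit [Finite T] in
theorem orderOf_eq_p (hexp : ∀ y : T, y ^ p = 1) {y : T} (hy : y ≠ 1) : orderOf y = p :=
  orderOf_eq_prime (hexp y) hy

omit [Finite T] [Fact p.Prime] in
theorem conj_smul_zpowers (x w : T) : MulAut.conj x • zpowers w = zpowers (x * w * x⁻¹) :=
  MonoidHom.map_zpowers (MulAut.conj x).toMonoidHom w

/-- a nonabelian subgroup of order `p ^ 3` -/
theorem exists_nonabelian (hT : IsPGroup p T) (hexp : ∀ y : T, y ^ p = 1)
    (hna : ¬ IsMulCommutative T) :
    ∃ E : Subgroup T, Nat.card E = p ^ 3 ∧ ¬ IsMulCommutative E := by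
  have hZ : center T ≠ ⊤ := by
    intro h
    apply hna
    refine ⟨⟨fun a b => ?_⟩⟩
    have : b ∈ center T := h ▸ mem_top b
    exact mem_center_iff.1 this a
  have hnt : Nontrivial (T ⧸ center T) := by
    rw [← Finite.one_lt_card_iff_nontrivial]
    have h1 : (center T).index ≠ 1 := fun h => hZ (index_eq_one.1 h)
    have h2 : (center T).index ≠ 0 := index_ne_zero_of_finite
    change 1 < (center T).index
    omega
  have hQ : IsPGroup p (T ⧸ center T) := hT.to_quotient _
  have hcn := hQ.center_nontrivial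
  obtain ⟨⟨wb, hwb⟩, hwb1⟩ := exists_ne (1 : center (T ⧸ center T))
  obtain ⟨w, rfl⟩ := QuotientGroup.mk_surjective wb
  have hwZ : w ∉ center T := by
    intro h
    apply hwb1
    apply Subtype.ext
    exact (QuotientGroup.eq_one_iff w).2 h
  have hcomm : ∀ g : T, g * w * g⁻¹ * w⁻¹ ∈ center T := by
    intro g
    rw [← QuotientGroup.eq_one_iff]
    have h1 : (g : T ⧸ center T) * (w : T ⧸ center T) = (w : T ⧸ center T) * g :=
      mem_center_iff.1 hwb g
    rw [QuotientGroup.mk_mul, QuotientGroup.mk_mul, QuotientGroup.mk_mul, h1, QuotientGroup.mk_inv,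
      QuotientGroup.mk_inv]
    group
  obtain ⟨x, hx⟩ : ∃ x : T, x * w ≠ w * x := by
    by_contra hcon
    push Not at hcon
    exact hwZ (mem_center_iff.2 hcon)
  set c : T := x * w * x⁻¹ * w⁻¹ with hc
  have hcZ : c ∈ center T := hcomm x
  have hc1 : c ≠ 1 := by
    intro h
    apply hx
    have : x * w * x⁻¹ * w⁻¹ * (w * x) = w * x := by rw [← hc, h, one_mul]
    rw [← this]
    group
  have hw1 : w ≠ 1 := by
    rintro rfl
    exact hwZ (one_mem _)
  have hx1 : x ≠ 1 := by
    rintro rfl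
    exact hx (by rw [one_mul, mul_one])
  have hnc : (zpowers c).Normal := normal_zpowers hcZ
  have hwc : w ∉ zpowers c := fun h => hwZ ((zpowers_le.2 hcZ) h)
  set N : Subgroup T := zpowers w ⊔ zpowers c with hN
  have hNcard : Nat.card N = p * p := by
    rw [hN, step (zpowers c) w (orderOf_eq_p hexp hw1) hwc
      (by rw [normalizer_eq_top_iff.2 hnc]; exact mem_top _), Nat.card_zpowers,
      orderOf_eq_p hexp hc1]
  have hNcomm : IsMulCommutative N := by
    apply comm_step _ _ inferInstance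
    rw [zpowers_le, mem_centralizer_iff]
    intro u hu
    rw [Set.mem_singleton_iff.1 hu]
    exact mem_center_iff.1 hcZ w
  have hwN : w ∈ N := (le_sup_left : zpowers w ≤ N) (mem_zpowers w)
  have hcN : c ∈ N := (le_sup_right : zpowers c ≤ N) (mem_zpowers c)
  have hxN : x ∉ N := by
    intro h
    exact hx (congrArg Subtype.val (hNcomm.is_comm.comm ⟨x, h⟩ ⟨w, hwN⟩))
  have hxn : x ∈ normalizer (N : Set T) := by
    rw [Cfsg.Agent.Lib.Helper23.mem_normalizer_iff_conj_smul, hN, Subgroup.smul_sup,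
      conj_smul_zpowers, conj_smul_zpowers]
    have h1 : x * c * x⁻¹ = c := by
      rw [mem_center_iff.1 hcZ x, mul_inv_cancel_right]
    have h2 : x * w * x⁻¹ = c * w := by rw [hc]; group
    rw [h1, h2]
    apply le_antisymm
    · apply sup_le _ le_sup_right
      rw [zpowers_le]
      exact mul_mem hcN hwN
    · apply sup_le _ le_sup_right
      rw [zpowers_le]
      have h4 : c ∈ zpowers (c * w) ⊔ zpowers c :=
        (le_sup_right : zpowers c ≤ zpowers (c * w) ⊔ zpowers c) (mem_zpowers c)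
      have h5 : c * w ∈ zpowers (c * w) ⊔ zpowers c :=
        (le_sup_left : zpowers (c * w) ≤ zpowers (c * w) ⊔ zpowers c) (mem_zpowers _)
      have h6 := mul_mem (inv_mem h4) h5
      rwa [inv_mul_cancel_left] at h6
  refine ⟨zpowers x ⊔ N, ?_, ?_⟩
  · rw [step N x (orderOf_eq_p hexp hx1) hxN hxn, hNcard]
    ring
  · intro h
    have hxE : x ∈ zpowers x ⊔ N := (le_sup_left : zpowers x ≤ _) (mem_zpowers x)
    have hwE : w ∈ zpowers x ⊔ N := (le_sup_right : N ≤ _) hwN
    exact hx (congrArg Subtype.val (h.is_comm.comm ⟨x, hxE⟩ ⟨w, hwE⟩))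

/-- an abelian subgroup of order `p ^ 3` -/
theorem exists_abelian (hT : IsPGroup p T) (hexp : ∀ y : T, y ^ p = 1) (n : ℕ) (hn : 4 ≤ n)
    (hcard : Nat.card T = p ^ n) :
    ∃ B : Subgroup T, Nat.card B = p ^ 3 ∧ IsMulCommutative B := by
  have hp : p.Prime := Fact.out
  have : Nontrivial T := by
    rw [← Finite.one_lt_card_iff_nontrivial, hcard]
    exact Nat.one_lt_pow (by omega) hp.one_lt
  obtain ⟨z, hzc, hz⟩ := exists_central hT
  have hnz : (zpowers z).Normal := normal_zpowers hzc
  have hzcard : Nat.card (zpowers z) = p := by rw [Nat.card_zpowers, hz]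
  have hnt : Nontrivial (T ⧸ zpowers z) := by
    rw [← Finite.one_lt_card_iff_nontrivial]
    change 1 < (zpowers z).index
    have h1 := card_mul_index (zpowers z)
    rw [hzcard, hcard] at h1
    by_contra hcon
    have h2 : (zpowers z).index ≠ 0 := index_ne_zero_of_finite
    have h3 : (zpowers z).index = 1 := by omega
    rw [h3, mul_one] at h1
    have h4 : p ^ 1 < p ^ n := Nat.pow_lt_pow_right hp.one_lt (by omega)
    rw [pow_one] at h4
    omega
  have hQ : IsPGroup p (T ⧸ zpowers z) := hT.to_quotient _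
  have hcn := hQ.center_nontrivial
  obtain ⟨⟨yb, hyb⟩, hyb1⟩ := exists_ne (1 : center (T ⧸ zpowers z))
  obtain ⟨y, rfl⟩ := QuotientGroup.mk_surjective yb
  have hyz : y ∉ zpowers z := by
    intro h
    apply hyb1
    apply Subtype.ext
    exact (QuotientGroup.eq_one_iff y).2 h
  have hcomm : ∀ g : T, g * y * g⁻¹ * y⁻¹ ∈ zpowers z := by
    intro g
    rw [← QuotientGroup.eq_one_iff]
    have h1 : (g : T ⧸ zpowers z) * (y : T ⧸ zpowers z) = (y : T ⧸ zpowers z) * g :=
      mem_center_iff.1 hyb g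
    rw [QuotientGroup.mk_mul, QuotientGroup.mk_mul, QuotientGroup.mk_mul, h1, QuotientGroup.mk_inv,
      QuotientGroup.mk_inv]
    group
  have hy1 : y ≠ 1 := by
    rintro rfl
    exact hyz (one_mem _)
  let ψ : T →* zpowers z := MonoidHom.mk' (fun g => ⟨g * y * g⁻¹ * y⁻¹, hcomm g⟩) (by
    intro g h
    apply Subtype.ext
    change g * h * y * (g * h)⁻¹ * y⁻¹ = (g * y * g⁻¹ * y⁻¹) * (h * y * h⁻¹ * y⁻¹)
    have h1 : h * y * h⁻¹ * y⁻¹ ∈ center T := (zpowers_le.2 hzc) (hcomm h)
    have h2 : g * (h * y * h⁻¹ * y⁻¹) = (h * y * h⁻¹ * y⁻¹) * g := mem_center_iff.1 h1 g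
    have h3 : (g * y * g⁻¹ * y⁻¹) * (h * y * h⁻¹ * y⁻¹) =
        (h * y * h⁻¹ * y⁻¹) * (g * y * g⁻¹ * y⁻¹) := mem_center_iff.1 h1 _
    rw [h3]
    calc g * h * y * (g * h)⁻¹ * y⁻¹ = g * (h * y * h⁻¹ * y⁻¹) * y * g⁻¹ * y⁻¹ := by group
      _ = (h * y * h⁻¹ * y⁻¹) * (g * y * g⁻¹ * y⁻¹) := by rw [h2]; group)
  have hker : ∀ g : T, g ∈ ψ.ker → g * y = y * g := by
    intro g hg
    have h1 : g * y * g⁻¹ * y⁻¹ = 1 := congrArg Subtype.val (MonoidHom.mem_ker.1 hg)
    have : g * y * g⁻¹ * y⁻¹ * (y * g) = y * g := by rw [h1, one_mul]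
    rw [← this]
    group
  have hidx : ψ.ker.index ∣ p := by
    rw [Subgroup.index_ker, ← hzcard]
    exact Subgroup.card_subgroup_dvd_card _
  set N : Subgroup T := zpowers y ⊔ zpowers z with hN
  have hNcard : Nat.card N = p * p := by
    rw [hN, step (zpowers z) y (orderOf_eq_p hexp hy1) hyz
      (by rw [normalizer_eq_top_iff.2 hnz]; exact mem_top _), hzcard]
  have hNcomm : IsMulCommutative N := by
    apply comm_step _ _ inferInstance
    rw [zpowers_le, mem_centralizer_iff]
    intro u hu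
    rw [Set.mem_singleton_iff.1 hu]
    exact mem_center_iff.1 hzc y
  obtain ⟨g, hgK, hgN⟩ : ∃ g ∈ ψ.ker, g ∉ N := by
    by_contra hcon
    push Not at hcon
    have h1 : Nat.card ψ.ker ≤ Nat.card N := Subgroup.card_le_of_le hcon
    have h2 := card_mul_index ψ.ker
    have h3 : ψ.ker.index ≤ p := Nat.le_of_dvd hp.pos hidx
    rw [hcard] at h2
    rw [hNcard] at h1
    have h4 : p ^ n ≤ p * p * p := by
      rw [← h2]
      exact Nat.mul_le_mul h1 h3
    have h5 : p ^ 3 < p ^ n := Nat.pow_lt_pow_right hp.one_lt (by omega)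
    have h6 : p ^ 3 = p * p * p := by ring
    omega
  have hg1 : g ≠ 1 := by
    rintro rfl
    exact hgN (one_mem _)
  have hNg : N ≤ centralizer {g} := by
    rw [hN]
    apply sup_le
    · rw [zpowers_le, mem_centralizer_iff]
      intro u hu
      rw [Set.mem_singleton_iff.1 hu]
      exact hker g hgK
    · rw [zpowers_le, mem_centralizer_iff]
      intro u hu
      rw [Set.mem_singleton_iff.1 hu]
      exact mem_center_iff.1 hzc g
  refine ⟨zpowers g ⊔ N, ?_, comm_step N g hNcomm hNg⟩
  rw [step N g (orderOf_eq_p hexp hg1) hgN (mem_normalizer_of_le_centralizer hNg), hNcard]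
  ring

end expp


theorem main {T : Type*} [Group T] [Finite T] {p : ℕ} [Fact p.Prime] (hT : IsPGroup p T)
    (hiso : Iso T) :
    IsCyclic T ∨ (IsMulCommutative T ∧ ∀ x : T, x ^ p = 1) ∨
      (p = 2 ∧ Nonempty (T ≃* QuaternionGroup 2)) ∨
      (p ≠ 2 ∧ ¬ IsMulCommutative T ∧ Nat.card T = p ^ 3 ∧ Monoid.exponent T = p) := by
  have hp : p.Prime := Fact.out
  by_cases h : ∃ x₀ : T, orderOf x₀ = p ^ 2
  · obtain ⟨x₀, hx₀⟩ := h
    have hu := unique_of_sq hT hiso x₀ hx₀
    rcases Cfsg.Agent.S0016.result p hT hu with hc | ⟨hp2, n, ⟨e⟩⟩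
    · exact Or.inl hc
    · rcases n with _ | _ | n
      · left
        have e' : T ≃* QuaternionGroup 1 := e
        have := QuaternionGroup.quaternionGroup_one_isCyclic
        exact isCyclic_of_surjective e'.symm e'.symm.surjective
      · right; right; left
        exact ⟨hp2, ⟨e⟩⟩
      · exfalso
        have : NeZero (2 ^ (n + 1 + 1)) := ⟨by positivity⟩
        refine not_iso_quaternion (2 ^ (n + 1 + 1)) (dvd_pow_self 2 (by omega)) ?_
          (Iso.of_equiv e hiso)
        calc 2 < 2 ^ 2 := by norm_num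
          _ ≤ 2 ^ (n + 1 + 1) := Nat.pow_le_pow_right (by norm_num) (by omega)
  · have hexp := exp_p hT h
    by_cases hc : IsMulCommutative T
    · exact Or.inr (Or.inl ⟨hc, hexp⟩)
    · right; right; right
      refine ⟨?_, hc, ?_, ?_⟩
      · intro hp2
        subst hp2
        exact hc (Cfsg.Agent.Lib.Helper23.isMulCommutative_of_sq_eq_one hexp)
      · obtain ⟨n, hn⟩ := IsPGroup.iff_card.1 hT
        obtain ⟨E, hE, hEna⟩ := exists_nonabelian hT hexp hc
        have h3 : 3 ≤ n := by
          have h1 := Subgroup.card_subgroup_dvd_card E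
          rw [hE, hn] at h1
          exact (Nat.pow_dvd_pow_iff_le_right hp.one_lt).1 h1
        have h4 : ¬ 4 ≤ n := by
          intro h4
          obtain ⟨B, hB, hBc⟩ := exists_abelian hT hexp n h4 hn
          obtain ⟨e⟩ := hiso B E (by rw [hB, hE])
          exact hEna (comm_of_equiv e hBc)
        have : n = 3 := by omega
        rw [hn, this]
      · have h1 : Monoid.exponent T ∣ p := Monoid.exponent_dvd_of_forall_pow_eq_one hexp
        rcases (Nat.dvd_prime hp).1 h1 with h2 | h2
        · exfalso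
          have := Monoid.exp_eq_one_iff.1 h2
          exact hc ⟨⟨fun a b => Subsingleton.elim _ _⟩⟩
        · exact h2

/-- Let p be a prime and G a finite group in which any two p-subgroups of the same order are conjugate, with Sylow p-subgroup P. Then P is cyclic, or elementary abelian, or p = 2 and P is a quaternion group of order 8, or p is odd and P is non-abelian of order p³ and exponent p. -/
theorem result {G : Type*} [Group G] [Finite G]
    {p : ℕ} [Fact p.Prime] (hC : ∀ H K : Subgroup G, IsPGroup p H → IsPGroup p K → Nat.card H = Nat.card K →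
      ∃ g : G, K = H.map (MulAut.conj g).toMonoidHom) (P : Sylow p G) :
    IsCyclic P ∨ Cfsg.IsElementaryAbelian p (P : Subgroup G) ∨
      (p = 2 ∧ Nonempty ((P : Subgroup G) ≃* QuaternionGroup 2)) ∨
      (p ≠ 2 ∧ ¬ IsMulCommutative P ∧ Nat.card P = p ^ 3 ∧ Monoid.exponent P = p) := by
  have hiso : Iso (P : Subgroup G) := by
    intro H K hHK
    let eH : H ≃* H.map (P : Subgroup G).subtype :=
      H.equivMapOfInjective _ (P : Subgroup G).subtype_injective
    let eK : K ≃* K.map (P : Subgroup G).subtype :=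
      K.equivMapOfInjective _ (P : Subgroup G).subtype_injective
    obtain ⟨g, hg⟩ := hC (H.map (P : Subgroup G).subtype) (K.map (P : Subgroup G).subtype)
      (P.2.to_le (Subgroup.map_subtype_le H)) (P.2.to_le (Subgroup.map_subtype_le K))
      (by rw [← Nat.card_congr eH.toEquiv, ← Nat.card_congr eK.toEquiv, hHK])
    let e1 : H.map (P : Subgroup G).subtype ≃*
        (H.map (P : Subgroup G).subtype).map (MulAut.conj g).toMonoidHom :=
      Subgroup.equivMapOfInjective _ _ (MulAut.conj g).injective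
    exact ⟨((eH.trans e1).trans (MulEquiv.subgroupCongr hg.symm)).trans eK.symm⟩
  rcases main P.2 hiso with h | ⟨h1, h2⟩ | h | h
  · exact Or.inl h
  · right; left
    exact ⟨h1, fun a ha => congrArg Subtype.val (h2 ⟨a, ha⟩)⟩
  · exact Or.inr (Or.inr (Or.inl h))
  · exact Or.inr (Or.inr (Or.inr h))

end Cfsg.Agent.S4023
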