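import Cfsg.Statements.S4024
import Mathlib
import Cfsg.Agent.S4023
import Cfsg.Agent.Lib.Helper16.QCore
import Cfsg.Agent.Lib.Helper16.Syl
import Cfsg.Agent.Lib.Helper17.Cores
import Cfsg.Agent.Lib.Helper29.PSolvable2
import Cfsg.Agent.Lib.Helper20.PSolvable

set_option autoImplicit false
open Cfsg

namespace Cfsg.Agent.S4024


theorem dvd_card_pPrimePCore {X : Type*} [Group X] [Finite X] {p : ℕ} [Fact p.Prime]
    (h : Cfsg.IsPSolvable p X) (hdiv : p ∣ Nat.card X) : p ∣ Nat.card (Cfsg.pPrimePCore p X) := by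
  have hp : p.Prime := Fact.out
  haveI hnt : Nontrivial (X ⧸ Cfsg.pPrimeCore p X) := by
    by_contra hcon
    rw [not_nontrivial_iff_subsingleton] at hcon
    have htop : Cfsg.pPrimeCore p X = ⊤ := QuotientGroup.subgroup_eq_top_of_subsingleton _ hcon
    have hc := Cfsg.Agent.Lib.Helper17.pPrimeCore_coprime (G := X) p
    rw [htop, Subgroup.card_top] at hc
    exact (Nat.Prime.coprime_iff_not_dvd hp).mp hc.symm hdiv
  obtain ⟨M, hMn, hM1, hM⟩ := Cfsg.Agent.Lib.Helper20.IsPSolvable.exists_normal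
    (Cfsg.Agent.Lib.Helper29.psol_quotient h (Cfsg.pPrimeCore p X))
  have hMp : IsPGroup p M := by
    rcases hM with hM | hM
    · exact hM
    · exfalso
      have := Cfsg.Agent.Lib.Helper17.le_pPrimeCore hMn hM
      rw [Cfsg.Agent.Lib.Helper29.pPrimeCore_quotient_self] at this
      exact hM1 (le_bot_iff.mp this)
  have hle := Cfsg.Agent.Lib.Helper17.le_pCore hMn hMp
  have h1 : p ∣ Nat.card M := by
    obtain ⟨k, hk⟩ := IsPGroup.iff_card.mp hMp
    rw [hk]
    apply dvd_pow_self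
    rintro rfl
    rw [pow_zero] at hk
    exact hM1 ((Subgroup.card_eq_one).mp hk)
  have h2 : Nat.card M ∣ Nat.card (Cfsg.pCore p (X ⧸ Cfsg.pPrimeCore p X)) :=
    Subgroup.card_dvd_of_le hle
  have h3 := Cfsg.Agent.Lib.Helper29.card_eq_relIndex_comap (Cfsg.pPrimeCore p X)
    (Cfsg.pCore p (X ⧸ Cfsg.pPrimeCore p X))
  have h4 : (Cfsg.pPrimeCore p X).relIndex (Cfsg.pPrimePCore p X) ∣
      Nat.card (Cfsg.pPrimePCore p X) := Subgroup.relIndex_dvd_card _ _
  refine (h1.trans h2).trans ?_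
  rw [h3]
  exact h4

theorem pow_mem_pPrimeCore {X : Type*} [Group X] [Finite X] {p : ℕ} [Fact p.Prime]
    (l : X) (hl : l ∈ Cfsg.pPrimePCore p X) : ∃ k : ℕ, l ^ p ^ k ∈ Cfsg.pPrimeCore p X := by
  have h1 : QuotientGroup.mk' (Cfsg.pPrimeCore p X) l ∈ Cfsg.pCore p (X ⧸ Cfsg.pPrimeCore p X) := hl
  obtain ⟨k, hk⟩ := Cfsg.Agent.Lib.Helper17.pCore_isPGroup (G := X ⧸ Cfsg.pPrimeCore p X) p ⟨_, h1⟩
  refine ⟨k, ?_⟩
  have h2 := congrArg Subtype.val hk
  simp only [Subgroup.coe_pow, Subgroup.coe_one] at h2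
  rw [← map_pow] at h2
  exact (QuotientGroup.eq_one_iff _).mp h2

/-- no fusion of central elements -/
theorem central_conj {G : Type*} [Group G] [Finite G] {p : ℕ} [Fact p.Prime] (P : Sylow p G)
    (K L : Subgroup G) [K.Normal] [L.Normal] (hKL : K ≤ L) (hK : (Nat.card K).Coprime p)
    (hpow : ∀ l ∈ L, ∃ k : ℕ, l ^ p ^ k ∈ K) (hPL : (P : Subgroup G) ≤ L)
    (z : G) (hz : z ∈ (P : Subgroup G)) (hzc : ∀ y ∈ (P : Subgroup G), z * y = y * z)
    (g : G) (hg : g * z * g⁻¹ ∈ (P : Subgroup G)) :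
    ∀ y ∈ (P : Subgroup G), (g * z * g⁻¹) * y = y * (g * z * g⁻¹) := by
  have hS : Cfsg.Agent.Lib.Helper16.SylIn p (P : Subgroup G) L :=
    (Cfsg.Agent.Lib.Helper16.sylIn_top P).mono hPL le_top
  have hnL : (⊤ : Subgroup G) ≤ Subgroup.normalizer (L : Set G) := by
    rw [Subgroup.normalizer_eq_top]
  have hnK : L ≤ Subgroup.normalizer (K : Set G) := by
    rw [Subgroup.normalizer_eq_top]; exact le_top
  obtain ⟨l, hl, m, hm, rfl⟩ := hS.frattini hnL (Subgroup.mem_top g)
  have hLle : L ≤ K ⊔ (P : Subgroup G) :=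
    Cfsg.Agent.Lib.Helper16.eq_of_sylIn_le_of_pow hS hKL hnK hpow le_sup_left le_sup_right
  have hl' : l ∈ ((K ⊔ (P : Subgroup G) : Subgroup G) : Set G) := hLle hl
  rw [Subgroup.normal_mul] at hl'
  obtain ⟨k, hk, s, hs, rfl⟩ := Set.mem_mul.mp hl'
  -- z' = m z m⁻¹ is central in P
  have hm' := Subgroup.mem_normalizer_iff.mp hm
  have hz'P : m * z * m⁻¹ ∈ (P : Subgroup G) := (hm' z).mp hz
  have hz'c : ∀ y ∈ (P : Subgroup G), (m * z * m⁻¹) * y = y * (m * z * m⁻¹) := by
    intro y hy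
    have hy' : m⁻¹ * y * m ∈ (P : Subgroup G) := by
      rw [hm' (m⁻¹ * y * m)]
      have : m * (m⁻¹ * y * m) * m⁻¹ = y := by group
      rw [this]; exact hy
    have h1 := hzc _ hy'
    calc m * z * m⁻¹ * y = m * (z * (m⁻¹ * y * m)) * m⁻¹ := by group
      _ = m * ((m⁻¹ * y * m) * z) * m⁻¹ := by rw [h1]
      _ = y * (m * z * m⁻¹) := by group
  have hs1 : s * (m * z * m⁻¹) * s⁻¹ = m * z * m⁻¹ := by
    rw [← hz'c s hs]; group
  have hconj : k * s * m * z * (k * s * m)⁻¹ = k * (m * z * m⁻¹) * k⁻¹ := by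
    calc k * s * m * z * (k * s * m)⁻¹ = k * (s * (m * z * m⁻¹) * s⁻¹) * k⁻¹ := by group
      _ = k * (m * z * m⁻¹) * k⁻¹ := by rw [hs1]
  rw [hconj] at hg ⊢
  have hmem : k * (m * z * m⁻¹) * k⁻¹ * (m * z * m⁻¹)⁻¹ ∈ K ⊓ (P : Subgroup G) := by
    refine Subgroup.mem_inf.mpr ⟨?_, mul_mem hg (inv_mem hz'P)⟩
    have h1 : (m * z * m⁻¹) * k⁻¹ * (m * z * m⁻¹)⁻¹ ∈ K :=
      ‹K.Normal›.conj_mem _ (inv_mem hk) _
    have h2 := mul_mem hk h1
    have h3 : k * (m * z * m⁻¹ * k⁻¹ * (m * z * m⁻¹)⁻¹) =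
        k * (m * z * m⁻¹) * k⁻¹ * (m * z * m⁻¹)⁻¹ := by group
    rw [← h3]; exact h2
  have hbot : K ⊓ (P : Subgroup G) = ⊥ := by
    apply Subgroup.inf_eq_bot_of_coprime
    obtain ⟨e, he⟩ := IsPGroup.iff_card.mp P.2
    rw [he]
    exact Nat.Coprime.pow_right e hK
  rw [hbot, Subgroup.mem_bot] at hmem
  have heq : k * (m * z * m⁻¹) * k⁻¹ = m * z * m⁻¹ := mul_inv_eq_one.mp hmem
  rw [heq]
  exact hz'c


/-- Let p be an odd prime and G a finite group in which any two p-subgroups of the same order are conjugate, with Sylow p-subgroup P. If H is a normal p-solvable subgroup of G whose order is divisible by p, then P is abelian, and either P ≤ H or P is cyclic. -/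
theorem result {G : Type*} [Group G] [Finite G]
    {p : ℕ} [Fact p.Prime] (hp : p ≠ 2) (hC : ∀ H K : Subgroup G, IsPGroup p H → IsPGroup p K → Nat.card H = Nat.card K →
      ∃ g : G, K = H.map (MulAut.conj g).toMonoidHom) (P : Sylow p G)
    (H : Subgroup G) [H.Normal] (hsolv : Cfsg.IsPSolvable p H) (hdiv : p ∣ Nat.card H) :
    IsMulCommutative P ∧ ((P : Subgroup G) ≤ H ∨ IsCyclic P) := by
  classical
  have hpp : p.Prime := Fact.out
  -- elements of order p lie in every normal subgroup of order divisible by p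
  have hord : ∀ (N : Subgroup G), N.Normal → p ∣ Nat.card N → ∀ x : G, orderOf x = p → x ∈ N := by
    intro N hN hd x hx
    obtain ⟨h, hh⟩ := exists_prime_orderOf_dvd_card' (G := N) p hd
    have hh' : orderOf (h : G) = p := by rw [Subgroup.orderOf_coe]; exact hh
    obtain ⟨g, hg⟩ := hC (Subgroup.zpowers (h : G)) (Subgroup.zpowers x)
      (IsPGroup.of_card (n := 1) (by rw [Nat.card_zpowers, hh', pow_one]))
      (IsPGroup.of_card (n := 1) (by rw [Nat.card_zpowers, hx, pow_one]))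
      (by rw [Nat.card_zpowers, Nat.card_zpowers, hh', hx])
    have hxm : x ∈ (Subgroup.zpowers (h : G)).map (MulAut.conj g).toMonoidHom := by
      rw [← hg]; exact Subgroup.mem_zpowers x
    obtain ⟨w, hw, rfl⟩ := Subgroup.mem_map.mp hxm
    have hwN : w ∈ N := (Subgroup.zpowers_le.mpr h.2) hw
    exact hN.conj_mem w hwN g
  have hexpP : (∀ x ∈ (P : Subgroup G), x ^ p = 1) →
      ∀ (N : Subgroup G), N.Normal → p ∣ Nat.card N → (P : Subgroup G) ≤ N := by
    intro hexp N hN hd x hx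
    by_cases hx1 : x = 1
    · rw [hx1]; exact one_mem _
    · exact hord N hN hd x (orderOf_eq_prime (hexp x hx) hx1)
  rcases Cfsg.Agent.S4023.result hC P with h | h | h | h
  · exact ⟨IsCyclic.isMulCommutative, Or.inr h⟩
  · exact ⟨h.1, Or.inl (hexpP h.2 H inferInstance hdiv)⟩
  · exact absurd h.1 hp
  · exfalso
    obtain ⟨-, hna, hcard, hexp⟩ := h
    have hexp' : ∀ x ∈ (P : Subgroup G), x ^ p = 1 := by
      intro x hx
      have := Monoid.pow_exponent_eq_one (⟨x, hx⟩ : ↥(P : Subgroup G))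
      rw [hexp] at this
      exact congrArg Subtype.val this
    haveI hc1 := Cfsg.Agent.Lib.Helper17.pPrimeCore_characteristic (G := ↥H) p
    haveI hc2 := Cfsg.Agent.Lib.Helper16.pPrimePCore_characteristic (G := ↥H) p
    haveI hKn : ((Cfsg.pPrimeCore p ↥H).map H.subtype).Normal :=
      ConjAct.normal_of_characteristic_of_normal
    haveI hLn : ((Cfsg.pPrimePCore p ↥H).map H.subtype).Normal :=
      ConjAct.normal_of_characteristic_of_normal
    have hKL : (Cfsg.pPrimeCore p ↥H).map H.subtype ≤ (Cfsg.pPrimePCore p ↥H).map H.subtype :=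
      Subgroup.map_mono Cfsg.Agent.Lib.Helper29.pPrimeCore_le_pPrimePCore
    have hK : (Nat.card ((Cfsg.pPrimeCore p ↥H).map H.subtype)).Coprime p := by
      rw [Subgroup.card_subtype]
      exact Cfsg.Agent.Lib.Helper17.pPrimeCore_coprime p
    have hLd : p ∣ Nat.card ((Cfsg.pPrimePCore p ↥H).map H.subtype) := by
      rw [Subgroup.card_subtype]
      exact dvd_card_pPrimePCore hsolv hdiv
    have hpow : ∀ l ∈ (Cfsg.pPrimePCore p ↥H).map H.subtype,
        ∃ k : ℕ, l ^ p ^ k ∈ (Cfsg.pPrimeCore p ↥H).map H.subtype := by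
      intro l hl
      obtain ⟨w, hw, rfl⟩ := Subgroup.mem_map.mp hl
      obtain ⟨k, hk⟩ := pow_mem_pPrimeCore w hw
      exact ⟨k, Subgroup.mem_map.mpr ⟨_, hk, by simp⟩⟩
    have hPL := hexpP hexp' _ hLn hLd
    have key := central_conj P _ _ hKL hK hpow hPL
    -- central element
    haveI : Nontrivial ↥(P : Subgroup G) := by
      by_contra hcon
      rw [not_nontrivial_iff_subsingleton] at hcon
      exact hna ⟨⟨fun a b => Subsingleton.elim _ _⟩⟩
    have hcn := P.2.center_nontrivial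
    obtain ⟨z, hz⟩ := exists_ne (1 : Subgroup.center ↥(P : Subgroup G))
    have hzc : ∀ y ∈ (P : Subgroup G), ((z : ↥(P : Subgroup G)) : G) * y = y * ((z : ↥(P : Subgroup G)) : G) := by
      intro y hy
      have := Subgroup.mem_center_iff.mp z.2 ⟨y, hy⟩
      exact (congrArg Subtype.val this).symm
    have hz1 : ((z : ↥(P : Subgroup G)) : G) ≠ 1 := by
      intro h1
      apply hz
      exact Subtype.ext (Subtype.ext h1)
    have hzo : orderOf ((z : ↥(P : Subgroup G)) : G) = p :=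
      orderOf_eq_prime (hexp' _ (z : ↥(P : Subgroup G)).2) hz1
    -- noncentral element
    obtain ⟨x, hxP, y, hyP, hxy⟩ : ∃ x ∈ (P : Subgroup G), ∃ y ∈ (P : Subgroup G), x * y ≠ y * x := by
      by_contra hcon
      push Not at hcon
      exact hna ⟨⟨fun a b => Subtype.ext (hcon a.1 a.2 b.1 b.2)⟩⟩
    have hx1 : x ≠ 1 := by
      rintro rfl
      simp at hxy
    have hxo : orderOf x = p := orderOf_eq_prime (hexp' x hxP) hx1
    obtain ⟨g, hg⟩ := hC (Subgroup.zpowers ((z : ↥(P : Subgroup G)) : G)) (Subgroup.zpowers x)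
      (IsPGroup.of_card (n := 1) (by rw [Nat.card_zpowers, hzo, pow_one]))
      (IsPGroup.of_card (n := 1) (by rw [Nat.card_zpowers, hxo, pow_one]))
      (by rw [Nat.card_zpowers, Nat.card_zpowers, hzo, hxo])
    have hmem : g * ((z : ↥(P : Subgroup G)) : G) * g⁻¹ ∈ Subgroup.zpowers x := by
      rw [hg]
      exact Subgroup.mem_map.mpr ⟨_, Subgroup.mem_zpowers _, rfl⟩
    have hmemP : g * ((z : ↥(P : Subgroup G)) : G) * g⁻¹ ∈ (P : Subgroup G) :=
      (Subgroup.zpowers_le.mpr hxP) hmem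
    have hcen := key _ (z : ↥(P : Subgroup G)).2 hzc g hmemP
    have heq : Subgroup.zpowers (g * ((z : ↥(P : Subgroup G)) : G) * g⁻¹) = Subgroup.zpowers x := by
      apply Subgroup.eq_of_le_of_card_ge (Subgroup.zpowers_le.mpr hmem)
      rw [Nat.card_zpowers, Nat.card_zpowers, hxo]
      have : orderOf (g * ((z : ↥(P : Subgroup G)) : G) * g⁻¹) = p := by
        exact (orderOf_injective (MulAut.conj g).toMonoidHom (MulAut.conj g).injective _).trans hzo
      rw [this]
    have hxin : x ∈ Subgroup.zpowers (g * ((z : ↥(P : Subgroup G)) : G) * g⁻¹) := by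
      rw [heq]; exact Subgroup.mem_zpowers x
    obtain ⟨i, hi⟩ := Subgroup.mem_zpowers_iff.mp hxin
    apply hxy
    rw [← hi]
    exact ((show Commute (g * ((z : ↥(P : Subgroup G)) : G) * g⁻¹) y from hcen y hyP).zpow_left i)

end Cfsg.Agent.S4024
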