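import Mathlib
import Cfsg.Statements.S4028

set_option autoImplicit false
open Cfsg

namespace Cfsg.Agent.S4028

theorem conj_pow_pow {G : Type*} [Group G] {c a : G} {k : ℕ} (h : c * a * c⁻¹ = a ^ k) (i : ℕ) :
    c ^ i * a * (c ^ i)⁻¹ = a ^ (k ^ i) := by
  induction i with
  | zero => simp
  | succ i ih =>
    calc c ^ (i + 1) * a * (c ^ (i + 1))⁻¹ = c * (c ^ i * a * (c ^ i)⁻¹) * c⁻¹ := by
          rw [pow_succ']; group
      _ = c * a ^ (k ^ i) * c⁻¹ := by rw [ih]
      _ = (c * a * c⁻¹) ^ (k ^ i) := by rw [conj_pow]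
      _ = a ^ (k ^ (i + 1)) := by rw [h, ← pow_mul, pow_succ']

theorem orderOf_conj' {G : Type*} [Group G] (g x : G) : orderOf (g * x * g⁻¹) = orderOf x :=
  orderOf_injective (MulAut.conj g).toMonoidHom (MulAut.conj g).injective x

theorem mem_normalizer_zpowers {G : Type*} [Group G] [Finite G] {g x : G}
    (h : g * x * g⁻¹ ∈ Subgroup.zpowers x) :
    g ∈ Subgroup.normalizer ((Subgroup.zpowers x : Subgroup G) : Set G) := by
  have hle : Subgroup.zpowers (g * x * g⁻¹) ≤ Subgroup.zpowers x := by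
    rw [Subgroup.zpowers_le]; exact h
  have heq : Subgroup.zpowers (g * x * g⁻¹) = Subgroup.zpowers x :=
    Subgroup.eq_of_le_of_card_ge hle (by rw [Nat.card_zpowers, Nat.card_zpowers, orderOf_conj'])
  rw [Subgroup.mem_normalizer_iff]
  intro y
  rw [← heq]
  constructor
  · intro hy
    rw [heq] at hy
    obtain ⟨i, rfl⟩ := hy
    exact ⟨i, by simp only [conj_zpow]⟩
  · rintro ⟨i, hi⟩
    rw [heq]
    refine ⟨i, ?_⟩
    simp only [conj_zpow] at hi
    have : x ^ i = g⁻¹ * (g * x ^ i * g⁻¹) * g := by group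
    simp only
    rw [this, hi]; group

/-- Let G be a finite group with Sylow 2-subgroup P. Then N_G(⟨x⟩) = C_G(x) holds for every 2-element x of G if and only if N_P(⟨y⟩) = C_P(y) holds for every y ∈ P (computed inside P). -/
theorem result {G : Type*} [Group G] [Finite G] (P : Sylow 2 G) :
    (∀ x : G, (∀ r : ℕ, r.Prime → r ∣ orderOf x → r = 2) →
      Subgroup.normalizer ((Subgroup.zpowers x : Subgroup G) : Set G) ≤ Subgroup.centralizer {x}) ↔
    (∀ y : ↥(P : Subgroup G), Subgroup.normalizer ((Subgroup.zpowers y : Subgroup ↥(P : Subgroup G)) : Set ↥(P : Subgroup G)) ≤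
        Subgroup.centralizer {y}) := by
  haveI : Fact (Nat.Prime 2) := ⟨Nat.prime_two⟩
  constructor
  · intro hG y g hg
    have h2 : ∀ r : ℕ, r.Prime → r ∣ orderOf (y : G) → r = 2 := by
      intro r hr hry
      obtain ⟨k, hk⟩ := (IsPGroup.iff_orderOf.1 P.2) y
      rw [Subgroup.orderOf_coe, hk] at hry
      exact (Nat.prime_dvd_prime_iff_eq hr Nat.prime_two).1 (hr.dvd_of_dvd_pow hry)
    have h3 : g * y * g⁻¹ ∈ Subgroup.zpowers y :=
      (Subgroup.mem_normalizer_iff.1 hg y).1 (Subgroup.mem_zpowers y)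
    obtain ⟨i, hi⟩ := h3
    have h4 : (g : G) * y * (g : G)⁻¹ ∈ Subgroup.zpowers (y : G) :=
      ⟨i, by simpa using congrArg Subtype.val hi⟩
    have h5 := hG y h2 (mem_normalizer_zpowers h4)
    rw [Subgroup.mem_centralizer_singleton_iff] at h5 ⊢
    exact Subtype.ext h5
  · intro hP x hx g hg
    have hx0 : orderOf x ≠ 0 := (orderOf_pos x).ne'
    have hox := Nat.eq_prime_pow_of_unique_prime_dvd hx0 (fun {d} hd hdx => hx d hd hdx)
    set n := (orderOf x).primeFactorsList.length with hn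
    have h1 : g * x * g⁻¹ ∈ Subgroup.zpowers x :=
      (Subgroup.mem_normalizer_iff.1 hg x).1 (Subgroup.mem_zpowers x)
    rw [← mem_powers_iff_mem_zpowers] at h1
    obtain ⟨k, hk⟩ := h1
    have hk' : g * x * g⁻¹ = x ^ k := hk.symm
    rcases Nat.eq_zero_or_pos n with hn0 | hnpos
    · rw [hn0, pow_zero, orderOf_eq_one_iff] at hox
      rw [Subgroup.mem_centralizer_singleton_iff, hox]; simp
    obtain ⟨n', hn'⟩ : ∃ n', n = n' + 1 := ⟨n - 1, by omega⟩
    have hcop : Nat.Coprime k (2 ^ n) := by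
      have h2 : orderOf (x ^ k) = orderOf x := by rw [← hk', orderOf_conj']
      rw [orderOf_pow] at h2
      have h3 : (orderOf x).gcd k = 1 := (Nat.div_eq_self.1 h2).resolve_left hx0
      rw [← hox, Nat.coprime_comm]; exact h3
    have htot := Nat.ModEq.pow_totient hcop
    rw [hn', Nat.totient_prime_pow_succ Nat.prime_two] at htot
    simp only [Nat.add_one_sub_one, mul_one] at htot
    have hC1 : g ^ (2 ^ n') ∈ Subgroup.centralizer ({x} : Set G) := by
      have h6 : g ^ (2 ^ n') * x * (g ^ (2 ^ n'))⁻¹ = x := by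
        rw [conj_pow_pow hk']
        have := (pow_eq_pow_iff_modEq (x := x) (n := k ^ 2 ^ n') (m := 1)).2
          (by rw [hox, hn']; exact htot)
        rw [this, pow_one]
      rw [Subgroup.mem_centralizer_singleton_iff]
      calc g ^ (2 ^ n') * x = (g ^ (2 ^ n') * x * (g ^ (2 ^ n'))⁻¹) * g ^ (2 ^ n') := by group
        _ = x * g ^ (2 ^ n') := by rw [h6]
    obtain ⟨s, m, hm, hsm⟩ := Nat.exists_eq_pow_mul_and_not_dvd (orderOf_pos g).ne' 2 (by norm_num)
    have hm0 : m ≠ 0 := by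
      rintro rfl
      exact hm (dvd_zero _)
    set t := g ^ m with ht
    have hot : orderOf t = 2 ^ s := by
      rw [ht, orderOf_pow_of_dvd hm0 (by rw [hsm]; exact Dvd.intro_left _ rfl), hsm]
      exact Nat.mul_div_cancel _ (Nat.pos_of_ne_zero hm0)
    have htN : t ∈ Subgroup.normalizer ((Subgroup.zpowers x : Subgroup G) : Set G) :=
      Subgroup.pow_mem _ hg _
    have hC2 : t ∈ Subgroup.centralizer ({x} : Set G) := by
      have hzt : IsPGroup 2 (Subgroup.zpowers t) := by
        apply IsPGroup.of_card (n := s)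
        rw [Nat.card_zpowers, hot]
      have hzx : IsPGroup 2 (Subgroup.zpowers x) := by
        apply IsPGroup.of_card (n := n)
        rw [Nat.card_zpowers, hox]
      have hsup := hzt.to_sup_of_normal_right' hzx (by rw [Subgroup.zpowers_le]; exact htN)
      obtain ⟨V, hV⟩ := hsup.exists_le_sylow
      obtain ⟨h, hh⟩ := MulAction.exists_smul_eq G P V
      have memV : ∀ y : G, y ∈ (V : Subgroup G) ↔ h⁻¹ * y * h ∈ (P : Subgroup G) := by
        intro y
        rw [← hh, Sylow.coe_subgroup_smul, Subgroup.mem_pointwise_smul_iff_inv_smul_mem]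
        simp [MulAut.smul_def]
      have htV : h⁻¹ * t * h ∈ (P : Subgroup G) :=
        (memV t).1 (hV (le_sup_left (b := Subgroup.zpowers x) (Subgroup.mem_zpowers t)))
      have hxV : h⁻¹ * x * h ∈ (P : Subgroup G) :=
        (memV x).1 (hV (le_sup_right (a := Subgroup.zpowers t) (Subgroup.mem_zpowers x)))
      have h7 : t * x * t⁻¹ ∈ Subgroup.zpowers x :=
        (Subgroup.mem_normalizer_iff.1 htN x).1 (Subgroup.mem_zpowers x)
      obtain ⟨j, hj⟩ := h7
      have hj' : x ^ j = t * x * t⁻¹ := hj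
      have h8 : (⟨h⁻¹ * t * h, htV⟩ : (P : Subgroup G)) * ⟨h⁻¹ * x * h, hxV⟩ *
          (⟨h⁻¹ * t * h, htV⟩ : (P : Subgroup G))⁻¹ ∈
          Subgroup.zpowers (⟨h⁻¹ * x * h, hxV⟩ : (P : Subgroup G)) := by
        refine ⟨j, ?_⟩
        apply Subtype.ext
        simp only [Subgroup.coe_zpow, Subgroup.coe_mul, Subgroup.coe_inv]
        have h9 : (h⁻¹ * x * h) ^ j = h⁻¹ * x ^ j * h := by
          have := conj_zpow (a := h⁻¹) (b := x) (i := j)
          rw [inv_inv] at this
          exact this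
        rw [h9, hj']; group
      have h10 := hP _ (mem_normalizer_zpowers h8)
      rw [Subgroup.mem_centralizer_singleton_iff] at h10
      have h11 : (h⁻¹ * t * h) * (h⁻¹ * x * h) = (h⁻¹ * x * h) * (h⁻¹ * t * h) :=
        congrArg Subtype.val h10
      rw [Subgroup.mem_centralizer_singleton_iff]
      calc t * x = h * ((h⁻¹ * t * h) * (h⁻¹ * x * h)) * h⁻¹ := by group
        _ = h * ((h⁻¹ * x * h) * (h⁻¹ * t * h)) * h⁻¹ := by rw [h11]
        _ = x * t := by group
    have hcop2 : Nat.Coprime (2 ^ n') m :=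
      Nat.Coprime.pow_left _ ((Nat.Prime.coprime_iff_not_dvd Nat.prime_two).2 hm)
    have hb : ((2 ^ n' : ℕ) : ℤ) * Nat.gcdA (2 ^ n') m + (m : ℤ) * Nat.gcdB (2 ^ n') m = 1 := by
      have := Nat.gcd_eq_gcd_ab (2 ^ n') m
      rw [hcop2.gcd_eq_one] at this
      exact_mod_cast this.symm
    have hgg : g = (g ^ (2 ^ n')) ^ (Nat.gcdA (2 ^ n') m) * (g ^ m) ^ (Nat.gcdB (2 ^ n') m) := by
      rw [← zpow_natCast, ← zpow_natCast, ← zpow_mul, ← zpow_mul, ← zpow_add, hb, zpow_one]
    rw [hgg]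
    exact Subgroup.mul_mem _ (Subgroup.zpow_mem _ hC1 _) (Subgroup.zpow_mem _ hC2 _)

end Cfsg.Agent.S4028
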