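import Cfsg.Statements.S4029
import Mathlib
import Cfsg.Agent.Lib.Helper22.Basic
import Cfsg.Agent.Lib.Helper1.PGrp

set_option autoImplicit false
open Cfsg Subgroup

namespace Cfsg.Agent.S4029


open Classical in
theorem sum_class {P : Type*} [Group P] [Fintype P] (y : P) :
    ∑ g ∈ Finset.univ.filter (fun g => IsConj y g),
      Nat.card (Subgroup.centralizer ({g} : Set P)) = Nat.card P := by
  have h1 : ∀ g ∈ Finset.univ.filter (fun g => IsConj y g),
      Nat.card (Subgroup.centralizer ({g} : Set P)) = Nat.card (Subgroup.centralizer ({y} : Set P)) := by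
    intro g hg
    have hg' : IsConj y g := (Finset.mem_filter.mp hg).2
    have hi : (Subgroup.centralizer ({g} : Set P)).index = (Subgroup.centralizer ({y} : Set P)).index := by
      rw [Cfsg.Agent.Lib.Helper22.index_centralizer_eq_card_isConj,
        Cfsg.Agent.Lib.Helper22.index_centralizer_eq_card_isConj]
      apply Nat.card_congr
      apply Equiv.subtypeEquivRight
      intro z
      exact ⟨fun h => hg'.trans h, fun h => hg'.symm.trans h⟩
    have e1 := Subgroup.card_mul_index (Subgroup.centralizer ({g} : Set P))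
    have e2 := Subgroup.card_mul_index (Subgroup.centralizer ({y} : Set P))
    rw [hi] at e1
    have hpos : 0 < (Subgroup.centralizer ({y} : Set P)).index :=
      Nat.pos_of_ne_zero Subgroup.index_ne_zero_of_finite
    exact Nat.eq_of_mul_eq_mul_right hpos (e1.trans e2.symm)
  rw [Finset.sum_congr rfl h1, Finset.sum_const, smul_eq_mul]
  have h2 : (Finset.univ.filter (fun g => IsConj y g)).card
      = (Subgroup.centralizer ({y} : Set P)).index := by
    rw [Cfsg.Agent.Lib.Helper22.index_centralizer_eq_card_isConj, Nat.card_eq_fintype_card,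
      Fintype.card_subtype]
  rw [h2, mul_comm]
  exact Subgroup.card_mul_index _

open Classical in
theorem key_count {P : Type*} [Group P] [Fintype P] (hP : IsPGroup 2 P)
    (hirr : ∀ y : P, Subgroup.normalizer ((Subgroup.zpowers y : Subgroup P) : Set P)
      ≤ Subgroup.centralizer {y}) :
    Nat.card (P ⧸ frattini P) ≤
      ((Finset.univ.filter (fun g : P => g ^ 2 = 1)).image ConjClasses.mk).card := by
  haveI : Fact (Nat.Prime 2) := ⟨Nat.prime_two⟩
  set T := Finset.univ.filter (fun g : P => g ^ 2 = 1) with hT
  set R := T.image ConjClasses.mk with hR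
  set X1 := (Finset.univ : Finset (P × P)).filter (fun q => q.2 * q.1 * q.2⁻¹ = q.1⁻¹) with hX1
  set X2 := (Finset.univ : Finset (P × P)).filter (fun q => q.1 ^ 2 = q.2 ^ 2) with hX2
  set F := Finset.univ.filter (fun g : P => g ∈ frattini P) with hF
  set r : P → ℕ := fun x => (Finset.univ.filter (fun u : P => u ^ 2 = x)).card with hr
  have hsq : ∀ u : P, u ^ 2 ∈ frattini P := (Cfsg.Agent.Lib.Helper1.pgroup_frattini hP).2
  -- X1 and X2 have the same size
  have h12 : X1.card = X2.card := by
    refine Finset.card_bij' (fun q _ => (q.1 * q.2, q.2)) (fun q _ => (q.1 * q.2⁻¹, q.2)) ?_ ?_ ?_ ?_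
    · rintro ⟨g, h⟩ hq
      simp only [hX1, hX2, Finset.mem_filter, Finset.mem_univ, true_and] at hq ⊢
      calc (g * h) ^ 2 = g * (h * g * h⁻¹) * h ^ 2 := by rw [sq, sq]; group
        _ = h ^ 2 := by rw [hq]; group
    · rintro ⟨u, h⟩ hq
      simp only [hX1, hX2, Finset.mem_filter, Finset.mem_univ, true_and] at hq ⊢
      calc h * (u * h⁻¹) * h⁻¹ = h * u⁻¹ * u ^ 2 * h⁻¹ * h⁻¹ := by group
        _ = h * u⁻¹ * h ^ 2 * h⁻¹ * h⁻¹ := by rw [hq]
        _ = (u * h⁻¹)⁻¹ := by group
    · rintro ⟨g, h⟩ _
      simp
    · rintro ⟨u, h⟩ _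
      simp
  -- X2 in terms of r
  have hX2r : X2.card = ∑ x ∈ F, r x ^ 2 := by
    rw [Finset.card_eq_sum_card_fiberwise (f := fun q : P × P => q.2 ^ 2) (t := F)]
    · apply Finset.sum_congr rfl
      intro x _
      have : (X2.filter (fun q : P × P => q.2 ^ 2 = x))
          = (Finset.univ.filter (fun u : P => u ^ 2 = x)) ×ˢ (Finset.univ.filter (fun u : P => u ^ 2 = x)) := by
        ext ⟨u, h⟩
        simp only [hX2, Finset.mem_filter, Finset.mem_univ, true_and, Finset.mem_product]
        constructor
        · rintro ⟨a, b⟩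
          exact ⟨a.trans b, b⟩
        · rintro ⟨a, b⟩
          exact ⟨a.trans b.symm, b⟩
      rw [this, Finset.card_product, sq]
    · intro q _
      simp only [hF, Finset.coe_filter, Finset.mem_univ, true_and, Set.mem_setOf_eq]
      exact hsq q.2
  have hsumr : ∑ x ∈ F, r x = Nat.card P := by
    rw [Nat.card_eq_fintype_card, ← Finset.card_univ,
      Finset.card_eq_sum_card_fiberwise (f := fun u : P => u ^ 2) (t := F)]
    intro u _
    simp only [hF, Finset.coe_filter, Finset.mem_univ, true_and, Set.mem_setOf_eq]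
    exact hsq u
  have hCS : (∑ x ∈ F, r x) ^ 2 ≤ F.card * ∑ x ∈ F, r x ^ 2 := sq_sum_le_card_mul_sum_sq
  -- X1 in terms of centralizers
  have hX1c : X1.card = ∑ g ∈ T, Nat.card (Subgroup.centralizer ({g} : Set P)) := by
    rw [Finset.card_eq_sum_card_fiberwise (f := fun q : P × P => q.1) (t := Finset.univ)
      (fun _ _ => Finset.mem_coe.mpr (Finset.mem_univ _))]
    rw [hT, Finset.sum_filter]
    apply Finset.sum_congr rfl
    intro g _
    split_ifs with hg
    · have hginv : g⁻¹ = g := by
        rw [inv_eq_iff_mul_eq_one, ← sq, hg]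
      rw [Nat.card_eq_fintype_card, Fintype.card_subtype]
      refine Finset.card_bij' (fun q _ => q.2) (fun h _ => (g, h)) ?_ ?_ ?_ ?_
      · rintro ⟨g', h⟩ hq
        simp only [hX1, Finset.mem_filter, Finset.mem_univ, true_and] at hq ⊢
        obtain ⟨hq1, rfl⟩ := hq
        rw [Subgroup.mem_centralizer_singleton_iff]
        rw [hginv] at hq1
        exact mul_inv_eq_iff_eq_mul.mp hq1
      · intro h hh
        simp only [hX1, Finset.mem_filter, Finset.mem_univ, true_and] at hh ⊢
        rw [Subgroup.mem_centralizer_singleton_iff] at hh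
        rw [hginv]
        exact ⟨mul_inv_eq_iff_eq_mul.mpr hh, trivial⟩
      · rintro ⟨g', h⟩ hq
        simp only [hX1, Finset.mem_filter, Finset.mem_univ, true_and] at hq
        rw [hq.2]
      · intro h _
        rfl
    · rw [Finset.card_eq_zero, Finset.filter_eq_empty_iff]
      rintro ⟨g', h⟩ hq hq2
      simp only [hX1, Finset.mem_filter, Finset.mem_univ, true_and] at hq
      simp only at hq2
      subst hq2
      apply hg
      have hn : h ∈ Subgroup.normalizer ((Subgroup.zpowers g' : Subgroup P) : Set P) := by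
        rw [Subgroup.mem_normalizer_iff]
        intro z
        constructor
        · rintro ⟨k, rfl⟩
          refine ⟨-k, ?_⟩
          simp only
          rw [← conj_zpow, hq, inv_zpow, zpow_neg]
        · rintro ⟨k, hk⟩
          refine ⟨-k, ?_⟩
          simp only at hk ⊢
          have : z = h⁻¹ * (g' ^ k) * h := by rw [hk]; group
          have h2 : h⁻¹ * g' * h = g'⁻¹ := by
            have : g' = h⁻¹ * g'⁻¹ * h := by rw [← hq]; group
            calc h⁻¹ * g' * h = (h⁻¹ * g'⁻¹ * h)⁻¹ := by group
              _ = g'⁻¹ := by rw [← this]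
          rw [this]
          have h3 : h⁻¹ * (g' ^ k) * h = (h⁻¹ * g' * h) ^ k := by
            have := conj_zpow (a := h⁻¹) (b := g') (i := k)
            rw [inv_inv] at this
            exact this.symm
          rw [h3, h2, inv_zpow, zpow_neg]
      have hc := hirr g' hn
      rw [Subgroup.mem_centralizer_singleton_iff] at hc
      have : g' = g'⁻¹ := by
        rw [← hq, hc]; group
      rw [sq]
      nth_rewrite 1 [this]
      exact inv_mul_cancel g'
  have hsumT : ∑ g ∈ T, Nat.card (Subgroup.centralizer ({g} : Set P)) = R.card * Nat.card P := by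
    rw [← Finset.sum_fiberwise_of_maps_to (s := T) (t := R) (g := ConjClasses.mk)
      (fun g hg => Finset.mem_image_of_mem _ hg)]
    rw [← smul_eq_mul, ← Finset.sum_const]
    apply Finset.sum_congr rfl
    intro c hc
    obtain ⟨y, hy, rfl⟩ := Finset.mem_image.mp hc
    rw [← sum_class y]
    apply Finset.sum_congr _ (fun _ _ => rfl)
    ext g
    simp only [hT, Finset.mem_filter, Finset.mem_univ, true_and] at hy ⊢
    rw [ConjClasses.mk_eq_mk_iff_isConj]
    constructor
    · rintro ⟨_, h⟩
      exact h.symm
    · intro h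
      refine ⟨?_, h.symm⟩
      obtain ⟨c, hc⟩ := isConj_iff.mp h
      rw [← hc, conj_pow, hy]; group
  have hFc : F.card = Nat.card (frattini P) := by
    rw [Nat.card_eq_fintype_card, Fintype.card_subtype]
  have hPpos : 0 < Nat.card P := Nat.card_pos
  have hmain : Nat.card P * Nat.card P ≤ Nat.card (frattini P) * R.card * Nat.card P := by
    calc Nat.card P * Nat.card P = (∑ x ∈ F, r x) ^ 2 := by rw [hsumr, sq]
      _ ≤ F.card * ∑ x ∈ F, r x ^ 2 := hCS
      _ = Nat.card (frattini P) * (R.card * Nat.card P) := by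
        rw [← hX2r, ← h12, hX1c, hsumT, hFc]
      _ = _ := by ring
  have h5 : Nat.card P ≤ Nat.card (frattini P) * R.card := Nat.le_of_mul_le_mul_right hmain hPpos
  have h6 : Nat.card (frattini P) * Nat.card (P ⧸ frattini P) = Nat.card P := by
    rw [mul_comm]
    exact (Subgroup.card_eq_card_quotient_mul_card_subgroup (frattini P)).symm
  rw [← h6] at h5
  exact Nat.le_of_mul_le_mul_left h5 Nat.card_pos


/-- Let P be a finite 2-group in which N_P(⟨y⟩) = C_P(y) for every y ∈ P. If s is the number of conjugacy classes of involutions of P, then #(P/Φ(P)) ≤ s + 1; in particular the subgroup generated by the involutions of P has order at least #(P/Φ(P)). -/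
theorem result {P : Type*} [Group P] [Finite P] (hP : IsPGroup 2 P)
    (hirr : ∀ y : P, Subgroup.normalizer ((Subgroup.zpowers y : Subgroup P) : Set P) ≤ Subgroup.centralizer {y}) :
    Nat.card (P ⧸ frattini P) ≤ Nat.card {c : ConjClasses P // ∃ y : P, ConjClasses.mk y = c ∧ orderOf y = 2} + 1 ∧
    Nat.card (P ⧸ frattini P) ≤ Nat.card (Subgroup.closure {y : P | orderOf y = 2}) := by
  classical
  haveI : Fintype P := Fintype.ofFinite P
  have hk := key_count hP hirr
  have hinv : ∀ y : P, y ^ 2 = 1 → y = 1 ∨ orderOf y = 2 := by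
    intro y hy
    by_cases h1 : y = 1
    · exact Or.inl h1
    · exact Or.inr (orderOf_eq_prime hy h1)
  constructor
  · refine hk.trans ?_
    have h1 : Nat.card {c : ConjClasses P // ∃ y : P, ConjClasses.mk y = c ∧ orderOf y = 2}
        = (Finset.univ.filter (fun c : ConjClasses P => ∃ y : P, ConjClasses.mk y = c ∧ orderOf y = 2)).card := by
      rw [Nat.card_eq_fintype_card, Fintype.card_subtype]
    rw [h1]
    refine le_trans (Finset.card_le_card ?_) (Finset.card_insert_le (ConjClasses.mk (1 : P)) _)
    intro c hc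
    obtain ⟨y, hy, rfl⟩ := Finset.mem_image.mp hc
    simp only [Finset.mem_filter, Finset.mem_univ, true_and] at hy
    rcases hinv y hy with rfl | h2
    · exact Finset.mem_insert_self _ _
    · apply Finset.mem_insert_of_mem
      simp only [Finset.mem_filter, Finset.mem_univ, true_and]
      exact ⟨y, rfl, h2⟩
  · refine hk.trans (Finset.card_image_le.trans ?_)
    rw [Nat.card_eq_fintype_card, Fintype.card_subtype]
    apply Finset.card_le_card
    intro y hy
    simp only [Finset.mem_filter, Finset.mem_univ, true_and] at hy ⊢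
    rcases hinv y hy with rfl | h2
    · exact one_mem _
    · exact Subgroup.subset_closure h2

end Cfsg.Agent.S4029
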