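import Cfsg.Statements.S4032
import Cfsg.Agent.Lib.Helper1.SZ
import Cfsg.Agent.Lib.Helper17.Basic

set_option autoImplicit false
open Cfsg

namespace Cfsg.Agent.S4032

open Pointwise

theorem conj_cyc {G : Type*} [Group G] [Finite G] (N : Subgroup G) [N.Normal] (x x' : G)
    (hcop : (Nat.card N).Coprime (orderOf x)) (ho : orderOf x' = orderOf x)
    (hx' : x' ∈ Subgroup.zpowers x ⊔ N) :
    ∃ n ∈ N, ∀ z, z ∈ Subgroup.zpowers x → n * z * n⁻¹ ∈ Subgroup.zpowers x' := by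
  have hdisj : Disjoint N (Subgroup.zpowers x) := by
    apply Subgroup.disjoint_of_coprime_natCard
    rwa [Nat.card_zpowers]
  have hH : Subgroup.IsComplement' (N.subgroupOf (Subgroup.zpowers x ⊔ N))
      ((Subgroup.zpowers x).subgroupOf (Subgroup.zpowers x ⊔ N)) :=
    Cfsg.Agent.Lib.Helper1.isComplement'_subgroupOf_sup hdisj
  have hcN : Nat.card (N.subgroupOf (Subgroup.zpowers x ⊔ N)) = Nat.card N :=
    Nat.card_congr (Subgroup.subgroupOfEquivOfLe le_sup_right).toEquiv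
  have hcH : Nat.card ((Subgroup.zpowers x).subgroupOf (Subgroup.zpowers x ⊔ N)) = orderOf x := by
    rw [Nat.card_congr (Subgroup.subgroupOfEquivOfLe le_sup_left).toEquiv, Nat.card_zpowers]
  have hle : Subgroup.zpowers x' ≤ Subgroup.zpowers x ⊔ N := by
    rw [Subgroup.zpowers_le]; exact hx'
  have hcK : Nat.card ((Subgroup.zpowers x').subgroupOf (Subgroup.zpowers x ⊔ N)) = orderOf x := by
    rw [Nat.card_congr (Subgroup.subgroupOfEquivOfLe hle).toEquiv, Nat.card_zpowers, ho]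
  have hK : Subgroup.IsComplement' (N.subgroupOf (Subgroup.zpowers x ⊔ N))
      ((Subgroup.zpowers x').subgroupOf (Subgroup.zpowers x ⊔ N)) := by
    apply Subgroup.isComplement'_of_coprime
    · rw [hcK, ← hcH]; exact hH.card_mul
    · rw [hcK, hcN]; exact hcop
  have hsolv : Group.IsSolvable ((Subgroup.zpowers x).subgroupOf (Subgroup.zpowers x ⊔ N)) := by
    apply Group.isSolvable_of_comm
    rintro ⟨⟨a, ha'⟩, ha⟩ ⟨⟨b, hb'⟩, hb⟩
    apply Subtype.ext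
    apply Subtype.ext
    rw [Subgroup.mem_subgroupOf] at ha hb
    obtain ⟨i, rfl⟩ := Subgroup.mem_zpowers_iff.mp ha
    obtain ⟨j, rfl⟩ := Subgroup.mem_zpowers_iff.mp hb
    exact (zpow_mul_comm x i j)
  obtain ⟨n, hn, hconj⟩ := Cfsg.Agent.Lib.Helper1.sz_conj_mem _ _ _ hH hK
    (by rw [hcN, hcH]; exact hcop) (Or.inr hsolv)
  refine ⟨n, hn, ?_⟩
  intro z hz
  have hzX : z ∈ Subgroup.zpowers x ⊔ N := (le_sup_left : Subgroup.zpowers x ≤ _) hz
  have h1 : (⟨z, hzX⟩ : ↥(Subgroup.zpowers x ⊔ N)) ∈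
      (Subgroup.zpowers x).subgroupOf (Subgroup.zpowers x ⊔ N) := hz
  have h2 := Subgroup.smul_mem_pointwise_smul _ (MulAut.conj n) _ h1
  rw [hconj, Subgroup.mem_subgroupOf] at h2
  simpa [MulAut.smul_def] using h2

/-- Let π be a set of primes and G a finite group in which N_G(⟨x⟩) = C_G(x) for every π-element x. If N is a normal subgroup of G whose order is divisible by no prime of π, then G/N has the same property: N_{G/N}(⟨y⟩) = C_{G/N}(y) for every π-element y of G/N. -/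
theorem result {G : Type*} [Group G] [Finite G] (π : Set ℕ)
    (hirr : ∀ x : G, (∀ r : ℕ, r.Prime → r ∣ orderOf x → r ∈ π) →
      Subgroup.normalizer ((Subgroup.zpowers x : Subgroup G) : Set G) ≤ Subgroup.centralizer {x})
    (N : Subgroup G) [N.Normal] (hN : ∀ r : ℕ, r.Prime → r ∣ Nat.card N → r ∉ π) :
    ∀ y : G ⧸ N, (∀ r : ℕ, r.Prime → r ∣ orderOf y → r ∈ π) →
      Subgroup.normalizer ((Subgroup.zpowers y : Subgroup (G ⧸ N)) : Set (G ⧸ N)) ≤ Subgroup.centralizer {y} := by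
  intro y hy gbar hg
  obtain ⟨x0, rfl⟩ := QuotientGroup.mk_surjective y
  obtain ⟨g, rfl⟩ := QuotientGroup.mk_surjective gbar
  have hcop0 : (Nat.card N).Coprime (orderOf (x0 : G ⧸ N)) := by
    by_contra h
    obtain ⟨r, hr, h1, h2⟩ := Nat.Prime.not_coprime_iff_dvd.mp h
    exact hN r hr h1 (hy r hr h2)
  obtain ⟨s, hs⟩ := exists_pow_eq_self_of_coprime hcop0
  obtain ⟨x, hx⟩ : ∃ x : G, x = (x0 ^ Nat.card N) ^ s := ⟨_, rfl⟩
  have hxy : (x : G ⧸ N) = (x0 : G ⧸ N) := by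
    rw [hx, QuotientGroup.mk_pow, QuotientGroup.mk_pow, hs]
  have hxo : x ^ orderOf (x0 : G ⧸ N) = 1 := by
    have h1 : x0 ^ orderOf (x0 : G ⧸ N) ∈ N := by
      rw [← QuotientGroup.eq_one_iff, QuotientGroup.mk_pow]; exact pow_orderOf_eq_one _
    have h2 : (x0 ^ orderOf (x0 : G ⧸ N)) ^ Nat.card N = 1 := by
      have := pow_card_eq_one' (G := ↥N) (x := ⟨_, h1⟩)
      exact congrArg Subtype.val this
    have h3 : x ^ orderOf (x0 : G ⧸ N) = ((x0 ^ orderOf (x0 : G ⧸ N)) ^ Nat.card N) ^ s := by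
      rw [hx]; simp only [← pow_mul]; congr 1; ring
    rw [h3, h2, one_pow]
  have hox : orderOf x ∣ orderOf (x0 : G ⧸ N) := orderOf_dvd_of_pow_eq_one hxo
  have hirrx := hirr x (fun r hr h => hy r hr (h.trans hox))
  rw [← hxy] at hg ⊢
  have h3 : (g : G ⧸ N) * (x : G ⧸ N) * (g : G ⧸ N)⁻¹ ∈ Subgroup.zpowers (x : G ⧸ N) :=
    (Subgroup.mem_normalizer_iff.mp hg _).mp (Subgroup.mem_zpowers _)
  obtain ⟨j, hj⟩ := Subgroup.mem_zpowers_iff.mp h3
  have h4 : g * x * g⁻¹ ∈ Subgroup.zpowers x ⊔ N := by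
    have h5 : (x ^ j)⁻¹ * (g * x * g⁻¹) ∈ N := by
      rw [← QuotientGroup.eq_one_iff]
      have : (((x ^ j)⁻¹ * (g * x * g⁻¹) : G) : G ⧸ N)
          = ((x : G ⧸ N) ^ j)⁻¹ * ((g : G ⧸ N) * (x : G ⧸ N) * (g : G ⧸ N)⁻¹) := by
        simp
      rw [this, hj]; group
    have h6 : g * x * g⁻¹ = x ^ j * ((x ^ j)⁻¹ * (g * x * g⁻¹)) := by group
    rw [h6]
    exact Subgroup.mul_mem_sup (Subgroup.zpow_mem _ (Subgroup.mem_zpowers x) j) h5
  obtain ⟨n, hn, hconj⟩ := conj_cyc N x (g * x * g⁻¹) (hcop0.coprime_dvd_right hox)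
    (by rw [← MulAut.conj_apply]; exact (MulAut.conj g).orderOf_eq x) h4
  have h6 : g⁻¹ * n ∈ Subgroup.normalizer ((Subgroup.zpowers x : Subgroup G) : Set G) := by
    apply Cfsg.Agent.Lib.Helper17.mem_normalizer_of_map_conj_le
    rintro _ ⟨z, hz, rfl⟩
    obtain ⟨i, hi⟩ := Subgroup.mem_zpowers_iff.mp (hconj z hz)
    have h7 : (MulAut.conj (g⁻¹ * n)).toMonoidHom z = g⁻¹ * (n * z * n⁻¹) * g := by
      simp [mul_assoc]
    rw [h7, ← hi, conj_zpow]
    have h8 : g⁻¹ * (g * x ^ i * g⁻¹) * g = x ^ i := by group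
    rw [h8]
    exact Subgroup.zpow_mem _ (Subgroup.mem_zpowers x) i
  have h7 := hirrx h6
  rw [Subgroup.mem_centralizer_singleton_iff] at h7 ⊢
  have h8 := congrArg (QuotientGroup.mk : G → G ⧸ N) h7
  have hn1 : (n : G ⧸ N) = 1 := (QuotientGroup.eq_one_iff n).mpr hn
  simp only [QuotientGroup.mk_mul, QuotientGroup.mk_inv, hn1, mul_one] at h8
  calc (g : G ⧸ N) * (x : G ⧸ N) = (g : G ⧸ N) * ((x : G ⧸ N) * (g : G ⧸ N)⁻¹) * (g : G ⧸ N) := by group
    _ = (g : G ⧸ N) * ((g : G ⧸ N)⁻¹ * (x : G ⧸ N)) * (g : G ⧸ N) := by rw [h8]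
    _ = (x : G ⧸ N) * (g : G ⧸ N) := by group

end Cfsg.Agent.S4032
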