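import Mathlib
import Cfsg.Statements.S4036

set_option autoImplicit false
open Cfsg

namespace Cfsg.Agent.S4036

/-- Let P be a finite abelian p-group and K a group of automorphisms of P (a subgroup of Aut P) whose order is divisible by p. If all non-identity elements of K have the same fixed-point subgroup on P, then K has no non-trivial normal subgroup of order prime to p. -/
theorem result {P : Type*} [CommGroup P] [Finite P] {p : ℕ}
    [Fact p.Prime] (hP : IsPGroup p P) (K : Subgroup (MulAut P)) (hK : p ∣ Nat.card K)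
    (hfix : ∀ x y : MulAut P, x ∈ K → y ∈ K → x ≠ 1 → y ≠ 1 → ∀ v : P, x v = v ↔ y v = v) :
    ∀ N : Subgroup ↥K, N.Normal → ¬ p ∣ Nat.card N → N = ⊥ := by
  classical
  have hp : p.Prime := Fact.out
  intro N hN hpN
  by_contra hN1
  haveI : Finite (MulAut P) := Finite.of_injective (fun f : MulAut P => (f : P → P))
    (fun f g h => MulEquiv.ext (congrFun h))
  haveI : Fintype N := Fintype.ofFinite N
  let ν : P →* P :=
    { toFun := fun v => ∏ n : N, ((n : K) : MulAut P) v
      map_one' := by simp
      map_mul' := by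
        intro a b
        simp only [map_mul]
        exact Finset.prod_mul_distrib }
  have hν : ∀ v, ν v = ∏ n : N, ((n : K) : MulAut P) v := fun v => rfl
  have hνK : ∀ (k : K) (v : P), ν ((k : MulAut P) v) = (k : MulAut P) (ν v) := by
    intro k v
    rw [hν, hν, map_prod]
    refine Fintype.prod_equiv (MulAut.conjNormal k⁻¹ : N ≃* N).toEquiv _ _ ?_
    intro n
    have h1 : (((MulAut.conjNormal k⁻¹ : N ≃* N) n : N) : K) = k⁻¹ * n * k⁻¹⁻¹ :=
      MulAut.conjNormal_apply _ _
    change ((n : K) : MulAut P) ((k : MulAut P) v) =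
      (k : MulAut P) (((((MulAut.conjNormal k⁻¹ : N ≃* N) n : N) : K) : MulAut P) v)
    rw [h1]
    simp [MulAut.mul_apply]
  have hνN : ∀ (n0 : N) (v : P), ν (((n0 : K) : MulAut P) v) = ν v := by
    intro n0 v
    rw [hν, hν]
    refine Fintype.prod_equiv (Equiv.mulRight n0) _ _ ?_
    intro n
    simp [MulAut.mul_apply]
  set B : Subgroup P := ν.ker with hB
  have hB1 : B ≠ ⊥ := by
    intro h0
    apply hN1
    rw [Subgroup.eq_bot_iff_forall]
    intro n0 hn0
    apply Subtype.ext
    apply MulEquiv.ext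
    intro v
    have h1 : ((n0 : MulAut P) v) * v⁻¹ ∈ B := by
      rw [hB, MonoidHom.mem_ker, map_mul, map_inv]
      have := hνN ⟨n0, hn0⟩ v
      rw [this]; simp
    rw [h0, Subgroup.mem_bot] at h1
    simpa using mul_inv_eq_one.1 h1
  obtain ⟨x, hx⟩ := exists_prime_orderOf_dvd_card' p hK
  letI : MulAction K B :=
    { smul := fun k b => ⟨(k : MulAut P) b, by
        have : ν b = 1 := b.2
        change ν ((k : MulAut P) b) = 1
        rw [hνK, this, map_one]⟩
      one_smul := fun b => Subtype.ext (by
        change (((1 : K) : MulAut P)) (b : P) = b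
        simp)
      mul_smul := fun c d b => Subtype.ext (by
        change (((c * d : K) : MulAut P)) (b : P) = (c : MulAut P) ((d : MulAut P) (b : P))
        simp [MulAut.mul_apply]) }
  have hzp : IsPGroup p (Subgroup.zpowers x) := by
    apply IsPGroup.of_card (n := 1)
    rw [Nat.card_zpowers, hx, pow_one]
  haveI : Nontrivial B := (Subgroup.nontrivial_iff_ne_bot B).2 hB1
  have dvd : p ∣ Nat.card B := by
    obtain ⟨n, hn0, hn⟩ := (hP.to_subgroup B).nontrivial_iff_card.mp inferInstance
    exact hn.symm ▸ dvd_pow_self _ (ne_of_gt hn0)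
  have h1 : (1 : B) ∈ MulAction.fixedPoints (Subgroup.zpowers x) B := by
    intro c
    apply Subtype.ext
    change (((c : K) : MulAut P)) ((1 : B) : P) = ((1 : B) : P)
    simp
  obtain ⟨b, hb, hb1⟩ := hzp.exists_fixed_point_of_prime_dvd_card_of_fixed_point B dvd h1
  have hxb : (x : MulAut P) (b : P) = b :=
    congrArg Subtype.val (hb ⟨x, Subgroup.mem_zpowers x⟩)
  have hx1 : (x : MulAut P) ≠ 1 := by
    intro h0
    have : x = 1 := Subtype.ext h0
    rw [this, orderOf_one] at hx
    exact hp.one_lt.ne hx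
  have hall : ∀ n : N, ((n : K) : MulAut P) (b : P) = b := by
    intro n
    by_cases hn : ((n : K) : MulAut P) = 1
    · rw [hn]; simp
    · exact (hfix x _ x.2 (n : K).2 hx1 hn b).1 hxb
  have hνb : ν b = (b : P) ^ Nat.card N := by
    rw [hν, Finset.prod_congr rfl (fun n _ => hall n), Finset.prod_const, Finset.card_univ,
      Nat.card_eq_fintype_card]
  have hb0 : (b : P) ^ Nat.card N = 1 := by
    rw [← hνb]; exact b.2
  obtain ⟨k, hk⟩ := hP (b : P)
  have h2 : orderOf (b : P) ∣ Nat.card N := orderOf_dvd_of_pow_eq_one hb0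
  have h3 : orderOf (b : P) ∣ p ^ k := orderOf_dvd_of_pow_eq_one hk
  have hcop : Nat.Coprime (Nat.card N) (p ^ k) :=
    Nat.Coprime.pow_right _ ((Nat.Prime.coprime_iff_not_dvd hp).2 hpN).symm
  have h4 : orderOf (b : P) = 1 := Nat.eq_one_of_dvd_coprimes hcop h2 h3
  apply hb1
  apply Subtype.ext
  exact (orderOf_eq_one_iff.1 h4).symm

end Cfsg.Agent.S4036
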