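import Cfsg.Statements.S4043
import Cfsg.Agent.Lib.Helper1.CoprimeSylow
import Cfsg.Agent.Lib.Lead.Basic

set_option autoImplicit false
open Cfsg

namespace Cfsg.Agent.S4043

open scoped Pointwise

/-- conjugation action of a subgroup `S` on a subgroup `M` that it normalises -/
def conjAct {G : Type*} [Group G] (S M : Subgroup G) (h : ∀ s ∈ S, ∀ m ∈ M, s * m * s⁻¹ ∈ M) :
    MulAction S M where
  smul s m := ⟨s * m * s⁻¹, h s s.2 m m.2⟩
  one_smul m := by
    apply Subtype.ext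
    show ((1 : S) : G) * m * ((1 : S) : G)⁻¹ = m
    simp
  mul_smul a b m := by
    apply Subtype.ext
    show ((a * b : S) : G) * m * ((a * b : S) : G)⁻¹ = (a : G) * ((b : G) * m * (b : G)⁻¹) * (a : G)⁻¹
    simp [mul_assoc]

theorem normalizer_eq {G : Type*} [Group G] [Finite G] {p : ℕ} [Fact p.Prime] (N : Subgroup G)
    [N.Normal] (hN : IsPGroup p N) (B : Subgroup G) (hB : B.IsComplement' N) (P : Sylow p B)
    (K' : Subgroup B) (hKn : K'.Normal) (hK : K'.IsComplement' (P : Subgroup B))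
    (hC : ∀ n : G, n ∈ N → (∀ a : G, a ∈ B → a * n * a⁻¹ = n) → n = 1) :
    Subgroup.normalizer ((K'.map B.subtype : Subgroup G) : Set G) = B := by
  classical
  set K := K'.map B.subtype with hKdef
  have hKB : K ≤ B := by
    rintro _ ⟨k, _, rfl⟩
    exact k.2
  have hBK : B ≤ Subgroup.normalizer (K : Set G) := by
    intro b hb
    rw [Subgroup.mem_normalizer_iff]
    intro x
    constructor
    · rintro ⟨k, hk, rfl⟩
      exact ⟨⟨b, hb⟩ * k * ⟨b, hb⟩⁻¹, hKn.conj_mem k hk _, by simp⟩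
    · rintro ⟨k, hk, hkx⟩
      refine ⟨⟨b, hb⟩⁻¹ * k * ⟨b, hb⟩, ?_, ?_⟩
      · have := hKn.conj_mem k hk (⟨b, hb⟩⁻¹ : B)
        simpa using this
      · have : (B.subtype k : G) = b * x * b⁻¹ := hkx
        simp only [map_mul, map_inv, Subgroup.subtype_apply] at this ⊢
        rw [this]
        group
  have hdisj : B ⊓ N = ⊥ := hB.disjoint.eq_bot
  -- the part of the normaliser inside N
  set N0 := Subgroup.normalizer (K : Set G) ⊓ N with hN0
  have hcent : ∀ m ∈ N0, ∀ k ∈ K, k * m * k⁻¹ = m := by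
    intro m hm k hk
    obtain ⟨hm1, hm2⟩ := Subgroup.mem_inf.mp hm
    have h1 : m * k⁻¹ * m⁻¹ ∈ K := (Subgroup.mem_normalizer_iff.mp hm1 k⁻¹).mp (K.inv_mem hk)
    have h2 : k * (m * k⁻¹ * m⁻¹) ∈ K := K.mul_mem hk h1
    have h3 : k * m * k⁻¹ ∈ N := ‹N.Normal›.conj_mem m hm2 k
    have h4 : k * (m * k⁻¹ * m⁻¹) ∈ N := by
      have : k * (m * k⁻¹ * m⁻¹) = (k * m * k⁻¹) * m⁻¹ := by group
      rw [this]
      exact N.mul_mem h3 (N.inv_mem hm2)
    have h5 : k * (m * k⁻¹ * m⁻¹) ∈ B ⊓ N := Subgroup.mem_inf.mpr ⟨hKB h2, h4⟩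
    rw [hdisj, Subgroup.mem_bot] at h5
    have : k * m * k⁻¹ * m⁻¹ = 1 := by
      rw [← h5]; group
    exact mul_inv_eq_one.mp this
  have hN0bot : N0 = ⊥ := by
    by_contra hne
    set S := (P : Subgroup B).map B.subtype with hS
    have hSB : S ≤ B := by
      rintro _ ⟨k, _, rfl⟩
      exact k.2
    have hSp : IsPGroup p S := P.isPGroup'.map B.subtype
    have hnorm : ∀ s ∈ S, ∀ m ∈ N0, s * m * s⁻¹ ∈ N0 := by
      intro s hs m hm
      obtain ⟨hm1, hm2⟩ := Subgroup.mem_inf.mp hm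
      have hsn := hBK (hSB hs)
      exact Subgroup.mem_inf.mpr ⟨Subgroup.mul_mem _ (Subgroup.mul_mem _ hsn hm1) (Subgroup.inv_mem _ hsn),
        ‹N.Normal›.conj_mem m hm2 s⟩
    letI := conjAct S N0 hnorm
    have hN0p : IsPGroup p N0 := hN.to_le inf_le_right
    have hdvd : p ∣ Nat.card N0 := by
      obtain ⟨k, hk⟩ := IsPGroup.iff_card.mp hN0p
      rw [hk]
      rcases Nat.eq_zero_or_pos k with rfl | hpos
      · exfalso
        rw [pow_zero] at hk
        exact hne (Subgroup.card_eq_one.mp hk)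
      · exact dvd_pow_self p hpos.ne'
    have hfix : (1 : N0) ∈ MulAction.fixedPoints S N0 := by
      intro s
      apply Subtype.ext
      show (s : G) * ((1 : N0) : G) * (s : G)⁻¹ = ((1 : N0) : G)
      simp
    obtain ⟨z, hz, hz1⟩ := hSp.exists_fixed_point_of_prime_dvd_card_of_fixed_point N0 hdvd hfix
    apply hz1
    apply Subtype.ext
    symm
    apply hC z (Subgroup.mem_inf.mp z.2).2
    intro a ha
    obtain ⟨k, hk, s, hs, hks⟩ := Cfsg.Agent.Lib.Helper1.IsComplement'.exists_mul hK (⟨a, ha⟩ : B)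
    have ha' : a = (k : G) * (s : G) := by
      have := congrArg Subtype.val hks
      simpa using this
    have h1 : (s : G) * z * (s : G)⁻¹ = z := by
      have := hz ⟨(s : G), ⟨s, hs, rfl⟩⟩
      exact congrArg Subtype.val this
    have h2 := hcent z z.2 (k : G) ⟨k, hk, rfl⟩
    rw [ha']
    calc (k : G) * (s : G) * z * ((k : G) * (s : G))⁻¹ = (k : G) * ((s : G) * z * (s : G)⁻¹) * (k : G)⁻¹ := by group
      _ = z := by rw [h1, h2]
  apply le_antisymm _ hBK
  intro g hg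
  obtain ⟨b, hb, m, hm, rfl⟩ := Cfsg.Agent.Lib.Helper1.IsComplement'.exists_mul hB g
  have hm' : m ∈ N0 := by
    refine Subgroup.mem_inf.mpr ⟨?_, hm⟩
    have : m = b⁻¹ * (b * m) := by group
    rw [this]
    exact Subgroup.mul_mem _ (Subgroup.inv_mem _ (hBK hb)) hg
  rw [hN0bot, Subgroup.mem_bot] at hm'
  rw [hm', mul_one]
  exact hb

/-- Let G be a finite group that is the semidirect product of a normal p-subgroup N by a subgroup A, and also of N by a subgroup A₁, where p is a prime and A and A₁ both have normal p-complements. If C_N(A) = C_N(A₁) = 1, then A₁ is conjugate to A by an element of N. -/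
theorem result {G : Type*} [Group G] [Finite G] {p : ℕ}
    [Fact p.Prime] (N : Subgroup G) [N.Normal] (hN : IsPGroup p N) (A A₁ : Subgroup G)
    (hA : A.IsComplement' N) (hA₁ : A₁.IsComplement' N)
    (hAp : Cfsg.HasNormalPComplement p A) (hA₁p : Cfsg.HasNormalPComplement p A₁)
    (hC : ∀ n : G, n ∈ N → (∀ a : G, a ∈ A → a * n * a⁻¹ = n) → n = 1)
    (hC₁ : ∀ n : G, n ∈ N → (∀ a : G, a ∈ A₁ → a * n * a⁻¹ = n) → n = 1) :
    ∃ n : G, n ∈ N ∧ A₁ = A.map (MulAut.conj n).toMonoidHom := by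
  classical
  obtain ⟨P, K', hKn, hK⟩ := hAp
  obtain ⟨P₁, K₁', hKn₁, hK₁⟩ := hA₁p
  have e1 := normalizer_eq N hN A hA P K' hKn hK hC
  have e2 := normalizer_eq N hN A₁ hA₁ P₁ K₁' hKn₁ hK₁ hC₁
  set K := K'.map A.subtype with hKdef
  set K₁ := K₁'.map A₁.subtype with hK₁def
  have cK : Nat.card K = Nat.card K' := Subgroup.card_map_of_injective A.subtype_injective
  have cK₁ : Nat.card K₁ = Nat.card K₁' := Subgroup.card_map_of_injective A₁.subtype_injective
  have cA : Nat.card A = Nat.card A₁ := by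
    have h1 := hA.card_mul_card
    have h2 := hA₁.card_mul_card
    have hpos : 0 < Nat.card N := Nat.card_pos
    exact Nat.eq_of_mul_eq_mul_right hpos (h1.trans h2.symm)
  have cP : Nat.card (P : Subgroup A) = Nat.card (P₁ : Subgroup A₁) := by
    rw [Sylow.card_eq_multiplicity, Sylow.card_eq_multiplicity, cA]
  have cKK : Nat.card K₁ = Nat.card K := by
    rw [cK, cK₁]
    have h1 := hK.card_mul_card
    have h2 := hK₁.card_mul_card
    rw [cA, ← h2, cP] at h1
    have hpos : 0 < Nat.card (P₁ : Subgroup A₁) := Nat.card_pos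
    exact (Nat.eq_of_mul_eq_mul_right hpos h1).symm
  have hKcop : (Nat.card K).Coprime p := by
    rw [cK, ← hK.index_eq_card]
    exact ((Nat.Prime.coprime_iff_not_dvd Fact.out).mpr P.not_dvd_index).symm
  have hNK : (Nat.card N).Coprime (Nat.card K) := by
    obtain ⟨k, hk⟩ := IsPGroup.iff_card.mp hN
    rw [hk]
    exact (Nat.Coprime.pow_left k hKcop.symm)
  have hKA : K ≤ A := by
    rintro _ ⟨k, _, rfl⟩
    exact k.2
  -- N ⊔ K is normal of p-power index
  have hKnorm : K ≤ Subgroup.normalizer (N : Set G) := by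
    rw [Subgroup.normalizer_eq_top]; exact le_top
  have hLn : (N ⊔ K).Normal := by
    constructor
    intro x hx g
    obtain ⟨a, ha, m, hm, rfl⟩ := Cfsg.Agent.Lib.Helper1.IsComplement'.exists_mul hA g
    obtain ⟨n', hn', k, hk, rfl⟩ := (Cfsg.Agent.Lib.Helper1.mem_sup_of_le_normalizer hKnorm).mp hx
    have h1 : a * m * (n' * k) * (a * m)⁻¹ = (a * (m * n') * a⁻¹) * (a * k * a⁻¹) * (a * m⁻¹ * a⁻¹) := by
      group
    rw [h1]
    have hak : a * k * a⁻¹ ∈ K := by
      have : a ∈ Subgroup.normalizer (K : Set G) := by rw [e1]; exact ha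
      exact (Subgroup.mem_normalizer_iff.mp this k).mp hk
    exact Subgroup.mul_mem _ (Subgroup.mul_mem _
      (Subgroup.mem_sup_left (‹N.Normal›.conj_mem _ (N.mul_mem hm hn') a)) (Subgroup.mem_sup_right hak))
      (Subgroup.mem_sup_left (‹N.Normal›.conj_mem _ (N.inv_mem hm) a))
  have hLindex : ∃ j, (N ⊔ K).index = p ^ j := by
    have hd : Disjoint N K := Cfsg.Agent.Lib.Helper1.disjoint_of_coprime_card hNK
    have h1 := (Cfsg.Agent.Lib.Helper1.isComplement'_subgroupOf_sup' hKnorm hd).card_mul_card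
    rw [Cfsg.Agent.Lib.Helper1.card_subgroupOf_of_le le_sup_left,
      Cfsg.Agent.Lib.Helper1.card_subgroupOf_of_le le_sup_right] at h1
    have h2 := (N ⊔ K).card_mul_index
    have h3 := hA.card_mul_card
    have h4 := hK.card_mul_card
    obtain ⟨j, hj⟩ := IsPGroup.iff_card.mp P.isPGroup'
    refine ⟨j, ?_⟩
    rw [← h1, ← h3, ← h4, hj, ← cK] at h2
    have hpos : 0 < Nat.card N * Nat.card K := Nat.mul_pos Nat.card_pos Nat.card_pos
    apply Nat.eq_of_mul_eq_mul_left hpos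
    rw [h2]; ring
  have hK₁L : K₁ ≤ N ⊔ K := by
    rw [← Subgroup.relIndex_eq_one]
    obtain ⟨j, hj⟩ := hLindex
    have h1 : (N ⊔ K).relIndex K₁ ∣ p ^ j := hj ▸ Subgroup.relIndex_dvd_index_of_normal (N ⊔ K) K₁
    have h2 : (N ⊔ K).relIndex K₁ ∣ Nat.card K₁ := Subgroup.relIndex_dvd_card _ _
    rw [cKK] at h2
    exact Nat.eq_one_of_dvd_coprimes (Nat.Coprime.pow_right j hKcop) h2 h1
  obtain ⟨n, hn, hconj⟩ := Cfsg.Agent.Lib.Helper1.szi_card N K K₁ hKnorm hK₁L cKK hNK
    (Or.inl (Cfsg.Agent.Lib.Lead.isSolvable_of_isPGroup hN))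
  refine ⟨n, hn, ?_⟩
  ext x
  rw [← e2, ← hconj, Cfsg.Agent.Lib.Helper1.mem_normalizer_conj_smul, e1]
  constructor
  · intro h
    exact ⟨n⁻¹ * x * n, h, by simp [mul_assoc]⟩
  · rintro ⟨a, ha, rfl⟩
    have : n⁻¹ * ((MulAut.conj n).toMonoidHom a) * n = a := by simp [mul_assoc]
    rw [this]
    exact ha

end Cfsg.Agent.S4043
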