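import Cfsg.Statements.S4049
import Cfsg.Agent.Lib.Helper21.TwoClosed

set_option autoImplicit false
open Cfsg

namespace Cfsg.Agent.S4049

/-- Let G be a finite group such that N_G(H)/C_G(H) has odd order for every nontrivial subgroup H of odd order. Then the Sylow 2-subgroups of G are normal. -/
theorem result {G : Type*} [Group G] [Finite G]
    (hhom : ∀ H : Subgroup G, H ≠ ⊥ → ¬ 2 ∣ Nat.card ↥H →
        ¬ 2 ∣ (Subgroup.centralizer (H : Set G)).relIndex (Subgroup.normalizer (H : Set G))) (P : Sylow 2 G) :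
    (P : Subgroup G).Normal := by
  apply Cfsg.Agent.Lib.Helper21.sylow_two_normal_of_centralize
  intro h v hodd hv2 hv
  by_cases h1 : h = 1
  · rw [h1]; simp
  set H := Subgroup.zpowers h with hH
  have hHb : H ≠ ⊥ := by
    intro hb
    apply h1
    have : h ∈ H := Subgroup.mem_zpowers h
    rw [hb] at this
    exact Subgroup.mem_bot.mp this
  have hHodd : ¬ 2 ∣ Nat.card H := by
    rw [hH, Nat.card_zpowers]
    exact fun hd => (Nat.not_even_iff_odd.mpr hodd) (even_iff_two_dvd.mpr hd)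
  have hidx := hhom H hHb hHodd
  set Nn := Subgroup.normalizer (H : Set G) with hNn
  set C := Subgroup.centralizer (H : Set G) with hC
  haveI : (C.subgroupOf Nn).Normal := Subgroup.normal_subgroupOf_centralizer_normalizer _
  obtain ⟨k, hk⟩ := hv2
  have hq : ((⟨v, hv⟩ : Nn) : Nn ⧸ C.subgroupOf Nn) = 1 := by
    have ho1 : orderOf ((⟨v, hv⟩ : Nn) : Nn ⧸ C.subgroupOf Nn) ∣ 2 ^ k := by
      apply orderOf_dvd_of_pow_eq_one
      rw [← QuotientGroup.mk_pow]
      have : (⟨v, hv⟩ : Nn) ^ 2 ^ k = 1 := Subtype.ext hk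
      rw [this]; rfl
    have ho2 : orderOf ((⟨v, hv⟩ : Nn) : Nn ⧸ C.subgroupOf Nn) ∣ C.relIndex Nn := by
      have := orderOf_dvd_natCard ((⟨v, hv⟩ : Nn) : Nn ⧸ C.subgroupOf Nn)
      rwa [← Subgroup.index_eq_card] at this
    have hcop : Nat.Coprime (2 ^ k) (C.relIndex Nn) :=
      Nat.Coprime.pow_left _ ((Nat.Prime.coprime_iff_not_dvd Nat.prime_two).mpr hidx)
    have := Nat.dvd_gcd ho1 ho2
    rw [hcop.gcd_eq_one, Nat.dvd_one, orderOf_eq_one_iff] at this
    exact this
  rw [QuotientGroup.eq_one_iff, Subgroup.mem_subgroupOf] at hq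
  have hq' : v ∈ C := hq
  rw [hC, Subgroup.mem_centralizer_iff] at hq'
  exact (hq' h (Subgroup.mem_zpowers h)).symm

end Cfsg.Agent.S4049
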