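import Cfsg.Statements.S4050
import Cfsg.Agent.Lib.Helper17.PiClosed4

set_option autoImplicit false
open Cfsg

namespace Cfsg.Agent.S4050

open Cfsg.Agent.Lib.Helper17 in

/-- Let π be a set of primes and G a finite group. The π-elements of G (elements whose order is divisible only by primes of π) form a subgroup if and only if G is π-separable (it has a chain of normal subgroups from 1 to G with each successive index divisible only by primes in π or only by primes outside π) and N_G(H)/C_G(H) is a π'-group for every nontrivial π'-subgroup H of G. -/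
theorem result {G : Type*} [Group G] [Finite G] (π : Set ℕ)
    (hπ : ∀ p ∈ π, p.Prime) :
    (∃ K : Subgroup G, ∀ x : G, x ∈ K ↔ ∀ p : ℕ, p.Prime → p ∣ orderOf x → p ∈ π) ↔
    ((∃ (n : ℕ) (H : Fin (n + 1) → Subgroup G), H 0 = ⊥ ∧ H (Fin.last n) = ⊤ ∧ Monotone H ∧ (∀ i, (H i).Normal) ∧
      ∀ i : Fin n, (∀ q : ℕ, q.Prime → q ∣ (H i.castSucc).relIndex (H i.succ) → q ∈ π) ∨
        (∀ q : ℕ, q.Prime → q ∣ (H i.castSucc).relIndex (H i.succ) → q ∉ π)) ∧
     (∀ H : Subgroup G, H ≠ ⊥ → (∀ p : ℕ, p.Prime → p ∣ Nat.card ↥H → p ∉ π) →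
        ∀ p : ℕ, p.Prime → p ∣ (Subgroup.centralizer (H : Set G)).relIndex (Subgroup.normalizer (H : Set G)) → p ∉ π)) := by
  constructor
  · rintro ⟨O, hO⟩
    have hO' : ∀ x, x ∈ O ↔ PiElt π x := hO
    haveI hOn := piClosed_normal O hO'
    refine ⟨⟨2, ![⊥, O, ⊤], rfl, rfl, ?_, ?_, ?_⟩, ?_⟩
    · intro i j hij
      fin_cases i <;> fin_cases j <;> first | exact le_rfl | exact bot_le | exact le_top | (exfalso; revert hij; decide)
    · intro i
      fin_cases i
      · exact (inferInstance : (⊥ : Subgroup G).Normal)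
      · exact hOn
      · exact (inferInstance : (⊤ : Subgroup G).Normal)
    · intro i
      fin_cases i
      · left
        change ∀ q : ℕ, q.Prime → q ∣ (⊥ : Subgroup G).relIndex O → q ∈ π
        rw [Subgroup.relIndex_bot_left]
        exact piClosed_card O hO'
      · right
        change ∀ q : ℕ, q.Prime → q ∣ O.relIndex (⊤ : Subgroup G) → q ∉ π
        rw [Subgroup.relIndex_top_right]
        exact piClosed_index O hO'
    · intro H _ hH
      exact piClosed_hom O hO' H hH
  · rintro ⟨⟨n, H, h0, hlast, -, hnorm, hstep⟩, hhom⟩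
    obtain ⟨E, hE⟩ := piClosed_of_chain (star_of_hom hhom) n H h0 hlast hnorm hstep
    exact ⟨E, hE⟩

end Cfsg.Agent.S4050
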