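import Cfsg.Statements.S4056
import Cfsg.Agent.Lib.Helper17.ClassTwo
import Cfsg.Agent.Lib.Helper16.Frat

set_option autoImplicit false
open Cfsg

namespace Cfsg.Agent.S4056

open Cfsg.Agent.Lib.Helper17 in

/-- In a finite 2-group of nilpotency class at most 2 and exponent dividing 4, the Frattini subgroup lies in the centre and is elementary abelian. -/
theorem result {P : Type*} [Group P] [Finite P] (hP : IsPGroup 2 P)
    (hcl : Group.nilpotencyClass P ≤ 2) (hexp : Monoid.exponent P ∣ 4) :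
    frattini P ≤ Subgroup.center P ∧ Cfsg.IsElementaryAbelian 2 (frattini P) := by
  haveI : Group.IsNilpotent P := hP.isNilpotent
  have hU : Subgroup.upperCentralSeries P 2 = ⊤ := Subgroup.upperCentralSeries_eq_top_iff_nilpotencyClass_le.mpr hcl
  have hcen : ∀ x y : P, x * y * x⁻¹ * y⁻¹ ∈ Subgroup.center P := by
    intro x y
    have hx : x ∈ Subgroup.upperCentralSeries P (1 + 1) := by
      rw [show 1 + 1 = 2 from rfl, hU]; trivial
    rw [Subgroup.mem_upperCentralSeries_succ_iff] at hx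
    have := hx y
    rwa [Subgroup.upperCentralSeries_one, commutatorElement_def] at this
  have h4 : ∀ x : P, x ^ 4 = 1 := by
    intro x
    obtain ⟨k, hk⟩ := hexp
    rw [hk, pow_mul, Monoid.pow_exponent_eq_one, one_pow]
  have hc2 : ∀ a b : P, (b * a * b⁻¹ * a⁻¹) ^ 2 = 1 := by
    intro a b
    have hc : b * a = (b * a * b⁻¹ * a⁻¹) * a * b := by group
    have hz := hcen b a
    have hca : Commute (b * a * b⁻¹ * a⁻¹) a := (Subgroup.mem_center_iff.mp hz a).symm
    have hcb : Commute (b * a * b⁻¹ * a⁻¹) b := (Subgroup.mem_center_iff.mp hz b).symm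
    have h := mul_pow_class_two hc hca hcb 4
    rw [h4, h4, h4, show Nat.choose 4 2 = 6 from rfl] at h
    have h6 : (b * a * b⁻¹ * a⁻¹) ^ 6 = 1 := by simpa using h.symm
    have h44 := h4 (b * a * b⁻¹ * a⁻¹)
    have : (b * a * b⁻¹ * a⁻¹) ^ 6 = (b * a * b⁻¹ * a⁻¹) ^ 4 * (b * a * b⁻¹ * a⁻¹) ^ 2 := by
      rw [← pow_add]
    rw [this, h44, one_mul] at h6
    exact h6
  have hsq : ∀ a : P, a ^ 2 ∈ Subgroup.center P := by
    intro a
    rw [Subgroup.mem_center_iff]
    intro b
    have hc : b * a = (b * a * b⁻¹ * a⁻¹) * a * b := by group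
    have hz := hcen b a
    have hca : Commute (b * a * b⁻¹ * a⁻¹) a := (Subgroup.mem_center_iff.mp hz a).symm
    have h := mul_pow_class_two' hc hca 2
    rw [hc2, one_mul] at h
    exact h
  let K : Subgroup P :=
    { carrier := {z | z ∈ Subgroup.center P ∧ z ^ 2 = 1}
      mul_mem' := by
        intro z w hz hw
        refine ⟨(Subgroup.center P).mul_mem hz.1 hw.1, ?_⟩
        have hcomm : Commute z w := (Subgroup.mem_center_iff.mp hz.1 w).symm
        rw [hcomm.mul_pow, hz.2, hw.2, one_mul]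
      one_mem' := ⟨(Subgroup.center P).one_mem, one_pow 2⟩
      inv_mem' := by
        intro z hz
        exact ⟨(Subgroup.center P).inv_mem hz.1, by rw [inv_pow, hz.2, inv_one]⟩ }
  have hK : frattini P ≤ K := by
    haveI : Fact (Nat.Prime 2) := ⟨Nat.prime_two⟩
    apply Cfsg.Agent.Lib.Helper16.frattini_le_of_elemAb (p := 2)
    · rw [commutator_def, Subgroup.commutator_le]
      intro g₁ _ g₂ _
      rw [commutatorElement_def]
      exact ⟨hcen g₁ g₂, hc2 g₂ g₁⟩
    · intro x
      refine ⟨hsq x, ?_⟩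
      rw [← pow_mul]
      exact h4 x
  refine ⟨fun x hx => (hK hx).1, ?_, fun a ha => (hK ha).2⟩
  exact ⟨⟨fun a b => Subtype.ext ((Subgroup.mem_center_iff.mp (hK a.2).1 b.1).symm)⟩⟩

end Cfsg.Agent.S4056
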