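import Cfsg.Statements.S4058
import Cfsg.Agent.Lib.Helper21.SignChars
import Cfsg.Agent.S0158
import Cfsg.Agent.S0159
import Cfsg.Agent.S0135
import Cfsg.Agent.S0137

set_option autoImplicit false
open Cfsg

namespace Cfsg.Agent.S4058

open Cfsg.Agent.Lib.Helper21

/-- Let G be a finite 2-group with #(G/Φ(G)) ≥ 2^(2k+1). Then the number of elements x of G with x² = 1 is divisible by 2^(k+1). -/
theorem result {G : Type*} [Group G] [Finite G] (hG : IsPGroup 2 G) (k : ℕ)
    (hgen : 2 ^ (2 * k + 1) ≤ Nat.card (G ⧸ frattini G)) :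
    2 ^ (k + 1) ∣ Nat.card {x : G // x ^ 2 = 1} := by
  classical
  haveI : Fintype G := Fintype.ofFinite G
  letI := twistAction G
  haveI : Finite (Cfsg.IrrCharacter G) := Cfsg.Agent.Lib.Helper2.finite_irr
  haveI : Fintype (Cfsg.IrrCharacter G) := Fintype.ofFinite _
  have h2 : Fact (Nat.Prime 2) := ⟨Nat.prime_two⟩
  obtain ⟨d, hd⟩ := IsPGroup.iff_card.mp (isPGroup_signHom G)
  obtain ⟨m, hm⟩ := IsPGroup.iff_card.mp hG
  have hd2 : 2 * k + 1 ≤ d := by
    have h3 := hgen.trans (card_quotient_frattini_le hG)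
    rw [hd] at h3
    exact (Nat.pow_le_pow_iff_right (by norm_num)).mp h3
  have key : ∀ χ : Cfsg.IrrCharacter G, ∃ z : ℤ,
      ((Nat.card G : ℂ)⁻¹ * ∑ s : G, (χ : G → ℂ) (s * s)) * (χ : G → ℂ) 1 = (z : ℂ) ∧
      ((2 : ℤ) ^ (k + 1)) ∣ (Nat.card (MulAction.orbit (G →* ℤˣ) χ) : ℤ) * z := by
    intro χ
    obtain ⟨n, ρ, hirr, hρ⟩ := χ.2
    haveI := hirr
    have hdeg : (χ : G → ℂ) 1 = (n : ℂ) := by
      rw [← hρ, Representation.char_one, Module.finrank_fin_fun]
    have hndvd : n ∣ Nat.card G := by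
      have := Cfsg.Agent.S0135.result ρ
      rwa [Module.finrank_fin_fun] at this
    rw [hm] at hndvd
    obtain ⟨e, -, he⟩ := (Nat.dvd_prime_pow Nat.prime_two).mp hndvd
    obtain ⟨s, hs⟩ := IsPGroup.iff_card.mp
      ((isPGroup_signHom G).to_subgroup (MulAction.stabilizer (G →* ℤˣ) χ))
    have hle : (Nat.card (MulAction.stabilizer (G →* ℤˣ) χ) : ℝ) ≤ (n : ℝ) ^ 2 := by
      apply card_le_sq_of_fix χ.2
      · intro l hl g
        have := congrArg Subtype.val (MulAction.mem_stabilizer_iff.mp hl)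
        exact congrFun this g
      · intro g
        have := Cfsg.Agent.S0137.result ρ g
        rwa [Module.finrank_fin_fun, hρ] at this
    have hse : s ≤ 2 * e := by
      rw [hs, he] at hle
      have h3 : 2 ^ s ≤ 2 ^ (2 * e) := by
        have : ((2 ^ s : ℕ) : ℝ) ≤ ((2 ^ (2 * e) : ℕ) : ℝ) := by
          rw [mul_comm 2 e, pow_mul]
          push_cast at hle ⊢
          exact hle
        exact_mod_cast this
      exact (Nat.pow_le_pow_iff_right (by norm_num)).mp h3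
    have horb : Nat.card (MulAction.orbit (G →* ℤˣ) χ) * 2 ^ s = 2 ^ d := by
      rw [← hs, ← hd, Nat.card_coe_set_eq, ← MulAction.index_stabilizer, mul_comm]
      exact Subgroup.card_mul_index _
    have hsd : s ≤ d := by
      have : 2 ^ s ∣ 2 ^ d := ⟨_, by rw [← horb, mul_comm]⟩
      exact (Nat.pow_dvd_pow_iff_le_right (by norm_num)).mp this
    have horb' : Nat.card (MulAction.orbit (G →* ℤˣ) χ) = 2 ^ (d - s) := by
      have h3 : 2 ^ d = 2 ^ (d - s) * 2 ^ s := by rw [← pow_add]; congr 1; omega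
      rw [h3] at horb
      exact Nat.eq_of_mul_eq_mul_right (by positivity) horb
    have hdv : ∀ ν : ℤ, ((2 : ℤ) ^ (k + 1)) ∣
        (Nat.card (MulAction.orbit (G →* ℤˣ) χ) : ℤ) * (ν * (n : ℤ)) := by
      intro ν
      rw [horb', he]
      push_cast
      have h3 : (2 : ℤ) ^ (d - s) * (ν * 2 ^ e) = 2 ^ (k + 1) * (2 ^ (d - s + e - (k + 1)) * ν) := by
        have h4 : (2 : ℤ) ^ (k + 1) * 2 ^ (d - s + e - (k + 1)) = 2 ^ (d - s) * 2 ^ e := by
          rw [← pow_add, ← pow_add]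
          congr 1
          omega
        calc (2 : ℤ) ^ (d - s) * (ν * 2 ^ e) = (2 ^ (d - s) * 2 ^ e) * ν := by ring
          _ = (2 ^ (k + 1) * 2 ^ (d - s + e - (k + 1))) * ν := by rw [h4]
          _ = _ := by ring
      rw [h3]
      exact Dvd.intro _ rfl
    have hFS := (Cfsg.Agent.S0158.result ρ).1
    rw [hρ] at hFS
    rcases hFS with h | h | h
    · exact ⟨0 * n, by rw [h, hdeg]; push_cast; ring, hdv 0⟩
    · exact ⟨1 * n, by rw [h, hdeg]; push_cast; ring, hdv 1⟩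
    · exact ⟨(-1) * n, by rw [h, hdeg]; push_cast; ring, hdv (-1)⟩
  choose f hf1 hf2 using key
  have hinv : ∀ (l : G →* ℤˣ) (χ : Cfsg.IrrCharacter G), f (l • χ) = f χ := by
    intro l χ
    have h3 : ((f (l • χ) : ℤ) : ℂ) = ((f χ : ℤ) : ℂ) := by
      rw [← hf1, ← hf1]
      have h4 : ∀ g, ((l • χ : Cfsg.IrrCharacter G) : G → ℂ) g = sg l g * (χ : G → ℂ) g :=
        fun g => rfl
      simp_rw [h4, sg_map_mul_self, sg_map_one, one_mul]
    exact_mod_cast h3
  have hdvd := dvd_sum_of_invariant f ((2 : ℤ) ^ (k + 1)) hinv hf2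
  have hcount := Cfsg.Agent.S0159.result (G := G)
  rw [finsum_eq_sum_of_fintype] at hcount
  simp_rw [hf1] at hcount
  have h5 : ((Nat.card {s : G // s * s = 1} : ℤ) : ℂ) = ((∑ χ : Cfsg.IrrCharacter G, f χ : ℤ) : ℂ) := by
    push_cast
    exact hcount
  have h6 : (Nat.card {s : G // s * s = 1} : ℤ) = ∑ χ : Cfsg.IrrCharacter G, f χ := by
    exact_mod_cast h5
  rw [← h6] at hdvd
  have h7 : Nat.card {x : G // x ^ 2 = 1} = Nat.card {s : G // s * s = 1} := by
    simp_rw [sq]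
  rw [h7]
  exact_mod_cast hdvd

end Cfsg.Agent.S4058
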