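import Cfsg.Statements.S4065
import Cfsg.Agent.Lib.Helper13.GL2

set_option autoImplicit false
open Cfsg
open Cfsg.Agent.Lib.Helper13

namespace Cfsg.Agent.S4065

/-- A group in which commuting is transitive on non-identity elements has TI centralizers. -/
theorem ti_of_ct {G : Type*} [Group G]
    (hCT : ∀ y : G, y ≠ 1 → ∀ a b : G, Commute a y → Commute b y → Commute a b) (x : G) :
    Cfsg.IsTISubset (Subgroup.centralizer ({x} : Set G) : Set G) := by
  intro g hg y hy hgy
  by_contra hy1
  apply hg
  have hy' : Commute y x := Subgroup.mem_centralizer_singleton_iff.mp hy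
  have hgy' : Commute (g * y * g⁻¹) x := Subgroup.mem_centralizer_singleton_iff.mp hgy
  have hgy1 : g * y * g⁻¹ ≠ 1 := by
    intro h
    apply hy1
    have := congrArg (fun t => g⁻¹ * t * g) h
    simpa [mul_assoc] using this
  rw [Subgroup.mem_set_normalizer_iff]
  intro h
  by_cases hx : x = 1
  · subst hx
    simp [Subgroup.mem_centralizer_singleton_iff]
  simp only [SetLike.mem_coe, Subgroup.mem_centralizer_singleton_iff]
  constructor
  · intro hh
    have h1 : Commute h y := hCT x hx h y hh hy'
    have h2 : Commute (g * h * g⁻¹) (g * y * g⁻¹) := by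
      have : h * y = y * h := h1
      show (g * h * g⁻¹) * (g * y * g⁻¹) = (g * y * g⁻¹) * (g * h * g⁻¹)
      simp only [mul_assoc, inv_mul_cancel_left]
      rw [← mul_assoc h, this, mul_assoc]
    exact hCT _ hgy1 _ _ h2 hgy'.symm
  · intro hh
    have h2 : Commute (g * h * g⁻¹) (g * y * g⁻¹) := hCT x hx _ _ hh hgy'
    have h1 : Commute h y := by
      have h3 : (g * h * g⁻¹) * (g * y * g⁻¹) = (g * y * g⁻¹) * (g * h * g⁻¹) := h2
      have := congrArg (fun t => g⁻¹ * t * g) h3
      show h * y = y * h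
      simpa [mul_assoc] using this
    exact hCT y hy1 _ _ h1 hy'.symm

theorem sq_eq_one_char_two {F : Type*} [Field F] [CharP F 2] (r : F) (h : r ^ 2 = 1) : r = 1 := by
  have h2 : (2 : F) = 0 := CharP.cast_eq_zero F 2
  have : (r - 1) ^ 2 = 0 := by
    linear_combination h - (r - 1) * h2
  have := pow_eq_zero_iff (two_ne_zero) |>.mp this
  exact sub_eq_zero.mp this

theorem nonScal_of_ne_one {F : Type*} [Field F] [CharP F 2]
    (y : Matrix.SpecialLinearGroup (Fin 2) F) (hy : y ≠ 1) :
    NonScal (y : Matrix (Fin 2) (Fin 2) F) := by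
  by_contra hns
  unfold NonScal at hns
  push Not at hns
  obtain ⟨h01, h10, h00⟩ := hns
  apply hy
  have hdet := y.2
  rw [Matrix.det_fin_two, h01, h10, ← h00] at hdet
  have h1 : (y : Matrix (Fin 2) (Fin 2) F) 0 0 = 1 := sq_eq_one_char_two _ (by linear_combination hdet)
  ext i j
  fin_cases i <;> fin_cases j <;> simp [h01, h10, h1, ← h00]

theorem center_eq_bot {F : Type*} [Field F] [CharP F 2] :
    Subgroup.center (Matrix.SpecialLinearGroup (Fin 2) F) = ⊥ := by
  rw [eq_bot_iff]
  intro A hA
  rw [Matrix.SpecialLinearGroup.mem_center_iff] at hA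
  obtain ⟨r, hr, hA⟩ := hA
  rw [Fintype.card_fin] at hr
  have := sq_eq_one_char_two r hr
  subst this
  rw [Subgroup.mem_bot]
  ext i j
  rw [← hA]
  simp

theorem ct_SL {F : Type*} [Field F] [CharP F 2] (y : Matrix.SpecialLinearGroup (Fin 2) F)
    (hy : y ≠ 1) (a b : Matrix.SpecialLinearGroup (Fin 2) F) (ha : Commute a y) (hb : Commute b y) :
    Commute a b := by
  have hns := nonScal_of_ne_one y hy
  have ha' : (a : Matrix (Fin 2) (Fin 2) F) * y = y * a := by
    have := congrArg Subtype.val ha.eq
    simpa using this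
  have hb' : (b : Matrix (Fin 2) (Fin 2) F) * y = y * b := by
    have := congrArg Subtype.val hb.eq
    simpa using this
  obtain ⟨x1, y1, h1⟩ := (commute_iff_of_nonScal _ _ hns).mp ha'
  obtain ⟨x2, y2, h2⟩ := (commute_iff_of_nonScal _ _ hns).mp hb'
  apply Subtype.ext
  show (a : Matrix (Fin 2) (Fin 2) F) * b = b * a
  rw [h1, h2]
  generalize (y : Matrix (Fin 2) (Fin 2) F) = Y
  simp only [add_mul, mul_add, smul_mul_assoc, mul_smul_comm, one_mul, mul_one, smul_add, smul_smul]
  rw [mul_comm x1 x2, mul_comm y1 y2, mul_comm x1 y2, mul_comm y1 x2]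
  abel

/-- Let F be a finite field with 2ⁿ elements, n ≥ 2. In PSL₂(F) the centralizer of every element meets each of its conjugates by elements outside its normalizer trivially. -/
theorem result (n : ℕ) (hn : 2 ≤ n)
    (x : Matrix.ProjectiveSpecialLinearGroup (Fin 2) (GaloisField 2 n)) :
    Cfsg.IsTISubset (Subgroup.centralizer ({x} : Set (Matrix.ProjectiveSpecialLinearGroup (Fin 2) (GaloisField 2 n))) :
      Set (Matrix.ProjectiveSpecialLinearGroup (Fin 2) (GaloisField 2 n))) := by
  apply ti_of_ct
  have hinj : Function.Injective (QuotientGroup.mk' (Subgroup.center (Matrix.SpecialLinearGroup (Fin 2) (GaloisField 2 n)))) := by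
    rw [← MonoidHom.ker_eq_bot_iff, QuotientGroup.ker_mk', center_eq_bot]
  intro y hy a b ha hb
  obtain ⟨y, rfl⟩ := QuotientGroup.mk'_surjective _ y
  obtain ⟨a, rfl⟩ := QuotientGroup.mk'_surjective _ a
  obtain ⟨b, rfl⟩ := QuotientGroup.mk'_surjective _ b
  have hy' : y ≠ 1 := by
    rintro rfl
    exact hy (map_one _)
  have ha' : Commute a y := by
    apply hinj
    rw [map_mul, map_mul]; exact ha
  have hb' : Commute b y := by
    apply hinj
    rw [map_mul, map_mul]; exact hb
  exact (ct_SL y hy' a b ha' hb').map _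

end Cfsg.Agent.S4065
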