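import Mathlib
import Cfsg.Statements.S4066

set_option autoImplicit false
open Cfsg

namespace Cfsg.Agent.S4066

/-- Let G be a finite group in which the centralizer of every element meets each of its conjugates by elements outside its normalizer trivially. Then any two distinct Sylow p-subgroups of G, for any prime p, intersect trivially. -/
theorem result {G : Type*} [Group G] [Finite G] (hTI : ∀ x : G, Cfsg.IsTISubset (Subgroup.centralizer ({x} : Set G) : Set G))
    {p : ℕ} [Fact p.Prime] (P Q : Sylow p G) (hPQ : P ≠ Q) : (P : Subgroup G) ⊓ (Q : Subgroup G) = ⊥ := by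
  classical
  by_contra hbot
  obtain ⟨x, hx, hx1⟩ : ∃ x ∈ (P : Subgroup G) ⊓ (Q : Subgroup G), x ≠ 1 := by
    by_contra h
    push Not at h
    exact hbot ((Subgroup.eq_bot_iff_forall _).2 h)
  have hxP : x ∈ (P : Subgroup G) := (Subgroup.mem_inf.1 hx).1
  have hxQ : x ∈ (Q : Subgroup G) := (Subgroup.mem_inf.1 hx).2
  haveI : Nontrivial (P : Subgroup G) :=
    ⟨⟨⟨x, hxP⟩, 1, fun h => hx1 (congrArg Subtype.val h)⟩⟩
  haveI := P.2.center_nontrivial
  obtain ⟨⟨z, hz⟩, hz1⟩ := exists_ne (1 : Subgroup.center (P : Subgroup G))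
  have hz0 : (z : G) ≠ 1 := by
    intro h
    apply hz1
    apply Subtype.ext
    apply Subtype.ext
    exact h
  have hzc : ∀ y ∈ (P : Subgroup G), y * (z : G) = (z : G) * y := by
    intro y hy
    have := (Subgroup.mem_center_iff.1 hz) ⟨y, hy⟩
    exact congrArg Subtype.val this
  have memC : ∀ a y : G, y ∈ Subgroup.centralizer ({a} : Set G) ↔ a * y = y * a := by
    intro a y
    rw [Subgroup.mem_centralizer_iff]
    simp
  obtain ⟨g, hg⟩ := MulAction.exists_smul_eq G P Q
  have memQ : ∀ y : G, y ∈ (Q : Subgroup G) ↔ g⁻¹ * y * g ∈ (P : Subgroup G) := by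
    intro y
    rw [← hg, Sylow.coe_subgroup_smul, Subgroup.mem_pointwise_smul_iff_inv_smul_mem]
    simp [MulAut.smul_def]
  have hgN : g ∈ Subgroup.normalizer (Subgroup.centralizer ({(z : G)} : Set G) : Set G) := by
    by_contra hgN
    have h1 := hTI z g hgN (g⁻¹ * x * g)
      (by
        rw [SetLike.mem_coe, memC]
        exact (hzc _ ((memQ x).1 hxQ)).symm)
      (by
        rw [SetLike.mem_coe, memC]
        have : g * (g⁻¹ * x * g) * g⁻¹ = x := by group
        rw [this]
        exact (hzc _ hxP).symm)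
    apply hx1
    have : x = g * (g⁻¹ * x * g) * g⁻¹ := by group
    rw [this, h1]; group
  have hQz : ∀ q ∈ (Q : Subgroup G), (z : G) * q = q * (z : G) := by
    intro q hq
    rw [← memC]
    have h1 : g⁻¹ * q * g ∈ Subgroup.centralizer ({(z : G)} : Set G) := by
      rw [memC]; exact (hzc _ ((memQ q).1 hq)).symm
    rw [Subgroup.mem_normalizer_iff] at hgN
    have h2 := (hgN _).1 h1
    have : g * (g⁻¹ * q * g) * g⁻¹ = q := by group
    rwa [this] at h2
  have hcomm : ∀ u ∈ (P : Subgroup G), ∀ q ∈ (Q : Subgroup G), u * (q * u * q⁻¹) = (q * u * q⁻¹) * u := by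
    intro u hu q hq
    have hqN : q ∈ Subgroup.normalizer (Subgroup.centralizer ({u} : Set G) : Set G) := by
      by_contra hqN
      apply hz0
      refine hTI u q hqN z ?_ ?_
      · rw [SetLike.mem_coe, memC]; exact hzc u hu
      · rw [SetLike.mem_coe, memC]
        have : q * (z : G) * q⁻¹ = z := by rw [← hQz q hq]; group
        rw [this]; exact hzc u hu
    rw [Subgroup.mem_normalizer_iff] at hqN
    rw [← memC]
    exact (hqN u).1 ((memC u u).2 rfl)
  apply hPQ
  have hle : (P : Subgroup G) ≤ (Q : Subgroup G) := by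
    intro u hu
    set S : Set G := {y | ∃ q ∈ (Q : Subgroup G), y = q * u * q⁻¹} with hS
    have hSS : ∀ a ∈ S, ∀ b ∈ S, a * b = b * a := by
      rintro a ⟨q, hq, rfl⟩ b ⟨r, hr, rfl⟩
      have h1 := hcomm u hu (q⁻¹ * r) (Subgroup.mul_mem _ (Subgroup.inv_mem _ hq) hr)
      have h2 : q * u * q⁻¹ * (r * u * r⁻¹) = q * (u * ((q⁻¹ * r) * u * (q⁻¹ * r)⁻¹)) * q⁻¹ := by group
      have h3 : r * u * r⁻¹ * (q * u * q⁻¹) = q * (((q⁻¹ * r) * u * (q⁻¹ * r)⁻¹) * u) * q⁻¹ := by group
      rw [h2, h3, h1]
    have hc1 : ∀ a ∈ Subgroup.closure S, ∀ b ∈ S, a * b = b * a := by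
      intro a ha b hb
      have : Subgroup.closure S ≤ Subgroup.centralizer ({b} : Set G) := by
        rw [Subgroup.closure_le]
        intro c hc
        rw [SetLike.mem_coe, memC]
        exact hSS b hb c hc
      exact ((memC b a).1 (this ha)).symm
    have hc2 : ∀ a ∈ Subgroup.closure S, ∀ b ∈ Subgroup.closure S, Commute a b := by
      intro a ha b hb
      have : Subgroup.closure S ≤ Subgroup.centralizer ({a} : Set G) := by
        rw [Subgroup.closure_le]
        intro c hc
        rw [SetLike.mem_coe, memC]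
        exact hc1 a ha c hc
      exact (memC a b).1 (this hb)
    have hKp : IsPGroup p (Subgroup.closure S) := by
      have key : ∀ m ∈ Subgroup.closure S, ∃ k : ℕ, m ^ p ^ k = 1 := by
        intro m hm
        induction hm using Subgroup.closure_induction with
        | mem y hy =>
          obtain ⟨q, -, rfl⟩ := hy
          obtain ⟨k, hk⟩ := P.2 ⟨u, hu⟩
          refine ⟨k, ?_⟩
          have hk' : u ^ p ^ k = 1 := by simpa using congrArg Subtype.val hk
          rw [conj_pow, hk']; group
        | one => exact ⟨0, by simp⟩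
        | mul y y' hy hy' ihy ihy' =>
          obtain ⟨a, ha⟩ := ihy
          obtain ⟨b, hb⟩ := ihy'
          refine ⟨a + b, ?_⟩
          rw [(hc2 y hy y' hy').mul_pow, pow_add, pow_mul, ha, one_pow, mul_comm (p ^ a), pow_mul, hb,
            one_pow, one_mul]
        | inv y hy ihy =>
          obtain ⟨a, ha⟩ := ihy
          exact ⟨a, by rw [inv_pow, ha, inv_one]⟩
      intro m
      obtain ⟨k, hk⟩ := key m m.2
      exact ⟨k, Subtype.ext (by simpa using hk)⟩
    have hQN : (Q : Subgroup G) ≤ Subgroup.normalizer (Subgroup.closure S : Set G) := by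
      have hconj : ∀ q ∈ (Q : Subgroup G), ∀ m ∈ Subgroup.closure S, q * m * q⁻¹ ∈ Subgroup.closure S := by
        intro q hq m hm
        induction hm using Subgroup.closure_induction with
        | mem y hy =>
          obtain ⟨r, hr, rfl⟩ := hy
          apply Subgroup.subset_closure
          exact ⟨q * r, Subgroup.mul_mem _ hq hr, by group⟩
        | one => simp
        | mul y y' hy hy' ihy ihy' =>
          have : q * (y * y') * q⁻¹ = (q * y * q⁻¹) * (q * y' * q⁻¹) := by group
          rw [this]; exact Subgroup.mul_mem _ ihy ihy'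
        | inv y hy ihy =>
          have : q * y⁻¹ * q⁻¹ = (q * y * q⁻¹)⁻¹ := by group
          rw [this]; exact Subgroup.inv_mem _ ihy
      intro q hq
      rw [Subgroup.mem_normalizer_iff]
      intro m
      refine ⟨hconj q hq m, fun h => ?_⟩
      have := hconj q⁻¹ (Subgroup.inv_mem _ hq) _ h
      have h2 : q⁻¹ * (q * m * q⁻¹) * q⁻¹⁻¹ = m := by group
      rwa [h2] at this
    have hsup := Q.2.to_sup_of_normal_right' hKp hQN
    have heq := Q.3 hsup le_sup_left
    have : Subgroup.closure S ≤ (Q : Subgroup G) := by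
      rw [← heq]; exact le_sup_right
    exact this (Subgroup.subset_closure ⟨1, Subgroup.one_mem _, by group⟩)
  exact Sylow.ext (P.3 Q.2 hle).symm

end Cfsg.Agent.S4066
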