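import Cfsg.Statements.S4075
import Cfsg.Agent.Lib.Helper4.Basic

set_option autoImplicit false
open Cfsg

namespace Cfsg.Agent.S4075


/-- Let G be a finite nilpotent group. Every non-abelian subgroup of G is self-normalizing if and only if G is abelian or G is a minimal non-abelian p-group for some prime p (non-abelian of prime-power order with every proper subgroup abelian). -/
theorem result {G : Type*} [Group G] [Finite G]
    [Group.IsNilpotent G] :
    (∀ H : Subgroup G, ¬ IsMulCommutative H → Subgroup.normalizer (H : Set G) = H) ↔
    (IsMulCommutative G ∨ (IsPrimePow (Nat.card G) ∧ ¬ IsMulCommutative G ∧ ∀ H : Subgroup G, H ≠ ⊤ → IsMulCommutative H)) := by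
  constructor
  · intro h
    by_cases hG : IsMulCommutative G
    · exact Or.inl hG
    right
    have hall : ∀ H : Subgroup G, H ≠ ⊤ → IsMulCommutative H := by
      intro H hH
      by_contra hna
      have hnc := Group.normalizerCondition_of_isNilpotent (G := G)
      rw [normalizerCondition_iff_only_full_group_self_normalizing] at hnc
      exact hH (hnc H (h H hna))
    refine ⟨?_, hG, hall⟩
    by_contra hpp
    apply hG
    have hsyl : ∀ (p : ℕ) [Fact p.Prime] (P : Sylow p G), IsMulCommutative (P : Subgroup G) := by
      intro p _ P
      apply hall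
      intro htop
      apply hpp
      obtain ⟨n, hn⟩ := IsPGroup.iff_card.mp P.2
      have hc : Nat.card G = p ^ n := by
        rw [← hn, htop]; exact (Subgroup.card_top).symm
      rw [hc]
      have hn0 : n ≠ 0 := by
        rintro rfl
        rw [pow_zero] at hc
        apply hG
        have := (Nat.card_eq_one_iff_unique.mp hc).1
        exact ⟨⟨fun a b => Subsingleton.elim _ _⟩⟩
      exact (Fact.out : p.Prime).isPrimePow.pow hn0
    have q := (Group.isNilpotent_of_finite_tfae (G := G)).out 0 4
    obtain ⟨e⟩ := q.mp inferInstance
    constructor; constructor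
    intro a b
    obtain ⟨a, rfl⟩ := e.surjective a
    obtain ⟨b, rfl⟩ := e.surjective b
    rw [← map_mul, ← map_mul]
    congr 1
    funext p P
    have : Fact (p : ℕ).Prime := ⟨Nat.prime_of_mem_primeFactors p.2⟩
    exact (hsyl p P).is_comm.comm (a p P) (b p P)
  · rintro (hc | ⟨-, hna, hall⟩) H hH
    · exfalso
      apply hH
      exact ⟨⟨fun a b => Subtype.ext (hc.is_comm.comm (a : G) b)⟩⟩
    · have : H = ⊤ := by
        by_contra hne
        exact hH (hall H hne)
      rw [this]
      exact Subgroup.normalizer_eq_top_iff.mpr inferInstance

end Cfsg.Agent.S4075
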