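import Cfsg.Statements.S4081
import Cfsg.Agent.Lib.Helper22.AutOrb3
import Cfsg.Agent.Lib.Helper22.FpfPGroup
import Cfsg.Agent.Lib.Helper22.Kazarin
import Cfsg.Agent.S0144

set_option autoImplicit false
open Cfsg

namespace Cfsg.Agent.S4081

open Subgroup Cfsg.Agent.Lib.Helper22

theorem card_eq_three {Ω : Type*} (c1 c2 c3 : Ω) (h12 : c1 ≠ c2) (h13 : c1 ≠ c3) (h23 : c2 ≠ c3)
    (hall : ∀ c, c = c1 ∨ c = c2 ∨ c = c3) : Nat.card Ω = 3 := by
  classical
  let _ : Fintype Ω := ⟨{c1, c2, c3}, by intro c; simpa using hall c⟩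
  rw [Nat.card_eq_fintype_card]
  exact Finset.card_eq_three.2 ⟨c1, c2, c3, h12, h13, h23, rfl⟩

theorem eq_of_card_eq_three {Ω : Type*} (hcard : Nat.card Ω = 3) (c1 c2 c3 : Ω) (h12 : c1 ≠ c2)
    (h13 : c1 ≠ c3) (h23 : c2 ≠ c3) (c : Ω) : c = c1 ∨ c = c2 ∨ c = c3 := by
  classical
  have : Finite Ω := Nat.finite_of_card_ne_zero (by omega)
  have := Fintype.ofFinite Ω
  have h1 : ({c1, c2, c3} : Finset Ω).card = 3 := Finset.card_eq_three.2 ⟨c1, c2, c3, h12, h13, h23, rfl⟩
  have h2 : ({c1, c2, c3} : Finset Ω) = Finset.univ := by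
    apply Finset.eq_univ_of_card
    rw [h1, ← Nat.card_eq_fintype_card, hcard]
  have h3 : c ∈ ({c1, c2, c3} : Finset Ω) := by rw [h2]; exact Finset.mem_univ c
  simpa using h3

section

variable {G : Type*} [Group G]

theorem mk_eq_iff (a b : G) :
    (Quotient.mk'' a : MulAction.orbitRel.Quotient (MulAut G) G) = Quotient.mk'' b ↔
      ∃ α : MulAut G, α b = a := by
  rw [Quotient.eq'']
  exact Iff.rfl

theorem backward [Finite G] (p q n : ℕ) [hp : Fact p.Prime] [hq : Fact q.Prime] (hpq : p ≠ q)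
    (hn : 1 ≤ n) (hcard : Nat.card G = p ^ n * q)
    (hP : ∀ P : Sylow p G, (P : Subgroup G).Normal ∧ Cfsg.IsElementaryAbelian p (P : Subgroup G))
    (hord : orderOf (p : ZMod q) = q - 1)
    (hfpf : ∀ x y : G, orderOf x = q → orderOf y = p → x * y * x⁻¹ ≠ y) :
    Nat.card (MulAction.orbitRel.Quotient (MulAut G) G) = 3 := by
  classical
  obtain ⟨P⟩ : Nonempty (Sylow p G) := inferInstance
  obtain ⟨hPn, hPc, hPe⟩ := hP P
  have hcardP : Nat.card P = p ^ n := by
    rw [P.card_eq_multiplicity, hcard, Nat.factorization_mul (pow_ne_zero _ hp.out.ne_zero)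
      hq.out.ne_zero, Nat.Prime.factorization_pow hp.out, Nat.Prime.factorization hq.out]
    simp [hpq.symm]
  have hidx : (P : Subgroup G).index = q := by
    have h1 := (P : Subgroup G).card_mul_index
    rw [hcard] at h1
    have h2 : Nat.card (P : Subgroup G) = p ^ n := hcardP
    rw [h2] at h1
    exact Nat.eq_of_mul_eq_mul_left (pow_pos hp.out.pos n) h1
  have hpnq : ¬ p ∣ q := fun h => hpq ((Nat.prime_dvd_prime_iff_eq hp.out hq.out).1 h)
  have ho1 : ∀ u ∈ (P : Subgroup G), u ≠ 1 → orderOf u = p := fun u hu hu1 =>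
    orderOf_eq_prime (hPe u hu) hu1
  have ho2 : ∀ g : G, g ∉ (P : Subgroup G) → orderOf g = q := by
    intro g hg
    have hg1 : g ≠ 1 := by rintro rfl; exact hg (one_mem _)
    have hgq : g ^ q ∈ (P : Subgroup G) := by
      rw [← hidx]; exact (P : Subgroup G).pow_index_mem g
    apply orderOf_eq_prime _ hg1
    by_contra hy
    have hoy := ho1 _ hgq hy
    have hx1 : g ^ p ≠ 1 := by
      intro h
      have h3 : orderOf g = p := orderOf_eq_prime h hg1
      have hQ : IsPGroup p (zpowers g) := IsPGroup.of_card (n := 1) (by rw [Nat.card_zpowers, h3, pow_one])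
      exact hg (pgroup_le_of_normal_of_not_dvd_index hQ (by rw [hidx]; exact hpnq) (mem_zpowers g))
    have hox : orderOf (g ^ p) = q := by
      apply orderOf_eq_prime _ hx1
      rw [← pow_mul, mul_comm, pow_mul]
      exact hPe _ hgq
    apply hfpf _ _ hox hoy
    rw [← pow_add, add_comm, pow_add, mul_inv_cancel_right]
  have hcomp : ∀ g : G, g ∉ (P : Subgroup G) → (P : Subgroup G).IsComplement' (zpowers g) := by
    intro g hg
    apply isComplement'_of_coprime
    · rw [Nat.card_zpowers, ho2 g hg, hcard]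
      congr 1
    · rw [Nat.card_zpowers, ho2 g hg]
      have h2 : Nat.card (P : Subgroup G) = p ^ n := hcardP
      rw [h2]
      exact Nat.Coprime.pow_left n ((Nat.coprime_primes hp.out hq.out).2 hpq)
  have hTq : ∀ g : G, g ∉ (P : Subgroup G) →
      (MulAut.conjNormal g : MulAut (P : Subgroup G)) ^ q = 1 := by
    intro g hg
    rw [← map_pow, ← ho2 g hg, pow_orderOf_eq_one, map_one]
  have hTf : ∀ g : G, g ∉ (P : Subgroup G) → ∀ u : (P : Subgroup G),
      (MulAut.conjNormal g : MulAut (P : Subgroup G)) u = u → u = 1 := by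
    intro g hg u hu
    by_contra hu1
    have hu1' : (u : G) ≠ 1 := fun h => hu1 (Subtype.ext h)
    apply hfpf g u (ho2 g hg) (ho1 u u.2 hu1')
    have := congrArg Subtype.val hu
    rwa [MulAut.conjNormal_apply] at this
  have hcomm : ∀ a b : (P : Subgroup G), a * b = b * a := fun a b => hPc.is_comm.comm a b
  have hexp : ∀ u : (P : Subgroup G), u ^ p = 1 := fun u => Subtype.ext (hPe u u.2)
  have key : ∀ g g' : G, g ∉ (P : Subgroup G) → g' ∉ (P : Subgroup G) →
      ∀ v w : G, v ∈ (P : Subgroup G) → w ∈ (P : Subgroup G) → v ≠ 1 → w ≠ 1 →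
      ∃ α : MulAut G, α g = g' ∧ α v = w := by
    intro g g' hg hg' v w hv hw hv1 hw1
    obtain ⟨γ, h1, h2⟩ := exists_intertwiner hcomm hpq hexp hord (MulAut.conjNormal g)
      (MulAut.conjNormal g') (hTq g hg) (hTf g hg) (hTq g' hg') (hTf g' hg') ⟨v, hv⟩ ⟨w, hw⟩
      (fun h => hv1 (congrArg Subtype.val h)) (fun h => hw1 (congrArg Subtype.val h))
    obtain ⟨α, h3, h4⟩ := exists_aut_of_intertwiner (P : Subgroup G) g g' (hcomp g hg)
      (hcomp g' hg') (by rw [ho2 g hg, ho2 g' hg']) γ h1
    refine ⟨α, h3, ?_⟩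
    have := h4 ⟨v, hv⟩
    rw [h2] at this
    exact this
  obtain ⟨g0, hg0⟩ : ∃ g0 : G, g0 ∉ (P : Subgroup G) := by
    by_contra hcon
    push Not at hcon
    have : (P : Subgroup G) = ⊤ := eq_top_iff.2 fun x _ => hcon x
    rw [this, index_top] at hidx
    exact hq.out.one_lt.ne hidx
  obtain ⟨v0, hv0, hv01⟩ : ∃ v0 : G, v0 ∈ (P : Subgroup G) ∧ v0 ≠ 1 := by
    by_contra hcon
    push Not at hcon
    have : (P : Subgroup G) = ⊥ := eq_bot_iff.2 fun x hx => mem_bot.2 (hcon x hx)
    have h2 : Nat.card (P : Subgroup G) = p ^ n := hcardP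
    rw [this, card_bot] at h2
    have := Nat.one_lt_pow (by omega : n ≠ 0) hp.out.one_lt
    omega
  have hPinv : ∀ (α : MulAut G) (x : G), α x ∈ (P : Subgroup G) → x ∈ (P : Subgroup G) := by
    intro α x hx
    by_contra hxP
    have h1 : orderOf (α x) = q := by rw [MulEquiv.orderOf_eq]; exact ho2 x hxP
    have h2 : (α x) ^ p = 1 := hPe _ hx
    have h3 := orderOf_dvd_of_pow_eq_one h2
    rw [h1] at h3
    exact hpq ((Nat.prime_dvd_prime_iff_eq hq.out hp.out).1 h3).symm
  apply card_eq_three (Quotient.mk'' 1) (Quotient.mk'' v0) (Quotient.mk'' g0)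
  · rw [Ne, mk_eq_iff]
    rintro ⟨α, hα⟩
    exact hv01 (by simpa using hα)
  · rw [Ne, mk_eq_iff]
    rintro ⟨α, hα⟩
    apply hg0
    have : g0 = 1 := by simpa using hα
    rw [this]; exact one_mem _
  · rw [Ne, mk_eq_iff]
    rintro ⟨α, hα⟩
    exact hg0 (hPinv α g0 (by rw [hα]; exact hv0))
  · intro c
    induction c using Quotient.inductionOn' with
    | h x =>
    by_cases hx1 : x = 1
    · left; rw [hx1]
    · right
      by_cases hxP : x ∈ (P : Subgroup G)
      · left
        rw [mk_eq_iff]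
        obtain ⟨α, _, h⟩ := key g0 g0 hg0 hg0 v0 x hv0 hxP hv01 hx1
        exact ⟨α, h⟩
      · right
        rw [mk_eq_iff]
        obtain ⟨α, h, _⟩ := key g0 x hg0 hxP v0 v0 hv0 hv0 hv01 hv01
        exact ⟨α, h⟩

theorem forward_aux [Finite G] (r s : ℕ) [hr : Fact r.Prime] [hs : Fact s.Prime] (hrs : r ≠ s)
    (hord : ∀ g : G, g = 1 ∨ orderOf g = r ∨ orderOf g = s)
    (htr : ∀ g g' : G, orderOf g = orderOf g' → ∃ α : MulAut G, α g = g')
    (hcard : Nat.card G = r ^ (Nat.card G).factorization r * s ^ (Nat.card G).factorization s)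
    (x : G) (hx : orderOf x = s)
    (A : Subgroup G) (hAchar : ∀ (α : MulAut G), ∀ u ∈ A, α u ∈ A)
    (hAcomm : ∀ a ∈ A, ∀ b ∈ A, a * b = b * a) (c : G) (hcA : c ∈ A) (hc : orderOf c = r) :
    ∃ (p q n : ℕ) (_ : Fact p.Prime) (_ : Fact q.Prime), p ≠ q ∧ 1 ≤ n ∧ Nat.card G = p ^ n * q ∧
      (∀ P : Sylow p G, (P : Subgroup G).Normal ∧ Cfsg.IsElementaryAbelian p (P : Subgroup G)) ∧
      orderOf (p : ZMod q) = q - 1 ∧
      ∀ x y : G, orderOf x = q → orderOf y = p → x * y * x⁻¹ ≠ y := by
  classical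
  have hr2 := hr.out.two_le
  have hs2 := hs.out.two_le
  have hfpf : ∀ x y : G, orderOf x = s → orderOf y = r → x * y * x⁻¹ ≠ y := by
    intro x y hx hy h
    have hcm : Commute x y := by
      show x * y = y * x
      calc x * y = (x * y * x⁻¹) * x := by group
        _ = y * x := by rw [h]
    have h1 := hcm.orderOf_mul_eq_mul_orderOf_of_coprime
      (by rw [hx, hy]; exact (Nat.coprime_primes hs.out hr.out).2 hrs.symm)
    rw [hx, hy] at h1
    rcases hord (x * y) with h2 | h2 | h2
    · rw [h2, orderOf_one] at h1; nlinarith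
    · rw [h2] at h1; nlinarith
    · rw [h2] at h1; nlinarith
  have hrA : ∀ u : G, orderOf u = r → u ∈ A := by
    intro u hu
    obtain ⟨α, hα⟩ := htr c u (by rw [hc, hu])
    rw [← hα]; exact hAchar α c hcA
  have hAn : A.Normal := ⟨fun a ha g => hAchar (MulAut.conj g) a ha⟩
  have hAr : ∀ u ∈ A, u ^ r = 1 := by
    intro u hu
    rcases hord u with h | h | h
    · rw [h, one_pow]
    · rw [← h]; exact pow_orderOf_eq_one u
    · exfalso
      exact hfpf u c h hc (by rw [hAcomm u hu c hcA]; group)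
  have hApg : IsPGroup r A := by
    rintro ⟨u, hu⟩; exact ⟨1, by rw [pow_one]; exact Subtype.ext (hAr u hu)⟩
  have hprime_pow : ∀ (a b k : ℕ), a.Prime → b.Prime → a = b ^ k → a = b := by
    intro a b k ha hb h
    have h1 : a ∣ b ^ k := by rw [← h]
    exact (Nat.prime_dvd_prime_iff_eq ha hb).1 (ha.dvd_of_dvd_pow h1)
  have hSyl : ∀ R : Sylow r G, (R : Subgroup G) = A := by
    intro R
    have hle : (R : Subgroup G) ≤ A := by
      intro u hu
      rcases hord u with h | h | h
      · rw [h]; exact one_mem _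
      · exact hrA u h
      · exfalso
        obtain ⟨k, hk⟩ := (IsPGroup.iff_orderOf.1 R.2) ⟨u, hu⟩
        rw [Subgroup.orderOf_mk, h] at hk
        exact hrs (hprime_pow s r k hs.out hr.out hk).symm
    exact (R.is_maximal' hApg hle).symm
  obtain ⟨Q⟩ : Nonempty (Sylow s G) := inferInstance
  have hQs : ∀ h ∈ (Q : Subgroup G), h ≠ 1 → orderOf h = s := by
    intro u hu hu1
    rcases hord u with h | h | h
    · exact absurd h hu1
    · exfalso
      obtain ⟨k, hk⟩ := (IsPGroup.iff_orderOf.1 Q.2) ⟨u, hu⟩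
      rw [Subgroup.orderOf_mk, h] at hk
      exact hrs (hprime_pow r s k hr.out hs.out hk)
    · exact h
  have hc1 : c ≠ 1 := by
    rintro rfl
    rw [orderOf_one] at hc; omega
  have hAnt : Nontrivial A := ⟨⟨⟨c, hcA⟩, 1, fun h => hc1 (congrArg Subtype.val h)⟩⟩
  have hTf' : ∀ y : G, orderOf y = s → ∀ v : A, (MulAut.conjNormal y : MulAut A) v = v → v = 1 := by
    intro y hy v hv
    by_contra hv1
    have hv1' : (v : G) ≠ 1 := fun h => hv1 (Subtype.ext h)
    have hov : orderOf (v : G) = r := orderOf_eq_prime (hAr v v.2) hv1'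
    apply hfpf y v hy hov
    have := congrArg Subtype.val hv
    rwa [MulAut.conjNormal_apply] at this
  have hfs : 0 < (Nat.card G).factorization s :=
    hs.out.factorization_pos_of_dvd Nat.card_pos.ne' (hx ▸ orderOf_dvd_natCard x)
  have hQcard : Nat.card Q = s := by
    let φ : Q →* MulAut A := (MulAut.conjNormal (H := A)).comp (Q : Subgroup G).subtype
    have hφ : ∀ h : Q, h ≠ 1 → ∀ v : A, φ h v = v → v = 1 := by
      intro h hh v hv
      exact hTf' h (hQs h h.2 (fun h' => hh (Subtype.ext h'))) v hv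
    rcases cyclic_or_quaternion_of_fpf φ hφ s Q.2 with hcyc | ⟨n, ⟨e⟩⟩
    · obtain ⟨z, hz⟩ := hcyc.exists_generator
      have h1 : orderOf z = Nat.card Q := orderOf_eq_card_of_forall_mem_zpowers hz
      have hz1 : z ≠ 1 := by
        rintro rfl
        rw [orderOf_one, Q.card_eq_multiplicity] at h1
        have := Nat.one_lt_pow hfs.ne' hs.out.one_lt
        omega
      rw [← h1, ← Subgroup.orderOf_coe]
      exact hQs z z.2 (fun h' => hz1 (Subtype.ext h'))
    · exfalso
      have h1 : orderOf (e.symm (QuaternionGroup.xa 0)) = 4 := by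
        rw [MulEquiv.orderOf_eq]; exact QuaternionGroup.orderOf_xa 0
      rw [← Subgroup.orderOf_coe] at h1
      rcases hord (e.symm (QuaternionGroup.xa 0) : G) with h | h | h
      · rw [h, orderOf_one] at h1; omega
      · rw [h] at h1
        have := hr.out
        rw [h1] at this
        exact absurd this (by norm_num)
      · rw [h] at h1
        have := hs.out
        rw [h1] at this
        exact absurd this (by norm_num)
  have hcardQ' : s ^ (Nat.card G).factorization s = s := by
    rw [← Q.card_eq_multiplicity]; exact hQcard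
  rw [hcardQ'] at hcard
  have hn : 1 ≤ (Nat.card G).factorization r :=
    hr.out.factorization_pos_of_dvd Nat.card_pos.ne' (hc ▸ orderOf_dvd_natCard c)
  have hcardA : Nat.card A = r ^ (Nat.card G).factorization r := by
    obtain ⟨R⟩ : Nonempty (Sylow r G) := inferInstance
    rw [← R.card_eq_multiplicity, ← hSyl R]
  have hcomm : ∀ a b : A, a * b = b * a := fun a b => Subtype.ext (hAcomm a a.2 b b.2)
  have hexp : ∀ u : A, u ^ r = 1 := fun u => Subtype.ext (hAr u u.2)
  refine ⟨r, s, (Nat.card G).factorization r, hr, hs, hrs, hn, hcard, ?_, ?_, hfpf⟩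
  · intro R
    rw [hSyl R]
    exact ⟨hAn, ⟨⟨⟨hcomm⟩⟩, hAr⟩⟩
  · have hcomp : A.IsComplement' (zpowers x) := by
      apply isComplement'_of_coprime
      · rw [Nat.card_zpowers, hx, hcardA]; exact hcard.symm
      · rw [Nat.card_zpowers, hx, hcardA]
        exact Nat.Coprime.pow_left _ ((Nat.coprime_primes hr.out hs.out).2 hrs)
    have hdec : ∀ y : G, ∃ a ∈ A, ∃ k : ℕ, y = a * x ^ k := by
      intro y
      have hy : y ∈ ((A ⊔ zpowers x : Subgroup G) : Set G) := by rw [hcomp.sup_eq_top]; trivial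
      rw [normal_mul] at hy
      obtain ⟨a, ha, z, hz, rfl⟩ := hy
      obtain ⟨k, hk⟩ := (isOfFinOrder_of_finite x).mem_powers_iff_mem_zpowers.2 hz
      exact ⟨a, ha, k, by rw [← hk]⟩
    let restr : MulAut G → MulAut A := fun α =>
      { toFun := fun u => ⟨α u, hAchar α u u.2⟩
        invFun := fun u => ⟨α⁻¹ u, hAchar α⁻¹ u u.2⟩
        left_inv := fun u => Subtype.ext (by simp)
        right_inv := fun u => Subtype.ext (by simp)
        map_mul' := fun u v => Subtype.ext (by simp) }
    have hrestr : ∀ (α : MulAut G) (u : A), ((restr α u : A) : G) = α u := fun _ _ => rfl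
    have hsemi : ∀ (α : MulAut G) (a : G) (k : ℕ), a ∈ A → α x = a * x ^ k →
        ∀ u : A, restr α ((MulAut.conjNormal x : MulAut A) u) =
          ((MulAut.conjNormal x : MulAut A) ^ k) (restr α u) := by
      intro α a k ha hα u
      apply Subtype.ext
      rw [← map_pow, hrestr, MulAut.conjNormal_apply, MulAut.conjNormal_apply, hrestr, map_mul,
        map_mul, map_inv, hα]
      have hyA : x ^ k * α u * (x ^ k)⁻¹ ∈ A := hAn.conj_mem _ (hAchar α u u.2) _
      calc a * x ^ k * α u * (a * x ^ k)⁻¹ = a * (x ^ k * α u * (x ^ k)⁻¹) * a⁻¹ := by group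
        _ = (x ^ k * α u * (x ^ k)⁻¹) * a * a⁻¹ := by rw [hAcomm a ha _ hyA]
        _ = x ^ k * α u * (x ^ k)⁻¹ := by group
    apply orderOf_eq_of_transitive (P := A) hcomm hrs hexp (MulAut.conjNormal x)
      (by rw [← map_pow, ← hx, pow_orderOf_eq_one, map_one]) (hTf' x hx) (Set.range restr)
    · rintro _ ⟨α, rfl⟩
      obtain ⟨a, ha, k, hk⟩ := hdec (α x)
      exact ⟨k, hsemi α a k ha hk⟩
    · intro v w hv hw
      have hv1 : (v : G) ≠ 1 := fun h => hv (Subtype.ext h)
      have hw1 : (w : G) ≠ 1 := fun h => hw (Subtype.ext h)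
      obtain ⟨α, hα⟩ := htr v w (by
        rw [orderOf_eq_prime (hAr v v.2) hv1, orderOf_eq_prime (hAr w w.2) hw1])
      exact ⟨_, ⟨α, rfl⟩, Subtype.ext hα⟩
    · intro k hk0 hkq
      have hcop : (orderOf x).Coprime k := by
        rw [hx]
        exact (Nat.Prime.coprime_iff_not_dvd hs.out).2 (Nat.not_dvd_of_pos_of_lt hk0 hkq)
      obtain ⟨α, hα⟩ := htr x (x ^ k) (by rw [hcop.orderOf_pow])
      exact ⟨_, ⟨α, rfl⟩, hsemi α 1 k (one_mem _) (by rw [hα, one_mul])⟩

end

/-- Let G be a finite group whose order is not a prime power. Then the automorphism group of G has exactly three orbits on G if and only if there are distinct primes p, q with #G = pⁿ·q (n ≥ 1) such that G has a normal elementary abelian Sylow p-subgroup P, p is a primitive root modulo q (the multiplicative order of p mod q is q − 1), and every element of order q of G acts on P without non-identity fixed points. -/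
theorem result {G : Type*} [Group G] [Finite G] (hnpp : ¬ IsPrimePow (Nat.card G)) (hnt : Nat.card G ≠ 1) :
    Nat.card (MulAction.orbitRel.Quotient (MulAut G) G) = 3 ↔
    ∃ (p q n : ℕ) (_ : Fact p.Prime) (_ : Fact q.Prime), p ≠ q ∧ 1 ≤ n ∧ Nat.card G = p ^ n * q ∧
      (∀ P : Sylow p G, (P : Subgroup G).Normal ∧ Cfsg.IsElementaryAbelian p (P : Subgroup G)) ∧
      orderOf (p : ZMod q) = q - 1 ∧
      ∀ x y : G, orderOf x = q → orderOf y = p → x * y * x⁻¹ ≠ y := by
  constructor
  · intro h3
    classical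
    have hG0 : Nat.card G ≠ 0 := Nat.card_pos.ne'
    obtain ⟨p, hp, hpd⟩ := Nat.exists_prime_and_dvd hnt
    obtain ⟨q, hq, hqd, hqp⟩ : ∃ q, q.Prime ∧ q ∣ Nat.card G ∧ q ≠ p := by
      by_contra hcon
      push Not at hcon
      have h1 := Nat.eq_prime_pow_of_unique_prime_dvd hG0 (fun {d} hd hdd => hcon d hd hdd)
      apply hnpp
      refine (isPrimePow_nat_iff _).2 ⟨p, _, hp, ?_, h1.symm⟩
      rcases Nat.eq_zero_or_pos (Nat.card G).primeFactorsList.length with h0 | h0
      · rw [h0, pow_zero] at h1; exact absurd h1 hnt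
      · exact h0
    have : Fact p.Prime := ⟨hp⟩
    have : Fact q.Prime := ⟨hq⟩
    obtain ⟨a, ha⟩ := exists_prime_orderOf_dvd_card' p hpd
    obtain ⟨b, hb⟩ := exists_prime_orderOf_dvd_card' q hqd
    have hpres : ∀ (α : MulAut G) (g : G), orderOf (α g) = orderOf g :=
      fun α g => MulEquiv.orderOf_eq α g
    have hall := eq_of_card_eq_three h3 (Quotient.mk'' 1) (Quotient.mk'' a) (Quotient.mk'' b)
      (by
        rw [Ne, mk_eq_iff]; rintro ⟨α, hα⟩
        have := hpres α a
        rw [hα, orderOf_one, ha] at this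
        exact hp.ne_one this.symm)
      (by
        rw [Ne, mk_eq_iff]; rintro ⟨α, hα⟩
        have := hpres α b
        rw [hα, orderOf_one, hb] at this
        exact hq.ne_one this.symm)
      (by
        rw [Ne, mk_eq_iff]; rintro ⟨α, hα⟩
        have := hpres α b
        rw [hα, ha, hb] at this
        exact hqp this.symm)
    have horb : ∀ g : G, g = 1 ∨ (∃ α : MulAut G, α a = g) ∨ (∃ α : MulAut G, α b = g) := by
      intro g
      rcases hall (Quotient.mk'' g) with h | h | h
      · left; obtain ⟨α, hα⟩ := (mk_eq_iff g 1).1 h; rw [← hα, map_one]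
      · right; left; exact (mk_eq_iff g a).1 h
      · right; right; exact (mk_eq_iff g b).1 h
    have hord : ∀ g : G, g = 1 ∨ orderOf g = p ∨ orderOf g = q := by
      intro g
      rcases horb g with h | ⟨α, rfl⟩ | ⟨α, rfl⟩
      · left; exact h
      · right; left; rw [hpres, ha]
      · right; right; rw [hpres, hb]
    have htr : ∀ g g' : G, orderOf g = orderOf g' → ∃ α : MulAut G, α g = g' := by
      intro g g' h
      rcases horb g with rfl | ⟨α, rfl⟩ | ⟨α, rfl⟩ <;>
        rcases horb g' with rfl | ⟨α', rfl⟩ | ⟨α', rfl⟩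
      · exact ⟨1, rfl⟩
      · rw [orderOf_one, hpres, ha] at h; exact absurd h.symm hp.ne_one
      · rw [orderOf_one, hpres, hb] at h; exact absurd h.symm hq.ne_one
      · rw [orderOf_one, hpres, ha] at h; exact absurd h hp.ne_one
      · exact ⟨α' * α⁻¹, by simp⟩
      · rw [hpres, hpres, ha, hb] at h; exact absurd h.symm hqp
      · rw [orderOf_one, hpres, hb] at h; exact absurd h hq.ne_one
      · rw [hpres, hpres, ha, hb] at h; exact absurd h hqp
      · exact ⟨α' * α⁻¹, by simp⟩
    have hpf : (Nat.card G).primeFactors = {p, q} := by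
      ext r
      rw [Nat.mem_primeFactors]
      simp only [Finset.mem_insert, Finset.mem_singleton]
      constructor
      · rintro ⟨hr, hrd, _⟩
        have : Fact r.Prime := ⟨hr⟩
        obtain ⟨z, hz⟩ := exists_prime_orderOf_dvd_card' r hrd
        rcases hord z with h | h | h
        · rw [h, orderOf_one] at hz; exact absurd hz.symm hr.ne_one
        · left; rw [← hz, h]
        · right; rw [← hz, h]
      · rintro (rfl | rfl)
        · exact ⟨hp, hpd, hG0⟩
        · exact ⟨hq, hqd, hG0⟩
    have hcard : Nat.card G =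
        p ^ (Nat.card G).factorization p * q ^ (Nat.card G).factorization q := by
      have h1 := Nat.prod_factorization_pow_eq_self hG0
      rw [Finsupp.prod, Nat.support_factorization, hpf, Finset.prod_pair hqp.symm] at h1
      exact h1.symm
    have hsol : Group.IsSolvable G := Cfsg.Agent.S0144.result p q _ _ hp hq hcard
    obtain ⟨A, hAchar, hAcomm, hAne⟩ : ∃ A : Subgroup G, (∀ α : MulAut G, ∀ u ∈ A, α u ∈ A) ∧
        (∀ a ∈ A, ∀ b ∈ A, a * b = b * a) ∧ A ≠ ⊥ := by
      have hex : ∃ n, derivedSeries G n = ⊥ := hsol.solvable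
      have hn0 : derivedSeries G (Nat.find hex) = ⊥ := Nat.find_spec hex
      have hne : Nat.find hex ≠ 0 := by
        intro h
        rw [h, derivedSeries_zero] at hn0
        apply hnt
        have h1 : Nat.card (⊤ : Subgroup G) = 1 := by rw [hn0]; exact Subgroup.card_bot
        rwa [Subgroup.card_top] at h1
      obtain ⟨m, hm⟩ := Nat.exists_eq_succ_of_ne_zero hne
      refine ⟨derivedSeries G m, ?_, ?_, ?_⟩
      · intro α u hu
        have h1 := (Subgroup.characteristic_iff_map_eq.1 (derivedSeries_characteristic G m)) α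
        rw [← h1]; exact Subgroup.mem_map_of_mem _ hu
      · intro a ha b hb
        have h1 : ⁅derivedSeries G m, derivedSeries G m⁆ = ⊥ := by
          rw [← derivedSeries_succ, ← Nat.succ_eq_add_one, ← hm]; exact hn0
        have h2 := Subgroup.commutator_mem_commutator ha hb
        rw [h1, Subgroup.mem_bot] at h2
        exact commutatorElement_eq_one_iff_mul_comm.1 h2
      · exact Nat.find_min hex (by omega)
    obtain ⟨c, hcA, hc1⟩ : ∃ c ∈ A, c ≠ 1 := by
      rcases A.bot_or_exists_ne_one with h | h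
      · exact absurd h hAne
      · exact h
    rcases hord c with h | h | h
    · exact absurd h hc1
    · exact forward_aux p q hqp.symm hord htr hcard b hb A hAchar hAcomm c hcA h
    · exact forward_aux q p hqp (fun g => (hord g).imp id Or.symm) htr
        (by rw [mul_comm]; exact hcard) a ha A hAchar hAcomm c hcA h
  · rintro ⟨p, q, n, hp, hq, hpq, hn, hcard, hP, hord, hfpf⟩
    exact backward p q n hpq hn hcard hP hord hfpf

end Cfsg.Agent.S4081
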