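import Mathlib
import Cfsg.Statements.S4084

set_option autoImplicit false
open Cfsg

namespace Cfsg.Agent.S4084

theorem mem_dc {G : Type*} [Group G] (g a : G) :
    a ∈ Subgroup.centralizer (Subgroup.centralizer ({g} : Set G) : Set G) ↔
      ∀ c, Commute g c → Commute c a := by
  rw [Subgroup.mem_centralizer_iff]
  constructor
  · intro h c hc
    exact h c (by
      rw [SetLike.mem_coe, Subgroup.mem_centralizer_iff]
      intro x hx
      rw [Set.mem_singleton_iff.1 hx]
      exact hc)
  · intro h c hc
    rw [SetLike.mem_coe, Subgroup.mem_centralizer_iff] at hc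
    exact h c (hc g rfl)

theorem forward {G H : Type*} [Group G] [Finite G] [Group H] [Finite H] (e : G ≃ H)
    (he : ∀ x y : G, Commute x y ↔ Commute (e x) (e y))
    {p q : ℕ} (hp : p.Prime) (hq : q.Prime) (hpq : p ≠ q) (h : ∃ g : G, orderOf g = p * q) :
    ∃ h : H, orderOf h = p * q := by
  obtain ⟨g, hg⟩ := h
  set A : Subgroup G := Subgroup.centralizer (Subgroup.centralizer ({g} : Set G) : Set G) with hA
  set B : Subgroup H := Subgroup.centralizer (Subgroup.centralizer ({e g} : Set H) : Set H) with hB
  have hAB : ∀ a : G, a ∈ A ↔ e a ∈ B := by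
    intro a
    rw [hA, hB, mem_dc, mem_dc]
    constructor
    · intro h d hd
      have h1 : Commute g (e.symm d) := by rw [he]; simpa using hd
      have h2 := h _ h1
      rw [he] at h2
      simpa using h2
    · intro h c hc
      rw [he]
      exact h _ ((he _ _).1 hc)
  have hcard : Nat.card A = Nat.card B := Nat.card_congr (e.subtypeEquiv hAB)
  have hgA : g ∈ A := by
    rw [hA, mem_dc]
    intro c hc
    exact hc.symm
  have hdvd : p * q ∣ Nat.card B := by
    rw [← hcard, ← hg]
    have := orderOf_dvd_natCard (⟨g, hgA⟩ : A)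
    rwa [Subgroup.orderOf_mk] at this
  have hBcomm : ∀ a ∈ B, ∀ b ∈ B, Commute a b := by
    intro a ha b hb
    rw [hB, mem_dc] at ha hb
    exact (ha b (hb _ (Commute.refl _))).symm
  haveI : Fact p.Prime := ⟨hp⟩
  haveI : Fact q.Prime := ⟨hq⟩
  obtain ⟨x, hx⟩ := exists_prime_orderOf_dvd_card' p (Dvd.dvd.trans (Dvd.intro _ rfl) hdvd)
  obtain ⟨y, hy⟩ := exists_prime_orderOf_dvd_card' q (Dvd.dvd.trans (Dvd.intro_left _ rfl) hdvd)
  refine ⟨(x : H) * (y : H), ?_⟩
  have hc := hBcomm x x.2 y y.2
  rw [hc.orderOf_mul_eq_mul_orderOf_of_coprime, Subgroup.orderOf_coe, Subgroup.orderOf_coe, hx, hy]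
  rw [Subgroup.orderOf_coe, Subgroup.orderOf_coe, hx, hy]
  exact (Nat.coprime_primes hp hq).2 hpq

/-- Let G and H be finite groups whose commuting graphs are isomorphic: there is a bijection e : G → H with x, y commuting exactly when e(x), e(y) commute. Then G and H have the same prime graph: for distinct primes p, q, G has an element of order pq if and only if H does (and #G = #H, so the prime divisors agree). -/
theorem result {G H : Type*} [Group G] [Finite G] [Group H] [Finite H] (e : G ≃ H)
    (he : ∀ x y : G, Commute x y ↔ Commute (e x) (e y))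
    {p q : ℕ} (hp : p.Prime) (hq : q.Prime) (hpq : p ≠ q) :
    (∃ g : G, orderOf g = p * q) ↔ (∃ h : H, orderOf h = p * q) := by
  refine ⟨forward e he hp hq hpq, forward e.symm ?_ hp hq hpq⟩
  intro x y
  rw [he]
  simp

end Cfsg.Agent.S4084
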