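import Mathlib
import Cfsg.Statements.S4086

set_option autoImplicit false
open Cfsg

namespace Cfsg.Agent.S4086

/-- In a finite cyclic group a subgroup `K` is exactly the set of solutions of `x ^ |K| = 1`. -/
theorem mem_of_pow_card_eq_one {A : Type*} [Group A] [Finite A] [IsCyclic A] (K : Subgroup A)
    {x : A} (hx : x ^ Nat.card K = 1) : x ∈ K := by
  classical
  cases nonempty_fintype A
  have h1 := IsCyclic.card_pow_eq_one_le (α := A) (n := Nat.card K) Nat.card_pos
  have h2 : (Finset.univ.filter (fun a : A => a ∈ K)) ⊆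
      (Finset.univ.filter (fun a : A => a ^ Nat.card K = 1)) := by
    intro a ha
    simp only [Finset.mem_filter, Finset.mem_univ, true_and] at ha ⊢
    have := pow_card_eq_one' (G := K) (x := ⟨a, ha⟩)
    exact congrArg Subtype.val this
  have h3 : (Finset.univ.filter (fun a : A => a ∈ K)).card = Nat.card K := by
    rw [Nat.card_eq_fintype_card, Fintype.card_subtype]
  have h4 := Finset.eq_of_subset_of_card_le h2 (by rw [h3]; exact h1)
  have h5 : x ∈ (Finset.univ.filter (fun a : A => a ^ Nat.card K = 1)) :=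
    Finset.mem_filter.2 ⟨Finset.mem_univ _, hx⟩
  rw [← h4] at h5
  simpa using h5

/-- The subgroups of a cyclic `p`-group form a chain. -/
theorem cyclic_pgroup_chain {A : Type*} [Group A] [Finite A] [IsCyclic A] {p : ℕ} [Fact p.Prime]
    (hA : IsPGroup p A) (H K : Subgroup A) : H ≤ K ∨ K ≤ H := by
  obtain ⟨i, hi⟩ := IsPGroup.iff_card.1 (hA.to_subgroup H)
  obtain ⟨j, hj⟩ := IsPGroup.iff_card.1 (hA.to_subgroup K)
  have key : ∀ (H K : Subgroup A) (i j : ℕ), Nat.card H = p ^ i → Nat.card K = p ^ j → i ≤ j →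
      H ≤ K := by
    intro H K i j hi hj hij x hx
    apply mem_of_pow_card_eq_one K
    have h1 : x ^ Nat.card H = 1 := by
      have := pow_card_eq_one' (G := H) (x := ⟨x, hx⟩)
      exact congrArg Subtype.val this
    obtain ⟨d, rfl⟩ := Nat.exists_eq_add_of_le hij
    rw [hj, pow_add, pow_mul, ← hi, h1, one_pow]
  rcases le_total i j with h | h
  · exact Or.inl (key H K i j hi hj h)
  · exact Or.inr (key K H j i hj hi h)

/-- For a finite group G the following are equivalent: every non-identity element has prime-power order; whenever two elements generate a cyclic subgroup, one of them is a power of the other (the enhanced power graph of G coincides with its power graph). -/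
theorem result {G : Type*} [Group G] [Finite G] :
    (∀ g : G, g ≠ 1 → IsPrimePow (orderOf g)) ↔
    (∀ x y : G, IsCyclic ↥(Subgroup.closure ({x, y} : Set G)) → (x ∈ Subgroup.zpowers y ∨ y ∈ Subgroup.zpowers x)) := by
  constructor
  · intro hpp x y hcyc
    set K := Subgroup.closure ({x, y} : Set G) with hK
    have hxK : x ∈ K := Subgroup.subset_closure (by simp)
    have hyK : y ∈ K := Subgroup.subset_closure (by simp)
    obtain ⟨c, hc⟩ := hcyc.exists_generator
    by_cases hc1 : (c : G) = 1
    · left
      obtain ⟨n, hn⟩ := hc ⟨x, hxK⟩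
      have : x = 1 := by
        have h1 := congrArg Subtype.val hn
        simp only [Subgroup.coe_zpow, hc1, one_zpow] at h1
        exact h1.symm
      rw [this]; exact Subgroup.one_mem _
    · obtain ⟨p, k, hp, hk, hpk⟩ := hpp c hc1
      haveI : Fact p.Prime := ⟨Nat.prime_iff.2 hp⟩
      have hcard : Nat.card K = p ^ k := by
        rw [hpk, Subgroup.orderOf_coe]
        exact (orderOf_eq_card_of_forall_mem_zpowers hc).symm
      have hKp : IsPGroup p K := IsPGroup.of_card hcard
      have tr : ∀ a b : K, a ∈ Subgroup.zpowers b → (a : G) ∈ Subgroup.zpowers (b : G) := by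
        intro a b hab
        obtain ⟨n, hn⟩ := hab
        exact ⟨n, by simpa using congrArg Subtype.val hn⟩
      rcases cyclic_pgroup_chain hKp (Subgroup.zpowers (⟨x, hxK⟩ : K)) (Subgroup.zpowers (⟨y, hyK⟩ : K)) with h | h
      · left
        exact tr ⟨x, hxK⟩ ⟨y, hyK⟩ (h (Subgroup.mem_zpowers _))
      · right
        exact tr ⟨y, hyK⟩ ⟨x, hxK⟩ (h (Subgroup.mem_zpowers _))
  · intro hch g hg
    by_contra hnp
    set n := orderOf g with hn
    have hn0 : n ≠ 0 := (orderOf_pos g).ne'
    have hn1 : n ≠ 1 := by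
      rw [hn, Ne, orderOf_eq_one_iff]; exact hg
    set p := n.minFac with hp
    have hpp : p.Prime := Nat.minFac_prime hn1
    obtain ⟨k, m, hm, hnm⟩ := Nat.exists_eq_pow_mul_and_not_dvd hn0 p hpp.ne_one
    have hk0 : k ≠ 0 := by
      rintro rfl
      apply hm
      have : p ∣ n := Nat.minFac_dvd n
      rwa [hnm, pow_zero, one_mul] at this
    have hm1 : m ≠ 1 := by
      rintro rfl
      apply hnp
      rw [hnm, mul_one]
      exact ⟨p, k, Nat.prime_iff.1 hpp, Nat.pos_of_ne_zero hk0, rfl⟩
    have hm0 : m ≠ 0 := by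
      rintro rfl
      exact hn0 (by rw [hnm, mul_zero])
    have hcop : Nat.Coprime (p ^ k) m := Nat.Coprime.pow_left _ ((Nat.Prime.coprime_iff_not_dvd hpp).2 hm)
    have hox : orderOf (g ^ (p ^ k)) = m := by
      rw [orderOf_pow_of_dvd (pow_ne_zero _ hpp.ne_zero) (by rw [← hn, hnm]; exact Dvd.intro _ rfl), ← hn, hnm]
      exact Nat.mul_div_cancel_left _ (pow_pos hpp.pos _)
    have hoy : orderOf (g ^ m) = p ^ k := by
      rw [orderOf_pow_of_dvd hm0 (by rw [← hn, hnm]; exact Dvd.intro_left _ rfl), ← hn, hnm]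
      exact Nat.mul_div_cancel _ (Nat.pos_of_ne_zero hm0)
    have hle : Subgroup.closure ({g ^ (p ^ k), g ^ m} : Set G) ≤ Subgroup.zpowers g := by
      rw [Subgroup.closure_le]
      intro z hz
      rcases hz with rfl | rfl
      · exact Subgroup.pow_mem _ (Subgroup.mem_zpowers g) _
      · exact Subgroup.pow_mem _ (Subgroup.mem_zpowers g) _
    have hcyc : IsCyclic ↥(Subgroup.closure ({g ^ (p ^ k), g ^ m} : Set G)) :=
      Subgroup.isCyclic_of_le hle
    rcases hch _ _ hcyc with h | h
    · have := orderOf_dvd_of_mem_zpowers h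
      rw [hox, hoy] at this
      exact hm1 (Nat.eq_one_of_dvd_coprimes hcop.symm (dvd_refl _) this)
    · have := orderOf_dvd_of_mem_zpowers h
      rw [hox, hoy] at this
      have h1 : p ^ k = 1 := Nat.eq_one_of_dvd_coprimes hcop (dvd_refl _) this
      exact hk0 ((Nat.pow_eq_one.1 h1).resolve_left hpp.ne_one)

end Cfsg.Agent.S4086
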