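import Cfsg.Statements.S4089
import Cfsg.Agent.Lib.Helper16.Subn
import Cfsg.Agent.Lib.Helper16.Cores
import Cfsg.Agent.Lib.Helper9.Basic
import Cfsg.Agent.Lib.Helper1.Coprime

set_option autoImplicit false
open Cfsg

namespace Cfsg.Agent.S4089
open Cfsg.Agent.Lib.Helper16 Cfsg.Agent.Lib.Helper8

theorem subnIn_iff {G : Type*} [Group G] [Finite G] {p : ℕ} [Fact p.Prime] {H X : Subgroup G}
    (hH : IsPGroup p H) : SubnIn H X ↔ H ≤ pCoreOf p X := by
  constructor
  · exact subnIn_le_pCoreOf hH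
  · intro h
    have : Group.IsNilpotent ↥(pCoreOf p X) := (pCoreOf_isPGroup X).isNilpotent
    have h1 : SubnIn H (pCoreOf p X) := ⟨h, isSubnormal_of_nilpotent' _⟩
    exact h1.trans (SubnIn.of_normal (pCoreOf_le X) (le_normalizer_pCoreOf X))

theorem sn_iff {G : Type*} [Group G] [Finite G] {p : ℕ} [Fact p.Prime] {H : Subgroup G}
    (hH : IsPGroup p H) (g : G) :
    ((H).subgroupOf (H ⊔ Subgroup.zpowers g)).IsSubnormal ↔
      ∃ R : Subgroup G, H ≤ R ∧ pCoreOf p (Subgroup.normalizer (R : Set G)) = R ∧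
        g ∈ Subgroup.normalizer (R : Set G) := by
  have h0 : ((H).subgroupOf (H ⊔ Subgroup.zpowers g)).IsSubnormal ↔ SubnIn H (H ⊔ Subgroup.zpowers g) :=
    ⟨fun h => ⟨le_sup_left, h⟩, fun h => h.2⟩
  rw [h0, subnIn_iff hH]
  have hg : g ∈ H ⊔ Subgroup.zpowers g := Subgroup.mem_sup_right (Subgroup.mem_zpowers g)
  constructor
  · intro h
    obtain ⟨R, hR⟩ := exists_maximal_of_wellFoundedGT
      (fun R : Subgroup G => IsPGroup p R ∧ H ≤ R ∧ g ∈ Subgroup.normalizer (R : Set G))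
      ⟨pCoreOf p (H ⊔ Subgroup.zpowers g), pCoreOf_isPGroup _, h, le_normalizer_pCoreOf _ hg⟩
    obtain ⟨⟨hRp, hHR, hgR⟩, hmax⟩ := hR
    have h1 : R ≤ pCoreOf p (Subgroup.normalizer (R : Set G)) :=
      le_pCoreOf Subgroup.le_normalizer le_rfl hRp
    have h2 := hmax (y := pCoreOf p (Subgroup.normalizer (R : Set G)))
      ⟨pCoreOf_isPGroup _, hHR.trans h1, le_normalizer_pCoreOf _ hgR⟩ h1
    exact ⟨R, hHR, le_antisymm h2 h1, hgR⟩
  · rintro ⟨R, hHR, hR, hgR⟩
    have hRp : IsPGroup p R := hR ▸ pCoreOf_isPGroup _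
    have hX : H ⊔ Subgroup.zpowers g ≤ Subgroup.normalizer (R : Set G) :=
      sup_le (hHR.trans Subgroup.le_normalizer) (by rw [Subgroup.zpowers_le]; exact hgR)
    refine le_trans (le_inf hHR le_sup_left) (le_pCoreOf inf_le_right ?_ (hRp.to_le inf_le_left))
    exact Cfsg.Agent.Lib.Helper1.le_normalizer_inf hX Subgroup.le_normalizer

theorem sInf_sylow_eq {G : Type*} [Group G] [Finite G] {p : ℕ} [Fact p.Prime] {R : Subgroup G}
    (hR : pCoreOf p (Subgroup.normalizer (R : Set G)) = R) :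
    sInf {K : Subgroup G | ∃ Q : Sylow p G, R ≤ (Q : Subgroup G) ∧ K = (Q : Subgroup G)} = R := by
  have hRp : IsPGroup p R := hR ▸ pCoreOf_isPGroup _
  obtain ⟨I, hI⟩ : ∃ I, I = sInf {K : Subgroup G | ∃ Q : Sylow p G, R ≤ (Q : Subgroup G) ∧ K = (Q : Subgroup G)} :=
    ⟨_, rfl⟩
  rw [← hI]
  have hRI : R ≤ I := by
    rw [hI]; apply le_sInf
    rintro K ⟨Q, hQ, rfl⟩; exact hQ
  obtain ⟨Q₀, hQ₀⟩ := hRp.exists_le_sylow
  have hIp : IsPGroup p I := Q₀.2.to_le (hI ▸ sInf_le ⟨Q₀, hQ₀, rfl⟩)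
  have hNI : Subgroup.normalizer (R : Set G) ≤ Subgroup.normalizer (I : Set G) := by
    apply Cfsg.Agent.Lib.Helper1.le_normalizer_of_forall_conj_mem
    intro n hn x hx
    rw [hI, Subgroup.mem_sInf]
    rintro K ⟨Q, hQ, rfl⟩
    have h1 : x ∈ ((n⁻¹ • Q : Sylow p G) : Subgroup G) := by
      rw [hI, Subgroup.mem_sInf] at hx
      apply hx _ ⟨n⁻¹ • Q, ?_, rfl⟩
      intro r hr
      rw [Sylow.smul_def, Sylow.pointwise_smul_def, Subgroup.mem_pointwise_smul_iff_inv_smul_mem]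
      simp only [inv_inv, MulAut.smul_def, MulAut.conj_apply, map_inv]
      exact hQ (Cfsg.Agent.Lib.Helper1.conj_mem_of_mem_normalizer hn hr)
    rw [Sylow.smul_def, Sylow.pointwise_smul_def, Subgroup.mem_pointwise_smul_iff_inv_smul_mem] at h1
    simpa only [inv_inv, MulAut.smul_def, MulAut.conj_apply, map_inv] using h1
  have hJ : I ⊓ Subgroup.normalizer (R : Set G) ≤ R := by
    conv_rhs => rw [← hR]
    apply le_pCoreOf inf_le_right _ (hIp.to_le inf_le_left)
    exact Cfsg.Agent.Lib.Helper1.le_normalizer_inf hNI Subgroup.le_normalizer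
  by_contra hne
  have hlt : R < I := lt_of_le_of_ne hRI (fun h => hne h.symm)
  obtain ⟨x, hxI, hxN, hxR⟩ := Cfsg.Agent.Lib.Helper9.exists_mem_normalizer_not_mem hIp hlt
  exact hxR (hJ ⟨hxI, hxN⟩)


/-- Let G be a finite group, p a prime and H a p-subgroup of G. Then the set of elements g of G such that H is subnormal in the subgroup generated by H and g is the union of the normalizers N_G(R) over the subgroups R of G containing H with R = O_p(N_G(R)); and this set does not change when H is replaced by the intersection of all Sylow p-subgroups of G containing H. -/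
theorem result {G : Type*} [Group G] [Finite G] (p : ℕ) [Fact p.Prime]
    (H : Subgroup G) (hH : IsPGroup p H) :
    {g : G | ((H).subgroupOf (H ⊔ Subgroup.zpowers g)).IsSubnormal} =
      {g : G | ∃ R : Subgroup G, H ≤ R ∧ (Cfsg.pCore p (Subgroup.normalizer (R : Set G))).map (Subgroup.normalizer (R : Set G)).subtype = R ∧ g ∈ Subgroup.normalizer (R : Set G)} ∧
    ∀ g : G, (((H).subgroupOf (H ⊔ Subgroup.zpowers g)).IsSubnormal ↔
      (((sInf {K : Subgroup G | ∃ Q : Sylow p G, H ≤ (Q : Subgroup G) ∧ K = (Q : Subgroup G)})).subgroupOf ((sInf {K : Subgroup G | ∃ Q : Sylow p G, H ≤ (Q : Subgroup G) ∧ K = (Q : Subgroup G)}) ⊔ Subgroup.zpowers g)).IsSubnormal) := by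
  constructor
  · ext g
    exact sn_iff hH g
  · intro g
    obtain ⟨Q₀, hQ₀⟩ := hH.exists_le_sylow
    have hp' : IsPGroup p ↥(sInf {K : Subgroup G | ∃ Q : Sylow p G, H ≤ (Q : Subgroup G) ∧ K = (Q : Subgroup G)}) :=
      Q₀.2.to_le (sInf_le ⟨Q₀, hQ₀, rfl⟩)
    have hle : H ≤ sInf {K : Subgroup G | ∃ Q : Sylow p G, H ≤ (Q : Subgroup G) ∧ K = (Q : Subgroup G)} := by
      apply le_sInf
      rintro K ⟨Q, hQ, rfl⟩; exact hQ
    rw [sn_iff hH g, sn_iff hp' g]
    constructor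
    · rintro ⟨R, hHR, hR, hgR⟩
      refine ⟨R, ?_, hR, hgR⟩
      conv_rhs => rw [← sInf_sylow_eq hR]
      apply sInf_le_sInf
      rintro K ⟨Q, hQ, rfl⟩
      exact ⟨Q, hHR.trans hQ, rfl⟩
    · rintro ⟨R, hHR, hR, hgR⟩
      exact ⟨R, hle.trans hHR, hR, hgR⟩

end Cfsg.Agent.S4089
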