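import Mathlib
import Cfsg.Statements.S4092

set_option autoImplicit false
open scoped Pointwise
open Cfsg

namespace Cfsg.Agent.S4092

/-- Let G be a finite group, p a prime and P a Sylow p-subgroup of G that is not normal in G. Then G has at least p·#P elements of p-power order (the identity included). -/
theorem result {G : Type*} [Group G] [Finite G] (p : ℕ) [Fact p.Prime]
    (P : Sylow p G) (hP : ¬ (P : Subgroup G).Normal) :
    p * Nat.card (P : Subgroup G) ≤ Nat.card {g : G // ∃ k : ℕ, orderOf g = p ^ k} := by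
  classical
  have hp : p.Prime := Fact.out
  obtain ⟨Q0, hQ0⟩ : ∃ Q : Sylow p G, Q ≠ P := by
    by_contra h
    push Not at h
    haveI : Subsingleton (Sylow p G) := ⟨fun a b => (h a).trans (h b).symm⟩
    exact hP (Sylow.normal_of_subsingleton P)
  let A := {pq : Sylow p G × Sylow p G // pq.1 ≠ pq.2}
  haveI : Nonempty A := ⟨⟨(Q0, P), hQ0⟩⟩
  obtain ⟨⟨⟨P1, Q1⟩, hne⟩, hmax⟩ := Finite.exists_max
    (fun a : A => Nat.card ((a.1.1 : Subgroup G) ⊓ (a.1.2 : Subgroup G) : Subgroup G))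
  simp only at hne hmax
  have hcardS : ∀ S : Sylow p G, Nat.card (S : Subgroup G) = Nat.card (P : Subgroup G) := by
    intro S
    rw [S.card_eq_multiplicity, P.card_eq_multiplicity]
  set D : Subgroup G := (P1 : Subgroup G) ⊓ (Q1 : Subgroup G) with hD
  have hint : ∀ S S' : Sylow p G, S ≠ S' → D ≤ (S : Subgroup G) → D ≤ (S' : Subgroup G) →
      (S : Subgroup G) ⊓ (S' : Subgroup G) = D := by
    intro S S' hSS h1 h2
    exact (Subgroup.eq_of_le_of_card_ge (le_inf h1 h2) (hmax ⟨(S, S'), hSS⟩)).symm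
  have hDP1 : D ≤ (P1 : Subgroup G) := inf_le_left
  have hDQ1 : D ≤ (Q1 : Subgroup G) := inf_le_right
  have hDne : D ≠ (P1 : Subgroup G) := by
    intro h
    have h1 : (P1 : Subgroup G) ≤ (Q1 : Subgroup G) := h ▸ hDQ1
    exact hne (Sylow.ext (P1.3 Q1.2 h1).symm)
  -- normalizer grows
  obtain ⟨y, hyP, hyD, hyN⟩ : ∃ y : G, y ∈ (P1 : Subgroup G) ∧ y ∉ D ∧
      y ∈ Subgroup.normalizer (D : Set G) := by
    haveI : Group.IsNilpotent (P1 : Subgroup G) := P1.2.isNilpotent
    have hnc := Group.normalizerCondition_of_isNilpotent (G := (P1 : Subgroup G))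
    have hlt : D.subgroupOf (P1 : Subgroup G) < ⊤ := by
      rw [lt_top_iff_ne_top, Ne, Subgroup.subgroupOf_eq_top]
      exact fun h => hDne (le_antisymm hDP1 h)
    have h2 := hnc _ hlt
    obtain ⟨y, hy1, hy2⟩ := SetLike.exists_of_lt h2
    rw [← Subgroup.subgroupOf_normalizer_eq hDP1, Subgroup.mem_subgroupOf] at hy1
    rw [Subgroup.mem_subgroupOf] at hy2
    exact ⟨y, y.2, hy2, hy1⟩
  have hzN : Subgroup.zpowers y ≤ Subgroup.normalizer (D : Set G) := by
    rw [Subgroup.zpowers_le]; exact hyN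
  have hzP : Subgroup.zpowers y ≤ (P1 : Subgroup G) := by
    rw [Subgroup.zpowers_le]; exact hyP
  have hzp : IsPGroup p (Subgroup.zpowers y) := P1.2.to_le hzP
  let 𝒮 : SubMulAction (Subgroup.zpowers y) (Sylow p G) :=
    { carrier := {S | D ≤ (S : Subgroup G)}
      smul_mem' := by
        intro c S hS d hd
        have hc := hzN c.2
        rw [Subgroup.mem_normalizer_iff''] at hc
        have h1 : (c : G)⁻¹ * d * c ∈ (S : Subgroup G) := hS ((hc d).1 hd)
        change d ∈ (((c : G) • S : Sylow p G) : Subgroup G)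
        rw [Sylow.coe_subgroup_smul, Subgroup.mem_pointwise_smul_iff_inv_smul_mem]
        simpa [MulAut.smul_def] using h1 }
  have hmod := hzp.card_modEq_card_fixedPoints 𝒮
  have hfix : Nat.card (MulAction.fixedPoints (Subgroup.zpowers y) 𝒮) = 1 := by
    rw [Nat.card_eq_one_iff_unique]
    constructor
    · have key : ∀ a : MulAction.fixedPoints (Subgroup.zpowers y) 𝒮, (a.1.1 : Sylow p G) = P1 := by
        rintro ⟨⟨S, hS⟩, hfixS⟩
        by_contra hSP
        have h1 := hfixS ⟨y, Subgroup.mem_zpowers y⟩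
        have h2 : y • S = S := congrArg Subtype.val h1
        rw [Sylow.smul_eq_iff_mem_normalizer] at h2
        have h3 : y ∈ Subgroup.zpowers y ⊓ (S : Subgroup G) := by
          rw [← hzp.inf_normalizer_sylow]
          exact ⟨Subgroup.mem_zpowers y, h2⟩
        have h4 : y ∈ (S : Subgroup G) ⊓ (P1 : Subgroup G) := ⟨h3.2, hyP⟩
        rw [hint S P1 hSP hS hDP1] at h4
        exact hyD h4
      exact ⟨fun a b => Subtype.ext (Subtype.ext ((key a).trans (key b).symm))⟩
    · refine ⟨⟨⟨P1, hDP1⟩, ?_⟩⟩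
      intro c
      apply Subtype.ext
      change (c : G) • P1 = P1
      rw [Sylow.smul_eq_iff_mem_normalizer]
      exact Subgroup.le_normalizer (hzP c.2)
  rw [hfix] at hmod
  have h2le : 2 ≤ Nat.card 𝒮 := by
    have : (⟨P1, hDP1⟩ : 𝒮) ≠ ⟨Q1, hDQ1⟩ := fun h => hne (congrArg Subtype.val h)
    haveI : Nontrivial 𝒮 := ⟨⟨_, _, this⟩⟩
    exact Finite.one_lt_card
  have hp1 : p + 1 ≤ Nat.card 𝒮 := by
    have h1 : p ∣ Nat.card 𝒮 - 1 := (Nat.modEq_iff_dvd' (by omega)).1 hmod.symm
    have := Nat.le_of_dvd (by omega) h1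
    omega
  -- counting
  haveI : Fintype G := Fintype.ofFinite G
  haveI : Fintype (Sylow p G) := Fintype.ofFinite _
  let T : Finset (Sylow p G) := Finset.univ.filter (fun S => D ≤ (S : Subgroup G))
  let sF : Subgroup G → Finset G := fun H => Finset.univ.filter (fun x => x ∈ H)
  have hsF : ∀ H : Subgroup G, (sF H).card = Nat.card H := by
    intro H
    rw [Nat.card_eq_fintype_card, Fintype.card_subtype]
  let t : Sylow p G → Finset G := fun S => sF S \ sF D
  have hT : T.card = Nat.card 𝒮 := by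
    rw [Nat.card_eq_fintype_card]
    exact (Fintype.card_subtype _).symm
  have htcard : ∀ S ∈ T, (t S).card = Nat.card (P : Subgroup G) - Nat.card D := by
    intro S hS
    have hS' : D ≤ (S : Subgroup G) := (Finset.mem_filter.1 hS).2
    have hsub : sF D ⊆ sF S := by
      intro x hx
      exact Finset.mem_filter.2 ⟨Finset.mem_univ _, hS' (Finset.mem_filter.1 hx).2⟩
    rw [Finset.card_sdiff_of_subset hsub, hsF, hsF, hcardS]
  have hdisj : ∀ S ∈ T, ∀ S' ∈ T, S ≠ S' → Disjoint (t S) (t S') := by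
    intro S hS S' hS' hSS
    rw [Finset.disjoint_left]
    intro x hx hx'
    have h1 := Finset.mem_sdiff.1 hx
    have h2 := Finset.mem_sdiff.1 hx'
    have h3 : x ∈ (S : Subgroup G) ⊓ (S' : Subgroup G) :=
      ⟨(Finset.mem_filter.1 h1.1).2, (Finset.mem_filter.1 h2.1).2⟩
    rw [hint S S' hSS (Finset.mem_filter.1 hS).2 (Finset.mem_filter.1 hS').2] at h3
    exact h1.2 (Finset.mem_filter.2 ⟨Finset.mem_univ _, h3⟩)
  have hbi : (T.biUnion t).card = T.card * (Nat.card (P : Subgroup G) - Nat.card D) := by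
    rw [Finset.card_biUnion hdisj, Finset.sum_congr rfl htcard, Finset.sum_const, smul_eq_mul]
  have hdisj2 : Disjoint (sF D) (T.biUnion t) := by
    rw [Finset.disjoint_left]
    intro x hx hx'
    obtain ⟨S, -, hxS⟩ := Finset.mem_biUnion.1 hx'
    exact (Finset.mem_sdiff.1 hxS).2 hx
  have hsub : sF D ∪ T.biUnion t ⊆ Finset.univ.filter (fun g : G => ∃ k : ℕ, orderOf g = p ^ k) := by
    intro x hx
    refine Finset.mem_filter.2 ⟨Finset.mem_univ _, ?_⟩
    have hmemS : ∀ S : Sylow p G, x ∈ (S : Subgroup G) → ∃ k : ℕ, orderOf x = p ^ k := by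
      intro S hxS
      obtain ⟨k, hk⟩ := (IsPGroup.iff_orderOf.1 S.2) ⟨x, hxS⟩
      exact ⟨k, by rw [← hk, Subgroup.orderOf_mk]⟩
    rcases Finset.mem_union.1 hx with h | h
    · exact hmemS P1 (hDP1 (Finset.mem_filter.1 h).2)
    · obtain ⟨S, -, hxS⟩ := Finset.mem_biUnion.1 h
      exact hmemS S (Finset.mem_filter.1 (Finset.mem_sdiff.1 hxS).1).2
  have hfinal := Finset.card_le_card hsub
  rw [Finset.card_union_of_disjoint hdisj2, hbi, hsF, hT] at hfinal
  have hΩ : Nat.card {g : G // ∃ k : ℕ, orderOf g = p ^ k} =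
      (Finset.univ.filter (fun g : G => ∃ k : ℕ, orderOf g = p ^ k)).card := by
    rw [Nat.card_eq_fintype_card, Fintype.card_subtype]
  rw [hΩ]
  refine le_trans ?_ hfinal
  -- arithmetic: |P| = m * |D| with m ≥ p
  have hdvd : Nat.card D ∣ Nat.card (P1 : Subgroup G) := Subgroup.card_dvd_of_le hDP1
  rw [hcardS] at hdvd
  obtain ⟨m, hm⟩ := hdvd
  have hDpos : 0 < Nat.card D := Nat.card_pos
  have hm1 : m ≠ 1 := by
    rintro rfl
    apply hDne
    exact Subgroup.eq_of_le_of_card_ge hDP1 (by rw [hcardS, hm, mul_one])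
  have hmp : p ≤ m := by
    obtain ⟨n, hn⟩ := P.2.exists_card_eq
    have h1 : m ∣ p ^ n := ⟨Nat.card D, by rw [← hn, hm, mul_comm]⟩
    obtain ⟨j, -, hj⟩ := (Nat.dvd_prime_pow hp).1 h1
    have hj0 : j ≠ 0 := by
      rintro rfl
      exact hm1 (by simpa using hj)
    rw [hj]
    calc p = p ^ 1 := (pow_one p).symm
      _ ≤ p ^ j := Nat.pow_le_pow_right hp.pos (by omega)
  set d := Nat.card D with hd
  set c := Nat.card 𝒮 with hc
  rw [hm]
  have h5 : d * m - d = d * (m - 1) := by rw [Nat.mul_sub, mul_one]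
  rw [h5]
  have hm0 : 1 ≤ m := le_trans hp.pos hmp
  obtain ⟨m', rfl⟩ : ∃ m', m = m' + 1 := ⟨m - 1, by omega⟩
  simp only [Nat.add_sub_cancel]
  calc p * (d * (m' + 1)) = d * (p * m' + p) := by ring
    _ ≤ d * (p * m' + (m' + 1)) := by gcongr
    _ = d + (p + 1) * (d * m') := by ring
    _ ≤ d + c * (d * m') := by gcongr

end Cfsg.Agent.S4092
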