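import Mathlib
import Cfsg.Agent.Lib.Helper18.PPrimeConj
import Cfsg.Statements.S4093

set_option autoImplicit false
open scoped BigOperators
open Cfsg

namespace Cfsg.Agent.S4093

/-- orbit–stabiliser for the conjugation action of a subgroup `N` on an element `x`. -/
theorem card_conj_orbit {G : Type*} [Group G] [Finite G] (N : Subgroup G) (x : G) :
    Nat.card {w : G // ∃ n ∈ N, w = n * x * n⁻¹} *
      Nat.card ↥(N ⊓ Subgroup.centralizer ({x} : Set G)) = Nat.card N := by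
  classical
  rw [← Nat.card_prod]
  let rep : {w : G // ∃ n ∈ N, w = n * x * n⁻¹} → G := fun w => Classical.choose w.2
  have hrep : ∀ w : {w : G // ∃ n ∈ N, w = n * x * n⁻¹}, rep w ∈ N ∧ (w : G) = rep w * x * (rep w)⁻¹ :=
    fun w => Classical.choose_spec w.2
  let ψ : {w : G // ∃ n ∈ N, w = n * x * n⁻¹} × ↥(N ⊓ Subgroup.centralizer ({x} : Set G)) → N :=
    fun wc => ⟨rep wc.1 * wc.2, N.mul_mem (hrep wc.1).1 wc.2.2.1⟩
  have hcx : ∀ c : ↥(N ⊓ Subgroup.centralizer ({x} : Set G)), (c : G) * x * (c : G)⁻¹ = x := by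
    intro c
    have := Subgroup.mem_centralizer_singleton_iff.1 c.2.2
    rw [this]; group
  have hconj : ∀ wc, ((ψ wc : N) : G) * x * ((ψ wc : N) : G)⁻¹ = wc.1 := by
    intro wc
    change (rep wc.1 * wc.2) * x * (rep wc.1 * wc.2)⁻¹ = wc.1
    calc (rep wc.1 * wc.2) * x * (rep wc.1 * wc.2)⁻¹
        = rep wc.1 * ((wc.2 : G) * x * (wc.2 : G)⁻¹) * (rep wc.1)⁻¹ := by group
      _ = wc.1 := by rw [hcx, ← (hrep wc.1).2]
  apply Nat.card_congr
  refine Equiv.ofBijective ψ ⟨?_, ?_⟩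
  · rintro ⟨w, c⟩ ⟨w', c'⟩ h
    have h1 : w = w' := by
      apply Subtype.ext
      rw [← hconj (w, c), ← hconj (w', c'), h]
    subst h1
    have h2 : rep w * (c : G) = rep w * (c' : G) := congrArg Subtype.val h
    have h3 : c = c' := Subtype.ext (mul_left_cancel h2)
    rw [h3]
  · intro n
    let w : {w : G // ∃ n ∈ N, w = n * x * n⁻¹} := ⟨n * x * (n : G)⁻¹, n, n.2, rfl⟩
    have hw := (hrep w).2
    have hw' : (n : G) * x * (n : G)⁻¹ = rep w * x * (rep w)⁻¹ := hw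
    refine ⟨(w, ⟨(rep w)⁻¹ * n, Subgroup.mem_inf.2 ⟨N.mul_mem (N.inv_mem (hrep w).1) n.2, ?_⟩⟩), ?_⟩
    · rw [Subgroup.mem_centralizer_singleton_iff]
      calc (rep w)⁻¹ * n * x = (rep w)⁻¹ * ((n : G) * x * (n : G)⁻¹) * n := by group
        _ = (rep w)⁻¹ * (rep w * x * (rep w)⁻¹) * n := by rw [hw']
        _ = x * ((rep w)⁻¹ * n) := by group
    · apply Subtype.ext
      change rep w * ((rep w)⁻¹ * n) = n
      group

/-- Let G be a finite group with a normal subgroup N complementing a Sylow p-subgroup P (a normal p-complement). Then the number of elements of G of p-power order equals the sum over x ∈ P of the index of C_N(x) in N. -/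
theorem result {G : Type*} [Group G] [Finite G] (p : ℕ) [Fact p.Prime]
    (P : Sylow p G) (N : Subgroup G) [N.Normal] (hNP : N.IsComplement' (P : Subgroup G)) :
    Nat.card {g : G // ∃ k : ℕ, orderOf g = p ^ k} =
      ∑ᶠ x : (P : Subgroup G), Nat.card N / Nat.card ↥(N ⊓ Subgroup.centralizer ({(x : G)} : Set G)) := by
  classical
  have hp : p.Prime := Fact.out
  haveI : Fintype (P : Subgroup G) := Fintype.ofFinite _
  have hNp : ¬ p ∣ Nat.card N := by
    rw [← hNP.index_eq_card]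
    exact P.not_dvd_index
  rw [finsum_eq_sum_of_fintype]
  have hdiv : ∀ x : (P : Subgroup G), Nat.card N / Nat.card ↥(N ⊓ Subgroup.centralizer ({(x : G)} : Set G))
      = Nat.card {w : G // ∃ n ∈ N, w = n * (x : G) * n⁻¹} := by
    intro x
    rw [← card_conj_orbit N (x : G)]
    exact Nat.mul_div_cancel _ Nat.card_pos
  rw [Finset.sum_congr rfl (fun x _ => hdiv x), ← Nat.card_sigma]
  apply Nat.card_congr
  symm
  have hpel : ∀ x : (P : Subgroup G), ∃ k : ℕ, (x : G) ^ p ^ k = 1 := by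
    intro x
    obtain ⟨k, hk⟩ := P.2 x
    exact ⟨k, by simpa using congrArg Subtype.val hk⟩
  let Φ : (Σ x : (P : Subgroup G), {w : G // ∃ n ∈ N, w = n * (x : G) * n⁻¹}) →
      {g : G // ∃ k : ℕ, orderOf g = p ^ k} := fun xw => ⟨xw.2, by
    obtain ⟨n, -, hn⟩ := xw.2.2
    obtain ⟨k, hk⟩ := hpel xw.1
    have h1 : (xw.2 : G) ^ p ^ k = 1 := by rw [hn, conj_pow, hk]; group
    obtain ⟨j, -, hj⟩ := (Nat.dvd_prime_pow hp).1 (orderOf_dvd_of_pow_eq_one h1)
    exact ⟨j, hj⟩⟩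
  refine Equiv.ofBijective Φ ⟨?_, ?_⟩
  · rintro ⟨x, w⟩ ⟨x', w'⟩ h
    have hww : (w : G) = w' := congrArg Subtype.val h
    obtain ⟨n, hn, hw⟩ := w.2
    obtain ⟨n', hn', hw'⟩ := w'.2
    have hmod : ∀ (m : G), m ∈ N → ∀ y : G, y⁻¹ * (m * y * m⁻¹) ∈ N := by
      intro m hm y
      have : y⁻¹ * (m * y * m⁻¹) = (y⁻¹ * m * y⁻¹⁻¹) * m⁻¹ := by group
      rw [this]
      exact N.mul_mem ((inferInstance : N.Normal).conj_mem m hm y⁻¹) (N.inv_mem hm)
    have h1 : (x : G)⁻¹ * (x' : G) ∈ N := by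
      have h2 := hmod n hn x
      have h3 := hmod n' hn' x'
      rw [← hw] at h2
      rw [← hw', ← hww] at h3
      have : (x : G)⁻¹ * (x' : G) = ((x : G)⁻¹ * w) * ((x' : G)⁻¹ * w)⁻¹ := by group
      rw [this]
      exact N.mul_mem h2 (N.inv_mem h3)
    have h4 : (x : G)⁻¹ * (x' : G) ∈ (P : Subgroup G) := Subgroup.mul_mem _ (Subgroup.inv_mem _ x.2) x'.2
    have h5 : (x : G)⁻¹ * (x' : G) = 1 := by
      have := hNP.disjoint.le_bot ⟨h1, h4⟩
      simpa using this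
    have hxx : x = x' := Subtype.ext (inv_mul_eq_one.1 h5)
    subst hxx
    have : w = w' := Subtype.ext hww
    rw [this]
  · rintro ⟨g, k, hk⟩
    have hg : g ∈ N ⊔ (P : Subgroup G) := hNP.sup_eq_top ▸ Subgroup.mem_top g
    rw [Subgroup.mem_sup_of_normal_left] at hg
    obtain ⟨n, hn, x, hx, rfl⟩ := hg
    have h1 : x⁻¹ * (n * x) ∈ N := by
      have : x⁻¹ * (n * x) = x⁻¹ * n * x⁻¹⁻¹ := by group
      rw [this]
      exact (inferInstance : N.Normal).conj_mem n hn x⁻¹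
    obtain ⟨m, hm, hmx⟩ := Cfsg.Agent.Lib.Helper18.exists_conj_of_pprime_normal N hNp
      (hpel ⟨x, hx⟩) ⟨k, by rw [← hk]; exact pow_orderOf_eq_one _⟩ h1
    exact ⟨⟨⟨x, hx⟩, ⟨n * x, m, hm, hmx.symm⟩⟩, rfl⟩

end Cfsg.Agent.S4093
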