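import Mathlib
import Cfsg.Agent.S0035
import Cfsg.Agent.Lib.Lead.Frobenius
import Cfsg.Agent.Lib.Helper1.CoprimeSylow
import Cfsg.Agent.Lib.Helper8.CoprimeAct
import Cfsg.Statements.S4097

set_option autoImplicit false
open Cfsg
open scoped Pointwise

namespace Cfsg.Agent.S4097

universe u

/-- the hypothesis of the statement -/
def Hyp {G : Type u} [Group G] (A : Subgroup G) : Prop :=
  Group.IsSolvable A ∧
    ∀ S : Subgroup G, A ≤ S → Group.IsSolvable S → ∀ a ∈ A, ∀ s ∈ S, a * s = s * a

theorem hyp_sub {G : Type u} [Group G] {A : Subgroup G} (h : Hyp A) (H : Subgroup G)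
    (hAH : A ≤ H) : Hyp (A.subgroupOf H) := by
  refine ⟨?_, ?_⟩
  · haveI := h.1
    exact Group.isSolvable_of_isSolvable_injective
      (f := (Subgroup.subgroupOfEquivOfLe hAH).toMonoidHom)
      (Subgroup.subgroupOfEquivOfLe hAH).injective
  · intro S hAS hS a ha s hs
    have h1 : Group.IsSolvable (S.map H.subtype) := by
      haveI := hS
      exact Group.isSolvable_of_surjective (f := (H.subtype.subgroupMap S))
        (MonoidHom.subgroupMap_surjective _ _)
    have h2 : A ≤ S.map H.subtype := by
      intro x hx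
      exact ⟨⟨x, hAH hx⟩, hAS (show (⟨x, hAH hx⟩ : H) ∈ A.subgroupOf H from hx), rfl⟩
    have := h.2 (S.map H.subtype) h2 h1 a ha s ⟨s, hs, rfl⟩
    exact Subtype.ext this

theorem solv_comap {G : Type u} [Group G] (N : Subgroup G) [N.Normal] (hN : Group.IsSolvable N)
    (S : Subgroup (G ⧸ N)) (hS : Group.IsSolvable S) :
    Group.IsSolvable (S.comap (QuotientGroup.mk' N)) := by
  haveI := hN
  haveI := hS
  have hle : N ≤ S.comap (QuotientGroup.mk' N) := by
    intro x hx
    rw [Subgroup.mem_comap]
    have : QuotientGroup.mk' N x = 1 := (QuotientGroup.eq_one_iff x).2 hx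
    rw [this]; exact S.one_mem
  let f : N →* (S.comap (QuotientGroup.mk' N) : Subgroup G) := Subgroup.inclusion hle
  let g : (S.comap (QuotientGroup.mk' N) : Subgroup G) →* S :=
    ((QuotientGroup.mk' N).subgroupComap S)
  apply Group.isSolvable_of_ker_le_range f g
  intro x hx
  have h1 : QuotientGroup.mk' N (x : G) = 1 := by
    have := congrArg Subtype.val (MonoidHom.mem_ker.1 hx)
    exact this
  have h2 : (x : G) ∈ N := (QuotientGroup.eq_one_iff _).1 h1
  exact ⟨⟨x, h2⟩, Subtype.ext rfl⟩

theorem hyp_quot {G : Type u} [Group G] {A : Subgroup G} (h : Hyp A) (N : Subgroup G) [N.Normal]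
    (hN : Group.IsSolvable N) : Hyp (A.map (QuotientGroup.mk' N)) := by
  refine ⟨?_, ?_⟩
  · haveI := h.1
    exact Group.isSolvable_of_surjective (f := ((QuotientGroup.mk' N).subgroupMap A))
        (MonoidHom.subgroupMap_surjective _ _)
  · intro S hAS hS a ha s hs
    obtain ⟨a, ha, rfl⟩ := ha
    obtain ⟨s, rfl⟩ := QuotientGroup.mk'_surjective N s
    have h2 : A ≤ S.comap (QuotientGroup.mk' N) := by
      intro x hx
      exact hAS ⟨x, hx, rfl⟩
    have := h.2 _ h2 (solv_comap N hN S hS) a ha s hs
    rw [← map_mul, ← map_mul, this]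

theorem of_normal {G : Type u} [Group G] {A : Subgroup G} (h : Hyp A) (B : Subgroup G) [B.Normal]
    (hB : Group.IsSolvable B) (hAB : A ≤ B) : A ≤ Subgroup.center G := by
  intro a ha
  rw [Subgroup.mem_center_iff]
  intro g
  have h1 : Group.IsSolvable (B ⊔ Subgroup.zpowers g : Subgroup G) := by
    apply Cfsg.Agent.Lib.Helper8.isSolvable_sup_of_le_normalizer hB
    · apply Group.isSolvable_of_comm
      rintro ⟨x, hx⟩ ⟨y, hy⟩
      obtain ⟨i, rfl⟩ := Subgroup.mem_zpowers_iff.1 hx
      obtain ⟨j, rfl⟩ := Subgroup.mem_zpowers_iff.1 hy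
      apply Subtype.ext
      show g ^ i * g ^ j = g ^ j * g ^ i
      rw [← zpow_add, ← zpow_add, add_comm]
    · rw [Subgroup.normalizer_eq_top_iff.2 inferInstance]; exact le_top
  exact (h.2 _ (hAB.trans le_sup_left) h1 a ha g
    (le_sup_right (a := B) (Subgroup.mem_zpowers g))).symm

theorem main : ∀ (n : ℕ) (G : Type u) [Group G] [Finite G], Nat.card G = n →
    ∀ A : Subgroup G, Hyp A → A ≤ Subgroup.center G := by
  intro n
  induction n using Nat.strong_induction_on with
  | _ n ih =>
  intro G _ _ hn A hA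
  -- proper overgroups of `A` centralize `A`
  have h1 : ∀ H : Subgroup G, A ≤ H → H ≠ ⊤ → H ≤ Subgroup.centralizer (A : Set G) := by
    intro H hAH hH
    have hlt : Nat.card H < n := by
      rw [← hn]
      rcases lt_or_eq_of_le (Subgroup.card_le_card_group H) with h | h
      · exact h
      · exact absurd (Subgroup.eq_top_of_card_eq H h) hH
    have := ih _ hlt H rfl (A.subgroupOf H) (hyp_sub hA H hAH)
    intro x hx
    rw [Subgroup.mem_centralizer_iff]
    intro a ha
    have h2 := this (show (⟨a, hAH ha⟩ : H) ∈ A.subgroupOf H from ha)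
    rw [Subgroup.mem_center_iff] at h2
    have h3 := h2 ⟨x, hx⟩
    exact (congrArg Subtype.val h3).symm
  by_cases hZ : Subgroup.center G = ⊥
  swap
  · -- pass to the quotient by the centre
    have hZs : Group.IsSolvable (Subgroup.center G) := by
      apply Group.isSolvable_of_comm
      rintro ⟨x, hx⟩ ⟨y, hy⟩
      apply Subtype.ext
      exact (Subgroup.mem_center_iff.1 hy x)
    have hlt : Nat.card (G ⧸ Subgroup.center G) < n := by
      rw [← hn, ← Subgroup.index_mul_card (Subgroup.center G)]
      have h2 : 1 < Nat.card (Subgroup.center G) := by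
        rw [Subgroup.one_lt_card_iff_ne_bot]; exact hZ
      have h3 : 0 < (Subgroup.center G).index := Nat.pos_of_ne_zero (Subgroup.index_ne_zero_of_finite)
      show (Subgroup.center G).index < _
      nlinarith
    have h2 := ih _ hlt (G ⧸ Subgroup.center G) rfl _ (hyp_quot hA (Subgroup.center G) hZs)
    haveI : (A.map (QuotientGroup.mk' (Subgroup.center G))).Normal := by
      constructor
      intro x hx g
      have := Subgroup.mem_center_iff.1 (h2 hx) g
      rw [this, mul_inv_cancel_right]
      exact hx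
    apply of_normal hA ((A.map (QuotientGroup.mk' (Subgroup.center G))).comap
      (QuotientGroup.mk' (Subgroup.center G)))
    · exact solv_comap _ hZs _ (hyp_quot hA (Subgroup.center G) hZs).1
    · exact Subgroup.le_comap_map _ _
  by_contra hAZ
  set M : Subgroup G := Subgroup.centralizer (A : Set G) with hM
  have hAM : A ≤ M := by
    intro a ha
    rw [hM, Subgroup.mem_centralizer_iff]
    intro b hb
    exact hA.2 A le_rfl hA.1 b hb a ha
  have hMtop : M ≠ ⊤ := by
    intro h
    apply hAZ
    intro a ha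
    rw [Subgroup.mem_center_iff]
    intro g
    have : g ∈ M := h ▸ Subgroup.mem_top g
    rw [hM, Subgroup.mem_centralizer_iff] at this
    exact (this a ha).symm
  have hMbot : M ≠ ⊥ := by
    intro h
    apply hAZ
    rw [h] at hAM
    exact hAM.trans bot_le
  have hNM : Subgroup.normalizer (M : Set G) ≤ M := by
    apply h1 _ (hAM.trans Subgroup.le_normalizer)
    intro h
    haveI : M.Normal := Subgroup.normalizer_eq_top_iff.1 h
    apply hAZ
    apply of_normal hA (Subgroup.centralizer (M : Set G))
    · apply Group.isSolvable_of_comm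
      rintro ⟨x, hx⟩ ⟨y, hy⟩
      apply Subtype.ext
      show x * y = y * x
      have hxM : x ∈ M := by
        rw [hM, Subgroup.mem_centralizer_iff]
        intro a ha
        exact (Subgroup.mem_centralizer_iff.1 hx) a (hAM ha)
      exact (Subgroup.mem_centralizer_iff.1 hy) x hxM
    · intro a ha
      rw [Subgroup.mem_centralizer_iff]
      intro m hm
      exact ((Subgroup.mem_centralizer_iff.1 hm) a ha).symm
  have hF : Cfsg.IsFrobeniusComplement M := by
    refine ⟨hMbot, hMtop, ?_⟩
    intro g hg
    rw [eq_bot_iff]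
    intro x hx
    rw [Subgroup.mem_bot]
    by_contra hx1
    obtain ⟨hxM, hxg⟩ := Subgroup.mem_inf.1 hx
    rw [Cfsg.Agent.Lib.Helper1.mem_conj_smul] at hxg
    have hC : Subgroup.centralizer ({x} : Set G) ≤ M := by
      apply h1
      · intro a ha
        rw [Subgroup.mem_centralizer_singleton_iff]
        exact ((Subgroup.mem_centralizer_iff.1 hxM) a ha)
      · intro h
        apply hx1
        have : x ∈ Subgroup.center G := by
          rw [Subgroup.mem_center_iff]
          intro y
          have hy : y ∈ Subgroup.centralizer ({x} : Set G) := h ▸ Subgroup.mem_top y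
          exact (Subgroup.mem_centralizer_singleton_iff.1 hy)
        rw [hZ] at this
        exact this
    have h2 : ∀ a ∈ A, g * a * g⁻¹ ∈ M := by
      intro a ha
      apply hC
      rw [Subgroup.mem_centralizer_singleton_iff]
      have := (Subgroup.mem_centralizer_iff.1 hxg) a ha
      calc g * a * g⁻¹ * x = g * (a * (g⁻¹ * x * g)) * g⁻¹ := by group
        _ = g * ((g⁻¹ * x * g) * a) * g⁻¹ := by rw [this]
        _ = x * (g * a * g⁻¹) := by group
    have h3 : A ≤ MulAut.conj g • M := by
      intro b hb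
      rw [Cfsg.Agent.Lib.Helper1.mem_conj_smul, hM, Subgroup.mem_centralizer_iff]
      intro a ha
      have := (Subgroup.mem_centralizer_iff.1 (h2 a ha)) b hb
      calc a * (g⁻¹ * b * g) = g⁻¹ * ((g * a * g⁻¹) * b) * g := by group
        _ = g⁻¹ * (b * (g * a * g⁻¹)) * g := by rw [this]
        _ = g⁻¹ * b * g * a := by group
    have h4 : MulAut.conj g • M ≠ ⊤ := by
      intro h
      apply hMtop
      apply Subgroup.eq_top_of_card_eq
      rw [← Cfsg.Agent.Lib.Helper1.card_conj_smul (g := g), h, Subgroup.card_top]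
    have h5 := h1 _ h3 h4
    apply hg
    apply hNM
    apply Cfsg.Agent.Lib.Helper1.mem_normalizer_of_conj_mem
    intro u hu
    apply h5
    exact Cfsg.Agent.Lib.Helper1.conj_mem_conj_smul hu
  obtain ⟨N, hNK, hNn, hNc⟩ := Cfsg.Agent.S0035.result M hF
  have hcardN : Nat.card N = M.index := by
    rw [← Cfsg.Agent.Lib.Lead.frob_card_kernel hF, ← hNK]
    rfl
  have hcop : (Nat.card M).Coprime (Nat.card N) := by
    rw [hcardN]
    obtain ⟨k, hk⟩ := Cfsg.Agent.Lib.Lead.frob_index_mod hF
    have h3 : 0 < M.index := Nat.pos_of_ne_zero (Subgroup.index_ne_zero_of_finite)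
    have h4 : M.index = Nat.card M * k + 1 := by omega
    rw [h4]
    simp
  have hN1 : Nat.card N ≠ 1 := by
    rw [hcardN]
    intro h
    exact hMtop (Subgroup.index_eq_one.1 h)
  obtain ⟨q, hq, hqN⟩ := Nat.exists_prime_and_dvd hN1
  haveI : Fact q.Prime := ⟨hq⟩
  obtain ⟨P, hP⟩ := Cfsg.Agent.Lib.Helper1.coprime_exists_invariant_sylow A N
    (by rw [Subgroup.normalizer_eq_top_iff.2 hNn]; exact le_top)
    (Nat.Coprime.coprime_dvd_left (Subgroup.card_dvd_of_le hAM) hcop) (Or.inl hA.1) q
  have hQs : Group.IsSolvable (Cfsg.Agent.Lib.Helper1.sylImg P) := by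
    haveI := (Cfsg.Agent.Lib.Helper1.sylImg_isPGroup P).isNilpotent
    infer_instance
  have hT := Cfsg.Agent.Lib.Helper8.isSolvable_sup_of_le_normalizer hQs hA.1 hP
  have hQM : Cfsg.Agent.Lib.Helper1.sylImg P ≤ M := by
    intro y hy
    rw [hM, Subgroup.mem_centralizer_iff]
    intro a ha
    exact hA.2 _ le_sup_right hT a ha y (le_sup_left (b := A) hy)
  have hQbot : Cfsg.Agent.Lib.Helper1.sylImg P = ⊥ := by
    rw [eq_bot_iff, ← hNc.disjoint.eq_bot]
    exact le_inf (Cfsg.Agent.Lib.Helper1.sylImg_le P) hQM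
  have hPbot : (P : Subgroup N) = ⊥ := by
    rw [← Subgroup.map_eq_bot_iff_of_injective _ N.subtype_injective]
    exact hQbot
  have hPc : Nat.card (P : Subgroup N) = 1 := by rw [hPbot]; simp
  have := P.card_eq_multiplicity
  rw [hPc] at this
  have h6 : (Nat.card N).factorization q = 0 := by
    by_contra h
    have : 1 < q ^ (Nat.card N).factorization q := Nat.one_lt_pow h hq.one_lt
    omega
  have h7 : 0 < (Nat.card N).factorization q :=
    hq.factorization_pos_of_dvd Nat.card_pos.ne' hqN
  omega

/-- Let A be a solvable subgroup of a finite group G such that A lies in the centre of every solvable subgroup of G containing A. Then A lies in the centre of G. -/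
theorem result {G : Type*} [Group G] [Finite G]
    (A : Subgroup G) (hA : Group.IsSolvable A)
    (hc : ∀ S : Subgroup G, A ≤ S → Group.IsSolvable S → ∀ a ∈ A, ∀ s ∈ S, a * s = s * a) : A ≤ Subgroup.center G := by
  exact main _ G rfl A ⟨hA, hc⟩

end Cfsg.Agent.S4097
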