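import Cfsg.Statements.S4106
import Cfsg.Agent.Lib.Helper20.ClassCount2

set_option autoImplicit false
open Cfsg

namespace Cfsg.Agent.S4106

open Cfsg.Agent.Lib.Helper20

/-- Let G be a finite group, π a set of primes and m the π-part of the order of G. Then the number of conjugacy classes of G consisting of π-elements (elements whose order is divisible only by primes in π) is at most m. -/
theorem result {G : Type*} [Group G] [Finite G]
    (π : Set ℕ) (hπ : ∀ q ∈ π, q.Prime)
    (m : ℕ) (hm : m ∣ Nat.card G) (hmπ : ∀ q : ℕ, q.Prime → q ∣ m → q ∈ π)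
    (hm' : ∀ q ∈ π, ¬ q ∣ Nat.card G / m) :
    Nat.card {C : ConjClasses G // ∀ q : ℕ, q.Prime → (∃ g : G, ConjClasses.mk g = C ∧ q ∣ orderOf g) → q ∈ π} ≤ m := by
  classical
  set σ : Finset ℕ := (Nat.card G).primeFactors.filter (· ∈ π) with hσ
  have hσp : ∀ s ∈ σ, s.Prime := fun s hs => hπ s (Finset.mem_filter.mp hs).2
  have h1 := card_KCl_le σ hσp G
  have hG0 : Nat.card G ≠ 0 := Nat.card_pos.ne'
  have hm0 : m ≠ 0 := by
    rintro rfl
    exact hG0 (Nat.eq_zero_of_zero_dvd hm)
  have h2 : σ.prod (fun s => s ^ (Nat.card G).factorization s) ∣ m := by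
    apply Finset.prod_dvd_of_isRelPrime
    · intro a ha b hb hab
      show IsRelPrime _ _
      rw [← Nat.coprime_iff_isRelPrime]
      exact Nat.Coprime.pow _ _ ((Nat.coprime_primes (hσp a ha) (hσp b hb)).mpr hab)
    · intro s hs
      have hsp := hσp s hs
      have hsπ : s ∈ π := (Finset.mem_filter.mp hs).2
      obtain ⟨c, hc⟩ := hm
      have hc0 : c ≠ 0 := by
        rintro rfl
        exact hG0 (by rw [hc, mul_zero])
      have hdiv : Nat.card G / m = c := by
        rw [hc]; exact Nat.mul_div_cancel_left c (Nat.pos_of_ne_zero hm0)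
      have hnd : ¬ s ∣ c := hdiv ▸ hm' s hsπ
      have : (Nat.card G).factorization s = m.factorization s := by
        rw [hc, Nat.factorization_mul hm0 hc0, Finsupp.add_apply,
          Nat.factorization_eq_zero_of_not_dvd hnd, add_zero]
      rw [this]
      exact Nat.ordProj_dvd m s
  refine le_trans ?_ (h1.trans (Nat.le_of_dvd (Nat.pos_of_ne_zero hm0) h2))
  apply Nat.card_le_card_of_injective
    (fun C : {C : ConjClasses G // ∀ q : ℕ, q.Prime →
      (∃ g : G, ConjClasses.mk g = C ∧ q ∣ orderOf g) → q ∈ π} =>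
      (⟨C.1, fun y hy r hr hrd => Finset.mem_filter.mpr
        ⟨Nat.mem_primeFactors.mpr ⟨hr, hrd.trans (orderOf_dvd_natCard y), hG0⟩,
          C.2 r hr ⟨y, ConjClasses.mem_carrier_iff_mk_eq.mp hy, hrd⟩⟩⟩ : KCl (piNum σ) G))
  intro a b hab
  have h3 : a.1 = b.1 := congrArg (fun c : KCl (piNum σ) G => c.1) hab
  exact Subtype.ext h3

end Cfsg.Agent.S4106
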