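import Cfsg.Statements.S4107
import Mathlib
import Cfsg.Agent.Lib.Helper20.Primary
import Cfsg.Agent.Lib.Helper1.Cores

set_option autoImplicit false
open Cfsg Subgroup Cfsg.Agent.Lib.Helper20 Cfsg.Agent.Lib.Helper1

namespace Cfsg.Agent.S4107


theorem isPGroup_of_mem_pCore {G : Type*} [Group G] [Finite G] (N : Subgroup G)
    (heq : ∀ x : G, x ∉ N → ∀ n ∈ N, orderOf (x * n) = orderOf x) {p : ℕ} [Fact p.Prime] {x : G}
    (hx : x ∈ Cfsg.pCore p G) (hxN : x ∉ N) : IsPGroup p N := by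
  haveI hn : (Cfsg.pCore p G).Normal := Cfsg.Agent.Lib.Helper1.pCore_normal p
  have hpg : IsPGroup p (Cfsg.pCore p G) := pCore_isPGroup p
  obtain ⟨a, ha⟩ := hpg ⟨x, hx⟩
  have ha' : x ^ p ^ a = 1 := congrArg Subtype.val ha
  intro n
  have h1 : (x * (n : G)) ^ p ^ a = 1 := by
    rw [← orderOf_dvd_iff_pow_eq_one, heq x hxN n n.2, orderOf_dvd_iff_pow_eq_one]
    exact ha'
  have h2 : (n : G) ^ p ^ a ∈ Cfsg.pCore p G := by
    rw [← QuotientGroup.eq_one_iff, QuotientGroup.mk_pow]
    have h3 : ((n : G) : G ⧸ Cfsg.pCore p G) = ((x * (n : G) : G) : G ⧸ Cfsg.pCore p G) := by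
      rw [QuotientGroup.mk_mul, (QuotientGroup.eq_one_iff x).mpr hx, one_mul]
    rw [h3, ← QuotientGroup.mk_pow, h1]
    rfl
  obtain ⟨b, hb⟩ := hpg ⟨_, h2⟩
  have hb' : ((n : G) ^ p ^ a) ^ p ^ b = 1 := congrArg Subtype.val hb
  refine ⟨a + b, Subtype.ext ?_⟩
  rw [pow_add, pow_mul]
  exact hb'

theorem exists_primary_not_mem {G : Type*} [Group G] [Finite G] (N : Subgroup G) {x : G} (hx : x ∉ N) :
    ∃ (p : ℕ) (z : G), p.Prime ∧ z ∈ zpowers x ∧ (∃ k : ℕ, orderOf z = p ^ k) ∧ z ∉ N := by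
  by_contra hcon
  push Not at hcon
  exact hx (mem_of_primary_mem N x fun p z hp hz hzo => hcon p z hp hz hzo)


/-- Let G be a finite group and N a proper non-trivial normal subgroup such that for every x outside N all elements of the coset xN have the same order as x. Then N ≤ F(G) or F(G) ≤ N, where F(G) is the Fitting subgroup; and if N is properly contained in F(G) then F(G) has prime-power order. -/
theorem result {G : Type*} [Group G] [Finite G] (N : Subgroup G) [N.Normal] (hN1 : N ≠ ⊥) (hN2 : N ≠ ⊤)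
    (heq : ∀ x : G, x ∉ N → ∀ n ∈ N, orderOf (x * n) = orderOf x) :
    (N ≤ Cfsg.fittingSubgroup G ∨ Cfsg.fittingSubgroup G ≤ N) ∧
    (N < Cfsg.fittingSubgroup G → IsPrimePow (Nat.card (Cfsg.fittingSubgroup G))) := by
  have key : ¬ Cfsg.fittingSubgroup G ≤ N → ∃ p : ℕ, p.Prime ∧ IsPGroup p N := by
    intro hF
    obtain ⟨x, hxF, hxN⟩ := SetLike.not_le_iff_exists.mp hF
    obtain ⟨p, z, hp, hz, hzo, hzN⟩ := exists_primary_not_mem N hxN
    haveI : Fact p.Prime := ⟨hp⟩
    have hzF : z ∈ Cfsg.fittingSubgroup G := (zpowers_le.mpr hxF) hz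
    exact ⟨p, hp, isPGroup_of_mem_pCore N heq (mem_pCore_of_mem_fitting hzF hzo) hzN⟩
  constructor
  · by_cases hF : Cfsg.fittingSubgroup G ≤ N
    · exact Or.inr hF
    · left
      obtain ⟨p, hp, hN⟩ := key hF
      haveI : Fact p.Prime := ⟨hp⟩
      exact (le_pCore inferInstance hN).trans (pCore_le_fitting p)
  · intro hlt
    obtain ⟨p, hp, hN⟩ := key (not_le_of_gt hlt)
    haveI : Fact p.Prime := ⟨hp⟩
    have hle : Cfsg.fittingSubgroup G ≤ Cfsg.pCore p G := by
      intro y hy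
      apply mem_of_primary_mem
      intro q w hq hw hwo
      haveI : Fact q.Prime := ⟨hq⟩
      have hwF : w ∈ Cfsg.fittingSubgroup G := (zpowers_le.mpr hy) hw
      by_cases hqp : q = p
      · subst hqp
        exact mem_pCore_of_mem_fitting hwF hwo
      · have hwq := mem_pCore_of_mem_fitting hwF hwo
        by_cases hwN : w ∈ N
        · obtain ⟨a, ha⟩ := hN ⟨w, hwN⟩
          have ha' : w ^ p ^ a = 1 := congrArg Subtype.val ha
          obtain ⟨k, hk⟩ := hwo
          have h1 : orderOf w ∣ p ^ a := orderOf_dvd_of_pow_eq_one ha'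
          have h2 : (q ^ k).Coprime (p ^ a) := Nat.Coprime.pow _ _ ((Nat.coprime_primes hq hp).mpr hqp)
          rw [hk] at h1
          have h3 : q ^ k = 1 := Nat.Coprime.eq_one_of_dvd h2 h1
          rw [h3, orderOf_eq_one_iff] at hk
          rw [hk]
          exact one_mem _
        · exfalso
          have hNq := isPGroup_of_mem_pCore N heq hwq hwN
          apply hN1
          exact disjoint_self.mp (IsPGroup.disjoint_of_ne p q (Ne.symm hqp) N N hN hNq)
    have hFp : IsPGroup p (Cfsg.fittingSubgroup G) := (pCore_isPGroup p).to_le hle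
    obtain ⟨k, hk⟩ := hFp.exists_card_eq
    rw [hk]
    refine ⟨p, k, hp.prime, ?_, rfl⟩
    rcases Nat.eq_zero_or_pos k with rfl | h
    · exfalso
      rw [pow_zero, card_eq_one] at hk
      apply hN1
      rw [← le_bot_iff, ← hk]
      exact hlt.le
    · exact h

end Cfsg.Agent.S4107
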