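import Cfsg.Statements.S4108
import Cfsg.Agent.Lib.Helper17.FrobFpf

set_option autoImplicit false
open Cfsg

namespace Cfsg.Agent.S4108

theorem subgroupOf_ne_bot' {G : Type*} [Group G] {A K : Subgroup G} (hAK : A ≤ K) (hA : A ≠ ⊥) :
    A.subgroupOf K ≠ ⊥ := by
  intro h
  apply hA
  rw [eq_bot_iff]
  intro x hx
  have : (⟨x, hAK hx⟩ : K) ∈ A.subgroupOf K := Subgroup.mem_subgroupOf.mpr hx
  rw [h, Subgroup.mem_bot] at this
  rw [Subgroup.mem_bot]
  exact congrArg Subtype.val this

open Cfsg.Agent.Lib.Helper17 in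

/-- Let G be a finite group, p a prime and N a proper non-trivial normal p-subgroup such that for every x outside N all elements of the coset xN have the same order as x. Then every non-trivial subgroup H of G of order prime to p acts fixed-point-freely on N: NH is a Frobenius group with complement H and kernel N. -/
theorem result {G : Type*} [Group G] [Finite G] (N : Subgroup G) [N.Normal] (hN1 : N ≠ ⊥) (hN2 : N ≠ ⊤)
    (heq : ∀ x : G, x ∉ N → ∀ n ∈ N, orderOf (x * n) = orderOf x)
    (p : ℕ) [Fact p.Prime] (hNp : IsPGroup p N) :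
    ∀ H : Subgroup G, H ≠ ⊥ → (Nat.card H).Coprime p →
      Cfsg.IsFrobeniusComplement (H.subgroupOf (N ⊔ H)) ∧ Cfsg.frobeniusKernel (H.subgroupOf (N ⊔ H)) = (N.subgroupOf (N ⊔ H) : Set ↥(N ⊔ H)) := by
  intro H hH hcop
  have hord : ∀ x ∈ N, ∀ y ∈ H, (orderOf y).Coprime (orderOf x) := by
    intro x hx y hy
    obtain ⟨k, hk⟩ := (IsPGroup.iff_orderOf.mp hNp ⟨x, hx⟩)
    rw [Subgroup.orderOf_mk] at hk
    have h1 : orderOf y ∣ Nat.card H := by
      have := orderOf_dvd_natCard (⟨y, hy⟩ : H)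
      rwa [Subgroup.orderOf_mk] at this
    have h2 : orderOf x = p ^ k := hk
    apply Nat.Coprime.coprime_dvd_left h1
    rw [h2]
    exact Nat.Coprime.pow_right k hcop
  have hdisj : N ⊓ H = ⊥ := by
    rw [eq_bot_iff]
    intro x hx
    rw [Subgroup.mem_bot]
    have h3 := hord x hx.1 x hx.2
    rw [Nat.coprime_self] at h3
    exact orderOf_eq_one_iff.mp h3
  apply frob_of_fpf (N.subgroupOf (N ⊔ H)) (H.subgroupOf (N ⊔ H))
  · rw [eq_bot_iff]
    intro x hx
    have : (x : G) ∈ N ⊓ H := ⟨Subgroup.mem_subgroupOf.mp hx.1, Subgroup.mem_subgroupOf.mp hx.2⟩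
    rw [hdisj, Subgroup.mem_bot] at this
    rw [Subgroup.mem_bot]
    exact Subtype.ext this
  · rw [← Subgroup.subgroupOf_sup le_sup_left le_sup_right, Subgroup.subgroupOf_self]
  · exact subgroupOf_ne_bot' le_sup_right hH
  · exact subgroupOf_ne_bot' le_sup_left hN1
  · intro h hh hh1 n hn hcomm
    have hh' : (h : G) ∈ H := Subgroup.mem_subgroupOf.mp hh
    have hn' : (n : G) ∈ N := Subgroup.mem_subgroupOf.mp hn
    have hh1' : (h : G) ≠ 1 := fun e => hh1 (Subtype.ext e)
    have hhN : (h : G) ∉ N := by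
      intro hN'
      have : (h : G) ∈ N ⊓ H := ⟨hN', hh'⟩
      rw [hdisj, Subgroup.mem_bot] at this
      exact hh1' this
    have h1 := heq h hhN n hn'
    have hc : Commute (h : G) (n : G) := congrArg Subtype.val hcomm
    rw [hc.orderOf_mul_eq_mul_orderOf_of_coprime (hord _ hn' _ hh')] at h1
    have hpos : 0 < orderOf (h : G) := orderOf_pos _
    have h2 : orderOf (n : G) = 1 := by
      have : orderOf (h : G) * orderOf (n : G) = orderOf (h : G) * 1 := by rw [h1, mul_one]
      exact Nat.eq_of_mul_eq_mul_left hpos this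
    exact Subtype.ext (orderOf_eq_one_iff.mp h2)

end Cfsg.Agent.S4108
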