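import Cfsg.Statements.S4112
import Cfsg.Agent.Lib.Helper17.Basic

set_option autoImplicit false
open Cfsg

namespace Cfsg.Agent.S4112

open Cfsg.Agent.Lib.Helper17

theorem one_to_two {G : Type*} [Group G] [Finite G] (N M : Subgroup G) [N.Normal] [M.Normal]
    (h1 : ∀ x ∈ M, x ≠ 1 → Subgroup.centralizer ({x} : Set G) ≤ N) :
    N.index.Coprime (Nat.card M) := by
  by_contra hnc
  obtain ⟨r, hr, hrN, hrM⟩ := Nat.Prime.not_coprime_iff_dvd.mp hnc
  haveI : Fact r.Prime := ⟨hr⟩
  obtain ⟨R⟩ : Nonempty (Sylow r G) := inferInstance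
  let _ : MulAction ↥(R : Subgroup G) ↥M :=
    MulAction.compHom ↥M ((MulAut.conjNormal (H := M)).comp (R : Subgroup G).subtype)
  have hsmul : ∀ (g : ↥(R : Subgroup G)) (n : ↥M), ((g • n : ↥M) : G) = g * n * (g : G)⁻¹ :=
    fun g n => rfl
  have h1' : (1 : ↥M) ∈ MulAction.fixedPoints ↥(R : Subgroup G) ↥M := by
    intro g; apply Subtype.ext; rw [hsmul]; simp
  obtain ⟨b, hb, hne⟩ := R.2.exists_fixed_point_of_prime_dvd_card_of_fixed_point ↥M hrM h1'
  have hb1 : (b : G) ≠ 1 := by intro h; apply hne; apply Subtype.ext; simp [h]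
  have hRN : (R : Subgroup G) ≤ N := by
    intro g hg
    apply h1 b b.2 hb1
    rw [Subgroup.mem_centralizer_singleton_iff]
    have := congrArg Subtype.val (hb ⟨g, hg⟩)
    rw [hsmul] at this
    calc g * (b : G) = (g * b * g⁻¹) * g := by group
      _ = b * g := by rw [this]
  have := Subgroup.index_dvd_of_le hRN
  exact R.not_dvd_index (hrN.trans this)

theorem two_to_one {G : Type*} [Group G] [Finite G] (N M : Subgroup G) [N.Normal] [M.Normal]
    (hcam : ∀ g : G, g ∉ N → ∀ m ∈ M, ∃ x : G, x * g * x⁻¹ = g * m)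
    (h2 : N.index.Coprime (Nat.card M)) :
    ∀ x ∈ M, x ≠ 1 → Subgroup.centralizer ({x} : Set G) ≤ N := by
  intro x hx hx1
  have key : ∀ n : ℕ, ∀ g : G, orderOf g = n → g ∈ Subgroup.centralizer ({x} : Set G) → g ∈ N := by
    intro n
    induction n using Nat.strong_induction_on with
    | _ n ih =>
      intro g hgn hgc
      by_cases hcop : (orderOf g).Coprime (Nat.card M)
      · by_contra hgN
        obtain ⟨y, hy⟩ := hcam g hgN x hx
        have hcomm : Commute g x := by
          rw [Subgroup.mem_centralizer_singleton_iff] at hgc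
          exact hgc
        have h3 : (g * x) ^ orderOf g = 1 := by
          rw [← hy, conj_pow, pow_orderOf_eq_one]; simp
        rw [hcomm.mul_pow, pow_orderOf_eq_one, one_mul] at h3
        have h4 : orderOf x ∣ orderOf g := orderOf_dvd_of_pow_eq_one h3
        have h5 : orderOf x ∣ Nat.card M := by
          have := orderOf_dvd_natCard (⟨x, hx⟩ : ↥M)
          rwa [Subgroup.orderOf_mk] at this
        have h6 : orderOf x = 1 := Nat.eq_one_of_dvd_coprimes hcop h4 h5
        exact hx1 (orderOf_eq_one_iff.mp h6)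
      · obtain ⟨r, hr, hrg, hrM⟩ := Nat.Prime.not_coprime_iff_dvd.mp hcop
        have h3 : orderOf (g ^ r) = orderOf g / r := orderOf_pow_of_dvd hr.ne_zero hrg
        have h4 : g ^ r ∈ N :=
          ih (orderOf g / r) (by rw [← hgn]; exact Nat.div_lt_self (orderOf_pos g) hr.one_lt)
            (g ^ r) h3 (Subgroup.pow_mem _ hgc r)
        have h5 : g ^ N.index ∈ N := Subgroup.pow_index_mem N g
        have h6 : r.Coprime N.index := (Nat.Coprime.coprime_dvd_right hrM h2).symm
        exact mem_of_pow_mem_of_coprime N h6 h4 h5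
  intro g hg
  exact key _ g rfl hg

theorem exists_supp : ∀ n : ℕ, ∀ (G : Type*) [Group G] [Finite G], Nat.card G = n →
    ∀ (N : Subgroup G) [N.Normal], ∃ H : Subgroup G, H ⊔ N = ⊤ ∧
      ∀ r : ℕ, r.Prime → r ∣ Nat.card H → r ∣ N.index := by
  intro n
  induction n using Nat.strong_induction_on with
  | _ n ih =>
    intro G _ _ hn N _
    by_cases hK : ∃ K : Subgroup G, K ≠ ⊤ ∧ K ⊔ N = ⊤
    · obtain ⟨K, hK1, hK2⟩ := hK
      have hlt : Nat.card K < n := by
        rw [← hn]
        refine lt_of_le_of_ne (Subgroup.card_le_card_group K) ?_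
        intro h
        exact hK1 (Subgroup.eq_top_of_card_eq K h)
      obtain ⟨H', hH1, hH2⟩ := ih _ hlt ↥K rfl (N.subgroupOf K)
      refine ⟨H'.map K.subtype, ?_, ?_⟩
      · have h1 : K ≤ H'.map K.subtype ⊔ N := by
          have h2 : (H' ⊔ N.subgroupOf K).map K.subtype = K := by
            rw [hH1, ← MonoidHom.range_eq_map, Subgroup.range_subtype]
          rw [Subgroup.map_sup, Subgroup.subgroupOf_map_subtype] at h2
          calc K = H'.map K.subtype ⊔ N ⊓ K := h2.symm
            _ ≤ _ := sup_le_sup_left inf_le_left _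
        rw [eq_top_iff, ← hK2]
        exact sup_le h1 le_sup_right
      · intro r hr hrd
        rw [Subgroup.card_map_of_injective K.subtype_injective] at hrd
        have h3 := hH2 r hr hrd
        have h4 : (N.subgroupOf K).index = N.index := by
          have : N.relIndex (K ⊔ N) = N.relIndex K := Subgroup.relIndex_sup_right K N
          rw [hK2, Subgroup.relIndex_top_right] at this
          exact this.symm
        rwa [h4] at h3
    · refine ⟨⊤, by simp, ?_⟩
      intro r hr hrd
      by_contra hrN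
      haveI : Fact r.Prime := ⟨hr⟩
      obtain ⟨R⟩ : Nonempty (Sylow r ↥N) := inferInstance
      have h1 := Sylow.normalizer_sup_eq_top R
      have h2 : Subgroup.normalizer (((R : Subgroup ↥N).map N.subtype : Subgroup G) : Set G) = ⊤ := by
        by_contra h
        exact hK ⟨_, h, h1⟩
      haveI hnorm : ((R : Subgroup ↥N).map N.subtype).Normal := Subgroup.normalizer_eq_top_iff.mp h2
      have h3 : ¬ r ∣ ((R : Subgroup ↥N).map N.subtype).index := by
        rw [Subgroup.index_map_subtype]
        intro h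
        rcases (Nat.Prime.dvd_mul hr).mp h with h | h
        · exact R.not_dvd_index h
        · exact hrN h
      have h4 : (Nat.card ((R : Subgroup ↥N).map N.subtype)).Coprime
          ((R : Subgroup ↥N).map N.subtype).index := by
        rw [Subgroup.card_map_of_injective N.subtype_injective]
        obtain ⟨k, hk⟩ := IsPGroup.iff_card.mp R.2
        rw [hk]
        exact Nat.Coprime.pow_left k ((Nat.Prime.coprime_iff_not_dvd hr).mpr h3)
      obtain ⟨K, hKc⟩ := Subgroup.exists_left_complement'_of_coprime h4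
      have h5 : K ⊔ N = ⊤ := by
        rw [eq_top_iff, ← hKc.sup_eq_top]
        exact sup_le_sup_left (Subgroup.map_subtype_le _) _
      have h6 : K = ⊤ := by
        by_contra h
        exact hK ⟨K, h, h5⟩
      have h7 : (R : Subgroup ↥N).map N.subtype = ⊥ := by
        have := hKc.disjoint.eq_bot
        rwa [h6, top_inf_eq] at this
      have h8 : (R : Subgroup ↥N) = ⊥ := by
        rwa [Subgroup.map_eq_bot_iff_of_injective _ N.subtype_injective] at h7
      have h9 : ¬ r ∣ Nat.card ↥N := fun h => R.ne_bot_of_dvd_card h h8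
      have h10 : Nat.card G = Nat.card ↥N * N.index := (Subgroup.card_mul_index N).symm
      rw [Subgroup.card_top, h10] at hrd
      rcases (Nat.Prime.dvd_mul hr).mp hrd with h | h
      · exact h9 h
      · exact hrN h

/-- Let G be a finite group and M ≤ N non-trivial proper normal subgroups such that for every g outside N the conjugacy class of g is a union of cosets of M (equivalently gm is conjugate to g for every m ∈ M). Then (1) and (2) below are equivalent, and they imply (3): (1) every g outside N acts fixed-point-freely on M, that is C_G(x) ≤ N for every x ∈ M, x ≠ 1; (2) the index of N in G is coprime to the order of M; (3) there is a subgroup H of G with HN = G and H ∩ M = 1. -/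
theorem result {G : Type*} [Group G] [Finite G] (N M : Subgroup G) [N.Normal] [M.Normal] (hMN : M ≤ N) (hM1 : M ≠ ⊥) (hN2 : N ≠ ⊤)
    (hcam : ∀ g : G, g ∉ N → ∀ m ∈ M, ∃ x : G, x * g * x⁻¹ = g * m) :
    ((∀ x ∈ M, x ≠ 1 → Subgroup.centralizer ({x} : Set G) ≤ N) ↔ N.index.Coprime (Nat.card M)) ∧
    ((∀ x ∈ M, x ≠ 1 → Subgroup.centralizer ({x} : Set G) ≤ N) → ∃ H : Subgroup G, H ⊔ N = ⊤ ∧ H ⊓ M = ⊥) := by
  refine ⟨⟨one_to_two N M, two_to_one N M hcam⟩, ?_⟩
  intro h1
  have h2 := one_to_two N M h1
  obtain ⟨H, hH1, hH2⟩ := exists_supp _ G rfl N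
  refine ⟨H, hH1, ?_⟩
  rw [← Subgroup.card_eq_one]
  by_contra hne
  obtain ⟨r, hr, hrd⟩ := Nat.exists_prime_and_dvd hne
  have h3 : r ∣ N.index := hH2 r hr (hrd.trans (Subgroup.card_dvd_of_le inf_le_left))
  have h4 : r ∣ Nat.card M := hrd.trans (Subgroup.card_dvd_of_le inf_le_right)
  exact Nat.Prime.not_coprime_iff_dvd.mpr ⟨r, hr, h3, h4⟩ h2

end Cfsg.Agent.S4112
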