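import Cfsg.Statements.S4116
import Cfsg.Agent.S0035
import Cfsg.Agent.Lib.Helper16.Syl
import Cfsg.Agent.Lib.Helper23.Basic
import Cfsg.Agent.Lib.Helper8.Cores

set_option autoImplicit false
open Cfsg

namespace Cfsg.Agent.S4116

open Cfsg.Agent.Lib.Helper16 Cfsg.Agent.Lib.Helper23

variable {G : Type*} [Group G] [Finite G]

theorem t2 (H : Subgroup G) (hTI : Cfsg.IsTISubset (H : Set G)) (D : Subgroup G) (hD : D ≠ ⊥) (hDH : D ≤ H) :
    Subgroup.normalizer (D : Set G) ≤ Subgroup.normalizer (H : Set G) := by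
  intro x hx
  by_contra hne
  obtain ⟨d, hd1⟩ := (Subgroup.ne_bot_iff_exists_ne_one).mp hD
  apply hd1
  apply Subtype.ext
  exact hTI x hne d (hDH d.2) (hDH ((Subgroup.mem_normalizer_iff.mp hx d).mp d.2))

theorem t3 (H : Subgroup G) (hHall : (Nat.card H).Coprime H.index) (K : Subgroup G)
    (hK : ∀ q : ℕ, q.Prime → q ∣ Nat.card K → q ∣ Nat.card H)
    (hKN : K ≤ Subgroup.normalizer (H : Set G)) : K ≤ H := by
  have h0 : H ⊔ K ≤ H := by
    rw [← Subgroup.relIndex_eq_one]
    by_contra hne
    obtain ⟨r, hr, hrd⟩ := Nat.exists_prime_and_dvd hne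
    have h1 : r ∣ H.index := hrd.trans (Subgroup.relIndex_dvd_index_of_le le_sup_left)
    have h3 : Nat.card (H ⊔ K : Subgroup G) ∣ Nat.card H * Nat.card K :=
      Cfsg.Agent.Lib.Helper8.card_sup_dvd hKN
    have h4 := Subgroup.relIndex_mul_relIndex ⊥ H (H ⊔ K) bot_le le_sup_left
    rw [Subgroup.relIndex_bot_left, Subgroup.relIndex_bot_left] at h4
    rw [← h4] at h3
    have h5 : H.relIndex (H ⊔ K) ∣ Nat.card K := Nat.dvd_of_mul_dvd_mul_left Nat.card_pos h3
    exact hr.one_lt.ne' (Nat.eq_one_of_dvd_coprimes hHall (hK r hr (hrd.trans h5)) h1)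
  exact le_sup_right.trans h0

theorem main (H : Subgroup G) (hHall : (Nat.card H).Coprime H.index) (hTI : Cfsg.IsTISubset (H : Set G))
    (n : ℕ) : ∀ K : Subgroup G, Nat.card K = n → (∀ q : ℕ, q.Prime → q ∣ Nat.card K → q ∣ Nat.card H) →
    ∃ g : G, K.map (MulAut.conj g).toMonoidHom ≤ H := by
  induction n using Nat.strong_induction_on with
  | _ n ih =>
  intro K hn hK
  by_cases hK1 : Nat.card K = 1
  · refine ⟨1, ?_⟩
    rw [conj_one, Subgroup.card_eq_one.mp hK1]
    exact bot_le
  obtain ⟨p, hp, hpK⟩ := Nat.exists_prime_and_dvd hK1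
  haveI : Fact p.Prime := ⟨hp⟩
  have hpH : ¬ p ∣ H.index := fun h =>
    hp.one_lt.ne' (Nat.eq_one_of_dvd_coprimes hHall (hK p hp hpK) h)
  obtain ⟨S, hS⟩ := exists_sylow_le_of_not_dvd_index p H hpH
  obtain ⟨x, hx⟩ := exists_prime_orderOf_dvd_card' (G := K) p hpK
  have hxp : IsPGroup p (Subgroup.zpowers (x : G)) :=
    isPGroup_zpowers p _ ⟨1, by rw [Subgroup.orderOf_coe, hx, pow_one]⟩
  obtain ⟨y, -, hy⟩ := (sylIn_top S).exists_conj_le hxp le_top
  set K' := K.map (MulAut.conj y).toMonoidHom with hK'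
  have hK'card : Nat.card K' = Nat.card K := card_conj K y
  have hK'π : ∀ q : ℕ, q.Prime → q ∣ Nat.card K' → q ∣ Nat.card H := fun q hq h => hK q hq (hK'card ▸ h)
  have hx' : y * x * y⁻¹ ∈ H := hS (hy ⟨x, Subgroup.mem_zpowers _, rfl⟩)
  have hx'K : y * x * y⁻¹ ∈ K' := ⟨x, x.2, rfl⟩
  have hx'1 : y * x * y⁻¹ ≠ 1 := by
    intro h
    have h1 : (x : G) = 1 := by
      have : (x : G) = y⁻¹ * (y * x * y⁻¹) * y := by group
      rw [this, h]; group
    have h2 : x = 1 := Subtype.ext h1
    rw [h2, orderOf_one] at hx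
    exact hp.one_lt.ne hx
  by_cases hle : K' ≤ H
  · exact ⟨y, hle⟩
  have hfrob : Cfsg.IsFrobeniusComplement (H.subgroupOf K') := by
    refine ⟨?_, ?_, ?_⟩
    · intro h
      have : (⟨y * x * y⁻¹, hx'K⟩ : K') ∈ H.subgroupOf K' := hx'
      rw [h, Subgroup.mem_bot] at this
      exact hx'1 (congrArg Subtype.val this)
    · intro h
      exact hle (Subgroup.subgroupOf_eq_top.mp h)
    · intro k hk
      rw [eq_bot_iff]
      intro u hu
      obtain ⟨hu1, hu2⟩ := Subgroup.mem_inf.mp hu
      rw [Cfsg.Agent.Lib.Helper23.mem_conj_smul] at hu2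
      have hu1' : (u : G) ∈ H := hu1
      have hu2' : (k : G)⁻¹ * u * (k : G) ∈ H := hu2
      rw [Subgroup.mem_bot]
      by_contra hu0
      apply hk
      have hkN : (k : G)⁻¹ ∈ Subgroup.normalizer (H : Set G) := by
        by_contra hne
        apply hu0
        apply Subtype.ext
        exact hTI _ hne u hu1' (by simpa using hu2')
      have hkN' : (k : G) ∈ Subgroup.normalizer (H : Set G) := by
        have := Subgroup.inv_mem _ hkN
        simpa using this
      have hz : Subgroup.zpowers (k : G) ≤ H := by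
        apply t3 H hHall
        · intro q hq hqd
          apply hK'π q hq
          exact hqd.trans (Subgroup.card_dvd_of_le (by rw [Subgroup.zpowers_le]; exact k.2))
        · rw [Subgroup.zpowers_le]; exact hkN'
      exact hz (Subgroup.mem_zpowers _)
  obtain ⟨N', -, hN'n, hN'c⟩ := Cfsg.Agent.S0035.result _ hfrob
  set N : Subgroup G := N'.map K'.subtype with hN
  have hNK : N ≤ K' := Subgroup.map_subtype_le _
  have hNcard : Nat.card N = Nat.card N' := Subgroup.card_map_of_injective K'.subtype_injective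
  have hNsub : N.subgroupOf K' = N' := Subgroup.comap_map_eq_self_of_injective K'.subtype_injective _
  have hNnorm : K' ≤ Subgroup.normalizer (N : Set G) := by
    rw [← Subgroup.normal_subgroupOf_iff_le_normalizer hNK, hNsub]; exact hN'n
  have hcardmul := hN'c.card_mul
  have hN'bot : N' ≠ ⊥ := by
    intro h
    rw [h, Subgroup.card_bot, one_mul] at hcardmul
    exact hfrob.2.1 (Subgroup.eq_top_of_card_eq _ hcardmul)
  have hNbot : N ≠ ⊥ := by
    intro h
    apply hN'bot
    rw [← Subgroup.card_eq_one] at h ⊢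
    rw [← hNcard, h]
  have hNlt : Nat.card N < n := by
    rw [← hn, ← hK'card, hNcard, ← hcardmul]
    have h1 : 1 < Nat.card (H.subgroupOf K') := by
      rw [Finite.one_lt_card_iff_nontrivial]
      exact (Subgroup.nontrivial_iff_ne_bot _).mpr hfrob.1
    have h2 : 0 < Nat.card N' := Nat.card_pos
    nlinarith
  obtain ⟨g, hg⟩ := ih _ hNlt N rfl
    (fun q hq hqd => hK'π q hq (hqd.trans (Subgroup.card_dvd_of_le hNK)))
  refine ⟨g * y, ?_⟩
  rw [← conj_conj]
  apply t3 H hHall
  · intro q hq hqd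
    rw [card_conj] at hqd
    exact hK'π q hq hqd
  · refine ((Subgroup.map_mono hNnorm).trans (Subgroup.le_normalizer_map _)).trans ?_
    apply t2 H hTI _ _ hg
    intro h
    apply hNbot
    rw [← Subgroup.card_eq_one] at h ⊢
    rwa [card_conj] at h

/-- Let G be a finite group with a subgroup H whose order is coprime to its index (a Hall subgroup) and which meets each of its conjugates by elements outside N_G(H) trivially. Then every subgroup of G whose order is divisible only by primes dividing the order of H lies in a conjugate of H. -/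
theorem result {G : Type*} [Group G] [Finite G] (H : Subgroup G)
    (hHall : (Nat.card H).Coprime H.index) (hTI : Cfsg.IsTISubset (H : Set G))
    (K : Subgroup G) (hK : ∀ q : ℕ, q.Prime → q ∣ Nat.card K → q ∣ Nat.card H) :
    ∃ g : G, K ≤ H.map (MulAut.conj g).toMonoidHom := by
  obtain ⟨g, hg⟩ := main H hHall hTI _ K rfl hK
  refine ⟨g⁻¹, ?_⟩
  have := Subgroup.map_mono (f := (MulAut.conj g⁻¹).toMonoidHom) hg
  rwa [conj_conj, inv_mul_cancel, conj_one] at this

end Cfsg.Agent.S4116
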