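import Cfsg.Statements.S4117

set_option autoImplicit false
open Cfsg

namespace Cfsg.Agent.S4117

section aux

variable {G A : Type*} [Group G] [Group A] [MulDistribMulAction A G]

/-- the commutator subgroup `[G, A]` -/
def XX (G A : Type*) [Group G] [Group A] [MulDistribMulAction A G] : Subgroup G :=
  Subgroup.closure {y : G | ∃ (a : A) (g : G), y = g⁻¹ * a • g}

theorem gen_mem (a : A) (g : G) : g⁻¹ * a • g ∈ XX G A :=
  Subgroup.subset_closure ⟨a, g, rfl⟩

theorem XX_normal : (XX G A).Normal := by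
  constructor
  intro x hx h
  induction hx using Subgroup.closure_induction with
  | mem y hy =>
    obtain ⟨a, g, rfl⟩ := hy
    have e : h * (g⁻¹ * a • g) * h⁻¹ =
        ((g * h⁻¹)⁻¹ * a • (g * h⁻¹)) * ((h⁻¹)⁻¹ * a • h⁻¹)⁻¹ := by
      simp only [smul_mul', smul_inv', mul_inv_rev, inv_inv]
      group
    rw [e]
    exact (XX G A).mul_mem (gen_mem _ _) ((XX G A).inv_mem (gen_mem _ _))
  | one => simp
  | mul y z _ _ hy hz =>
    have e : h * (y * z) * h⁻¹ = (h * y * h⁻¹) * (h * z * h⁻¹) := by group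
    rw [e]; exact (XX G A).mul_mem hy hz
  | inv y _ hy =>
    have e : h * y⁻¹ * h⁻¹ = (h * y * h⁻¹)⁻¹ := by group
    rw [e]; exact (XX G A).inv_mem hy

theorem XX_smul (a : A) {x : G} (hx : x ∈ XX G A) : a • x ∈ XX G A := by
  induction hx using Subgroup.closure_induction with
  | mem y hy =>
    obtain ⟨b, g, rfl⟩ := hy
    have e : a • (g⁻¹ * b • g) = (g⁻¹ * a • g)⁻¹ * (g⁻¹ * (a * b) • g) := by
      simp only [smul_mul', smul_inv', mul_inv_rev, inv_inv, mul_smul]
      group
    rw [e]
    exact (XX G A).mul_mem ((XX G A).inv_mem (gen_mem _ _)) (gen_mem _ _)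
  | one => simp
  | mul y z _ _ hy hz => rw [smul_mul']; exact (XX G A).mul_mem hy hz
  | inv y _ hy => rw [smul_inv']; exact (XX G A).inv_mem hy

theorem smul_mem_commutator (a : A) {k : G} (hk : k ∈ commutator G) : a • k ∈ commutator G := by
  have h := (Subgroup.characteristic_iff_map_eq.1 (inferInstance : (commutator G).Characteristic))
    (MulDistribMulAction.toMulAut A G a)
  rw [← h]
  exact ⟨k, hk, rfl⟩

theorem XX_le_centralizer [Finite G] [IsZGroup G] :
    XX G A ≤ Subgroup.centralizer (commutator G : Set G) := by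
  haveI := IsZGroup.isCyclic_commutator G
  rw [XX, Subgroup.closure_le]
  rintro _ ⟨a, g, rfl⟩
  -- conjugation by `g` on the commutator subgroup is a power map
  obtain ⟨n, hn⟩ := MonoidHom.map_cyclic
    ((MulAut.conjNormal g : MulAut (commutator G)).toMonoidHom)
  have hn' : ∀ k ∈ commutator G, g * k * g⁻¹ = k ^ n := by
    intro k hk
    have := congrArg Subtype.val (hn ⟨k, hk⟩)
    simpa using this
  rw [SetLike.mem_coe, Subgroup.mem_centralizer_iff]
  intro k hk
  have hk' : a⁻¹ • k ∈ commutator G := smul_mem_commutator _ hk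
  have h1 : (a • g) * k * (a • g)⁻¹ = g * k * g⁻¹ := by
    have : (a • g) * k * (a • g)⁻¹ = a • (g * (a⁻¹ • k) * g⁻¹) := by
      simp [smul_mul', smul_inv']
    rw [this, hn' _ hk', hn' _ hk, smul_zpow', smul_inv_smul]
  have h2 : (a • g) * k = g * k * g⁻¹ * (a • g) := by
    rw [← h1]; group
  calc k * (g⁻¹ * a • g) = g⁻¹ * (g * k * g⁻¹ * (a • g)) := by group
    _ = g⁻¹ * ((a • g) * k) := by rw [h2]
    _ = g⁻¹ * a • g * k := by group

theorem centralizer_cyclic [Finite G] [IsZGroup G] :
    IsCyclic (Subgroup.centralizer (commutator G : Set G)) := by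
  set D := Subgroup.centralizer (commutator G : Set G) with hD
  have hc : IsMulCommutative D := by
    apply MonoidHom.isMulCommutative_of_isCyclic_of_ker_le_center
      ((Abelianization.of (G := G)).comp D.subtype)
    intro d hd
    rw [MonoidHom.mem_ker, MonoidHom.comp_apply] at hd
    have hd' : (d : G) ∈ commutator G := by
      have := (QuotientGroup.eq_one_iff (N := commutator G) (d : G)).1 hd
      exact this
    rw [Subgroup.mem_center_iff]
    intro e
    apply Subtype.ext
    have := (Subgroup.mem_centralizer_iff.1 e.2) d hd'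
    simpa using this.symm
  letI : CommGroup D := { (inferInstance : Group D) with mul_comm := hc.is_comm.comm }
  haveI : Group.IsNilpotent D := CommGroup.isNilpotent
  infer_instance

theorem XX_cyclic [Finite G] [IsZGroup G] : IsCyclic (XX G A) := by
  haveI := centralizer_cyclic (G := G)
  exact isCyclic_of_injective (Subgroup.inclusion (XX_le_centralizer (G := G) (A := A)))
    (Subgroup.inclusion_injective _)

end aux

section coc

theorem prod_act_eq_one {X A : Type*} [CommGroup X] [Group A] [Fintype A] (act : A → (X →* X))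
    (f : A → X) (hf : ∀ a b, f (a * b) = f a * act a (f b)) (b : A) :
    ∏ a, act a (f b) = 1 := by
  have h1 : ∀ a, act a (f b) = (f a)⁻¹ * f (a * b) := by
    intro a; rw [hf]; group
  simp only [h1]
  have h2 : ∏ x, f (x * b) = ∏ x, f x := Equiv.prod_comp (Equiv.mulRight b) f
  rw [Finset.prod_mul_distrib, Finset.prod_inv_distrib, h2, inv_mul_cancel]

theorem prod_eq_pow_mul {X A : Type*} [CommGroup X] [Group A] [Fintype A] (act : A → (X →* X))
    (f : A → X) (hf : ∀ a b, f (a * b) = f a * act a (f b)) (a : A) :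
    ∏ b, f b = (f a) ^ (Fintype.card A) * act a (∏ b, f b) := by
  have h2 : ∏ x, f (a * x) = ∏ x, f x := Equiv.prod_comp (Equiv.mulLeft a) f
  rw [map_prod]
  conv_lhs => rw [← h2]
  simp only [hf]
  rw [Finset.prod_mul_distrib, Finset.prod_const, Finset.card_univ]

variable {G A : Type*} [Group G] [Group A] [MulDistribMulAction A G]

/-- the action on `[G, A]` -/
def act (a : A) : XX G A →* XX G A :=
  ((MulDistribMulAction.toMonoidHom G a).comp (XX G A).subtype).codRestrict (XX G A)
    (fun x => XX_smul a x.2)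

theorem act_coe (a : A) (x : XX G A) : ((act a x : XX G A) : G) = a • (x : G) := rfl

/-- the cocycle -/
def ff (g : G) (a : A) : XX G A := ⟨g⁻¹ * a • g, gen_mem a g⟩

theorem ff_mul (g : G) (a b : A) : ff g (a * b) = ff g a * act a (ff g b) := by
  apply Subtype.ext
  simp only [ff, Subgroup.coe_mul, act_coe, smul_mul', smul_inv', mul_smul]
  group

theorem inter_fixed [Finite G] [Finite A] [IsZGroup G] (hcop : (Nat.card A).Coprime (Nat.card G))
    {x : G} (hx : x ∈ XX G A) (hfix : ∀ a : A, a • x = x) : x = 1 := by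
  cases nonempty_fintype A
  have hcy := XX_cyclic (G := G) (A := A)
  letI : CommGroup (XX G A) := IsCyclic.commGroup
  have key : ∀ (y : G) (hy : y ∈ XX G A), ∏ a : A, act a (⟨y, hy⟩ : XX G A) = 1 := by
    intro y hy
    induction hy using Subgroup.closure_induction with
    | mem y hy =>
      obtain ⟨b, g, rfl⟩ := hy
      exact prod_act_eq_one act (ff g) (ff_mul g) b
    | one =>
      have : (⟨1, (XX G A).one_mem⟩ : XX G A) = 1 := rfl
      simp [this]
    | mul y z hy hz h1 h2 =>
      have : (⟨y * z, (XX G A).mul_mem hy hz⟩ : XX G A) = ⟨y, hy⟩ * ⟨z, hz⟩ := rfl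
      simp only [this, map_mul]
      rw [Finset.prod_mul_distrib, h1, h2, one_mul]
    | inv y hy h1 =>
      have : (⟨y⁻¹, (XX G A).inv_mem hy⟩ : XX G A) = (⟨y, hy⟩ : XX G A)⁻¹ := rfl
      simp only [this, map_inv]
      rw [Finset.prod_inv_distrib, h1, inv_one]
  have h1 := key x hx
  have h2 : ∀ a : A, act a (⟨x, hx⟩ : XX G A) = ⟨x, hx⟩ := fun a => Subtype.ext (hfix a)
  simp only [h2, Finset.prod_const, Finset.card_univ] at h1
  have h3 : x ^ Fintype.card A = 1 := by
    have := congrArg Subtype.val h1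
    simpa using this
  have h4 : orderOf x ∣ Nat.card A := by
    rw [Nat.card_eq_fintype_card]; exact orderOf_dvd_of_pow_eq_one h3
  have h5 : orderOf x ∣ Nat.card G := orderOf_dvd_natCard x
  have h6 : orderOf x = 1 := Nat.eq_one_of_dvd_coprimes hcop h4 h5
  exact orderOf_eq_one_iff.1 h6

theorem exists_fixed [Finite G] [Finite A] [IsZGroup G] (hcop : (Nat.card A).Coprime (Nat.card G))
    (g : G) : ∃ w ∈ XX G A, ∀ a : A, a • (g * w) = g * w := by
  cases nonempty_fintype A
  have hcy := XX_cyclic (G := G) (A := A)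
  letI : CommGroup (XX G A) := IsCyclic.commGroup
  set y : XX G A := ∏ b, ff g b with hy
  have h1 : ∀ a, y = (ff g a) ^ (Fintype.card A) * act a y :=
    fun a => prod_eq_pow_mul act (ff g) (ff_mul g) a
  have hcop' : (Fintype.card A).Coprime (Nat.card (XX G A)) := by
    rw [← Nat.card_eq_fintype_card]
    exact Nat.Coprime.coprime_dvd_right (Subgroup.card_subgroup_dvd_card _) hcop
  -- Bezout
  set u : ℤ := Nat.gcdA (Fintype.card A) (Nat.card (XX G A)) with hu
  set v : ℤ := Nat.gcdB (Fintype.card A) (Nat.card (XX G A)) with hv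
  have hb : (1 : ℤ) = (Fintype.card A : ℤ) * u + (Nat.card (XX G A) : ℤ) * v := by
    have := Nat.gcd_eq_gcd_ab (Fintype.card A) (Nat.card (XX G A))
    rw [hcop'] at this
    exact_mod_cast this
  have hz : ∀ z : XX G A, (z ^ (Fintype.card A)) ^ u = z := by
    intro z
    have : z ^ (1 : ℤ) = z ^ ((Fintype.card A : ℤ) * u + (Nat.card (XX G A) : ℤ) * v) := by
      rw [← hb]
    rw [zpow_one, zpow_add, zpow_mul, zpow_mul, zpow_natCast, zpow_natCast, pow_card_eq_one',
      one_zpow, mul_one] at this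
    exact this.symm
  refine ⟨(y ^ u : XX G A), (y ^ u : XX G A).2, fun a => ?_⟩
  have h2 : y ^ u = ff g a * act a (y ^ u) := by
    conv_lhs => rw [h1 a]
    rw [mul_zpow, hz, map_zpow]
  have h3 : ((y ^ u : XX G A) : G) = g⁻¹ * a • g * a • ((y ^ u : XX G A) : G) := by
    have := congrArg Subtype.val h2
    simpa only [ff, act_coe, Subgroup.coe_mul] using this
  rw [smul_mul']
  conv_rhs => rw [h3]
  group

end coc

theorem mem_zpowers_of_orderOf_eq {P : Type*} [Group P] [Finite P] [IsCyclic P] {p : ℕ}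
    (hp : p.Prime) {a b : P} (ha : orderOf a = p) (hb : orderOf b = p) :
    b ∈ Subgroup.zpowers a := by
  letI : CommGroup P := IsCyclic.commGroup
  have h1 : Nat.card (powMonoidHom p : P →* P).ker = (Nat.card P).gcd p :=
    IsCyclic.card_powMonoidHom_ker P p
  have h2 : Subgroup.zpowers a ≤ (powMonoidHom p : P →* P).ker := by
    rw [Subgroup.zpowers_le, MonoidHom.mem_ker, powMonoidHom_apply, ← ha, pow_orderOf_eq_one]
  have h3 : Subgroup.zpowers a = (powMonoidHom p : P →* P).ker := by
    apply Subgroup.eq_of_le_of_card_ge h2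
    rw [h1, Nat.card_zpowers, ha]
    exact Nat.le_of_dvd hp.pos (Nat.gcd_dvd_right _ _)
  rw [h3, MonoidHom.mem_ker, powMonoidHom_apply, ← hb, pow_orderOf_eq_one]

/-- Let A be a finite group acting on the finite group G by automorphisms with the orders of A and G coprime, and suppose every Sylow subgroup of G is cyclic. Then the fixed-point subgroup C_G(A) is a Hall subgroup of G (its order is coprime to its index), the subgroup [G, A] generated by the elements g⁻¹·a(g) is cyclic and normal with [G, A] ∩ C_G(A) = 1 and [G, A]·C_G(A) = G. -/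
theorem result {G A : Type*} [Group G] [Finite G] [Group A] [Finite A]
    [MulDistribMulAction A G] (hcop : (Nat.card A).Coprime (Nat.card G))
    (hcyc : ∀ (p : ℕ) [Fact p.Prime] (P : Sylow p G), IsCyclic (P : Subgroup G)) :
    (Nat.card (MulAction.fixedPoints A G : Set G)).Coprime (Nat.card G / Nat.card (MulAction.fixedPoints A G : Set G)) ∧
    IsCyclic (Subgroup.closure {y : G | ∃ (a : A) (g : G), y = g⁻¹ * a • g}) ∧
    (Subgroup.closure {y : G | ∃ (a : A) (g : G), y = g⁻¹ * a • g}).Normal ∧
    (Subgroup.closure {y : G | ∃ (a : A) (g : G), y = g⁻¹ * a • g} : Set G) ∩ MulAction.fixedPoints A G = {1} ∧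
    Subgroup.closure {y : G | ∃ (a : A) (g : G), y = g⁻¹ * a • g} ⊔ Subgroup.closure (MulAction.fixedPoints A G) = ⊤ := by
  haveI : IsZGroup G := ⟨fun p hp P => by haveI := Fact.mk hp; exact hcyc p P⟩
  have hXdef : Subgroup.closure {y : G | ∃ (a : A) (g : G), y = g⁻¹ * a • g} = XX G A := rfl
  rw [hXdef]
  haveI hnorm : (XX G A).Normal := XX_normal
  set C : Subgroup G := FixedPoints.subgroup A G with hC
  have hCcoe : (C : Set G) = MulAction.fixedPoints A G := rfl
  have hmemC : ∀ x : G, x ∈ C ↔ ∀ a : A, a • x = x := fun x => Iff.rfl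
  have hcl : Subgroup.closure (MulAction.fixedPoints A G) = C := by
    rw [← hCcoe, Subgroup.closure_eq]
  have hdisj : ∀ x ∈ XX G A, x ∈ C → x = 1 := fun x hx hxC => inter_fixed hcop hx ((hmemC x).1 hxC)
  have hinter : (XX G A : Set G) ∩ MulAction.fixedPoints A G = {1} := by
    ext x
    constructor
    · rintro ⟨h1, h2⟩
      exact hdisj x h1 h2
    · rintro rfl
      exact ⟨(XX G A).one_mem, C.one_mem⟩
  have hsup : XX G A ⊔ C = ⊤ := by
    rw [eq_top_iff]
    intro g _
    obtain ⟨w, hw, hfix⟩ := exists_fixed (A := A) hcop g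
    have : g = w⁻¹ * (w * (g * w) * w⁻¹) := by group
    have h2 : g = (g * w) * w⁻¹ := by group
    rw [h2]
    exact Subgroup.mul_mem _ (Subgroup.mem_sup_right ((hmemC _).2 hfix))
      (Subgroup.mem_sup_left ((XX G A).inv_mem hw))
  have hcompl : (XX G A).IsComplement' C := by
    apply Subgroup.isComplement'_of_disjoint_and_mul_eq_univ
    · rw [Subgroup.disjoint_def]
      exact fun hx hxC => hdisj _ hx hxC
    · rw [← Subgroup.normal_mul, hsup]; rfl
  have hcard : Nat.card (XX G A) * Nat.card C = Nat.card G := hcompl.card_mul_card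
  have hCc : Nat.card (MulAction.fixedPoints A G : Set G) = Nat.card C := rfl
  refine ⟨?_, XX_cyclic, hnorm, hinter, by rw [hcl]; exact hsup⟩
  rw [hCc, ← hcard, Nat.mul_div_cancel _ Nat.card_pos]
  by_contra hnc
  obtain ⟨p, hp, h1, h2⟩ := Nat.Prime.not_coprime_iff_dvd.1 hnc
  haveI := Fact.mk hp
  obtain ⟨c, hc⟩ := exists_prime_orderOf_dvd_card' p h1
  obtain ⟨x, hx⟩ := exists_prime_orderOf_dvd_card' p h2
  have hc' : orderOf (c : G) = p := by rw [Subgroup.orderOf_coe]; exact hc
  have hx' : orderOf (x : G) = p := by rw [Subgroup.orderOf_coe]; exact hx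
  have pg : ∀ z : G, orderOf z = p → IsPGroup p (Subgroup.zpowers z) := by
    intro z hz
    apply IsPGroup.of_card (n := 1)
    rw [Nat.card_zpowers, hz, pow_one]
  obtain ⟨P, hP⟩ := (pg _ hc').exists_le_sylow
  obtain ⟨Q, hQ⟩ := (pg _ hx').exists_le_sylow
  obtain ⟨g, hg⟩ := MulAction.exists_smul_eq G Q P
  have hcP : (c : G) ∈ (P : Subgroup G) := hP (Subgroup.mem_zpowers _)
  have hxQ : (x : G) ∈ (Q : Subgroup G) := hQ (Subgroup.mem_zpowers _)
  have hxP : g * (x : G) * g⁻¹ ∈ (P : Subgroup G) := by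
    rw [← hg, Sylow.coe_subgroup_smul]
    have := Subgroup.smul_mem_pointwise_smul (x : G) (MulAut.conj g) (Q : Subgroup G) hxQ
    simpa using this
  have hxX : g * (x : G) * g⁻¹ ∈ XX G A := hnorm.conj_mem _ x.2 g
  have ho : orderOf (g * (x : G) * g⁻¹) = p := by
    rw [← hx']
    have := orderOf_injective (MulAut.conj g).toMonoidHom (MulAut.conj g).injective (x : G)
    simpa using this
  haveI : IsCyclic (P : Subgroup G) := hcyc p P
  have hmem := mem_zpowers_of_orderOf_eq (P := (P : Subgroup G)) hp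
    (a := ⟨g * (x : G) * g⁻¹, hxP⟩) (b := ⟨(c : G), hcP⟩)
    (by rw [← Subgroup.orderOf_coe]; exact ho) (by rw [← Subgroup.orderOf_coe]; exact hc')
  obtain ⟨k, hk⟩ := Subgroup.mem_zpowers_iff.1 hmem
  have hk' : (g * (x : G) * g⁻¹) ^ k = (c : G) := by
    have := congrArg Subtype.val hk
    simpa using this
  have hcX : (c : G) ∈ XX G A := by rw [← hk']; exact (XX G A).zpow_mem hxX k
  have := hdisj _ hcX c.2
  rw [this, orderOf_one] at hc'
  exact hp.one_lt.ne hc'

end Cfsg.Agent.S4117
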