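import Cfsg.Statements.S4142
import Cfsg.Agent.Lib.Helper22.Basic

set_option autoImplicit false
open Cfsg

namespace Cfsg.Agent.S4142

open Cfsg.Agent.Lib.Helper22

theorem aux {G : Type*} [Group G] [Finite G] (N : Subgroup G) [hn : N.Normal] (g : G) :
    (∀ n ∈ N, ∃ x : G, x * g * x⁻¹ = g * n) ↔
      Nat.card (Subgroup.centralizer ({g} : Set G)) =
        Nat.card (Subgroup.centralizer ({(QuotientGroup.mk g : G ⧸ N)} : Set (G ⧸ N))) := by
  set S : Set G := {y | IsConj g y} with hS
  set U : Set (G ⧸ N) := {z | IsConj (QuotientGroup.mk g : G ⧸ N) z} with hU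
  set T : Set G := QuotientGroup.mk ⁻¹' U with hT
  have hST : S ⊆ T := by
    intro y hy
    obtain ⟨x, hx⟩ := isConj_iff.mp hy
    show IsConj (QuotientGroup.mk g : G ⧸ N) (QuotientGroup.mk y)
    rw [← hx]
    exact isConj_iff.mpr ⟨QuotientGroup.mk x, by simp⟩
  have cS : Nat.card S * Nat.card (Subgroup.centralizer ({g} : Set G)) = Nat.card G := by
    have : Nat.card S = (Subgroup.centralizer ({g} : Set G)).index := (index_centralizer_eq_card_isConj g).symm
    rw [this]; exact Subgroup.index_mul_card _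
  have cU : Nat.card U * Nat.card (Subgroup.centralizer ({(QuotientGroup.mk g : G ⧸ N)} : Set (G ⧸ N))) = Nat.card (G ⧸ N) := by
    have : Nat.card U = (Subgroup.centralizer ({(QuotientGroup.mk g : G ⧸ N)} : Set (G ⧸ N))).index :=
      (index_centralizer_eq_card_isConj _).symm
    rw [this]; exact Subgroup.index_mul_card _
  have cT : Nat.card T = Nat.card N * Nat.card U := QuotientGroup.card_preimage_mk N U
  have cG : Nat.card G = Nat.card (G ⧸ N) * Nat.card N := Subgroup.card_eq_card_quotient_mul_card_subgroup N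
  have cT' : Nat.card T * Nat.card (Subgroup.centralizer ({(QuotientGroup.mk g : G ⧸ N)} : Set (G ⧸ N))) = Nat.card G := by
    rw [cT, cG, ← cU]; ring
  have hGpos : 0 < Nat.card G := Nat.card_pos
  have hSpos : 0 < Nat.card S := Nat.pos_of_ne_zero (by intro h; rw [h] at cS; omega)
  have hTpos : 0 < Nat.card T := Nat.pos_of_ne_zero (by intro h; rw [h] at cT'; omega)
  have step1 : (Nat.card (Subgroup.centralizer ({g} : Set G)) =
        Nat.card (Subgroup.centralizer ({(QuotientGroup.mk g : G ⧸ N)} : Set (G ⧸ N)))) ↔ S = T := by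
    constructor
    · intro h
      rw [← h, ← cS] at cT'
      have hcpos : 0 < Nat.card (Subgroup.centralizer ({g} : Set G)) := Nat.card_pos
      have h2 : Nat.card T = Nat.card S := Nat.eq_of_mul_eq_mul_right hcpos cT'
      exact Set.Finite.eq_of_subset_of_card_le (Set.toFinite T) hST h2.le
    · intro h
      rw [← h, ← cS] at cT'
      exact (Nat.eq_of_mul_eq_mul_left hSpos cT').symm
  rw [step1]
  constructor
  · intro h
    apply Set.Subset.antisymm hST
    intro y hy
    have hy' : IsConj (QuotientGroup.mk g : G ⧸ N) (QuotientGroup.mk y) := hy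
    obtain ⟨xb, hxb⟩ := isConj_iff.mp hy'
    obtain ⟨x, rfl⟩ := QuotientGroup.mk_surjective xb
    have h1 : (QuotientGroup.mk (x * g * x⁻¹) : G ⧸ N) = QuotientGroup.mk y := by
      rw [← hxb]; simp
    rw [QuotientGroup.eq] at h1
    -- (x g x⁻¹)⁻¹ * y ∈ N
    have h2 : x⁻¹ * ((x * g * x⁻¹)⁻¹ * y) * x⁻¹⁻¹ ∈ N := hn.conj_mem _ h1 _
    obtain ⟨z, hz⟩ := h _ h2
    show IsConj g y
    refine isConj_iff.mpr ⟨x * z, ?_⟩
    calc x * z * g * (x * z)⁻¹ = x * (z * g * z⁻¹) * x⁻¹ := by group
      _ = x * (g * (x⁻¹ * ((x * g * x⁻¹)⁻¹ * y) * x⁻¹⁻¹)) * x⁻¹ := by rw [hz]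
      _ = y := by group
  · intro h n hn'
    have : g * n ∈ T := by
      show IsConj (QuotientGroup.mk g : G ⧸ N) (QuotientGroup.mk (g * n))
      have : (QuotientGroup.mk (g * n) : G ⧸ N) = QuotientGroup.mk g := by
        rw [eq_comm, QuotientGroup.eq]; simpa using hn'
      rw [this]
    rw [← h] at this
    exact isConj_iff.mp this

/-- Let G be a finite group and N a normal subgroup. Then the conjugacy class of every element g outside N is a union of cosets of N (gn is conjugate to g for all n ∈ N) if and only if for every g outside N the centralizer of g in G has the same order as the centralizer of gN in G/N. -/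
theorem result {G : Type*} [Group G] [Finite G] (N : Subgroup G) [N.Normal] :
    (∀ g : G, g ∉ N → ∀ n ∈ N, ∃ x : G, x * g * x⁻¹ = g * n) ↔
      ∀ g : G, g ∉ N → Nat.card (Subgroup.centralizer ({g} : Set G)) =
        Nat.card (Subgroup.centralizer ({(QuotientGroup.mk g : G ⧸ N)} : Set (G ⧸ N))) := by
  constructor
  · intro h g hg
    exact (aux N g).mp (h g hg)
  · intro h g hg
    exact (aux N g).mpr (h g hg)

end Cfsg.Agent.S4142
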