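import Cfsg.Statements.S4153
import Cfsg.Agent.Lib.Helper17.Basic
import Cfsg.Agent.Lib.Helper29.PSolvable2

set_option autoImplicit false
open Cfsg

namespace Cfsg.Agent.S4153

open Cfsg.Agent.Lib.Helper17

/-- the elements of `p`-power order -/
abbrev PE (p : ℕ) (X : Type*) [Group X] := {g : X // ∃ k : ℕ, orderOf g = p ^ k}

/-- the map induced on `p`-elements by the quotient map -/
def fmap {G : Type*} [Group G] (p : ℕ) [hp : Fact p.Prime] (N : Subgroup G) [N.Normal] :
    PE p G → PE p (G ⧸ N) := fun g => ⟨(g.1 : G ⧸ N), by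
  obtain ⟨k, hk⟩ := g.2
  have h1 : orderOf ((g.1 : G ⧸ N)) ∣ p ^ k := hk ▸ orderOf_map_dvd (QuotientGroup.mk' N) g.1
  obtain ⟨j, _, hj⟩ := (Nat.dvd_prime_pow hp.out).mp h1
  exact ⟨j, hj⟩⟩

theorem card_inf {G : Type*} [Group G] [Finite G] {p : ℕ} [Fact p.Prime] (N : Subgroup G) [N.Normal]
    (Q P : Sylow p G) (Pbar : Sylow p (G ⧸ N)) :
    Nat.card ↥((Q : Subgroup G) ⊓ N) * Nat.card (Pbar : Subgroup (G ⧸ N))
      = Nat.card (P : Subgroup G) := by
  have h1 : Nat.card (Pbar : Subgroup (G ⧸ N))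
      = Nat.card ((Q : Subgroup G).map (QuotientGroup.mk' N)) := by
    have := (Q.mapSurjective (QuotientGroup.mk'_surjective N)).card_eq_multiplicity
    rw [Pbar.card_eq_multiplicity]; exact this.symm
  have h2 : Nat.card ((Q : Subgroup G).map (QuotientGroup.mk' N)) = N.relIndex Q :=
    Cfsg.Agent.Lib.Helper29.card_map_mk' N Q
  have h3 : Nat.card (Q : Subgroup G) = Nat.card (P : Subgroup G) := by
    rw [Q.card_eq_multiplicity, P.card_eq_multiplicity]
  have h4 := Subgroup.relIndex_mul_relIndex ⊥ ((Q : Subgroup G) ⊓ N) Q bot_le inf_le_left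
  rw [Subgroup.relIndex_bot_left, Subgroup.relIndex_bot_left, Subgroup.inf_relIndex_left] at h4
  rw [h1, h2, h4, h3]

theorem fiber {G : Type*} [Group G] [Finite G] {p : ℕ} [Fact p.Prime] (N : Subgroup G) [N.Normal]
    (ybar : PE p (G ⧸ N)) :
    ∃ (Q : Sylow p G) (φ : ↥((Q : Subgroup G) ⊓ N) → {x : PE p G // fmap p N x = ybar}),
      Function.Injective φ ∧ (N ≤ Subgroup.center G → Function.Surjective φ) := by
  obtain ⟨k, hk⟩ := ybar.2
  have hpg : IsPGroup p (Subgroup.zpowers ybar.1) :=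
    IsPGroup.of_card (n := k) (by rw [Nat.card_zpowers, hk])
  obtain ⟨Qb, hQb⟩ := hpg.exists_le_sylow
  obtain ⟨Q, hQ⟩ := Sylow.mapSurjective_surjective (QuotientGroup.mk'_surjective N) p Qb
  have hy : ybar.1 ∈ (Q : Subgroup G).map (QuotientGroup.mk' N) := by
    have h1 : ybar.1 ∈ (Qb : Subgroup (G ⧸ N)) := hQb (Subgroup.mem_zpowers _)
    rw [← hQ] at h1; exact h1
  obtain ⟨y, hyQ, hyy⟩ := hy
  have hpe : ∀ x ∈ (Q : Subgroup G), ∃ k, orderOf x = p ^ k := by
    intro x hx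
    obtain ⟨k, hk⟩ := (IsPGroup.iff_orderOf.mp Q.2) ⟨x, hx⟩
    exact ⟨k, by rw [← hk, Subgroup.orderOf_mk]⟩
  refine ⟨Q, fun n => ⟨⟨y * n, hpe _ ((Q : Subgroup G).mul_mem hyQ (Subgroup.mem_inf.mp n.2).1)⟩, ?_⟩,
    ?_, ?_⟩
  · apply Subtype.ext
    show ((y * (n : G) : G) : G ⧸ N) = ybar.1
    rw [QuotientGroup.mk_mul, (QuotientGroup.eq_one_iff _).mpr (Subgroup.mem_inf.mp n.2).2, mul_one]
    exact hyy
  · intro a b hab
    have h1 := congrArg (fun t : {x : PE p G // fmap p N x = ybar} => (t.1.1 : G)) hab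
    exact Subtype.ext (mul_left_cancel h1)
  · rintro hc ⟨⟨x, hx⟩, hxy⟩
    have hxy' : (x : G ⧸ N) = ybar.1 := congrArg Subtype.val hxy
    have hn : y⁻¹ * x ∈ N := by
      rw [← QuotientGroup.eq]; exact hyy.trans hxy'.symm
    have hcn := Subgroup.mem_center_iff.mp (hc hn)
    have hnQ : y⁻¹ * x ∈ (Q : Subgroup G) := by
      obtain ⟨a, ha⟩ := hpe y hyQ
      obtain ⟨b, hb⟩ := hx
      have hcomm : Commute y (y⁻¹ * x) := hcn y
      have hx2 : x = y * (y⁻¹ * x) := by group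
      have h1 : x ^ (p ^ (a + b)) = 1 := by
        rw [pow_add, mul_comm, pow_mul, ← hb, pow_orderOf_eq_one, one_pow]
      have h2 : y ^ (p ^ (a + b)) = 1 := by
        rw [pow_add, pow_mul, ← ha, pow_orderOf_eq_one, one_pow]
      have h3 : (y⁻¹ * x) ^ (p ^ (a + b)) = 1 := by
        have h4 : (y * (y⁻¹ * x)) ^ (p ^ (a + b)) = 1 := by rw [← hx2]; exact h1
        rw [hcomm.mul_pow, h2, one_mul] at h4
        exact h4
      apply mem_sylow_of_pElement_normalizer Q h3
      rw [Subgroup.mem_normalizer_iff]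
      intro h
      have h5 : y⁻¹ * x * h * (y⁻¹ * x)⁻¹ = h := by
        rw [← hcn h]; group
      rw [h5]
    refine ⟨⟨y⁻¹ * x, Subgroup.mem_inf.mpr ⟨hnQ, hn⟩⟩, ?_⟩
    apply Subtype.ext
    apply Subtype.ext
    show y * (y⁻¹ * x) = x
    group

/-- Let G be a finite group, p a prime, N a normal subgroup, P a Sylow p-subgroup of G and P̄ a Sylow p-subgroup of G/N. Count the elements of p-power order, the identity included. Then (number of such elements of G/N)/#P̄ ≤ (number of such elements of G)/#P, stated as a cross-multiplied inequality, with equality when N is central. -/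
theorem result {G : Type*} [Group G] [Finite G] (p : ℕ) [Fact p.Prime] (N : Subgroup G) [N.Normal]
    (P : Sylow p G) (Pbar : Sylow p (G ⧸ N)) :
    Nat.card {g : (G ⧸ N) // ∃ k : ℕ, orderOf g = p ^ k} * Nat.card (P : Subgroup G) ≤ Nat.card {g : G // ∃ k : ℕ, orderOf g = p ^ k} * Nat.card (Pbar : Subgroup (G ⧸ N)) ∧
    (N ≤ Subgroup.center G → Nat.card {g : (G ⧸ N) // ∃ k : ℕ, orderOf g = p ^ k} * Nat.card (P : Subgroup G) = Nat.card {g : G // ∃ k : ℕ, orderOf g = p ^ k} * Nat.card (Pbar : Subgroup (G ⧸ N))) := by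
  classical
  haveI : Fintype (PE p (G ⧸ N)) := Fintype.ofFinite _
  have hsum : Nat.card (PE p G)
      = ∑ yb : PE p (G ⧸ N), Nat.card {x : PE p G // fmap p N x = yb} := by
    rw [← Nat.card_sigma]
    exact Nat.card_congr (Equiv.sigmaFiberEquiv (fmap p N)).symm
  obtain ⟨m, hmdef⟩ : ∃ m, m = Nat.card ↥((P : Subgroup G) ⊓ N) := ⟨_, rfl⟩
  have hm : m * Nat.card (Pbar : Subgroup (G ⧸ N)) = Nat.card (P : Subgroup G) := by
    rw [hmdef]; exact card_inf N P P Pbar
  have hQm : ∀ Q : Sylow p G, Nat.card ↥((Q : Subgroup G) ⊓ N) = m := by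
    intro Q
    exact Nat.eq_of_mul_eq_mul_right (Nat.card_pos) ((card_inf N Q P Pbar).trans hm.symm)
  constructor
  · have hle : Nat.card (PE p (G ⧸ N)) * m ≤ Nat.card (PE p G) := by
      rw [hsum, Nat.card_eq_fintype_card, ← Finset.card_univ, ← smul_eq_mul]
      apply Finset.card_nsmul_le_sum
      intro yb _
      obtain ⟨Q, φ, hinj, _⟩ := fiber N yb
      rw [← hQm Q]; exact Nat.card_le_card_of_injective φ hinj
    calc Nat.card (PE p (G ⧸ N)) * Nat.card (P : Subgroup G)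
        = Nat.card (PE p (G ⧸ N)) * m * Nat.card (Pbar : Subgroup (G ⧸ N)) := by rw [← hm]; ring
      _ ≤ _ := Nat.mul_le_mul_right _ hle
  · intro hc
    have heq : Nat.card (PE p (G ⧸ N)) * m = Nat.card (PE p G) := by
      have h1 : ∀ yb : PE p (G ⧸ N), Nat.card {x : PE p G // fmap p N x = yb} = m := by
        intro yb
        obtain ⟨Q, φ, hinj, hsurj⟩ := fiber N yb
        rw [← hQm Q]
        exact (Nat.card_eq_of_bijective φ ⟨hinj, hsurj hc⟩).symm
      rw [hsum]
      simp only [h1, Finset.sum_const, Finset.card_univ, smul_eq_mul, Nat.card_eq_fintype_card]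
    calc Nat.card (PE p (G ⧸ N)) * Nat.card (P : Subgroup G)
        = Nat.card (PE p (G ⧸ N)) * m * Nat.card (Pbar : Subgroup (G ⧸ N)) := by rw [← hm]; ring
      _ = _ := by rw [heq]

end Cfsg.Agent.S4153
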