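import Cfsg.Statements.S4154

set_option autoImplicit false
open Cfsg

namespace Cfsg.Agent.S4154

/-- the subgroup of elements whose coset mod `N` is fixed by `α`. -/
def fixMod {G : Type*} [Group G] (α : MulAut G) (N : Subgroup G) [hn : N.Normal] : Subgroup G where
  carrier := {x | x⁻¹ * α x ∈ N}
  one_mem' := by simp
  mul_mem' := by
    intro x y hx hy
    have hx' : x⁻¹ * α x ∈ N := hx
    have hy' : y⁻¹ * α y ∈ N := hy
    show (x * y)⁻¹ * α (x * y) ∈ N
    have h1 : y⁻¹ * (x⁻¹ * α x) * y⁻¹⁻¹ ∈ N := hn.conj_mem _ hx' _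
    have h2 := N.mul_mem h1 hy'
    have : (x * y)⁻¹ * α (x * y) = y⁻¹ * (x⁻¹ * α x) * y⁻¹⁻¹ * (y⁻¹ * α y) := by
      rw [map_mul]; group
    rw [this]; exact h2
  inv_mem' := by
    intro x hx
    have hx' : x⁻¹ * α x ∈ N := hx
    show x⁻¹⁻¹ * α x⁻¹ ∈ N
    have h1 : x * (x⁻¹ * α x) * x⁻¹ ∈ N := hn.conj_mem _ hx' _
    have h2 := N.inv_mem h1
    have : x⁻¹⁻¹ * α x⁻¹ = (x * (x⁻¹ * α x) * x⁻¹)⁻¹ := by
      rw [map_inv]; group
    rw [this]; exact h2

/-- the fixed-point subgroup -/
def fixSub {G : Type*} [Group G] (α : MulAut G) : Subgroup G where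
  carrier := {x | α x = x}
  one_mem' := by simp
  mul_mem' := by
    intro x y hx hy
    have hx' : α x = x := hx
    have hy' : α y = y := hy
    show α (x * y) = x * y
    rw [map_mul, hx', hy']
  inv_mem' := by
    intro x hx
    have hx' : α x = x := hx
    show α x⁻¹ = x⁻¹
    rw [map_inv, hx']

/-- Let G be a finite group and α an automorphism of G such that every element of G is the product of an element fixed by α and an element of the form g⁻¹α(g). If N is a normal α-invariant subgroup, then the automorphism ᾱ induced on G/N has the same property, and every coset fixed by ᾱ contains an element fixed by α (so the fixed points of ᾱ are the images of the fixed points of α). -/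
theorem result {G : Type*} [Group G] [Finite G] (α : MulAut G)
    (hccp : ∀ x : G, ∃ c g : G, α c = c ∧ x = c * (g⁻¹ * α g))
    (N : Subgroup G) [N.Normal] (hN : ∀ n ∈ N, α n ∈ N) :
    (∀ x : G, ∃ c g : G, c⁻¹ * α c ∈ N ∧ x⁻¹ * (c * (g⁻¹ * α g)) ∈ N) ∧
    (∀ x : G, x⁻¹ * α x ∈ N → ∃ c : G, α c = c ∧ c⁻¹ * x ∈ N) := by
  have hn : N.Normal := inferInstance
  constructor
  · intro x
    obtain ⟨c, g, hc, hx⟩ := hccp x
    refine ⟨c, g, by rw [hc]; simp, by rw [← hx]; simp⟩
  · set D := fixMod α N with hD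
    set C := fixSub α with hC
    have hle : C ⊔ N ≤ D := by
      apply sup_le
      · intro c hc
        have hc' : α c = c := hc
        show c⁻¹ * α c ∈ N
        rw [hc']; simp
      · intro n hn'
        show n⁻¹ * α n ∈ N
        exact N.mul_mem (N.inv_mem hn') (hN n hn')
    obtain ⟨S, hS, -⟩ := D.exists_isComplement_right 1
    have hcard := hS.card_mul_card
    let F : (↥(C ⊔ N)) × S → G := fun u => (u.1 : G) * ((u.2 : G)⁻¹ * α (u.2 : G))
    have hF : Function.Surjective F := by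
      intro x
      obtain ⟨c, g, hc, hx⟩ := hccp x
      obtain ⟨⟨⟨d, hd⟩, s⟩, hds⟩ := hS.surjective g
      have hds' : d * (s : G) = g := hds
      have hd' : d⁻¹ * α d ∈ N := hd
      have h1 : (s : G)⁻¹ * (d⁻¹ * α d) * (s : G)⁻¹⁻¹ ∈ N := hn.conj_mem _ hd' _
      refine ⟨⟨⟨c * ((s : G)⁻¹ * (d⁻¹ * α d) * (s : G)⁻¹⁻¹), ?_⟩, s⟩, ?_⟩
      · exact (C ⊔ N).mul_mem (Subgroup.mem_sup_left hc) (Subgroup.mem_sup_right h1)
      · show c * ((s : G)⁻¹ * (d⁻¹ * α d) * (s : G)⁻¹⁻¹) * ((s : G)⁻¹ * α (s : G)) = x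
        rw [hx, ← hds', map_mul]; group
    have h2 : Nat.card G ≤ Nat.card (↥(C ⊔ N)) * Nat.card S := by
      rw [← Nat.card_prod]
      exact Nat.card_le_card_of_surjective F hF
    have hSpos : 0 < Nat.card S := by
      rcases Nat.eq_zero_or_pos (Nat.card S) with h | h
      · rw [h, mul_zero] at hcard
        exact absurd hcard.symm (Nat.card_pos).ne'
      · exact h
    have h3 : Nat.card D ≤ Nat.card (↥(C ⊔ N)) := by
      rw [← hcard] at h2
      exact Nat.le_of_mul_le_mul_right h2 hSpos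
    have heq : C ⊔ N = D := Subgroup.eq_of_le_of_card_ge hle h3
    intro x hx
    have hxD : x ∈ C ⊔ N := by rw [heq]; exact hx
    rw [Subgroup.mem_sup_of_normal_right] at hxD
    obtain ⟨c, hc, n, hn', hcn⟩ := hxD
    exact ⟨c, hc, by rw [← hcn]; simpa using hn'⟩

end Cfsg.Agent.S4154
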