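import Cfsg.Statements.S4155
import Cfsg.Agent.Lib.Helper22.FpfPGroup
import Cfsg.Agent.Lib.Helper4.NilpFusion
import Cfsg.Agent.Lib.Helper20.Primary

set_option autoImplicit false
open Cfsg

namespace Cfsg.Agent.S4155

open Subgroup

variable {G : Type*} [Group G]

theorem exists_prime_ne {m : ℕ} (hm : m ≠ 0) (h1 : m ≠ 1) (hnpp : ¬ IsPrimePow m) (q : ℕ) (hq : q.Prime) :
    ∃ r : ℕ, r.Prime ∧ r ≠ q ∧ r ∣ m := by
  by_contra hcon
  push Not at hcon
  apply hnpp
  have h2 : m = q ^ m.primeFactorsList.length := by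
    apply Nat.eq_prime_pow_of_unique_prime_dvd hm
    intro d hd hdm
    by_contra hne
    exact hcon d hd hne hdm
  rw [h2]
  refine IsPrimePow.pow hq.isPrimePow ?_
  intro h0
  rw [h0, pow_zero] at h2
  exact h1 h2

theorem key [Finite G] {N : Subgroup G}
    (heq : ∀ x : G, x ∉ N → ∀ n ∈ N, orderOf (x * n) = orderOf x) {x n : G} (hx : x ∉ N) (hn : n ∈ N)
    (hc : x * n = n * x) (hcop : (orderOf x).Coprime (orderOf n)) : n = 1 := by
  have h1 := heq x hx n hn
  rw [(show Commute x n from hc).orderOf_mul_eq_mul_orderOf_of_coprime hcop] at h1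
  have h2 : 0 < orderOf x := orderOf_pos x
  have h3 : orderOf n = 1 := by
    have : orderOf x * orderOf n = orderOf x * 1 := by rw [h1, mul_one]
    exact Nat.eq_of_mul_eq_mul_left h2 this
  exact orderOf_eq_one_iff.1 h3

/-- the `q'`-part of the centre of `N` -/
def W (N : Subgroup G) (q : ℕ) : Subgroup G where
  carrier := {z | z ∈ N ∧ (∀ n ∈ N, n * z = z * n) ∧ (orderOf z).Coprime q}
  one_mem' := ⟨one_mem _, by simp, by simp⟩
  mul_mem' := by
    rintro a b ⟨ha, ha2, ha3⟩ ⟨hb, hb2, hb3⟩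
    refine ⟨mul_mem ha hb, ?_, ?_⟩
    · intro n hn
      rw [← mul_assoc, ha2 n hn, mul_assoc, hb2 n hn, mul_assoc]
    · have hab : Commute a b := hb2 a ha
      exact Nat.Coprime.coprime_dvd_left hab.orderOf_mul_dvd_mul_orderOf (Nat.Coprime.mul_left ha3 hb3)
  inv_mem' := by
    rintro a ⟨ha, ha2, ha3⟩
    refine ⟨inv_mem ha, ?_, by rwa [orderOf_inv]⟩
    intro n hn
    have := ha2 n hn
    calc n * a⁻¹ = a⁻¹ * (a * n) * a⁻¹ := by group
      _ = a⁻¹ * (n * a) * a⁻¹ := by rw [this]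
      _ = a⁻¹ * n := by group

theorem W_normal (N : Subgroup G) [hN : N.Normal] (q : ℕ) : (W N q).Normal := by
  constructor
  rintro z ⟨hz, hz2, hz3⟩ g
  refine ⟨hN.conj_mem z hz g, ?_, ?_⟩
  · intro n hn
    have h1 := hz2 (g⁻¹ * n * g) (by simpa using hN.conj_mem n hn g⁻¹)
    calc n * (g * z * g⁻¹) = g * ((g⁻¹ * n * g) * z) * g⁻¹ := by group
      _ = g * (z * (g⁻¹ * n * g)) * g⁻¹ := by rw [h1]
      _ = g * z * g⁻¹ * n := by group
  · have : orderOf (g * z * g⁻¹) = orderOf z := by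
      have := (MulAut.conj g).orderOf_eq z
      simpa using this
    rwa [this]

theorem orderOf_eq_pow_of_mem {X : Type*} [Group X] {p : ℕ} [hp : Fact p.Prime] {R : Subgroup X}
    (hR : IsPGroup p R) {x : X} (hx : x ∈ R) : ∃ k : ℕ, orderOf x = p ^ k := by
  obtain ⟨k, hk⟩ := hR ⟨x, hx⟩
  have h1 : x ^ p ^ k = 1 := by
    have := congrArg Subtype.val hk
    rwa [Subgroup.coe_pow] at this
  obtain ⟨j, _, hj⟩ := (Nat.dvd_prime_pow hp.out).1 (orderOf_dvd_of_pow_eq_one h1)
  exact ⟨j, hj⟩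

theorem W_ne_bot [Finite G] (N : Subgroup G) (hnil : Group.IsNilpotent N) {q r : ℕ} (hq : q.Prime)
    (hr : r.Prime) (hrq : r ≠ q) (hrN : r ∣ Nat.card N) : ∃ w ∈ W N q, w ≠ 1 := by
  have := Fact.mk hr
  let R : Sylow r N := default
  have q2 := (Group.isNilpotent_of_finite_tfae (G := N)).out 0 3
  have hRn : (R : Subgroup N).Normal := q2.mp hnil r inferInstance R
  have hRne : (R : Subgroup N) ≠ ⊥ := R.ne_bot_of_dvd_card hrN
  obtain ⟨x, hxR, hxZ, hx1⟩ := Cfsg.Agent.Lib.Helper20.normal_inf_center_ne_bot (R : Subgroup N) hRne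
  refine ⟨(x : G), ⟨x.2, ?_, ?_⟩, ?_⟩
  · intro n hn
    have := (mem_center_iff.1 hxZ) ⟨n, hn⟩
    exact congrArg Subtype.val this
  · obtain ⟨k, hk⟩ := orderOf_eq_pow_of_mem R.2 hxR
    rw [Subgroup.orderOf_coe, hk]
    exact Nat.Coprime.pow_left k ((Nat.coprime_primes hr hq).2 hrq)
  · intro h
    exact hx1 (Subtype.ext h)

/-- Let G be a finite group and N a proper non-trivial normal nilpotent subgroup whose order is not a prime power, such that for every x outside N all elements of the coset xN have the same order as x. Then N is the Fitting subgroup of G, and for every prime q every Sylow q-subgroup of G/N is cyclic or generalized quaternion. -/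
theorem result {G : Type*} [Group G] [Finite G] (N : Subgroup G) [N.Normal] (hN1 : N ≠ ⊥) (hN2 : N ≠ ⊤)
    (heq : ∀ x : G, x ∉ N → ∀ n ∈ N, orderOf (x * n) = orderOf x)
    (hnil : Group.IsNilpotent N) (hnpp : ¬ IsPrimePow (Nat.card N)) :
    N = Cfsg.fittingSubgroup G ∧
    ∀ (q : ℕ) [Fact q.Prime] (Q : Sylow q (G ⧸ N)), IsCyclic (Q : Subgroup (G ⧸ N)) ∨ ∃ n : ℕ, Nonempty ((Q : Subgroup (G ⧸ N)) ≃* QuaternionGroup (2 ^ n)) := by
  have hcard1 : Nat.card N ≠ 1 := fun h => hN1 ((Subgroup.card_eq_one).1 h)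
  constructor
  · apply le_antisymm (Cfsg.Agent.Lib.Helper20.le_fitting inferInstance hnil)
    intro g hg
    apply Cfsg.Agent.Lib.Helper20.mem_of_primary_mem
    rintro p x hp hx ⟨k, hk⟩
    by_contra hxN
    obtain ⟨r, hr, hrp, hrN⟩ := exists_prime_ne Nat.card_pos.ne' hcard1 hnpp p hp
    have := Fact.mk hr
    obtain ⟨⟨n, hn⟩, hno⟩ := exists_prime_orderOf_dvd_card' r hrN
    rw [Subgroup.orderOf_mk] at hno
    have hxF : x ∈ Cfsg.fittingSubgroup G := (zpowers_le.2 hg) hx
    have hnF : n ∈ Cfsg.fittingSubgroup G :=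
      Cfsg.Agent.Lib.Helper20.le_fitting inferInstance hnil hn
    have hcop : (orderOf x).Coprime (orderOf n) := by
      rw [hk, hno]
      exact Nat.Coprime.pow_left k ((Nat.coprime_primes hp hr).2 hrp.symm)
    have hc : x * n = n * x := Cfsg.Agent.Lib.Helper4.commute_of_coprime_pow_mem
      Cfsg.Agent.Lib.Helper20.fitting_isNilpotent hxF hnF hcop (pow_orderOf_eq_one x)
      (pow_orderOf_eq_one n)
    have h1 := key heq hxN hn hc hcop
    rw [h1, orderOf_one] at hno
    exact hr.one_lt.ne hno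
  · intro q _ Q
    have hq : q.Prime := Fact.out
    obtain ⟨r, hr, hrq, hrN⟩ := exists_prime_ne Nat.card_pos.ne' hcard1 hnpp q hq
    obtain ⟨w0, hw0, hw01⟩ := W_ne_bot N hnil hq hr hrq hrN
    have hWn : (W N q).Normal := W_normal N q
    have : Nontrivial (W N q) := ⟨⟨⟨w0, hw0⟩, 1, fun h => hw01 (congrArg Subtype.val h)⟩⟩
    let φ : G →* MulAut (W N q) := MulAut.conjNormal
    have hker : ∀ n ∈ N, φ n = 1 := by
      intro n hn
      ext w
      show ((MulAut.conjNormal n w : W N q) : G) = w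
      rw [MulAut.conjNormal_apply, w.2.2.1 n hn, mul_inv_cancel_right]
    let ψ : G ⧸ N →* MulAut (W N q) := QuotientGroup.lift N φ hker
    apply Cfsg.Agent.Lib.Helper22.cyclic_or_quaternion_of_fpf (ψ.comp (Q : Subgroup (G ⧸ N)).subtype)
      ?_ q Q.2
    rintro ⟨h, hhQ⟩ hh1 w hw
    obtain ⟨g, rfl⟩ := QuotientGroup.mk_surjective h
    have hgN : g ∉ N := by
      intro hgN
      apply hh1
      ext1
      exact (QuotientGroup.eq_one_iff g).2 hgN
    have hgw : g * (w : G) = w * g := by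
      have h1 : ((MulAut.conjNormal g w : W N q) : G) = w := congrArg Subtype.val hw
      rw [MulAut.conjNormal_apply] at h1
      calc g * (w : G) = g * w * g⁻¹ * g := by group
        _ = w * g := by rw [h1]
    -- a primary part of g outside N
    have hex : ∃ (p : ℕ) (x : G), p.Prime ∧ x ∈ zpowers g ∧ (∃ k : ℕ, orderOf x = p ^ k) ∧ x ∉ N := by
      by_contra hcon
      push Not at hcon
      exact hgN (Cfsg.Agent.Lib.Helper20.mem_of_primary_mem N g
        (fun p x hp hx hk => hcon p x hp hx hk))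
    obtain ⟨p, x, hp, hx, ⟨k, hk⟩, hxN⟩ := hex
    have hpq : p = q := by
      have hxQ : (QuotientGroup.mk x : G ⧸ N) ∈ (Q : Subgroup (G ⧸ N)) := by
        obtain ⟨j, rfl⟩ := mem_zpowers_iff.1 hx
        rw [QuotientGroup.mk_zpow]
        exact zpow_mem hhQ j
      obtain ⟨j, hj⟩ := orderOf_eq_pow_of_mem Q.2 hxQ
      have h1 : orderOf (QuotientGroup.mk x : G ⧸ N) ∣ p ^ k := by
        rw [← hk]
        exact orderOf_map_dvd (QuotientGroup.mk' N) x
      have hj0 : j ≠ 0 := by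
        rintro rfl
        rw [pow_zero, orderOf_eq_one_iff, QuotientGroup.eq_one_iff] at hj
        exact hxN hj
      rw [hj] at h1
      have h2 : q ∣ p ^ k := (dvd_pow_self q hj0).trans h1
      exact ((Nat.prime_dvd_prime_iff_eq hq hp).1 (hq.dvd_of_dvd_pow h2)).symm
    subst hpq
    have hxw : x * (w : G) = w * x := by
      obtain ⟨j, rfl⟩ := mem_zpowers_iff.1 hx
      exact ((show Commute g (w : G) from hgw).zpow_left j).eq
    have h1 := key heq hxN w.2.1 hxw (by
      rw [hk]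
      exact (Nat.Coprime.pow_right k w.2.2.2).symm)
    exact Subtype.ext h1

end Cfsg.Agent.S4155
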