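import Cfsg.Statements.S4156
import Mathlib

set_option autoImplicit false
open Cfsg

namespace Cfsg.Agent.S4156

section
variable {n : ℕ} {F : Type*} [Field F]

def Lp (σ : Equiv.Perm (Fin (n + 1))) : (Fin (n + 1) → F) →ₗ[F] (Fin (n + 1) → F) :=
  LinearMap.funLeft F F (σ⁻¹ : Equiv.Perm (Fin (n + 1)))

theorem Lp_apply (σ : Equiv.Perm (Fin (n + 1))) (v : Fin (n + 1) → F) (x : Fin (n + 1)) :
    Lp σ v x = v (σ⁻¹ x) := rfl

def P : (Fin (n + 1) → F) →ₗ[F] (Fin n → F) where
  toFun v := fun k => v k.castSucc - v (Fin.last n)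
  map_add' v w := by
    funext k
    simp only [Pi.add_apply]; ring
  map_smul' c v := by
    funext k
    simp only [Pi.smul_apply, smul_eq_mul, RingHom.id_apply]; ring

theorem P_apply (v : Fin (n + 1) → F) (k : Fin n) : P v k = v k.castSucc - v (Fin.last n) := rfl

def S : (Fin n → F) →ₗ[F] (Fin (n + 1) → F) where
  toFun w := Fin.snoc (α := fun _ => F) w 0
  map_add' v w := by
    funext x
    refine Fin.lastCases ?_ (fun k => ?_) x
    · simp
    · simp
  map_smul' c v := by
    funext x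
    refine Fin.lastCases ?_ (fun k => ?_) x
    · simp
    · simp

theorem S_last (w : Fin n → F) : S w (Fin.last n) = 0 := by
  show Fin.snoc (α := fun _ => F) w 0 (Fin.last n) = 0
  simp

theorem S_cast (w : Fin n → F) (k : Fin n) : S w k.castSucc = w k := by
  show Fin.snoc (α := fun _ => F) w 0 k.castSucc = w k
  simp

theorem SP (v : Fin (n + 1) → F) : S (P v) = v - v (Fin.last n) • (1 : Fin (n + 1) → F) := by
  funext x
  refine Fin.lastCases ?_ (fun k => ?_) x
  · rw [S_last]; simp
  · rw [S_cast, P_apply]; simp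

theorem PS (w : Fin n → F) : P (S w) = w := by
  funext k
  rw [P_apply, S_cast, S_last, sub_zero]

theorem P_one : P (1 : Fin (n + 1) → F) = 0 := by
  funext k
  rw [P_apply]; simp

theorem Lp_one' (σ : Equiv.Perm (Fin (n + 1))) : Lp σ (1 : Fin (n + 1) → F) = 1 := rfl

theorem Lp_mul (σ τ : Equiv.Perm (Fin (n + 1))) (v : Fin (n + 1) → F) : Lp (σ * τ) v = Lp σ (Lp τ v) := by
  funext x
  rw [Lp_apply, Lp_apply, Lp_apply, mul_inv_rev]; rfl

theorem Lp_id (v : Fin (n + 1) → F) : Lp 1 v = v := by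
  funext x
  rw [Lp_apply]; simp

theorem PLSP (σ : Equiv.Perm (Fin (n + 1))) (v : Fin (n + 1) → F) : P (Lp σ (S (P v))) = P (Lp σ v) := by
  rw [SP, map_sub, map_smul, Lp_one', map_sub, map_smul, P_one, smul_zero, sub_zero]

def rhoHom : Equiv.Perm (Fin (n + 1)) →* Module.End F (Fin n → F) where
  toFun σ := P ∘ₗ Lp σ ∘ₗ S
  map_one' := by
    apply LinearMap.ext
    intro w
    show P (Lp 1 (S w)) = w
    rw [Lp_id, PS]
  map_mul' σ τ := by
    apply LinearMap.ext
    intro w
    show P (Lp (σ * τ) (S w)) = P (Lp σ (S (P (Lp τ (S w)))))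
    rw [PLSP, Lp_mul]

theorem rhoHom_apply (σ : Equiv.Perm (Fin (n + 1))) (w : Fin n → F) : rhoHom σ w = P (Lp σ (S w)) := rfl

noncomputable def matHom : Equiv.Perm (Fin (n + 1)) →* Matrix (Fin n) (Fin n) F :=
  (LinearMap.toMatrixAlgEquiv' (R := F) (n := Fin n)).toMulEquiv.toMonoidHom.comp rhoHom

theorem matHom_apply (σ : Equiv.Perm (Fin (n + 1))) (i j : Fin n) :
    (matHom σ : Matrix (Fin n) (Fin n) F) i j = P (Lp σ (S (Pi.single j 1))) i := by
  show LinearMap.toMatrixAlgEquiv' (rhoHom σ) i j = _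
  rw [LinearMap.toMatrixAlgEquiv'_apply]; rfl

theorem det_one (hn : 5 ≤ n) (g : alternatingGroup (Fin (n + 1))) :
    (matHom g.1 : Matrix (Fin n) (Fin n) F).det = 1 := by
  let d : alternatingGroup (Fin (n + 1)) →* F :=
    Matrix.detMonoidHom.comp (matHom.comp (alternatingGroup (Fin (n + 1))).subtype)
  have h1 := Abelianization.commutator_subset_ker d.toHomUnits
  rw [commutator_alternatingGroup_eq_top (by simp; omega)] at h1
  have h2 : d.toHomUnits g = 1 := h1 (Subgroup.mem_top g)
  have h3 := congrArg Units.val h2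
  exact h3

noncomputable def slHom (hn : 5 ≤ n) : alternatingGroup (Fin (n + 1)) →* Matrix.SpecialLinearGroup (Fin n) F where
  toFun g := ⟨matHom g.1, det_one hn g⟩
  map_one' := by
    apply Subtype.ext
    show matHom (1 : Equiv.Perm (Fin (n + 1))) = 1
    exact map_one _
  map_mul' a b := by
    apply Subtype.ext
    show matHom (a.1 * b.1) = matHom a.1 * matHom b.1
    exact map_mul _ _ _

theorem slHom_val (hn : 5 ≤ n) (g : alternatingGroup (Fin (n + 1))) :
    ((slHom hn g : Matrix.SpecialLinearGroup (Fin n) F) : Matrix (Fin n) (Fin n) F) = matHom g.1 := rfl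

end


/-- Let n ≥ 5 and F a finite field. Then the projective special linear group PSL_n(F) contains a subgroup isomorphic to the alternating group of degree n + 1. -/
theorem result (n : ℕ) (hn : 5 ≤ n) (F : Type*) [Field F] [Finite F] :
    ∃ f : alternatingGroup (Fin (n + 1)) →* Matrix.ProjectiveSpecialLinearGroup (Fin n) F, Function.Injective f := by
  haveI : IsSimpleGroup (alternatingGroup (Fin (n + 1))) := alternatingGroup.isSimpleGroup (by simp; omega)
  let f : alternatingGroup (Fin (n + 1)) →* Matrix.ProjectiveSpecialLinearGroup (Fin n) F :=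
    (QuotientGroup.mk' (Subgroup.center (Matrix.SpecialLinearGroup (Fin n) F))).comp (slHom hn)
  refine ⟨f, ?_⟩
  rw [← MonoidHom.ker_eq_bot_iff]
  rcases (MonoidHom.normal_ker f).eq_bot_or_eq_top with h | h
  · exact h
  · exfalso
    let i0 : Fin n := ⟨0, by omega⟩
    let i1 : Fin n := ⟨1, by omega⟩
    let i2 : Fin n := ⟨2, by omega⟩
    have h01 : i0.castSucc ≠ i1.castSucc := by simp [i0, i1, Fin.ext_iff]
    have h02 : i0.castSucc ≠ i2.castSucc := by simp [i0, i2, Fin.ext_iff]
    have h12 : i1.castSucc ≠ i2.castSucc := by simp [i1, i2, Fin.ext_iff]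
    have h12' : i1 ≠ i2 := by simp [i1, i2, Fin.ext_iff]
    let σ : Equiv.Perm (Fin (n + 1)) := Equiv.swap i0.castSucc i1.castSucc * Equiv.swap i0.castSucc i2.castSucc
    have hσ : σ.IsThreeCycle := Equiv.Perm.isThreeCycle_swap_mul_swap_same h01 h02 h12
    let g : alternatingGroup (Fin (n + 1)) := ⟨σ, hσ.mem_alternatingGroup⟩
    have hg : g ∈ f.ker := by rw [h]; exact Subgroup.mem_top g
    have hg2 : slHom hn g ∈ Subgroup.center (Matrix.SpecialLinearGroup (Fin n) F) := by
      have : f g = 1 := hg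
      exact (QuotientGroup.eq_one_iff _).1 this
    obtain ⟨r, -, hr⟩ := Matrix.SpecialLinearGroup.mem_center_iff.1 hg2
    have h3 := congrFun (congrFun hr i1) i2
    rw [slHom_val, matHom_apply, P_apply, Lp_apply, Lp_apply] at h3
    have e1 : σ⁻¹ i1.castSucc = i2.castSucc := by
      rw [Equiv.Perm.inv_eq_iff_eq]
      show i1.castSucc = Equiv.swap i0.castSucc i1.castSucc (Equiv.swap i0.castSucc i2.castSucc i2.castSucc)
      rw [Equiv.swap_apply_right, Equiv.swap_apply_left]
    have e2 : σ⁻¹ (Fin.last n) = Fin.last n := by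
      rw [Equiv.Perm.inv_eq_iff_eq]
      show Fin.last n = Equiv.swap i0.castSucc i1.castSucc (Equiv.swap i0.castSucc i2.castSucc (Fin.last n))
      rw [Equiv.swap_apply_of_ne_of_ne (Fin.castSucc_ne_last _).symm (Fin.castSucc_ne_last _).symm,
        Equiv.swap_apply_of_ne_of_ne (Fin.castSucc_ne_last _).symm (Fin.castSucc_ne_last _).symm]
    have e1' : (g.1)⁻¹ i1.castSucc = i2.castSucc := e1
    have e2' : (g.1)⁻¹ (Fin.last n) = Fin.last n := e2
    rw [e1', e2', S_cast, S_last] at h3
    simp [Matrix.scalar_apply, h12'] at h3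

end Cfsg.Agent.S4156
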