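import Mathlib
import Cfsg.Statements.S4163
import Cfsg.Agent.Lib.Helper22.Basic

set_option autoImplicit false
open Cfsg

namespace Cfsg.Agent.S4163

open Cfsg.Agent.Lib.Helper22 Subgroup
open scoped Pointwise

/-- Mann–Isaacs lemma: if `x` lies in a noncentral class of minimal size and `K` is an abelian normal
subgroup, then `[K, x]` is central. -/
theorem key {G : Type*} [Group G] [Finite G] (K : Subgroup G) [hKn : K.Normal]
    (hK : IsMulCommutative K) (m : ℕ)
    (hmin : ∀ y : G, 1 < (centralizer ({y} : Set G)).index → m ≤ (centralizer ({y} : Set G)).index)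
    (x : G) (hx : (centralizer ({x} : Set G)).index = m) (k₀ : G) (hk₀ : k₀ ∈ K) :
    x⁻¹ * k₀ * x * k₀⁻¹ ∈ center G := by
  classical
  set w := x⁻¹ * k₀ * x * k₀⁻¹ with hw
  by_cases hw1 : w = 1
  · rw [hw1]; exact one_mem _
  have hcomm : ∀ a ∈ K, ∀ b ∈ K, a * b = b * a := fun a ha b hb =>
    congrArg Subtype.val (hK.is_comm.comm ⟨a, ha⟩ ⟨b, hb⟩)
  set C := centralizer ({x} : Set G) with hC
  set L := K ⊔ C with hL
  have hwform : ∀ k ∈ K, x⁻¹ * k * x * k⁻¹ ∈ K := by
    intro k hk
    have := hKn.conj_mem k hk x⁻¹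
    rw [inv_inv] at this
    exact K.mul_mem this (K.inv_mem hk)
  have hwK : w ∈ K := hwform k₀ hk₀
  have hKL : K ≤ L := le_sup_left
  have hCL : C ≤ L := le_sup_right
  have hxC : x ∈ C := by rw [hC, mem_centralizer_singleton_iff]
  let x' : L := ⟨x, hCL hxC⟩
  let w' : L := ⟨w, hKL hwK⟩
  have claim : ∀ y : L, IsConj w' y → IsConj x' (x' * y) ∧ y ≠ 1 := by
    intro y hy
    rw [isConj_iff] at hy
    obtain ⟨l, hl⟩ := hy
    have hlmem : (l : G) ∈ ((K ⊔ C : Subgroup G) : Set G) := l.2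
    rw [Subgroup.normal_mul] at hlmem
    obtain ⟨k, hk, c, hc, hkc⟩ := Set.mem_mul.1 hlmem
    have hc' : c * x = x * c := by
      rw [SetLike.mem_coe, hC, mem_centralizer_singleton_iff] at hc
      exact hc
    have hc'' : c * x⁻¹ = x⁻¹ * c := by
      calc c * x⁻¹ = x⁻¹ * (x * c) * x⁻¹ := by group
        _ = x⁻¹ * (c * x) * x⁻¹ := by rw [hc']
        _ = x⁻¹ * c := by group
    set k₁ := c * k₀ * c⁻¹ with hk₁
    have hk₁K : k₁ ∈ K := hKn.conj_mem k₀ hk₀ c
    have hcw : c * w * c⁻¹ = x⁻¹ * k₁ * x * k₁⁻¹ := by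
      calc c * w * c⁻¹ = (c * x⁻¹) * k₀ * x * k₀⁻¹ * c⁻¹ := by rw [hw]; group
        _ = x⁻¹ * c * k₀ * x * k₀⁻¹ * c⁻¹ := by rw [hc'']
        _ = x⁻¹ * (c * k₀ * c⁻¹) * (c * x) * k₀⁻¹ * c⁻¹ := by group
        _ = x⁻¹ * (c * k₀ * c⁻¹) * (x * c) * k₀⁻¹ * c⁻¹ := by rw [hc']
        _ = x⁻¹ * k₁ * x * k₁⁻¹ := by rw [hk₁]; group
    have hy' : (y : G) = x⁻¹ * k₁ * x * k₁⁻¹ := by
      have h1 : (y : G) = (l : G) * w * (l : G)⁻¹ := by
        rw [← hl]; rfl
      rw [h1, ← hkc]
      have h2 : k * c * w * (k * c)⁻¹ = k * (c * w * c⁻¹) * k⁻¹ := by group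
      rw [h2, hcw, hcomm k hk _ (hwform k₁ hk₁K)]
      group
    constructor
    · rw [isConj_iff]
      refine ⟨⟨k₁, hKL hk₁K⟩, ?_⟩
      apply Subtype.ext
      change k₁ * x * k₁⁻¹ = x * (y : G)
      rw [hy']; group
    · intro hy1
      apply hw1
      have h3 : w' = 1 := by
        rw [hy1] at hl
        have : w' = l⁻¹ * (l * w' * l⁻¹) * l := by group
        rw [this, hl]; group
      exact congrArg Subtype.val h3
  have hst : Nat.card {y : L // IsConj w' y} < Nat.card {z : L // IsConj x' z} := by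
    have : Fintype {y : L // IsConj w' y} := Fintype.ofFinite _
    have : Fintype {z : L // IsConj x' z} := Fintype.ofFinite _
    rw [Nat.card_eq_fintype_card, Nat.card_eq_fintype_card]
    refine Fintype.card_lt_of_injective_of_notMem
      (fun y : {y : L // IsConj w' y} => (⟨x' * y.1, (claim y.1 y.2).1⟩ : {z : L // IsConj x' z}))
      ?_ (b := ⟨x', IsConj.refl x'⟩) ?_
    · intro a b hab
      have := congrArg Subtype.val hab
      exact Subtype.ext (mul_left_cancel this)
    · rintro ⟨y, hy⟩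
      have := congrArg Subtype.val hy
      exact (claim y.1 y.2).2 (mul_eq_left.1 this)
  have hrel : ∀ (z : G) (hz : z ∈ L), (centralizer ({z} : Set G)).relIndex L =
      Nat.card {y : L // IsConj (⟨z, hz⟩ : L) y} := by
    intro z hz
    rw [← index_centralizer_eq_card_isConj, relIndex]
    congr 1
    ext g
    rw [mem_subgroupOf, mem_centralizer_singleton_iff, mem_centralizer_singleton_iff,
      Subtype.ext_iff]
    rfl
  have hLpos : 0 < L.index := Nat.pos_of_ne_zero index_ne_zero_of_finite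
  have hm : m = Nat.card {z : L // IsConj x' z} * L.index := by
    rw [← hx, ← hrel x (hCL hxC), relIndex_mul_index hCL]
  have hwle : (centralizer ({w} : Set G)).index ≤ Nat.card {y : L // IsConj w' y} * L.index := by
    rw [← hrel w (hKL hwK), ← inf_relIndex_right, relIndex_mul_index inf_le_right]
    exact Nat.le_of_dvd (Nat.pos_of_ne_zero index_ne_zero_of_finite) (index_dvd_of_le inf_le_left)
  have hlt : (centralizer ({w} : Set G)).index < m := by
    rw [hm]
    exact lt_of_le_of_lt hwle (Nat.mul_lt_mul_of_pos_right hst hLpos)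
  have h1 : (centralizer ({w} : Set G)).index = 1 := by
    by_contra hne
    have hpos : 0 < (centralizer ({w} : Set G)).index :=
      Nat.pos_of_ne_zero index_ne_zero_of_finite
    have := hmin w (by omega)
    omega
  rw [index_eq_one, centralizer_eq_top_iff_subset] at h1
  exact h1 (Set.mem_singleton w)

open scoped commutatorElement in
/-- General form: `M` generated by a set of elements `x` with `[A, x]` central. -/
theorem class_three {G : Type*} [Group G] (A : Subgroup G) [hAn : A.Normal]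
    (hCA : centralizer (A : Set G) = A) (S : Set G)
    (hS : ∀ x ∈ S, ∀ a ∈ A, x⁻¹ * a * x * a⁻¹ ∈ center G) :
    Subgroup.upperCentralSeries ↥(closure S) 3 = ⊤ := by
  have hP : ∀ g ∈ closure S, ∀ a ∈ A, g⁻¹ * a * g * a⁻¹ ∈ center G := by
    intro g hg
    induction hg using closure_induction with
    | mem x hx => exact hS x hx
    | one => intro a _; simp
    | mul g h _ _ ihg ihh =>
      intro a ha
      have hz := ihg a ha
      have h1 : (g * h)⁻¹ * a * (g * h) * a⁻¹ =
          h⁻¹ * (g⁻¹ * a * g * a⁻¹) * h * (h⁻¹ * a * h * a⁻¹) := by group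
      rw [h1]
      have h2 : h⁻¹ * (g⁻¹ * a * g * a⁻¹) * h = g⁻¹ * a * g * a⁻¹ := by
        rw [mul_assoc, ← (mem_center_iff.1 hz h)]; group
      rw [h2]
      exact mul_mem hz (ihh a ha)
    | inv g _ ih =>
      intro a ha
      have := ih (g * a * g⁻¹) (hAn.conj_mem a ha g)
      have h1 : g⁻¹⁻¹ * a * g⁻¹ * a⁻¹ = (g⁻¹ * (g * a * g⁻¹) * g * (g * a * g⁻¹)⁻¹)⁻¹ := by group
      rw [h1]
      exact inv_mem this
  have hcomm : ∀ g ∈ closure S, ∀ h ∈ closure S, g * h * g⁻¹ * h⁻¹ ∈ A := by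
    intro g hg h hh
    rw [← hCA, mem_centralizer_iff]
    intro a ha
    have hzg := hP g hg a ha
    have hzh := hP h hh a ha
    -- both orders of conjugation agree
    have e1 : (g * h)⁻¹ * a * (g * h) = (g⁻¹ * a * g * a⁻¹) * (h⁻¹ * a * h * a⁻¹) * a := by
      have h2 : h⁻¹ * (g⁻¹ * a * g * a⁻¹) * h = g⁻¹ * a * g * a⁻¹ := by
        rw [mul_assoc, ← (mem_center_iff.1 hzg h)]; group
      calc (g * h)⁻¹ * a * (g * h) = h⁻¹ * (g⁻¹ * a * g * a⁻¹) * h * (h⁻¹ * a * h * a⁻¹) * a := by
            group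
        _ = _ := by rw [h2]
    have e2 : (h * g)⁻¹ * a * (h * g) = (h⁻¹ * a * h * a⁻¹) * (g⁻¹ * a * g * a⁻¹) * a := by
      have h2 : g⁻¹ * (h⁻¹ * a * h * a⁻¹) * g = h⁻¹ * a * h * a⁻¹ := by
        rw [mul_assoc, ← (mem_center_iff.1 hzh g)]; group
      calc (h * g)⁻¹ * a * (h * g) = g⁻¹ * (h⁻¹ * a * h * a⁻¹) * g * (g⁻¹ * a * g * a⁻¹) * a := by
            group
        _ = _ := by rw [h2]
    have e3 : (g * h)⁻¹ * a * (g * h) = (h * g)⁻¹ * a * (h * g) := by
      rw [e1, e2, (mem_center_iff.1 hzg _)]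
    calc a * (g * h * g⁻¹ * h⁻¹) = (g * h) * ((g * h)⁻¹ * a * (g * h)) * (h * g)⁻¹ := by group
      _ = (g * h) * ((h * g)⁻¹ * a * (h * g)) * (h * g)⁻¹ := by rw [e3]
      _ = g * h * g⁻¹ * h⁻¹ * a := by group
  let H : ℕ → Subgroup ↥(closure S) := fun n =>
    match n with
    | 0 => ⊥
    | 1 => (center G).subgroupOf (closure S)
    | 2 => A.subgroupOf (closure S)
    | _ + 3 => ⊤
  have hH : Subgroup.IsAscendingCentralSeries H := by
    refine ⟨rfl, ?_⟩
    intro x n hx g
    match n with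
    | 0 =>
      change ⁅x, g⁆ ∈ (⊥ : Subgroup ↥(closure S))
      have hx' : (x : G) ∈ center G := hx
      rw [mem_bot, commutatorElement_def]
      apply Subtype.ext
      change (x : G) * g * (x : G)⁻¹ * (g : G)⁻¹ = 1
      rw [← (mem_center_iff.1 hx' g)]; group
    | 1 =>
      change ⁅x, g⁆ ∈ (center G).subgroupOf (closure S)
      have hx' : (x : G) ∈ A := hx
      rw [mem_subgroupOf, commutatorElement_def]
      change (x : G) * g * (x : G)⁻¹ * (g : G)⁻¹ ∈ center G
      have := hP (g : G)⁻¹ (inv_mem g.2) x hx'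
      have h1 : (x : G) * g * (x : G)⁻¹ * (g : G)⁻¹ = ((g : G)⁻¹⁻¹ * x * (g : G)⁻¹ * (x : G)⁻¹)⁻¹ := by
        group
      rw [h1]
      exact inv_mem this
    | 2 =>
      change ⁅x, g⁆ ∈ A.subgroupOf (closure S)
      rw [mem_subgroupOf, commutatorElement_def]
      exact hcomm x x.2 g g.2
    | _ + 3 => exact mem_top _
  rw [eq_top_iff]
  exact Subgroup.ascending_central_series_le_upper H hH 3

/-- Let G be a finite group with a normal abelian subgroup A satisfying C_G(A) = A. Suppose some conjugacy class of G has size greater than 1, let m be the smallest such size, and let M be the subgroup generated by the elements whose class has size 1 or m. Then M is nilpotent of class at most 3. -/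
theorem result {G : Type*} [Group G] [Finite G]
    (A : Subgroup G) [A.Normal] (hA : IsMulCommutative A) (hCA : Subgroup.centralizer (A : Set G) = A)
    (m : ℕ) (hm1 : 1 < m) (hm : ∃ x : G, (Subgroup.centralizer ({x} : Set G)).index = m) (hmin : ∀ x : G, 1 < (Subgroup.centralizer ({x} : Set G)).index → m ≤ (Subgroup.centralizer ({x} : Set G)).index) :
    Subgroup.upperCentralSeries ↥(Subgroup.closure {x : G | (Subgroup.centralizer ({x} : Set G)).index = 1 ∨ (Subgroup.centralizer ({x} : Set G)).index = m}) 3 = ⊤ := by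
  apply class_three A hCA
  rintro x (hx | hx) a ha
  · rw [index_eq_one, centralizer_eq_top_iff_subset] at hx
    have hx' : x ∈ center G := hx (Set.mem_singleton x)
    have : x⁻¹ * a * x * a⁻¹ = 1 := by
      rw [mul_assoc x⁻¹, (mem_center_iff.1 hx' a)]; group
    rw [this]; exact one_mem _
  · exact key A hA m hmin x hx a ha

end Cfsg.Agent.S4163
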