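import Mathlib
import Cfsg.Statements.S4169
import Cfsg.Agent.S4163
import Cfsg.Agent.Lib.Helper20.MaxAbelian

set_option autoImplicit false
open Cfsg

namespace Cfsg.Agent.S4169

open Subgroup in
theorem aux {P : Type*} [Group P] [Finite P] {p : ℕ} [Fact p.Prime] (hP : IsPGroup p P)
    (m : ℕ) (h : ∀ x : P, (Subgroup.centralizer ({x} : Set P)).index = 1 ∨ (Subgroup.centralizer ({x} : Set P)).index = m) :
    Subgroup.upperCentralSeries P 3 = ⊤ := by
  have hnil : Group.IsNilpotent P := hP.isNilpotent
  obtain ⟨A, hAn, hAc, -, hCA⟩ :=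
    Cfsg.Agent.Lib.Helper20.exists_normal_abelian_self_centralizing (⊥ : Subgroup P) inferInstance
      inferInstance
  have hmin : ∀ y : P, 1 < (centralizer ({y} : Set P)).index → m ≤ (centralizer ({y} : Set P)).index := by
    intro y hy
    rcases h y with h1 | h1
    · omega
    · omega
  have h3 := Cfsg.Agent.S4163.class_three A hCA Set.univ (by
    intro x _ a ha
    rcases h x with hx | hx
    · rw [index_eq_one, centralizer_eq_top_iff_subset] at hx
      have hx' : x ∈ center P := hx (Set.mem_singleton x)
      have : x⁻¹ * a * x * a⁻¹ = 1 := by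
        rw [mul_assoc x⁻¹, (mem_center_iff.1 hx' a)]; group
      rw [this]; exact one_mem _
    · exact Cfsg.Agent.S4163.key A hAc m hmin x hx a ha)
  let e : ↥(closure (Set.univ : Set P)) ≃* P :=
    (MulEquiv.subgroupCongr (closure_univ)).trans topEquiv
  have h4 := Subgroup.comap_upperCentralSeries e 3
  rw [h3] at h4
  rw [eq_top_iff]
  intro x _
  obtain ⟨y, rfl⟩ := e.surjective x
  have : y ∈ (Subgroup.upperCentralSeries P 3).comap (e : ↥(closure (Set.univ : Set P)) →* P) := by
    rw [h4]; trivial
  exact this

/-- Let P be a finite p-group whose conjugacy classes have exactly two sizes (1 and one other value). Then P has nilpotency class at most 3. -/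
theorem result {P : Type*} [Group P] [Finite P] {p : ℕ} [Fact p.Prime] (hP : IsPGroup p P)
    (m : ℕ) (hm : 1 < m) (h : ∀ x : P, (Subgroup.centralizer ({x} : Set P)).index = 1 ∨ (Subgroup.centralizer ({x} : Set P)).index = m) :
    upperCentralSeries P 3 = ⊤ := by
  exact aux hP m h

end Cfsg.Agent.S4169
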