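import Mathlib
import Cfsg.Prelude.Def_Local
import Cfsg.Agent.Lib.Helper22.OrbitSpan
import Cfsg.Agent.Lib.Helper20.PSolvable
import Cfsg.Agent.Lib.Helper29.PSolvable

set_option autoImplicit false

namespace Cfsg.Agent.S4176

open Cfsg.Agent.Lib.Helper22

theorem key {k V H : Type*} [Field k] (p : ℕ) [Fact p.Prime] [CharP k p] [AddCommGroup V] [Module k V]
    [Group H] [Finite H] (hsol : Cfsg.IsPSolvable p H) (ρ : Representation k H V) (a : V)
    (hfix : ∃ P : Sylow p H, ∀ x : H, x ∈ (P : Subgroup H) → ρ x a = a)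
    (hspan : Submodule.span k {u : V | ∃ h : H, ρ h a = u} = ⊤)
    (B : Subgroup H) (htr : ∀ h : H, ∃ x ∈ B, ρ x a = ρ h a) (v : V) (hv : ∀ x ∈ B, ρ x v = v) :
    v ∈ Submodule.span k {orbSum ρ a} := by
  have hp : p.Prime := Fact.out
  let _ : MulAction H V := MulAction.compHom V ρ
  have hsm : ∀ (h : H) (v : V), h • v = ρ h v := fun _ _ => rfl
  obtain ⟨P, hP⟩ := hfix
  -- the orbit has size prime to `p`
  have hO : ¬ p ∣ Nat.card (MulAction.orbit H a) := by
    have h1 : (MulAction.stabilizer H a).index = Nat.card (MulAction.orbit H a) := by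
      rw [MulAction.index_stabilizer]; rfl
    rw [← h1]
    intro h2
    have h3 : (P : Subgroup H) ≤ MulAction.stabilizer H a := fun x hx =>
      MulAction.mem_stabilizer_iff.2 (hP x hx)
    exact P.not_dvd_index (h2.trans (Subgroup.index_dvd_of_le h3))
  have hOB : MulAction.orbit B a = MulAction.orbit H a := by
    ext u
    constructor
    · rintro ⟨x, rfl⟩
      exact ⟨x, rfl⟩
    · rintro ⟨h, rfl⟩
      obtain ⟨x, hx, hxa⟩ := htr h
      exact ⟨⟨x, hx⟩, hxa⟩
  have hBsol : Cfsg.IsPSolvable p B := Cfsg.Agent.Lib.Helper29.psol_subgroup hsol B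
  obtain ⟨m, e, hme, hm⟩ := Cfsg.Agent.Lib.Helper20.exists_card_eq_mul_pow (G := B) p
  obtain ⟨⟨K, hK⟩, -⟩ := Cfsg.Agent.Lib.Helper20.hallPP_all p _ B hBsol rfl m (p ^ e) hme hm ⟨e, rfl⟩
  have hKi : K.index = p ^ e := Cfsg.Agent.Lib.Helper20.index_eq_of_card_eq hme hK
  have hKtr : ∀ x : B, ∃ y ∈ K, y • a = x • a := by
    intro x
    apply exists_smul_eq_of_coprime K a
    rw [hKi, hOB]
    exact Nat.Coprime.pow_left _ ((Nat.Prime.coprime_iff_not_dvd hp).2 hO)
  apply mem_span_orbSum ρ a hspan (K.map B.subtype)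
  · rw [Subgroup.card_map_of_injective B.subtype_injective, hK]
    intro h0
    rw [CharP.cast_eq_zero_iff k p] at h0
    exact hp.one_lt.ne' (Nat.eq_one_of_dvd_coprimes hm h0 dvd_rfl)
  · intro h
    obtain ⟨x, hx, hxa⟩ := htr h
    obtain ⟨y, hy, hya⟩ := hKtr ⟨x, hx⟩
    refine ⟨y, Subgroup.mem_map_of_mem _ hy, ?_⟩
    rw [← hxa]
    exact hya
  · rintro _ ⟨y, -, rfl⟩
    exact hv y y.2

/-- Let k be a field of prime characteristic p, H a finite p-soluble group and ρ a k-linear representation of H on V. Let a be a vector that is fixed by some Sylow p-subgroup of H and whose H-orbit spans V. Then the space of H-fixed vectors has dimension at most 1, and every vector b whose H-orbit has size coprime to the size of the orbit of a is fixed by H. -/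
theorem result {k V H : Type*} [Field k] (p : ℕ) [Fact p.Prime] [CharP k p] [AddCommGroup V] [Module k V]
    [Group H] [Finite H] (hsol : Cfsg.IsPSolvable p H) (ρ : Representation k H V) (a : V)
    (hfix : ∃ P : Sylow p H, ∀ x : H, x ∈ (P : Subgroup H) → ρ x a = a)
    (hspan : Submodule.span k {u : V | ∃ h : H, ρ h a = u} = ⊤) :
    Module.finrank k ρ.invariants ≤ 1 ∧
    ∀ b : V, (Nat.card {u : V | ∃ h : H, ρ h a = u}).Coprime (Nat.card {u : V | ∃ h : H, ρ h b = u}) → ∀ h : H, ρ h b = b := by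
  constructor
  · apply finrank_invariants_le_one ρ a
    intro v hv
    exact key p hsol ρ a hfix hspan ⊤ (fun h => ⟨h, trivial, rfl⟩) v (fun x _ => hv x)
  · intro b hcop
    let _ : MulAction H V := MulAction.compHom V ρ
    have hsm : ∀ (h : H) (v : V), h • v = ρ h v := fun _ _ => rfl
    apply fixed_of_mem_span_orbSum ρ a
    apply key p hsol ρ a hfix hspan (MulAction.stabilizer H b)
    · intro h
      have h1 : (MulAction.stabilizer H b).index = Nat.card {u : V | ∃ h : H, ρ h b = u} := by
        rw [MulAction.index_stabilizer]; rfl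
      obtain ⟨y, hy, hya⟩ := exists_smul_eq_of_coprime (MulAction.stabilizer H b) a
        (by rw [h1]; exact hcop.symm) h
      exact ⟨y, hy, hya⟩
    · intro x hx
      exact MulAction.mem_stabilizer_iff.1 hx

end Cfsg.Agent.S4176
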