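import Mathlib
import Cfsg.Agent.Lib.Helper22.OrbitSpan

set_option autoImplicit false

namespace Cfsg.Agent.S4177

open Cfsg.Agent.Lib.Helper22

/-- Let k be a field whose characteristic does not divide the order of the finite group H (for instance a field of characteristic zero), and ρ a k-linear representation of H on V. Let a be a vector whose H-orbit spans V. Then the space of H-fixed vectors has dimension at most 1, and every vector b whose H-orbit has size coprime to the size of the orbit of a is fixed by H. -/
theorem result {k V H : Type*} [Field k] [AddCommGroup V] [Module k V] [Group H] [Finite H]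
    (hchar : ¬ ringChar k ∣ Nat.card H) (ρ : Representation k H V) (a : V)
    (hspan : Submodule.span k {u : V | ∃ h : H, ρ h a = u} = ⊤) :
    Module.finrank k ρ.invariants ≤ 1 ∧
    ∀ b : V, (Nat.card {u : V | ∃ h : H, ρ h a = u}).Coprime (Nat.card {u : V | ∃ h : H, ρ h b = u}) → ∀ h : H, ρ h b = b := by
  have hcard : ∀ B : Subgroup H, (Nat.card B : k) ≠ 0 := by
    intro B hB
    rw [ringChar.spec] at hB
    exact hchar (hB.trans (Subgroup.card_subgroup_dvd_card B))
  constructor
  · apply finrank_invariants_le_one ρ a
    intro v hv
    exact mem_span_orbSum ρ a hspan ⊤ (hcard ⊤) (fun h => ⟨h, trivial, rfl⟩) v (fun x _ => hv x)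
  · intro b hcop
    let _ : MulAction H V := MulAction.compHom V ρ
    have hsm : ∀ (h : H) (v : V), h • v = ρ h v := fun _ _ => rfl
    apply fixed_of_mem_span_orbSum ρ a
    apply mem_span_orbSum ρ a hspan (MulAction.stabilizer H b) (hcard _)
    · intro h
      have h1 : (MulAction.stabilizer H b).index = Nat.card {u : V | ∃ h : H, ρ h b = u} := by
        rw [MulAction.index_stabilizer]; rfl
      obtain ⟨y, hy, hya⟩ := exists_smul_eq_of_coprime (MulAction.stabilizer H b) a
        (by rw [h1]; exact hcop.symm) h
      exact ⟨y, hy, hya⟩
    · intro x hx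
      exact MulAction.mem_stabilizer_iff.1 hx

end Cfsg.Agent.S4177
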