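import Cfsg.Statements.S4178

set_option autoImplicit false
open Cfsg

namespace Cfsg.Agent.S4178

variable {F V : Type*} [Field F] [Fintype F] [AddCommGroup V] [Module F V] [FiniteDimensional F V]

omit [Fintype F] in
/-- An element fixing a nonzero vector modulo an invariant subspace fixes a nonzero vector. -/
theorem exists_fixed (h : V ≃ₗ[F] V) (W : Submodule F V) (hW : ∀ w ∈ W, h w ∈ W) (v : V) (hv : v ∉ W)
    (hvW : h v - v ∈ W) : ∃ u : V, u ≠ 0 ∧ h u = u := by
  by_contra hno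
  push Not at hno
  let f : V →ₗ[F] V := (h : V →ₗ[F] V) - LinearMap.id
  have hf : ∀ x, f x = h x - x := fun x => rfl
  have hinj : Function.Injective f := by
    rw [← LinearMap.ker_eq_bot, LinearMap.ker_eq_bot']
    intro u hu
    by_contra hu0
    exact hno u hu0 (sub_eq_zero.mp (by rw [← hf]; exact hu))
  have hfW : ∀ x ∈ W, f x ∈ W := fun x hx => W.sub_mem (hW x hx) hx
  let g : W →ₗ[F] W := f.restrict hfW
  have hginj : Function.Injective g := by
    intro a b hab
    apply Subtype.ext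
    apply hinj
    exact congrArg Subtype.val hab
  have hgsurj : Function.Surjective g := LinearMap.injective_iff_surjective.mp hginj
  obtain ⟨w, hw⟩ := hgsurj ⟨f v, hvW⟩
  have : f (w : V) = f v := congrArg Subtype.val hw
  have h2 := hinj this
  exact hv (h2 ▸ w.2)

/-- stabilizer of `v` modulo `W` -/
def stabMod (H : Subgroup (V ≃ₗ[F] V)) (W : Submodule F V) (hW : ∀ h ∈ H, ∀ w ∈ W, h w ∈ W) (v : V) :
    Subgroup H where
  carrier := {h | (h : V ≃ₗ[F] V) v - v ∈ W}
  one_mem' := by simp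
  mul_mem' := by
    intro a b ha hb
    have ha' : (a : V ≃ₗ[F] V) v - v ∈ W := ha
    have hb' : (b : V ≃ₗ[F] V) v - v ∈ W := hb
    show (a : V ≃ₗ[F] V) ((b : V ≃ₗ[F] V) v) - v ∈ W
    have h1 := hW a a.2 _ hb'
    rw [map_sub] at h1
    have := W.add_mem h1 ha'
    simpa using this
  inv_mem' := by
    intro a ha
    have ha' : (a : V ≃ₗ[F] V) v - v ∈ W := ha
    show ((a⁻¹ : H) : V ≃ₗ[F] V) v - v ∈ W
    have h1 := hW (a⁻¹ : H) (a⁻¹ : H).2 _ ha'
    rw [map_sub] at h1
    have h2 : ((a⁻¹ : H) : V ≃ₗ[F] V) ((a : V ≃ₗ[F] V) v) = v := by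
      have : ((a⁻¹ * a : H) : V ≃ₗ[F] V) v = v := by simp
      exact this
    rw [h2] at h1
    have := W.neg_mem h1
    simpa using this

theorem index_stabMod_le (H : Subgroup (V ≃ₗ[F] V)) (W : Submodule F V)
    (hW : ∀ h ∈ H, ∀ w ∈ W, h w ∈ W) (v : V) (hv : v ∉ W) :
    (stabMod H W hW v).index ≤ Fintype.card F ^ (Module.finrank F V - Module.finrank F W) - 1 := by
  classical
  have : Finite V := Module.finite_of_finite F
  have : Finite (V ⧸ W) := Finite.of_surjective _ (Submodule.mkQ_surjective W)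
  have : Fintype (V ⧸ W) := Fintype.ofFinite _
  let φ : H ⧸ stabMod H W hW v → {x : V ⧸ W // x ≠ 0} :=
    Quotient.lift (fun h : H => (⟨Submodule.Quotient.mk ((h : V ≃ₗ[F] V) v), by
      intro h0
      rw [Submodule.Quotient.mk_eq_zero] at h0
      have h1 := hW (h⁻¹ : H) (h⁻¹ : H).2 _ h0
      have h2 : ((h⁻¹ : H) : V ≃ₗ[F] V) ((h : V ≃ₗ[F] V) v) = v := by
        have : ((h⁻¹ * h : H) : V ≃ₗ[F] V) v = v := by simp
        exact this
      rw [h2] at h1
      exact hv h1⟩ : {x : V ⧸ W // x ≠ 0})) (by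
      intro a b hab
      have hab' : a⁻¹ * b ∈ stabMod H W hW v := QuotientGroup.leftRel_apply.mp hab
      have h1 : ((a⁻¹ * b : H) : V ≃ₗ[F] V) v - v ∈ W := hab'
      apply Subtype.ext
      show (Submodule.Quotient.mk ((a : V ≃ₗ[F] V) v) : V ⧸ W) = Submodule.Quotient.mk ((b : V ≃ₗ[F] V) v)
      rw [Submodule.Quotient.eq]
      have h2 := hW a a.2 _ h1
      rw [map_sub] at h2
      have h3 : (a : V ≃ₗ[F] V) (((a⁻¹ * b : H) : V ≃ₗ[F] V) v) = (b : V ≃ₗ[F] V) v := by
        have : ((a * (a⁻¹ * b) : H) : V ≃ₗ[F] V) v = (b : V ≃ₗ[F] V) v := by simp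
        exact this
      rw [h3] at h2
      have := W.neg_mem h2
      simpa using this)
  have hφ : Function.Injective φ := by
    intro x y
    induction x using QuotientGroup.induction_on with
    | H a =>
    induction y using QuotientGroup.induction_on with
    | H b =>
    intro hab
    have h1 : (Submodule.Quotient.mk ((a : V ≃ₗ[F] V) v) : V ⧸ W) = Submodule.Quotient.mk ((b : V ≃ₗ[F] V) v) :=
      congrArg Subtype.val hab
    rw [Submodule.Quotient.eq] at h1
    rw [QuotientGroup.eq]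
    show ((a⁻¹ * b : H) : V ≃ₗ[F] V) v - v ∈ W
    have h2 := hW (a⁻¹ : H) (a⁻¹ : H).2 _ h1
    rw [map_sub] at h2
    have h3 : ((a⁻¹ : H) : V ≃ₗ[F] V) ((a : V ≃ₗ[F] V) v) = v := by
      have : ((a⁻¹ * a : H) : V ≃ₗ[F] V) v = v := by simp
      exact this
    rw [h3] at h2
    have := W.neg_mem h2
    simpa using this
  have h1 : (stabMod H W hW v).index ≤ Nat.card {x : V ⧸ W // x ≠ 0} :=
    Nat.card_le_card_of_injective φ hφ
  have h2 : Nat.card {x : V ⧸ W // x ≠ 0} = Fintype.card (V ⧸ W) - 1 := by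
    rw [Nat.card_eq_fintype_card, Fintype.card_subtype_compl, Fintype.card_subtype_eq]
  have h3 : Fintype.card (V ⧸ W) = Fintype.card F ^ Module.finrank F (V ⧸ W) := Module.card_eq_pow_finrank
  have h4 : Module.finrank F (V ⧸ W) = Module.finrank F V - Module.finrank F W := by
    have := Submodule.finrank_quotient_add_finrank W
    omega
  rw [h2, h3, h4] at h1
  exact h1

theorem index_le (H : Subgroup (V ≃ₗ[F] V)) (W : Submodule F V)
    (hW : ∀ h ∈ H, ∀ w ∈ W, h w ∈ W) (hWtop : W ≠ ⊤) :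
    (Subgroup.closure {h : ↥H | ∃ v : V, v ≠ 0 ∧ (h : V ≃ₗ[F] V) v = v}).index ≤
      Fintype.card F ^ (Module.finrank F V - Module.finrank F W) - 1 := by
  have : Finite V := Module.finite_of_finite F
  have : Finite (V ≃ₗ[F] V) := Finite.of_injective (fun e => (e : V → V)) DFunLike.coe_injective
  obtain ⟨v, hv⟩ : ∃ v, v ∉ W := by
    by_contra hall
    push Not at hall
    exact hWtop (eq_top_iff.mpr fun x _ => hall x)
  have hle : stabMod H W hW v ≤ Subgroup.closure {h : ↥H | ∃ v : V, v ≠ 0 ∧ (h : V ≃ₗ[F] V) v = v} := by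
    intro h hh
    apply Subgroup.subset_closure
    exact exists_fixed (h : V ≃ₗ[F] V) W (hW h h.2) v hv hh
  have h1 := Subgroup.index_dvd_of_le hle
  have hpos : 0 < (stabMod H W hW v).index := Nat.pos_of_ne_zero Subgroup.index_ne_zero_of_finite
  exact (Nat.le_of_dvd hpos h1).trans (index_stabMod_le H W hW v hv)

theorem index_le' (H : Subgroup (V ≃ₗ[F] V)) (W : Submodule F V)
    (hW : ∀ h ∈ H, ∀ w ∈ W, h w ∈ W) (hWbot : W ≠ ⊥) :
    (Subgroup.closure {h : ↥H | ∃ v : V, v ≠ 0 ∧ (h : V ≃ₗ[F] V) v = v}).index ≤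
      Fintype.card F ^ (Module.finrank F W) - 1 := by
  classical
  have : Finite V := Module.finite_of_finite F
  have : Finite (V ≃ₗ[F] V) := Finite.of_injective (fun e => (e : V → V)) DFunLike.coe_injective
  obtain ⟨w, hwW, hw0⟩ := Submodule.exists_mem_ne_zero_of_ne_bot hWbot
  have hle : MulAction.stabilizer H w ≤ Subgroup.closure {h : ↥H | ∃ v : V, v ≠ 0 ∧ (h : V ≃ₗ[F] V) v = v} := by
    intro h hh
    apply Subgroup.subset_closure
    exact ⟨w, hw0, hh⟩
  have h1 := Subgroup.index_dvd_of_le hle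
  have hpos : 0 < (MulAction.stabilizer H w).index := Nat.pos_of_ne_zero Subgroup.index_ne_zero_of_finite
  refine (Nat.le_of_dvd hpos h1).trans ?_
  rw [MulAction.index_stabilizer]
  have hsub : MulAction.orbit H w ⊆ (W : Set V) \ {0} := by
    rintro _ ⟨h, rfl⟩
    refine ⟨hW h h.2 w hwW, ?_⟩
    intro h0
    have h0' : (h : V ≃ₗ[F] V) w = 0 := h0
    exact hw0 ((LinearEquiv.map_eq_zero_iff _).mp h0')
  have h2 := Set.ncard_le_ncard hsub (Set.toFinite _)
  have h3 : ((W : Set V) \ {0}).ncard = (W : Set V).ncard - 1 :=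
    Set.ncard_sdiff_singleton_of_mem W.zero_mem
  have : Fintype W := Fintype.ofFinite _
  have h4 : (W : Set V).ncard = Fintype.card F ^ Module.finrank F W := by
    rw [← Module.card_eq_pow_finrank (K := F) (V := W), ← Nat.card_eq_fintype_card]
    rfl
  rw [h3, h4] at h2
  exact h2

/-- Let F be a finite field with q elements, V a non-zero finite-dimensional F-space of dimension d, H a group of invertible linear maps of V, and R the subgroup of H generated by the elements of H that fix some non-zero vector (have eigenvalue 1). Then the index of R in H is at most q^d − 1; and if H leaves invariant some proper non-zero subspace, the index is at most q^(d/2) − 1. -/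
theorem result {F V : Type*} [Field F] [Fintype F] [AddCommGroup V] [Module F V] [FiniteDimensional F V] [Nontrivial V]
    (H : Subgroup (V ≃ₗ[F] V)) :
    (Subgroup.closure {h : ↥H | ∃ v : V, v ≠ 0 ∧ (h : V ≃ₗ[F] V) v = v}).index ≤ Fintype.card F ^ Module.finrank F V - 1 ∧
    ((∃ W : Submodule F V, W ≠ ⊥ ∧ W ≠ ⊤ ∧ ∀ h ∈ H, ∀ w ∈ W, h w ∈ W) →
      ((Subgroup.closure {h : ↥H | ∃ v : V, v ≠ 0 ∧ (h : V ≃ₗ[F] V) v = v}).index : ℝ) ≤ Real.sqrt ((Fintype.card F : ℝ) ^ Module.finrank F V) - 1) := by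
  constructor
  · have := index_le H ⊥ (by intro h _ w hw; rw [Submodule.mem_bot] at hw ⊢; rw [hw, map_zero]) bot_ne_top
    simpa using this
  · rintro ⟨W, hbot, htop, hW⟩
    have key : ∃ m : ℕ, 2 * m ≤ Module.finrank F V ∧
        (Subgroup.closure {h : ↥H | ∃ v : V, v ≠ 0 ∧ (h : V ≃ₗ[F] V) v = v}).index ≤ Fintype.card F ^ m - 1 := by
      by_cases hc : 2 * Module.finrank F W ≤ Module.finrank F V
      · exact ⟨_, hc, index_le' H W hW hbot⟩
      · exact ⟨_, by omega, index_le H W hW htop⟩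
    obtain ⟨m, hm, hle⟩ := key
    have hq : 1 ≤ Fintype.card F := Fintype.card_pos
    have hqm : 1 ≤ Fintype.card F ^ m := Nat.one_le_pow _ _ hq
    have h1 : ((Subgroup.closure {h : ↥H | ∃ v : V, v ≠ 0 ∧ (h : V ≃ₗ[F] V) v = v}).index : ℝ) ≤
        (Fintype.card F : ℝ) ^ m - 1 := by
      have : ((Subgroup.closure {h : ↥H | ∃ v : V, v ≠ 0 ∧ (h : V ≃ₗ[F] V) v = v}).index : ℝ) ≤
          ((Fintype.card F ^ m - 1 : ℕ) : ℝ) := by exact_mod_cast hle
      rw [Nat.cast_sub hqm] at this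
      simpa using this
    have h2 : (Fintype.card F : ℝ) ^ m ≤ Real.sqrt ((Fintype.card F : ℝ) ^ Module.finrank F V) := by
      apply Real.le_sqrt_of_sq_le
      rw [← pow_mul, mul_comm]
      apply pow_le_pow_right₀ _ hm
      exact_mod_cast hq
    linarith

end Cfsg.Agent.S4178
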