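import Cfsg.Statements.S4182

set_option autoImplicit false
open Cfsg

namespace Cfsg.Agent.S4182

open scoped Pointwise

theorem pgroup_case {G : Type*} [Group G] [Finite G] (p : ℕ) [hp : Fact p.Prime] (hG : IsPGroup p G)
    {ι : Type*} [Fintype ι] (K : ι → Subgroup G) (hK : ∀ i, K i ≠ ⊤)
    (hcov : ∀ g : G, ∃ i, g ∈ K i) : p + 1 ≤ Fintype.card ι := by
  classical
  by_contra hlt
  have hle : Fintype.card ι ≤ p := by omega
  have : Fintype G := Fintype.ofFinite G
  set N := Nat.card G with hN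
  have h1 : ∀ i, p * Nat.card (K i) ≤ N := by
    intro i
    obtain ⟨n, hn⟩ := hG.index (K i)
    have hn0 : n ≠ 0 := by
      rintro rfl
      rw [pow_zero, Subgroup.index_eq_one] at hn
      exact hK i hn
    have hdvd : p ∣ (K i).index := by rw [hn]; exact dvd_pow_self p hn0
    have hpos : 0 < (K i).index := Nat.pos_of_ne_zero Subgroup.index_ne_zero_of_finite
    have hple : p ≤ (K i).index := Nat.le_of_dvd hpos hdvd
    calc p * Nat.card (K i) ≤ (K i).index * Nat.card (K i) := Nat.mul_le_mul_right _ hple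
      _ = N := Subgroup.index_mul_card _
  have hsub : (Finset.univ.erase (1 : G)) ⊆
      Finset.univ.biUnion (fun i => (Finset.univ.filter (fun g => g ∈ K i)).erase 1) := by
    intro g hg
    obtain ⟨i, hi⟩ := hcov g
    simp only [Finset.mem_biUnion, Finset.mem_univ, true_and, Finset.mem_erase, Finset.mem_filter]
    exact ⟨i, (Finset.mem_erase.mp hg).1, hi⟩
  have h2 := (Finset.card_le_card hsub).trans Finset.card_biUnion_le
  have h3 : ∀ i, ((Finset.univ.filter (fun g => g ∈ K i)).erase 1).card = Nat.card (K i) - 1 := by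
    intro i
    rw [Finset.card_erase_of_mem (by simp [(K i).one_mem]), Nat.card_eq_fintype_card, Fintype.card_subtype]
  rw [Finset.card_erase_of_mem (Finset.mem_univ _), Finset.card_univ, ← Nat.card_eq_fintype_card, ← hN] at h2
  simp only [h3] at h2
  obtain ⟨i0, -⟩ := hcov 1
  have hNp : p ≤ N := by
    have : 0 < Nat.card (K i0) := Nat.card_pos
    calc p = p * 1 := (mul_one p).symm
      _ ≤ p * Nat.card (K i0) := Nat.mul_le_mul_left _ this
      _ ≤ N := h1 i0
  have h4 : ∀ i, p * (Nat.card (K i) - 1) ≤ N - p := by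
    intro i
    have := h1 i
    rw [Nat.mul_sub, mul_one]
    omega
  have h5 : p * ∑ i, (Nat.card (K i) - 1) ≤ Fintype.card ι * (N - p) := by
    rw [Finset.mul_sum]
    calc ∑ i, p * (Nat.card (K i) - 1) ≤ ∑ _i : ι, (N - p) := Finset.sum_le_sum (fun i _ => h4 i)
      _ = Fintype.card ι * (N - p) := by simp
  have h6 : p * (N - 1) ≤ p * (N - p) :=
    calc p * (N - 1) ≤ p * ∑ i, (Nat.card (K i) - 1) := Nat.mul_le_mul_left _ h2
      _ ≤ Fintype.card ι * (N - p) := h5
      _ ≤ p * (N - p) := Nat.mul_le_mul_right _ hle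
  have h7 : N - 1 ≤ N - p := Nat.le_of_mul_le_mul_left h6 hp.out.pos
  have := hp.out.two_le
  omega

/-- `T` is generated by its `p`-elements. -/
def PGen (p : ℕ) {G : Type*} [Group G] (T : Subgroup G) : Prop :=
  T ≤ Subgroup.closure {g : G | g ∈ T ∧ ∃ k : ℕ, orderOf g = p ^ k}

theorem PGen.conj (p : ℕ) {G : Type*} [Group G] {T : Subgroup G} (h : PGen p T) (g : G) :
    PGen p (MulAut.conj g • T) := by
  intro t ht
  rw [Subgroup.mem_pointwise_smul_iff_inv_smul_mem] at ht
  have h1 := h ht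
  have h2 : MulAut.conj g • ((MulAut.conj g)⁻¹ • t) ∈
      MulAut.conj g • Subgroup.closure {g : G | g ∈ T ∧ ∃ k : ℕ, orderOf g = p ^ k} :=
    Subgroup.smul_mem_pointwise_smul _ _ _ h1
  rw [smul_inv_smul, Subgroup.smul_closure] at h2
  refine Subgroup.closure_mono ?_ h2
  rintro _ ⟨y, ⟨hyT, k, hk⟩, rfl⟩
  refine ⟨Subgroup.smul_mem_pointwise_smul _ _ _ hyT, k, ?_⟩
  rw [← hk]
  exact orderOf_injective (MulAut.conj g).toMonoidHom (MulAut.conj g).injective y

theorem ne_top_conj {G : Type*} [Group G] {T : Subgroup G} (h : T ≠ ⊤) (g : G) :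
    MulAut.conj g • T ≠ ⊤ := by
  intro h1
  apply h
  rw [eq_top_iff] at h1 ⊢
  rw [Subgroup.subset_pointwise_smul_iff] at h1
  refine le_trans ?_ h1
  rw [Subgroup.subset_pointwise_smul_iff]
  exact le_top

theorem main (p : ℕ) [hp : Fact p.Prime] {ι : Type*} [Fintype ι] : ∀ (n : ℕ) (G : Type*) [Group G] [Finite G],
    Nat.card G = n → Subgroup.closure {g : G | ∃ k : ℕ, orderOf g = p ^ k} = ⊤ →
    ∀ (K : ι → Subgroup G), (∀ i, K i ≠ ⊤) →
    (∀ g : G, (∃ k : ℕ, orderOf g = p ^ k) → ∃ i, g ∈ K i) → p + 1 ≤ Fintype.card ι := by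
  intro n
  induction n using Nat.strong_induction_on with
  | _ n ih =>
  intro G _ _ hn hgen K hK hcov
  classical
  by_cases hpg : IsPGroup p G
  · exact pgroup_case p hpg K hK (fun g => hcov g (IsPGroup.iff_orderOf.mp hpg g))
  by_contra hlt
  have hle : Fintype.card ι ≤ p := by omega
  -- Step A
  have stepA : ∀ T : Subgroup G, T ≠ ⊤ → PGen p T → ∃ i, T ≤ K i := by
    intro T hT hTg
    by_contra hno
    push Not at hno
    apply hlt
    have hcard : Nat.card T < n := by
      rw [← hn]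
      by_contra hge
      exact hT (Subgroup.eq_top_of_card_eq T (le_antisymm (Subgroup.card_le_card_group T) (not_lt.mp hge)))
    refine ih (Nat.card T) hcard T rfl ?_ (fun i => (K i).subgroupOf T) ?_ ?_
    · rw [eq_top_iff]
      intro t _
      have h1 := hTg t.2
      have h2 : Subgroup.closure {g : G | g ∈ T ∧ ∃ k : ℕ, orderOf g = p ^ k} =
          (Subgroup.closure {t : T | ∃ k : ℕ, orderOf t = p ^ k}).map T.subtype := by
        rw [MonoidHom.map_closure]
        congr 1
        ext y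
        constructor
        · rintro ⟨hy, k, hk⟩
          exact ⟨⟨y, hy⟩, ⟨k, by rw [← hk, Subgroup.orderOf_mk]⟩, rfl⟩
        · rintro ⟨t, ⟨k, hk⟩, rfl⟩
          exact ⟨t.2, k, by rw [← hk]; exact Subgroup.orderOf_coe t⟩
      rw [h2] at h1
      obtain ⟨t', ht', htt⟩ := h1
      have : t' = t := Subtype.ext htt
      rwa [← this]
    · intro i hi
      rw [Subgroup.subgroupOf_eq_top] at hi
      exact hno i hi
    · rintro t ⟨k, hk⟩
      obtain ⟨i, hi⟩ := hcov (t : G) ⟨k, by rw [← hk]; exact Subgroup.orderOf_coe t⟩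
      exact ⟨i, Subgroup.mem_subgroupOf.mpr hi⟩
  -- the family
  let Pr : Subgroup G → Prop := fun T => T ≠ ⊤ ∧ PGen p T
  have hPrconj : ∀ (g : G) (T : Subgroup G), Pr T → Pr (MulAut.conj g • T) :=
    fun g T h => ⟨ne_top_conj h.1 g, h.2.conj p g⟩
  have hMaxconj : ∀ (g : G) (M : Subgroup G), Maximal Pr M → Maximal Pr (MulAut.conj g • M) := by
    intro g M hM
    refine ⟨hPrconj g M hM.1, fun T hT hle' => ?_⟩
    rw [Subgroup.pointwise_smul_subset_iff] at hle'
    have h1 : Pr ((MulAut.conj g)⁻¹ • T) := by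
      have := hPrconj g⁻¹ T hT
      rwa [map_inv] at this
    have h2 := hM.2 h1 hle'
    rwa [← Subgroup.subset_pointwise_smul_iff] at h2
  let 𝓜 := {M : Subgroup G // Maximal Pr M}
  have : Fintype 𝓜 := Fintype.ofFinite _
  -- injection into ι
  have hchoose : ∀ M : 𝓜, ∃ i, M.1 ≤ K i := fun M => stepA M.1 M.2.1.1 M.2.1.2
  choose φ hφ using hchoose
  have hφinj : Function.Injective φ := by
    intro M M' hMM
    set L := Subgroup.closure {g : G | g ∈ K (φ M) ∧ ∃ k : ℕ, orderOf g = p ^ k} with hL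
    have hLK : L ≤ K (φ M) := by
      rw [hL, Subgroup.closure_le]
      exact fun g hg => hg.1
    have hLPr : Pr L := by
      refine ⟨fun h => hK (φ M) (eq_top_iff.mpr (h ▸ hLK)), ?_⟩
      intro t ht
      refine Subgroup.closure_mono ?_ ht
      intro y hy
      exact ⟨Subgroup.subset_closure hy, hy.2⟩
    have hsub : ∀ M'' : 𝓜, M''.1 ≤ K (φ M) → M''.1 = L := by
      intro M'' hle''
      have h1 : M''.1 ≤ L := by
        refine le_trans M''.2.1.2 (Subgroup.closure_mono ?_)
        intro y hy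
        exact ⟨hle'' hy.1, hy.2⟩
      exact le_antisymm h1 (M''.2.2 hLPr h1)
    apply Subtype.ext
    rw [hsub M (hφ M), hsub M' (hMM ▸ hφ M')]
  have hcard𝓜 : Fintype.card 𝓜 ≤ p := (Fintype.card_le_of_injective φ hφinj).trans hle
  -- a Sylow subgroup
  obtain ⟨P⟩ : Nonempty (Sylow p G) := inferInstance
  have hPPr : ∀ Q : Sylow p G, Pr (Q : Subgroup G) := by
    intro Q
    refine ⟨fun h => hpg ?_, ?_⟩
    · have := Q.2
      rw [h] at this
      exact this.of_equiv Subgroup.topEquiv
    · intro t ht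
      apply Subgroup.subset_closure
      obtain ⟨k, hk⟩ := IsPGroup.iff_orderOf.mp Q.2 ⟨t, ht⟩
      exact ⟨ht, k, by rw [← hk, Subgroup.orderOf_mk]⟩
  -- every p-element normalizes every member of 𝓜
  have hnorm : ∀ x : G, (∃ k : ℕ, orderOf x = p ^ k) → ∀ M : 𝓜, MulAut.conj x • M.1 = M.1 := by
    rintro x ⟨k, hk⟩
    have hpgx : IsPGroup p (Subgroup.zpowers x) := by
      rw [IsPGroup.iff_card]
      exact ⟨k, by rw [Nat.card_zpowers, hk]⟩
    obtain ⟨Q, hQ⟩ := hpgx.exists_le_sylow
    obtain ⟨M0, hQM0, hM0⟩ := Finite.exists_le_maximal (hPPr Q)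
    have hxM0 : x ∈ M0 := hQM0 (hQ (Subgroup.mem_zpowers x))
    let f : Function.End 𝓜 := fun M => ⟨MulAut.conj x • M.1, hMaxconj x M.1 M.2⟩
    have hfpow : ∀ (j : ℕ) (M : 𝓜), ((f ^ j) M).1 = MulAut.conj (x ^ j) • M.1 := by
      intro j
      induction j with
      | zero =>
        intro M
        rw [pow_zero, pow_zero, map_one, one_smul]
        rfl
      | succ j ihj =>
        intro M
        rw [pow_succ']
        show MulAut.conj x • ((f ^ j) M).1 = _
        rw [ihj M, smul_smul, ← map_mul, ← pow_succ']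
    have hf : f ^ p ^ k = 1 := by
      funext M
      apply Subtype.ext
      rw [hfpow, ← hk, pow_orderOf_eq_one, map_one, one_smul]
      rfl
    have hmod := Equiv.Perm.card_fixedPoints_modEq (p := p) (n := k) hf
    have hfix0 : (⟨M0, hM0⟩ : 𝓜) ∈ Function.fixedPoints f := by
      show f ⟨M0, hM0⟩ = ⟨M0, hM0⟩
      apply Subtype.ext
      show MulAut.conj x • M0 = M0
      exact Subgroup.conj_smul_eq_self_of_mem hxM0
    intro M
    by_contra hM
    have hMnot : ¬ (M ∈ Function.fixedPoints f) := by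
      intro h
      exact hM (congrArg Subtype.val h)
    have hlt' : Fintype.card (Function.fixedPoints f) < Fintype.card 𝓜 :=
      Fintype.card_subtype_lt hMnot
    have hpos : 0 < Fintype.card (Function.fixedPoints f) :=
      Fintype.card_pos_iff.mpr ⟨⟨_, hfix0⟩⟩
    have hdvd : p ∣ Fintype.card 𝓜 - Fintype.card (Function.fixedPoints f) :=
      (Nat.modEq_iff_dvd' hlt'.le).mp hmod.symm
    have := Nat.le_of_dvd (by omega) hdvd
    omega
  obtain ⟨M0, hPM0, hM0⟩ := Finite.exists_le_maximal (hPPr P)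
  have hnormal : M0.Normal := by
    rw [← Subgroup.normalizer_eq_top_iff, eq_top_iff, ← hgen, Subgroup.closure_le]
    intro x hx
    have h1 := hnorm x hx ⟨M0, hM0⟩
    have h1' : MulAut.conj x • M0 = M0 := h1
    rw [SetLike.mem_coe, Subgroup.mem_normalizer_iff]
    intro h
    have h2 : x * h * x⁻¹ = MulAut.conj x • h := rfl
    rw [h2]
    nth_rewrite 2 [← h1']
    exact (Subgroup.smul_mem_pointwise_smul_iff).symm
  apply hM0.1.1
  rw [eq_top_iff, ← hgen, Subgroup.closure_le]
  rintro y ⟨k, hk⟩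
  have hpgy : IsPGroup p (Subgroup.zpowers y) := by
    rw [IsPGroup.iff_card]
    exact ⟨k, by rw [Nat.card_zpowers, hk]⟩
  obtain ⟨Q, hQ⟩ := hpgy.exists_le_sylow
  obtain ⟨g, hg⟩ := MulAction.exists_smul_eq G P Q
  have h3 : (Q : Subgroup G) ≤ M0 := by
    rw [← hg, Sylow.coe_subgroup_smul, ← Subgroup.Normal.conj_smul_eq_self g M0]
    exact Subgroup.pointwise_smul_le_pointwise_smul_iff.mpr hPM0
  exact h3 (hQ (Subgroup.mem_zpowers y))

/-- Let p be a prime and G a finite group generated by its p-elements. If a finite family of proper subgroups of G covers the set of p-elements of G (every element of p-power order lies in one of them), then the family has at least p + 1 members. -/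
theorem result {G : Type*} [Group G] [Finite G] (p : ℕ) [Fact p.Prime] (hgen : Subgroup.closure {g : G | ∃ k : ℕ, orderOf g = p ^ k} = ⊤)
    {ι : Type*} [Fintype ι] (K : ι → Subgroup G) (hK : ∀ i, K i ≠ ⊤)
    (hcov : ∀ g : G, (∃ k : ℕ, orderOf g = p ^ k) → ∃ i, g ∈ K i) :
    p + 1 ≤ Fintype.card ι :=
  main p (Nat.card G) G rfl hgen K hK hcov

end Cfsg.Agent.S4182
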