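import Cfsg.Statements.S4189
import Mathlib
import Cfsg.Agent.Lib.Helper23.MaxClass

set_option autoImplicit false
open Cfsg

namespace Cfsg.Agent.S4189

open Cfsg.Agent.Lib.Helper23

/-- Generalisation (exponent `N` instead of `4`) of a lemma of helper18's library
(`Cfsg.Agent.Lib.Helper18.isPGroup_mulAut_of_cyclic_index_two`); same proof. -/
theorem isPGroup_mulAut_of_cyclic_index_two_gen {R : Type*} [Group R] [Finite R] (A : Subgroup R)
    (N : ℕ) (g : R) (hg : ∀ x, x ∈ A ↔ x ∈ Subgroup.zpowers g) (hA2 : IsPGroup 2 A)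
    (h4 : ∀ x, x ∉ A → x ^ N = 1) (hg4 : g ^ N ≠ 1)
    (hidx : ∀ x y, x ∉ A → y ∉ A → x⁻¹ * y ∈ A) : IsPGroup 2 (MulAut R) := by
  have : Fact (Nat.Prime 2) := ⟨Nat.prime_two⟩
  have hgA : g ∈ A := (hg g).mpr (Subgroup.mem_zpowers g)
  -- order of g
  obtain ⟨s, hs⟩ : ∃ s, orderOf g = 2 ^ s := by
    obtain ⟨s, hs⟩ := IsPGroup.iff_orderOf.mp hA2 ⟨g, hgA⟩
    exact ⟨s, by rw [← hs]; simp⟩
  have hmapg : ∀ α : MulAut R, α g ∈ A := by
    intro α
    by_contra h
    have h1 := h4 _ h
    rw [← map_pow] at h1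
    exact hg4 ((map_eq_one_iff α α.injective).mp h1)
  have hmapA : ∀ α : MulAut R, ∀ x ∈ A, α x ∈ A := by
    intro α x hx
    obtain ⟨k, rfl⟩ := Subgroup.mem_zpowers_iff.mp ((hg x).mp hx)
    rw [map_zpow]
    exact A.zpow_mem (hmapg α) k
  have hmapA' : ∀ α : MulAut R, ∀ x, x ∉ A → α x ∉ A := by
    intro α x hx h
    apply hx
    have := hmapA α⁻¹ _ h
    simpa using this
  intro α
  -- α g = g ^ k
  obtain ⟨k, hk⟩ : ∃ k : ℕ, g ^ k = α g := by
    have h1 := (hg _).mp (hmapg α)
    exact Submonoid.mem_powers_iff _ _ |>.mp (mem_powers_iff_mem_zpowers.mpr h1)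
  have hiter : ∀ j : ℕ, (α ^ j) g = g ^ (k ^ j) := by
    intro j
    induction j with
    | zero => simp
    | succ j ih =>
      rw [pow_succ', MulAut.mul_apply, ih, map_pow, ← hk, ← pow_mul, pow_succ']
  have hcop : Nat.Coprime k (2 ^ s) := by
    have h1 : orderOf (α g) = orderOf g := orderOf_injective α.toMonoidHom α.injective g
    rw [← hk, orderOf_pow, hs] at h1
    have h2 : 0 < 2 ^ s := by positivity
    have h3 : Nat.gcd (2 ^ s) k ∣ 2 ^ s := Nat.gcd_dvd_left _ _
    have h4 : Nat.gcd (2 ^ s) k = 1 := by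
      obtain ⟨c, hc⟩ := h3
      have hpos : 0 < Nat.gcd (2 ^ s) k := Nat.gcd_pos_of_pos_left _ h2
      rw [Nat.div_eq_iff_eq_mul_left hpos (Nat.gcd_dvd_left _ _)] at h1
      nth_rewrite 1 [← mul_one (2 ^ s)] at h1
      exact (Nat.eq_of_mul_eq_mul_left h2 h1).symm
    rw [Nat.coprime_comm]; exact h4
  set β := α ^ (Nat.totient (2 ^ s)) with hβ
  have hβg : β g = g := by
    rw [hβ, hiter]
    have h1 := Nat.ModEq.pow_totient hcop
    have h2 : k ^ (2 ^ s).totient ≡ 1 [MOD orderOf g] := by rw [hs]; exact h1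
    have := (pow_eq_pow_iff_modEq (x := g)).mpr h2
    rw [this, pow_one]
  have hβA : ∀ x ∈ A, β x = x := by
    intro x hx
    obtain ⟨j, rfl⟩ := Subgroup.mem_zpowers_iff.mp ((hg x).mp hx)
    rw [map_zpow, hβg]
  have htot : ∃ e, Nat.totient (2 ^ s) = 2 ^ e := by
    rcases Nat.eq_zero_or_pos s with rfl | hpos
    · exact ⟨0, by simp⟩
    · exact ⟨s - 1, by rw [Nat.totient_prime_pow Nat.prime_two hpos]; simp⟩
  obtain ⟨e, he⟩ := htot
  have hfin : β ^ (2 ^ s) = 1 := by
    by_cases hall : ∀ x, x ∈ A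
    · have : β = 1 := by
        ext x; exact hβA x (hall x)
      rw [this, one_pow]
    · push Not at hall
      obtain ⟨y, hy⟩ := hall
      have hc : y⁻¹ * β y ∈ A := hidx _ _ hy (hmapA' β y hy)
      set c := y⁻¹ * β y with hcdef
      have hβy : β y = y * c := by rw [hcdef]; group
      have hit : ∀ j : ℕ, (β ^ j) y = y * c ^ j := by
        intro j
        induction j with
        | zero => simp
        | succ j ih =>
          rw [pow_succ', MulAut.mul_apply, ih, map_mul, map_pow, hβA c hc, hβy, pow_succ',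
            mul_assoc]
      have hitA : ∀ j : ℕ, ∀ x ∈ A, (β ^ j) x = x := by
        intro j
        induction j with
        | zero => simp
        | succ j ih =>
          intro x hx
          rw [pow_succ', MulAut.mul_apply, ih x hx, hβA x hx]
      have hcN : c ^ (2 ^ s) = 1 := by
        obtain ⟨j, hj⟩ := Subgroup.mem_zpowers_iff.mp ((hg c).mp hc)
        rw [← hj, ← zpow_natCast, ← zpow_mul, mul_comm, zpow_mul, zpow_natCast, ← hs,
          pow_orderOf_eq_one, one_zpow]
      ext x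
      by_cases hx : x ∈ A
      · rw [hitA _ x hx]; rfl
      · have h1 := hidx _ _ hy hx
        have h2 : x = y * (y⁻¹ * x) := by group
        rw [MulAut.one_apply]
        conv_lhs => rw [h2]
        rw [map_mul, hit, hcN, hitA _ _ h1]
        group
  refine ⟨e + s, ?_⟩
  rw [pow_add, pow_mul, ← he]
  exact hfin

/-- Let P be a finite non-abelian 2-group whose commutator subgroup has index 4 and whose automorphism group is not a 2-group (some automorphism has order that is not a power of 2). Then P is isomorphic to the quaternion group of order 8. -/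
theorem result {P : Type*} [Group P] [Finite P] (hP : IsPGroup 2 P) (hna : ¬ IsMulCommutative P) (h4 : (commutator P).index = 4) (haut : ¬ IsPGroup 2 (MulAut P)) : Nonempty (P ≃* QuaternionGroup 2) := by
  have hna' : commutator P ≠ ⊥ := fun h => hna ((commutator_eq_bot_iff P).mp h)
  obtain ⟨m, a, g, hm2, hm, hcard, hg, hidx, hfix, hgg, hconj⟩ := taussky hP h4 hna'
  set z := a ^ 2 ^ (m - 1) with hz
  have hzsq : z * z = 1 := by
    rw [hz, ← pow_add, ← two_mul, ← pow_succ', Nat.sub_add_cancel (by omega), ← hm,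
      pow_orderOf_eq_one]
  have hzA : z ∈ Subgroup.zpowers a := Subgroup.pow_mem _ (Subgroup.mem_zpowers a) _
  have hA : ∀ x ∈ Subgroup.zpowers a, ∀ y ∈ Subgroup.zpowers a, x * y = y * x := by
    intro x hx y hy
    obtain ⟨k, rfl⟩ := Subgroup.mem_zpowers_iff.mp hx
    obtain ⟨l, rfl⟩ := Subgroup.mem_zpowers_iff.mp hy
    exact (Commute.refl a).zpow_zpow k l
  have hggA : g * g ∈ Subgroup.zpowers a := by
    rw [Subgroup.mul_mem_iff_of_index_two hidx]
  have hidx' : ∀ x y, x ∉ Subgroup.zpowers a → y ∉ Subgroup.zpowers a →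
      x⁻¹ * y ∈ Subgroup.zpowers a := by
    intro x y hx hy
    rw [Subgroup.mul_mem_iff_of_index_two hidx, inv_mem_iff]
    exact ⟨fun h => absurd h hx, fun h => absurd h hy⟩
  -- u = g a g⁻¹ a
  obtain ⟨u, hu, hu1, huu⟩ : ∃ u, g * a * g⁻¹ = u * a⁻¹ ∧ (u = 1 ∨ u = z) ∧
      (g * a * g⁻¹ = a⁻¹ → u = 1) := by
    rcases hconj with h | ⟨-, h⟩
    · exact ⟨1, by rw [h, one_mul], Or.inl rfl, fun _ => rfl⟩
    · refine ⟨z, h, Or.inr rfl, fun h' => ?_⟩
      rw [h] at h'
      exact mul_eq_right.mp h'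
  have huA : u ∈ Subgroup.zpowers a := by
    rcases hu1 with h | h
    · rw [h]; exact Subgroup.one_mem _
    · rw [h]; exact hzA
  have husq : u * u = 1 := by
    rcases hu1 with h | h
    · rw [h, one_mul]
    · rw [h]; exact hzsq
  have hsq : ∀ x, x ∉ Subgroup.zpowers a → ∃ k : ℤ, x * x = u ^ k * (g * g) := by
    intro x hx
    obtain ⟨k, hk⟩ := Subgroup.mem_zpowers_iff.mp (hidx' g x hg hx)
    have hx' : x = g * a ^ k := by rw [hk]; group
    refine ⟨k, ?_⟩
    have h1 : g * a ^ k * g⁻¹ = u ^ k * (a ^ k)⁻¹ := by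
      rw [← conj_zpow, hu, (show Commute u a⁻¹ from
        hA u huA a⁻¹ (Subgroup.inv_mem _ (Subgroup.mem_zpowers a))).mul_zpow, inv_zpow]
    have h3 := hA (g * g) hggA (a ^ k) (Subgroup.zpow_mem_zpowers a k)
    calc x * x = (g * a ^ k * g⁻¹) * ((g * g) * a ^ k) := by rw [hx']; group
      _ = u ^ k * (a ^ k)⁻¹ * (a ^ k * (g * g)) := by rw [h1, h3]
      _ = u ^ k * (g * g) := by group
  have hgen : ∀ x, x ∈ Subgroup.zpowers a ↔ x ∈ Subgroup.zpowers a := fun _ => Iff.rfl
  have hA2 : IsPGroup 2 (Subgroup.zpowers a) := hP.to_subgroup _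
  by_cases hm3 : 3 ≤ m
  · exfalso
    apply haut
    refine isPGroup_mulAut_of_cyclic_index_two_gen (Subgroup.zpowers a) 4 a hgen hA2 ?_ ?_ hidx'
    · intro x hx
      obtain ⟨k, hk⟩ := hsq x hx
      have hcomm : Commute (u ^ k) (g * g) := hA _ (Subgroup.zpow_mem _ huA k) _ hggA
      have h1 : (u ^ k) * (u ^ k) = 1 := by
        rw [← (Commute.refl u).mul_zpow k, husq, one_zpow]
      have h3 : (g * g) * (g * g) = 1 := by
        rcases hgg with h | h
        · rw [h, one_mul]
        · rw [h]; exact hzsq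
      calc x ^ 4 = (x * x) * (x * x) := by simp only [pow_succ, pow_zero, one_mul, mul_assoc]
        _ = (u ^ k * (g * g)) * (u ^ k * (g * g)) := by rw [hk]
        _ = u ^ k * ((g * g) * u ^ k) * (g * g) := by group
        _ = u ^ k * (u ^ k * (g * g)) * (g * g) := by rw [hcomm.eq]
        _ = (u ^ k * u ^ k) * ((g * g) * (g * g)) := by group
        _ = 1 := by rw [h1, h3, one_mul]
    · intro h
      have := orderOf_le_of_pow_eq_one (by norm_num) h
      rw [hm] at this
      have h8 : 2 ^ 3 ≤ 2 ^ m := Nat.pow_le_pow_right (by norm_num) hm3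
      omega
  · have hm' : m = 2 := by omega
    subst hm'
    have hconj' : g * a * g⁻¹ = a⁻¹ := by
      rcases hconj with h | ⟨h, -⟩
      · exact h
      · omega
    have hu' : u = 1 := huu hconj'
    rcases hgg with hgg | hgg
    · exfalso
      apply haut
      refine isPGroup_mulAut_of_cyclic_index_two_gen (Subgroup.zpowers a) 2 a hgen hA2 ?_ ?_ hidx'
      · intro x hx
        obtain ⟨k, hk⟩ := hsq x hx
        rw [sq, hk, hu', one_zpow, hgg, one_mul]
      · intro h
        have := orderOf_le_of_pow_eq_one (by norm_num) h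
        rw [hm] at this
        omega
    · exact nonempty_mulEquiv_quaternionGroup 2 a g (by rw [hm]; norm_num)
        (by rw [hgg, hz]; norm_num) hconj' hg (by rw [hcard]; norm_num)

end Cfsg.Agent.S4189
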