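import Mathlib
import Cfsg.Statements.S4194
import Cfsg.Agent.Lib.Helper22.TwoCentral

set_option autoImplicit false
open Cfsg

namespace Cfsg.Agent.S4194

open Cfsg.Agent.Lib.Helper22

/-- A finite group G has commutative Sylow 2-subgroups if and only if every 2-element of G (element of order a power of 2) is 2-central, that is, its centralizer contains a Sylow 2-subgroup of G. -/
theorem result {G : Type*} [Group G] [Finite G] (P : Sylow 2 G) :
    IsMulCommutative (P : Subgroup G) ↔ ∀ x : G, (∃ k : ℕ, orderOf x = 2 ^ k) → (∃ Q : Sylow 2 G, (Q : Subgroup G) ≤ Subgroup.centralizer ({x} : Set G)) := by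
  constructor
  · intro hP x hx
    obtain ⟨k, hk⟩ := hx
    obtain ⟨Q, hQ⟩ := (isPGroup_zpowers_of_orderOf (p := 2) hk).exists_le_sylow
    refine ⟨Q, ?_⟩
    have hPc : ∀ a ∈ (P : Subgroup G), ∀ b ∈ (P : Subgroup G), a * b = b * a := by
      intro a ha b hb
      have := hP.is_comm.comm (⟨a, ha⟩ : (P : Subgroup G)) ⟨b, hb⟩
      exact congrArg Subtype.val this
    have hQc := sylow_comm_of_sylow_comm hPc Q
    intro q hq
    rw [Subgroup.mem_centralizer_singleton_iff]
    exact hQc q hq x (hQ (Subgroup.mem_zpowers x))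
  · intro h
    have hc := TC.comm (G := G) h P
    exact ⟨⟨fun a b => Subtype.ext (hc a a.2 b b.2)⟩⟩

end Cfsg.Agent.S4194
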