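import Cfsg.Statements.S4230

set_option autoImplicit false
open Cfsg

namespace Cfsg.Agent.S4230

open Polynomial

/-- Let p be an odd prime, q a natural number not divisible by p, and e the multiplicative order of q modulo p. For a natural number f, p divides the value at q of the f-th cyclotomic polynomial if and only if f = e·p^j for some j ≥ 0. -/
theorem result (p q f : ℕ) (hp : p.Prime) (hp2 : p ≠ 2) (hpq : ¬ p ∣ q) :
    ((p : ℤ) ∣ (Polynomial.cyclotomic f ℤ).eval (q : ℤ)) ↔ ∃ j : ℕ, f = orderOf (q : ZMod p) * p ^ j := by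
  have : Fact p.Prime := ⟨hp⟩
  have hq0 : (q : ZMod p) ≠ 0 := by
    rwa [Ne, ZMod.natCast_eq_zero_iff]
  have hpow : (q : ZMod p) ^ (p - 1) = 1 := ZMod.pow_card_sub_one_eq_one hq0
  have hedvd : orderOf (q : ZMod p) ∣ p - 1 := orderOf_dvd_of_pow_eq_one hpow
  have hp1 : 0 < p - 1 := by have := hp.two_le; omega
  have hepos : 0 < orderOf (q : ZMod p) := Nat.pos_of_dvd_of_pos hedvd hp1
  have hpe : ¬ p ∣ orderOf (q : ZMod p) := by
    intro h
    have := Nat.le_of_dvd hp1 (h.trans hedvd)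
    omega
  have key : ((p : ℤ) ∣ (Polynomial.cyclotomic f ℤ).eval (q : ℤ)) ↔
      (Polynomial.cyclotomic f (ZMod p)).IsRoot (q : ZMod p) := by
    rw [← ZMod.intCast_zmod_eq_zero_iff_dvd, IsRoot.def, ← map_cyclotomic_int f (ZMod p)]
    have : (((Polynomial.cyclotomic f ℤ).eval (q : ℤ) : ℤ) : ZMod p) =
        ((Polynomial.cyclotomic f ℤ).map (Int.castRingHom (ZMod p))).eval (q : ZMod p) := by
      rw [eval_map, eval₂_at_natCast]
      simp
    rw [this]
  rw [key]
  have main : ∀ (k m : ℕ), ¬ p ∣ m → ((Polynomial.cyclotomic (p ^ k * m) (ZMod p)).IsRoot (q : ZMod p) ↔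
      orderOf (q : ZMod p) = m) := by
    intro k m hm
    have : NeZero (m : ZMod p) := ⟨by rwa [Ne, ZMod.natCast_eq_zero_iff]⟩
    rw [isRoot_cyclotomic_prime_pow_mul_iff_of_charP, IsPrimitiveRoot.iff_orderOf]
  constructor
  · intro h
    rcases Nat.eq_zero_or_pos f with rfl | hf
    · simp at h
    · obtain ⟨k, m, hm, hfm⟩ := Nat.exists_eq_pow_mul_and_not_dvd hf.ne' p hp.ne_one
      rw [hfm, main k m hm] at h
      exact ⟨k, by rw [hfm, h, mul_comm]⟩
  · rintro ⟨j, rfl⟩
    rw [mul_comm, main j _ hpe]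

end Cfsg.Agent.S4230
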