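import Mathlib
import Cfsg.Statements.S4236
import Cfsg.Agent.Lib.Helper22.SylowTwoP

set_option autoImplicit false
open Cfsg

namespace Cfsg.Agent.S4236

open Subgroup Cfsg.Agent.Lib.Helper22

theorem no_red {G : Type*} [Group G] [Finite G] [Fact (Nat.Prime 17)] (h : Red 17 G) : False := by
  obtain ⟨e, he, hG⟩ := h.card_eq
  have hodd := h.odd_card
  have he16 : e ∣ 16 := he
  have hoe : Odd e := by
    rw [hG] at hodd
    exact (Nat.odd_mul.1 (Nat.odd_mul.1 hodd).2).2
  have he1 : e = 1 := by
    have hle : e ≤ 16 := Nat.le_of_dvd (by norm_num) he16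
    interval_cases e <;> first | rfl | (exfalso; revert hoe; decide) | (exfalso; revert he16; decide)
  subst he1
  have hG' : Nat.card G = 5 ^ 1 * 119 := by rw [hG]; norm_num
  have := Fact.mk (show Nat.Prime 5 by norm_num)
  obtain ⟨F⟩ : Nonempty (Sylow 5 G) := inferInstance
  obtain ⟨hF, hFi⟩ := sylow_card_index hG' (by norm_num) F
  have h1 : Nat.card (Sylow 5 G) ∣ 119 := hFi ▸ F.card_dvd_index
  have h2 : Nat.card (Sylow 5 G) ≡ 1 [MOD 5] := card_sylow_modEq_one 5 G
  have h3 : Nat.card (Sylow 5 G) = 1 := by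
    generalize Nat.card (Sylow 5 G) = n at h1 h2
    have hmem : n ∈ Nat.divisors 119 := Nat.mem_divisors.2 ⟨h1, by norm_num⟩
    have hdiv : Nat.divisors 119 = {1, 7, 17, 119} := by decide
    rw [hdiv] at hmem
    simp only [Finset.mem_insert, Finset.mem_singleton] at hmem
    rcases hmem with rfl | rfl | rfl | rfl
    · rfl
    all_goals (exfalso; revert h2; decide)
  refine h.false_of_normal F (sylow_normal_of_card_eq_one h3 F) ?_ (by rw [hF]; norm_num)
  intro hb
  rw [hb, card_bot] at hF
  norm_num at hF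

/-- No finite group has exactly 35 Sylow 17-subgroups. -/
theorem result {G : Type*} [Group G] [Finite G] : Nat.card (Sylow 17 G) ≠ 35 := by
  have := Fact.mk (show Nat.Prime 17 by norm_num)
  exact card_sylow_ne_two_mul_add_one (p := 17) (by norm_num) (fun G _ _ h => no_red h) _ G rfl

end Cfsg.Agent.S4236
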