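import Cfsg.Statements.S4244
import Cfsg.Agent.Lib.Helper22.Index

set_option autoImplicit false
open Cfsg

namespace Cfsg.Agent.S4244

open Cfsg.Agent.Lib.Helper22

/-- Let H be a subnormal subgroup of a finite group G. Then for every subgroup K of G the index of H ∩ K in H divides the index of K in G. -/
theorem result {G : Type*} [Group G] [Finite G] (H : Subgroup G) (hH : H.IsSubnormal) (K : Subgroup G) :
    (H ⊓ K).relIndex H ∣ K.index := by
  rw [Subgroup.inf_relIndex_left]
  induction hH with
  | top => rw [Subgroup.relIndex_top_right]
  | step H M hle hM hN ih =>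
    have h1 := relIndex_dvd_index_of_normal_right (H.subgroupOf M) (K.subgroupOf M)
    rw [Subgroup.relIndex_subgroupOf hle] at h1
    exact h1.trans ih

end Cfsg.Agent.S4244
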