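import Cfsg.Statements.S4245
import Cfsg.Agent.Lib.Helper22.Kazarin
import Cfsg.Agent.Lib.Helper22.TwoCentral

set_option autoImplicit false
set_option linter.unusedSectionVars false
set_option linter.style.haveILetI false
open Cfsg

namespace Cfsg.Agent.S4245

open Subgroup Cfsg.Agent.Lib.Helper22

/-- a group with an abelian subgroup of prime power index is solvable (by Kazarin's theorem) -/
theorem solvable_of_comm_index {K : Type*} [Group K] [Finite K] {p s : ℕ} (hp : p.Prime)
    (B : Subgroup K) (hB : ∀ x ∈ B, ∀ y ∈ B, x * y = y * x) (hidx : B.index ∣ p ^ s) :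
    Group.IsSolvable K := by
  obtain ⟨R, hRn, hRs, hRmax⟩ := exists_solvable_radical (G := K)
  have hBR : B ≤ R := by
    intro b hb
    have h1 : B ≤ centralizer {b} := fun x hx => mem_centralizer_singleton_iff.2 (hB x hx b hb)
    obtain ⟨j, -, hj⟩ := (Nat.dvd_prime_pow hp).1 ((index_dvd_of_le h1).trans hidx)
    exact hRmax _ normalClosure_normal (kazarin hp b j hj)
      (subset_normalClosure (Set.mem_singleton b))
  haveI := hRn
  have h2 : IsPGroup p (K ⧸ R) := by
    obtain ⟨j, -, hj⟩ := (Nat.dvd_prime_pow hp).1 ((index_dvd_of_le hBR).trans hidx)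
    exact IsPGroup.of_card (n := j) (by rw [← index_eq_card, hj])
  haveI : Fact p.Prime := ⟨hp⟩
  exact Cfsg.Agent.Lib.Lead.isSolvable_of_normal R hRs
    (Cfsg.Agent.Lib.Lead.isSolvable_of_isPGroup h2)

section quot

universe u

variable {G : Type u} [Group G]

/-- the map of a subgroup `X ≤ B⟨a⟩` to the cyclic group `B⟨a⟩/B`. -/
theorem exists_hom_cyclic {B X : Subgroup G} {a : G} {m : ℕ} (ha : a ∈ normalizer (B : Set G))
    (hX : X ≤ B ⊔ zpowers a) (ham : a ^ m ∈ B) :
    ∃ (C : Type u) (_ : Group C) (_ : IsCyclic C) (f : X →* C), f.ker = B.subgroupOf X ∧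
      ∀ c : C, c ^ m = 1 := by
  obtain ⟨Nz, hNz⟩ : ∃ Nz, Nz = normalizer (B : Set G) := ⟨_, rfl⟩
  have hBN : B ≤ Nz := hNz ▸ le_normalizer
  have haN : a ∈ Nz := hNz ▸ ha
  haveI hn : (B.subgroupOf Nz).Normal := by
    rw [hNz]; exact normal_in_normalizer
  obtain ⟨ab, hab⟩ : ∃ ab : Nz ⧸ B.subgroupOf Nz, ab = QuotientGroup.mk' _ ⟨a, haN⟩ := ⟨_, rfl⟩
  have hXN : X ≤ Nz := hX.trans (sup_le hBN (zpowers_le.2 haN))
  have hD : B ⊔ zpowers a ≤
      ((zpowers ab).comap (QuotientGroup.mk' (B.subgroupOf Nz))).map Nz.subtype := by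
    apply sup_le
    · intro b hb
      refine ⟨⟨b, hBN hb⟩, ?_, rfl⟩
      apply mem_comap.2
      have : QuotientGroup.mk' (B.subgroupOf Nz) ⟨b, hBN hb⟩ = 1 :=
        (QuotientGroup.eq_one_iff _).2 (mem_subgroupOf.2 hb)
      rw [this]
      exact one_mem _
    · apply zpowers_le.2
      refine ⟨⟨a, haN⟩, ?_, rfl⟩
      apply mem_comap.2
      rw [← hab]
      exact mem_zpowers _
  let f0 : X →* Nz ⧸ B.subgroupOf Nz := (QuotientGroup.mk' _).comp (inclusion hXN)
  have hf0 : ∀ x : X, f0 x ∈ zpowers ab := by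
    intro x
    obtain ⟨y, hy, hyx⟩ := hD (hX x.2)
    have : y = inclusion hXN x := Subtype.ext hyx
    rw [this] at hy
    exact hy
  refine ⟨zpowers ab, inferInstance, inferInstance, f0.codRestrict (zpowers ab) hf0, ?_, ?_⟩
  · ext x
    rw [MonoidHom.mem_ker, mem_subgroupOf]
    constructor
    · intro h
      have h1 : f0 x = 1 := Subtype.ext_iff.1 h
      exact mem_subgroupOf.1 ((QuotientGroup.eq_one_iff (N := B.subgroupOf Nz) (inclusion hXN x)).1 h1)
    · intro h
      apply Subtype.ext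
      exact (QuotientGroup.eq_one_iff _).2 (mem_subgroupOf.2 h)
  · rintro ⟨c, hc⟩
    obtain ⟨k, rfl⟩ := mem_zpowers_iff.1 hc
    apply Subtype.ext
    show (ab ^ k) ^ m = 1
    have h1 : ab ^ m = 1 := by
      rw [hab, ← map_pow]
      exact (QuotientGroup.eq_one_iff _).2 (mem_subgroupOf.2 ham)
    rw [← zpow_natCast, ← zpow_mul, mul_comm, zpow_mul, zpow_natCast, h1, one_zpow]

theorem relIndex_dvd_of_le_sup [Finite G] {B X : Subgroup G} {a : G} {m : ℕ}
    (ha : a ∈ normalizer (B : Set G)) (hX : X ≤ B ⊔ zpowers a) (ham : a ^ m ∈ B) :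
    B.relIndex X ∣ m := by
  obtain ⟨C, _, hC, f, hf, hm⟩ := exists_hom_cyclic ha hX ham
  have h1 : B.relIndex X = Nat.card f.range := by
    rw [← index_ker, hf]; rfl
  rw [h1]
  haveI : IsCyclic f.range := inferInstance
  obtain ⟨g, hg⟩ := IsCyclic.exists_generator (α := f.range)
  have h2 : Nat.card f.range = orderOf g := by
    rw [← Nat.card_zpowers, (eq_top_iff' _).2 hg, card_top]
  rw [h2]
  apply orderOf_dvd_of_pow_eq_one
  exact Subtype.ext (hm g)

theorem isCyclic_of_le_sup {B X : Subgroup G} {a : G} {m : ℕ}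
    (ha : a ∈ normalizer (B : Set G)) (hX : X ≤ B ⊔ zpowers a) (ham : a ^ m ∈ B)
    (hXB : X ⊓ B = ⊥) : IsCyclic X := by
  obtain ⟨C, _, hC, f, hf, -⟩ := exists_hom_cyclic ha hX ham
  apply isCyclic_of_injective f
  rw [← MonoidHom.ker_eq_bot_iff, hf, eq_bot_iff]
  intro x hx
  have h1 : (x : G) ∈ X ⊓ B := mem_inf.2 ⟨x.2, mem_subgroupOf.1 hx⟩
  rw [hXB, mem_bot] at h1
  exact mem_bot.2 (Subtype.ext h1)

theorem exists_normal_two_complement [Finite G] (T : Sylow 2 G) (hT : IsCyclic (T : Subgroup G)) :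
    ∃ K : Subgroup G, K.Normal ∧ ¬ 2 ∣ Nat.card K ∧ ∃ e : ℕ, K.index = 2 ^ e := by
  by_cases h2 : 2 ∣ Nat.card G
  · have hmin : (Nat.card G).minFac = 2 := (Nat.minFac_eq_two_iff _).2 h2
    have hc := IsCyclic.isComplement' hmin (P := T) hT
    refine ⟨(MonoidHom.transferSylow T (hT.normalizer_le_centralizer hmin)).ker,
      inferInstance, ?_, ?_⟩
    · exact MonoidHom.not_dvd_card_ker_transferSylow T (hT.normalizer_le_centralizer hmin)
    · obtain ⟨e, he⟩ := T.2.exists_card_eq
      exact ⟨e, by rw [hc.symm.index_eq_card, he]⟩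
  · exact ⟨⊤, inferInstance, by rwa [card_top], 0, by simp⟩

theorem le_of_coprime_card_index [Finite G] {B K : Subgroup G} [K.Normal]
    (h : (Nat.card B).Coprime K.index) : B ≤ K := by
  rw [← relIndex_eq_one]
  exact Nat.eq_one_of_dvd_coprimes (k := K.relIndex B) h (relIndex_dvd_card K B)
    (relIndex_dvd_index_of_normal K B)

/-- a cyclic group has at most one involution -/
theorem involution_unique {C : Type*} [Group C] [Finite C] [IsCyclic C] {u v : C}
    (hu : orderOf u = 2) (hv : orderOf v = 2) : u = v := by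
  classical
  cases nonempty_fintype C
  by_contra hne
  have h1 := IsCyclic.card_pow_eq_one_le (α := C) (n := 2) (by norm_num)
  have hu1 : u ≠ 1 := fun h => by rw [h, orderOf_one] at hu; omega
  have hv1 : v ≠ 1 := fun h => by rw [h, orderOf_one] at hv; omega
  have h2 : ({1, u, v} : Finset C) ⊆ Finset.univ.filter (fun a : C => a ^ 2 = 1) := by
    intro x hx
    simp only [Finset.mem_insert, Finset.mem_singleton] at hx
    rw [Finset.mem_filter]
    refine ⟨Finset.mem_univ _, ?_⟩
    rcases hx with rfl | rfl | rfl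
    · simp
    · rw [← hu]; exact pow_orderOf_eq_one _
    · rw [← hv]; exact pow_orderOf_eq_one _
  have h3 : ({1, u, v} : Finset C).card = 3 := by
    rw [Finset.card_insert_of_notMem, Finset.card_insert_of_notMem, Finset.card_singleton]
    · simpa using hne
    · simp only [Finset.mem_insert, Finset.mem_singleton, not_or]
      exact ⟨fun h => hu1 h.symm, fun h => hv1 h.symm⟩
  have := Finset.card_le_card h2
  omega

end quot

theorem main.{u} {p : ℕ} (hp : p.Prime) : ∀ n : ℕ, ∀ (G : Type u) [Group G] [Finite G],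
    Nat.card G = n → ∀ (A B : Subgroup G) (a : G) (r s : ℕ), B ≤ A → IsCyclic B →
      A ≤ normalizer (B : Set G) → a ∈ normalizer (B : Set G) → A ≤ B ⊔ zpowers a →
      a ^ (2 ^ r) ∈ B → A.index ∣ p ^ s → Group.IsSolvable G := by
  intro n
  induction n using Nat.strong_induction_on with
  | _ n IH =>
  intro G _ _ hn A B a r s hBA hcyc hAN ha hgen hpow hidx
  have hcomm : ∀ x ∈ B, ∀ y ∈ B, x * y = y * x := by
    intro x hx y hy
    have hc : IsMulCommutative B := IsCyclic.isMulCommutative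
    exact congrArg Subtype.val (hc.is_comm.comm ⟨x, hx⟩ ⟨y, hy⟩)
  have hBidx : B.index ∣ 2 ^ r * p ^ s := by
    rw [← relIndex_mul_index hBA]
    exact Nat.mul_dvd_mul (relIndex_dvd_of_le_sup ha hgen hpow) hidx
  by_cases hp2 : p = 2
  · subst hp2
    rw [← pow_add] at hBidx
    exact solvable_of_comm_index hp B hcomm hBidx
  by_cases hS : ∃ S : Subgroup G, S.Normal ∧ Group.IsSolvable S ∧ S ≠ ⊥
  · obtain ⟨S, hSn, hSs, hS1⟩ := hS
    haveI := hSn
    have hcard : Nat.card (G ⧸ S) < n := by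
      rw [← hn, ← index_eq_card, ← S.card_mul_index]
      have h1 : 1 < Nat.card S := (one_lt_card_iff_ne_bot S).2 hS1
      have h2 : 0 < S.index := Nat.pos_of_ne_zero index_ne_zero_of_finite
      nlinarith
    have hsurj := QuotientGroup.mk'_surjective S
    have h3 : Group.IsSolvable (G ⧸ S) := by
      refine IH _ hcard (G ⧸ S) rfl (A.map (QuotientGroup.mk' S)) (B.map (QuotientGroup.mk' S))
        (QuotientGroup.mk' S a) r s (map_mono hBA) ?_ ?_ ?_ ?_ ?_ ?_
      · exact isCyclic_of_surjective ((QuotientGroup.mk' S).subgroupMap B)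
          ((QuotientGroup.mk' S).subgroupMap_surjective B)
      · exact (map_mono hAN).trans (le_normalizer_map _)
      · exact le_normalizer_map _ (mem_map_of_mem _ ha)
      · rw [← MonoidHom.map_zpowers, ← Subgroup.map_sup]
        exact map_mono hgen
      · rw [← map_pow]
        exact mem_map_of_mem _ hpow
      · exact (index_map_dvd A hsurj).trans hidx
    exact Cfsg.Agent.Lib.Lead.isSolvable_of_normal S hSs h3
  push Not at hS
  have hp2' : ¬ 2 ∣ p ^ s := fun h =>
    hp2 ((Nat.prime_dvd_prime_iff_eq Nat.prime_two hp).1 (Nat.prime_two.dvd_of_dvd_pow h)).symm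
  -- `B` has odd order
  have hBodd : ¬ 2 ∣ Nat.card B := by
    intro h2
    obtain ⟨u, hu⟩ := exists_prime_orderOf_dvd_card' 2 h2
    have hAu : A ≤ centralizer ({(u : G)} : Set G) := by
      intro x hx
      rw [mem_centralizer_singleton_iff]
      have h1 : x * u * x⁻¹ ∈ B := (mem_normalizer_iff.1 (hAN hx) u).1 u.2
      have h2 : orderOf (⟨x * u * x⁻¹, h1⟩ : B) = 2 := by
        rw [← Subgroup.orderOf_coe] at hu ⊢
        rw [← hu]
        exact (SemiconjBy.orderOf_eq _ (show SemiconjBy x (u : G) (x * u * x⁻¹) by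
          unfold SemiconjBy; group)).symm
      have h3 := involution_unique h2 hu
      have h4 : x * u * x⁻¹ = u := congrArg Subtype.val h3
      calc x * u = (x * u * x⁻¹) * x := by group
        _ = u * x := by rw [h4]
    obtain ⟨j, -, hj⟩ := (Nat.dvd_prime_pow hp).1 ((index_dvd_of_le hAu).trans hidx)
    have h5 := hS _ normalClosure_normal (kazarin hp (u : G) j hj)
    have h6 : (u : G) ∈ normalClosure ({(u : G)} : Set G) :=
      subset_normalClosure (Set.mem_singleton _)
    rw [h5, mem_bot] at h6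
    have h7 : u = 1 := Subtype.ext h6
    rw [h7, orderOf_one] at hu
    omega
  obtain ⟨T, hT⟩ := exists_sylow_le_of_not_dvd_index (p := 2) A (fun h => hp2' (h.trans hidx))
  have hTB : (T : Subgroup G) ⊓ B = ⊥ := by
    apply disjoint_iff.mp
    apply disjoint_of_coprime_natCard
    obtain ⟨e, he⟩ := T.2.exists_card_eq
    rw [he]
    exact Nat.Coprime.pow_left e ((Nat.Prime.coprime_iff_not_dvd Nat.prime_two).2 hBodd)
  have hTc : IsCyclic (T : Subgroup G) := isCyclic_of_le_sup ha (hT.trans hgen) hpow hTB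
  obtain ⟨K, hKn, hKodd, e, hKe⟩ := exists_normal_two_complement T hTc
  haveI := hKn
  have hBK : B ≤ K := by
    apply le_of_coprime_card_index
    rw [hKe]
    exact Nat.Coprime.pow_right e ((Nat.Prime.coprime_iff_not_dvd Nat.prime_two).2 hBodd).symm
  have hrel : B.relIndex K ∣ p ^ s := by
    have h1 : B.relIndex K ∣ 2 ^ r * p ^ s :=
      (Dvd.intro _ (relIndex_mul_index hBK)).trans hBidx
    apply Nat.Coprime.dvd_of_dvd_mul_left _ h1
    apply Nat.Coprime.pow_right r
    rw [Nat.coprime_comm, Nat.Prime.coprime_iff_not_dvd Nat.prime_two]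
    exact fun h => hKodd (h.trans (relIndex_dvd_card B K))
  have hKs : Group.IsSolvable K := by
    apply solvable_of_comm_index hp (B.subgroupOf K) _ hrel
    intro x hx y hy
    exact Subtype.ext (hcomm x (mem_subgroupOf.1 hx) y (mem_subgroupOf.1 hy))
  have hQ : IsPGroup 2 (G ⧸ K) := IsPGroup.of_card (n := e) (by rw [← index_eq_card, hKe])
  exact Cfsg.Agent.Lib.Lead.isSolvable_of_normal K hKs
    (Cfsg.Agent.Lib.Lead.isSolvable_of_isPGroup hQ)

/-- Let G be a finite group with a subgroup A of prime-power index. Suppose A has a normal cyclic subgroup B such that A/B is cyclic of order a power of 2. Then G is solvable. -/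
theorem result {G : Type*} [Group G] [Finite G] (A : Subgroup G) (p s : ℕ) (hp : p.Prime) (hA : A.index = p ^ s)
    (B : Subgroup A) [B.Normal] (hB : IsCyclic B) (hAB : IsCyclic (A ⧸ B)) (r : ℕ) (hr : Nat.card (A ⧸ B) = 2 ^ r) :
    Group.IsSolvable G := by
  obtain ⟨gb, hgb⟩ := IsCyclic.exists_generator (α := A ⧸ B)
  obtain ⟨a0, rfl⟩ := QuotientGroup.mk'_surjective B gb
  have hnorm : A ≤ normalizer ((B.map A.subtype : Subgroup G) : Set G) := by
    intro x hx
    rw [mem_normalizer_iff]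
    intro y
    constructor
    · rintro ⟨b, hb, rfl⟩
      exact ⟨⟨x, hx⟩ * b * ⟨x, hx⟩⁻¹, (inferInstance : B.Normal).conj_mem b hb _, rfl⟩
    · rintro ⟨b, hb, hby⟩
      refine ⟨⟨x, hx⟩⁻¹ * b * ⟨x, hx⟩, ?_, ?_⟩
      · have := (inferInstance : B.Normal).conj_mem b hb ⟨x, hx⟩⁻¹
        simpa using this
      · simp only [subtype_apply, coe_mul, InvMemClass.coe_inv]
        have hby' : (b : G) = x * y * x⁻¹ := hby
        rw [hby']
        group
  refine main hp _ G rfl A (B.map A.subtype) (a0 : G) r s (map_subtype_le B) ?_ hnorm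
    (hnorm a0.2) ?_ ?_ hA.dvd
  · exact isCyclic_of_surjective (A.subtype.subgroupMap B) (A.subtype.subgroupMap_surjective B)
  · intro x hx
    obtain ⟨k, hk⟩ := mem_zpowers_iff.1 (hgb (QuotientGroup.mk' B ⟨x, hx⟩))
    have h1 : (a0 ^ k)⁻¹ * ⟨x, hx⟩ ∈ B := by
      rw [← QuotientGroup.eq, QuotientGroup.mk_zpow]
      exact hk
    have h2 : x = ((a0 : G) ^ k) * (((a0 ^ k)⁻¹ * ⟨x, hx⟩ : A) : G) := by
      simp
    rw [h2]
    exact mul_mem (le_sup_right (a := B.map A.subtype) (zpow_mem (mem_zpowers _) k))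
      (le_sup_left (b := zpowers (a0 : G)) ⟨_, h1, rfl⟩)
  · refine ⟨a0 ^ (2 ^ r), ?_, by simp⟩
    show a0 ^ (2 ^ r) ∈ B
    rw [← QuotientGroup.eq_one_iff, QuotientGroup.mk_pow, ← hr]
    exact pow_card_eq_one'

end Cfsg.Agent.S4245
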