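import Cfsg.Statements.S4253

set_option autoImplicit false
open Cfsg

namespace Cfsg.Agent.S4253

open scoped Pointwise

/-- Let H be a Frobenius complement in a finite group G (a nontrivial proper subgroup meeting each conjugate gHg⁻¹ with g outside H trivially). Then in the action of G on the left cosets of H by left multiplication, no non-identity element of G fixes two distinct cosets. -/
theorem result {G : Type*} [Group G] [Finite G] (H : Subgroup G) (hH : Cfsg.IsFrobeniusComplement H)
    (g : G) (hg : g ≠ 1) (a b : G ⧸ H) (ha : g • a = a) (hb : g • b = b) : a = b := by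
  induction a using QuotientGroup.induction_on with
  | H x =>
  induction b using QuotientGroup.induction_on with
  | H y =>
  rw [MulAction.Quotient.smul_coe, QuotientGroup.eq, smul_eq_mul] at ha hb
  rw [QuotientGroup.eq]
  by_contra hc
  have h1 := hH.2.2 _ hc
  have hx : x⁻¹ * g * x ∈ H := by
    have := H.inv_mem ha
    simpa [mul_assoc] using this
  have hy : y⁻¹ * g * y ∈ H := by
    have := H.inv_mem hb
    simpa [mul_assoc] using this
  have h2 : x⁻¹ * g * x ∈ H ⊓ (MulAut.conj (x⁻¹ * y) • H) := by
    refine Subgroup.mem_inf.mpr ⟨hx, ?_⟩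
    rw [Subgroup.mem_pointwise_smul_iff_inv_smul_mem]
    have : (MulAut.conj (x⁻¹ * y))⁻¹ • (x⁻¹ * g * x) = y⁻¹ * g * y := by
      simp [MulAut.smul_def, MulAut.inv_apply, MulAut.conj_symm_apply]
      group
    rw [this]; exact hy
  rw [h1, Subgroup.mem_bot] at h2
  apply hg
  have : g = x * (x⁻¹ * g * x) * x⁻¹ := by group
  rw [this, h2]; group

end Cfsg.Agent.S4253
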