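import Mathlib
import Cfsg.Statements.S4261
import Cfsg.Agent.S0048
import Cfsg.Agent.Lib.Lead.Basic
import Cfsg.Agent.Lib.Helper1.Transfer
import Cfsg.Agent.Lib.Helper22.Frat

set_option autoImplicit false
open Cfsg

namespace Cfsg.Agent.S4261

open Cfsg.Agent.Lib.Helper1 Cfsg.Agent.Lib.Helper22 Cfsg.Agent.Lib.Lead

/-- Let M be a maximal subgroup of a finite solvable group G such that x^[G : M] lies in M for every x in G. Then M is normal in G. -/
theorem result {G : Type*} [Group G] [Finite G] (hG : Group.IsSolvable G) (M : Subgroup G) (hM : IsCoatom M)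
    (hexp : ∀ x : G, x ^ M.index ∈ M) : M.Normal := by
  obtain ⟨p, k, hp, hk, hpk⟩ := Cfsg.Agent.S0048.result M hM
  have hp' : p.Prime := hp.nat_prime
  have := Fact.mk hp'
  have hRn : (Cfsg.pResidual p G).Normal := pResidual_normal p
  have hRM : Cfsg.pResidual p G ≤ M := by
    unfold Cfsg.pResidual
    rw [Subgroup.closure_le]
    intro g hg
    have hg' : Nat.Coprime (orderOf g) p := hg
    obtain ⟨m, hm⟩ := exists_pow_eq_self_of_coprime (x := g) (n := M.index)
      (by rw [← hpk]; exact (hg'.pow_right k).symm)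
    rw [SetLike.mem_coe, ← hm]
    exact M.pow_mem (hexp g) m
  have hQ : IsPGroup p (G ⧸ Cfsg.pResidual p G) := isPGroup_quotient_pResidual p
  have hco : IsCoatom (M.map (QuotientGroup.mk' (Cfsg.pResidual p G))) :=
    isCoatom_map_of_surjective _ (QuotientGroup.mk'_surjective _) M hM
      (by rw [QuotientGroup.ker_mk']; exact hRM)
  have hn := (coatom_normal_index hQ _ hco).1
  have hcm : (M.map (QuotientGroup.mk' (Cfsg.pResidual p G))).comap
      (QuotientGroup.mk' (Cfsg.pResidual p G)) = M := by
    rw [Subgroup.comap_map_eq, QuotientGroup.ker_mk', sup_eq_left.mpr hRM]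
  rw [← hcm]
  exact hn.comap _

end Cfsg.Agent.S4261
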