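import Cfsg.Statements.S4263
import Cfsg.Agent.Lib.Helper1.Fitting
import Cfsg.Agent.Lib.Helper22.Index

set_option autoImplicit false
open Cfsg

namespace Cfsg.Agent.S4263

theorem pow_index_mem_of_nilpotent {N : Type*} [Group N] [Finite N] [Group.IsNilpotent N]
    (n : ℕ) : ∀ (R : Subgroup N), R.index = n → ∀ x : N, x ^ R.index ∈ R := by
  induction n using Nat.strong_induction_on with
  | _ n ih =>
    intro R hR x
    by_cases htop : R = ⊤
    · rw [htop]; exact Subgroup.mem_top _
    have hlt : R < Subgroup.normalizer (R : Set N) :=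
      Group.normalizerCondition_of_isNilpotent R (lt_top_iff_ne_top.mpr htop)
    set R₁ := Subgroup.normalizer (R : Set N) with hR₁
    have hmul : R.relIndex R₁ * R₁.index = R.index := Subgroup.relIndex_mul_index hlt.le
    have hrel : R.relIndex R₁ ≠ 1 := by
      intro h1
      exact hlt.not_ge (Subgroup.relIndex_eq_one.mp h1)
    have hpos : 0 < R₁.index := Nat.pos_of_ne_zero Subgroup.index_ne_zero_of_finite
    have hrel0 : R.relIndex R₁ ≠ 0 := by
      intro h0
      rw [h0, zero_mul] at hmul
      exact Subgroup.index_ne_zero_of_finite hmul.symm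
    have hlt' : R₁.index < n := by
      rw [← hR, ← hmul]
      have : 2 ≤ R.relIndex R₁ := by omega
      nlinarith
    have h1 : x ^ R₁.index ∈ R₁ := ih _ hlt' R₁ rfl x
    have hn : (R.subgroupOf R₁).Normal := Subgroup.normal_in_normalizer
    have h2 : (⟨x ^ R₁.index, h1⟩ : R₁) ^ (R.subgroupOf R₁).index ∈ R.subgroupOf R₁ :=
      (R.subgroupOf R₁).pow_index_mem _
    rw [Subgroup.mem_subgroupOf] at h2
    rw [← hmul, mul_comm, pow_mul]
    exact h2

/-- Let G be a finite group. An element x lies in the Fitting subgroup F(G) if and only if, for every subgroup H of G, the power x^[G : H] lies in H. -/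
theorem result {G : Type*} [Group G] [Finite G] (x : G) :
    x ∈ Cfsg.fittingSubgroup G ↔ ∀ H : Subgroup G, x ^ H.index ∈ H := by
  have hFn : (Cfsg.fittingSubgroup G).Normal := Cfsg.Agent.Lib.Helper1.fitting_normal
  constructor
  · intro hx H
    have hnil : Group.IsNilpotent (Cfsg.fittingSubgroup G) := Cfsg.Agent.Lib.Helper1.fitting_nilpotent
    have h1 := pow_index_mem_of_nilpotent _ (H.subgroupOf (Cfsg.fittingSubgroup G)) rfl ⟨x, hx⟩
    rw [Subgroup.mem_subgroupOf] at h1
    have h2 : H.relIndex (Cfsg.fittingSubgroup G) ∣ H.index :=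
      Cfsg.Agent.Lib.Helper22.relIndex_dvd_index_of_normal_right _ _
    obtain ⟨c, hc⟩ := h2
    rw [hc, pow_mul]
    exact H.pow_mem h1 c
  · intro h
    rw [← QuotientGroup.eq_one_iff, ← orderOf_eq_one_iff]
    by_contra hne
    obtain ⟨p, hp, hpd⟩ := Nat.exists_prime_and_dvd hne
    have : Fact p.Prime := ⟨hp⟩
    obtain ⟨P⟩ : Nonempty (Sylow p G) := inferInstance
    have hidx : ∀ Q : Sylow p G, (Q : Subgroup G).index = (P : Subgroup G).index := by
      intro Q
      have h1 := Subgroup.card_mul_index (Q : Subgroup G)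
      have h2 := Subgroup.card_mul_index (P : Subgroup G)
      rw [Q.card_eq_multiplicity] at h1
      rw [P.card_eq_multiplicity] at h2
      exact Nat.eq_of_mul_eq_mul_left (pow_pos hp.pos _) (h1.trans h2.symm)
    have h1 : x ^ (P : Subgroup G).index ∈ Cfsg.pCore p G := by
      rw [Cfsg.Agent.Lib.Helper1.pCore_eq_iInf_sylow, Subgroup.mem_iInf]
      intro Q
      rw [← hidx Q]
      exact h Q
    have h2 : x ^ (P : Subgroup G).index ∈ Cfsg.fittingSubgroup G :=
      Cfsg.Agent.Lib.Helper1.le_fitting (Cfsg.Agent.Lib.Helper1.pCore_normal p)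
        (Cfsg.Agent.Lib.Helper1.pCore_isPGroup p).isNilpotent h1
    rw [← QuotientGroup.eq_one_iff, QuotientGroup.mk_pow] at h2
    exact P.not_dvd_index (hpd.trans (orderOf_dvd_of_pow_eq_one h2))

end Cfsg.Agent.S4263
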