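import Mathlib
import Cfsg.Prelude.Def_HallClasses

set_option autoImplicit false
open scoped Pointwise commutatorElement

namespace Cfsg.Agent.S4269

open Subgroup

variable {G : Type*} [Group G]

theorem mem_map_conj {H : Subgroup G} {g x : G} :
    x ∈ H.map (MulAut.conj g).toMonoidHom ↔ g⁻¹ * x * g ∈ H := by
  constructor
  · rintro ⟨y, hy, rfl⟩
    simpa [mul_assoc] using hy
  · intro h
    exact ⟨g⁻¹ * x * g, h, by simp [mul_assoc]⟩

theorem map_conj_mul (H : Subgroup G) (a b : G) :
    H.map (MulAut.conj (a * b)).toMonoidHom =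
      (H.map (MulAut.conj b).toMonoidHom).map (MulAut.conj a).toMonoidHom := by
  ext x
  simp only [mem_map_conj]
  constructor <;> intro h <;> convert h using 1 <;> group

theorem map_conj_of_mem {H : Subgroup G} {h : G} (hh : h ∈ H) :
    H.map (MulAut.conj h).toMonoidHom = H := by
  ext x
  rw [mem_map_conj]
  constructor
  · intro hx
    have := H.mul_mem (H.mul_mem hh hx) (H.inv_mem hh)
    simpa [mul_assoc] using this
  · intro hx
    exact H.mul_mem (H.mul_mem (H.inv_mem hh) hx) hh

theorem map_conj_of_mem_normalizer {H : Subgroup G} {n : G} (hn : n ∈ normalizer (H : Set G)) :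
    H.map (MulAut.conj n).toMonoidHom = H := by
  ext x
  rw [mem_map_conj]
  have := (mem_normalizer_iff.1 (inv_mem hn)) x
  rw [inv_inv] at this
  exact this.symm

theorem mem_normalizer_of_map_conj {H : Subgroup G} {n : G}
    (hn : H.map (MulAut.conj n).toMonoidHom = H) : n ∈ normalizer (H : Set G) := by
  rw [mem_normalizer_iff]
  intro x
  conv_rhs => rw [← hn, mem_map_conj]
  constructor <;> intro h <;> convert h using 1 <;> group

/-- `[H, U]` is normal in `G = HV`. -/
theorem comm_normal (V : Subgroup G) (hV : IsMulCommutative ↥V) (H : Subgroup G)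
    (hHV : H ⊔ V = ⊤) (U : Subgroup G) (hU : U ≤ V)
    (hinv : ∀ h ∈ H, U.map (MulAut.conj h).toMonoidHom = U) : (⁅H, U⁆ ≤ U) ∧ (⁅H, U⁆).Normal := by
  have hle : ⁅H, U⁆ ≤ U := by
    rw [commutator_le]
    intro h hh u hu
    have h1 : h * u * h⁻¹ ∈ U := by
      rw [← hinv h hh]
      exact ⟨u, hu, by simp⟩
    exact U.mul_mem h1 (U.inv_mem hu)
  refine ⟨hle, ?_⟩
  rw [← normalizer_eq_top_iff, eq_top_iff, ← hHV, sup_le_iff]
  constructor
  · intro h hh
    apply mem_normalizer_of_map_conj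
    rw [map_commutator, map_conj_of_mem hh, hinv h hh]
  · intro v hv
    rw [mem_normalizer_iff]
    intro x
    constructor
    · intro hx
      have h1 : v * x = x * v :=
        congrArg Subtype.val (hV.is_comm.comm ⟨v, hv⟩ ⟨x, hU (hle hx)⟩)
      rw [h1]; simpa using hx
    · intro hx
      have hx' : v * x * v⁻¹ ∈ V := hU (hle hx)
      have hxV : x ∈ V := by
        have := V.mul_mem (V.mul_mem (V.inv_mem hv) hx') hv
        simpa [mul_assoc] using this
      have h1 : v * x = x * v :=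
        congrArg Subtype.val (hV.is_comm.comm ⟨v, hv⟩ ⟨x, hxV⟩)
      rw [h1] at hx; simpa using hx

/-- Let G be a finite group, V an abelian normal subgroup and H a subgroup with HV = G. Then H is pronormal in G (H and gHg⁻¹ are conjugate inside the subgroup they generate, for every g) if and only if every H-invariant subgroup U of V satisfies U = N_U(H)·[H, U], that is, U is the join of U ∩ N_G(H) and the commutator subgroup [H, U]. -/
theorem result {G : Type*} [Group G] [Finite G]
    (V : Subgroup G) [V.Normal] (hV : IsMulCommutative ↥V) (H : Subgroup G) (hHV : H ⊔ V = ⊤) :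
    Cfsg.IsPronormal H ↔
      ∀ U : Subgroup G, U ≤ V → (∀ h ∈ H, U.map (MulAut.conj h).toMonoidHom = U) →
        U = (U ⊓ Subgroup.normalizer (H : Set G)) ⊔ ⁅H, U⁆ := by
  constructor
  · intro hpro U hU hinv
    obtain ⟨hle, hn⟩ := comm_normal V hV H hHV U hU hinv
    apply le_antisymm _ (sup_le inf_le_left hle)
    intro u hu
    obtain ⟨x, hx, hxe⟩ := hpro u
    have h1 : H ⊔ H.map (MulAut.conj u).toMonoidHom ≤ ⁅H, U⁆ ⊔ H := by
      apply sup_le le_sup_right
      rintro _ ⟨h, hh, rfl⟩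
      have h2 : (MulAut.conj u).toMonoidHom h = ⁅h, u⁆⁻¹ * h := by
        simp [commutatorElement_def, mul_assoc]
      rw [h2]
      exact mul_mem (mem_sup_left (inv_mem (commutator_mem_commutator hh hu))) (mem_sup_right hh)
    have hx' := h1 hx
    rw [← SetLike.mem_coe, normal_mul] at hx'
    obtain ⟨w, hw, h, hh, rfl⟩ := Set.mem_mul.1 hx'
    rw [map_conj_mul, map_conj_of_mem hh] at hxe
    have h3 : w⁻¹ * u ∈ normalizer (H : Set G) := by
      apply mem_normalizer_of_map_conj
      rw [map_conj_mul, hxe, ← map_conj_mul, inv_mul_cancel]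
      exact map_conj_of_mem H.one_mem
    have h4 : u = (w⁻¹ * u) * w := by
      have h5 : w * u = u * w :=
        congrArg Subtype.val (hV.is_comm.comm ⟨w, hU (hle hw)⟩ ⟨u, hU hu⟩)
      rw [mul_assoc, ← h5]; simp
    rw [h4]
    exact mul_mem (mem_sup_left ⟨U.mul_mem (U.inv_mem (hle hw)) hu, h3⟩) (mem_sup_right hw)
  · intro hcond g
    have hg : g ∈ V ⊔ H := by rw [sup_comm, hHV]; trivial
    rw [← SetLike.mem_coe, normal_mul] at hg
    obtain ⟨v, hv, h0, hh0, rfl⟩ := Set.mem_mul.1 hg
    rw [map_conj_mul, map_conj_of_mem hh0]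
    set J := H ⊔ H.map (MulAut.conj v).toMonoidHom with hJ
    have hcomm : ∀ a ∈ V, ∀ b ∈ V, a * b = b * a := fun a ha b hb =>
      congrArg Subtype.val (hV.is_comm.comm ⟨a, ha⟩ ⟨b, hb⟩)
    have hcV : ∀ h : G, ∀ u ∈ V, ⁅h, u⁆ ∈ V := by
      intro h u hu
      exact V.mul_mem (Normal.conj_mem inferInstance u hu h) (V.inv_mem hu)
    let U : Subgroup G :=
      { carrier := {u | u ∈ V ∧ ∀ h ∈ H, ⁅h, u⁆ ∈ J}
        one_mem' := ⟨V.one_mem, fun h _ => by simp⟩
        mul_mem' := by
          rintro a b ⟨ha, ha'⟩ ⟨hb, hb'⟩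
          refine ⟨V.mul_mem ha hb, fun h hh => ?_⟩
          have h1 : ⁅h, a * b⁆ = ⁅h, a⁆ * ⁅h, b⁆ := by
            have h2 : ⁅h, a * b⁆ = ⁅h, a⁆ * (a * ⁅h, b⁆ * a⁻¹) := by
              simp only [commutatorElement_def]; group
            rw [h2, hcomm a ha _ (hcV h b hb)]; simp
          rw [h1]
          exact J.mul_mem (ha' h hh) (hb' h hh)
        inv_mem' := by
          rintro a ⟨ha, ha'⟩
          refine ⟨V.inv_mem ha, fun h hh => ?_⟩
          have h1 : ⁅h, a⁻¹⁆ = ⁅h, a⁆⁻¹ := by
            have h2 : ⁅h, a⁻¹⁆ = a⁻¹ * ⁅h, a⁆⁻¹ * a := by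
              simp only [commutatorElement_def]; group
            rw [h2, hcomm a⁻¹ (V.inv_mem ha) _ (V.inv_mem (hcV h a ha))]; simp
          rw [h1]
          exact J.inv_mem (ha' h hh) }
    have hUV : U ≤ V := fun u hu => hu.1
    have hconjU : ∀ h ∈ H, ∀ u ∈ U, h * u * h⁻¹ ∈ U := by
      rintro h hh u ⟨hu, hu'⟩
      refine ⟨Normal.conj_mem inferInstance u hu h, fun k hk => ?_⟩
      have h1 : ⁅k, h * u * h⁻¹⁆ = h * ⁅h⁻¹ * k * h, u⁆ * h⁻¹ := by
        simp only [commutatorElement_def]; group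
      rw [h1]
      have hhJ : h ∈ J := mem_sup_left hh
      exact J.mul_mem (J.mul_mem hhJ (hu' _ (H.mul_mem (H.mul_mem (H.inv_mem hh) hk) hh)))
        (J.inv_mem hhJ)
    have hinv : ∀ h ∈ H, U.map (MulAut.conj h).toMonoidHom = U := by
      intro h hh
      ext x
      rw [mem_map_conj]
      constructor
      · intro hx
        have := hconjU h hh _ hx
        simpa [mul_assoc] using this
      · intro hx
        have := hconjU h⁻¹ (H.inv_mem hh) _ hx
        simpa using this
    have hvU : v ∈ U := by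
      refine ⟨hv, fun h hh => ?_⟩
      have h1 : ⁅h, v⁆ = h * (v * h⁻¹ * v⁻¹) := by
        simp only [commutatorElement_def]; group
      rw [h1]
      exact J.mul_mem (mem_sup_left hh) (mem_sup_right ⟨h⁻¹, H.inv_mem hh, by simp⟩)
    obtain ⟨hle, hn⟩ := comm_normal V hV H hHV U hUV hinv
    have hWJ : ⁅H, U⁆ ≤ J := by
      rw [commutator_le]
      intro h hh u hu
      exact hu.2 h hh
    have hvU' := hvU
    rw [hcond U hUV hinv, sup_comm, ← SetLike.mem_coe, normal_mul] at hvU'
    obtain ⟨w, hw, n, hn', hwn⟩ := Set.mem_mul.1 hvU'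
    refine ⟨w, hWJ hw, ?_⟩
    rw [← hwn, map_conj_mul, map_conj_of_mem_normalizer hn'.2]

end Cfsg.Agent.S4269
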