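import Mathlib
import Cfsg.Statements.S4331
import Cfsg.Agent.Lib.Helper21.Frobenius
import Cfsg.Agent.Lib.Helper16.Subn
import Cfsg.Agent.Lib.Helper1.Carter
import Cfsg.Agent.Lib.Helper4.Cores


set_option autoImplicit false
open Cfsg

namespace Cfsg.Agent.S4331

open Pointwise

open Cfsg.Agent.Lib.Helper21 Cfsg.Agent.Lib.Helper16 Cfsg.Agent.Lib.Helper1

theorem isPGroup_zpowers {G : Type*} [Group G] {x : G} {p e : ℕ} (h : x ^ (p ^ e) = 1) :
    IsPGroup p (Subgroup.zpowers x) := by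
  rintro ⟨y, hy⟩
  obtain ⟨j, rfl⟩ := Subgroup.mem_zpowers_iff.mp hy
  refine ⟨e, Subtype.ext ?_⟩
  change (x ^ j) ^ (p ^ e) = 1
  rw [← zpow_natCast, ← zpow_mul, mul_comm, zpow_mul, zpow_natCast, h, one_zpow]

theorem nilpotent_sup_of_commute {G : Type*} [Group G] (S Z : Subgroup G) (hS : Group.IsNilpotent S)
    (hZ : Group.IsNilpotent Z) (hc : ∀ s ∈ S, ∀ z ∈ Z, Commute s z) :
    Group.IsNilpotent (S ⊔ Z : Subgroup G) := by
  have hcomm : ∀ (s : S) (z : Z), Commute (S.subtype s) (Z.subtype z) := fun s z => hc s s.2 z z.2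
  let f : S × Z →* G := MonoidHom.noncommCoprod S.subtype Z.subtype hcomm
  have hr : f.range = S ⊔ Z := by
    have := MonoidHom.noncommCoprod_range S.subtype Z.subtype hcomm
    rw [Subgroup.range_subtype, Subgroup.range_subtype] at this
    exact this
  rw [← hr]
  exact Group.nilpotent_of_surjective f.rangeRestrict f.rangeRestrict_surjective

theorem key {G : Type*} [Group G] [Finite G] (N : Subgroup G) [N.Normal]
    (k : ℕ) (hidx : N.index = 2 ^ k) (a : G) (ha : a ^ 2 = 1)
    (hd : ∀ v ∈ N, ∃ x : G, Commute a (x * v * x⁻¹)) (c : G) :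
    ∃ g, IsConj c g ∧
      ((Subgroup.zpowers a).subgroupOf (Subgroup.zpowers a ⊔ Subgroup.zpowers g)).IsSubnormal := by
  haveI : Fact (Nat.Prime 2) := ⟨Nat.prime_two⟩
  obtain ⟨e, m, hm, ho⟩ := Nat.exists_eq_pow_mul_and_not_dvd (n := orderOf c)
    (orderOf_pos c).ne' 2 (by norm_num)
  have hcop : Nat.Coprime (2 ^ e) m :=
    Nat.Coprime.pow_left e ((Nat.Prime.coprime_iff_not_dvd Nat.prime_two).mpr hm)
  obtain ⟨a', b', haM, hak, hbM, hbk⟩ := exists_crt_exponents (2 ^ e) m hcop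
  have hab : a' + b' ≡ 1 [MOD 2 ^ e * m] := by
    rw [← Nat.modEq_and_modEq_iff_modEq_mul hcop]
    constructor
    · simpa using haM.add hbM
    · simpa using hak.add hbk
  set t := c ^ a' with ht
  set v := c ^ b' with hv
  have hctv : c = t * v := by
    rw [ht, hv, ← pow_add]
    conv_lhs => rw [← pow_one c]
    rw [pow_eq_pow_iff_modEq, ho]
    exact hab.symm
  have ht2 : t ^ (2 ^ e) = 1 := by
    rw [ht, ← pow_mul]
    apply orderOf_dvd_iff_pow_eq_one.mp
    rw [ho, mul_comm a']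
    exact Nat.mul_dvd_mul_left _ ((Nat.modEq_zero_iff_dvd).mp hak)
  have hvm : v ^ m = 1 := by
    rw [hv, ← pow_mul]
    apply orderOf_dvd_iff_pow_eq_one.mp
    rw [ho]
    exact Nat.mul_dvd_mul_right ((Nat.modEq_zero_iff_dvd).mp hbM) _
  have hvN : v ∈ N := by
    rw [← QuotientGroup.eq_one_iff, ← orderOf_eq_one_iff]
    have h1 : orderOf (v : G ⧸ N) ∣ m := by
      apply orderOf_dvd_of_pow_eq_one
      rw [← QuotientGroup.mk_pow, hvm]; rfl
    have h2 : orderOf (v : G ⧸ N) ∣ 2 ^ k := by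
      rw [← hidx, Subgroup.index_eq_card]; exact orderOf_dvd_natCard _
    have h3 : Nat.Coprime (2 ^ k) m :=
      Nat.Coprime.pow_left k ((Nat.Prime.coprime_iff_not_dvd Nat.prime_two).mpr hm)
    exact Nat.eq_one_of_dvd_coprimes h3 h2 h1
  have htv : Commute t v := (Commute.refl c).pow_pow a' b'
  obtain ⟨x, hx⟩ := hd v hvN
  set v' := x * v * x⁻¹ with hv'
  set t' := x * t * x⁻¹ with ht'
  have ht'2 : t' ^ (2 ^ e) = 1 := by rw [ht', conj_pow, ht2]; group
  have ht'v' : Commute t' v' := by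
    have := htv.eq
    unfold Commute SemiconjBy
    rw [ht', hv']
    calc x * t * x⁻¹ * (x * v * x⁻¹) = x * (t * v) * x⁻¹ := by group
      _ = x * (v * t) * x⁻¹ := by rw [this]
      _ = x * v * x⁻¹ * (x * t * x⁻¹) := by group
  set C : Subgroup G := Subgroup.centralizer ({v'} : Set G) with hC
  have haC : a ∈ C := Subgroup.mem_centralizer_singleton_iff.mpr hx.eq
  have htC : t' ∈ C := Subgroup.mem_centralizer_singleton_iff.mpr ht'v'.eq
  have hpa : IsPGroup 2 (Subgroup.zpowers (⟨a, haC⟩ : C)) :=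
    isPGroup_zpowers (e := 1) (by ext; simpa using ha)
  have hpt : IsPGroup 2 (Subgroup.zpowers (⟨t', htC⟩ : C)) :=
    isPGroup_zpowers (e := e) (by ext; simpa using ht'2)
  obtain ⟨S, hS⟩ := hpa.exists_le_sylow
  obtain ⟨S', hS'⟩ := hpt.exists_le_sylow
  obtain ⟨y, hy⟩ := MulAction.exists_smul_eq C S' S
  have hs : y * ⟨t', htC⟩ * y⁻¹ ∈ (S : Subgroup C) := by
    rw [← hy, Sylow.coe_subgroup_smul]
    rw [Subgroup.mem_pointwise_smul_iff_inv_smul_mem]
    have : (MulAut.conj y)⁻¹ • (y * ⟨t', htC⟩ * y⁻¹) = (⟨t', htC⟩ : C) := by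
      simp [MulAut.smul_def, mul_assoc]
    change (MulAut.conj y)⁻¹ • (y * ⟨t', htC⟩ * y⁻¹) ∈ (S' : Subgroup C)
    rw [this]
    exact hS' (Subgroup.mem_zpowers _)
  set SG : Subgroup G := (S : Subgroup C).map C.subtype with hSG
  set s : G := (y : G) * t' * (y : G)⁻¹ with hsdef
  have hsSG : s ∈ SG := ⟨_, hs, rfl⟩
  have haSG : a ∈ SG := ⟨⟨a, haC⟩, hS (Subgroup.mem_zpowers _), rfl⟩
  have hyv : (y : G) * v' * (y : G)⁻¹ = v' := by
    have := Subgroup.mem_centralizer_singleton_iff.mp y.2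
    rw [this]; group
  refine ⟨s * v', ?_, ?_⟩
  · rw [isConj_iff]
    refine ⟨(y : G) * x, ?_⟩
    rw [hctv]
    calc (y : G) * x * (t * v) * ((y : G) * x)⁻¹
        = ((y : G) * (x * t * x⁻¹) * (y : G)⁻¹) * ((y : G) * (x * v * x⁻¹) * (y : G)⁻¹) := by group
      _ = s * v' := by rw [← hv', hyv]
  · have hSGn : Group.IsNilpotent SG := by
      have h1 : IsPGroup 2 SG := S.2.map _
      exact h1.isNilpotent
    have hZn : Group.IsNilpotent (Subgroup.zpowers v') := by
      letI : CommGroup (Subgroup.zpowers v') := IsCyclic.commGroup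
      infer_instance
    have hT := nilpotent_sup_of_commute SG (Subgroup.zpowers v') hSGn hZn (by
      rintro _ ⟨w, -, rfl⟩ z hz
      obtain ⟨j, rfl⟩ := Subgroup.mem_zpowers_iff.mp hz
      have : Commute (w : G) v' := Subgroup.mem_centralizer_singleton_iff.mp w.2
      exact this.zpow_right j)
    have hle : Subgroup.zpowers a ⊔ Subgroup.zpowers (s * v') ≤ SG ⊔ Subgroup.zpowers v' := by
      apply sup_le
      · rw [Subgroup.zpowers_le]; exact (le_sup_left : SG ≤ _) haSG
      · rw [Subgroup.zpowers_le]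
        exact Subgroup.mul_mem _ ((le_sup_left : SG ≤ _) hsSG)
          ((le_sup_right : Subgroup.zpowers v' ≤ _) (Subgroup.mem_zpowers _))
    haveI := nilpotent_of_le hle hT
    exact isSubnormal_of_nilpotent' _

theorem not_le_pCore {G : Type*} [Group G] [Finite G] (N : Subgroup G) [hN : N.Normal]
    (hNodd : Odd (Nat.card N)) (a : G) (v : G) (hv : v ∈ N) (hav : ¬ Commute a v) :
    ¬ Subgroup.zpowers a ≤ Cfsg.pCore 2 G := by
  intro h
  have ha : a ∈ Cfsg.pCore 2 G := h (Subgroup.mem_zpowers a)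
  have hn : (Cfsg.pCore 2 G).Normal := by
    unfold Cfsg.pCore
    exact Subgroup.sSup_normal _ (fun _ h => h.1)
  have hp := Cfsg.Agent.Lib.Helper4.pCore_isPGroup' 2 G
  have h1 : a * v * a⁻¹ * v⁻¹ ∈ Cfsg.pCore 2 G ⊓ N := by
    constructor
    · have := hn.conj_mem _ (Subgroup.inv_mem _ ha) v
      have h2 := Subgroup.mul_mem _ ha this
      simpa [mul_assoc] using h2
    · exact N.mul_mem (hN.conj_mem _ hv a) (N.inv_mem hv)
  have h2 : Cfsg.pCore 2 G ⊓ N = ⊥ := by
    obtain ⟨j, hj⟩ := IsPGroup.iff_card.mp hp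
    apply (Subgroup.disjoint_of_coprime_natCard _).eq_bot
    rw [hj]
    exact Nat.Coprime.pow_left j (Nat.coprime_two_left.mpr hNodd)
  rw [h2, Subgroup.mem_bot] at h1
  apply hav
  unfold Commute SemiconjBy
  rw [mul_inv_eq_one, mul_inv_eq_iff_eq_mul] at h1
  exact h1



abbrev V := ZMod 3 × ZMod 3
abbrev NN := Multiplicative V

def uA : V ≃+ V where
  toFun w := (w.1 - w.2, w.1 + w.2)
  invFun w := (-w.1 - w.2, w.1 - w.2)
  left_inv := by decide
  right_inv := by decide
  map_add' := by decide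

def aA : V ≃+ V where
  toFun w := (w.1, -w.2)
  invFun w := (w.1, -w.2)
  left_inv := by decide
  right_inv := by decide
  map_add' := by decide

def U : MulAut NN := AddEquiv.toMultiplicative uA
def Aa : MulAut NN := AddEquiv.toMultiplicative aA

theorem Aa_sq : Aa ^ 2 = 1 := by
  apply MulEquiv.ext; decide

theorem U_pow : U ^ (2 ^ 3) = 1 := by
  apply MulEquiv.ext; decide

theorem Aa_U : Aa * U * Aa⁻¹ = U ^ 3 := by
  apply MulEquiv.ext; decide

theorem fixed : ∀ n : NN, ∃ j : Fin 8, Aa ((U ^ (j : ℕ)) n) = (U ^ (j : ℕ)) n := by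
  decide

theorem moved : Aa (Multiplicative.ofAdd ((0, 1) : V)) ≠ Multiplicative.ofAdd ((0, 1) : V) := by
  decide


open Cfsg.Agent.Lib.Helper1

def HH : Subgroup (MulAut NN) := Subgroup.zpowers Aa ⊔ Subgroup.zpowers U

theorem Aa_mem : Aa ∈ HH := (le_sup_left : Subgroup.zpowers Aa ≤ HH) (Subgroup.mem_zpowers _)
theorem U_mem : U ∈ HH := (le_sup_right : Subgroup.zpowers U ≤ HH) (Subgroup.mem_zpowers _)

instance finiteMulAutNN : Finite (MulAut NN) := Finite.of_injective (fun f : MulAut NN => (f : NN → NN))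
  (fun _ _ h => MulEquiv.ext (fun x => congrFun h x))

theorem HH_pgroup : IsPGroup 2 HH := by
  apply IsPGroup.to_sup_of_normal_right' (isPGroup_zpowers (e := 1) (by simpa using Aa_sq))
    (isPGroup_zpowers (e := 3) U_pow)
  rw [Subgroup.zpowers_le]
  apply mem_normalizer_of_conj_mem
  intro u hu
  obtain ⟨j, rfl⟩ := Subgroup.mem_zpowers_iff.mp hu
  have : Aa * U ^ j * Aa⁻¹ = (U ^ 3) ^ j := by
    rw [← Aa_U, conj_zpow]
  rw [this]
  exact Subgroup.zpow_mem _ (Subgroup.pow_mem _ (Subgroup.mem_zpowers _) 3) j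

abbrev GG := NN ⋊[HH.subtype] HH

instance finiteGG : Finite GG := Finite.of_equiv _ SemidirectProduct.equivProd.symm

def a' : GG := SemidirectProduct.inr ⟨Aa, Aa_mem⟩

def Nn : Subgroup GG := (SemidirectProduct.rightHom : GG →* HH).ker

instance normalNn : Nn.Normal := by unfold Nn; infer_instance

theorem conj_inl (h : HH) (n : NN) :
    (SemidirectProduct.inr h : GG) * SemidirectProduct.inl n * (SemidirectProduct.inr h)⁻¹ =
      SemidirectProduct.inl ((h : MulAut NN) n) := by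
  rw [← map_inv, ← SemidirectProduct.inl_aut]
  rfl

theorem final : ∃ (G : Type) (_ : Group G) (_ : Finite G) (A : Subgroup G), Group.IsSolvable G ∧ Nat.card A = 2 ∧
      (∀ c : G, ∃ g : G, IsConj c g ∧ (A.subgroupOf (A ⊔ Subgroup.zpowers g)).IsSubnormal) ∧
      ¬ A ≤ Cfsg.pCore 2 G := by
  haveI : Fact (Nat.Prime 2) := ⟨Nat.prime_two⟩
  have ha2 : a' ^ 2 = 1 := by
    unfold a'
    rw [← map_pow]
    have : (⟨Aa, Aa_mem⟩ : HH) ^ 2 = 1 := Subtype.ext Aa_sq
    rw [this, map_one]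
  have hmem : ∀ v ∈ Nn, ∃ n : NN, v = SemidirectProduct.inl n := by
    intro v hv
    have : v ∈ (SemidirectProduct.inl : NN →* GG).range := by
      rw [SemidirectProduct.range_inl_eq_ker_rightHom]; exact hv
    obtain ⟨n, rfl⟩ := this
    exact ⟨n, rfl⟩
  have hinl : ∀ n : NN, (SemidirectProduct.inl n : GG) ∈ Nn := by
    intro n
    unfold Nn
    rw [← SemidirectProduct.range_inl_eq_ker_rightHom]
    exact ⟨n, rfl⟩
  have hnc : ¬ Commute a' (SemidirectProduct.inl (Multiplicative.ofAdd ((0, 1) : V)) : GG) := by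
    intro h
    have h1 := conj_inl ⟨Aa, Aa_mem⟩ (Multiplicative.ofAdd ((0, 1) : V))
    change a' * _ * a'⁻¹ = _ at h1
    rw [h.eq, mul_inv_cancel_right] at h1
    exact moved (SemidirectProduct.inl_injective h1).symm
  have ha1 : a' ≠ 1 := by
    intro h
    apply hnc
    rw [h]
    exact Commute.one_left _
  obtain ⟨k, hk⟩ := IsPGroup.iff_card.mp HH_pgroup
  have hidx : Nn.index = 2 ^ k := by
    unfold Nn
    rw [Subgroup.index_ker, MonoidHom.range_eq_top.mpr SemidirectProduct.rightHom_surjective,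
      Subgroup.card_top, hk]
  have hodd : Odd (Nat.card Nn) := by
    have h1 : Nat.card Nn = Nat.card NN := by
      unfold Nn
      rw [← SemidirectProduct.range_inl_eq_ker_rightHom]
      exact (Nat.card_congr (MonoidHom.ofInjective SemidirectProduct.inl_injective).toEquiv).symm
    rw [h1, Nat.card_eq_fintype_card]
    decide
  refine ⟨GG, inferInstance, inferInstance, Subgroup.zpowers a', ?_, ?_, ?_, ?_⟩
  · haveI : Group.IsNilpotent HH := HH_pgroup.isNilpotent
    exact Group.isSolvable_of_ker_le_range (SemidirectProduct.inl : NN →* GG)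
      (SemidirectProduct.rightHom : GG →* HH) (by rw [SemidirectProduct.range_inl_eq_ker_rightHom])
  · rw [Nat.card_zpowers]
    exact orderOf_eq_prime ha2 ha1
  · intro c
    apply key Nn k hidx a' ha2
    intro v hv
    obtain ⟨n, rfl⟩ := hmem v hv
    obtain ⟨j, hj⟩ := fixed n
    refine ⟨SemidirectProduct.inr ⟨U ^ (j : ℕ), Subgroup.pow_mem _ U_mem _⟩, ?_⟩
    rw [conj_inl]
    have h1 := conj_inl ⟨Aa, Aa_mem⟩ ((U ^ (j : ℕ)) n)
    change a' * _ * a'⁻¹ = SemidirectProduct.inl (Aa ((U ^ (j : ℕ)) n)) at h1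
    rw [hj, mul_inv_eq_iff_eq_mul] at h1
    exact h1
  · exact not_le_pCore Nn hodd a' _ (hinl _) hnc



/-- There is a finite solvable group G with a subgroup A of order 2 such that every conjugacy class of G contains an element g for which A is subnormal in the subgroup generated by A and g, and yet A is not contained in O_2(G). (So the corresponding criteria for odd primes fail at the prime 2, even for solvable groups.) -/
theorem result :
    ∃ (G : Type) (_ : Group G) (_ : Finite G) (A : Subgroup G), Group.IsSolvable G ∧ Nat.card A = 2 ∧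
      (∀ c : G, ∃ g : G, IsConj c g ∧ (A.subgroupOf (A ⊔ Subgroup.zpowers g)).IsSubnormal) ∧
      ¬ A ≤ Cfsg.pCore 2 G := by
  exact final

end Cfsg.Agent.S4331
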