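import Mathlib
import Cfsg.Statements.S4332
import Cfsg.Agent.S4331


set_option autoImplicit false
open Pointwise
open Cfsg

namespace Cfsg.Agent.S4332

open Pointwise Equiv Equiv.Perm


variable {α : Type*} [DecidableEq α]

def thr (a b c : α) : Perm α := swap a b * swap a c

theorem conj_thr (f : Perm α) (a b c : α) : f * thr a b c * f⁻¹ = thr (f a) (f b) (f c) := by
  unfold thr
  rw [swap_apply_apply, swap_apply_apply]
  group

theorem thr_rot {a b c : α} (hab : a ≠ b) (hac : a ≠ c) (hbc : b ≠ c) : thr b c a = thr a b c := by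
  unfold thr
  ext w
  simp only [Perm.mul_apply, swap_apply_def]
  split_ifs <;> simp_all

theorem thr_apply_of_ne {a b c w : α} (h1 : w ≠ a) (h2 : w ≠ b) (h3 : w ≠ c) : thr a b c w = w := by
  unfold thr
  rw [Perm.mul_apply, swap_apply_of_ne_of_ne h1 h3, swap_apply_of_ne_of_ne h1 h2]

theorem comm_of_disj (c : Perm α) (x y z : α)
    (h : ∀ u, (u = x ∨ u = y ∨ u = z) → c x ≠ u ∧ c y ≠ u ∧ c z ≠ u) :
    Commute (thr x y z) (c * thr x y z * c⁻¹) := by
  rw [conj_thr]
  apply Disjoint.commute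
  intro w
  by_cases hw : w = x ∨ w = y ∨ w = z
  · right
    obtain ⟨h1, h2, h3⟩ := h w hw
    exact thr_apply_of_ne h1.symm h2.symm h3.symm
  · left
    push Not at hw
    exact thr_apply_of_ne hw.1 hw.2.1 hw.2.2

theorem K (c : Perm (Fin 8)) : ∃ ρ : Perm (Fin 8), ρ.IsThreeCycle ∧ Commute ρ (c * ρ * c⁻¹) := by
  by_cases hs : c.support.card ≤ 5
  · have h2 : 2 < (c.supportᶜ).card := by
      rw [Finset.card_compl, Fintype.card_fin]; omega
    obtain ⟨x, hx, y, hy, z, hz, hxy, hxz, hyz⟩ := Finset.two_lt_card.mp h2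
    rw [Finset.mem_compl, Perm.mem_support, not_not] at hx hy hz
    refine ⟨thr x y z, isThreeCycle_swap_mul_swap_same hxy hxz hyz, ?_⟩
    rw [conj_thr, hx, hy, hz]
  · push Not at hs
    obtain ⟨x, hx⟩ : c.support.Nonempty := Finset.card_pos.mp (by omega)
    have hx1 : c x ≠ x := Perm.mem_support.mp hx
    have hinj := c.injective
    by_cases h3 : c (c (c x)) = x
    · have h2 : c (c x) ≠ x := by
        intro h; rw [h] at h3; exact hx1 h3
      have h12 : c (c x) ≠ c x := fun h => hx1 (hinj h)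
      refine ⟨thr x (c (c x)) (c x), isThreeCycle_swap_mul_swap_same h2.symm hx1.symm h12, ?_⟩
      rw [conj_thr, h3, thr_rot (a := c (c x)) (b := c x) (c := x) h12 h2 hx1,
        thr_rot (a := x) (b := c (c x)) (c := c x) h2.symm hx1.symm h12]
    · by_cases h2 : c (c x) = x
      · obtain ⟨y, hy, hy'⟩ := Finset.exists_mem_notMem_of_card_lt_card
          (s := ({x, c x} : Finset (Fin 8))) (t := c.support)
          (lt_of_le_of_lt (Finset.card_le_two) (by omega))
        obtain ⟨z, hz, hz'⟩ := Finset.exists_mem_notMem_of_card_lt_card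
          (s := ({x, c x, c⁻¹ y, y, c y} : Finset (Fin 8))) (t := c.support)
          (lt_of_le_of_lt (Finset.card_le_five) hs)
        simp only [Finset.mem_insert, Finset.mem_singleton, not_or] at hy' hz'
        have hy1 : c y ≠ y := Perm.mem_support.mp hy
        have hz1 : c z ≠ z := Perm.mem_support.mp hz
        obtain ⟨hyx, hycx⟩ := hy'
        obtain ⟨hzx, hzcx, hzy', hzy, hzcy⟩ := hz'
        refine ⟨thr x y z, isThreeCycle_swap_mul_swap_same (Ne.symm hyx) (Ne.symm hzx) (Ne.symm hzy), ?_⟩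
        apply comm_of_disj
        have e1 : c y ≠ x := fun h => hycx (hinj (h.trans h2.symm))
        have e2 : c z ≠ x := fun h => hzcx (hinj (h.trans h2.symm))
        have e3 : c z ≠ y := fun h => hzy' (by rw [← h]; simp)
        rintro u (rfl | rfl | rfl)
        · exact ⟨hx1, e1, e2⟩
        · exact ⟨Ne.symm hycx, hy1, e3⟩
        · exact ⟨Ne.symm hzcx, Ne.symm hzcy, hz1⟩
      · obtain ⟨z, hz, hz'⟩ := Finset.exists_mem_notMem_of_card_lt_card
          (s := ({c⁻¹ x, x, c x, c (c x), c (c (c x))} : Finset (Fin 8))) (t := c.support)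
          (lt_of_le_of_lt (Finset.card_le_five) hs)
        simp only [Finset.mem_insert, Finset.mem_singleton, not_or] at hz'
        have hz1 : c z ≠ z := Perm.mem_support.mp hz
        obtain ⟨hzx', hzx, hzcx, hzccx, hzcccx⟩ := hz'
        refine ⟨thr x (c (c x)) z, isThreeCycle_swap_mul_swap_same (Ne.symm h2) (Ne.symm hzx)
          (Ne.symm hzccx), ?_⟩
        apply comm_of_disj
        have e1 : c z ≠ x := fun h => hzx' (by rw [← h]; simp)
        have e2 : c z ≠ c (c x) := fun h => hzcx (hinj h)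
        have e3 : c x ≠ c (c x) := fun h => hx1 (hinj h).symm
        have e4 : c (c (c x)) ≠ c (c x) := fun h => e3 (hinj h).symm
        rintro u (rfl | rfl | rfl)
        · exact ⟨hx1, h3, e1⟩
        · exact ⟨e3, e4, e2⟩
        · exact ⟨Ne.symm hzcx, Ne.symm hzcccx, hz1⟩



/-- In the symmetric group of degree 8, let A be the subgroup generated by a 3-cycle. Then every conjugacy class contains an element g for which A is subnormal in the subgroup generated by A and its conjugate by g, although O_3 of the symmetric group of degree 8 is trivial. -/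
theorem result
    (σ : Equiv.Perm (Fin 8)) (hσ : σ.IsThreeCycle) :
    (∀ c : Equiv.Perm (Fin 8), ∃ g : Equiv.Perm (Fin 8), IsConj c g ∧
      ((Subgroup.zpowers σ).subgroupOf (Subgroup.zpowers σ ⊔ MulAut.conj g • Subgroup.zpowers σ)).IsSubnormal) ∧
    Cfsg.pCore 3 (Equiv.Perm (Fin 8)) = ⊥ := by
  constructor
  · intro c
    obtain ⟨ρ, hρ, hcomm⟩ := K c
    have hconj : IsConj ρ σ := (isConj_iff_cycleType_eq).mpr (hρ.trans hσ.symm)
    obtain ⟨τ, hτ⟩ := isConj_iff.mp hconj
    refine ⟨τ * c * τ⁻¹, isConj_iff.mpr ⟨τ, rfl⟩, ?_⟩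
    set g := τ * c * τ⁻¹ with hg
    have h1 : MulAut.conj g • Subgroup.zpowers σ = Subgroup.zpowers (g * σ * g⁻¹) := by
      change (Subgroup.zpowers σ).map (MulAut.conj g).toMonoidHom = _
      rw [MonoidHom.map_zpowers]
      rfl
    rw [h1]
    have h2 : Commute σ (g * σ * g⁻¹) := by
      have h3 := hcomm.map (MulAut.conj τ)
      rw [MulAut.conj_apply, MulAut.conj_apply, hτ] at h3
      have h4 : τ * (c * ρ * c⁻¹) * τ⁻¹ = g * σ * g⁻¹ := by
        rw [hg, ← hτ]; group
      rwa [h4] at h3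
    have hn : ∀ x : Equiv.Perm (Fin 8), Group.IsNilpotent (Subgroup.zpowers x) := by
      intro x
      letI : CommGroup (Subgroup.zpowers x) := IsCyclic.commGroup
      infer_instance
    haveI := Cfsg.Agent.S4331.nilpotent_sup_of_commute (Subgroup.zpowers σ)
      (Subgroup.zpowers (g * σ * g⁻¹)) (hn _) (hn _) (by
        intro s hs z hz
        obtain ⟨i, rfl⟩ := Subgroup.mem_zpowers_iff.mp hs
        obtain ⟨j, rfl⟩ := Subgroup.mem_zpowers_iff.mp hz
        exact h2.zpow_zpow i j)
    exact Cfsg.Agent.Lib.Helper16.isSubnormal_of_nilpotent' _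
  · by_contra hne
    haveI hn : (Cfsg.pCore 3 (Equiv.Perm (Fin 8))).Normal := by
      unfold Cfsg.pCore
      exact Subgroup.sSup_normal _ (fun _ h => h.1)
    have hp := Cfsg.Agent.Lib.Helper4.pCore_isPGroup' 3 (Equiv.Perm (Fin 8))
    have hnt : Nontrivial (Cfsg.pCore 3 (Equiv.Perm (Fin 8))) :=
      (Subgroup.nontrivial_iff_ne_bot _).mpr hne
    have hle := Equiv.Perm.alternatingGroup_le_of_normal (α := Fin 8) (by simp) hnt
    have hx : (swap (0 : Fin 8) 1 * swap (2 : Fin 8) 3) ∈ alternatingGroup (Fin 8) := by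
      rw [Equiv.Perm.mem_alternatingGroup]
      decide
    obtain ⟨k, hk⟩ := hp ⟨_, hle hx⟩
    have hk' : (swap (0 : Fin 8) 1 * swap (2 : Fin 8) 3) ^ (3 ^ k) = 1 := congrArg Subtype.val hk
    have h2 : orderOf (swap (0 : Fin 8) 1 * swap (2 : Fin 8) 3) = 2 := by
      apply orderOf_eq_prime
      · decide
      · decide
    have h3 : 2 ∣ 3 ^ k := h2 ▸ orderOf_dvd_of_pow_eq_one hk'
    have h4 := Nat.Prime.dvd_of_dvd_pow Nat.prime_two h3
    omega

end Cfsg.Agent.S4332
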