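import Mathlib
import Cfsg.Agent.S0540
import Cfsg.Agent.S0066
import Cfsg.Agent.Lib.Helper1.Basic

set_option autoImplicit false
open scoped Pointwise

namespace Cfsg.Agent.S4333

universe u

open Cfsg.Agent.S0066 (mem_conj_smul)

/-- The sharpened Wielandt hypothesis. -/
def W {G : Type*} [Group G] (A : Subgroup G) : Prop :=
  ∀ a ∈ A, ∀ g : G, (A.subgroupOf (A ⊔ MulAut.conj (g⁻¹ * a * g) • A)).IsSubnormal

/-- The hypothesis passes to subgroups. -/
theorem W_subgroupOf {G : Type*} [Group G] (B V : Subgroup G) (hB : W B) :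
    W (B.subgroupOf V) := by
  intro a ha w
  set v : V := w⁻¹ * a * w with hv
  set J : Subgroup G := B ⊔ MulAut.conj (v : G) • B with hJ
  set B' : Subgroup V := B.subgroupOf V with hB'
  set J' : Subgroup V := B' ⊔ MulAut.conj v • B' with hJ'
  have hle : J' ≤ J.subgroupOf V := by
    apply sup_le
    · intro x hx
      rw [Subgroup.mem_subgroupOf]
      exact Subgroup.mem_sup_left hx
    · intro x hx
      rw [Subgroup.mem_subgroupOf]
      apply Subgroup.mem_sup_right
      rw [mem_conj_smul] at hx ⊢
      exact hx
  let φ : J' →* J :=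
    { toFun := fun x => ⟨((x : V) : G), hle x.2⟩
      map_one' := rfl
      map_mul' := fun _ _ => rfl }
  have h1 : (B.subgroupOf J).IsSubnormal := hB (a : G) ha (w : G)
  have := h1.comap φ
  exact this

/-- The hypothesis is invariant under conjugation. -/
theorem W_conj {G : Type*} [Group G] (A : Subgroup G) (hA : W A) (g : G) :
    W (MulAut.conj g • A) := by
  intro b hb h'
  set h : G := h'⁻¹ * b * h' with hh
  set B : Subgroup G := MulAut.conj g • A with hB
  set k : G := g⁻¹ * h * g with hk
  have hle : ∀ x ∈ B ⊔ MulAut.conj h • B, g⁻¹ * x * g ∈ A ⊔ MulAut.conj k • A := by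
    have : B ⊔ MulAut.conj h • B ≤ MulAut.conj g • (A ⊔ MulAut.conj k • A) := by
      apply sup_le
      · intro x hx
        rw [mem_conj_smul] at hx ⊢
        exact Subgroup.mem_sup_left hx
      · intro x hx
        rw [mem_conj_smul, mem_conj_smul] at hx
        rw [mem_conj_smul]
        apply Subgroup.mem_sup_right
        rw [mem_conj_smul]
        convert hx using 1
        rw [hk]; group
    intro x hx
    exact mem_conj_smul.mp (this hx)
  let φ : (B ⊔ MulAut.conj h • B : Subgroup G) →* (A ⊔ MulAut.conj k • A : Subgroup G) :=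
    { toFun := fun x => ⟨g⁻¹ * (x : G) * g, hle x x.2⟩
      map_one' := by apply Subtype.ext; simp
      map_mul' := fun x y => by apply Subtype.ext; simp [mul_assoc] }
  have hk' : k = (g⁻¹ * h' * g)⁻¹ * (g⁻¹ * b * g) * (g⁻¹ * h' * g) := by
    rw [hk, hh]; group
  have h0 : (A.subgroupOf (A ⊔ MulAut.conj k • A)).IsSubnormal := by
    rw [hk']
    exact hA _ (mem_conj_smul.mp hb) _
  have h1 := h0.comap φ
  convert h1 using 1
  ext x
  simp only [Subgroup.mem_subgroupOf, Subgroup.mem_comap]
  exact mem_conj_smul

theorem main : ∀ n : ℕ, ∀ (G : Type u) [Group G] [Finite G], Nat.card G = n →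
    ∀ A : Subgroup G, W A → A.IsSubnormal := by
  intro n
  induction n using Nat.strong_induction_on with
  | _ n ih =>
    intro G _ _ hn A hA
    by_contra hns
    -- subnormality in proper subgroups
    have hprop : ∀ V : Subgroup G, V ≠ ⊤ → ∀ B : Subgroup G, W B → (B.subgroupOf V).IsSubnormal := by
      intro V hV B hB
      have hlt : Nat.card V < n := by
        rw [← hn]
        have h1 := V.card_mul_index
        have h2 : 1 < V.index := Subgroup.one_lt_index_of_ne_top hV
        have h3 : 0 < Nat.card V := Nat.card_pos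
        nlinarith
      exact ih _ hlt V rfl _ (W_subgroupOf B V hB)
    have hAtop : A ≠ ⊤ := by
      rintro rfl
      exact hns Subgroup.IsSubnormal.top
    let U : Set (Subgroup G) := {V | A ≤ V ∧ V ≠ ⊤}
    let S : Subgroup G → Set (Subgroup G) := fun V =>
      {B | (∃ g : G, B = MulAut.conj g • A) ∧ B ≤ V ∧ (B.subgroupOf V).IsSubnormal}
    obtain ⟨M, hM, hmax⟩ := Cfsg.Agent.S0540.result A U ⟨A, le_rfl, hAtop⟩ S (fun V B => Iff.rfl)
      (by
        intro V hV
        exact ⟨⟨1, by simp⟩, hV.1, hprop V hV.2 A hA⟩)
      (by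
        intro V hV W' _ B hB hBV
        obtain ⟨⟨g, rfl⟩, -, -⟩ := hB
        exact ⟨⟨g, rfl⟩, hBV, hprop V hV.2 _ (W_conj A hA g)⟩)
      (by
        intro V hV W' hW'
        set X : Subgroup G := sSup (S V ∩ S W') with hX
        have hAS : A ∈ S V ∩ S W' :=
          ⟨⟨⟨1, by simp⟩, hV.1, hprop V hV.2 A hA⟩, ⟨⟨1, by simp⟩, hW'.1, hprop W' hW'.2 A hA⟩⟩
        have hAX : A ≤ X := le_sSup hAS
        have hXV : X ≤ V := sSup_le (fun B hB => hB.1.2.1)
        refine ⟨Subgroup.normalizer (X : Set G), ⟨hAX.trans Subgroup.le_normalizer, ?_⟩, le_rfl⟩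
        intro htop
        have hXn : X.Normal := Subgroup.normalizer_eq_top_iff.mp htop
        have hXtop : X ≠ ⊤ := fun h => hV.2 (top_le_iff.mp (h ▸ hXV))
        exact hns (Subgroup.IsSubnormal.trans hAX (hprop X hXtop A hA) hXn.isSubnormal))
    -- `M` is not normal
    have hMn : ¬ M.Normal := by
      intro hMn
      exact hns (Subgroup.IsSubnormal.trans hM.1 (hprop M hM.2 A hA) hMn.isSubnormal)
    have hNM : Subgroup.normalizer (M : Set G) ≤ M := by
      apply hmax
      refine ⟨hM.1.trans Subgroup.le_normalizer, ?_⟩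
      intro htop
      exact hMn (Subgroup.normalizer_eq_top_iff.mp htop)
    -- all conjugates of elements of A lie in M
    have hconj : ∀ a ∈ A, ∀ g : G, g⁻¹ * a * g ∈ M := by
      intro a ha g
      set x := g⁻¹ * a * g with hx
      have hJ : A ⊔ MulAut.conj x • A ≠ ⊤ := by
        intro h
        have h1 := hA a ha g
        exact hns (Subgroup.IsSubnormal.trans le_sup_left h1 (h ▸ Subgroup.IsSubnormal.top))
      have h1 : MulAut.conj x • A ≤ M := le_sup_right.trans (hmax _ ⟨le_sup_left, hJ⟩)
      have h2 : A ≤ MulAut.conj x⁻¹ • M := by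
        intro y hy
        rw [mem_conj_smul]
        apply h1
        rw [mem_conj_smul]
        simpa [mul_assoc] using hy
      have h3 : MulAut.conj x⁻¹ • M ≠ ⊤ := by
        intro h
        apply hM.2
        rw [eq_top_iff]
        intro y _
        have : x⁻¹ * y * x ∈ MulAut.conj x⁻¹ • M := by rw [h]; trivial
        rw [mem_conj_smul] at this
        simpa [mul_assoc] using this
      have h4 : MulAut.conj x⁻¹ • M ≤ M := hmax _ ⟨h2, h3⟩
      apply hNM
      have h5 : x⁻¹ ∈ Subgroup.normalizer (M : Set G) := by
        have h6 : MulAut.conj x⁻¹ • M = M := by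
          apply Subgroup.eq_of_le_of_card_ge h4
          rw [Cfsg.Agent.Lib.Helper1.card_conj_smul]
        rw [Subgroup.mem_normalizer_iff]
        intro y
        constructor
        · intro hy
          rw [← h6, mem_conj_smul]
          simpa [mul_assoc] using hy
        · intro hy
          rw [← h6, mem_conj_smul] at hy
          simpa [mul_assoc] using hy
      simpa using inv_mem h5
    let N : Subgroup G := Subgroup.normalClosure (A : Set G)
    have hNM : N ≤ M := by
      -- the normal core of M contains A
      have : (A : Set G) ⊆ M.normalCore := by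
        intro a ha g
        have := hconj a ha g⁻¹
        simpa using this
      exact (Subgroup.normalClosure_le_normal this).trans (Subgroup.normalCore_le M)
    have hNtop : N ≠ ⊤ := fun h => hM.2 (top_le_iff.mp (h ▸ hNM))
    have hAN : A ≤ N := Subgroup.le_normalClosure
    exact hns (Subgroup.IsSubnormal.trans hAN (hprop N hNtop A hA)
      (Subgroup.normalClosure_normal).isSubnormal)

/-- Let A be a subgroup of a finite group G. If A is subnormal in the subgroup generated by A and its conjugate by g⁻¹ a g, for every a ∈ A and every g ∈ G, then A is subnormal in G. (A sharpening of Wielandt's subnormality criterion: only conjugates of A by conjugates of elements of A are needed.) -/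
theorem result {G : Type*} [Group G] [Finite G]
    (A : Subgroup G)
    (h : ∀ a ∈ A, ∀ g : G, (A.subgroupOf (A ⊔ MulAut.conj (g⁻¹ * a * g) • A)).IsSubnormal) :
    A.IsSubnormal := by
  exact main _ G rfl A h

end Cfsg.Agent.S4333
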