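import Cfsg.Statements.S4337
import Mathlib
import Cfsg.Agent.S0061

set_option autoImplicit false
open Cfsg

namespace Cfsg.Agent.S4337

theorem solv_le {G : Type*} [Group G] {H K : Subgroup G} (h : H ≤ K) (hK : Group.IsSolvable K) :
    Group.IsSolvable H :=
  Group.isSolvable_of_isSolvable_injective (Subgroup.inclusion_injective h)

theorem solv_four {n : ℕ} (p q r s : Fin n) :
    Group.IsSolvable (Equiv.Perm.ofSubtype :
      Equiv.Perm {x // x ∈ ({p, q, r, s} : Finset (Fin n))} →* Equiv.Perm (Fin n)).range := by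
  have h1 : Group.IsSolvable (Equiv.Perm {x // x ∈ ({p, q, r, s} : Finset (Fin n))}) := by
    refine Cfsg.Agent.S0061.main Nat.prime_two Nat.prime_three _ _ rfl ⟨3, ?_⟩
    rw [Nat.card_eq_fintype_card, Fintype.card_perm, Fintype.card_coe]
    exact Nat.factorial_dvd_factorial (Finset.card_le_four)
  exact Group.isSolvable_of_surjective (MonoidHom.rangeRestrict_surjective _)

theorem swap_mem {n : ℕ} (T : Finset (Fin n)) {x y : Fin n} (hx : x ∈ T) (hy : y ∈ T) :
    Equiv.swap x y ∈ (Equiv.Perm.ofSubtype :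
      Equiv.Perm {x // x ∈ T} →* Equiv.Perm (Fin n)).range :=
  ⟨Equiv.swap ⟨x, hx⟩ ⟨y, hy⟩, Equiv.Perm.ofSubtype_swap_eq _ _⟩

theorem swap_comm_of_ne {α : Type*} [DecidableEq α] {x y u v : α} (h1 : u ≠ x) (h2 : u ≠ y)
    (h3 : v ≠ x) (h4 : v ≠ y) : Commute (Equiv.swap x y) (Equiv.swap u v) := by
  have := Equiv.swap_apply_apply (Equiv.swap x y) u v
  rw [Equiv.swap_apply_of_ne_of_ne h1 h2, Equiv.swap_apply_of_ne_of_ne h3 h4] at this
  exact (eq_mul_inv_iff_mul_eq.mp this).symm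

theorem solv_central {G : Type*} [Group G] (a b c : G) (hac : Commute a c) (hbc : Commute b c)
    (h : Group.IsSolvable (Subgroup.closure ({a, b} : Set G))) :
    Group.IsSolvable (Subgroup.closure ({a, b, c} : Set G)) := by
  have hcomm : ∀ (k : Subgroup.closure ({a, b} : Set G)) (z : Subgroup.zpowers c),
      Commute ((Subgroup.closure ({a, b} : Set G)).subtype k) ((Subgroup.zpowers c).subtype z) := by
    rintro ⟨k, hk⟩ ⟨z, hz⟩
    have h1 : Subgroup.closure ({a, b} : Set G) ≤ Subgroup.centralizer {c} := by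
      rw [Subgroup.closure_le]
      rintro x (rfl | rfl)
      · exact Subgroup.mem_centralizer_singleton_iff.mpr hac
      · exact Subgroup.mem_centralizer_singleton_iff.mpr hbc
    have h2 : Commute k c := Subgroup.mem_centralizer_singleton_iff.mp (h1 hk)
    obtain ⟨i, rfl⟩ := Subgroup.mem_zpowers_iff.mp hz
    exact h2.zpow_right i
  let f := MonoidHom.noncommCoprod _ _ hcomm
  have : Group.IsSolvable (Subgroup.zpowers c) := Group.isSolvable_of_comm (fun a b => mul_comm' a b)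
  have hs : Group.IsSolvable f.range :=
    Group.isSolvable_of_surjective (MonoidHom.rangeRestrict_surjective _)
  refine solv_le ?_ hs
  rw [Subgroup.closure_le]
  rintro x (rfl | rfl | rfl)
  · exact ⟨(⟨x, Subgroup.subset_closure (by simp)⟩, 1), by simp [f]⟩
  · exact ⟨(⟨x, Subgroup.subset_closure (by simp)⟩, 1), by simp [f]⟩
  · exact ⟨(1, ⟨x, Subgroup.mem_zpowers x⟩), by simp [f]⟩

theorem solv_two {n : ℕ} (x1 y1 x2 y2 : Fin n) :
    Group.IsSolvable (Subgroup.closure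
      ({Equiv.swap x1 y1, Equiv.swap x2 y2} : Set (Equiv.Perm (Fin n)))) := by
  refine solv_le ?_ (solv_four x1 y1 x2 y2)
  rw [Subgroup.closure_le]
  rintro x (rfl | rfl)
  · exact swap_mem _ (by simp) (by simp)
  · exact swap_mem _ (by simp) (by simp)

theorem solv_sub {n : ℕ} (p q r s x1 y1 x2 y2 x3 y3 : Fin n)
    (h : ∀ z ∈ ({x1, y1, x2, y2, x3, y3} : Finset (Fin n)), z ∈ ({p, q, r, s} : Finset (Fin n))) :
    Group.IsSolvable (Subgroup.closure
      ({Equiv.swap x1 y1, Equiv.swap x2 y2, Equiv.swap x3 y3} : Set (Equiv.Perm (Fin n)))) := by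
  refine solv_le ?_ (solv_four p q r s)
  rw [Subgroup.closure_le]
  rintro x (rfl | rfl | rfl)
  · exact swap_mem _ (h _ (by simp)) (h _ (by simp))
  · exact swap_mem _ (h _ (by simp)) (h _ (by simp))
  · exact swap_mem _ (h _ (by simp)) (h _ (by simp))

/-- In a finite symmetric group, any three transpositions generate a solvable subgroup. -/
theorem result (n : ℕ) (a b c : Equiv.Perm (Fin n))
    (ha : a.IsSwap) (hb : b.IsSwap) (hc : c.IsSwap) :
    Group.IsSolvable (Subgroup.closure ({a, b, c} : Set (Equiv.Perm (Fin n)))) := by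
  obtain ⟨x1, y1, -, rfl⟩ := ha
  obtain ⟨x2, y2, -, rfl⟩ := hb
  obtain ⟨x3, y3, -, rfl⟩ := hc
  by_cases hab : x2 ≠ x1 ∧ x2 ≠ y1 ∧ y2 ≠ x1 ∧ y2 ≠ y1
  · by_cases hac : x3 ≠ x1 ∧ x3 ≠ y1 ∧ y3 ≠ x1 ∧ y3 ≠ y1
    · -- a commutes with b and c
      have := solv_central (Equiv.swap x2 y2) (Equiv.swap x3 y3) (Equiv.swap x1 y1)
        (swap_comm_of_ne hab.1 hab.2.1 hab.2.2.1 hab.2.2.2).symm
        (swap_comm_of_ne hac.1 hac.2.1 hac.2.2.1 hac.2.2.2).symm (solv_two _ _ _ _)
      have e : ({Equiv.swap x1 y1, Equiv.swap x2 y2, Equiv.swap x3 y3} : Set (Equiv.Perm (Fin n)))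
          = {Equiv.swap x2 y2, Equiv.swap x3 y3, Equiv.swap x1 y1} := by
        ext z; simp only [Set.mem_insert_iff, Set.mem_singleton_iff]; tauto
      rw [e]; exact this
    · by_cases hbc : x3 ≠ x2 ∧ x3 ≠ y2 ∧ y3 ≠ x2 ∧ y3 ≠ y2
      · -- b commutes with a and c
        have := solv_central (Equiv.swap x1 y1) (Equiv.swap x3 y3) (Equiv.swap x2 y2)
          (swap_comm_of_ne hab.1 hab.2.1 hab.2.2.1 hab.2.2.2)
          (swap_comm_of_ne hbc.1 hbc.2.1 hbc.2.2.1 hbc.2.2.2).symm (solv_two _ _ _ _)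
        have e : ({Equiv.swap x1 y1, Equiv.swap x2 y2, Equiv.swap x3 y3} : Set (Equiv.Perm (Fin n)))
            = {Equiv.swap x1 y1, Equiv.swap x3 y3, Equiv.swap x2 y2} := by
          ext z; simp only [Set.mem_insert_iff, Set.mem_singleton_iff]; tauto
        rw [e]; exact this
      · -- c meets a and b
        refine solv_sub x1 y1 x2 y2 _ _ _ _ _ _ ?_
        intro z hz
        simp only [Finset.mem_insert, Finset.mem_singleton] at hz ⊢
        grind
  · by_cases hc' : (x3 ≠ x1 ∧ x3 ≠ y1 ∧ y3 ≠ x1 ∧ y3 ≠ y1) ∧ (x3 ≠ x2 ∧ x3 ≠ y2 ∧ y3 ≠ x2 ∧ y3 ≠ y2)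
    · obtain ⟨hac, hbc⟩ := hc'
      exact solv_central (Equiv.swap x1 y1) (Equiv.swap x2 y2) (Equiv.swap x3 y3)
          (swap_comm_of_ne hac.1 hac.2.1 hac.2.2.1 hac.2.2.2)
          (swap_comm_of_ne hbc.1 hbc.2.1 hbc.2.2.1 hbc.2.2.2) (solv_two _ _ _ _)
    · have h1 : ∃ w, ∀ z, (z = x1 ∨ z = y1 ∨ z = x2 ∨ z = y2) → (z = x1 ∨ z = y1 ∨ z = w) := by
        by_cases e : x2 = x1 ∨ x2 = y1
        · exact ⟨y2, fun z hz => by grind⟩
        · exact ⟨x2, fun z hz => by grind⟩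
      obtain ⟨w, hw⟩ := h1
      have h2 : ∃ v, ∀ z, (z = x1 ∨ z = y1 ∨ z = x2 ∨ z = y2 ∨ z = x3 ∨ z = y3) →
          (z = x1 ∨ z = y1 ∨ z = w ∨ z = v) := by
        by_cases e : x3 = x1 ∨ x3 = y1 ∨ x3 = x2 ∨ x3 = y2
        · refine ⟨y3, fun z hz => ?_⟩
          have := hw x3 e
          have := hw z
          grind
        · refine ⟨x3, fun z hz => ?_⟩
          have := hw y3
          have := hw z
          grind
      obtain ⟨v, hv⟩ := h2
      refine solv_sub x1 y1 w v _ _ _ _ _ _ ?_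
      intro z hz
      simp only [Finset.mem_insert, Finset.mem_singleton] at hz ⊢
      exact hv z hz

end Cfsg.Agent.S4337
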