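import Cfsg.Statements.S4342
import Mathlib

set_option autoImplicit false
open Cfsg

namespace Cfsg.Agent.S4342

theorem sylow_le_of_normal {G : Type*} [Group G] [Finite G]
    (p : ℕ) [Fact p.Prime] (H : Subgroup G) [H.Normal] (hp : ¬ p ∣ H.index) (P : Sylow p G) :
    (P : Subgroup G) ≤ H := by
  intro x hx
  obtain ⟨k, hk⟩ := P.isPGroup' ⟨x, hx⟩
  have hk' : x ^ p ^ k = 1 := by simpa using congrArg Subtype.val hk
  rw [← QuotientGroup.eq_one_iff]
  have h1 : orderOf (x : G ⧸ H) ∣ p ^ k := by
    apply orderOf_dvd_of_pow_eq_one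
    rw [← QuotientGroup.mk_pow, hk']
    rfl
  have h2 : orderOf (x : G ⧸ H) ∣ H.index := by
    rw [Subgroup.index_eq_card]
    exact orderOf_dvd_natCard _
  have h3 : Nat.Coprime (p ^ k) H.index :=
    Nat.Coprime.pow_left _ ((Nat.Prime.coprime_iff_not_dvd Fact.out).2 hp)
  have h4 : orderOf (x : G ⧸ H) = 1 := Nat.eq_one_of_dvd_coprimes h3 h1 h2
  exact orderOf_eq_one_iff.1 h4

theorem card_sylow_normal {G : Type*} [Group G] [Finite G]
    (p : ℕ) [Fact p.Prime] (H : Subgroup G) [H.Normal] (hp : ¬ p ∣ H.index) :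
    Nat.card (Sylow p G) = Nat.card (Sylow p H) := by
  apply Nat.card_eq_of_bijective (fun P : Sylow p G => P.subtype (sylow_le_of_normal p H hp P))
  constructor
  · intro P Q h
    exact Sylow.subtype_injective h
  · intro Q
    obtain ⟨P, hP⟩ := Sylow.exists_comap_subtype_eq Q
    refine ⟨P, ?_⟩
    apply Sylow.ext
    rw [Sylow.coe_subtype]
    exact hP

theorem card_sylow_center {H : Type*} [Group H] [Finite H] (p : ℕ) [Fact p.Prime] :
    Nat.card (Sylow p H) = Nat.card (Sylow p (H ⧸ Subgroup.center H)) := by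
  apply Nat.card_eq_of_bijective
    (Sylow.mapSurjective (QuotientGroup.mk'_surjective (Subgroup.center H)))
  refine ⟨?_, Sylow.mapSurjective_surjective _ p⟩
  intro P Q h
  have h' : (P : Subgroup H).map (QuotientGroup.mk' (Subgroup.center H))
      = (Q : Subgroup H).map (QuotientGroup.mk' (Subgroup.center H)) := by
    have := congrArg (fun R : Sylow p (H ⧸ Subgroup.center H) => R.toSubgroup) h
    simpa using this
  -- Q ≤ normalizer P
  have hQN : (Q : Subgroup H) ≤ Subgroup.normalizer (P : Set H) := by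
    intro q hq
    have h1 : QuotientGroup.mk' (Subgroup.center H) q ∈
        (P : Subgroup H).map (QuotientGroup.mk' (Subgroup.center H)) := by
      rw [h']
      exact Subgroup.mem_map_of_mem _ hq
    obtain ⟨x, hx, hxq⟩ := h1
    have h2 : x⁻¹ * q ∈ Subgroup.center H := by
      rw [← QuotientGroup.eq]
      exact hxq
    have h3 : x⁻¹ * q ∈ Subgroup.normalizer (P : Set H) := by
      rw [← P.coe_coe, Subgroup.mem_normalizer_iff]
      intro y
      rw [Subgroup.mem_center_iff] at h2
      rw [← h2 y, mul_assoc, mul_inv_cancel, mul_one]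
    have h4 : x ∈ Subgroup.normalizer (P : Set H) := by
      have := Subgroup.le_normalizer (H := (P : Subgroup H)) hx
      rwa [P.coe_coe] at this
    have := Subgroup.mul_mem _ h4 h3
    simpa using this
  have h5 := Q.isPGroup'.inf_normalizer_sylow P
  have h6 : (Q : Subgroup H) ≤ P := by
    have : (Q : Subgroup H) ⊓ Subgroup.normalizer (P : Set H) = Q := inf_eq_left.2 hQN
    rw [this] at h5
    exact inf_eq_left.1 h5.symm
  exact Sylow.ext (Q.3 P.2 h6)

/-- Let H be a normal subgroup of a finite group G and p a prime not dividing the index of H. Then the number of Sylow p-subgroups of H/Z(H) equals the number of Sylow p-subgroups of G. -/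
theorem result {G : Type*} [Group G] [Finite G]
    (p : ℕ) [Fact p.Prime] (H : Subgroup G) [H.Normal] (hp : ¬ p ∣ H.index) :
    Nat.card (Sylow p (H ⧸ Subgroup.center H)) = Nat.card (Sylow p G) := by
  rw [card_sylow_normal p H hp, ← card_sylow_center p]

end Cfsg.Agent.S4342
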