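import Cfsg.Statements.S4343
import Mathlib
import Cfsg.Agent.S0060

set_option autoImplicit false
open Cfsg

namespace Cfsg.Agent.S4343

open scoped Pointwise

theorem comm_mem_of_index_dvd {p : ℕ} [hp : Fact p.Prime] {P : Type*} [Group P] [Finite P]
    (hP : IsPGroup p P) (H : Subgroup P) (h : H.index ∣ p) (a b : P) :
    a * b * a⁻¹ * b⁻¹ ∈ H := by
  rcases (Nat.dvd_prime hp.out).1 h with h1 | h1
  · rw [Subgroup.index_eq_one] at h1
    rw [h1]; trivial
  · obtain ⟨n, hn⟩ := IsPGroup.iff_card.mp hP
    have hn0 : n ≠ 0 := by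
      rintro rfl
      have := H.index_dvd_card
      rw [hn, h1, pow_zero] at this
      exact hp.out.one_lt.ne' (Nat.dvd_one.mp this)
    have hN : H.Normal := by
      apply Subgroup.normal_of_index_eq_minFac_card
      rw [hn, Nat.pow_minFac hn0, h1, hp.out.minFac_eq]
    have hc : Nat.card (P ⧸ H) = p := h1
    have := isCyclic_of_prime_card hc
    rw [← QuotientGroup.eq_one_iff]
    simp only [QuotientGroup.mk_mul, QuotientGroup.mk_inv]
    obtain ⟨g, hg⟩ := IsCyclic.exists_generator (α := P ⧸ H)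
    obtain ⟨i, hi⟩ := Subgroup.mem_zpowers_iff.1 (hg (a : P ⧸ H))
    obtain ⟨j, hj⟩ := Subgroup.mem_zpowers_iff.1 (hg (b : P ⧸ H))
    rw [← hi, ← hj, ← zpow_add, add_comm, zpow_add]
    group

theorem no_normal_p {S : Type*} [Group S] [Finite S] [IsSimpleGroup S] (hS : ¬ IsMulCommutative S)
    (p : ℕ) [Fact p.Prime] (N : Subgroup S) (hN : N.Normal) (hp : IsPGroup p N) : N = ⊥ := by
  rcases hN.eq_bot_or_eq_top with h | h
  · exact h
  · exfalso
    apply hS
    have hS' : IsPGroup p S := by
      rw [h] at hp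
      exact hp.of_equiv Subgroup.topEquiv
    have := hS'.center_nontrivial
    have hc : Subgroup.center S = ⊤ := by
      rcases (inferInstance : (Subgroup.center S).Normal).eq_bot_or_eq_top with h' | h'
      · exfalso
        rw [Subgroup.nontrivial_iff_ne_bot] at this
        exact this h'
      · exact h'
    refine ⟨⟨fun a b => ?_⟩⟩
    have : a ∈ Subgroup.center S := by rw [hc]; trivial
    exact (Subgroup.mem_center_iff.1 this b).symm

theorem relIndex_dvd {S : Type*} [Group S] [Finite S] (p : ℕ) [hp : Fact p.Prime]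
    (hn : Nat.card (Sylow p S) < p ^ 2) (P Q : Sylow p S) :
    ((Q : Subgroup S).subgroupOf P).index ∣ p := by
  have h1 : MulAction.stabilizer (P : Subgroup S) Q = (Q : Subgroup S).subgroupOf P := by
    ext x
    rw [MulAction.mem_stabilizer_iff, Subgroup.mem_subgroupOf]
    change (x : S) • Q = Q ↔ _
    rw [Sylow.smul_eq_iff_mem_normalizer]
    have := P.isPGroup'.inf_normalizer_sylow Q
    constructor
    · intro hx
      have h2 : (x : S) ∈ (P : Subgroup S) ⊓ Subgroup.normalizer (Q : Set S) := ⟨x.2, hx⟩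
      rw [this] at h2
      exact h2.2
    · intro hx
      exact Subgroup.le_normalizer hx
  rw [← h1, MulAction.index_stabilizer]
  have h2 : (MulAction.orbit (P : Subgroup S) Q).ncard ∣ Nat.card (P : Subgroup S) := by
    rw [← MulAction.index_stabilizer]
    exact Subgroup.index_dvd_card _
  obtain ⟨n, hn'⟩ := IsPGroup.iff_card.mp P.isPGroup'
  rw [hn'] at h2
  obtain ⟨j, -, hj⟩ := (Nat.dvd_prime_pow hp.out).1 h2
  have h3 : (MulAction.orbit (P : Subgroup S) Q).ncard ≤ Nat.card (Sylow p S) := by
    rw [← Set.ncard_univ]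
    exact Set.ncard_le_ncard (Set.subset_univ _) (Set.toFinite _)
  rw [hj] at h3 ⊢
  have h4 : j < 2 := (Nat.pow_lt_pow_iff_right hp.out.one_lt).1 (lt_of_le_of_lt h3 hn)
  calc p ^ j ∣ p ^ 1 := pow_dvd_pow p (by omega)
    _ = p := pow_one p

/-- Let S be a finite non-abelian simple group and p a prime dividing its order. If S has fewer than p² Sylow p-subgroups, then its Sylow p-subgroups have order p. -/
theorem result {S : Type*} [Group S] [Finite S]
    [IsSimpleGroup S] (hS : ¬ IsMulCommutative S) (p : ℕ) [Fact p.Prime] (hp : p ∣ Nat.card S)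
    (hn : Nat.card (Sylow p S) < p ^ 2) (P : Sylow p S) : Nat.card P = p := by
  have hcore : Cfsg.pCore p S = ⊥ := by
    unfold Cfsg.pCore
    rw [eq_bot_iff]
    apply sSup_le
    rintro N ⟨hN, hNp⟩
    exact (no_normal_p hS p N hN hNp).le
  have hcomm : IsMulCommutative P := by
    have hnc : (P : Subgroup S).normalCore = ⊥ :=
      no_normal_p hS p _ inferInstance (P.isPGroup'.to_le (Subgroup.normalCore_le _))
    refine ⟨⟨fun a b => ?_⟩⟩
    have h1 : (a : S) * b * (a : S)⁻¹ * (b : S)⁻¹ ∈ (P : Subgroup S).normalCore := by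
      intro g
      have h2 := comm_mem_of_index_dvd P.isPGroup' _ (relIndex_dvd p hn P (g⁻¹ • P)) a b
      rw [Subgroup.mem_subgroupOf, Sylow.coe_subgroup_smul,
        Subgroup.mem_pointwise_smul_iff_inv_smul_mem] at h2
      simp only [← map_inv, inv_inv, MulAut.smul_def, MulAut.conj_apply, Subgroup.coe_mul,
        Subgroup.coe_inv] at h2
      exact h2
    rw [hnc, Subgroup.mem_bot] at h1
    apply Subtype.ext
    have : (a : S) * b = b * a := by
      rw [mul_inv_eq_one, mul_inv_eq_iff_eq_mul] at h1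
      exact h1
    exact this
  obtain ⟨g, hg⟩ := Cfsg.Agent.S0060.result p P hcomm hcore
  have h1 := relIndex_dvd p hn P (g • P)
  have h2 : ((g • P : Sylow p S) : Subgroup S).subgroupOf P = ⊥ := by
    rw [Sylow.coe_subgroup_smul, ← Subgroup.inf_subgroupOf_left, hg]
    simp
  rw [h2, Subgroup.index_bot] at h1
  rcases (Nat.dvd_prime (Fact.out : p.Prime)).1 h1 with h | h
  · exfalso
    have := P.dvd_card_of_dvd_card hp
    change p ∣ Nat.card (P : Subgroup S) at this
    rw [h] at this
    exact (Fact.out : p.Prime).one_lt.ne' (Nat.dvd_one.mp this)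
  · exact h

end Cfsg.Agent.S4343
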