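import Cfsg.Statements.S4344
import Mathlib

set_option autoImplicit false
open Cfsg

namespace Cfsg.Agent.S4344

/-- Let S be a finite non-abelian simple group, M a maximal subgroup of S and C a cyclic normal subgroup of M. If a Sylow p-subgroup P of S (for a prime p dividing the order of S) is contained in C, then the number of Sylow p-subgroups of S equals the index of M. -/
theorem result {S : Type*} [Group S] [Finite S]
    [IsSimpleGroup S] (hS : ¬ IsMulCommutative S) (p : ℕ) [Fact p.Prime] (hp : p ∣ Nat.card S)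
    (M : Subgroup S) (hM : IsCoatom M) (C : Subgroup S) (hCM : C ≤ M) (hCn : (C.subgroupOf M).Normal)
    (hC : IsCyclic C) (P : Sylow p S) (hP : (P : Subgroup S) ≤ C) :
    Nat.card (Sylow p S) = M.index := by
  haveI := hC
  -- M normalizes P
  have hMN : M ≤ Subgroup.normalizer (P : Set S) := by
    intro m hm
    rw [← Sylow.smul_eq_iff_mem_normalizer]
    -- m • P ≤ C
    have h1 : ((m • P : Sylow p S) : Subgroup S) ≤ C := by
      intro y hy
      rw [Sylow.coe_subgroup_smul, Subgroup.mem_pointwise_smul_iff_inv_smul_mem] at hy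
      simp only [← map_inv, MulAut.smul_def, MulAut.conj_apply, inv_inv] at hy
      have h2 : m⁻¹ * y * m ∈ C := hP hy
      have h3 := hCn.conj_mem ⟨m⁻¹ * y * m, hCM h2⟩ (by rw [Subgroup.mem_subgroupOf]; exact h2) ⟨m, hm⟩
      rw [Subgroup.mem_subgroupOf] at h3
      simpa [mul_assoc] using h3
    apply Sylow.subtype_injective (hP := h1) (hQ := hP)
    obtain ⟨c, hc⟩ := MulAction.exists_smul_eq C ((m • P).subtype h1) (P.subtype hP)
    rw [Sylow.smul_eq_of_normal] at hc
    exact hc
  have hne : Subgroup.normalizer (P : Set S) ≠ ⊤ := by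
    intro htop
    have hPn : (P : Subgroup S).Normal := Subgroup.normalizer_eq_top_iff.1 (by rw [P.coe_coe]; exact htop)
    rcases hPn.eq_bot_or_eq_top with h | h
    · exact P.ne_bot_of_dvd_card hp h
    · apply hS
      have hCtop : C = ⊤ := top_le_iff.1 (h ▸ hP)
      refine ⟨⟨fun a b => ?_⟩⟩
      have := mul_comm' (⟨a, hCtop ▸ Subgroup.mem_top a⟩ : C) ⟨b, hCtop ▸ Subgroup.mem_top b⟩
      exact congrArg Subtype.val this
  have heq : Subgroup.normalizer (P : Set S) = M := by
    by_contra hne'
    exact hne (hM.2 _ (lt_of_le_of_ne hMN (Ne.symm hne')))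
  rw [P.card_eq_index_normalizer, heq]

end Cfsg.Agent.S4344
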