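import Cfsg.Statements.S4345
import Mathlib
import Cfsg.Agent.Lib.Helper23.SylowCount
import Cfsg.Agent.Lib.Helper1.Hall

set_option autoImplicit false
open Cfsg

namespace Cfsg.Agent.S4345

open Cfsg.Agent.Lib.Helper23

universe u

theorem main (p ℓ : ℕ) [Fact p.Prime] (hℓ : ℓ.Prime) : ∀ n : ℕ, ∀ (G : Type u) [Group G] [Finite G],
    Nat.card G = n → Group.IsSolvable G →
    ℓ ^ (Nat.card (Sylow p G)).factorization ℓ ≡ 1 [MOD p] := by
  intro n
  induction n using Nat.strong_induction_on with
  | _ n ih =>
    intro G _ _ hn hG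
    by_cases hnt : Nontrivial G
    · obtain ⟨q, K, hq, hKn, hKne, -, hKq⟩ :=
        Cfsg.Agent.Lib.Helper1.exists_normal_elementary_abelian (G := G)
      obtain ⟨P⟩ : Nonempty (Sylow p G) := inferInstance
      have hKp : IsPGroup q K := fun x => ⟨1, by
        apply Subtype.ext
        simpa using hKq x x.2⟩
      have : Fact q.Prime := ⟨hq⟩
      obtain ⟨a, ha⟩ := IsPGroup.iff_card.mp hKp
      have hlt : Nat.card (G ⧸ K) < n := by
        rw [← hn, ← Subgroup.index_eq_card, ← Subgroup.card_mul_index K]
        have h1 : 1 < Nat.card K := by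
          rw [Subgroup.one_lt_card_iff_ne_bot]
          exact hKne
        have h2 : 0 < K.index := Nat.pos_of_ne_zero Subgroup.index_ne_zero_of_finite
        nlinarith
      have ih1 := ih _ hlt (G ⧸ K) rfl inferInstance
      have hr1 : Nat.card (Sylow p ((P : Subgroup G) ⊔ K : Subgroup G)) ≡ 1 [MOD p] :=
        card_sylow_modEq_one p _
      have hr2 : Nat.card (Sylow p ((P : Subgroup G) ⊔ K : Subgroup G)) ∣ q ^ a := by
        rw [card_sylow_eq_relIndex p ((P : Subgroup G) ⊔ K) P le_sup_left P.isPGroup'
          (fun h => P.not_dvd_index (h.trans (Subgroup.relIndex_dvd_index_of_le le_sup_left))),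
          ← ha]
        refine (Subgroup.relIndex_dvd_of_le_left _ Subgroup.le_normalizer).trans ?_
        rw [relIndex_sup_of_normal]
        exact Subgroup.relIndex_dvd_card _ _
      obtain ⟨b, -, hb⟩ := (Nat.dvd_prime_pow hq).1 hr2
      rw [card_sylow_eq_mul p K P, Nat.factorization_mul (Nat.card_pos).ne' (Nat.card_pos).ne',
        Finsupp.add_apply, pow_add]
      have h3 : ℓ ^ (Nat.card (Sylow p ((P : Subgroup G) ⊔ K : Subgroup G))).factorization ℓ
          ≡ 1 [MOD p] := by
        by_cases hlq : ℓ = q
        · subst hlq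
          rw [hb] at hr1 ⊢
          rw [Nat.Prime.factorization_pow hq, Finsupp.single_eq_same]
          exact hr1
        · rw [hb, Nat.Prime.factorization_pow hq, Finsupp.single_eq_of_ne (by tauto), pow_zero]
      simpa using ih1.mul h3
    · rw [not_nontrivial_iff_subsingleton] at hnt
      have : Nat.card (Sylow p G) = 1 := by
        rw [Nat.card_eq_one_iff_unique]
        refine ⟨⟨fun P Q => ?_⟩, inferInstance⟩
        apply Sylow.ext
        exact Subsingleton.elim _ _
      rw [this]
      simp [Nat.ModEq]

/-- Let G be a finite solvable group and p, ℓ primes. Then the largest power of ℓ dividing the number of Sylow p-subgroups of G is congruent to 1 modulo p. -/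
theorem result {G : Type*} [Group G] [Finite G]
    (hG : Group.IsSolvable G) (p ℓ : ℕ) [Fact p.Prime] (hℓ : ℓ.Prime) :
    ℓ ^ (Nat.card (Sylow p G)).factorization ℓ ≡ 1 [MOD p] := by
  exact main p ℓ hℓ _ G rfl hG

end Cfsg.Agent.S4345
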