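import Cfsg.Statements.S4354
import Mathlib
import Cfsg.Agent.Lib.Helper23.Basic

set_option autoImplicit false
open Cfsg

namespace Cfsg.Agent.S4354

open Cfsg.Agent.Lib.Helper23

/-- every `p`-element has class size prime to `p` -/
def Star (p : ℕ) (G : Type*) [Group G] : Prop :=
  ∀ x : G, (∃ k : ℕ, orderOf x = p ^ k) → ¬ p ∣ (Subgroup.centralizer ({x} : Set G)).index

theorem star_normal {G : Type*} [Group G] [Finite G] (p : ℕ) [Fact p.Prime] (h : Star p G)
    (N : Subgroup G) [N.Normal] : Star p N := by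
  intro x hx
  have hx' : ∃ k : ℕ, orderOf (x : G) = p ^ k := by
    obtain ⟨k, hk⟩ := hx
    exact ⟨k, by rw [Subgroup.orderOf_coe, hk]⟩
  obtain ⟨R, hR⟩ := exists_sylow_le_of_not_dvd_index p _ (h x hx')
  have h1 : (R : Subgroup G).subgroupOf N ≤ Subgroup.centralizer ({x} : Set N) := by
    intro y hy
    rw [Subgroup.mem_subgroupOf] at hy
    have := Subgroup.mem_centralizer_singleton_iff.1 (hR hy)
    rw [Subgroup.mem_centralizer_singleton_iff]
    exact Subtype.ext this
  intro hd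
  have h2 := hd.trans (Subgroup.index_dvd_of_le h1)
  have h3 : ((R : Subgroup G).subgroupOf N).index ∣ (R : Subgroup G).index :=
    relIndex_dvd_index_of_normal' (R : Subgroup G) N
  exact R.not_dvd_index (h2.trans h3)

theorem star_quotient {G : Type*} [Group G] [Finite G] (p : ℕ) [Fact p.Prime] (h : Star p G)
    (N : Subgroup G) [N.Normal] : Star p (G ⧸ N) := by
  intro xb hxb
  -- xb lies in a Sylow subgroup of the quotient, which is an image of a Sylow subgroup of G
  obtain ⟨Qb, hQb⟩ := (isPGroup_zpowers p xb hxb).exists_le_sylow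
  obtain ⟨Q, rfl⟩ := Sylow.mapSurjective_surjective (QuotientGroup.mk'_surjective N) p Qb
  have hmem : xb ∈ (Q : Subgroup G).map (QuotientGroup.mk' N) := hQb (Subgroup.mem_zpowers xb)
  obtain ⟨x, hxQ, rfl⟩ := hmem
  obtain ⟨R, hR⟩ := exists_sylow_le_of_not_dvd_index p _ (h x (orderOf_eq_pow_of_mem_sylow p Q x hxQ))
  apply not_dvd_index_of_sylow_le p _ (R.mapSurjective (QuotientGroup.mk'_surjective N))
  rintro _ ⟨y, hy, rfl⟩
  have := Subgroup.mem_centralizer_singleton_iff.1 (hR hy)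
  rw [Subgroup.mem_centralizer_singleton_iff, ← map_mul, ← map_mul, this]

theorem main {G : Type*} [Group G] [Finite G] (p : ℕ) [Fact p.Prime] (h : Star p G)
    (N : Subgroup G) [N.Normal] (hN : ∀ Q : Sylow p N, IsMulCommutative Q)
    (hGN : ∀ Q : Sylow p (G ⧸ N), IsMulCommutative Q) (P : Sylow p G) : IsMulCommutative P := by
  -- decomposition of elements of P
  have key : ∀ u ∈ P, ∃ z ∈ P, (∀ y ∈ P, z * y = y * z) ∧ z⁻¹ * u ∈ N := by
    intro u hu
    have hup := orderOf_eq_pow_of_mem_sylow p P u hu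
    obtain ⟨R, hR⟩ := exists_sylow_le_of_not_dvd_index p _ (h u hup)
    have huR : u ∈ R := mem_sylow_of_le_centralizer p u hup R hR
    let D : Subgroup G := (Subgroup.centralizer ({(QuotientGroup.mk' N u)} : Set (G ⧸ N))).comap
      (QuotientGroup.mk' N)
    have hPD : (P : Subgroup G) ≤ D := by
      intro y hy
      rw [Subgroup.mem_comap, Subgroup.mem_centralizer_singleton_iff]
      haveI := hGN (P.mapSurjective (QuotientGroup.mk'_surjective N))
      have := mul_comm'
        (⟨QuotientGroup.mk' N y, Subgroup.mem_map_of_mem _ hy⟩ :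
          (P.mapSurjective (QuotientGroup.mk'_surjective N)))
        ⟨QuotientGroup.mk' N u, Subgroup.mem_map_of_mem _ hu⟩
      exact congrArg Subtype.val this
    have hRD : (R : Subgroup G) ≤ D := by
      intro y hy
      rw [Subgroup.mem_comap, Subgroup.mem_centralizer_singleton_iff, ← map_mul, ← map_mul,
        Subgroup.mem_centralizer_singleton_iff.1 (hR hy)]
    obtain ⟨d, hdD, hd⟩ := sylow_conj_in p D P R hPD hRD
    refine ⟨d * u * d⁻¹, ?_, ?_, ?_⟩
    · rw [← hd, mem_smul_sylow]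
      simpa [mul_assoc] using huR
    · intro y hy
      rw [← hd, mem_smul_sylow] at hy
      have := Subgroup.mem_centralizer_singleton_iff.1 (hR hy)
      -- (d⁻¹ y d) u = u (d⁻¹ y d)
      have h2 : d * (d⁻¹ * y * d * u) * d⁻¹ = d * (u * (d⁻¹ * y * d)) * d⁻¹ := by rw [this]
      simp only [mul_assoc, mul_inv_cancel_left, mul_inv_cancel, mul_one] at h2 ⊢
      exact h2.symm
    · rw [Subgroup.mem_comap, Subgroup.mem_centralizer_singleton_iff] at hdD
      rw [← QuotientGroup.eq]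
      have h3 : (QuotientGroup.mk' N) (d * u * d⁻¹) = (QuotientGroup.mk' N) u := by
        rw [map_mul, map_mul, hdD, map_inv, mul_assoc, mul_inv_cancel, mul_one]
      exact h3
  -- P ⊓ N is commutative
  have hcomm : ∀ a ∈ P, ∀ b ∈ P, a ∈ N → b ∈ N → a * b = b * a := by
    intro a ha b hb haN hbN
    have hpg : IsPGroup p ((P : Subgroup G).subgroupOf N) :=
      P.2.comap_of_injective N.subtype (Subgroup.subtype_injective N)
    obtain ⟨Q, hQ⟩ := hpg.exists_le_sylow
    haveI := hN Q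
    have := mul_comm' (⟨⟨a, haN⟩, hQ (Subgroup.mem_subgroupOf.2 ha)⟩ : Q)
      ⟨⟨b, hbN⟩, hQ (Subgroup.mem_subgroupOf.2 hb)⟩
    exact congrArg (fun t : Q => ((t : N) : G)) this
  refine ⟨⟨fun a b => Subtype.ext ?_⟩⟩
  obtain ⟨z1, hz1P, hz1, hq1⟩ := key a a.2
  obtain ⟨z2, hz2P, hz2, hq2⟩ := key b b.2
  have hq1P : z1⁻¹ * a ∈ P := mul_mem (inv_mem hz1P) a.2
  have hq2P : z2⁻¹ * b ∈ P := mul_mem (inv_mem hz2P) b.2
  have hc := hcomm _ hq1P _ hq2P hq1 hq2
  have e1 : (a : G) = z1 * (z1⁻¹ * a) := by group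
  have e2 : (b : G) = z2 * (z2⁻¹ * b) := by group
  change (a : G) * b = b * a
  generalize z1⁻¹ * (a : G) = q1 at *
  generalize z2⁻¹ * (b : G) = q2 at *
  rw [e1, e2]
  calc z1 * q1 * (z2 * q2) = z1 * (q1 * z2) * q2 := by group
    _ = z1 * (z2 * q1) * q2 := by rw [hz2 q1 hq1P]
    _ = (z1 * z2) * (q1 * q2) := by group
    _ = (z2 * z1) * (q2 * q1) := by rw [hz1 z2 hz2P, hc]
    _ = z2 * (z1 * q2) * q1 := by group
    _ = z2 * (q2 * z1) * q1 := by rw [hz1 q2 hq2P]
    _ = z2 * q2 * (z1 * q1) := by group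

/-- Let G be a finite group and p a prime such that the Sylow p-subgroups of G are non-abelian while every element of p-power order has conjugacy class size prime to p, and suppose no nontrivial proper normal subgroup N of G has this property and no quotient G/N by such an N has it. Then G is simple. -/
theorem result {G : Type*} [Group G] [Finite G]
    (p : ℕ) [Fact p.Prime] (h : ((∃ P : Sylow p G, ¬ IsMulCommutative P) ∧ ∀ x : G, (∃ k : ℕ, orderOf x = p ^ k) → ¬ p ∣ (Subgroup.centralizer ({x} : Set G)).index))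
    (hmin : ∀ (N : Subgroup G) [N.Normal], N ≠ ⊥ → N ≠ ⊤ →
      ¬ ((∃ P : Sylow p N, ¬ IsMulCommutative P) ∧ ∀ x : N, (∃ k : ℕ, orderOf x = p ^ k) → ¬ p ∣ (Subgroup.centralizer ({x} : Set N)).index) ∧
      ¬ ((∃ P : Sylow p (G ⧸ N), ¬ IsMulCommutative P) ∧ ∀ x : (G ⧸ N), (∃ k : ℕ, orderOf x = p ^ k) → ¬ p ∣ (Subgroup.centralizer ({x} : Set (G ⧸ N))).index)) :
    IsSimpleGroup G := by
  obtain ⟨⟨P, hP⟩, hstar⟩ := h
  have hstar' : Star p G := hstar
  haveI : Nontrivial G := by
    by_contra hnt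
    rw [not_nontrivial_iff_subsingleton] at hnt
    exact hP ⟨⟨fun a b => Subsingleton.elim _ _⟩⟩
  refine ⟨fun N hN => ?_⟩
  by_contra hcon
  push Not at hcon
  obtain ⟨h1, h2⟩ := @hmin N hN hcon.1 hcon.2
  apply hP
  haveI := hN
  apply main p hstar' N
  · intro Q
    by_contra hQ
    exact h1 ⟨⟨Q, hQ⟩, star_normal p hstar' N⟩
  · intro Q
    by_contra hQ
    exact h2 ⟨⟨Q, hQ⟩, star_quotient p hstar' N⟩

end Cfsg.Agent.S4354
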