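import Cfsg.Statements.S4365
import Mathlib

set_option autoImplicit false
open Cfsg

namespace Cfsg.Agent.S4365

open scoped IsMulCommutative

theorem fix_norm {A : Type*} [CommGroup A] (p : ℕ) (γ : MulAut A) (hγ : γ ^ p = 1) (u : A) :
    γ (∏ j ∈ Finset.range p, (γ ^ j) u) = ∏ j ∈ Finset.range p, (γ ^ j) u := by
  rw [map_prod]
  have h1 : ∀ j, γ ((γ ^ j) u) = (γ ^ (j + 1)) u := by
    intro j
    rw [pow_succ', MulAut.mul_apply]
  simp only [h1]
  have h2 := Finset.prod_range_succ (fun j => (γ ^ j) u) p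
  have h3 := Finset.prod_range_succ' (fun j => (γ ^ j) u) p
  rw [h2] at h3
  simp only [hγ, pow_zero] at h3
  exact (mul_right_cancel h3).symm

theorem pow_mem_of_norms {A : Type*} [CommGroup A] (Z0 : Subgroup A) (p : ℕ) (hp : 0 < p)
    (α β : MulAut A) (hc : Commute β α)
    (h1 : ∀ i, ∀ u, ∏ j ∈ Finset.range p, ((β * α ^ i) ^ j) u ∈ Z0)
    (h2 : ∀ j, 0 < j → j < p → ∀ u, ∏ i ∈ Finset.range p, ((α ^ j) ^ i) u ∈ Z0)
    (h3 : ∀ u ∈ Z0, β u ∈ Z0) (u : A) : u ^ p ∈ Z0 := by
  have hT : ∏ i ∈ Finset.range p, ∏ j ∈ Finset.range p, ((β * α ^ i) ^ j) u ∈ Z0 :=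
    Subgroup.prod_mem _ (fun i _ => h1 i u)
  rw [Finset.prod_comm] at hT
  have h4 : ∀ j, ∏ i ∈ Finset.range p, ((β * α ^ i) ^ j) u =
      (β ^ j) (∏ i ∈ Finset.range p, ((α ^ j) ^ i) u) := by
    intro j
    rw [map_prod]
    apply Finset.prod_congr rfl
    intro i _
    rw [(hc.pow_right i).mul_pow, MulAut.mul_apply, ← pow_mul, ← pow_mul, mul_comm i j]
  simp only [h4] at hT
  obtain ⟨q, rfl⟩ : ∃ q, p = q + 1 := ⟨p - 1, by omega⟩
  rw [Finset.prod_range_succ'] at hT
  have h5 : ∀ j, ∀ v ∈ Z0, (β ^ j) v ∈ Z0 := by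
    intro j
    induction j with
    | zero => intro v hv; simpa using hv
    | succ j ih => intro v hv; rw [pow_succ', MulAut.mul_apply]; exact h3 _ (ih v hv)
  have h6 : ∏ j ∈ Finset.range q, (β ^ (j + 1)) (∏ i ∈ Finset.range (q + 1), ((α ^ (j + 1)) ^ i) u)
      ∈ Z0 := by
    apply Subgroup.prod_mem
    intro j hj
    exact h5 _ _ (h2 (j + 1) (by omega) (by have := Finset.mem_range.mp hj; omega) u)
  have h7 := (Subgroup.mul_mem_cancel_left Z0 h6).mp hT
  simpa using h7

section

variable {P : Type*} [Group P]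

local notation "cent" y => Subgroup.centralizer ({y} : Set P)

theorem mem_cent {g y : P} : (g ∈ cent y) ↔ g * y = y * g := Subgroup.mem_centralizer_singleton_iff

theorem cent_pow (hL1 : ∀ u v : P, u ∉ Subgroup.center P → v ∉ Subgroup.center P →
    (cent u) ≤ (cent v) → (cent u) = (cent v)) (v : P) (n : ℕ) (h : v ^ n ∉ Subgroup.center P) :
    (cent v) = (cent (v ^ n)) := by
  apply hL1 v (v ^ n) (fun hv => h (Subgroup.pow_mem _ hv n)) h
  intro g hg
  rw [mem_cent] at hg ⊢
  exact ((show Commute g v from hg).pow_right n).eq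

theorem cent_mul_central (y c : P) (hc : c ∈ Subgroup.center P) : (cent (y * c)) = (cent y) := by
  ext g
  rw [mem_cent, mem_cent]
  have h1 := Subgroup.mem_center_iff.mp hc g
  constructor
  · intro h
    have : g * y * c = y * g * c := by
      calc g * y * c = g * (y * c) := by group
        _ = y * c * g := h
        _ = y * (c * g) := by group
        _ = y * (g * c) := by rw [h1]
        _ = y * g * c := by group
    exact mul_right_cancel this
  · intro h
    calc g * (y * c) = (g * y) * c := by group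
      _ = (y * g) * c := by rw [h]
      _ = y * (g * c) := by group
      _ = y * (c * g) := by rw [h1]
      _ = y * c * g := by group

theorem cent_eq_cent_z (p : ℕ) (hL1 : ∀ u v : P, u ∉ Subgroup.center P → v ∉ Subgroup.center P →
    (cent u) ≤ (cent v) → (cent u) = (cent v)) (z y : P) (hz : z ∉ Subgroup.center P)
    (hzp : z ^ p ∈ Subgroup.center P) (hzc : ∀ g, g * z * g⁻¹ * z⁻¹ ∈ Subgroup.center P)
    (hy : y ^ p ∉ Subgroup.center P) : (cent y) = (cent z) := by
  have hc : (y ^ p)⁻¹ * (z * y) ^ p ∈ Subgroup.center P := by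
    rw [← QuotientGroup.eq, QuotientGroup.mk_pow, QuotientGroup.mk_pow, QuotientGroup.mk_mul]
    have hcomm : Commute (QuotientGroup.mk z : P ⧸ Subgroup.center P) (QuotientGroup.mk y) := by
      have := (QuotientGroup.eq_one_iff (N := Subgroup.center P) _).mpr (hzc y)
      rw [QuotientGroup.mk_mul, QuotientGroup.mk_mul, QuotientGroup.mk_mul, QuotientGroup.mk_inv,
        QuotientGroup.mk_inv, mul_inv_eq_one, mul_inv_eq_iff_eq_mul] at this
      exact this.symm
    have hz1 : (QuotientGroup.mk z : P ⧸ Subgroup.center P) ^ p = 1 := by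
      rw [← QuotientGroup.mk_pow]; exact (QuotientGroup.eq_one_iff _).mpr hzp
    rw [hcomm.mul_pow, hz1, one_mul]
  have hw : (z * y) ^ p = y ^ p * ((y ^ p)⁻¹ * (z * y) ^ p) := by group
  have hwn : (z * y) ^ p ∉ Subgroup.center P := by
    intro h
    apply hy
    have := Subgroup.mul_mem _ h (Subgroup.inv_mem _ hc)
    have e : (z * y) ^ p * ((y ^ p)⁻¹ * (z * y) ^ p)⁻¹ = y ^ p := by group
    rwa [e] at this
  have h1 : (cent (z * y)) = (cent y) := by
    rw [cent_pow hL1 (z * y) p hwn, hw, cent_mul_central _ _ hc, ← cent_pow hL1 y p hy]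
  apply hL1 y z (fun h => hy (Subgroup.pow_mem _ h p)) hz
  intro g hg
  have hg' : g ∈ cent (z * y) := by rw [h1]; exact hg
  rw [mem_cent] at hg hg' ⊢
  have : g * z * y = z * g * y := by
    calc g * z * y = g * (z * y) := by group
      _ = z * y * g := hg'
      _ = z * (y * g) := by group
      _ = z * (g * y) := by rw [hg]
      _ = z * g * y := by group
  exact mul_right_cancel this

end

theorem exists_second_center {P : Type*} [Group P] [Finite P] (p : ℕ) [hp : Fact p.Prime]
    (hP : IsPGroup p P) (x : P) (hx : x ∉ Subgroup.center P) :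
    ∃ z : P, z ∉ Subgroup.center P ∧ z ^ p ∈ Subgroup.center P ∧
      ∀ g, g * z * g⁻¹ * z⁻¹ ∈ Subgroup.center P := by
  have hQ : IsPGroup p (P ⧸ Subgroup.center P) := hP.to_quotient _
  have hnt : Nontrivial (P ⧸ Subgroup.center P) := by
    refine ⟨QuotientGroup.mk x, 1, ?_⟩
    rw [Ne, QuotientGroup.eq_one_iff]
    exact hx
  have hc := hQ.center_nontrivial
  obtain ⟨⟨w, hw⟩, hw1⟩ := exists_ne (1 : Subgroup.center (P ⧸ Subgroup.center P))
  have hw1' : w ≠ 1 := fun h => hw1 (Subtype.ext h)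
  obtain ⟨k, hk⟩ := hQ.exists_orderOf_eq_pow w
  have hk0 : k ≠ 0 := by
    rintro rfl
    rw [pow_zero, orderOf_eq_one_iff] at hk
    exact hw1' hk
  have hdvd : p ∣ orderOf w := by rw [hk]; exact dvd_pow_self p hk0
  have ho := orderOf_pow_orderOf_div (orderOf_pos w).ne' hdvd
  set zb := w ^ (orderOf w / p) with hzb
  have hzbc : zb ∈ Subgroup.center (P ⧸ Subgroup.center P) := Subgroup.pow_mem _ hw _
  obtain ⟨z, hz⟩ := QuotientGroup.mk_surjective zb
  refine ⟨z, ?_, ?_, ?_⟩
  · intro h
    have := (QuotientGroup.eq_one_iff (N := Subgroup.center P) z).mpr h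
    rw [hz] at this
    rw [this, orderOf_one] at ho
    exact hp.out.one_lt.ne ho
  · rw [← QuotientGroup.eq_one_iff, QuotientGroup.mk_pow, hz, ← ho, pow_orderOf_eq_one]
  · intro g
    rw [← QuotientGroup.eq_one_iff, QuotientGroup.mk_mul, QuotientGroup.mk_mul,
      QuotientGroup.mk_mul, QuotientGroup.mk_inv, QuotientGroup.mk_inv, hz,
      Subgroup.mem_center_iff.mp hzbc]
    group

/-- `g ↦ [g, z]` as a homomorphism into the centre. -/
def phi {P : Type*} [Group P] (z : P) (hzc : ∀ g, g * z * g⁻¹ * z⁻¹ ∈ Subgroup.center P) :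
    P →* Subgroup.center P where
  toFun g := ⟨g * z * g⁻¹ * z⁻¹, hzc g⟩
  map_one' := by ext; simp
  map_mul' g h := by
    ext
    simp only [Subgroup.coe_mul]
    have h1 := Subgroup.mem_center_iff.mp (hzc h)
    calc g * h * z * (g * h)⁻¹ * z⁻¹ = g * (h * z * h⁻¹ * z⁻¹) * (z * g⁻¹ * z⁻¹) := by group
      _ = (h * z * h⁻¹ * z⁻¹) * g * (z * g⁻¹ * z⁻¹) := by rw [h1 g]
      _ = (h * z * h⁻¹ * z⁻¹) * (g * z * g⁻¹ * z⁻¹) := by group
      _ = g * z * g⁻¹ * z⁻¹ * (h * z * h⁻¹ * z⁻¹) := (h1 _).symm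

theorem phi_ker {P : Type*} [Group P] (z : P) (hzc : ∀ g, g * z * g⁻¹ * z⁻¹ ∈ Subgroup.center P) :
    (phi z hzc).ker = Subgroup.centralizer ({z} : Set P) := by
  ext g
  rw [MonoidHom.mem_ker, Subgroup.mem_centralizer_singleton_iff]
  constructor
  · intro h
    have := congrArg Subtype.val h
    change g * z * g⁻¹ * z⁻¹ = 1 at this
    rw [mul_inv_eq_one, mul_inv_eq_iff_eq_mul] at this
    exact this
  · intro h
    ext
    change g * z * g⁻¹ * z⁻¹ = 1
    rw [h]; group

theorem phi_pow {P : Type*} [Group P] (p : ℕ) (z : P)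
    (hzc : ∀ g, g * z * g⁻¹ * z⁻¹ ∈ Subgroup.center P) (hzp : z ^ p ∈ Subgroup.center P) (g : P) :
    (phi z hzc g) ^ p = 1 := by
  ext
  change (g * z * g⁻¹ * z⁻¹) ^ p = 1
  have hc : Commute (g * z * g⁻¹ * z⁻¹) z := ((Subgroup.mem_center_iff.mp (hzc g)) z).symm
  have h1 : (g * z * g⁻¹ * z⁻¹ * z) ^ p = z ^ p := by
    have e : g * z * g⁻¹ * z⁻¹ * z = g * z * g⁻¹ := by group
    rw [e, conj_pow, (Subgroup.mem_center_iff.mp hzp) g]
    group
  rw [hc.mul_pow] at h1
  exact mul_eq_right.mp h1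

theorem pow_mem_of_index_eq {P : Type*} [Group P] [Finite P] (p : ℕ) [hp : Fact p.Prime]
    (hP : IsPGroup p P) (K : Subgroup P) (hK : K.index = p) (x : P) : x ^ p ∈ K := by
  obtain ⟨n, hn⟩ := IsPGroup.iff_card.mp hP
  have hn0 : n ≠ 0 := by
    rintro rfl
    have := K.index_dvd_card
    rw [hn, hK, pow_zero] at this
    exact hp.out.one_lt.ne' (Nat.dvd_one.mp this)
  have hN : K.Normal := by
    apply Subgroup.normal_of_index_eq_minFac_card
    rw [hn, Nat.pow_minFac hn0, hK, hp.out.minFac_eq]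
  have hc : Nat.card (P ⧸ K) = p := hK
  rw [← QuotientGroup.eq_one_iff, QuotientGroup.mk_pow, ← hc]
  exact pow_card_eq_one'

/-- Let P be a finite p-group whose conjugacy class sizes are exactly 1 and pᵃ for some a ≥ 1. Then every element of P has its p-th power in the center of P (P/Z(P) has exponent p). -/
theorem result {P : Type*} [Group P] [Finite P] (p : ℕ) [Fact p.Prime]
    (hP : IsPGroup p P) (a : ℕ) (ha : 1 ≤ a)
    (hcs : {k : ℕ | ∃ x : P, (Subgroup.centralizer ({x} : Set P)).index = k} = {1, p ^ a}) (x : P) :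
    x ^ p ∈ Subgroup.center P := by
  by_contra hx
  have hpp : p.Prime := Fact.out
  have hidx : ∀ y : P, y ∉ Subgroup.center P →
      (Subgroup.centralizer ({y} : Set P)).index = p ^ a := by
    intro y hy
    have h1 : (Subgroup.centralizer ({y} : Set P)).index ∈ ({1, p ^ a} : Set ℕ) := by
      rw [← hcs]; exact ⟨y, rfl⟩
    rcases h1 with h1 | h1
    · exfalso
      apply hy
      rw [Subgroup.index_eq_one] at h1
      rw [Subgroup.mem_center_iff]
      intro g
      have : g ∈ Subgroup.centralizer ({y} : Set P) := by rw [h1]; trivial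
      exact Subgroup.mem_centralizer_singleton_iff.mp this
    · exact h1
  have hL1 : ∀ u v : P, u ∉ Subgroup.center P → v ∉ Subgroup.center P →
      Subgroup.centralizer ({u} : Set P) ≤ Subgroup.centralizer ({v} : Set P) →
      Subgroup.centralizer ({u} : Set P) = Subgroup.centralizer ({v} : Set P) := by
    intro u v hu hv hle
    apply Subgroup.eq_of_le_of_card_ge hle
    have h1 := Subgroup.card_mul_index (Subgroup.centralizer ({u} : Set P))
    have h2 := Subgroup.card_mul_index (Subgroup.centralizer ({v} : Set P))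
    rw [hidx u hu] at h1
    rw [hidx v hv, ← h1] at h2
    exact (Nat.eq_of_mul_eq_mul_right (pow_pos hpp.pos a) h2).le
  have hxZ : x ∉ Subgroup.center P := fun h => hx (Subgroup.pow_mem _ h p)
  obtain ⟨z, hz, hzp, hzc⟩ := exists_second_center p hP x hxZ
  set H : Subgroup P := Subgroup.centralizer ({z} : Set P) with hH
  have hxH : Subgroup.centralizer ({x} : Set P) = H := cent_eq_cent_z p hL1 z x hz hzp hzc hx
  have hker : (phi z hzc).ker = H := phi_ker z hzc
  have hHn : H.Normal := hker ▸ inferInstance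
  have hpowH : ∀ g : P, g ^ p ∈ H := by
    intro g
    rw [← hker, MonoidHom.mem_ker, map_pow, phi_pow p z hzc hzp]
  have hcommH : ∀ g h : P, (g * h)⁻¹ * (h * g) ∈ H := by
    intro g h
    rw [← hker, MonoidHom.mem_ker, map_mul, map_inv, map_mul, map_mul, mul_comm (phi z hzc h)]
    group
  have hZH : Subgroup.center P ≤ H := Subgroup.center_le_centralizer _
  set A : Subgroup P := Subgroup.centralizer (H : Set P) ⊓ H with hA
  have hAn : A.Normal := inferInstance
  have hAcomm : IsMulCommutative A := by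
    refine ⟨⟨fun u v => Subtype.ext ?_⟩⟩
    exact (Subgroup.mem_centralizer_iff.mp u.2.1 v v.2.2).symm
  have hxA : x ∈ A := by
    refine ⟨?_, ?_⟩
    · apply Subgroup.mem_centralizer_iff.mpr
      intro h hh
      have : h ∈ Subgroup.centralizer ({x} : Set P) := by rw [hxH]; exact hh
      exact Subgroup.mem_centralizer_singleton_iff.mp this
    · change x ∈ H
      rw [← hxH]
      exact Subgroup.mem_centralizer_singleton_iff.mpr rfl
  have hfixA : ∀ u ∈ A, ∀ g, g ∉ H → g * u = u * g → u ∈ Subgroup.center P := by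
    intro u hu g hg hgu
    by_contra huZ
    have hle : H ≤ Subgroup.centralizer ({u} : Set P) := by
      intro h hh
      apply Subgroup.mem_centralizer_singleton_iff.mpr
      exact Subgroup.mem_centralizer_iff.mp hu.1 h hh
    have := hL1 z u hz huZ hle
    apply hg
    rw [hH, this]
    exact Subgroup.mem_centralizer_singleton_iff.mpr hgu
  set Γ : P →* MulAut A := MulAut.conjNormal with hΓ
  have hΓapp : ∀ (k : P) (u : A), ((Γ k u : A) : P) = k * u * k⁻¹ := fun k u => rfl
  have hΓH : ∀ k ∈ H, Γ k = 1 := by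
    intro k hk
    ext u
    rw [hΓapp, MulAut.one_apply, Subgroup.mem_centralizer_iff.mp u.2.1 k hk]
    group
  set Z0 : Subgroup A := (Subgroup.center P).subgroupOf A with hZ0
  have hnorm : ∀ k, k ∉ H → ∀ u : A, ∏ j ∈ Finset.range p, ((Γ k) ^ j) u ∈ Z0 := by
    intro k hk u
    have h1 : (Γ k) ^ p = 1 := by rw [← map_pow]; exact hΓH _ (hpowH k)
    have h2 := fix_norm p (Γ k) h1 u
    set v := ∏ j ∈ Finset.range p, ((Γ k) ^ j) u with hv
    have h3 := congrArg Subtype.val h2
    rw [hΓapp] at h3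
    rw [hZ0, Subgroup.mem_subgroupOf]
    exact hfixA v v.2 k hk (mul_inv_eq_iff_eq_mul.mp h3)
  by_cases hI : ∃ g h : P, g ∉ H ∧ ∀ i : ℕ, h * g ^ i ∉ H
  · obtain ⟨g, h, hg, hgh⟩ := hI
    have hc : Commute (Γ h) (Γ g) := by
      change Γ h * Γ g = Γ g * Γ h
      rw [← map_mul, ← map_mul]
      have e : h * g = (g * h) * ((g * h)⁻¹ * (h * g)) := by group
      rw [e, map_mul, hΓH _ (hcommH g h), mul_one]
    have hres := pow_mem_of_norms Z0 p hpp.pos (Γ g) (Γ h) hc
      (fun i u => by rw [← map_pow, ← map_mul]; exact hnorm _ (hgh i) u)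
      (fun j hj0 hjp u => by
        rw [← map_pow]
        refine hnorm _ ?_ u
        intro hmem
        apply hg
        rw [← hker, MonoidHom.mem_ker] at hmem ⊢
        rw [map_pow] at hmem
        have h1 := orderOf_dvd_of_pow_eq_one hmem
        have h2 := orderOf_dvd_of_pow_eq_one (phi_pow p z hzc hzp g)
        have h3 : Nat.Coprime p j := Nat.coprime_of_lt_prime hj0.ne' hjp hpp
        have h4 := Nat.dvd_gcd h2 h1
        rw [h3, Nat.dvd_one, orderOf_eq_one_iff] at h4
        exact h4)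
      (fun u hu => by
        rw [hZ0, Subgroup.mem_subgroupOf] at hu ⊢
        rw [hΓapp, (Subgroup.mem_center_iff.mp hu) h]
        simpa using hu)
      ⟨x, hxA⟩
    rw [hZ0, Subgroup.mem_subgroupOf] at hres
    exact hx hres
  · push Not at hI
    obtain ⟨g, hg⟩ : ∃ g, g ∉ H := by
      by_contra hcon
      push Not at hcon
      apply hz
      rw [Subgroup.mem_center_iff]
      intro k
      exact Subgroup.mem_centralizer_singleton_iff.mp (hcon k)
    have hle : H.index ≤ p := by
      have hsurj : Function.Surjective (fun i : Fin p => (QuotientGroup.mk (g ^ (i : ℕ)) : P ⧸ H)) := by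
        intro q
        obtain ⟨k, rfl⟩ := QuotientGroup.mk_surjective q
        obtain ⟨i, hi⟩ := hI g k⁻¹ hg
        refine ⟨⟨i % p, Nat.mod_lt _ hpp.pos⟩, ?_⟩
        simp only
        rw [QuotientGroup.eq]
        have e : (g ^ (i % p))⁻¹ * k = ((g ^ p) ^ (i / p)) * (k⁻¹ * g ^ i)⁻¹ := by
          have h1 : g ^ i = g ^ (i % p) * (g ^ p) ^ (i / p) := by
            rw [← pow_mul, ← pow_add, Nat.mod_add_div]
          rw [h1, mul_inv_rev, mul_inv_rev, inv_inv, ← mul_assoc, ← mul_assoc, mul_inv_cancel,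
            one_mul]
        rw [e]
        exact H.mul_mem (H.pow_mem (hpowH g) _) (H.inv_mem hi)
      have := Nat.card_le_card_of_surjective _ hsurj
      simpa [Subgroup.index] using this
    have hpa : p ^ a = p := by
      have h1 : H.index = p ^ a := hidx z hz
      rw [h1] at hle
      have h2 : p ^ 1 ≤ p ^ a := Nat.pow_le_pow_right hpp.pos ha
      rw [pow_one] at h2
      omega
    have hgZ : g ∉ Subgroup.center P := fun h => hg (hZH h)
    have h1 : (Subgroup.centralizer ({g} : Set P)).index = p := by rw [hidx g hgZ, hpa]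
    have h2 := pow_mem_of_index_eq p hP _ h1 x
    apply hg
    rw [← hxH, cent_pow hL1 x p hx]
    apply Subgroup.mem_centralizer_singleton_iff.mpr
    exact (Subgroup.mem_centralizer_singleton_iff.mp h2).symm

end Cfsg.Agent.S4365
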