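import Cfsg.Statements.S4370
import Mathlib
import Cfsg.Agent.S0016
import Cfsg.Agent.Lib.Helper9.Basic
import Cfsg.Agent.Lib.Helper20.Fitting

set_option autoImplicit false
open Cfsg

namespace Cfsg.Agent.S4370

open QuaternionGroup in
theorem two_mul_eq_zero {n : ℕ} [NeZero n] (j : ZMod (2 * n)) (h : 2 * j = 0) :
    j = 0 ∨ j = n := by
  have hn : 0 < n := Nat.pos_of_ne_zero (NeZero.ne n)
  have hj : j.val < 2 * n := ZMod.val_lt j
  have h2 : ((2 * j.val : ℕ) : ZMod (2 * n)) = 0 := by
    push_cast; rw [ZMod.natCast_zmod_val]; exact h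
  rw [ZMod.natCast_eq_zero_iff] at h2
  have h3 : n ∣ j.val := Nat.dvd_of_mul_dvd_mul_left two_pos h2
  obtain ⟨c, hc⟩ := h3
  have hc2 : c < 2 := by
    by_contra hcc
    push Not at hcc
    nlinarith
  interval_cases c
  · left; exact (ZMod.val_eq_zero j).mp (by simpa using hc)
  · right; rw [← ZMod.natCast_zmod_val j, hc]; simp

open QuaternionGroup in
theorem isCyclic_centralizer_quat {n : ℕ} [NeZero n] (q : QuaternionGroup n)
    (hq : q ∉ Subgroup.center (QuaternionGroup n)) :
    IsCyclic (Subgroup.centralizer ({q} : Set (QuaternionGroup n))) := by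
  rcases q with i | i
  · have hi : 2 * i ≠ 0 := by
      intro h
      apply hq
      rw [Subgroup.mem_center_iff]
      rintro (j | j)
      · simp [add_comm]
      · simp only [xa_mul_a, a_mul_xa, xa.injEq]
        linear_combination h
    have hle : Subgroup.centralizer {a i} ≤ Subgroup.zpowers (a 1 : QuaternionGroup n) := by
      rintro (j | j) hj
      · refine ⟨((j.val : ℕ) : ℤ), ?_⟩
        show (a 1 : QuaternionGroup n) ^ ((j.val : ℕ) : ℤ) = a j
        rw [zpow_natCast, a_one_pow, ZMod.natCast_zmod_val]
      · exfalso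
        rw [Subgroup.mem_centralizer_singleton_iff] at hj
        simp only [xa_mul_a, a_mul_xa, xa.injEq] at hj
        apply hi
        linear_combination hj
    exact Subgroup.isCyclic_of_le hle
  · have hle : Subgroup.centralizer {xa i} ≤ Subgroup.zpowers (xa i : QuaternionGroup n) := by
      rintro (j | j) hj
      · rw [Subgroup.mem_centralizer_singleton_iff] at hj
        simp only [xa_mul_a, a_mul_xa, xa.injEq] at hj
        have h2 : 2 * j = 0 := by linear_combination -hj
        rcases two_mul_eq_zero j h2 with rfl | rfl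
        · rw [a_zero]; exact one_mem _
        · rw [← xa_sq i]; exact Subgroup.pow_mem _ (Subgroup.mem_zpowers _) 2
      · rw [Subgroup.mem_centralizer_singleton_iff] at hj
        simp only [xa_mul_xa, a.injEq] at hj
        have h2 : 2 * (j - i) = 0 := by linear_combination -hj
        rcases two_mul_eq_zero (j - i) h2 with h | h
        · have : j = i := by linear_combination h
          rw [this]; exact Subgroup.mem_zpowers _
        · have : xa j = xa i * (xa i) ^ 2 := by
            rw [xa_sq, xa_mul_a]
            congr 1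
            linear_combination h
          rw [this]
          exact mul_mem (Subgroup.mem_zpowers _) (Subgroup.pow_mem _ (Subgroup.mem_zpowers _) 2)
    exact Subgroup.isCyclic_of_le hle

theorem isCyclic_centralizer_of_equiv {G H : Type*} [Group G] [Group H] (e : G ≃* H) (x : G)
    (h : IsCyclic (Subgroup.centralizer ({e x} : Set H))) :
    IsCyclic (Subgroup.centralizer ({x} : Set G)) := by
  let f : Subgroup.centralizer ({x} : Set G) →* Subgroup.centralizer ({e x} : Set H) :=
    (e.toMonoidHom.comp (Subgroup.subtype _)).codRestrict _ (by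
      intro g
      have := Subgroup.mem_centralizer_singleton_iff.mp g.2
      rw [Subgroup.mem_centralizer_singleton_iff]
      show e g.1 * e x = e x * e g.1
      rw [← map_mul, ← map_mul, this])
  refine isCyclic_of_injective f ?_
  intro a b hab
  have : e a.1 = e b.1 := congrArg Subtype.val hab
  exact Subtype.ext (e.injective this)

theorem backward {k m : ℕ} (hm : Odd m)
    (x : QuaternionGroup (2 ^ k) × Multiplicative (ZMod m))
    (hx : x ∉ Subgroup.center (QuaternionGroup (2 ^ k) × Multiplicative (ZMod m))) :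
    IsCyclic (Subgroup.centralizer
      ({x} : Set (QuaternionGroup (2 ^ k) × Multiplicative (ZMod m)))) := by
  haveI : NeZero m := ⟨by rintro rfl; simp at hm⟩
  obtain ⟨q, z⟩ := x
  have hq : q ∉ Subgroup.center (QuaternionGroup (2 ^ k)) := by
    intro hq
    apply hx
    rw [Subgroup.mem_center_iff]
    rintro ⟨a, b⟩
    ext1
    · exact Subgroup.mem_center_iff.mp hq a
    · exact mul_comm _ _
  haveI := isCyclic_centralizer_quat q hq
  have hcyc : IsCyclic (Subgroup.centralizer ({q} : Set (QuaternionGroup (2 ^ k))) ×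
      Multiplicative (ZMod m)) := by
    rw [Group.isCyclic_prod_iff]
    refine ⟨inferInstance, inferInstance, ?_⟩
    have h1 : Nat.card (Subgroup.centralizer ({q} : Set (QuaternionGroup (2 ^ k)))) ∣ 2 ^ (k + 2) := by
      have := Subgroup.card_subgroup_dvd_card
        (Subgroup.centralizer ({q} : Set (QuaternionGroup (2 ^ k))))
      rw [Nat.card_eq_fintype_card (α := QuaternionGroup (2 ^ k)), QuaternionGroup.card] at this
      have e : 4 * 2 ^ k = 2 ^ (k + 2) := by ring
      rwa [e] at this
    have h2 : Nat.card (Multiplicative (ZMod m)) = m := by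
      rw [Nat.card_congr Multiplicative.toAdd, Nat.card_zmod]
    rw [h2]
    exact Nat.Coprime.coprime_dvd_left h1 (Nat.Coprime.pow_left _ hm.coprime_two_left)
  let f : Subgroup.centralizer
      ({(q, z)} : Set (QuaternionGroup (2 ^ k) × Multiplicative (ZMod m))) →*
      (Subgroup.centralizer ({q} : Set (QuaternionGroup (2 ^ k))) × Multiplicative (ZMod m)) :=
    MonoidHom.prod
      (((MonoidHom.fst _ _).comp (Subgroup.subtype _)).codRestrict _ (by
        intro g
        have := Subgroup.mem_centralizer_singleton_iff.mp g.2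
        rw [Subgroup.mem_centralizer_singleton_iff]
        exact congrArg Prod.fst this))
      ((MonoidHom.snd _ _).comp (Subgroup.subtype _))
  refine isCyclic_of_injective f ?_
  intro a b hab
  have h1 : a.1.1 = b.1.1 := congrArg (fun t => t.1.1) hab
  have h2 : a.1.2 = b.1.2 := congrArg (fun t => t.2) hab
  exact Subtype.ext (Prod.ext h1 h2)

theorem forward {G : Type*} [Group G] [Finite G] (hG : Group.IsNilpotent G)
    (hna : ¬ IsMulCommutative G)
    (h : ∀ x : G, x ∉ Subgroup.center G → IsCyclic (Subgroup.centralizer ({x} : Set G))) :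
    ∃ (k m : ℕ), 1 ≤ k ∧ Odd m ∧
      Nonempty (G ≃* QuaternionGroup (2 ^ k) × Multiplicative (ZMod m)) := by
  classical
  have hnorm : ∀ (p : ℕ) (_hp : Fact p.Prime) (P : Sylow p G), (↑P : Subgroup G).Normal :=
    ((Group.isNilpotent_of_finite_tfae (G := G)).out 0 3).mp hG
  obtain ⟨e⟩ : Nonempty
      ((∀ p : (Nat.card G).primeFactors, ∀ P : Sylow p G, (↑P : Subgroup G)) ≃* G) :=
    ((Group.isNilpotent_of_finite_tfae (G := G)).out 0 4).mp hG
  obtain ⟨x0, hx0⟩ : ∃ x0 : G, x0 ∉ Subgroup.center G := by
    by_contra hc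
    push Not at hc
    exact hna ⟨⟨fun a b => (Subgroup.mem_center_iff.mp (hc b) a)⟩⟩
  -- uniqueness inside a cyclic subgroup
  have hcyc_uniq : ∀ (C H K : Subgroup G), IsCyclic C → H ≤ C → K ≤ C →
      Nat.card H = Nat.card K → H = K := by
    intro C H K hC hH hK hcard
    have h1 : H.subgroupOf C = K.subgroupOf C := by
      apply Cfsg.Agent.Lib.Helper9.eq_of_card_eq_of_isCyclic
      rw [Nat.card_congr (Subgroup.subgroupOfEquivOfLe hH).toEquiv,
        Nat.card_congr (Subgroup.subgroupOfEquivOfLe hK).toEquiv, hcard]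
    have h2 := congrArg (Subgroup.map C.subtype) h1
    rwa [Subgroup.subgroupOf_map_subtype, Subgroup.subgroupOf_map_subtype,
      inf_eq_left.mpr hH, inf_eq_left.mpr hK] at h2
  have huniq : ∀ (p : ℕ) [Fact p.Prime] (H K : Subgroup G),
      Nat.card H = p → Nat.card K = p → H = K := by
    intro p hp
    have key : ∀ (H : Subgroup G), Nat.card H = p → ∀ z : G, z ∈ Subgroup.center G →
        orderOf z = p → H = Subgroup.zpowers z := by
      intro H hH z hz hzp
      by_cases hHc : H ≤ Subgroup.center G
      · refine hcyc_uniq _ H _ (h x0 hx0) ?_ ?_ ?_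
        · intro y hy
          rw [Subgroup.mem_centralizer_singleton_iff]
          exact (Subgroup.mem_center_iff.mp (hHc hy) x0).symm
        · rw [Subgroup.zpowers_le, Subgroup.mem_centralizer_singleton_iff]
          exact (Subgroup.mem_center_iff.mp hz x0).symm
        · rw [hH, Nat.card_zpowers, hzp]
      · obtain ⟨y, hy, hyc⟩ := SetLike.not_le_iff_exists.mp hHc
        have hHy : H = Subgroup.zpowers y := by
          symm
          apply Subgroup.eq_of_le_of_card_ge
          · rwa [Subgroup.zpowers_le]
          · rw [hH, Nat.card_zpowers]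
            have h1 : orderOf y ∣ p := by
              rw [← hH]
              have := orderOf_dvd_natCard (⟨y, hy⟩ : H)
              rwa [Subgroup.orderOf_mk] at this
            rcases (Nat.dvd_prime hp.out).mp h1 with h1 | h1
            · rw [orderOf_eq_one_iff] at h1
              exact absurd (h1 ▸ one_mem _) hyc
            · exact h1.ge
        refine hcyc_uniq _ H _ (h y hyc) ?_ ?_ ?_
        · rw [hHy, Subgroup.zpowers_le, Subgroup.mem_centralizer_singleton_iff]
        · rw [Subgroup.zpowers_le, Subgroup.mem_centralizer_singleton_iff]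
          exact (Subgroup.mem_center_iff.mp hz y).symm
        · rw [hH, Nat.card_zpowers, hzp]
    intro H K hH hK
    -- a central element of order p
    obtain ⟨P⟩ : Nonempty (Sylow p G) := inferInstance
    haveI := hnorm p hp P
    have hPne : (P : Subgroup G) ≠ ⊥ := by
      intro hbot
      have h1 : p ∣ Nat.card G := hH ▸ Subgroup.card_subgroup_dvd_card H
      have h2 := P.dvd_card_of_dvd_card h1
      rw [hbot, Subgroup.card_bot] at h2
      exact hp.out.one_lt.ne' (Nat.dvd_one.mp h2)
    obtain ⟨w, hwP, hwc, hw1⟩ := Cfsg.Agent.Lib.Helper20.normal_inf_center_ne_bot (P : Subgroup G) hPne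
    have hD : IsPGroup p ((P : Subgroup G) ⊓ Subgroup.center G : Subgroup G) :=
      P.2.to_le inf_le_left
    have hDdvd : p ∣ Nat.card ((P : Subgroup G) ⊓ Subgroup.center G : Subgroup G) := by
      rcases hD.card_eq_or_dvd with h1 | h1
      · exfalso
        rw [Subgroup.card_eq_one] at h1
        have : w ∈ ((P : Subgroup G) ⊓ Subgroup.center G : Subgroup G) := ⟨hwP, hwc⟩
        rw [h1, Subgroup.mem_bot] at this
        exact hw1 this
      · exact h1
    obtain ⟨z, hz⟩ := exists_prime_orderOf_dvd_card' p hDdvd
    have hz' : orderOf (z : G) = p := by rw [Subgroup.orderOf_coe, hz]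
    rw [key H hH z z.2.2 hz', key K hK z z.2.2 hz']
  -- a noncommutative Sylow subgroup
  obtain ⟨p, hp, P, hP⟩ : ∃ (p : ℕ) (hp : Fact p.Prime) (P : Sylow p G),
      ¬ IsMulCommutative (P : Subgroup G) := by
    by_contra hc
    push Not at hc
    apply hna
    have hcomm : ∀ a b : (∀ p : (Nat.card G).primeFactors, ∀ P : Sylow p G, (↑P : Subgroup G)),
        a * b = b * a := by
      intro a b
      funext p P
      have := hc p ⟨Nat.prime_of_mem_primeFactors p.2⟩ P
      exact this.is_comm.comm (a p P) (b p P)
    constructor; constructor; intro a b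
    apply e.symm.injective
    rw [map_mul, map_mul, hcomm]
  have hPuniq : ∀ H K : Subgroup (P : Subgroup G), Nat.card H = p → Nat.card K = p → H = K := by
    intro H K hH hK
    have := huniq p (H.map (P : Subgroup G).subtype) (K.map (P : Subgroup G).subtype)
      (by rw [Subgroup.card_subtype, hH]) (by rw [Subgroup.card_subtype, hK])
    exact Subgroup.map_injective (Subgroup.subtype_injective _) this
  have hnotcyc : ∀ (A : Type) [Group A], IsCyclic A → (P : Subgroup G) ≃* A → False := by
    intro A _ hA eA
    have : IsCyclic (P : Subgroup G) := eA.isCyclic.mpr hA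
    exact hP ⟨⟨fun a b => (IsCyclic.commGroup (α := (P : Subgroup G))).mul_comm a b⟩⟩
  rcases Cfsg.Agent.S0016.result p P.2 hPuniq with hcyc | ⟨rfl, n, ⟨eP⟩⟩
  · exact absurd ⟨⟨fun a b => (IsCyclic.commGroup (α := (P : Subgroup G))).mul_comm a b⟩⟩ hP
  have hn : 1 ≤ n := by
    by_contra hn0
    have : n = 0 := by omega
    subst this
    exact hnotcyc _ QuaternionGroup.quaternionGroup_one_isCyclic eP
  haveI := hnorm 2 hp P
  -- a noncentral element of P
  obtain ⟨x, hxP, y, hyP, hxy⟩ : ∃ x ∈ (P : Subgroup G), ∃ y ∈ (P : Subgroup G), y * x ≠ x * y := by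
    by_contra hc
    push Not at hc
    exact hP ⟨⟨fun a b => Subtype.ext (hc b.1 b.2 a.1 a.2)⟩⟩
  have hxc : x ∉ Subgroup.center G := fun hx => hxy (Subgroup.mem_center_iff.mp hx y)
  have hCx := h x hxc
  obtain ⟨H, hH⟩ := Subgroup.exists_right_complement'_of_coprime P.card_coprime_index
  set C := Subgroup.centralizer ((P : Subgroup G) : Set G) with hC
  have hCle : C ≤ Subgroup.centralizer ({x} : Set G) :=
    Subgroup.centralizer_le (by
      intro t ht
      rw [Set.mem_singleton_iff] at ht
      rw [ht]; exact hxP)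
  have hidx : ∃ k, C.index = 2 ^ k := by
    refine ⟨_, Nat.eq_prime_pow_of_unique_prime_dvd (Subgroup.index_ne_zero_of_finite) ?_⟩
    intro q hq hqd
    by_contra hq2
    haveI : Fact q.Prime := ⟨hq⟩
    obtain ⟨Q⟩ : Nonempty (Sylow q G) := inferInstance
    have hQC : (Q : Subgroup G) ≤ C := by
      intro g hg
      rw [hC, Subgroup.mem_centralizer_iff]
      intro u hu
      exact Subgroup.commute_of_normal_of_disjoint _ _ (hnorm 2 hp P) (hnorm q inferInstance Q)
        (IsPGroup.disjoint_of_ne 2 q (Ne.symm hq2) _ _ P.2 Q.2) u g hu hg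
    exact Q.not_dvd_index (hqd.trans (Subgroup.index_dvd_of_le hQC))
  obtain ⟨k, hk⟩ := hidx
  have hHcard : Nat.card H = (P : Subgroup G).index := hH.symm.index_eq_card.symm
  have hHodd : Nat.Coprime 2 (Nat.card H) := by
    rw [hHcard, Nat.Prime.coprime_iff_not_dvd Nat.prime_two]
    exact P.not_dvd_index
  have hHC : H ≤ C := by
    intro g hg
    have h1 : g ^ C.index ∈ C := Subgroup.pow_index_mem C g
    have h2 : orderOf g ∣ Nat.card H := by
      have := orderOf_dvd_natCard (⟨g, hg⟩ : H)
      rwa [Subgroup.orderOf_mk] at this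
    have h3 : (C.index).Coprime (orderOf g) := by
      rw [hk]
      exact Nat.Coprime.pow_left _ (Nat.Coprime.coprime_dvd_right h2 hHodd)
    obtain ⟨m, hm⟩ := exists_pow_eq_self_of_coprime h3
    rw [← hm]
    exact Subgroup.pow_mem _ h1 m
  have hHcyc : IsCyclic H := Subgroup.isCyclic_of_le (hHC.trans hCle)
  let f : ↥(P : Subgroup G) × ↥H →* G :=
    MonoidHom.noncommCoprod (P : Subgroup G).subtype H.subtype (by
      intro u v
      exact (Subgroup.mem_centralizer_iff.mp (hHC v.2) u.1 u.2))
  have hf : Function.Bijective f := hH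
  refine ⟨n, Nat.card H, hn, ?_, ⟨(MulEquiv.ofBijective f hf).symm.trans
    (MulEquiv.prodCongr eP (zmodCyclicMulEquiv hHcyc).symm)⟩⟩
  exact (Nat.coprime_two_left.mp hHodd)

/-- Let G be a finite non-abelian nilpotent group. Then the centralizer of every non-central element of G is cyclic if and only if G is isomorphic to the direct product of a generalized quaternion group and a cyclic group of odd order. -/
theorem result {G : Type*} [Group G] [Finite G] (hG : Group.IsNilpotent G)
    (hna : ¬ IsMulCommutative G) :
    (∀ x : G, x ∉ Subgroup.center G → IsCyclic (Subgroup.centralizer ({x} : Set G))) ↔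
      ∃ (k m : ℕ), 1 ≤ k ∧ Odd m ∧ Nonempty (G ≃* QuaternionGroup (2 ^ k) × Multiplicative (ZMod m)) := by
  constructor
  · exact forward hG hna
  · rintro ⟨k, m, hk, hm, ⟨e⟩⟩ x hx
    apply isCyclic_centralizer_of_equiv e
    apply backward hm
    intro hc
    apply hx
    rw [Subgroup.mem_center_iff] at hc ⊢
    intro g
    apply e.injective
    rw [map_mul, map_mul]
    exact hc (e g)

end Cfsg.Agent.S4370
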