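import Cfsg.Statements.S4377
import Mathlib

set_option autoImplicit false
open Cfsg

namespace Cfsg.Agent.S4377

theorem key {G : Type*} [Group G] [Finite G] (n : ℕ) (hn : n ≠ 0) :
    ∑ m ∈ n.divisors, Nat.card {g : G // orderOf g = m} = Nat.card {g : G // g ^ n = 1} := by
  classical
  haveI := Fintype.ofFinite G
  have := sum_card_orderOf_eq_card_pow_eq_one (G := G) hn
  simp only [Nat.card_eq_fintype_card, Fintype.card_subtype]
  exact this

theorem card_eq {G : Type*} [Group G] [Finite G] (N : ℕ) (hN : Nat.card G ∣ N) :
    Nat.card {g : G // g ^ N = 1} = Nat.card G := by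
  have : ∀ g : G, g ^ N = 1 := by
    intro g
    obtain ⟨k, rfl⟩ := hN
    rw [pow_mul, pow_card_eq_one', one_pow]
  exact Nat.card_congr (Equiv.subtypeUnivEquiv this)

/-- Two finite groups have the same number of elements of each order if and only if, for every n, they have the same number of elements g with gⁿ = 1. -/
theorem result {G H : Type*} [Group G] [Finite G] [Group H] [Finite H] :
    (∀ n : ℕ, Nat.card {g : G // orderOf g = n} = Nat.card {h : H // orderOf h = n}) ↔
      ∀ n : ℕ, Nat.card {g : G // g ^ n = 1} = Nat.card {h : H // h ^ n = 1} := by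
  constructor
  · intro h n
    have hpos : ∀ n : ℕ, n ≠ 0 → Nat.card {g : G // g ^ n = 1} = Nat.card {h : H // h ^ n = 1} := by
      intro n hn
      rw [← key n hn, ← key n hn]
      exact Finset.sum_congr rfl (fun m _ => h m)
    by_cases hn : n = 0
    · subst hn
      have hGH : Nat.card G * Nat.card H ≠ 0 :=
        Nat.mul_ne_zero Nat.card_pos.ne' Nat.card_pos.ne'
      have h1 := hpos _ hGH
      rw [card_eq _ (dvd_mul_right _ _), card_eq _ (dvd_mul_left _ _)] at h1
      rw [card_eq 0 (dvd_zero _), card_eq 0 (dvd_zero _), h1]
    · exact hpos n hn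
  · intro h n
    induction n using Nat.strong_induction_on with
    | _ n ih =>
      by_cases hn : n = 0
      · subst hn
        have h1 : IsEmpty {g : G // orderOf g = 0} := ⟨fun g => (orderOf_pos g.1).ne' g.2⟩
        have h2 : IsEmpty {g : H // orderOf g = 0} := ⟨fun g => (orderOf_pos g.1).ne' g.2⟩
        rw [Nat.card_of_isEmpty, Nat.card_of_isEmpty]
      · have h1 := key (G := G) n hn
        have h2 := key (G := H) n hn
        rw [← Nat.cons_self_properDivisors hn, Finset.sum_cons] at h1 h2
        have h3 : ∑ m ∈ n.properDivisors, Nat.card {g : G // orderOf g = m}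
            = ∑ m ∈ n.properDivisors, Nat.card {g : H // orderOf g = m} :=
          Finset.sum_congr rfl (fun m hm => ih m (Nat.mem_properDivisors.1 hm).2)
        have h4 := h n
        omega

end Cfsg.Agent.S4377
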