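import Mathlib
import Cfsg.Statements.S4381
import Cfsg.Agent.Lib.Helper4.ExtAction
import Cfsg.Agent.Lib.Helper4.SysNorm2


set_option autoImplicit false
open Pointwise
open Cfsg

namespace Cfsg.Agent.S4381


section aux

variable {A G : Type*} [Group A] [Group G] [MulDistribMulAction A G]

theorem smul_mem_frattini (a : A) {k : G} (hk : k ∈ frattini G) : a • k ∈ frattini G := by
  have h := (Subgroup.characteristic_iff_map_eq.1 (inferInstance : (frattini G).Characteristic))
    (MulDistribMulAction.toMulAut A G a)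
  rw [← h]
  exact ⟨k, hk, rfl⟩

theorem exists_max_inv [Finite G] (H : Subgroup G) (hH : H ≠ ⊤) (hinv : ∀ a : A, ∀ x ∈ H, a • x ∈ H) :
    ∃ M : Subgroup G, H ≤ M ∧ (M ≠ ⊤ ∧ (∀ a : A, ∀ x ∈ M, a • x ∈ M) ∧
      ∀ L : Subgroup G, M < L → (∀ a : A, ∀ x ∈ L, a • x ∈ L) → L = ⊤) := by
  classical
  have hne : {M : Subgroup G | H ≤ M ∧ M ≠ ⊤ ∧ ∀ a : A, ∀ x ∈ M, a • x ∈ M}.Nonempty :=
    ⟨H, le_rfl, hH, hinv⟩
  obtain ⟨M, hM, hMm⟩ := (Set.toFinite _).exists_maximal hne
  refine ⟨M, hM.1, hM.2.1, hM.2.2, ?_⟩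
  intro L hL hLinv
  by_contra hLt
  exact absurd (hMm ⟨hM.1.trans hL.le, hLt, hLinv⟩ hL.le) (not_le_of_gt hL)

theorem part2 [Finite G]
    (hirr : ∀ L : Subgroup G, frattini G < L → (∀ a : A, ∀ x ∈ L, a • x ∈ L) → L = ⊤)
    (M : Subgroup G) : (M ≠ ⊤ ∧ (∀ a : A, ∀ x ∈ M, a • x ∈ M) ∧
      ∀ L : Subgroup G, M < L → (∀ a : A, ∀ x ∈ L, a • x ∈ L) → L = ⊤) ↔
      (M = frattini G ∧ M ≠ ⊤) := by
  constructor
  · rintro ⟨h1, h2, h3⟩
    refine ⟨?_, h1⟩
    have hsup : ∀ a : A, ∀ x ∈ M ⊔ frattini G, a • x ∈ M ⊔ frattini G := by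
      intro a x hx
      rw [← SetLike.mem_coe, Subgroup.mul_normal] at hx
      obtain ⟨m, hm, f, hf, hmf⟩ := hx
      have hmf : m * f = x := hmf
      rw [← hmf, smul_mul']
      exact Subgroup.mul_mem_sup (h2 a m hm) (smul_mem_frattini a hf)
    have hΦM : frattini G ≤ M := by
      by_contra hc
      have hlt : M < M ⊔ frattini G := by
        apply lt_of_le_of_ne le_sup_left
        intro he
        apply hc
        rw [he]; exact le_sup_right
      exact h1 (frattini_nongenerating (h3 _ hlt hsup))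
    by_contra hne
    exact h1 (hirr M (lt_of_le_of_ne hΦM (Ne.symm hne)) h2)
  · rintro ⟨rfl, h1⟩
    exact ⟨h1, fun a x hx => smul_mem_frattini a hx, hirr⟩

end aux


/-- Let the finite group A act by automorphisms on the finite group G with the orders of A and G coprime, and assume that A or G is solvable. Call a proper A-invariant subgroup of G maximal A-invariant when no A-invariant subgroup lies strictly between it and G. Then all maximal A-invariant subgroups of G are conjugate under elements of the fixed-point subgroup C_G(A) if and only if G is a p-group for some prime p and A leaves invariant no subgroup strictly between the Frattini subgroup of G and G. In that case, if G is nontrivial, the Frattini subgroup is the only maximal A-invariant subgroup (a trivial G has none). -/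
theorem result {A G : Type*} [Group A] [Finite A]
    [Group G] [Finite G] [MulDistribMulAction A G] (hcop : (Nat.card A).Coprime (Nat.card G)) (hsol : Group.IsSolvable A ∨ Group.IsSolvable G) :
    ((∀ M N : Subgroup G, (M ≠ ⊤ ∧ (∀ a : A, ∀ x ∈ M, a • x ∈ M) ∧ ∀ L : Subgroup G, M < L → (∀ a : A, ∀ x ∈ L, a • x ∈ L) → L = ⊤) → (N ≠ ⊤ ∧ (∀ a : A, ∀ x ∈ N, a • x ∈ N) ∧ ∀ L : Subgroup G, N < L → (∀ a : A, ∀ x ∈ L, a • x ∈ L) → L = ⊤) →
        ∃ c : G, (∀ a : A, a • c = c) ∧ N = MulAut.conj c • M) ↔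
      ((∃ p : ℕ, p.Prime ∧ IsPGroup p G) ∧ ∀ L : Subgroup G, frattini G < L → (∀ a : A, ∀ x ∈ L, a • x ∈ L) → L = ⊤)) ∧
    (((∃ p : ℕ, p.Prime ∧ IsPGroup p G) ∧ ∀ L : Subgroup G, frattini G < L → (∀ a : A, ∀ x ∈ L, a • x ∈ L) → L = ⊤) →
      ∀ M : Subgroup G, (M ≠ ⊤ ∧ (∀ a : A, ∀ x ∈ M, a • x ∈ M) ∧ ∀ L : Subgroup G, M < L → (∀ a : A, ∀ x ∈ L, a • x ∈ L) → L = ⊤) ↔ (M = frattini G ∧ M ≠ ⊤)) := by

  classical
  refine ⟨⟨?_, ?_⟩, fun h M => part2 h.2 M⟩
  · intro hconj
    by_cases htriv : (⊥ : Subgroup G) = ⊤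
    · haveI : Subsingleton G := by
        constructor
        intro a b
        have ha : a ∈ (⊥ : Subgroup G) := by rw [htriv]; trivial
        have hb : b ∈ (⊥ : Subgroup G) := by rw [htriv]; trivial
        rw [Subgroup.mem_bot.mp ha, Subgroup.mem_bot.mp hb]
      refine ⟨⟨2, Nat.prime_two, ?_⟩, ?_⟩
      · intro g
        exact ⟨0, Subsingleton.elim _ _⟩
      · intro L _ _
        exact Subsingleton.elim _ _
    · obtain ⟨M₀, -, hM₀⟩ := exists_max_inv (A := A) (⊥ : Subgroup G) htriv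
        (by
          intro a x hx
          rw [Subgroup.mem_bot] at hx ⊢
          rw [hx, smul_one])
      have hpg : ∃ p : ℕ, p.Prime ∧ IsPGroup p G := by
        by_contra hnp
        apply hM₀.1
        rw [← Subgroup.index_eq_one, Nat.eq_one_iff_not_exists_prime_dvd]
        intro p hp hdvd
        haveI := Fact.mk hp
        obtain ⟨P, hP1, hP2, hP3⟩ := Cfsg.Agent.Lib.Helper4.exists_invariant_sylow_ext hcop hsol p
        have hPt : P ≠ ⊤ := by
          rintro rfl
          exact hnp ⟨p, hp, hP1.of_equiv Subgroup.topEquiv⟩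
        obtain ⟨Mp, hPM, hMp⟩ := exists_max_inv (A := A) P hPt hP3
        obtain ⟨c, -, hc⟩ := hconj M₀ Mp hM₀ hMp
        have h1 : Mp.index = M₀.index := by
          rw [hc, Cfsg.Agent.Lib.Helper4.index_conj_smul]
        exact hP2 ((h1 ▸ hdvd).trans (Subgroup.index_dvd_of_le hPM))
      refine ⟨hpg, ?_⟩
      obtain ⟨p, hp, hG⟩ := hpg
      haveI := Fact.mk hp
      intro L hL hLinv
      by_contra hLt
      obtain ⟨h1, h2⟩ := Cfsg.Agent.Lib.Helper1.pgroup_frattini hG
      have hab : ∀ x y : G, x * y * x⁻¹ * y⁻¹ ∈ frattini G := fun x y =>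
        h1 (Subgroup.commutator_mem_commutator (Subgroup.mem_top x) (Subgroup.mem_top y))
      obtain ⟨W, hW1, hW2, hW3, hW4⟩ := Cfsg.Agent.Lib.Helper4.exists_invariant_complement_ext
        (p := p) hcop (frattini G) L hL.le (fun a x hx => smul_mem_frattini a hx) hLinv hab h2
      have hWt : W ≠ ⊤ := by
        rintro rfl
        rw [top_inf_eq] at hW3
        exact hL.ne hW3.symm
      obtain ⟨M, hLM, hM⟩ := exists_max_inv (A := A) L hLt hLinv
      obtain ⟨N, hWN, hN⟩ := exists_max_inv (A := A) W hWt hW2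
      obtain ⟨c, -, hc⟩ := hconj M N hM hN
      haveI : M.Normal := by
        constructor
        intro y hy g
        have : g * y * g⁻¹ = (g * y * g⁻¹ * y⁻¹) * y := by group
        rw [this]
        exact M.mul_mem (hLM (hL.le (hab g y))) hy
      rw [Cfsg.Agent.Lib.Helper1.conj_smul_eq_self_iff.mpr
        (by rw [Subgroup.normalizer_eq_top_iff.mpr inferInstance]; trivial)] at hc
      apply hM.1
      rw [eq_top_iff, ← hW4]
      exact sup_le hLM (hc ▸ hWN)
  · intro h M N hM hN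
    refine ⟨1, fun a => smul_one a, ?_⟩
    rw [map_one, one_smul, ((part2 h.2 M).mp hM).1, ((part2 h.2 N).mp hN).1]

end Cfsg.Agent.S4381
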