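import Cfsg.Statements.S4387
import Mathlib

set_option autoImplicit false
open Pointwise
open Cfsg

namespace Cfsg.Agent.S4387

open MulAction in
theorem exists_not_mem_conj {G : Type*} [Group G] [Finite G] (M : Subgroup G) (hM : M ≠ ⊤) :
    ∃ g : G, ∀ h : G, g ∉ MulAut.conj h • M := by
  classical
  by_contra hcon
  push Not at hcon
  haveI := Fintype.ofFinite G
  haveI : Fintype (G ⧸ M) := Fintype.ofFinite _
  haveI : Fintype (orbitRel.Quotient G (G ⧸ M)) := Fintype.ofFinite _
  have hB := sum_card_fixedBy_eq_card_orbits_mul_card_group G (G ⧸ M)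
  have hΩ : Fintype.card (orbitRel.Quotient G (G ⧸ M)) ≤ 1 := by
    rw [Fintype.card_le_one_iff_subsingleton]
    exact (pretransitive_iff_subsingleton_quotient G (G ⧸ M)).1 inferInstance
  have h1 : ∀ g : G, 1 ≤ Fintype.card (fixedBy (G ⧸ M) g) := by
    intro g
    obtain ⟨h, hh⟩ := hcon g
    rw [Subgroup.mem_pointwise_smul_iff_inv_smul_mem] at hh
    simp only [← map_inv, MulAut.smul_def, MulAut.conj_apply, inv_inv] at hh
    apply Fintype.card_pos_iff.2
    refine ⟨⟨(h : G ⧸ M), ?_⟩⟩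
    rw [mem_fixedBy]
    change ((g * h : G) : G ⧸ M) = h
    rw [QuotientGroup.eq]
    have := M.inv_mem hh
    simpa [mul_assoc] using this
  have h2 : 1 < Fintype.card (fixedBy (G ⧸ M) (1 : G)) := by
    have : Fintype.card (fixedBy (G ⧸ M) (1 : G)) = Fintype.card (G ⧸ M) := by
      apply Fintype.card_congr
      exact Equiv.subtypeUnivEquiv (fun x => by simp)
    rw [this, ← Nat.card_eq_fintype_card, ← Subgroup.index_eq_card]
    have h3 : M.index ≠ 1 := fun h => hM (Subgroup.index_eq_one.1 h)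
    have h4 : M.index ≠ 0 := Subgroup.index_ne_zero_of_finite
    omega
  have h5 : ∑ _g : G, 1 < ∑ g : G, Fintype.card (fixedBy (G ⧸ M) g) :=
    Finset.sum_lt_sum (fun g _ => h1 g) ⟨1, Finset.mem_univ _, h2⟩
  rw [hB] at h5
  simp only [Finset.sum_const, Finset.card_univ, smul_eq_mul, mul_one] at h5
  nlinarith

/-- Let G be a non-trivial finite group in which any two maximal subgroups are conjugate. Then G is cyclic of prime-power order. -/
theorem result {G : Type*} [Group G] [Finite G] [Nontrivial G]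
    (h : ∀ M N : Subgroup G, IsCoatom M → IsCoatom N → ∃ g : G, N = MulAut.conj g • M) :
    IsCyclic G ∧ IsPrimePow (Nat.card G) := by
  classical
  -- existence of a coatom
  obtain ⟨M, hM⟩ : ∃ M : Subgroup G, IsCoatom M := by
    rcases eq_top_or_exists_le_coatom (⊥ : Subgroup G) with h | ⟨M, hM, _⟩
    · exact absurd h bot_ne_top
    · exact ⟨M, hM⟩
  -- G is cyclic
  have hcyc : IsCyclic G := by
    obtain ⟨g, hg⟩ := exists_not_mem_conj M hM.1
    refine ⟨⟨g, fun x => ?_⟩⟩
    rcases eq_top_or_exists_le_coatom (Subgroup.zpowers g) with h1 | ⟨N, hN, hle⟩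
    · have : x ∈ Subgroup.zpowers g := by rw [h1]; exact Subgroup.mem_top x
      exact this
    · obtain ⟨k, hk⟩ := h M N hM hN
      exact absurd (hk ▸ hle (Subgroup.mem_zpowers g)) (hg k)
  refine ⟨hcyc, ?_⟩
  -- uniqueness of the coatom
  have huniq : ∀ N : Subgroup G, IsCoatom N → N = M := by
    intro N hN
    obtain ⟨k, hk⟩ := h M N hM hN
    rw [hk]
    ext x
    rw [Subgroup.mem_pointwise_smul_iff_inv_smul_mem]
    simp only [← map_inv, MulAut.smul_def, MulAut.conj_apply, inv_inv]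
    rw [mul_comm' k⁻¹ x, mul_assoc, inv_mul_cancel, mul_one]
  obtain ⟨g, hg⟩ := hcyc.exists_ofOrder_eq_natCard
  have hgtop : ∀ x : G, x ∈ Subgroup.zpowers g := by
    intro x
    have : Subgroup.zpowers g = ⊤ := by
      apply Subgroup.eq_top_of_card_eq
      rw [Nat.card_zpowers, hg]
    rw [this]; exact Subgroup.mem_top x
  have hpM : ∀ p : ℕ, p.Prime → p ∣ Nat.card G → g ^ p ∈ M := by
    intro p hp hdvd
    rcases eq_top_or_exists_le_coatom (Subgroup.zpowers (g ^ p)) with h1 | ⟨N, hN, hle⟩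
    · exfalso
      have h2 : orderOf (g ^ p) = Nat.card G := by
        rw [← Nat.card_zpowers, h1, Subgroup.card_top]
      obtain ⟨m, hm⟩ := hdvd
      have h3 : (g ^ p) ^ m = 1 := by
        rw [← pow_mul, ← hm, pow_card_eq_one']
      have hm0 : 0 < m := by
        rcases Nat.eq_zero_or_pos m with h0 | h0
        · subst h0; simp at hm; exact absurd hm Nat.card_pos.ne'
        · exact h0
      have h4 := orderOf_le_of_pow_eq_one hm0 h3
      rw [h2, hm] at h4
      have := hp.one_lt
      nlinarith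
    · rw [← huniq N hN]
      exact hle (Subgroup.mem_zpowers _)
  rw [isPrimePow_iff_unique_prime_dvd]
  have hcard : Nat.card G ≠ 1 := by
    intro h1
    have := Finite.one_lt_card (α := G)
    omega
  obtain ⟨p, hp, hpd⟩ := Nat.exists_prime_and_dvd hcard
  refine ⟨p, ⟨hp, hpd⟩, ?_⟩
  rintro q ⟨hq, hqd⟩
  by_contra hne
  have hcop : Nat.Coprime p q := (Nat.coprime_primes hp hq).2 (Ne.symm hne)
  have h1 := hpM p hp hpd
  have h2 := hpM q hq hqd
  have h3 : g ∈ M := by
    have hb := Nat.gcd_eq_gcd_ab p q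
    rw [hcop] at hb
    have : g = (g ^ p) ^ (Nat.gcdA p q) * (g ^ q) ^ (Nat.gcdB p q) := by
      rw [← zpow_natCast, ← zpow_natCast, ← zpow_mul, ← zpow_mul, ← zpow_add, ← hb]
      simp
    rw [this]
    exact M.mul_mem (M.zpow_mem h1 _) (M.zpow_mem h2 _)
  apply hM.1
  rw [eq_top_iff]
  intro x _
  obtain ⟨k, rfl⟩ := Subgroup.mem_zpowers_iff.1 (hgtop x)
  exact M.zpow_mem h3 k

end Cfsg.Agent.S4387
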