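import Cfsg.Statements.S4399
import Mathlib
import Cfsg.Agent.Lib.Helper23.TwoMaxClass

set_option autoImplicit false
open Cfsg

namespace Cfsg.Agent.S4399

open Cfsg.Agent.Lib.Helper23

/-- Let S be a finite 2-group whose commutator quotient S/[S,S] is a Klein four-group (order 4 and exponent 2). Then S itself has order 4, or S is dihedral of order at least 8, semidihedral of order at least 16 (order 2^(k+4) with an element a of order 2^(k+3) and an involution b with b a b⁻¹ = a^(2^(k+2)−1)), or generalized quaternion of order at least 8. -/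
theorem result {S : Type*} [Group S] [Finite S] (h2 : IsPGroup 2 S) (hab : Nat.card (Abelianization S) = 4)
    (hexp : ∀ x : Abelianization S, x ^ 2 = 1) :
    Nat.card S = 4 ∨
    ((∃ k : ℕ, Nonempty (S ≃* DihedralGroup (2 ^ (k + 2)))) ∨
      (∃ k : ℕ, Nat.card S = 2 ^ (k + 4) ∧ ∃ a b : S, orderOf a = 2 ^ (k + 3) ∧ orderOf b = 2 ∧ b * a * b⁻¹ = a ^ (2 ^ (k + 2) - 1)) ∨
      (∃ k : ℕ, Nonempty (S ≃* QuaternionGroup (2 ^ (k + 1))))) := by
  have h4 : (commutator S).index = 4 := hab
  by_cases hna : commutator S = ⊥
  · left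
    have := Subgroup.card_mul_index (commutator S)
    rw [h4, hna] at this
    simpa using this.symm
  · right
    obtain ⟨m, a, g, hm2, hm, hcard, hg, hidx, hfix, hgg, hconj⟩ := taussky h2 h4 hna
    have haz : Commute (a ^ 2 ^ (m - 1)) a := (Commute.refl a).pow_left _
    have hzsq : a ^ 2 ^ (m - 1) * a ^ 2 ^ (m - 1) = 1 := by
      rw [← pow_add, ← two_mul, ← pow_succ', Nat.sub_add_cancel (by omega), ← hm,
        pow_orderOf_eq_one]
    rcases hconj with hconj | ⟨hm3, hconj⟩
    · rcases hgg with hgg | hgg
      · left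
        refine ⟨m - 2, ?_⟩
        have e : m - 2 + 2 = m := by omega
        rw [e]
        exact nonempty_mulEquiv_dihedralGroup (2 ^ m) a g hm hgg hconj hg (by rw [hcard]; ring)
      · right; right
        refine ⟨m - 2, ?_⟩
        have e : m - 2 + 1 = m - 1 := by omega
        rw [e]
        have e2 : 2 * 2 ^ (m - 1) = 2 ^ m := by
          rw [← pow_succ', Nat.sub_add_cancel (by omega)]
        exact nonempty_mulEquiv_quaternionGroup (2 ^ (m - 1)) a g (by rw [hm, e2]) hgg hconj hg
          (by rw [hcard, pow_succ, ← e2]; ring)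
    · right; left
      refine ⟨m - 3, ?_, ?_⟩
      · rw [hcard]; congr 1; omega
      · have e1 : m - 3 + 3 = m := by omega
        have e2 : m - 3 + 2 = m - 1 := by omega
        rw [e1, e2]
        have hpw : a ^ (2 ^ (m - 1) - 1) = a ^ 2 ^ (m - 1) * a⁻¹ := by
          rw [pow_sub a (Nat.one_le_two_pow), pow_one]
        rcases hgg with hgg | hgg
        · refine ⟨a, g, hm, ?_, by rw [hpw, hconj]⟩
          apply orderOf_eq_prime (by rw [sq]; exact hgg)
          rintro rfl
          exact hg (Subgroup.one_mem _)
        · refine ⟨a, g * a, hm, ?_, ?_⟩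
          · apply orderOf_eq_prime
            · rw [sq]
              calc g * a * (g * a) = (g * a * g⁻¹) * (g * g) * a := by group
                _ = a ^ 2 ^ (m - 1) * a⁻¹ * a ^ 2 ^ (m - 1) * a := by rw [hconj, hgg]
                _ = a ^ 2 ^ (m - 1) * (a⁻¹ * a ^ 2 ^ (m - 1)) * a := by group
                _ = a ^ 2 ^ (m - 1) * (a ^ 2 ^ (m - 1) * a⁻¹) * a := by
                    rw [(haz.inv_right).eq]
                _ = a ^ 2 ^ (m - 1) * a ^ 2 ^ (m - 1) := by group
                _ = 1 := hzsq
            · intro h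
              apply hg
              rw [eq_inv_of_mul_eq_one_left h]
              exact Subgroup.inv_mem _ (Subgroup.mem_zpowers a)
          · rw [hpw, ← hconj]
            group

end Cfsg.Agent.S4399
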