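import Cfsg.Statements.S4400
import Mathlib
import Cfsg.Agent.Lib.Helper23.SecRank

set_option autoImplicit false
open Cfsg

namespace Cfsg.Agent.S4400

open Cfsg.Agent.Lib.Helper23

theorem center_map_eq {S : Type*} [Group S] [Finite S] (P : Subgroup S)
    (hZP : Nat.card ↥(Subgroup.center ↥P) = 2) (z : S) (hzP : z ∈ P) (hzc : z ∈ Subgroup.center S)
    (hz2 : orderOf z = 2) : (Subgroup.center ↥P).map P.subtype = Subgroup.zpowers z := by
  symm
  apply Subgroup.eq_of_le_of_card_ge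
  · rw [Subgroup.zpowers_le]
    refine ⟨⟨z, hzP⟩, ?_, rfl⟩
    rw [SetLike.mem_coe, Subgroup.mem_center_iff]
    intro y
    exact Subtype.ext (Subgroup.mem_center_iff.mp hzc y)
  · rw [Subgroup.card_subtype, hZP, Nat.card_zpowers, hz2]

theorem inf_eq_bot {S : Type*} [Group S] [Finite S] (h2 : IsPGroup 2 S)
    (P Q : Subgroup S) [P.Normal] [Q.Normal]
    (hZP : Nat.card ↥(Subgroup.center ↥P) = 2) (hZQ : Nat.card ↥(Subgroup.center ↥Q) = 2)
    (hne : (Subgroup.center ↥P).map P.subtype ≠ (Subgroup.center ↥Q).map Q.subtype) :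
    P ⊓ Q = ⊥ := by
  by_contra h
  obtain ⟨z, hz, hzc, hz2⟩ := exists_central_involution_of_normal h2 (P ⊓ Q) h
  apply hne
  rw [center_map_eq P hZP z hz.1 hzc hz2, center_map_eq Q hZQ z hz.2 hzc hz2]

theorem exists_sq_mem_not_mem {S : Type*} [Group S] (h2 : IsPGroup 2 S) (C M : Subgroup S)
    (h : ¬ C ≤ M) : ∃ c ∈ C, c ∉ M ∧ c ^ 2 ∈ M := by
  classical
  obtain ⟨c0, hc0, hc0M⟩ := SetLike.not_le_iff_exists.mp h
  have hex : ∃ k : ℕ, c0 ^ 2 ^ k ∈ M := by
    obtain ⟨k, hk⟩ := h2 c0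
    exact ⟨k, by rw [hk]; exact M.one_mem⟩
  have hk0 : Nat.find hex ≠ 0 := by
    intro h0
    have := Nat.find_spec hex
    rw [h0] at this
    simp at this
    exact hc0M this
  obtain ⟨j, hj⟩ := Nat.exists_eq_succ_of_ne_zero hk0
  refine ⟨c0 ^ 2 ^ j, C.pow_mem hc0 _, ?_, ?_⟩
  · exact Nat.find_min hex (by omega)
  · have := Nat.find_spec hex
    rw [hj, Nat.succ_eq_add_one, pow_succ, pow_mul] at this
    exact this

/-- Let S be a finite 2-group of sectional 2-rank at most 4, and let P and Q be normal non-abelian subgroups of S whose centres have order 2 and are different. Then P and Q commute elementwise and intersect trivially, and PQ contains its own centralizer in S. -/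
theorem result {S : Type*} [Group S] [Finite S] (h2 : IsPGroup 2 S) (hr : Cfsg.SectionalPRankLE 2 4 S)
    (P Q : Subgroup S) [P.Normal] [Q.Normal] (hP : ¬ IsMulCommutative ↥P) (hQ : ¬ IsMulCommutative ↥Q)
    (hZP : Nat.card ↥(Subgroup.center ↥P) = 2) (hZQ : Nat.card ↥(Subgroup.center ↥Q) = 2)
    (hne : (Subgroup.center ↥P).map P.subtype ≠ (Subgroup.center ↥Q).map Q.subtype) :
    ⁅P, Q⁆ = ⊥ ∧ P ⊓ Q = ⊥ ∧ Subgroup.centralizer ((P ⊔ Q : Subgroup S) : Set S) ≤ P ⊔ Q := by
  have hinf : P ⊓ Q = ⊥ := inf_eq_bot h2 P Q hZP hZQ hne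
  have hcomm : ⁅P, Q⁆ = ⊥ := by
    rw [eq_bot_iff, ← hinf]
    exact Subgroup.commutator_le_inf P Q
  refine ⟨hcomm, hinf, ?_⟩
  have hPQ : ∀ a ∈ P, ∀ b ∈ Q, a * b = b * a := by
    intro a ha b hb
    have := Subgroup.commutator_eq_bot_iff_le_centralizer.mp hcomm ha
    exact (Subgroup.mem_centralizer_iff.mp this b hb).symm
  by_contra hcon
  obtain ⟨c, hcC, hcM, hc2⟩ := exists_sq_mem_not_mem h2 _ _ hcon
  obtain ⟨NP, hNP1, hNP2, hNP3, hNP4, hNP5⟩ := exists_sq_subgroup h2 P hP hZP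
  obtain ⟨NQ, hNQ1, hNQ2, hNQ3, hNQ4, hNQ5⟩ := exists_sq_subgroup h2 Q hQ hZQ
  have hcc : ∀ m ∈ P ⊔ Q, c * m = m * c := by
    intro m hm
    exact (Subgroup.mem_centralizer_iff.mp hcC m hm).symm
  -- normalizers
  have hcent_le : ∀ (A B : Subgroup S), (∀ a ∈ A, ∀ b ∈ B, a * b = b * a) →
      A ≤ Subgroup.normalizer (B : Set S) := by
    intro A B h a ha
    rw [Subgroup.mem_normalizer_iff]
    intro b
    constructor
    · intro hb
      rw [h a ha b hb, mul_inv_cancel_right]; exact hb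
    · intro hb
      have h1 := h a ha _ hb
      have h3 : b = a * b * a⁻¹ := by
        have : a * (a * b * a⁻¹) = a * b := by rw [h1]; group
        exact (mul_left_cancel this).symm
      rw [h3]; exact hb
  set H : Subgroup S := Subgroup.zpowers c ⊔ (P ⊔ Q) with hH
  set N : Subgroup S := NP ⊔ NQ with hN
  have hNM : N ≤ P ⊔ Q := sup_le (hNP1.trans le_sup_left) (hNQ1.trans le_sup_right)
  have hMH : P ⊔ Q ≤ H := le_sup_right
  have hzc : ∀ x ∈ Subgroup.zpowers c, ∀ m ∈ P ⊔ Q, x * m = m * x := by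
    intro x hx m hm
    obtain ⟨i, rfl⟩ := Subgroup.mem_zpowers_iff.mp hx
    exact ((show Commute c m from hcc m hm).zpow_left i).eq
  have hnorm : H ≤ Subgroup.normalizer (N : Set S) := by
    refine le_trans ?_ (normalizer_inf_le_normalizer_sup NP NQ)
    apply le_inf
    · refine sup_le ?_ (sup_le hNP2 ?_)
      · exact hcent_le _ _ (fun x hx b hb => hzc x hx b (Subgroup.mem_sup_left (hNP1 hb)))
      · exact hcent_le _ _ (fun x hx b hb => (hPQ b (hNP1 hb) x hx).symm)
    · refine sup_le ?_ (sup_le ?_ hNQ2)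
      · exact hcent_le _ _ (fun x hx b hb => hzc x hx b (Subgroup.mem_sup_right (hNQ1 hb)))
      · exact hcent_le _ _ (fun x hx b hb => hPQ x hx b (hNQ1 hb))
  have hc2N : c ^ 2 ∈ N := by
    obtain ⟨a0, ha0, b0, hb0, hab⟩ := Subgroup.mem_sup_of_normal_right.mp hc2
    have hc2c : ∀ m ∈ P ⊔ Q, c ^ 2 * m = m * c ^ 2 := fun m hm =>
      ((show Commute c m from hcc m hm).pow_left 2).eq
    rw [← hab]
    apply Subgroup.mul_mem
    · apply Subgroup.mem_sup_left
      apply hNP5 a0 ha0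
      intro y hy
      have h1 := hc2c y (Subgroup.mem_sup_left hy)
      rw [← hab] at h1
      have h3 := hPQ y hy b0 hb0
      have h5 : a0 * y * b0 = y * a0 * b0 := by
        calc a0 * y * b0 = a0 * (y * b0) := by group
          _ = a0 * (b0 * y) := by rw [h3]
          _ = a0 * b0 * y := by group
          _ = y * (a0 * b0) := h1
          _ = y * a0 * b0 := by group
      exact mul_right_cancel h5
    · apply Subgroup.mem_sup_right
      apply hNQ5 b0 hb0
      intro y hy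
      have h1 := hc2c y (Subgroup.mem_sup_right hy)
      rw [← hab] at h1
      have h3 := hPQ a0 ha0 y hy
      have h5 : a0 * (b0 * y) = a0 * (y * b0) := by
        calc a0 * (b0 * y) = a0 * b0 * y := by group
          _ = y * (a0 * b0) := h1
          _ = (y * a0) * b0 := by group
          _ = (a0 * y) * b0 := by rw [h3]
          _ = a0 * (y * b0) := by group
      exact mul_left_cancel h5
  have hsq : ∀ x ∈ H, x ^ 2 ∈ N := by
    intro x hx
    obtain ⟨y, hy, m, hm, rfl⟩ := Subgroup.mem_sup_of_normal_right.mp hx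
    obtain ⟨a, ha, b, hb, rfl⟩ := Subgroup.mem_sup_of_normal_right.mp hm
    obtain ⟨i, rfl⟩ := Subgroup.mem_zpowers_iff.mp hy
    have h1 : Commute (c ^ i) (a * b) := hzc _ hy _ hm
    have h3 : Commute a b := hPQ a ha b hb
    rw [h1.mul_pow, h3.mul_pow]
    apply Subgroup.mul_mem
    · rw [← zpow_natCast, ← zpow_mul, mul_comm, zpow_mul, zpow_natCast]
      exact Subgroup.zpow_mem _ hc2N i
    · exact Subgroup.mul_mem _ (Subgroup.mem_sup_left (hNP3 a ha)) (Subgroup.mem_sup_right (hNQ3 b hb))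
  have hbound := relIndex_le_of_sectionalPRankLE hr H N (hNM.trans hMH) hnorm hsq
  -- counting
  have hcardM : Nat.card (P ⊔ Q : Subgroup S) = Nat.card P * Nat.card Q :=
    card_sup_eq_mul P Q (by rw [Subgroup.normalizer_eq_top]; exact le_top) hinf
  have hcardN : Nat.card N = Nat.card NP * Nat.card NQ := by
    apply card_sup_eq_mul
    · exact hcent_le _ _ (fun x hx b hb => hPQ x (hNP1 hx) b (hNQ1 hb))
    · rw [eq_bot_iff, ← hinf]
      exact inf_le_inf hNP1 hNQ1
  have h1 := Subgroup.relIndex_mul_relIndex N (P ⊔ Q) H hNM hMH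
  have h2' : 2 ≤ (P ⊔ Q : Subgroup S).relIndex H := by
    have hne1 : (P ⊔ Q : Subgroup S).relIndex H ≠ 1 := by
      rw [Ne, Subgroup.relIndex_eq_one]
      intro hle
      exact hcM (hle (Subgroup.mem_sup_left (Subgroup.mem_zpowers c)))
    have hne0 : (P ⊔ Q : Subgroup S).relIndex H ≠ 0 := Subgroup.index_ne_zero_of_finite
    omega
  have h3 : 16 ≤ N.relIndex (P ⊔ Q) := by
    have h4 := Subgroup.relIndex_mul_relIndex ⊥ N (P ⊔ Q) bot_le hNM
    rw [Subgroup.relIndex_bot_left, Subgroup.relIndex_bot_left, hcardM, hcardN] at h4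
    have hpos : 0 < Nat.card NP * Nat.card NQ := Nat.mul_pos Nat.card_pos Nat.card_pos
    have h5 : 16 * (Nat.card NP * Nat.card NQ) ≤ Nat.card P * Nat.card Q := by
      calc 16 * (Nat.card NP * Nat.card NQ) = (4 * Nat.card NP) * (4 * Nat.card NQ) := by ring
        _ ≤ Nat.card P * Nat.card Q := Nat.mul_le_mul hNP4 hNQ4
    rw [← h4] at h5
    by_contra hlt
    push Not at hlt
    have : Nat.card NP * Nat.card NQ * N.relIndex (P ⊔ Q) < Nat.card NP * Nat.card NQ * 16 :=
      Nat.mul_lt_mul_of_pos_left hlt hpos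
    omega
  have h6 : 32 ≤ N.relIndex H := by
    rw [← h1]
    calc 32 = 16 * 2 := by norm_num
      _ ≤ _ := Nat.mul_le_mul h3 h2'
  norm_num at hbound
  omega

end Cfsg.Agent.S4400
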