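import Cfsg.Statements.S4408
import Cfsg.Agent.Lib.Helper9.DihLemma

set_option autoImplicit false
open Cfsg

namespace Cfsg.Agent.S4408

open Cfsg.Agent.Lib.Helper9

/-- Let S be a finite solvable group whose Fitting subgroup F(S) has odd order, and let I be an elementary abelian 2-subgroup of S of order 2ⁿ with n ≥ 1. Then F(S) contains subgroups A₁, …, Aₙ of prime order, each normalized by I, pairwise commuting and generating a subgroup A of order |A₁|⋯|Aₙ| (their internal direct product), such that no non-identity element of I centralizes A. -/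
theorem result {S : Type*} [Group S] [Finite S]
    [Group.IsSolvable S] (hF : Odd (Nat.card ↥(Cfsg.fittingSubgroup S)))
    (I : Subgroup S) (hI : Cfsg.IsElementaryAbelian 2 I) (n : ℕ) (hn : 1 ≤ n) (hIn : Nat.card ↥I = 2 ^ n) :
    ∃ f : Fin n → Subgroup S, (∀ i, (Nat.card ↥(f i)).Prime) ∧ (∀ i, f i ≤ Cfsg.fittingSubgroup S) ∧
      (∀ i, I ≤ Subgroup.normalizer ((f i) : Set S)) ∧ (∀ i j, i ≠ j → ∀ a ∈ f i, ∀ b ∈ f j, a * b = b * a) ∧
      Nat.card ↥(⨆ i, f i) = ∏ i, Nat.card ↥(f i) ∧ I ⊓ Subgroup.centralizer ((⨆ i, f i : Subgroup S) : Set S) = ⊥ := by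
  have hFo := hF
  clear hF
  obtain ⟨F, hF⟩ : ∃ F, F = Cfsg.fittingSubgroup S := ⟨_, rfl⟩
  rw [← hF] at hFo ⊢
  have hFn : F.Normal := hF ▸ Cfsg.Agent.Lib.Helper1.fitting_normal
  have hFnil : Group.IsNilpotent F := hF ▸ Cfsg.Agent.Lib.Helper1.fitting_nilpotent
  have hIF : I ≤ Subgroup.normalizer (F : Set S) := by
    rw [Subgroup.normalizer_eq_top_iff.mpr hFn]; exact le_top
  have hfF : I ⊓ Subgroup.centralizer (F : Set S) = ⊥ := by
    rw [eq_bot_iff]
    intro b hb
    obtain ⟨hbI, hbC⟩ := Subgroup.mem_inf.mp hb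
    have hbF : b ∈ F := by
      rw [hF] at hbC ⊢
      exact Cfsg.Agent.S0044.result hbC
    rw [Subgroup.mem_bot]
    exact eq_one_of_eq_inv_odd hFo hbF (elemAb2_inv hI hbI).symm
  obtain ⟨X, hXF, hAX, hfX, hXab⟩ := exists_abelian I F hI hFnil hFo hIF hfF
  have hXodd : Odd (Nat.card X) := Odd.of_dvd_nat hFo (Subgroup.card_dvd_of_le hXF)
  obtain ⟨x, a, hD⟩ := exists_dualSys I X hI hXodd hAX hXab hfX n I le_rfl hIn
  have hzX : ∀ i, Subgroup.zpowers (x i) ≤ X := fun i => (Subgroup.zpowers_le).mpr (hD.memX i)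
  have hcomm : Pairwise fun i j : Fin n => ∀ u v : S, u ∈ Subgroup.zpowers (x i) →
      v ∈ Subgroup.zpowers (x j) → Commute u v := by
    intro i j _ u v hu hv
    exact hXab _ (hzX i hu) _ (hzX j hv)
  have hind : iSupIndep fun i => Subgroup.zpowers (x i) := by
    intro i
    rw [disjoint_iff, eq_bot_iff]
    intro z hz
    obtain ⟨hz1, hz2⟩ := Subgroup.mem_inf.mp hz
    rw [Subgroup.mem_bot]
    have h1 : a i * z * (a i)⁻¹ = z⁻¹ := by
      obtain ⟨k, rfl⟩ := hz1
      show a i * x i ^ k * (a i)⁻¹ = (x i ^ k)⁻¹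
      rw [← conj_zpow, hD.inv i, inv_zpow]
    have h2 : (⨆ j, ⨆ (_ : j ≠ i), Subgroup.zpowers (x j)) ≤ Subgroup.centralizer ({a i} : Set S) := by
      apply iSup₂_le
      intro j hj
      rw [Subgroup.zpowers_le, Subgroup.mem_centralizer_singleton_iff]
      exact (conj_eq_iff_comm.mp (hD.cen i j (Ne.symm hj))).symm
    have h3 := h2 hz2
    rw [Subgroup.mem_centralizer_singleton_iff] at h3
    have h4 : a i * z * (a i)⁻¹ = z := conj_eq_iff_comm.mpr h3.symm
    rw [h1] at h4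
    exact eq_one_of_eq_inv_odd hXodd (hzX i hz1) h4.symm
  refine ⟨fun i => Subgroup.zpowers (x i), ?_, ?_, ?_, ?_, ?_, ?_⟩
  · intro i
    rw [Nat.card_zpowers]; exact hD.prime i
  · intro i
    exact (hzX i).trans hXF
  · intro i
    exact (hD.eig i).conj_pow
  · intro i j _ u hu v hv
    exact hXab _ (hzX i hu) _ (hzX j hv)
  · have hinj := Subgroup.injective_noncommPiCoprod_of_iSupIndep (hcomm := hcomm) hind
    rw [← Subgroup.noncommPiCoprod_range (hcomm := hcomm), ← Nat.card_pi]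
    exact (Nat.card_congr (MonoidHom.ofInjective hinj).toEquiv).symm
  · rw [eq_bot_iff]
    intro b hb
    obtain ⟨hbI, hbC⟩ := Subgroup.mem_inf.mp hb
    rw [Subgroup.mem_bot]
    apply hD.faith b hbI
    intro i
    exact conj_of_mem_centralizer hbC (Subgroup.mem_iSup_of_mem i (Subgroup.mem_zpowers (x i)))

end Cfsg.Agent.S4408
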