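import Cfsg.Statements.S4420
import Mathlib

set_option autoImplicit false
open Cfsg

namespace Cfsg.Agent.S4420

theorem inv_of_sq {H : Type*} [Group H] {x : H} (h : x ^ 2 = 1) : x⁻¹ = x := by
  rw [inv_eq_iff_mul_eq_one, ← sq, h]

theorem L1 {H : Type*} [Group H] (A : Subgroup H) (hD : ∀ x : H, x ∉ A → x ^ 2 = 1)
    (x : H) (hx : x ∉ A) (a : H) (ha : a ∈ A) : x * a * x⁻¹ = a⁻¹ := by
  have h1 : x * a ∉ A := fun h => hx ((Subgroup.mul_mem_cancel_right A ha).1 h)
  have h2 := hD _ h1
  rw [inv_of_sq (hD x hx)]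
  rw [sq] at h2
  rw [eq_inv_iff_mul_eq_one]
  simpa [mul_assoc] using h2

theorem comm_of_sq {H : Type*} [Group H] (h : ∀ x : H, x ^ 2 = 1) (a b : H) : a * b = b * a := by
  have h1 := inv_of_sq (h (a * b))
  rw [mul_inv_rev, inv_of_sq (h a), inv_of_sq (h b)] at h1
  exact h1.symm

theorem L2 {H : Type*} [Group H] (A : Subgroup H) (hA : A ≠ ⊤) (hD : ∀ x : H, x ∉ A → x ^ 2 = 1)
    (hidx : A.index ≠ 2) : ∀ x : H, x ^ 2 = 1 := by
  obtain ⟨x, hx⟩ : ∃ x, x ∉ A := by
    by_contra hcon
    push Not at hcon
    exact hA (eq_top_iff.2 fun y _ => hcon y)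
  rw [Ne, Subgroup.index_eq_two_iff] at hidx
  push Not at hidx
  obtain ⟨b, hb⟩ := hidx x
  have hb' : b ∉ A ∧ b * x ∉ A := by
    by_cases hbA : b ∈ A
    · exfalso
      apply hb
      right
      exact ⟨hbA, fun h => hx ((Subgroup.mul_mem_cancel_left A hbA).1 h)⟩
    · refine ⟨hbA, fun h => hb ?_⟩
      left
      exact ⟨h, hbA⟩
  intro a
  by_cases ha : a ∈ A
  · have h1 := L1 A hD (b * x) hb'.2 a ha
    have h2 := L1 A hD x hx a ha
    have h3 := L1 A hD b hb'.1 a⁻¹ (A.inv_mem ha)
    have h4 : b * x * a * (b * x)⁻¹ = b * (x * a * x⁻¹) * b⁻¹ := by group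
    rw [h4, h2, h3, inv_inv] at h1
    rw [sq]
    nth_rewrite 1 [h1]
    exact inv_mul_cancel a
  · exact hD a ha

theorem exists_index_two {H : Type*} [Group H] [Finite H] [Nontrivial H]
    (hsq : ∀ x : H, x ^ 2 = 1) : ∃ B : Subgroup H, B.index = 2 := by
  obtain ⟨M, hM⟩ : ∃ M : Subgroup H, IsCoatom M := by
    rcases eq_top_or_exists_le_coatom (⊥ : Subgroup H) with h | ⟨M, hM, _⟩
    · exact absurd h bot_ne_top
    · exact ⟨M, hM⟩
  refine ⟨M, ?_⟩
  obtain ⟨x, hx⟩ : ∃ x, x ∉ M := by
    by_contra hcon
    push Not at hcon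
    exact hM.1 (eq_top_iff.2 fun y _ => hcon y)
  rw [Subgroup.index_eq_two_iff]
  refine ⟨x, fun b => ?_⟩
  by_cases hb : b ∈ M
  · right
    exact ⟨hb, fun h => hx ((Subgroup.mul_mem_cancel_left M hb).1 h)⟩
  · left
    refine ⟨?_, hb⟩
    -- the subgroup M ∪ M x
    let K : Subgroup H :=
      { carrier := {y | y ∈ M ∨ y * x ∈ M}
        one_mem' := Or.inl M.one_mem
        mul_mem' := by
          rintro u v (hu | hu) (hv | hv)
          · exact Or.inl (M.mul_mem hu hv)
          · right
            rw [mul_assoc]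
            exact M.mul_mem hu hv
          · right
            rw [mul_assoc, comm_of_sq hsq v x, ← mul_assoc]
            exact M.mul_mem hu hv
          · left
            have := M.mul_mem hu hv
            have h2 : u * x * (v * x) = u * v * (x ^ 2) := by
              rw [sq, mul_assoc, mul_assoc]
              congr 1
              rw [← mul_assoc, ← mul_assoc, comm_of_sq hsq x v]
            rw [h2, hsq, mul_one] at this
            exact this
        inv_mem' := by
          intro u hu
          rw [inv_of_sq (hsq u)]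
          exact hu }
    have hMK : M < K := by
      refine lt_of_le_of_ne (fun y hy => Or.inl hy) ?_
      intro h
      apply hx
      rw [h]
      right
      rw [← sq, hsq]
      exact M.one_mem
    have hK := hM.2 K hMK
    have hbK : b ∈ K := by rw [hK]; exact Subgroup.mem_top b
    rcases hbK with h | h
    · exact absurd h hb
    · exact h

/-- Structure of groups in which every element outside some proper subgroup has square 1. Let H be a finite group with a proper subgroup A such that every element outside A has square 1. Then H has an abelian normal subgroup B of index 2 such that every element outside B is an involution inverting every element of B; and if H is not an elementary abelian 2-group, B is the only abelian normal subgroup of index 2 with this property. -/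
theorem result {H : Type*} [Group H] [Finite H] (A : Subgroup H) (hA : A ≠ ⊤) (hD : ∀ x : H, x ∉ A → x ^ 2 = 1) :
    ∃ B : Subgroup H, B.Normal ∧ IsMulCommutative ↥B ∧ B.index = 2 ∧
      (∀ x : H, x ∉ B → x ^ 2 = 1 ∧ ∀ b ∈ B, x * b * x⁻¹ = b⁻¹) ∧
      (¬ (IsMulCommutative H ∧ ∀ x : H, x ^ 2 = 1) →
        ∀ B' : Subgroup H, B'.Normal → IsMulCommutative ↥B' → B'.index = 2 →
          (∀ x : H, x ∉ B' → x ^ 2 = 1 ∧ ∀ b ∈ B', x * b * x⁻¹ = b⁻¹) → B' = B) := by
  by_cases hel : ∀ x : H, x ^ 2 = 1
  · -- elementary abelian case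
    haveI : Nontrivial H := by
      by_contra hnt
      rw [not_nontrivial_iff_subsingleton] at hnt
      exact hA (Subsingleton.elim _ _)
    obtain ⟨B, hB⟩ := exists_index_two hel
    refine ⟨B, Subgroup.normal_of_index_eq_two hB, ⟨⟨fun a b => Subtype.ext (comm_of_sq hel _ _)⟩⟩, hB, ?_, ?_⟩
    · intro x _
      refine ⟨hel x, fun b _ => ?_⟩
      rw [comm_of_sq hel x b, mul_assoc, mul_inv_cancel, mul_one, inv_of_sq (hel b)]
    · intro hne
      exact absurd ⟨⟨⟨fun a b => comm_of_sq hel a b⟩⟩, hel⟩ hne
  · have hidx : A.index = 2 := by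
      by_contra hne
      exact hel (L2 A hA hD hne)
    obtain ⟨x, hx⟩ : ∃ x, x ∉ A := by
      by_contra hcon
      push Not at hcon
      exact hA (eq_top_iff.2 fun y _ => hcon y)
    refine ⟨A, Subgroup.normal_of_index_eq_two hidx, ⟨⟨fun a b => Subtype.ext ?_⟩⟩, hidx, ?_, ?_⟩
    · have h1 := L1 A hD x hx (a * b) (A.mul_mem a.2 b.2)
      have h2 := L1 A hD x hx a a.2
      have h3 := L1 A hD x hx b b.2
      have h4 : x * (a * b) * x⁻¹ = (x * a * x⁻¹) * (x * b * x⁻¹) := by group
      rw [h4, h2, h3, ← mul_inv_rev] at h1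
      exact (inv_injective h1).symm
    · intro y hy
      exact ⟨hD y hy, fun b hb => L1 A hD y hy b hb⟩
    · intro _ B' _ _ hB'idx hB'
      by_contra hne
      apply hel
      apply L2 (A ⊓ B')
      · intro htop
        apply hA
        rw [eq_top_iff, ← htop]
        exact inf_le_left
      · intro y hy
        by_cases hyA : y ∈ A
        · exact (hB' y (fun h => hy ⟨hyA, h⟩)).1
        · exact hD y hyA
      · intro h2
        have h3 := Subgroup.relIndex_mul_index (inf_le_left : A ⊓ B' ≤ A)
        have h4 := Subgroup.relIndex_mul_index (inf_le_right : A ⊓ B' ≤ B')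
        rw [h2, hidx] at h3
        rw [h2, hB'idx] at h4
        have h5 : (A ⊓ B').relIndex A = 1 := by omega
        have h6 : (A ⊓ B').relIndex B' = 1 := by omega
        rw [Subgroup.relIndex_eq_one] at h5 h6
        exact hne (le_antisymm (le_trans h6 inf_le_left) (le_trans h5 inf_le_right))

end Cfsg.Agent.S4420
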