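import Cfsg.Statements.S4452
import Cfsg.Agent.Lib.Lead.GlaubM

set_option autoImplicit false
open Cfsg

namespace Cfsg.Agent.S4452

open Cfsg.Agent.Lib.Lead.Glaub Cfsg.Agent.Lib.Helper2 Cfsg.Agent.Lib.Helper6 in
/-- Let the finite group G be the product of a normal subgroup K and a solvable subgroup H of coprime orders, and let N = N_G(H). Then the number of irreducible characters of G of degree coprime to the order of H equals the number of irreducible characters of N of degree coprime to the order of H. (The two sets are in fact in a canonical bijection; only the equality of their sizes is stated here.) -/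
theorem result {G : Type*} [Group G] [Finite G] (K H : Subgroup G) [K.Normal] (hKH : K ⊔ H = ⊤) (hcop : (Nat.card K).Coprime (Nat.card H)) (hsolv : Group.IsSolvable H) : Nat.card {χ : Cfsg.IrrCharacter G // (Cfsg.charDegree (χ : G → ℂ)).Coprime (Nat.card H)} = Nat.card {η : Cfsg.IrrCharacter (Subgroup.normalizer (H : Set G)) // (Cfsg.charDegree (η : Subgroup.normalizer (H : Set G) → ℂ)).Coprime (Nat.card H)} := by
  classical
  have hKn : K.Normal := inferInstance
  have hdisj : K ⊓ H = ⊥ := (Subgroup.disjoint_of_coprime_natCard hcop).eq_bot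
  obtain ⟨π, hπH, hπker⟩ := exists_retract K H hKH hdisj
  have hidx : K.index = Nat.card H := index_eq_card_of_retract K H.subtype π hπH hπker
  set N : Subgroup G := Subgroup.normalizer (H : Set G) with hN
  have hHN : H ≤ N := Subgroup.le_normalizer
  set K' : Subgroup N := K.subgroupOf N with hK'
  have hπH' : ∀ h : H, (π.comp N.subtype) (Subgroup.inclusion hHN h) = h := fun h => hπH h
  have hπker' : ∀ x : N, (π.comp N.subtype) x = 1 ↔ x ∈ K' := by
    intro x
    rw [hK', Subgroup.mem_subgroupOf]
    exact hπker x
  have hidx' : K'.index = Nat.card H :=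
    index_eq_card_of_retract K' (Subgroup.inclusion hHN) (π.comp N.subtype) hπH' hπker'
  have hcardK' : Nat.card K' ∣ Nat.card K := by
    have hinj : Function.Injective
        ((N.subtype.comp K'.subtype).codRestrict K (fun x => x.2) : K' →* K) := by
      intro x y h
      exact Subtype.ext (Subtype.ext (congrArg (fun z : K => (z : G)) h))
    exact Subgroup.card_dvd_of_injective _ hinj
  have hcop1 : (Nat.card K).Coprime K.index := hidx ▸ hcop
  have hcop2 : (Nat.card K').Coprime K'.index :=
    hidx' ▸ Nat.Coprime.coprime_dvd_left hcardK' hcop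
  have e1 := card_coprime_degree K hcop1
  have e2 := card_coprime_degree K' hcop2
  rw [hidx, card_hom_trivial K H.subtype π hπH hπker] at e1
  rw [hidx', card_hom_trivial K' (Subgroup.inclusion hHN) (π.comp N.subtype) hπH' hπker'] at e2
  rw [e1, e2]
  congr 1
  -- elements of `K ∩ N` commute with `H`
  have hcomm : ∀ n ∈ K, n ∈ N → ∀ h ∈ H, h * n * h⁻¹ = n := by
    intro n hnK hnN h hh
    have h1 : n * h * n⁻¹ ∈ H := (Subgroup.mem_normalizer_iff.mp hnN h).mp hh
    have h2 : n * h * n⁻¹ * h⁻¹ ∈ K ⊓ H := by
      refine ⟨?_, H.mul_mem h1 (H.inv_mem hh)⟩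
      have : n * h * n⁻¹ * h⁻¹ = n * (h * n⁻¹ * h⁻¹) := by group
      rw [this]
      exact K.mul_mem hnK (hKn.conj_mem _ (K.inv_mem hnK) h)
    rw [hdisj, Subgroup.mem_bot] at h2
    have h3 : n * h = h * n := by
      calc n * h = n * h * n⁻¹ * h⁻¹ * (h * n) := by group
        _ = h * n := by rw [h2, one_mul]
    rw [← h3]
    group
  have hnorm : ∀ s ∈ H, ∀ g ∈ K, s * g * s⁻¹ ∈ K := fun s _ g hg => hKn.conj_mem g hg s
  -- left side
  have l1 : Nat.card {θ : IrrCharacter K // GInv K (θ : K → ℂ)} =
      Nat.card {θ : IrrCharacter K // Inv (conjOn K H hnorm) (θ : K → ℂ)} := by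
    apply Nat.card_congr
    apply Equiv.subtypeEquivRight
    intro θ
    constructor
    · intro h s g
      exact h s g
    · intro h g n
      have hk : g * ((π g : H) : G)⁻¹ ∈ K := by
        rw [← hπker, map_mul, map_inv, hπH, mul_inv_cancel]
      have h1 := irr_isClassFunction θ.2 (conjOn K H hnorm (π g) n) ⟨_, hk⟩
      rw [h (π g) n] at h1
      rw [← h1]
      refine congrArg (θ : K → ℂ) (Subtype.ext ?_)
      simp only [Subgroup.coe_mul, conjOn_apply, Subgroup.coe_inv]
      group
  have l2 := card_inv_eq _ K H (conjOn K H hnorm) rfl hsolv hcop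
  have l3 := card_invC_eq _ K H (conjOn K H hnorm) K'
    ((N.subtype.comp K'.subtype).codRestrict K (fun x => x.2) : K' →* K) rfl hsolv hcop
    (by
      intro x y h
      exact Subtype.ext (Subtype.ext (congrArg (fun z : K => (z : G)) h)))
    (by
      intro k
      constructor
      · rintro ⟨x, rfl⟩ s
        apply Subtype.ext
        exact hcomm (x : G) x.2 x.1.2 s s.2
      · intro h
        have hkN : (k : G) ∈ N := by
          have hc : ∀ y ∈ H, y * (k : G) = k * y := by
            intro y hy
            have h1 : y * (k : G) * y⁻¹ = k := congrArg (fun z : K => (z : G)) (h ⟨y, hy⟩)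
            calc y * (k : G) = y * (k : G) * y⁻¹ * y := by group
              _ = k * y := by rw [h1]
          rw [hN, Subgroup.mem_normalizer_iff]
          intro x
          constructor
          · intro hx
            rw [← hc x hx]
            simpa using hx
          · intro hx
            have h2 := hc _ hx
            have h3 : x = (k : G) * x * (k : G)⁻¹ := by
              calc x = (k : G)⁻¹ * ((k : G) * x * (k : G)⁻¹ * k) := by group
                _ = (k : G)⁻¹ * (k * ((k : G) * x * (k : G)⁻¹)) := by rw [h2]
                _ = (k : G) * x * (k : G)⁻¹ := by group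
            rw [h3]
            exact hx
        exact ⟨⟨⟨k, hkN⟩, k.2⟩, rfl⟩)
  rw [l1, l2, l3]
  -- right side
  have r1 : ∀ θ : IrrCharacter K', GInv K' (θ : K' → ℂ) := by
    intro θ g n
    have hk : g * (Subgroup.inclusion hHN (π g))⁻¹ ∈ K' := by
      rw [← hπker', map_mul, map_inv, hπH']
      exact mul_inv_cancel _
    have h1 := irr_isClassFunction θ.2 n ⟨_, hk⟩
    rw [← h1]
    refine congrArg (θ : K' → ℂ) (Subtype.ext (Subtype.ext ?_))
    have h2 := hcomm ((n : N) : G) n.2 n.1.2 ((π g : H) : G)⁻¹ (H.inv_mem (π g).2)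
    simp only [Subgroup.coe_mul, Subgroup.coe_inv, Subgroup.coe_inclusion]
    calc (g : G) * ((n : N) : G) * (g : G)⁻¹
        = (g : G) * (((π g : H) : G)⁻¹ * ((n : N) : G) * ((π g : H) : G)⁻¹⁻¹) * (g : G)⁻¹ := by
          rw [h2]
      _ = _ := by group
  haveI := Fintype.ofFinite K'
  rw [Nat.card_congr (Equiv.subtypeUnivEquiv r1)]
  exact card_irr_eq_card_conjClasses.symm

end Cfsg.Agent.S4452
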