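import Cfsg.Statements.S4517
import Mathlib
import Cfsg.Agent.Lib.Helper23.RealBlock

set_option autoImplicit false
open Cfsg

namespace Cfsg.Agent.S4517

open Cfsg.Agent.Lib.Helper2 Cfsg.Agent.Lib.Helper6 Cfsg.Agent.Lib.Helper23.RealBlock

/-- Let G be a finite group, M a maximal ideal of the algebraic integers containing 2, and k a natural number coprime to the order of G with g ^ k = g⁻¹ for every element g of odd order (so that g ↦ g ^ k induces a field automorphism of the character values inverting the roots of unity of odd order). If B is a 2-block of full defect (its defect equals the exponent of 2 in the order of G) that is stable under χ ↦ χ ∘ (· ^ k), then B is the principal 2-block. -/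
theorem result {G : Type*} [Group G] [Finite G] (M : Ideal Cfsg.AlgInt) (hM : Cfsg.IsPModular 2 M) (k : ℕ) (hk : Nat.Coprime k (Nat.card G)) (hk₂ : ∀ g : G, Odd (orderOf g) → g ^ k = g⁻¹) (B : Set (Cfsg.IrrCharacter G)) (hB : Cfsg.IsPBlock M B) (hdef : Cfsg.blockDefect 2 B = (Nat.card G).factorization 2) (hstab : ∀ χ ∈ B, ∃ ψ ∈ B, ∀ g : G, (ψ : G → ℂ) g = (χ : G → ℂ) (g ^ k)) : B = Cfsg.principalBlock M G := by
  classical
  cases nonempty_fintype G
  haveI := IsPModular.isPrime hM
  choose! τ hτB hτ using hstab
  have hinj : Set.InjOn τ B := by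
    intro a ha b hb hab
    apply Subtype.ext
    funext g
    obtain ⟨g', rfl⟩ := (powCoprime hk.symm).surjective g
    have h1 := hτ a ha g'
    have h2 := hτ b hb g'
    rw [hab, h2] at h1
    exact h1.symm
  obtain ⟨H1, H2⟩ := stable_of_tau hM hB τ hτB hinj (by
    intro χ hχ g hg
    rw [hτ χ hχ g, hk₂ g hg])
  exact eq_principalBlock_of_stable hM hB H1 H2
    (exists_odd_of_full_defect (IsPBlock.nonempty hB) hdef)

end Cfsg.Agent.S4517
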