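import Cfsg.Statements.S4518
import Cfsg.Agent.Lib.Helper25.TwistClifford

set_option autoImplicit false
open Cfsg
open Cfsg.Agent.Lib.Helper2 Cfsg.Agent.Lib.Helper25

namespace Cfsg.Agent.S4518

/-- Let N be a normal subgroup of the finite group G whose index is not divisible by the prime p, and let k be coprime to the order of G with k ^ (p ^ e) ≡ 1 modulo the order of G for some e (so g ↦ g ^ k induces a field automorphism of p-power order on character values). If an irreducible character χ of G satisfies χ (g ^ k) = χ g for all g, then every irreducible constituent θ of the restriction of χ to N satisfies θ (n ^ k) = θ n for all n. -/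
theorem result {G : Type*} [Group G] [Fintype G] (p : ℕ) [Fact p.Prime] (N : Subgroup G) [N.Normal] [Fintype N] (hidx : ¬ p ∣ N.index) (k e : ℕ) (hk : Nat.Coprime k (Nat.card G)) (hke : k ^ (p ^ e) ≡ 1 [MOD Nat.card G]) (χ : Cfsg.IrrCharacter G) (hχ : ∀ g : G, (χ : G → ℂ) (g ^ k) = (χ : G → ℂ) g) (θ : Cfsg.IrrCharacter N) (hθ : Cfsg.classInner (fun n : N => (χ : G → ℂ) n) (θ : N → ℂ) ≠ 0) : ∀ n : N, (θ : N → ℂ) (n ^ k) = (θ : N → ℂ) n := by
  classical
  letI := Twist.conjAction N
  have hkN : k.Coprime (Nat.card N) := hk.coprime_dvd_right (Subgroup.card_subgroup_dvd_card N)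
  have hsmul : ∀ (x : G) (ψ : N → ℂ), x • ψ = conjFun N x ψ := fun _ _ => rfl
  have hres : Twist.tw k (fun n : N => (χ : G → ℂ) n) = fun n : N => (χ : G → ℂ) n := by
    funext n
    rw [Twist.tw_apply]
    exact hχ n
  obtain ⟨y, hy⟩ := Twist.exists_conj_of_constituents N χ.2 θ.2 (Twist.isIrr_tw hkN θ.2) hθ
    (by rw [← hres, Twist.classInner_tw hkN]; exact hθ)
  have hA : ∀ ψ ∈ MulAction.orbit G (θ : N → ℂ), Twist.tw k ψ ∈ MulAction.orbit G (θ : N → ℂ) := by
    rintro _ ⟨x, rfl⟩
    refine ⟨x * y, ?_⟩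
    show conjFun N (x * y) θ = Twist.tw k (conjFun N x θ)
    rw [Twist.tw_conjFun, hy, conjFun_mul]
  haveI : Finite (MulAction.orbit G (θ : N → ℂ)) := Set.finite_range _
  haveI := Fintype.ofFinite (MulAction.orbit G (θ : N → ℂ))
  let f : Function.End (MulAction.orbit G (θ : N → ℂ)) := fun ω => ⟨Twist.tw k ω.1, hA _ ω.2⟩
  have hfpow : ∀ (m : ℕ) (ω : MulAction.orbit G (θ : N → ℂ)), ((f ^ m) ω).1 = Twist.tw (k ^ m) ω.1 := by
    intro m
    induction m with
    | zero =>
      intro ω
      funext n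
      rw [pow_zero, pow_zero, Twist.tw_apply, pow_one]
      rfl
    | succ m ih =>
      intro ω
      rw [pow_succ']
      show Twist.tw k ((f ^ m) ω).1 = _
      rw [ih, Twist.tw_tw, pow_succ']
  have hf : f ^ p ^ e = 1 := by
    funext ω
    apply Subtype.ext
    rw [hfpow]
    exact Twist.tw_eq_self_of_modEq (Subgroup.card_subgroup_dvd_card N) hke _
  have h1 := Equiv.Perm.card_fixedPoints_modEq hf
  have h2 : ¬ p ∣ Fintype.card (MulAction.orbit G (θ : N → ℂ)) := by
    intro hd
    apply hidx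
    refine hd.trans ?_
    rw [← Nat.card_eq_fintype_card, Nat.card_coe_set_eq]
    exact Twist.ncard_orbit_dvd_index N (IsCharacter.isClassFunction (IsIrrCharacter.isCharacter θ.2))
  have h3 : Fintype.card (Function.fixedPoints f) ≠ 0 := by
    intro h0
    rw [h0] at h1
    exact h2 ((Nat.modEq_zero_iff_dvd).1 h1)
  obtain ⟨⟨⟨ω, x, hx⟩, hω⟩⟩ := Fintype.card_pos_iff.1 (Nat.pos_of_ne_zero h3)
  have h4 : Twist.tw k ω = ω := congrArg Subtype.val hω
  have hx' : conjFun N x θ = ω := hx
  rw [← hx', Twist.tw_conjFun] at h4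
  have h5 : Twist.tw k (θ : N → ℂ) = θ := by
    have := congrArg (conjFun N x⁻¹) h4
    rwa [← conjFun_mul, ← conjFun_mul, inv_mul_cancel, conjFun_one, conjFun_one] at this
  intro n
  exact congrFun h5 n

end Cfsg.Agent.S4518
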