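import Cfsg.Statements.S4521
import Mathlib
import Cfsg.Agent.S0943
import Cfsg.Agent.Lib.Helper25.PrincipalReg
import Cfsg.Agent.Lib.Helper13.Clifford4

set_option autoImplicit false
open Cfsg

namespace Cfsg.Agent.S4521

open Cfsg.Agent.Lib.Helper2 Cfsg.Agent.Lib.Helper6 Cfsg.Agent.Lib.Helper24 Cfsg.Agent.Lib.Helper13
open Cfsg.Agent.Lib.Helper25
open scoped ComplexConjugate

attribute [local instance] irrFintype

section

variable {G : Type*} [Group G] [Fintype G] {U₁ U₂ : Subgroup G}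

theorem normal_right (hcomm : ∀ u ∈ U₁, ∀ v ∈ U₂, u * v = v * u) (hgen : U₁ ⊔ U₂ = ⊤) :
    U₂.Normal := by
  rw [← Subgroup.normalizer_eq_top_iff, eq_top_iff, ← hgen, sup_le_iff]
  refine ⟨?_, Subgroup.le_normalizer⟩
  intro u hu
  rw [Subgroup.mem_normalizer_iff]
  intro v
  constructor
  · intro hv
    rw [hcomm u hu v hv, mul_inv_cancel_right]
    exact hv
  · intro hv
    have h1 := hcomm u hu _ hv
    have h2 : v = u * v * u⁻¹ := by
      have : u * (u * v * u⁻¹) = u * v := by rw [h1]; group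
      exact (mul_left_cancel this).symm
    rw [h2]; exact hv

theorem exists_mul (hcomm : ∀ u ∈ U₁, ∀ v ∈ U₂, u * v = v * u) (hgen : U₁ ⊔ U₂ = ⊤) (g : G) :
    ∃ u ∈ U₁, ∃ v ∈ U₂, g = u * v := by
  haveI := normal_right hcomm hgen
  have hg : g ∈ ((U₁ ⊔ U₂ : Subgroup G) : Set G) := by rw [hgen]; trivial
  rw [Subgroup.mul_normal] at hg
  obtain ⟨u, hu, v, hv, rfl⟩ := Set.mem_mul.mp hg
  exact ⟨u, hu, v, hv, rfl⟩

/-- A character of one factor is invariant in the central product. -/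
theorem conjFun_eq (hcomm : ∀ u ∈ U₁, ∀ v ∈ U₂, u * v = v * u) (hgen : U₁ ⊔ U₂ = ⊤)
    [U₁.Normal] {ψ : U₁ → ℂ} (hψ : IsClassFunction U₁ ψ) (g : G) : conjFun U₁ g ψ = ψ := by
  obtain ⟨u, hu, v, hv, rfl⟩ := exists_mul hcomm hgen g
  rw [conjFun_mul]
  have h1 : conjFun U₁ v ψ = ψ := by
    funext h
    rw [conjFun_apply]
    congr 1
    apply Subtype.ext
    show v⁻¹ * (h : G) * v = h
    rw [mul_assoc, hcomm h h.2 v hv, inv_mul_cancel_left]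
  rw [h1, conjFun_of_mem U₁ hψ hu]

theorem char_mul (hcomm : ∀ u ∈ U₁, ∀ v ∈ U₂, u * v = v * u) (hgen : U₁ ⊔ U₂ = ⊤)
    (χ : IrrCharacter G) {u v : G} (hu : u ∈ U₁) (hv : v ∈ U₂) :
    (χ : G → ℂ) u * (χ : G → ℂ) v = (χ : G → ℂ) 1 * (χ : G → ℂ) (u * v) := by
  apply Cfsg.Agent.S0943.result χ u v
  intro x y hx hy
  obtain ⟨c, rfl⟩ := isConj_iff.mp hx
  obtain ⟨e, rfl⟩ := isConj_iff.mp hy
  obtain ⟨c₁, hc₁, c₂, hc₂, rfl⟩ := exists_mul hcomm hgen c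
  obtain ⟨e₁, he₁, e₂, he₂, rfl⟩ := exists_mul hcomm hgen e
  have hcl := IsCharacter.isClassFunction (IsIrrCharacter.isCharacter χ.2)
  have h1 : c₁ * c₂ * u * (c₁ * c₂)⁻¹ = c₁ * u * c₁⁻¹ := by
    have := hcomm u hu c₂ hc₂
    rw [mul_inv_rev, mul_assoc c₁ c₂ u, ← this]
    group
  have h2 : e₁ * e₂ * v * (e₁ * e₂)⁻¹ = e₂ * v * e₂⁻¹ := by
    have h3 : e₂ * v * e₂⁻¹ ∈ U₂ := U₂.mul_mem (U₂.mul_mem he₂ hv) (U₂.inv_mem he₂)
    have := hcomm e₁ he₁ _ h3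
    calc e₁ * e₂ * v * (e₁ * e₂)⁻¹ = e₁ * (e₂ * v * e₂⁻¹) * e₁⁻¹ := by group
      _ = e₂ * v * e₂⁻¹ := by rw [this, mul_inv_cancel_right]
  rw [h1, h2]
  have h4 : c₁ * u * c₁⁻¹ * (e₂ * v * e₂⁻¹) = (c₁ * e₂) * (u * v) * (c₁ * e₂)⁻¹ := by
    have a1 := hcomm u hu e₂ he₂
    have a2 := hcomm c₁ hc₁ v hv
    have a3 := hcomm c₁ hc₁ e₂ he₂
    have a4 : c₁⁻¹ * (e₂ * v * e₂⁻¹) = (e₂ * v * e₂⁻¹) * c₁⁻¹ :=
      hcomm _ (U₁.inv_mem hc₁) _ (U₂.mul_mem (U₂.mul_mem he₂ hv) (U₂.inv_mem he₂))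
    calc c₁ * u * c₁⁻¹ * (e₂ * v * e₂⁻¹) = c₁ * u * (c₁⁻¹ * (e₂ * v * e₂⁻¹)) := by group
      _ = c₁ * (u * e₂) * v * e₂⁻¹ * c₁⁻¹ := by rw [a4]; group
      _ = (c₁ * e₂) * (u * v) * (c₁ * e₂)⁻¹ := by rw [a1]; group
  rw [h4]
  exact hcl _ _

end

/-- The sum over the `p`-regular elements. -/
noncomputable def regSum {H : Type*} [Group H] [Fintype H] (p : ℕ) (f : H → ℂ) : ℂ :=
  ∑ x : H, (if p ∣ orderOf x then (0 : ℂ) else f x)

theorem regSum_central {G : Type*} [Group G] [Fintype G] {p : ℕ} (hp : p.Prime)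
    {U₁ U₂ : Subgroup G} [Fintype U₁] [Fintype U₂]
    (hcomm : ∀ u ∈ U₁, ∀ v ∈ U₂, u * v = v * u) (hgen : U₁ ⊔ U₂ = ⊤)
    (hZ : IsPGroup p ↥(U₁ ⊓ U₂)) (f : G → ℂ) :
    regSum p f = ∑ u : U₁, ∑ v : U₂, (if p ∣ orderOf u then (0 : ℂ) else
      if p ∣ orderOf v then 0 else f (u * v)) := by
  classical
  unfold regSum
  have e0 : ∑ x : G, (if p ∣ orderOf x then (0 : ℂ) else f x) =
      ∑ x ∈ (Finset.univ : Finset G).filter (fun x => ¬ p ∣ orderOf x), f x := by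
    rw [Finset.sum_filter]
    refine Finset.sum_congr rfl fun x _ => ?_
    by_cases h1 : p ∣ orderOf x
    · simp [h1]
    · simp [h1]
  rw [e0, ← Finset.sum_product']
  have e1 : ∑ x ∈ (Finset.univ : Finset U₁) ×ˢ (Finset.univ : Finset U₂),
      (if p ∣ orderOf x.1 then (0 : ℂ) else if p ∣ orderOf x.2 then 0 else f (x.1 * x.2)) =
      ∑ x ∈ ((Finset.univ : Finset U₁) ×ˢ (Finset.univ : Finset U₂)).filter
        (fun x => ¬ p ∣ orderOf x.1 ∧ ¬ p ∣ orderOf x.2), f (x.1 * x.2) := by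
    rw [Finset.sum_filter]
    refine Finset.sum_congr rfl fun x _ => ?_
    by_cases h1 : p ∣ orderOf x.1
    · simp [h1]
    · by_cases h2 : p ∣ orderOf x.2
      · simp [h2]
      · simp [h1, h2]
  rw [e1]
  symm
  obtain ⟨a, s, hs, hcard⟩ := Nat.exists_eq_pow_mul_and_not_dvd (Nat.card_pos (α := G)).ne' p
    hp.ne_one
  have hcop : Nat.Coprime (p ^ a) s := Nat.Coprime.pow_left a ((Nat.Prime.coprime_iff_not_dvd hp).mpr hs)
  obtain ⟨m, hm0, hm1⟩ := Nat.chineseRemainder hcop 0 1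
  have hregpow : ∀ x : G, ¬ p ∣ orderOf x → x ^ m = x := by
    intro x hx
    have h1 : orderOf x ∣ s := by
      have h2 : orderOf x ∣ p ^ a * s := by rw [← hcard]; exact orderOf_dvd_natCard x
      exact Nat.Coprime.dvd_of_dvd_mul_left
        (Nat.Coprime.pow_right a ((Nat.Prime.coprime_iff_not_dvd hp).mpr hx).symm) h2
    have h3 : m ≡ 1 [MOD orderOf x] := hm1.of_dvd h1
    have := (pow_eq_pow_iff_modEq (x := x)).mpr h3
    rwa [pow_one] at this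
  have hpowreg : ∀ x : G, ¬ p ∣ orderOf (x ^ m) := by
    intro x hx
    have h1 : (x ^ m) ^ s = 1 := by
      rw [← pow_mul]
      obtain ⟨c, hc⟩ := (Nat.modEq_zero_iff_dvd.mp hm0)
      rw [hc, mul_right_comm, ← hcard, mul_comm, pow_mul, pow_card_eq_one']
    exact hs (hx.trans (orderOf_dvd_of_pow_eq_one h1))
  refine Finset.sum_bij (fun x _ => (x.1 : G) * (x.2 : G)) ?_ ?_ ?_ ?_
  · intro x hx
    obtain ⟨-, h1, h2⟩ := Finset.mem_filter.mp hx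
    rw [← Subgroup.orderOf_coe] at h1 h2
    refine Finset.mem_filter.mpr ⟨Finset.mem_univ _, ?_⟩
    intro hd
    have hc : Commute (x.1 : G) (x.2 : G) := hcomm _ x.1.2 _ x.2.2
    have := hd.trans (hc.orderOf_mul_dvd_lcm.trans (Nat.lcm_dvd_mul _ _))
    rcases (Nat.Prime.dvd_mul hp).mp this with h | h
    · exact h1 h
    · exact h2 h
  · intro x hx y hy hxy
    obtain ⟨-, hx1, hx2⟩ := Finset.mem_filter.mp hx
    obtain ⟨-, hy1, hy2⟩ := Finset.mem_filter.mp hy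
    rw [← Subgroup.orderOf_coe] at hx1 hx2 hy1 hy2
    -- apply the power map
    have hcx : Commute (x.1 : G) (x.2 : G) := hcomm _ x.1.2 _ x.2.2
    have hz : ((y.1 : G))⁻¹ * (x.1 : G) = (y.2 : G) * ((x.2 : G))⁻¹ := by
      have : (x.1 : G) = (y.1 : G) * (y.2 : G) * ((x.2 : G))⁻¹ := by
        rw [← hxy, mul_inv_cancel_right]
      rw [this]; group
    have hzmem : ((y.1 : G))⁻¹ * (x.1 : G) ∈ U₁ ⊓ U₂ :=
      ⟨U₁.mul_mem (U₁.inv_mem y.1.2) x.1.2, by rw [hz]; exact U₂.mul_mem y.2.2 (U₂.inv_mem x.2.2)⟩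
    obtain ⟨k, hk⟩ := hZ ⟨_, hzmem⟩
    have hk' : (((y.1 : G))⁻¹ * (x.1 : G)) ^ p ^ k = 1 := by
      have := congrArg Subtype.val hk
      simpa using this
    -- the element commutes with `y.1`
    have hcz : Commute (y.1 : G) (((y.1 : G))⁻¹ * (x.1 : G)) := hcomm _ y.1.2 _ hzmem.2
    have hx1eq : (x.1 : G) = (y.1 : G) * (((y.1 : G))⁻¹ * (x.1 : G)) := by group
    have hzm : (((y.1 : G))⁻¹ * (x.1 : G)) ^ m = 1 := by
      have h1 : orderOf (((y.1 : G))⁻¹ * (x.1 : G)) ∣ p ^ k := orderOf_dvd_of_pow_eq_one hk'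
      obtain ⟨j, hj, hj'⟩ := (Nat.dvd_prime_pow hp).mp h1
      have h2 : orderOf (((y.1 : G))⁻¹ * (x.1 : G)) ∣ p ^ a := by
        have h3 : orderOf (((y.1 : G))⁻¹ * (x.1 : G)) ∣ p ^ a * s := by
          rw [← hcard]; exact orderOf_dvd_natCard _
        exact Nat.Coprime.dvd_of_dvd_mul_right (by
          rw [hj']; exact Nat.Coprime.pow_left j ((Nat.Prime.coprime_iff_not_dvd hp).mpr hs)) h3
      exact orderOf_dvd_iff_pow_eq_one.mp (h2.trans (Nat.modEq_zero_iff_dvd.mp hm0))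
    have hfin : (x.1 : G) = (y.1 : G) := by
      calc (x.1 : G) = (x.1 : G) ^ m := (hregpow _ hx1).symm
        _ = ((y.1 : G) * (((y.1 : G))⁻¹ * (x.1 : G))) ^ m := by rw [← hx1eq]
        _ = (y.1 : G) ^ m * (((y.1 : G))⁻¹ * (x.1 : G)) ^ m := hcz.mul_pow m
        _ = (y.1 : G) := by rw [hzm, mul_one, hregpow _ hy1]
    have hfin2 : (x.2 : G) = (y.2 : G) := by
      have h5 : (x.1 : G) * (x.2 : G) = (y.1 : G) * (y.2 : G) := hxy
      rw [hfin] at h5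
      exact mul_left_cancel h5
    exact Prod.ext (Subtype.ext hfin) (Subtype.ext hfin2)
  · intro g hg
    have hg' := (Finset.mem_filter.mp hg).2
    obtain ⟨u, hu, v, hv, rfl⟩ := exists_mul hcomm hgen g
    refine ⟨(⟨u ^ m, U₁.pow_mem hu m⟩, ⟨v ^ m, U₂.pow_mem hv m⟩), ?_, ?_⟩
    · refine Finset.mem_filter.mpr ⟨Finset.mem_product.mpr ⟨Finset.mem_univ _, Finset.mem_univ _⟩, ?_, ?_⟩
      · rw [← Subgroup.orderOf_coe]; exact hpowreg u
      · rw [← Subgroup.orderOf_coe]; exact hpowreg v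
    · show u ^ m * v ^ m = u * v
      have hc : Commute u v := hcomm u hu v hv
      rw [← hc.mul_pow, hregpow _ hg']
  · intro x _
    rfl

/-- Let the finite group G be generated by subgroups U₁ and U₂ that commute elementwise and whose intersection is a p-group, and let M be a maximal ideal of the algebraic integers containing the prime p. If the irreducible character χ of G has the irreducible constituents ψ₁ on U₁ and ψ₂ on U₂, then χ lies in the principal block of G if and only if ψ₁ and ψ₂ lie in the principal blocks of U₁ and U₂. -/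
theorem result {G : Type*} [Group G] [Fintype G] (p : ℕ) [Fact p.Prime] (M : Ideal Cfsg.AlgInt) (hM : Cfsg.IsPModular p M) (U₁ U₂ : Subgroup G) [Fintype U₁] [Fintype U₂] (hcomm : ∀ u ∈ U₁, ∀ v ∈ U₂, u * v = v * u) (hgen : U₁ ⊔ U₂ = ⊤) (hZ : IsPGroup p ↥(U₁ ⊓ U₂)) (χ : Cfsg.IrrCharacter G) (ψ₁ : Cfsg.IrrCharacter U₁) (ψ₂ : Cfsg.IrrCharacter U₂) (h₁ : Cfsg.classInner (fun u : U₁ => (χ : G → ℂ) u) (ψ₁ : U₁ → ℂ) ≠ 0) (h₂ : Cfsg.classInner (fun u : U₂ => (χ : G → ℂ) u) (ψ₂ : U₂ → ℂ) ≠ 0) : χ ∈ Cfsg.principalBlock M G ↔ (ψ₁ ∈ Cfsg.principalBlock M U₁ ∧ ψ₂ ∈ Cfsg.principalBlock M U₂) := by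
  classical
  have hp : p.Prime := Fact.out
  have hcomm' : ∀ u ∈ U₂, ∀ v ∈ U₁, u * v = v * u := fun u hu v hv => (hcomm v hv u hu).symm
  have hgen' : U₂ ⊔ U₁ = ⊤ := by rw [sup_comm]; exact hgen
  haveI hn2 : U₂.Normal := normal_right hcomm hgen
  haveI hn1 : U₁.Normal := normal_right hcomm' hgen'
  have r1 := restrict_eq_smul_of_invariant U₁ ψ₁.2 (conjFun_eq hcomm hgen
    (IsCharacter.isClassFunction (IsIrrCharacter.isCharacter ψ₁.2))) χ.2 h₁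
  have r2 := restrict_eq_smul_of_invariant U₂ ψ₂.2 (conjFun_eq hcomm' hgen'
    (IsCharacter.isClassFunction (IsIrrCharacter.isCharacter ψ₂.2))) χ.2 h₂
  obtain ⟨e₁, he₁⟩ : ∃ e, e = classInner (fun u : U₁ => (χ : G → ℂ) u) (ψ₁ : U₁ → ℂ) := ⟨_, rfl⟩
  obtain ⟨e₂, he₂⟩ : ∃ e, e = classInner (fun u : U₂ => (χ : G → ℂ) u) (ψ₂ : U₂ → ℂ) := ⟨_, rfl⟩
  rw [← he₁] at r1 h₁
  rw [← he₂] at r2 h₂
  have hχ1 : (χ : G → ℂ) 1 ≠ 0 := irr_one_ne_zero χ.2
  have key : (χ : G → ℂ) 1 * regSum p (χ : G → ℂ) =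
      (e₁ * regSum p (ψ₁ : U₁ → ℂ)) * (e₂ * regSum p (ψ₂ : U₂ → ℂ)) := by
    rw [regSum_central hp hcomm hgen hZ]
    unfold regSum
    rw [Finset.mul_sum, Finset.mul_sum, Finset.mul_sum, Finset.sum_mul]
    refine Finset.sum_congr rfl fun u _ => ?_
    rw [Finset.mul_sum, Finset.mul_sum]
    refine Finset.sum_congr rfl fun v _ => ?_
    by_cases hu : p ∣ orderOf u
    · simp [hu]
    · by_cases hv : p ∣ orderOf v
      · simp [hv]
      · simp only [if_neg hu, if_neg hv]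
        rw [← char_mul hcomm hgen χ u.2 v.2]
        have a1 := congrFun r1 u
        have a2 := congrFun r2 v
        simp only [Pi.smul_apply, smul_eq_mul] at a1 a2
        rw [a1, a2]
  rw [PrincipalReg.mem_principalBlock_iff_sum hM, PrincipalReg.mem_principalBlock_iff_sum hM,
    PrincipalReg.mem_principalBlock_iff_sum hM]
  show regSum p (χ : G → ℂ) ≠ 0 ↔ regSum p (ψ₁ : U₁ → ℂ) ≠ 0 ∧ regSum p (ψ₂ : U₂ → ℂ) ≠ 0
  constructor
  · intro h
    have h3 : (χ : G → ℂ) 1 * regSum p (χ : G → ℂ) ≠ 0 := mul_ne_zero hχ1 h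
    rw [key] at h3
    exact ⟨right_ne_zero_of_mul (left_ne_zero_of_mul h3), right_ne_zero_of_mul (right_ne_zero_of_mul h3)⟩
  · rintro ⟨h3, h4⟩
    have h5 : (e₁ * regSum p (ψ₁ : U₁ → ℂ)) * (e₂ * regSum p (ψ₂ : U₂ → ℂ)) ≠ 0 :=
      mul_ne_zero (mul_ne_zero h₁ h3) (mul_ne_zero h₂ h4)
    rw [← key] at h5
    exact right_ne_zero_of_mul h5

end Cfsg.Agent.S4521
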