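import Cfsg.Statements.S4540
import Mathlib
import Cfsg.Agent.Lib.Helper23.Contrib9
import Cfsg.Agent.S0908

set_option autoImplicit false
open Cfsg

namespace Cfsg.Agent.S4540

open Cfsg.Agent.Lib.Helper2 Cfsg.Agent.Lib.Helper6 Cfsg.Agent.Lib.Helper23.Contrib
open scoped Classical
attribute [local instance] irrFintype

/-- Let B be a 2-block of the finite group G (relative to a maximal ideal M of the algebraic integers containing 2) of defect d with defect group D. Let z be an element of D commuting with every element of D, and let b be a block of the centralizer C of z with defect group D that induces B (a major subsection (z, b)). If b has 2-regular rank at most three, then 3·k(B) ≤ 3·k₀(B) + 2·Σ 2 ^ h(χ), where k(B) is the number of members of B, k₀(B) the number of members of height zero, and the sum runs over the members χ of B of positive height h(χ); this bound is at most 3·2 ^ d, so in particular B contains at most 2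 ^ d irreducible characters. -/
theorem result {G : Type*} [Group G] [Finite G] (M : Ideal Cfsg.AlgInt) (hM : Cfsg.IsPModular 2 M) (B : Set (Cfsg.IrrCharacter G)) (hB : Cfsg.IsPBlock M B) (D : Subgroup G) (hD : Cfsg.IsDefectGroup 2 M B D) (z : G) (hzD : z ∈ D) (hzc : ∀ d ∈ D, d * z = z * d) (b : Set (Cfsg.IrrCharacter ↥(Subgroup.centralizer ({z} : Set G)))) (hb : Cfsg.IsInducedBlock M (Subgroup.centralizer ({z} : Set G)) b B) (hbD : Cfsg.IsDefectGroup 2 M b (D.subgroupOf (Subgroup.centralizer ({z} : Set G)))) (hl : Cfsg.blockRank 2 b ≤ 3) : 3 * Nat.card B ≤ 3 * Nat.card {χ : Cfsg.IrrCharacter G // χ ∈ B ∧ Cfsg.blockHeight 2 B (χ : G → ℂ) = 0} + 2 * (∑ᶠ χ ∈ {χ : Cfsg.IrrCharacter G | χ ∈ B ∧ 1 ≤ Cfsg.blockHeight 2 B (χ : G → ℂ)}, 2 ^ Cfsg.blockHeight 2 B (χ : G → ℂ)) ∧ 3 * Nat.card {χ : Cfsg.IrrCharacter G // χ ∈ B ∧ Cfsg.blockHeight 2 B (χ : G → ℂ) = 0} + 2 * (∑ᶠ χ ∈ {χ : Cfsg.IrrCharacter G | χ ∈ B ∧ 1 ≤ Cfsg.blockHeight 2 B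 (χ : G → ℂ)}, 2 ^ Cfsg.blockHeight 2 B (χ : G → ℂ)) ≤ 3 * 2 ^ Cfsg.blockDefect 2 B := by
  cases nonempty_fintype G
  have := IsPModular.isPrime hM
  have hcardD := Cfsg.Agent.S0908.result 2 M hM B hB D hD
  have hcardb := Cfsg.Agent.S0908.result 2 M hM b hb.1 _ hbD
  have hz2 : ∃ j : ℕ, orderOf z = 2 ^ j := by
    have h1 : orderOf z ∣ Nat.card D := by
      have := orderOf_dvd_natCard (⟨z, hzD⟩ : D)
      rwa [Subgroup.orderOf_mk] at this
    rw [hcardD] at h1
    obtain ⟨j, -, hj⟩ := (Nat.dvd_prime_pow Nat.prime_two).mp h1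
    exact ⟨j, hj⟩
  have hx : IsCenOf 2 (cenElt z) := isCenOf_cenElt hz2
  have hle : D ≤ Subgroup.centralizer ({z} : Set G) := by
    intro g hg
    rw [Subgroup.mem_centralizer_singleton_iff]
    exact hzc g hg
  have hdd : Cfsg.blockDefect 2 b = Cfsg.blockDefect 2 B := by
    have h1 : Nat.card (D.subgroupOf (Subgroup.centralizer ({z} : Set G))) = Nat.card D :=
      Nat.card_congr (Subgroup.subgroupOfEquivOfLe hle).toEquiv
    rw [hcardb, hcardD] at h1
    exact Nat.pow_right_injective (le_refl 2) h1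
  obtain ⟨a, hsum, h0, h1⟩ := major_data hM hx hb hdd
  set s : Finset (Cfsg.IrrCharacter G) := Finset.univ.filter (· ∈ B) with hs
  have hmem : ∀ χ ∈ s, χ ∈ B := fun χ hχ => (Finset.mem_filter.mp hχ).2
  have hcard : Nat.card B = s.card := by
    rw [Nat.card_eq_fintype_card, Fintype.card_subtype]
  have hcard0 : Nat.card {χ : Cfsg.IrrCharacter G // χ ∈ B ∧ Cfsg.blockHeight 2 B (χ : G → ℂ) = 0}
      = (s.filter (fun χ : Cfsg.IrrCharacter G => Cfsg.blockHeight 2 B (χ : G → ℂ) = 0)).card := by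
    rw [Nat.card_eq_fintype_card, Fintype.card_subtype, hs, Finset.filter_filter]
  have hfin : (∑ᶠ χ ∈ {χ : Cfsg.IrrCharacter G | χ ∈ B ∧ 1 ≤ Cfsg.blockHeight 2 B (χ : G → ℂ)},
      2 ^ Cfsg.blockHeight 2 B (χ : G → ℂ)) =
      ∑ χ ∈ s.filter (fun χ : Cfsg.IrrCharacter G => ¬ Cfsg.blockHeight 2 B (χ : G → ℂ) = 0),
        2 ^ Cfsg.blockHeight 2 B (χ : G → ℂ) := by
    rw [finsum_mem_eq_finite_toFinset_sum _ (Set.toFinite _)]
    refine Finset.sum_congr ?_ fun _ _ => rfl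
    ext χ
    simp only [Set.Finite.mem_toFinset, Set.mem_ofPred_eq, hs, Finset.mem_filter, Finset.mem_univ,
      true_and]
    constructor
    · rintro ⟨h1, h2⟩
      exact ⟨h1, by omega⟩
    · rintro ⟨h1, h2⟩
      exact ⟨h1, by omega⟩
  have hg : ∑ χ ∈ s, (if Cfsg.blockHeight 2 B (χ : G → ℂ) = 0 then 3
      else 2 * 2 ^ Cfsg.blockHeight 2 B (χ : G → ℂ)) =
      3 * (s.filter (fun χ : Cfsg.IrrCharacter G => Cfsg.blockHeight 2 B (χ : G → ℂ) = 0)).card +
      2 * ∑ χ ∈ s.filter (fun χ : Cfsg.IrrCharacter G => ¬ Cfsg.blockHeight 2 B (χ : G → ℂ) = 0),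
        2 ^ Cfsg.blockHeight 2 B (χ : G → ℂ) := by
    rw [Finset.sum_ite, Finset.sum_const, smul_eq_mul, Finset.mul_sum, mul_comm]
  rw [hcard, hcard0, hfin, ← hg]
  constructor
  · have : 3 * s.card = ∑ _χ ∈ s, 3 := by rw [Finset.sum_const, smul_eq_mul, mul_comm]
    rw [this]
    refine Finset.sum_le_sum fun χ _ => ?_
    split_ifs with h
    · exact le_refl _
    · have : 2 ^ 1 ≤ 2 ^ Cfsg.blockHeight 2 B (χ : G → ℂ) :=
        Nat.pow_le_pow_right (by norm_num) (Nat.pos_of_ne_zero h)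
      omega
  · have key := arith_rank_le_three s (fun χ => Cfsg.blockHeight 2 B (χ : G → ℂ)) a _ _ hl hsum
      (fun χ hχ hχ0 => ⟨(h0 χ (hmem χ hχ) hχ0).1, (h0 χ (hmem χ hχ) hχ0).2.2.1⟩)
      (fun χ hχ hpos => ⟨(h1 χ (hmem χ hχ) hpos).1, (h1 χ (hmem χ hχ) hpos).2.1⟩)
    have key' : ((∑ χ ∈ s, (if Cfsg.blockHeight 2 B (χ : G → ℂ) = 0 then 3
      else 2 * 2 ^ Cfsg.blockHeight 2 B (χ : G → ℂ)) : ℕ) : ℤ) ≤
        ((3 * 2 ^ Cfsg.blockDefect 2 B : ℕ) : ℤ) := by
      push_cast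
      exact key
    exact_mod_cast key'

end Cfsg.Agent.S4540
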