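import Cfsg.Statements.S4541
import Mathlib
import Cfsg.Agent.Lib.Helper23.Contrib5

set_option autoImplicit false
open Cfsg

namespace Cfsg.Agent.S4541

open Cfsg.Agent.Lib.Helper2 Cfsg.Agent.Lib.Helper6 Cfsg.Agent.Lib.Helper23.Contrib
open scoped Classical
attribute [local instance] irrFintype

/-- Let B be a 2-block of the finite group G (relative to a maximal ideal M of the algebraic integers containing 2), u a 2-element, and b a block of the centralizer of u inducing B (a subsection (u, b)), of defect q and 2-regular rank l; write s for the integer square root of l and k₀(B) for the number of members of B of height zero. If s is odd then k₀(B) ≤ s·2 ^ q, and otherwise (s + 1)·k₀(B) ≤ l·2 ^ q; in particular k₀(B) ≤ 2 ^ q when l ≤ 3. -/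
theorem result {G : Type*} [Group G] [Finite G] (M : Ideal Cfsg.AlgInt) (hM : Cfsg.IsPModular 2 M) (B : Set (Cfsg.IrrCharacter G)) (hB : Cfsg.IsPBlock M B) (u : G) (hu : ∃ j : ℕ, orderOf u = 2 ^ j) (b : Set (Cfsg.IrrCharacter ↥(Subgroup.centralizer ({u} : Set G)))) (hb : Cfsg.IsInducedBlock M (Subgroup.centralizer ({u} : Set G)) b B) : (Odd (Nat.sqrt (Cfsg.blockRank 2 b)) → Nat.card {χ : Cfsg.IrrCharacter G // χ ∈ B ∧ Cfsg.blockHeight 2 B (χ : G → ℂ) = 0} ≤ Nat.sqrt (Cfsg.blockRank 2 b) * 2 ^ Cfsg.blockDefect 2 b) ∧ (¬ Odd (Nat.sqrt (Cfsg.blockRank 2 b)) → (Nat.sqrt (Cfsg.blockRank 2 b) + 1) * Nat.card {χ : Cfsg.IrrCharacter G // χ ∈ B ∧ Cfsg.blockHeight 2 B (χ : G → ℂ) = 0} ≤ Cfsg.blockRank 2 b * 2 ^ Cfsg.blockDefect 2 b) ∧ (Cfsg.blockRank 2 b ≤ 3 → Nat.card {χ : Cfsg.IrrCharacter G // χ ∈ B ∧ Cfsg.blockHeight 2 B (χ : G → ℂ) = 0} ≤ 2 ^ Cfsg.blockDefect 2 b) := by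
  cases nonempty_fintype G
  have hx : IsCenOf 2 (cenElt u) := isCenOf_cenElt hu
  set S : Finset (Cfsg.IrrCharacter G) := Finset.univ.filter
    (fun χ => χ ∈ B ∧ Cfsg.blockHeight 2 B (χ : G → ℂ) = 0) with hSdef
  have hcard : Nat.card {χ : Cfsg.IrrCharacter G // χ ∈ B ∧ Cfsg.blockHeight 2 B (χ : G → ℂ) = 0}
      = S.card := by
    rw [Nat.card_eq_fintype_card, Fintype.card_subtype]
  rw [hcard]
  have hS : ∀ χ ∈ S, χ ∈ B ∧ Cfsg.blockHeight 2 B (χ : G → ℂ) = 0 := fun χ hχ =>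
    (Finset.mem_filter.mp hχ).2
  by_cases hne : S.Nonempty
  · obtain ⟨z, hz, h1, h2⟩ := two_block_bounds hM hx hb S hS hne
    obtain ⟨h3, h4⟩ := arith_bounds _ _ _ z hz h1 h2
    refine ⟨h3, h4, fun hl => ?_⟩
    have hpos : 0 < S.card := Finset.card_pos.mpr hne
    have hzpos : 0 < z := hz.pos
    have hl0 : Cfsg.blockRank 2 b ≠ 0 := by
      intro h0
      rw [h0, mul_zero] at h2
      have : 0 < S.card * z := Nat.mul_pos hpos hzpos
      omega
    have hsq : Nat.sqrt (Cfsg.blockRank 2 b) = 1 := by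
      symm
      rw [Nat.eq_sqrt]
      constructor <;> omega
    have h5 := h3 (by rw [hsq]; exact odd_one)
    rwa [hsq, one_mul] at h5
  · rw [Finset.not_nonempty_iff_eq_empty] at hne
    rw [hne, Finset.card_empty]
    simp

end Cfsg.Agent.S4541
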