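import Cfsg.Statements.S4558
import Mathlib

set_option autoImplicit false
open Cfsg

namespace Cfsg.Agent.S4558

open Polynomial in
theorem exists_poly (N : ℕ) (hN : 0 < N) (ζ : ℂ) (hζ : IsPrimitiveRoot ζ N) (s : Multiset ℂ)
    (hs : ∀ μ ∈ s, μ ^ N = 1) :
    ∃ f : ℤ[X], aeval ζ f = s.sum ∧ f.eval 1 = (Multiset.card s : ℤ) := by
  haveI : NeZero N := ⟨hN.ne'⟩
  induction s using Multiset.induction_on with
  | empty => exact ⟨0, by simp, by simp⟩
  | cons μ s ih =>
    obtain ⟨f, hf1, hf2⟩ := ih (fun ν hν => hs ν (Multiset.mem_cons_of_mem hν))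
    obtain ⟨a, _, ha⟩ := hζ.eq_pow_of_pow_eq_one (hs μ (Multiset.mem_cons_self μ s))
    refine ⟨X ^ a + f, ?_, ?_⟩
    · simp [hf1, ha]
    · simp [hf2]; ring

open Polynomial in
theorem dvd_card_of_sum_eq_zero (p : ℕ) [Fact p.Prime] (j : ℕ) (s : Multiset ℂ)
    (hs : ∀ μ ∈ s, μ ^ (p ^ (j + 1)) = 1) (h0 : s.sum = 0) : p ∣ Multiset.card s := by
  have hp : p.Prime := Fact.out
  have hN : 0 < p ^ (j + 1) := pow_pos hp.pos _
  have hζ := Complex.isPrimitiveRoot_exp (p ^ (j + 1)) hN.ne'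
  obtain ⟨f, hf1, hf2⟩ := exists_poly _ hN _ hζ s hs
  rw [h0] at hf1
  have hdvd : cyclotomic (p ^ (j + 1)) ℤ ∣ f := by
    rw [cyclotomic_eq_minpoly hζ hN]
    exact minpoly.isIntegrallyClosed_dvd (hζ.isIntegral hN) hf1
  obtain ⟨g, hg⟩ := hdvd
  have h1 : (p : ℤ) ∣ (Multiset.card s : ℤ) := by
    rw [← hf2, hg, eval_mul, eval_one_cyclotomic_prime_pow]
    exact dvd_mul_right _ _
  exact_mod_cast h1

theorem roots_pow_eq_one {V : Type*} [AddCommGroup V] [Module ℂ V] [FiniteDimensional ℂ V]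
    (f : V →ₗ[ℂ] V) (N : ℕ) (hf : f ^ N = 1) (μ : ℂ) (hμ : μ ∈ f.charpoly.roots) : μ ^ N = 1 := by
  have h1 : f.charpoly.IsRoot μ := (Polynomial.mem_roots'.1 hμ).2
  rw [← Module.End.hasEigenvalue_iff_isRoot_charpoly] at h1
  obtain ⟨v, hv⟩ := h1.exists_hasEigenvector
  have h2 := hv.pow_apply N
  rw [hf] at h2
  have h3 : (μ ^ N - 1) • v = 0 := by
    rw [sub_smul, one_smul, ← h2]
    simp
  rcases smul_eq_zero.1 h3 with h | h
  · exact sub_eq_zero.1 h
  · exact absurd h hv.2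

/-- Let χ be a character of the finite group G and g an element of p-power order for the prime p. If χ g = 0, then p divides the degree of χ. -/
theorem result {G : Type*} [Group G] [Finite G] (p : ℕ) [Fact p.Prime] (χ : G → ℂ) (hχ : Cfsg.IsCharacter G χ) (g : G) (hg : ∃ j : ℕ, orderOf g = p ^ j) (h0 : χ g = 0) : p ∣ Cfsg.charDegree χ := by
  obtain ⟨n, ρ, rfl⟩ := hχ
  obtain ⟨j, hj⟩ := hg
  have hdeg : Cfsg.charDegree ρ.character = n := by
    unfold Cfsg.charDegree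
    rw [Representation.char_one]
    simp
  rw [hdeg]
  have hpow : (ρ g) ^ (p ^ (j + 1)) = 1 := by
    rw [← map_pow, pow_succ, pow_mul, ← hj, pow_orderOf_eq_one, one_pow, map_one]
  have hsplit : (ρ g).charpoly.Splits := IsAlgClosed.splits _
  have htr : ρ.character g = (ρ g).charpoly.roots.sum :=
    Module.End.trace_eq_sum_roots_charpoly_of_splits hsplit
  have hcard : Multiset.card (ρ g).charpoly.roots = n := by
    rw [← hsplit.natDegree_eq_card_roots, LinearMap.charpoly_natDegree]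
    simp
  rw [← hcard]
  apply dvd_card_of_sum_eq_zero p j
  · intro μ hμ
    exact roots_pow_eq_one _ _ hpow μ hμ
  · rw [← htr, h0]

end Cfsg.Agent.S4558
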