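import Cfsg.Statements.S4566
import Cfsg.Agent.Lib.Helper24.Central
-- import your own Cfsg.Agent.* helpers here

set_option autoImplicit false
open Cfsg

namespace Cfsg.Agent.S4566

open Cfsg.Agent.Lib.Helper24 Cfsg.Agent.Lib.Helper2 Cfsg.Agent.Lib.Helper6

/-- Let N be a central subgroup of the finite group G, ψ a faithful irreducible (hence degree-one) character of N, and χ an irreducible character of G whose restriction to N contains ψ. If g ∈ G and some x ∈ G has commutator x⁻¹ g⁻¹ x g in N but different from 1, then χ g = 0. -/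
theorem result {G : Type*} [Group G] [Fintype G] (N : Subgroup G) [Fintype N] (hN : N ≤ Subgroup.center G) (ψ : Cfsg.IrrCharacter ↥N) (hfaith : ∀ n : ↥N, (ψ : ↥N → ℂ) n = (ψ : ↥N → ℂ) 1 → n = 1) (χ : Cfsg.IrrCharacter G) (hover : Cfsg.classInner (fun n : ↥N => (χ : G → ℂ) n) (ψ : ↥N → ℂ) ≠ 0) (g x : G) (hcomm : x⁻¹ * g⁻¹ * x * g ∈ N) (hne : x⁻¹ * g⁻¹ * x * g ≠ 1) : (χ : G → ℂ) g = 0 := by
  classical
  have h10 : (χ : G → ℂ) 1 ≠ 0 := irr_one_ne_zero χ.2
  set c := centralHom χ.2 N hN with hc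
  have hcirr : IsIrrCharacter ↥N (fun n => ((c.toHomUnits n : ℂˣ) : ℂ)) :=
    isIrrCharacter_of_hom c.toHomUnits
  have hcval : ∀ n : ↥N, ((c.toHomUnits n : ℂˣ) : ℂ) = (χ : G → ℂ) n / (χ : G → ℂ) 1 := by
    intro n
    rw [MonoidHom.coe_toHomUnits, hc, centralHom_apply]
  have hres : (fun n : ↥N => (χ : G → ℂ) n) =
      (χ : G → ℂ) 1 • (fun n => ((c.toHomUnits n : ℂˣ) : ℂ)) := by
    funext n
    simp only [Pi.smul_apply, smul_eq_mul, hcval]
    field_simp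
  rw [hres, classInner_smul_left, classInner_irr hcirr ψ.2] at hover
  have hψ : (fun n => ((c.toHomUnits n : ℂˣ) : ℂ)) = (ψ : ↥N → ℂ) := by
    by_contra hne
    rw [if_neg hne, mul_zero] at hover
    exact hover rfl
  set z : G := x⁻¹ * g⁻¹ * x * g with hz
  have hzc : z⁻¹ ∈ Subgroup.center G := hN (N.inv_mem hcomm)
  have h1 : x⁻¹ * g * (x⁻¹)⁻¹ = z⁻¹ * g := by
    rw [← Subgroup.mem_center_iff.mp hzc g, hz]; group
  have h2 : (χ : G → ℂ) g = (χ : G → ℂ) (z⁻¹ * g) := by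
    rw [← h1]
    exact (irr_isClassFunction χ.2 g x⁻¹).symm
  rw [central_mul χ.2 hzc] at h2
  by_contra hg0
  have h3 : (χ : G → ℂ) z⁻¹ / (χ : G → ℂ) 1 = 1 := by
    have h4 : (χ : G → ℂ) g * ((χ : G → ℂ) z⁻¹ / (χ : G → ℂ) 1 - 1) = 0 := by
      linear_combination -h2
    rcases mul_eq_zero.mp h4 with h5 | h5
    · exact absurd h5 hg0
    · exact sub_eq_zero.mp h5
  have h6 : (ψ : ↥N → ℂ) ⟨z⁻¹, N.inv_mem hcomm⟩ = (ψ : ↥N → ℂ) 1 := by
    rw [← hψ]
    simp only [hcval]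
    rw [h3]
    simp [h10]
  have h7 := hfaith _ h6
  have h8 : z⁻¹ = 1 := congrArg Subtype.val h7
  exact hne (inv_eq_one.mp h8)

end Cfsg.Agent.S4566
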