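import Mathlib
import Cfsg.Statements.S4571
import Cfsg.Agent.Lib.Helper6.CentralProd5

set_option autoImplicit false
open Cfsg
open Cfsg.Agent.Lib.Helper6 Cfsg.Agent.Lib.Helper2
open scoped ComplexConjugate Classical

attribute [local instance] irrFintype

namespace Cfsg.Agent.S4571

/-- Let Q be a normal p-subgroup of the finite group G with G = Q·C_G(Q), and M a maximal ideal of the algebraic integers containing p. Then the principal p-blocks of G and of G/Q have the same p-regular rank (the same number of irreducible Brauer characters). -/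
theorem result {G : Type*} [Group G] [Finite G] (p : ℕ) [Fact p.Prime] (M : Ideal Cfsg.AlgInt) (hM : Cfsg.IsPModular p M) (Q : Subgroup G) [Q.Normal] (hQ : IsPGroup p Q) (hsup : Q ⊔ Subgroup.centralizer (Q : Set G) = ⊤) : Cfsg.blockRank p (Cfsg.principalBlock M G) = Cfsg.blockRank p (Cfsg.principalBlock M (G ⧸ Q)) := by
  let _ := Fintype.ofFinite G
  let _ := Fintype.ofFinite (G ⧸ Q)
  have hreg := regCent_of_sup hM.1 hQ hsup
  rw [blockRank_eq_deflSet Q hM hQ hreg isPBlock_principalBlock,
    deflSet_principalBlock Q hM hQ hreg]

end Cfsg.Agent.S4571
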