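import Cfsg.Statements.S4574
import Cfsg.Agent.Lib.Helper24.Zeros
-- import your own Cfsg.Agent.* helpers here

set_option autoImplicit false
open Cfsg

namespace Cfsg.Agent.S4574

open Cfsg.Agent.Lib.Helper24 Cfsg.Agent.Lib.Helper2 Cfsg.Agent.Lib.Helper6

/-- Let χ be an irreducible character of the finite group G, of degree d, and let Z(χ) be the set of elements g with |χ g| = d (the centre of χ). Then χ vanishes on at least (d ^ 2 - 1) · |Z(χ)| elements of G, with equality when every value |χ g| is 0, 1 or d. -/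
theorem result {G : Type*} [Group G] [Fintype G] [DecidableEq G] (χ : G → ℂ) (hχ : Cfsg.IsIrrCharacter G χ) : (Cfsg.charDegree χ ^ 2 - 1) * (Finset.univ.filter (fun g : G => ‖χ g‖ = (Cfsg.charDegree χ : ℝ))).card ≤ (Finset.univ.filter (fun g : G => χ g = 0)).card ∧ ((∀ g : G, ‖χ g‖ = 0 ∨ ‖χ g‖ = 1 ∨ ‖χ g‖ = (Cfsg.charDegree χ : ℝ)) → (Cfsg.charDegree χ ^ 2 - 1) * (Finset.univ.filter (fun g : G => ‖χ g‖ = (Cfsg.charDegree χ : ℝ))).card = (Finset.univ.filter (fun g : G => χ g = 0)).card) := by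
  refine ⟨card_zeros_ge hχ, ?_⟩
  intro hval
  have hpos := charDegree_pos hχ
  have hpart := card_partition hχ
  have hsum := sum_norm_sq hχ
  -- compute the sum of squares
  have hterm : ∀ g : G, ‖χ g‖ ^ 2 =
      (if ‖χ g‖ = (charDegree χ : ℝ) then (charDegree χ : ℝ) ^ 2 else 0) +
      (if ¬ ‖χ g‖ = (charDegree χ : ℝ) ∧ ¬ χ g = 0 then 1 else 0) := by
    intro g
    by_cases h1 : ‖χ g‖ = (charDegree χ : ℝ)
    · rw [if_pos h1, if_neg (fun h => h.1 h1), add_zero, h1]
    · by_cases h2 : χ g = 0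
      · rw [if_neg h1, if_neg (fun h => h.2 h2), h2]; simp
      · rw [if_neg h1, if_pos ⟨h1, h2⟩, zero_add]
        rcases hval g with h | h | h
        · exact absurd (norm_eq_zero.mp h) h2
        · rw [h]; norm_num
        · exact absurd h h1
  simp only [hterm] at hsum
  rw [Finset.sum_add_distrib, ← Finset.sum_filter, ← Finset.sum_filter, Finset.sum_const,
    Finset.sum_const, nsmul_eq_mul, nsmul_eq_mul, mul_one] at hsum
  have h5 : (Finset.univ.filter (fun g : G => ‖χ g‖ = (charDegree χ : ℝ))).card *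
      charDegree χ ^ 2 +
      (Finset.univ.filter (fun g : G => ¬ ‖χ g‖ = (charDegree χ : ℝ) ∧ ¬ χ g = 0)).card =
      Nat.card G := by
    exact_mod_cast hsum
  have h3 : 1 ≤ charDegree χ ^ 2 := Nat.one_le_pow _ _ hpos
  obtain ⟨e, he⟩ : ∃ e, charDegree χ ^ 2 = e + 1 := ⟨charDegree χ ^ 2 - 1, by omega⟩
  rw [he] at h5 ⊢
  rw [Nat.add_sub_cancel]
  rw [mul_add, mul_one] at h5
  rw [mul_comm]
  omega

end Cfsg.Agent.S4574
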