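import Cfsg.Statements.S4710
import Mathlib
import Cfsg.Agent.Lib.Helper23.BrauerFeit

set_option autoImplicit false
open Cfsg

namespace Cfsg.Agent.S4710

open Cfsg.Agent.Lib.Helper2 Cfsg.Agent.Lib.Helper6 Cfsg.Agent.Lib.Helper23.RegInner
open Cfsg.Agent.Lib.Helper23.BrauerFeit
attribute [local instance] irrFintype

theorem height_add_two_le {G : Type*} [Group G] [Fintype G] (p : ℕ) [Fact p.Prime]
    (M : Ideal Cfsg.AlgInt) (hM : Cfsg.IsPModular p M) (B : Set (Cfsg.IrrCharacter G))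
    (hB : Cfsg.IsPBlock M B) (χ : Cfsg.IrrCharacter G) (hχ : χ ∈ B)
    (h0 : 0 < Cfsg.blockHeight p B (χ : G → ℂ)) :
    Cfsg.blockHeight p B (χ : G → ℂ) + 2 ≤ Cfsg.blockDefect p B := by
  classical
  have hpr : p.Prime := Fact.out
  have h1 := dvd_ll_self_of_height_pos p hM hB hχ h0
  have h2 := ll_self_pos p χ
  have h3 : (p : ℤ) ≤ ll p χ χ := Int.le_of_dvd h2 h1
  have hsum := sum_ll_sq p hχ
  have h4 : (ll p χ χ) ^ 2 ≤ ∑ ψ : Cfsg.IrrCharacter G, (ll p χ ψ) ^ 2 :=
    Finset.single_le_sum (f := fun ψ => (ll p χ ψ) ^ 2) (fun ψ _ => sq_nonneg _) (Finset.mem_univ χ)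
  rw [hsum] at h4
  have h5 : ll p χ χ ≤ ((p ^ (Cfsg.blockDefect p B - Cfsg.blockHeight p B (χ : G → ℂ)) : ℕ) : ℤ) := by
    nlinarith
  have h6 : Cfsg.blockHeight p B (χ : G → ℂ) < Cfsg.blockDefect p B := by
    by_contra hc
    rw [Nat.sub_eq_zero_of_le (not_lt.1 hc), pow_zero] at h5
    have := hpr.two_le
    push_cast at h5
    omega
  have h7 := ll_self_lt p hχ h6
  have h8 : ((p ^ 1 : ℕ) : ℤ) < ((p ^ (Cfsg.blockDefect p B - Cfsg.blockHeight p B (χ : G → ℂ)) : ℕ) : ℤ) := by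
    rw [pow_one]; omega
  have h9 : p ^ 1 < p ^ (Cfsg.blockDefect p B - Cfsg.blockHeight p B (χ : G → ℂ)) := by
    exact_mod_cast h8
  have h10 := (Nat.pow_lt_pow_iff_right hpr.one_lt).1 h9
  omega

/-- Let p be a prime, M a maximal ideal of the algebraic integers containing p, and B a p-block of defect d of the finite group G containing k irreducible characters. If B contains a character of positive height then 2k ≤ p^(2d − 2); and every character in B has height 0 when d ≤ 1 and height at most d − 2 when d ≥ 2. -/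
theorem result {G : Type*} [Group G] [Finite G] (p : ℕ) [Fact p.Prime] (M : Ideal Cfsg.AlgInt) (hM : Cfsg.IsPModular p M) (B : Set (Cfsg.IrrCharacter G)) (hB : Cfsg.IsPBlock M B) (d : ℕ) (hd : Cfsg.blockDefect p B = d) : ((∃ χ ∈ B, 0 < Cfsg.blockHeight p B (χ : G → ℂ)) → 2 * Nat.card B ≤ p ^ (2 * d - 2)) ∧ ∀ χ ∈ B, (d ≤ 1 → Cfsg.blockHeight p B (χ : G → ℂ) = 0) ∧ (2 ≤ d → Cfsg.blockHeight p B (χ : G → ℂ) ≤ d - 2) := by
  classical
  cases nonempty_fintype G
  have := IsPModular.isPrime hM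
  have hpr : p.Prime := Fact.out
  subst hd
  set d := Cfsg.blockDefect p B with hd
  constructor
  · rintro ⟨ξ, hξ, hξ0⟩
    obtain ⟨χ, hχ, h0⟩ := exists_height_zero p (IsPBlock.nonempty hB)
    have hh := height_add_two_le p M hM B hB ξ hξ hξ0
    rw [← hd] at hh
    set h := Cfsg.blockHeight p B (ξ : G → ℂ) with hhdef
    set S : Finset (Cfsg.IrrCharacter G) := Finset.univ.filter (· ∈ B) with hSdef
    have hN : Nat.card B = S.card := by
      rw [Nat.card_eq_fintype_card, Fintype.card_subtype]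
    set S0 := S.filter (fun ψ : Cfsg.IrrCharacter G => Cfsg.blockHeight p B (ψ : G → ℂ) = 0) with hS0
    set S1 := S.filter (fun ψ : Cfsg.IrrCharacter G => ¬ Cfsg.blockHeight p B (ψ : G → ℂ) = 0) with hS1
    have hcard : S0.card + S1.card = S.card := by
      rw [hS0, hS1]
      exact Finset.card_filter_add_card_filter_not (s := S) (fun ψ : Cfsg.IrrCharacter G => Cfsg.blockHeight p B (ψ : G → ℂ) = 0)
    -- height zero characters
    have hA : (4 * (S0.card : ℤ)) ≤ ((p ^ (d - h) : ℕ) : ℤ) ^ 2 := by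
      have hsum := sum_ll_sq p hξ
      rw [← hd, ← hhdef] at hsum
      have h1 : (S0.card : ℤ) ≤ ∑ ψ ∈ S0, (ll p ξ ψ) ^ 2 := by
        rw [Finset.card_eq_sum_ones]
        push_cast
        apply Finset.sum_le_sum
        intro ψ hψ
        rw [hS0, Finset.mem_filter, hSdef, Finset.mem_filter] at hψ
        have h2 := ll_ne_zero_of_height_zero_right p hM hB hξ hψ.1.2 hψ.2
        have : 0 < (ll p ξ ψ) ^ 2 := by positivity
        omega
      have h2 : ∑ ψ ∈ S0, (ll p ξ ψ) ^ 2 ≤ ∑ ψ ∈ Finset.univ.erase ξ, (ll p ξ ψ) ^ 2 := by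
        apply Finset.sum_le_sum_of_subset_of_nonneg
        · intro ψ hψ
          rw [hS0, Finset.mem_filter] at hψ
          rw [Finset.mem_erase]
          refine ⟨?_, Finset.mem_univ _⟩
          rintro rfl
          omega
        · intro i _ _; positivity
      rw [← Finset.add_sum_erase _ _ (Finset.mem_univ ξ)] at hsum
      nlinarith [sq_nonneg (((p ^ (d - h) : ℕ) : ℤ) - 2 * ll p ξ ξ)]
    have hB1 : (4 * ((p : ℤ) ^ 2 * (S1.card : ℤ))) ≤ ((p ^ d : ℕ) : ℤ) ^ 2 := by
      have hsum := sum_ll_sq p hχ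
      rw [h0, Nat.sub_zero, ← hd] at hsum
      have h1 : (p : ℤ) ^ 2 * (S1.card : ℤ) ≤ ∑ ψ ∈ S1, (ll p χ ψ) ^ 2 := by
        rw [Finset.card_eq_sum_ones]
        push_cast
        rw [Finset.mul_sum]
        apply Finset.sum_le_sum
        intro ψ hψ
        rw [hS1, Finset.mem_filter, hSdef, Finset.mem_filter] at hψ
        obtain ⟨h2, h3⟩ := ll_ne_zero_of_height_zero_left p hM hB hχ h0 hψ.1.2
        have h4 : (p : ℤ) ∣ ll p χ ψ := by
          apply Dvd.dvd.trans _ h3
          push_cast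
          exact dvd_pow_self _ hψ.2
        obtain ⟨c, hc⟩ := h4
        have hc0 : c ≠ 0 := by
          rintro rfl
          exact h2 (by rw [hc, mul_zero])
        rw [hc, mul_pow, mul_one]
        have h3 : (1 : ℤ) ≤ c ^ 2 := by
          have : 0 < c ^ 2 := by positivity
          omega
        have h4 : (0 : ℤ) ≤ (p : ℤ) ^ 2 := by positivity
        nlinarith
      have h2 : ∑ ψ ∈ S1, (ll p χ ψ) ^ 2 ≤ ∑ ψ ∈ Finset.univ.erase χ, (ll p χ ψ) ^ 2 := by
        apply Finset.sum_le_sum_of_subset_of_nonneg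
        · intro ψ hψ
          rw [hS1, Finset.mem_filter] at hψ
          rw [Finset.mem_erase]
          refine ⟨?_, Finset.mem_univ _⟩
          rintro rfl
          exact hψ.2 h0
        · intro i _ _; positivity
      rw [← Finset.add_sum_erase _ _ (Finset.mem_univ χ)] at hsum
      nlinarith [sq_nonneg (((p ^ d : ℕ) : ℤ) - 2 * ll p χ χ)]
    have hA' : 4 * S0.card ≤ p ^ (2 * d - 2) := by
      have h1 : 4 * S0.card ≤ (p ^ (d - h)) ^ 2 := by exact_mod_cast hA
      apply h1.trans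
      rw [← pow_mul]
      exact Nat.pow_le_pow_right hpr.pos (by omega)
    have hB' : 4 * S1.card ≤ p ^ (2 * d - 2) := by
      have h1 : 4 * (p ^ 2 * S1.card) ≤ (p ^ d) ^ 2 := by exact_mod_cast hB1
      have h2 : (p ^ d) ^ 2 = p ^ 2 * p ^ (2 * d - 2) := by
        rw [← pow_mul, ← pow_add]
        congr 1
        omega
      rw [h2] at h1
      have h3 : p ^ 2 * (4 * S1.card) ≤ p ^ 2 * p ^ (2 * d - 2) := by
        calc p ^ 2 * (4 * S1.card) = 4 * (p ^ 2 * S1.card) := by ring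
          _ ≤ _ := h1
      exact Nat.le_of_mul_le_mul_left h3 (pow_pos hpr.pos 2)
    rw [hN]
    omega
  · intro χ hχ
    rcases Nat.eq_zero_or_pos (Cfsg.blockHeight p B (χ : G → ℂ)) with h | h
    · rw [h]
      exact ⟨fun _ => rfl, fun _ => Nat.zero_le _⟩
    · have hh := height_add_two_le p M hM B hB χ hχ h
      rw [← hd] at hh
      constructor
      · intro h1; omega
      · intro h1; omega

end Cfsg.Agent.S4710
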