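import Cfsg.Statements.S4575
import Mathlib
import Cfsg.Agent.Lib.Helper23.Contrib9
import Cfsg.Agent.S0908
import Cfsg.Agent.S4710

set_option autoImplicit false
open Cfsg

namespace Cfsg.Agent.S4575

open Cfsg.Agent.Lib.Helper2 Cfsg.Agent.Lib.Helper6 Cfsg.Agent.Lib.Helper23.Contrib
open scoped Classical
attribute [local instance] irrFintype

/-- Let B be a 2-block of the finite group G (relative to a maximal ideal M of the algebraic integers containing 2) of defect d with defect group D. Let z be an element of D commuting with every element of D, and let b be a block of the centralizer of z with defect group D that induces B (a major subsection (z, b)). If the number of irreducible characters in B exceeds the 2-regular rank of b by at most three, then B contains at most 2 ^ d irreducible characters. -/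
theorem result {G : Type*} [Group G] [Finite G] (M : Ideal Cfsg.AlgInt) (hM : Cfsg.IsPModular 2 M) (B : Set (Cfsg.IrrCharacter G)) (hB : Cfsg.IsPBlock M B) (D : Subgroup G) (hD : Cfsg.IsDefectGroup 2 M B D) (z : G) (hzD : z ∈ D) (hzc : ∀ d ∈ D, d * z = z * d) (b : Set (Cfsg.IrrCharacter ↥(Subgroup.centralizer ({z} : Set G)))) (hb : Cfsg.IsInducedBlock M (Subgroup.centralizer ({z} : Set G)) b B) (hbD : Cfsg.IsDefectGroup 2 M b (D.subgroupOf (Subgroup.centralizer ({z} : Set G)))) (h : Nat.card B ≤ Cfsg.blockRank 2 b + 3) : Nat.card B ≤ 2 ^ Cfsg.blockDefect 2 B := by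
  cases nonempty_fintype G
  have := IsPModular.isPrime hM
  have hcardD := Cfsg.Agent.S0908.result 2 M hM B hB D hD
  have hcardb := Cfsg.Agent.S0908.result 2 M hM b hb.1 _ hbD
  have hz2 : ∃ j : ℕ, orderOf z = 2 ^ j := by
    have h1 : orderOf z ∣ Nat.card D := by
      have := orderOf_dvd_natCard (⟨z, hzD⟩ : D)
      rwa [Subgroup.orderOf_mk] at this
    rw [hcardD] at h1
    obtain ⟨j, -, hj⟩ := (Nat.dvd_prime_pow Nat.prime_two).mp h1
    exact ⟨j, hj⟩
  have hx : IsCenOf 2 (cenElt z) := isCenOf_cenElt hz2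
  have hle : D ≤ Subgroup.centralizer ({z} : Set G) := by
    intro g hg
    rw [Subgroup.mem_centralizer_singleton_iff]
    exact hzc g hg
  have hdd : Cfsg.blockDefect 2 b = Cfsg.blockDefect 2 B := by
    have h1 : Nat.card (D.subgroupOf (Subgroup.centralizer ({z} : Set G))) = Nat.card D :=
      Nat.card_congr (Subgroup.subgroupOfEquivOfLe hle).toEquiv
    rw [hcardb, hcardD] at h1
    exact Nat.pow_right_injective (le_refl 2) h1
  obtain ⟨a, hsum, h0, h1⟩ := major_data hM hx hb hdd
  set s : Finset (Cfsg.IrrCharacter G) := Finset.univ.filter (· ∈ B) with hs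
  have hmem : ∀ χ ∈ s, χ ∈ B := fun χ hχ => (Finset.mem_filter.mp hχ).2
  have hcard : Nat.card B = s.card := by
    rw [Nat.card_eq_fintype_card, Fintype.card_subtype]
  rw [hcard] at h ⊢
  have key : (s.card : ℤ) ≤ 2 ^ Cfsg.blockDefect 2 B := by
    by_cases hd0 : 0 < Cfsg.blockDefect 2 B
    · refine arith_card_sub_rank s (fun χ => Cfsg.blockHeight 2 B (χ : G → ℂ)) a _ _ hd0 h hsum
        (fun χ hχ hχ0 => ⟨(h0 χ (hmem χ hχ) hχ0).1, (h0 χ (hmem χ hχ) hχ0).2.2.2 hd0⟩)
        (fun χ hχ hpos => (h1 χ (hmem χ hχ) hpos).2.2 ?_)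
      have h2 := (Cfsg.Agent.S4710.result 2 M hM B hB _ rfl).2 χ (hmem χ hχ)
      have hpos' : 0 < Cfsg.blockHeight 2 B (χ : G → ℂ) := hpos
      by_cases hd1 : Cfsg.blockDefect 2 B ≤ 1
      · have := h2.1 hd1
        omega
      · have := h2.2 (by omega)
        omega
    · have hd0' : Cfsg.blockDefect 2 B = 0 := by omega
      obtain ⟨ψ, hψ, hψ0⟩ := Cfsg.Agent.Lib.Helper23.BrauerFeit.exists_height_zero 2
        (IsPBlock.nonempty hB)
      obtain ⟨-, h2, h3, -⟩ := h0 ψ hψ hψ0
      rw [hd0', pow_zero] at h2 h3 ⊢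
      have hc : (s.card : ℤ) ≤ ∑ χ ∈ s, ((2 : ℤ) ^ Cfsg.blockHeight 2 B (χ : G → ℂ)) ^ 2 := by
        have : (s.card : ℤ) = ∑ _j ∈ s, (1 : ℤ) := by simp
        rw [this]
        refine Finset.sum_le_sum fun j _ => ?_
        have : (1 : ℤ) ≤ 2 ^ Cfsg.blockHeight 2 B (j : G → ℂ) := one_le_pow₀ (by norm_num)
        nlinarith
      linarith
  exact_mod_cast key

end Cfsg.Agent.S4575
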