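import Cfsg.Statements.S4580
import Cfsg.Agent.Lib.Helper23.RealBlock
import Cfsg.Agent.Lib.Helper13.Clifford4
import Cfsg.Agent.Lib.Helper6.Height
import Cfsg.Agent.Lib.Helper6.LinChar

set_option autoImplicit false
open Cfsg
open Cfsg.Agent.Lib.Helper2 Cfsg.Agent.Lib.Helper6 Cfsg.Agent.Lib.Helper23.RealBlock Cfsg.Agent.Lib.Helper24
open scoped ComplexConjugate

namespace Cfsg.Agent.S4580

attribute [local instance] irrFintype

theorem centralChar_conj {G : Type*} [Group G] [Finite G] {χ : G → ℂ} (hχ : IsCharacter G χ) (g : G) :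
    centralChar (fun x => conj (χ x)) g = centralChar χ g⁻¹ := by
  haveI := Fintype.ofFinite G
  unfold centralChar
  rw [centralizer_inv, IsCharacter.apply_inv hχ g]
  have h1 : conj (χ 1) = χ 1 := by
    rw [← charDegree_cast hχ]; simp
  show _ * conj (χ g) / conj (χ 1) = _
  rw [h1]

/-- Let N be a normal subgroup of the finite group G, M a maximal ideal of the algebraic integers containing 2, and θ a real-valued irreducible character of N of odd degree that extends to G (some irreducible character of G restricts to θ). Then θ has an extension to G lying in the principal 2-block of G. -/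
theorem result {G : Type*} [Group G] [Finite G] (N : Subgroup G) [N.Normal] (M : Ideal Cfsg.AlgInt) (hM : Cfsg.IsPModular 2 M) (θ : Cfsg.IrrCharacter N) (hreal : ∀ n : N, ((θ : N → ℂ) n).im = 0) (hodd : Odd (Cfsg.charDegree (θ : N → ℂ))) (hext : ∃ η : Cfsg.IrrCharacter G, ∀ n : N, (η : G → ℂ) n = (θ : N → ℂ) n) :
    ∃ η : Cfsg.IrrCharacter G, (∀ n : N, (η : G → ℂ) n = (θ : N → ℂ) n) ∧ η ∈ Cfsg.principalBlock M G := by
  classical
  haveI := Fintype.ofFinite G
  haveI := IsPModular.isPrime hM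
  obtain ⟨η₀, hη₀⟩ := hext
  have hres : (fun n : N => (η₀ : G → ℂ) n) = (θ : N → ℂ) := funext hη₀
  have hθconj : ∀ n : N, conj ((θ : N → ℂ) n) = (θ : N → ℂ) n := fun n =>
    Complex.conj_eq_iff_im.2 (hreal n)
  -- Gallagher
  have hgal := Cfsg.Agent.Lib.Helper13.gallagher N η₀.2 (by rw [hres]; exact θ.2)
  have hmem : ((conjI η₀ : IrrCharacter G) : G → ℂ) ∈ {ψ : G → ℂ | IsIrrCharacter G ψ ∧
      classInner (fun n : N => ψ n) (fun n : N => (η₀ : G → ℂ) n) ≠ 0} := by
    refine ⟨(conjI η₀).2, ?_⟩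
    have : (fun n : N => ((conjI η₀ : IrrCharacter G) : G → ℂ) n) = (θ : N → ℂ) := by
      funext n
      show conj ((η₀ : G → ℂ) n) = _
      rw [hη₀, hθconj]
    rw [this, hres, classInner_irr θ.2 θ.2, if_pos rfl]
    exact one_ne_zero
  obtain ⟨β, ⟨hβirr, hβker⟩, hβ⟩ := hgal.surjOn hmem
  have hβ' : ∀ g, β g * (η₀ : G → ℂ) g = conj ((η₀ : G → ℂ) g) := fun g => congrFun hβ g
  have hη₀1 : (η₀ : G → ℂ) 1 ≠ 0 := irr_one_ne_zero η₀.2
  have hη₀1c : conj ((η₀ : G → ℂ) 1) = (η₀ : G → ℂ) 1 := by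
    rw [← charDegree_cast (IsIrrCharacter.isCharacter η₀.2)]; simp
  have hβ1 : β 1 = 1 := by
    have := hβ' 1
    rw [hη₀1c] at this
    exact mul_right_cancel₀ hη₀1 (by rw [this, one_mul])
  obtain ⟨f, rfl⟩ := exists_hom_of_linear (IsIrrCharacter.isCharacter hβirr) hβ1
  obtain ⟨a, m, hm, hn⟩ := Nat.exists_eq_two_pow_mul_odd (Nat.card_pos (α := G)).ne'
  obtain ⟨t, ht⟩ := hm
  -- s = t + 1
  let η : IrrCharacter G := ⟨linCoe G (f ^ (t + 1)) * (η₀ : G → ℂ),
    Cfsg.Agent.Lib.Helper13.IsIrrCharacter.linear_mul (isCharacter_linCoe _) (linCoe_one_apply _) η₀.2⟩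
  have hηapp : ∀ g, (η : G → ℂ) g = ((f g : ℂˣ) : ℂ) ^ (t + 1) * (η₀ : G → ℂ) g := by
    intro g
    show linCoe G (f ^ (t + 1)) g * _ = _
    rw [linCoe_apply]
    simp
  have hfN : ∀ n ∈ N, ((f n : ℂˣ) : ℂ) = 1 := by
    intro n hn'
    have := hβker n hn'
    rw [hβ1] at this
    exact this
  have hfpow : ∀ g, ((f g : ℂˣ) : ℂ) ^ (Nat.card G) = 1 := by
    intro g
    rw [← Units.val_pow_eq_pow_val, ← map_pow, pow_card_eq_one', map_one, Units.val_one]
  have hfconj : ∀ g, ((f g : ℂˣ) : ℂ) * conj ((f g : ℂˣ) : ℂ) = 1 := fun g =>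
    Cfsg.Agent.Lib.Helper13.mul_conj_of_linear (isCharacter_linCoe f) (linCoe_one_apply f) g
  have hηext : ∀ n : N, (η : G → ℂ) n = (θ : N → ℂ) n := by
    intro n
    rw [hηapp, hfN n n.2, one_pow, one_mul, hη₀]
  refine ⟨η, hηext, ?_⟩
  -- conj η = η * ε
  have hconj : ∀ g, conj ((η : G → ℂ) g) = (η : G → ℂ) g * (conj ((f g : ℂˣ) : ℂ)) ^ m := by
    intro g
    rw [hηapp, map_mul, map_pow, ← hβ' g, linCoe_apply, ht]
    set z := ((f g : ℂˣ) : ℂ) with hz
    have hzz := hfconj g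
    rw [← hz] at hzz
    have e1 : z ^ (t + 1) * (conj z) ^ (t + 1) = 1 := by rw [← mul_pow, hzz, one_pow]
    calc conj z ^ (t + 1) * (z * (η₀ : G → ℂ) g)
        = (z * conj z) * conj z ^ t * (η₀ : G → ℂ) g := by ring
      _ = conj z ^ t * (η₀ : G → ℂ) g := by rw [hzz, one_mul]
      _ = (z ^ (t + 1) * (conj z) ^ (t + 1)) * conj z ^ t * (η₀ : G → ℂ) g := by rw [e1, one_mul]
      _ = z ^ (t + 1) * (η₀ : G → ℂ) g * conj z ^ (2 * t + 1) := by ring
  have hε : ∀ g, ((conj ((f g : ℂˣ) : ℂ)) ^ m) ^ (2 ^ a) = 1 := by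
    intro g
    rw [← pow_mul, mul_comm, ← hn, ← map_pow, hfpow, map_one]
  set B := blockOf M (η : G → ℂ) with hBdef
  have hB : IsPBlock M B := ⟨η, rfl⟩
  have hηB : η ∈ B := mem_blockOf_self η
  have hsame : SameBlock M (η : G → ℂ) (fun g => conj ((η : G → ℂ) g)) := by
    intro g
    have h1 : centralChar (fun g => conj ((η : G → ℂ) g)) g
        = centralChar (η : G → ℂ) g * (conj ((f g : ℂˣ) : ℂ)) ^ m := by
      unfold centralChar
      have h11 : conj ((η : G → ℂ) 1) = (η : G → ℂ) 1 := by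
        rw [← charDegree_cast (IsIrrCharacter.isCharacter η.2)]; simp
      show _ * conj ((η : G → ℂ) g) / conj ((η : G → ℂ) 1) = _
      rw [h11, hconj g]
      ring
    rw [h1]
    have h2 : centralChar (η : G → ℂ) g - centralChar (η : G → ℂ) g * (conj ((f g : ℂˣ) : ℂ)) ^ m
        = - (centralChar (η : G → ℂ) g * ((conj ((f g : ℂˣ) : ℂ)) ^ m - 1)) := by ring
    rw [h2]
    exact MemLocalIdeal.neg (MemLocalIdeal.mul_left (centralChar_memLocalRing η.2 g)
      (sub_one_memLocalIdeal_of_pow_eq_one hM (hε g)))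
  have hstable : ∀ χ ∈ B, conjI χ ∈ B := by
    intro χ hχ
    have h1 : SameBlock M (η : G → ℂ) (χ : G → ℂ) := hχ
    have h2 : SameBlock M (fun g => conj ((η : G → ℂ) g)) (fun g => conj ((χ : G → ℂ) g)) := by
      intro g
      rw [centralChar_conj (IsIrrCharacter.isCharacter η.2),
        centralChar_conj (IsIrrCharacter.isCharacter χ.2)]
      exact h1 g⁻¹
    exact SameBlock.trans hsame h2
  have hdeg : charDegree (η : G → ℂ) = charDegree (θ : N → ℂ) := by
    unfold charDegree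
    have := hηext 1
    rw [← this]
    rfl
  have := eq_principalBlock_of_conj_stable hM hB hstable ⟨η, hηB, by rw [hdeg]; exact hodd⟩
  rw [← this]
  exact hηB

end Cfsg.Agent.S4580
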