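import Cfsg.Statements.S4582
import Mathlib

set_option autoImplicit false
open Cfsg

namespace Cfsg.Agent.S4582

open MulAction Subgroup

/-- The transfer of an element `x` of `H` is `ϕ x ^ index` modulo any subgroup `K` of the target which
absorbs the fusion of `H` in `G`. -/
theorem transfer_mod {G : Type*} [Group G] {H : Subgroup G} {A : Type*} [CommGroup A] (ϕ : H →* A)
    [H.FiniteIndex] (K : Subgroup A)
    (key : ∀ (y : H) (g : G) (h : g⁻¹ * y * g ∈ H), ϕ ⟨g⁻¹ * y * g, h⟩ * (ϕ y)⁻¹ ∈ K)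
    (x : H) : MonoidHom.transfer ϕ (x : G) * (ϕ x ^ H.index)⁻¹ ∈ K := by
  classical
  have : Fintype (G ⧸ H) := H.fintypeQuotientOfFiniteIndex
  have : Fintype (Quotient (orbitRel (zpowers (x : G)) (G ⧸ H))) := Fintype.ofFinite _
  rw [MonoidHom.transfer_eq_prod_quotient_orbitRel_zpowers_quot, index_eq_sum_minimalPeriod H (x : G),
    ← Finset.prod_pow_eq_pow_sum, ← Finset.prod_inv_distrib, ← Finset.prod_mul_distrib]
  apply Subgroup.prod_mem
  intro q _
  have := key (x ^ Function.minimalPeriod ((x : G) • ·) q.out) q.out.out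
    (by simpa using QuotientGroup.out_conj_pow_minimalPeriod_mem H (x : G) q.out)
  simpa using this

theorem main {G : Type*} [Group G] [Finite G] (N P : Subgroup G) [N.Normal] (hNP : N ⊔ P = ⊤)
    (hP2 : IsPGroup 2 P) (hidx : Odd P.index) {A : Type*} [CommGroup A] (ϕ : P →* A)
    (ha : ∀ x : P, (x : G) ∈ N → ϕ x ^ 2 = 1)
    (hb : ∀ x : P, (x : G) ^ 2 ∈ N ⊔ commutator G)
    (hc : ∃ m : ℕ, Odd m ∧ ∀ ψ : N →* A, ∀ n : N, ψ n ^ m = 1) :
    ∀ x : P, ϕ x ^ 2 = 1 := by
  obtain ⟨m, hm, hc⟩ := hc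
  intro x
  set V : G →* A := MonoidHom.transfer ϕ with hV
  set W : G →* A := (powMonoidHom m).comp V with hW
  have hN : N ≤ W.ker := by
    intro n hn
    rw [MonoidHom.mem_ker]
    exact hc (V.comp N.subtype) ⟨n, hn⟩
  have hcomm : commutator G ≤ W.ker := Abelianization.commutator_subset_ker W
  have hx2 : (x : G) ^ 2 ∈ W.ker := (sup_le hN hcomm) (hb x)
  have hx2' : (V x ^ 2) ^ m = 1 := by
    have := MonoidHom.mem_ker.mp hx2
    simpa [hW] using this
  set K : Subgroup A := (N.subgroupOf P).map ϕ with hK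
  have hK2 : ∀ k ∈ K, k ^ 2 = 1 := by
    rintro k ⟨y, hy, rfl⟩
    exact ha y (Subgroup.mem_subgroupOf.mp hy)
  have key : ∀ (y : P) (g : G) (h : g⁻¹ * y * g ∈ P), ϕ ⟨g⁻¹ * y * g, h⟩ * (ϕ y)⁻¹ ∈ K := by
    intro y g h
    have hg : g ∈ P ⊔ N := by rw [sup_comm, hNP]; trivial
    rw [Subgroup.mem_sup_of_normal_right] at hg
    obtain ⟨u, hu, n, hn, rfl⟩ := hg
    set y' : P := (⟨u, hu⟩ : P)⁻¹ * y * ⟨u, hu⟩ with hy'
    have h1 : ϕ y' = ϕ y := by
      simp [hy', mul_comm]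
    have h2 : (⟨(u * n)⁻¹ * y * (u * n), h⟩ : P) * y'⁻¹ ∈ N.subgroupOf P := by
      rw [Subgroup.mem_subgroupOf]
      have : (((⟨(u * n)⁻¹ * y * (u * n), h⟩ : P) * y'⁻¹ : P) : G)
          = n⁻¹ * ((y' : G) * n * (y' : G)⁻¹) := by
        simp [hy', mul_assoc]
      rw [this]
      exact N.mul_mem (N.inv_mem hn) (‹N.Normal›.conj_mem n hn _)
    refine ⟨_, h2, ?_⟩
    rw [map_mul, map_inv, h1]
  have hk := transfer_mod ϕ K key x
  set k := MonoidHom.transfer ϕ (x : G) * (ϕ x ^ P.index)⁻¹ with hkdef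
  have hVx : V x = k * ϕ x ^ P.index := by
    simp [hkdef, hV]
  have h3 : (ϕ x ^ 2) ^ (P.index * m) = 1 := by
    have h4 : (V x ^ 2) ^ m = (k ^ 2) ^ m * (ϕ x ^ 2) ^ (P.index * m) := by
      rw [hVx, mul_pow, mul_pow]
      congr 1
      rw [← pow_mul, ← pow_mul, ← pow_mul]
      congr 1
      ring
    rw [hx2', hK2 k hk, one_pow, one_mul] at h4
    exact h4.symm
  obtain ⟨j, hj⟩ := hP2 x
  have h5 : (ϕ x ^ 2) ^ (2 ^ j) = 1 := by
    rw [← map_pow, ← map_pow, ← pow_mul, mul_comm, pow_mul, hj, one_pow, map_one]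
  have hcop : Nat.Coprime (P.index * m) (2 ^ j) := by
    apply Nat.Coprime.pow_right
    exact (hidx.mul hm).coprime_two_right
  have := pow_gcd_eq_one.mpr ⟨h3, h5⟩
  rwa [hcop.gcd_eq_one, pow_one] at this

theorem of_eq_one_iff {G : Type*} [Group G] (P : Subgroup G) (y : P) :
    Abelianization.of y = 1 ↔ (y : G) ∈ ⁅P, P⁆ := by
  rw [← MonoidHom.mem_ker, Abelianization.ker_of, ← Subgroup.map_subtype_commutator]
  constructor
  · intro h
    exact ⟨y, h, rfl⟩
  · rintro ⟨z, hz, hzy⟩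
    have : z = y := Subtype.ext hzy
    rwa [← this]

/-- Let N be a normal subgroup of the finite group G, P a Sylow 2-subgroup of G and Q = P ∩ N. Suppose that P/QP' and Q/Q' are elementary abelian (every square of an element of P lies in the subgroup generated by Q and the derived subgroup of P, and every square of an element of Q lies in the derived subgroup of Q), and that the commutator factor group N/N' has odd order. Then P/P' is elementary abelian. -/
theorem result {G : Type*} [Group G] [Finite G] (N : Subgroup G) [N.Normal] (P : Sylow 2 G)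
    (hP : ∀ x ∈ (P : Subgroup G), x ^ 2 ∈ ((P : Subgroup G) ⊓ N) ⊔ ⁅(P : Subgroup G), (P : Subgroup G)⁆)
    (hQ : ∀ x ∈ (P : Subgroup G) ⊓ N, x ^ 2 ∈ ⁅(P : Subgroup G) ⊓ N, (P : Subgroup G) ⊓ N⁆)
    (hodd : Odd (Nat.card (Abelianization N))) :
    ∀ x ∈ (P : Subgroup G), x ^ 2 ∈ ⁅(P : Subgroup G), (P : Subgroup G)⁆ := by
  intro x hx
  set P' : Subgroup G := (P : Subgroup G) with hP'
  set H : Subgroup G := N ⊔ P' with hH
  have hNH : N ≤ H := le_sup_left
  have hPH : P' ≤ H := le_sup_right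
  set ϕ : P'.subgroupOf H →* Abelianization P' :=
    Abelianization.of.comp (Subgroup.subgroupOfEquivOfLe hPH).toMonoidHom with hϕ
  have hϕ_apply : ∀ y : P'.subgroupOf H, ϕ y = Abelianization.of (⟨(y : H), y.2⟩ : P') := by
    intro y; rfl
  have h1 : N.subgroupOf H ⊔ P'.subgroupOf H = ⊤ := by
    rw [← Subgroup.subgroupOf_sup hNH hPH, Subgroup.subgroupOf_self]
  have h2 : IsPGroup 2 (P'.subgroupOf H) :=
    P.isPGroup'.of_equiv (Subgroup.subgroupOfEquivOfLe hPH).symm
  have h3 : Odd (P'.subgroupOf H).index := by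
    have h4 : P'.relIndex H * H.index = P'.index := Subgroup.relIndex_mul_index hPH
    have h5 : ¬ 2 ∣ P'.index := P.not_dvd_index
    have h6 : ¬ 2 ∣ P'.relIndex H := fun h => h5 (h4 ▸ Dvd.dvd.mul_right h _)
    exact Nat.odd_iff.mpr (by
      have : (P'.subgroupOf H).index = P'.relIndex H := rfl
      omega)
  have ha : ∀ y : P'.subgroupOf H, (y : H) ∈ N.subgroupOf H → ϕ y ^ 2 = 1 := by
    intro y hy
    rw [hϕ_apply, ← map_pow, of_eq_one_iff]
    have h7 : ((y : H) : G) ∈ P' ⊓ N := ⟨y.2, hy⟩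
    exact Subgroup.commutator_mono inf_le_left inf_le_left (hQ _ h7)
  have hb : ∀ y : P'.subgroupOf H, (y : H) ^ 2 ∈ N.subgroupOf H ⊔ commutator H := by
    intro y
    have h8 : (((y : H) ^ 2 : H) : G) ∈ (P' ⊓ N) ⊔ ⁅P', P'⁆ := hP _ y.2
    have h9 : ((P' ⊓ N) ⊔ ⁅P', P'⁆).subgroupOf H ≤ N.subgroupOf H ⊔ commutator H := by
      have h10 : ⁅P', P'⁆ ≤ ⁅H, H⁆ := Subgroup.commutator_mono hPH hPH
      have h10' : ⁅H, H⁆ ≤ H := by
        rw [← Subgroup.map_subtype_commutator]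
        exact Subgroup.map_subtype_le _
      rw [Subgroup.subgroupOf_sup (inf_le_right.trans hNH) (h10.trans h10')]
      apply sup_le_sup
      · intro z hz
        exact (Subgroup.mem_subgroupOf.mp hz).2
      · intro z hz
        have h12 : (z : G) ∈ ⁅H, H⁆ := h10 (Subgroup.mem_subgroupOf.mp hz)
        rw [← Subgroup.map_subtype_commutator] at h12
        obtain ⟨w, hw, hwz⟩ := h12
        have : w = z := Subtype.ext hwz
        rwa [← this]
    exact h9 h8
  have hc : ∃ m : ℕ, Odd m ∧ ∀ ψ : N.subgroupOf H →* Abelianization P', ∀ n : N.subgroupOf H,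
      ψ n ^ m = 1 := by
    refine ⟨_, hodd, ?_⟩
    intro ψ n
    set e := Subgroup.subgroupOfEquivOfLe hNH
    set ψ' : N →* Abelianization P' := ψ.comp e.symm.toMonoidHom with hψ'
    have h11 : ψ n = Abelianization.lift ψ' (Abelianization.of (e n)) := by
      simp [hψ']
    rw [h11, ← map_pow, pow_card_eq_one', map_one]
  have := main (N.subgroupOf H) (P'.subgroupOf H) h1 h2 h3 ϕ ha hb hc ⟨⟨x, hPH hx⟩, hx⟩
  rw [hϕ_apply, ← map_pow, of_eq_one_iff] at this
  exact this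

end Cfsg.Agent.S4582
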