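import Cfsg.Statements.S4583
import Mathlib
import Cfsg.Agent.Lib.Helper25.PrincipalReg2
import Cfsg.Agent.Lib.Helper13.CharTools

set_option autoImplicit false
open Cfsg

namespace Cfsg.Agent.S4583

open Cfsg.Agent.Lib.Helper2 Cfsg.Agent.Lib.Helper6 Cfsg.Agent.Lib.Helper24 Cfsg.Agent.Lib.Helper13
open Cfsg.Agent.Lib.Helper25
open scoped ComplexConjugate

attribute [local instance] irrFintype

/-- Let N be a normal subgroup of the finite group G, p a prime, M a maximal ideal of the algebraic integers containing p, and P a Sylow p-subgroup of G. Let θ be an irreducible character of N of degree prime to p lying in the principal p-block of N, and suppose θ extends to the subgroup NP (some irreducible character of NP restricts to θ). Then some irreducible character χ of G of degree prime to p in the principal p-block of G lies over θ (θ is a constituent of the restriction of χ to N). -/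
theorem result {G : Type*} [Group G] [Finite G] (N : Subgroup G) [N.Normal] (p : ℕ) [Fact p.Prime] (M : Ideal Cfsg.AlgInt) (hM : Cfsg.IsPModular p M) (P : Sylow p G)
    (θ : Cfsg.IrrCharacter N) (hθ : θ ∈ Cfsg.principalBlock M N) (hdeg : ¬ p ∣ Cfsg.charDegree (θ : N → ℂ))
    (hext : ∃ η : Cfsg.IrrCharacter ↥(N ⊔ (P : Subgroup G)), ∀ n : N, (η : ↥(N ⊔ (P : Subgroup G)) → ℂ) (Subgroup.inclusion le_sup_left n) = (θ : N → ℂ) n) :
    ∃ χ : Cfsg.IrrCharacter G, χ ∈ Cfsg.principalBlock M G ∧ ¬ p ∣ Cfsg.charDegree (χ : G → ℂ) ∧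
      haveI := Fintype.ofFinite N; Cfsg.classInner (fun n : N => (χ : G → ℂ) n) (θ : N → ℂ) ≠ 0 := by
  classical
  letI := Fintype.ofFinite G
  letI := Fintype.ofFinite N
  have hp : p.Prime := Fact.out
  obtain ⟨η, hη⟩ := hext
  obtain ⟨H, hHdef⟩ : ∃ H : Subgroup G, H = N ⊔ (P : Subgroup G) := ⟨_, rfl⟩
  subst hHdef
  letI : Fintype ↥(N ⊔ (P : Subgroup G)) := Fintype.ofFinite _
  have hreg : ∀ x : ↥(N ⊔ (P : Subgroup G)), ¬ p ∣ orderOf x → (x : G) ∈ N := by
    intro x hx
    have hx' : (x : G) ∈ ((N ⊔ (P : Subgroup G) : Subgroup G) : Set G) := x.2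
    rw [Subgroup.normal_mul] at hx'
    obtain ⟨n, hn, y, hy, hxy⟩ := Set.mem_mul.mp hx'
    rw [← QuotientGroup.eq_one_iff]
    have h1 : ((x : G) : G ⧸ N) = ((y : G) : G ⧸ N) := by
      rw [← hxy, QuotientGroup.mk_mul, (QuotientGroup.eq_one_iff n).mpr hn, one_mul]
    obtain ⟨k, hk⟩ := (IsPGroup.iff_orderOf.mp P.isPGroup') ⟨y, hy⟩
    have hk' : orderOf y = p ^ k := by rw [← hk, ← Subgroup.orderOf_coe]
    have h2 : orderOf ((x : G) : G ⧸ N) ∣ p ^ k := by
      rw [h1, ← hk']; exact orderOf_map_dvd (QuotientGroup.mk' N) y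
    have h3 : orderOf ((x : G) : G ⧸ N) ∣ orderOf (x : G) := orderOf_map_dvd (QuotientGroup.mk' N) _
    rw [Subgroup.orderOf_coe] at h3
    have h4 : Nat.Coprime (p ^ k) (orderOf x) :=
      Nat.Coprime.pow_left k ((Nat.Prime.coprime_iff_not_dvd hp).mpr hx)
    have h5 := Nat.eq_one_of_dvd_coprimes h4 h2 h3
    exact orderOf_eq_one_iff.mp h5
  have hηB : η ∈ principalBlock M ↥(N ⊔ (P : Subgroup G)) := by
    rw [PrincipalReg.mem_principalBlock_iff_sum hM]
    have h0 := (PrincipalReg.mem_principalBlock_iff_sum hM θ).mp hθ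
    have he : ∑ n : N, (if p ∣ orderOf n then (0 : ℂ) else (θ : N → ℂ) n) =
        ∑ x : ↥(N ⊔ (P : Subgroup G)), (if p ∣ orderOf x then (0 : ℂ) else
          (η : ↥(N ⊔ (P : Subgroup G)) → ℂ) x) := by
      apply Fintype.sum_of_injective (Subgroup.inclusion le_sup_left)
        (Subgroup.inclusion_injective _)
      · intro x hx
        by_cases hd : p ∣ orderOf x
        · rw [if_pos hd]
        · exfalso
          exact hx ⟨⟨x, hreg x hd⟩, rfl⟩
      · intro n
        have ho : orderOf (Subgroup.inclusion (le_sup_left : N ≤ N ⊔ (P : Subgroup G)) n) =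
            orderOf n := orderOf_injective _ (Subgroup.inclusion_injective _) n
        rw [ho, hη]
    rw [← he]
    exact h0
  have hdegη : ¬ p ∣ charDegree (η : ↥(N ⊔ (P : Subgroup G)) → ℂ) := by
    have h1 := charDegree_cast (IsIrrCharacter.isCharacter η.2)
    have h2 := charDegree_cast (IsIrrCharacter.isCharacter θ.2)
    have h3 := hη 1
    rw [map_one] at h3
    rw [h3, ← h2] at h1
    have h4 : charDegree (η : ↥(N ⊔ (P : Subgroup G)) → ℂ) = charDegree (θ : N → ℂ) := by
      exact_mod_cast h1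
    rw [h4]; exact hdeg
  have hH : (Nat.card ↥(N ⊔ (P : Subgroup G))).factorization p = (Nat.card G).factorization p := by
    apply le_antisymm
    · exact (Nat.factorization_le_iff_dvd Nat.card_pos.ne' Nat.card_pos.ne').mpr
        (Subgroup.card_subgroup_dvd_card _) p
    · apply (Nat.Prime.pow_dvd_iff_le_factorization hp Nat.card_pos.ne').mp
      rw [← Sylow.card_eq_multiplicity P]
      exact Subgroup.card_dvd_of_le le_sup_right
  obtain ⟨χ, hχB, hχd, hχ⟩ := PrincipalReg.exists_pprime_over hM _ hH η hηB hdegη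
  refine ⟨χ, hχB, hχd, ?_⟩
  have hχc := IsIrrCharacter.isCharacter χ.2
  rw [frobenius_reciprocity _ _ _ (IsCharacter.isClassFunction hχc), ← classInner_conj_symm] at hχ
  have hχ' : classInner (fun h : ↥(N ⊔ (P : Subgroup G)) => (χ : G → ℂ) h)
      (η : ↥(N ⊔ (P : Subgroup G)) → ℂ) ≠ 0 := by
    intro h0
    rw [h0, map_zero] at hχ
    exact hχ rfl
  have hΔ := isCharacter_sub_of_constituent (IsCharacter.restrict _ hχc) η.2 hχ'
  have hΔN := IsCharacter.comp_hom (Subgroup.inclusion (le_sup_left : N ≤ N ⊔ (P : Subgroup G))) hΔ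
  obtain ⟨m, hm⟩ := IsCharacter.classInner_nat hΔN (IsIrrCharacter.isCharacter θ.2)
  have hsplit : (fun n : N => (χ : G → ℂ) n) = (θ : N → ℂ) +
      (fun n : N => ((fun h : ↥(N ⊔ (P : Subgroup G)) => (χ : G → ℂ) h) -
        (η : ↥(N ⊔ (P : Subgroup G)) → ℂ))
        (Subgroup.inclusion (le_sup_left : N ≤ N ⊔ (P : Subgroup G)) n)) := by
    funext n
    simp only [Pi.add_apply, Pi.sub_apply, hη]
    simp
  show classInner (fun n : N => (χ : G → ℂ) n) (θ : N → ℂ) ≠ 0
  rw [hsplit, classInner_add_left, hm, classInner_irr θ.2 θ.2, if_pos rfl]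
  have : ((1 + m : ℕ) : ℂ) ≠ 0 := by exact_mod_cast (by omega : 1 + m ≠ 0)
  simpa using this

end Cfsg.Agent.S4583
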