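import Cfsg.Statements.S4586
import Cfsg.Agent.Lib.Helper17.AbIndexP
import Cfsg.Agent.Lib.Helper29.PSolvable2

set_option autoImplicit false
open Cfsg

namespace Cfsg.Agent.S4586

open Cfsg.Agent.Lib.Helper17 Cfsg.Agent.Lib.Helper4
open scoped commutatorElement

theorem ident {P : Type*} [Group P] [Finite P] (p : ℕ) [hp : Fact p.Prime]
    (N : Subgroup P) [hNn : N.Normal] (hN : N.index = p) (x : P) (hx : x ∉ N) :
    (commutator P).index * Nat.card (commutator N) = p *
      Nat.card {n : N // x * n * x⁻¹ * (n : P)⁻¹ ∈ (commutator N).map N.subtype} := by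
  obtain ⟨D, hDdef⟩ : ∃ D, D = (commutator N).map N.subtype := ⟨_, rfl⟩
  rw [← hDdef]
  have hDN : D ≤ N := by rw [hDdef]; exact Subgroup.map_subtype_le _
  have hDeq : D = ⁅N, N⁆ := by rw [hDdef]; exact Subgroup.map_subtype_commutator N
  haveI hDn : D.Normal := by rw [hDeq]; infer_instance
  have hDcard : Nat.card D = Nat.card (commutator N) := by
    rw [hDdef, Subgroup.card_map_of_injective N.subtype_injective]
  have hDP : D ≤ commutator P := by
    rw [hDeq, commutator_def]; exact Subgroup.commutator_mono le_top le_top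
  haveI hAn : (N.map (QuotientGroup.mk' D)).Normal :=
    Subgroup.Normal.map hNn _ (QuotientGroup.mk'_surjective D)
  have hA : IsMulCommutative ↥(N.map (QuotientGroup.mk' D)) := by
    rw [Cfsg.Agent.Lib.Helper4.isMulCommutative_iff]
    rintro _ ⟨n, hn, rfl⟩ _ ⟨m, hm, rfl⟩
    have h1 : ⁅n, m⁆ ∈ D := by rw [hDeq]; exact Subgroup.commutator_mem_commutator hn hm
    have h2 : QuotientGroup.mk' D ⁅n, m⁆ = 1 := (QuotientGroup.eq_one_iff _).mpr h1
    rw [map_commutatorElement, commutatorElement_eq_one_iff_mul_comm] at h2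
    exact h2
  have hAi : (N.map (QuotientGroup.mk' D)).index = p := by
    rw [Subgroup.index_map_eq N (QuotientGroup.mk'_surjective D) (by rw [QuotientGroup.ker_mk']; exact hDN)]
    exact hN
  have hxA : QuotientGroup.mk' D x ∉ N.map (QuotientGroup.mk' D) := by
    rintro ⟨n, hn, hnx⟩
    apply hx
    have h1 : n⁻¹ * x ∈ D := by
      rw [← QuotientGroup.eq]; exact hnx
    have h2 : x = n * (n⁻¹ * x) := by group
    rw [h2]; exact N.mul_mem hn (hDN h1)
  have hrange := commHom_range _ hA hAi hxA
  obtain ⟨ψ, hψ⟩ : ∃ ψ : ↥N →* (P ⧸ D), ψ = (commHom _ hA (QuotientGroup.mk' D x)).comp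
    ((QuotientGroup.mk' D).subgroupMap N) := ⟨_, rfl⟩
  have hψrange : ψ.range = commutator (P ⧸ D) := by
    rw [← hrange, hψ]
    apply le_antisymm
    · rintro _ ⟨n, rfl⟩
      exact ⟨_, rfl⟩
    · rintro _ ⟨a, rfl⟩
      obtain ⟨n, rfl⟩ := (QuotientGroup.mk' D).subgroupMap_surjective N a
      exact ⟨n, rfl⟩
  have hψapply : ∀ n : ↥N, ψ n = QuotientGroup.mk' D ((n : P) * x * (n : P)⁻¹ * x⁻¹) := by
    intro n
    rw [hψ]
    rfl
  have hker : Nat.card ψ.ker = Nat.card {n : N // x * n * x⁻¹ * (n : P)⁻¹ ∈ D} := by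
    apply Nat.card_congr
    apply Equiv.subtypeEquivRight
    intro n
    rw [MonoidHom.mem_ker, hψapply]
    have h1 : QuotientGroup.mk' D ((n : P) * x * (n : P)⁻¹ * x⁻¹) = 1
        ↔ (n : P) * x * (n : P)⁻¹ * x⁻¹ ∈ D := QuotientGroup.eq_one_iff _
    rw [h1, ← inv_mem_iff]
    have h2 : ((n : P) * x * (n : P)⁻¹ * x⁻¹)⁻¹ = x * n * x⁻¹ * (n : P)⁻¹ := by group
    rw [h2]
  have h1 := Subgroup.card_mul_index ψ.ker
  rw [Subgroup.index_ker, hψrange, hker] at h1
  have hcq : commutator (P ⧸ D) = (commutator P).map (QuotientGroup.mk' D) := by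
    rw [commutator_def, commutator_def, Subgroup.map_commutator,
      Subgroup.map_top_of_surjective _ (QuotientGroup.mk'_surjective D)]
  rw [hcq, Cfsg.Agent.Lib.Helper29.card_map_mk' D (commutator P)] at h1
  have h2 := Subgroup.relIndex_mul_relIndex ⊥ D (commutator P) bot_le hDP
  rw [Subgroup.relIndex_bot_left, Subgroup.relIndex_bot_left] at h2
  have h3 := Subgroup.card_mul_index (commutator P)
  have h4 := Subgroup.card_mul_index N
  rw [hN] at h4
  rw [← hDcard]
  obtain ⟨k, hk⟩ : ∃ k, k = Nat.card {n : N // x * n * x⁻¹ * (n : P)⁻¹ ∈ D} := ⟨_, rfl⟩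
  obtain ⟨r, hr⟩ : ∃ r, r = D.relIndex (commutator P) := ⟨_, rfl⟩
  rw [← hk, ← hr] at h1
  rw [← hr] at h2
  rw [← hk]
  have hrpos : 0 < r := by
    rcases Nat.eq_zero_or_pos r with h | h
    · rw [h, mul_zero] at h2
      have : 0 < Nat.card (commutator P) := Nat.card_pos
      omega
    · exact h
  apply Nat.eq_of_mul_eq_mul_right hrpos
  calc (commutator P).index * Nat.card D * r = (Nat.card D * r) * (commutator P).index := by ring
    _ = Nat.card (commutator P) * (commutator P).index := by rw [h2]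
    _ = Nat.card P := h3
    _ = Nat.card N * p := h4.symm
    _ = (k * r) * p := by rw [h1]
    _ = p * k * r := by ring

/-- Let p be a prime, P a finite p-group and N a normal subgroup of P of index p. For x ∈ P write c(x) for the number of elements n of N whose commutator x n x⁻¹ n⁻¹ lies in the derived subgroup N' (so c(x)/#N' is the order of the centralizer of x acting on N/N'). Then [P : P'] = p² if and only if c(x) = p·#N' for every x ∈ P outside N, and also if and only if c(x) = p·#N' for some x ∈ P outside N. -/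
theorem result {P : Type*} [Group P] [Finite P] (p : ℕ) [Fact p.Prime] (hP : IsPGroup p P) (N : Subgroup P) [N.Normal] (hN : N.index = p) :
    ((commutator P).index = p ^ 2 ↔ ∀ x : P, x ∉ N →
        Nat.card {n : N // x * n * x⁻¹ * (n : P)⁻¹ ∈ (commutator N).map N.subtype} = p * Nat.card (commutator N)) ∧
    ((commutator P).index = p ^ 2 ↔ ∃ x : P, x ∉ N ∧
        Nat.card {n : N // x * n * x⁻¹ * (n : P)⁻¹ ∈ (commutator N).map N.subtype} = p * Nat.card (commutator N)) := by
  have hpp : p.Prime := Fact.out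
  obtain ⟨x0, hx0⟩ : ∃ x, x ∉ N := by
    by_contra hcon
    push Not at hcon
    have : N = ⊤ := eq_top_iff.mpr fun y _ => hcon y
    rw [this, Subgroup.index_top] at hN
    exact hpp.one_lt.ne hN
  have hdpos : 0 < Nat.card (commutator N) := Nat.card_pos
  have hiff : ∀ x : P, x ∉ N → ((commutator P).index = p ^ 2 ↔
      Nat.card {n : N // x * n * x⁻¹ * (n : P)⁻¹ ∈ (commutator N).map N.subtype}
        = p * Nat.card (commutator N)) := by
    intro x hx
    have h := ident p N hN x hx
    constructor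
    · intro hi
      rw [hi] at h
      have h2 : p * (p * Nat.card (commutator N)) = p *
          Nat.card {n : N // x * n * x⁻¹ * (n : P)⁻¹ ∈ (commutator N).map N.subtype} := by
        rw [← h]; ring
      exact (Nat.eq_of_mul_eq_mul_left hpp.pos h2).symm
    · intro hc
      rw [hc] at h
      have h2 : (commutator P).index * Nat.card (commutator N) = p ^ 2 * Nat.card (commutator N) := by
        rw [h]; ring
      exact Nat.eq_of_mul_eq_mul_right hdpos h2
  constructor
  · constructor
    · intro h x hx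
      exact (hiff x hx).mp h
    · intro h
      exact (hiff x0 hx0).mpr (h x0 hx0)
  · constructor
    · intro h
      exact ⟨x0, hx0, (hiff x0 hx0).mp h⟩
    · rintro ⟨x, hx, h⟩
      exact (hiff x hx).mpr h

end Cfsg.Agent.S4586
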