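import Cfsg.Statements.S4604
import Cfsg.Agent.Lib.Helper13.SectionPow

set_option autoImplicit false
open Cfsg

namespace Cfsg.Agent.S4604

open Cfsg.Agent.Lib.Helper13.SectionFn Cfsg.Agent.Lib.Helper2

/-- Let G be a finite group, p a prime and p^a the p-part of the order of G. Let x, y ∈ G and let x′, y′ be their p-regular parts: x′ has order prime to p, commutes with x·x′⁻¹, and x·x′⁻¹ has p-power order (likewise for y). Then x′ and y′ are conjugate in G if and only if for every irreducible character χ of G the algebraic integer χ(x)^(p^a) − χ(y)^(p^a) is p times an algebraic integer. -/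
theorem result {G : Type*} [Group G] [Finite G] (p : ℕ) [Fact p.Prime] (x y x' y' : G)
    (hx : (∃ k : ℕ, orderOf (x * x'⁻¹) = p ^ k) ∧ Commute (x * x'⁻¹) x' ∧ ¬ p ∣ orderOf x')
    (hy : (∃ k : ℕ, orderOf (y * y'⁻¹) = p ^ k) ∧ Commute (y * y'⁻¹) y' ∧ ¬ p ∣ orderOf y') :
    IsConj x' y' ↔ ∀ χ : Cfsg.IrrCharacter G, ∃ γ : Cfsg.AlgInt,
      (χ : G → ℂ) x ^ (p ^ (Nat.card G).factorization p) - (χ : G → ℂ) y ^ (p ^ (Nat.card G).factorization p) = (p : ℂ) * (γ : ℂ) := by
  classical
  have hp : p.Prime := Fact.out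
  obtain ⟨⟨k, hk⟩, hc, hv⟩ := hx
  obtain ⟨⟨k', hk'⟩, hc', hv'⟩ := hy
  have hxe : (x * x'⁻¹) * x' = x := by group
  have hye : (y * y'⁻¹) * y' = y := by group
  have hpow : ∀ {w : G} {j : ℕ}, orderOf w = p ^ j →
      w ^ (p ^ (Nat.card G).factorization p) = 1 := by
    intro w j hw
    apply orderOf_dvd_iff_pow_eq_one.mp
    rw [hw]
    apply pow_dvd_pow
    exact (Nat.Prime.pow_dvd_iff_le_factorization hp Nat.card_pos.ne').mp
      (hw ▸ orderOf_dvd_natCard w)
  have hxP : x ^ (p ^ (Nat.card G).factorization p) = x' ^ (p ^ (Nat.card G).factorization p) := by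
    conv_lhs => rw [← hxe]
    rw [hc.mul_pow, hpow hk, one_mul]
  have hyP : y ^ (p ^ (Nat.card G).factorization p) = y' ^ (p ^ (Nat.card G).factorization p) := by
    conv_lhs => rw [← hye]
    rw [hc'.mul_pow, hpow hk', one_mul]
  constructor
  · intro h χ
    have hχ := IsIrrCharacter.isCharacter χ.2
    obtain ⟨γ1, h1⟩ := char_pow_congr hp hχ x ((Nat.card G).factorization p)
    obtain ⟨γ2, h2⟩ := char_pow_congr hp hχ y ((Nat.card G).factorization p)
    have h3 : (χ : G → ℂ) (x ^ (p ^ (Nat.card G).factorization p)) =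
        (χ : G → ℂ) (y ^ (p ^ (Nat.card G).factorization p)) := by
      rw [hxP, hyP]
      obtain ⟨c, rfl⟩ := isConj_iff.mp h
      rw [conj_pow]
      exact ((IsCharacter.isClassFunction hχ) _ c).symm
    refine ⟨γ1 - γ2, ?_⟩
    push_cast
    linear_combination h1 - h2 + h3
  · intro h
    obtain ⟨M, hM⟩ := Cfsg.Agent.Lib.Helper24.exists_isPModular hp
    haveI := Cfsg.Agent.Lib.Helper6.IsPModular.isPrime hM
    apply isConj_reg_of_congr hM hc hk hv hc' hk' hv'
    intro χ
    rw [hxe, hye]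
    have hχ := IsIrrCharacter.isCharacter χ.2
    obtain ⟨γ, hγ⟩ := h χ
    let A : Cfsg.AlgInt := ⟨(χ : G → ℂ) x, Cfsg.Agent.Lib.Helper24.char_isIntegral hχ x⟩
    let B : Cfsg.AlgInt := ⟨(χ : G → ℂ) y, Cfsg.Agent.Lib.Helper24.char_isIntegral hχ y⟩
    obtain ⟨r, hr⟩ := exists_add_pow_prime_pow_eq hp (A - B) B ((Nat.card G).factorization p)
    rw [sub_add_cancel] at hr
    have hγ' : A ^ (p ^ (Nat.card G).factorization p) - B ^ (p ^ (Nat.card G).factorization p) =
        (p : Cfsg.AlgInt) * γ := by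
      apply Subtype.ext
      push_cast
      exact hγ
    have h1 : (A - B) ^ (p ^ (Nat.card G).factorization p) =
        (p : Cfsg.AlgInt) * (γ - (A - B) * B * r) := by
      linear_combination hγ' - hr
    have h2 : (A - B) ^ (p ^ (Nat.card G).factorization p) ∈ M := by
      rw [h1]
      exact M.mul_mem_right _ hM.2.2
    have h3 : A - B ∈ M := Ideal.IsPrime.mem_of_pow_mem inferInstance _ h2
    have := Cfsg.Agent.Lib.Helper6.memLocalIdeal_coe h3
    simpa using this


end Cfsg.Agent.S4604
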