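import Cfsg.Statements.S4611
import Mathlib
import Cfsg.Agent.S4487
import Cfsg.Agent.Lib.Helper1.Cores
import Cfsg.Agent.Lib.Helper2.Ortho
import Cfsg.Agent.Lib.Helper6.Inflate
import Cfsg.Agent.Lib.Helper6.NormalIdem
import Cfsg.Agent.Lib.Helper24.CharInt

set_option autoImplicit false
open Cfsg

namespace Cfsg.Agent.S4611

open Cfsg.Agent.Lib.Helper2 Cfsg.Agent.Lib.Helper6 Cfsg.Agent.Lib.Helper24
open scoped ComplexConjugate

/-- In a solvable group the principal `p`-block consists of the characters with `O_{p'}(G)` in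
their kernel. -/
theorem mem_principalBlock_iff {G : Type*} [Group G] [Finite G] [Group.IsSolvable G] (p : ℕ)
    [Fact p.Prime] (M : Ideal Cfsg.AlgInt) (hM : Cfsg.IsPModular p M) (χ : IrrCharacter G) :
    χ ∈ principalBlock M G ↔ ∀ n ∈ pPrimeCore p G, (χ : G → ℂ) n = (χ : G → ℂ) 1 := by
  classical
  letI := Fintype.ofFinite G
  have hpp : p.Prime := Fact.out
  have hsp := Cfsg.Agent.Lib.Helper1.pPrimeCore_spec (G := G) p
  haveI : (pPrimeCore p G).Normal := hsp.1
  have hN : ¬ p ∣ Nat.card (pPrimeCore p G) := fun h =>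
    hpp.one_lt.ne' (Nat.dvd_one.mp (hsp.2 ▸ Nat.dvd_gcd h dvd_rfl))
  have := IsPModular.isPrime hM
  constructor
  · intro h
    exact principalBlock_ker hM _ hN h
  · intro h
    obtain ⟨ψ, hψ, hval⟩ := IsIrrCharacter.deflate (pPrimeCore p G) χ.2 h
    have hbot := Cfsg.Agent.Lib.Helper1.pPrimeCore_quotient_eq_bot (G := G) p
    have hcen := Cfsg.Agent.Lib.Helper1.centralizer_pCore_le (G := G ⧸ pPrimeCore p G) p hbot
    have hs := Cfsg.Agent.S4487.result p M hM hbot hcen
      ⟨fun _ => 1, isIrrCharacter_one⟩ ⟨ψ, hψ⟩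
    have h2 := sameBlock_infl (pPrimeCore p G) (M := M) isIrrCharacter_one hψ hs
    have e : infl (pPrimeCore p G) ψ = (χ : G → ℂ) := by
      funext g
      exact hval g
    rw [e] at h2
    exact h2

/-- Let G be a finite solvable group and π a nonempty set of primes, each dividing the order of G; fix for each p in π a maximal ideal M p of the algebraic integers containing p. Then the only irreducible character lying in the principal p-block for every p in π is the principal character if and only if G is generated by the subgroups O_{p'}(G), p in π (the largest normal subgroups of order prime to p). -/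
theorem result {G : Type*} [Group G] [Finite G] [Group.IsSolvable G] (π : Set ℕ) (hπ : ∀ p ∈ π, p.Prime ∧ p ∣ Nat.card G) (hne : π.Nonempty) (M : ℕ → Ideal Cfsg.AlgInt) (hM : ∀ p ∈ π, Cfsg.IsPModular p (M p)) :
    (∀ χ : Cfsg.IrrCharacter G, (∀ p ∈ π, χ ∈ Cfsg.principalBlock (M p) G) → (χ : G → ℂ) = fun _ => 1) ↔
      ⨆ p ∈ π, Cfsg.pPrimeCore p G = ⊤ := by
  classical
  letI := Fintype.ofFinite G
  have key : ∀ χ : IrrCharacter G, (∀ p ∈ π, χ ∈ Cfsg.principalBlock (M p) G) ↔
      ⨆ p ∈ π, Cfsg.pPrimeCore p G ≤ kerOf (IsIrrCharacter.isCharacter χ.2) := by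
    intro χ
    rw [iSup₂_le_iff]
    refine forall₂_congr fun p hp => ?_
    haveI : Fact p.Prime := ⟨(hπ p hp).1⟩
    rw [mem_principalBlock_iff p (M p) (hM p hp) χ]
    constructor
    · intro h n hn
      exact (mem_kerOf _ n).mpr (h n hn)
    · intro h n hn
      exact (mem_kerOf _ n).mp (h hn)
  set K := ⨆ p ∈ π, Cfsg.pPrimeCore p G with hK
  have hKn : K.Normal := by
    rw [hK]
    exact Subgroup.biSup_normal π _ fun p _ => (Cfsg.Agent.Lib.Helper1.pPrimeCore_spec (G := G) p).1
  constructor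
  · intro h
    by_contra hKt
    -- a nontrivial irreducible character of `G ⧸ K`
    have hnt : Nontrivial (G ⧸ K) := by
      by_contra hnn
      rw [not_nontrivial_iff_subsingleton] at hnn
      exact hKt (QuotientGroup.subgroup_eq_top_of_subsingleton K hnn)
    have hcard : 1 < Nat.card (IrrCharacter (G ⧸ K)) := by
      rw [card_irr_eq_card_conjClasses]
      haveI : Nontrivial (ConjClasses (G ⧸ K)) := by
        obtain ⟨x, hx⟩ := exists_ne (1 : G ⧸ K)
        refine ⟨⟨ConjClasses.mk x, ConjClasses.mk 1, fun h => hx ?_⟩⟩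
        have := ConjClasses.mk_eq_mk_iff_isConj.mp h
        exact isConj_one_left.mp this
      exact Finite.one_lt_card
    haveI := finite_irr (G := G ⧸ K)
    haveI : Nontrivial (IrrCharacter (G ⧸ K)) := Finite.one_lt_card_iff_nontrivial.mp hcard
    obtain ⟨ψ, hψ⟩ := exists_ne (⟨fun _ => 1, isIrrCharacter_one⟩ : IrrCharacter (G ⧸ K))
    have hχ := isIrrCharacter_infl K ψ.2
    have h1 := h ⟨_, hχ⟩ ((key ⟨_, hχ⟩).mpr (by
      intro n hn
      rw [mem_kerOf]
      show (ψ : G ⧸ K → ℂ) _ = (ψ : G ⧸ K → ℂ) _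
      rw [(QuotientGroup.eq_one_iff n).mpr hn]
      rfl))
    apply hψ
    apply Subtype.ext
    funext x
    obtain ⟨g, rfl⟩ := QuotientGroup.mk_surjective x
    exact congrFun h1 g
  · intro h χ hχ
    have h1 := (key χ).mp hχ
    rw [h] at h1
    have h2 : ∀ g, (χ : G → ℂ) g = (χ : G → ℂ) 1 := fun g => (mem_kerOf _ g).mp (h1 (Subgroup.mem_top g))
    by_contra hne1
    have h3 := classInner_irr χ.2 (isIrrCharacter_one (G := G))
    rw [if_neg hne1, classInner] at h3
    simp only [map_one, mul_one, h2, Finset.sum_const, Finset.card_univ, nsmul_eq_mul] at h3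
    have hG : (Nat.card G : ℂ) ≠ 0 := Nat.cast_ne_zero.mpr Nat.card_pos.ne'
    rw [← Nat.card_eq_fintype_card, ← mul_assoc, inv_mul_cancel₀ hG, one_mul] at h3
    have h4 := charDegree_pos χ.2
    have h5 := charDegree_cast (IsIrrCharacter.isCharacter χ.2)
    rw [h3] at h5
    exact h4.ne' (by exact_mod_cast h5)

end Cfsg.Agent.S4611
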