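import Cfsg.Statements.S4619

set_option autoImplicit false
open Cfsg

namespace Cfsg.Agent.S4619

open scoped Pointwise

theorem aux {G : Type*} [Group G] (P : Subgroup G)
    (hTI : (∀ g : G, g ∉ Subgroup.normalizer (P : Set G) → P ⊓ (MulAut.conj g • P) = ⊥))
    (Q : Subgroup G) (hQ : Q ≤ P) (hQ1 : Q ≠ ⊥) (g : G) (hg : MulAut.conj g • Q ≤ P) :
    g ∈ Subgroup.normalizer (P : Set G) := by
  by_contra hn
  have h := hTI g hn
  apply hQ1
  rw [eq_bot_iff]
  intro x hx
  have h1 : g * x * g⁻¹ ∈ P := by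
    apply hg
    rw [Subgroup.mem_pointwise_smul_iff_inv_smul_mem]
    simpa [MulAut.smul_def, mul_assoc] using hx
  have h2 : g * x * g⁻¹ ∈ MulAut.conj g • P := by
    rw [Subgroup.mem_pointwise_smul_iff_inv_smul_mem]
    simpa [MulAut.smul_def, mul_assoc] using hQ hx
  have h3 : g * x * g⁻¹ ∈ P ⊓ (MulAut.conj g • P) := ⟨h1, h2⟩
  rw [h, Subgroup.mem_bot] at h3
  rw [Subgroup.mem_bot]
  have : x = g⁻¹ * (g * x * g⁻¹) * g := by group
  rw [this, h3]; group

/-- Let P be a Sylow p-subgroup of the finite group G that is a trivial-intersection set: P meets each conjugate g P g⁻¹ with g outside N_G(P) trivially. Then for every nontrivial subgroup Q of P the normalizer of Q lies in the normalizer of P, and any g ∈ G conjugating Q into P lies in N_G(P). -/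
theorem result {G : Type*} [Group G] [Finite G] (p : ℕ) [Fact p.Prime] (P : Sylow p G) (hTI : (∀ g : G, g ∉ Subgroup.normalizer ((P : Subgroup G) : Set G) → (P : Subgroup G) ⊓ (MulAut.conj g • (P : Subgroup G)) = ⊥)) (Q : Subgroup G) (hQ : Q ≤ (P : Subgroup G)) (hQ1 : Q ≠ ⊥) :
    Subgroup.normalizer (Q : Set G) ≤ Subgroup.normalizer ((P : Subgroup G) : Set G) ∧
      ∀ g : G, MulAut.conj g • Q ≤ (P : Subgroup G) → g ∈ Subgroup.normalizer ((P : Subgroup G) : Set G) := by
  refine ⟨?_, fun g hg => aux _ hTI Q hQ hQ1 g hg⟩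
  intro g hg
  apply aux _ hTI Q hQ hQ1 g
  intro y hy
  rw [Subgroup.mem_pointwise_smul_iff_inv_smul_mem] at hy
  apply hQ
  have h1 := (Subgroup.mem_normalizer_iff.mp hg (g⁻¹ * y * g)).mp (by simpa [MulAut.smul_def, mul_assoc] using hy)
  simpa [mul_assoc] using h1

end Cfsg.Agent.S4619
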