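import Mathlib
import Cfsg.Statements.S4620

set_option autoImplicit false
open scoped Pointwise
open Cfsg

namespace Cfsg.Agent.S4620

/-- `X` has no nontrivial normal `π`-subgroup. -/
def PiFree (π : ℕ → Prop) (X : Type*) [Group X] : Prop :=
  ∀ Y : Subgroup X, Y.Normal → (∀ q : ℕ, q.Prime → q ∣ Nat.card Y → π q) → Y = ⊥

theorem card_sup_dvd {X : Type*} [Group X] (A B : Subgroup X) [B.Normal] :
    Nat.card (A ⊔ B : Subgroup X) ∣ Nat.card A * Nat.card B := by
  have h1 := Subgroup.relIndex_mul_relIndex ⊥ B (A ⊔ B) bot_le le_sup_right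
  rw [Subgroup.relIndex_bot_left, Subgroup.relIndex_bot_left, Subgroup.relIndex_sup_right] at h1
  rw [← h1, mul_comm]
  exact Nat.mul_dvd_mul_right (Subgroup.relIndex_dvd_card _ _) _

theorem iSup_pi {X : Type*} [Group X] {ι : Type*} [Finite ι] (π : ℕ → Prop)
    (f : ι → Subgroup X) (hn : ∀ i, (f i).Normal)
    (hf : ∀ i, ∀ q : ℕ, q.Prime → q ∣ Nat.card (f i) → π q) :
    ∀ q : ℕ, q.Prime → q ∣ Nat.card (⨆ i, f i : Subgroup X) → π q := by
  cases nonempty_fintype ι
  rw [← Finset.sup_univ_eq_iSup]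
  have key : (Finset.univ.sup f).Normal ∧
      ∀ q : ℕ, q.Prime → q ∣ Nat.card (Finset.univ.sup f : Subgroup X) → π q := by
    refine Finset.sup_induction (p := fun A : Subgroup X => A.Normal ∧
      ∀ q : ℕ, q.Prime → q ∣ Nat.card A → π q) ?_ ?_ ?_
    · refine ⟨inferInstance, ?_⟩
      intro q hq hd
      rw [Subgroup.card_bot] at hd
      exact absurd (Nat.dvd_one.mp hd) hq.one_lt.ne'
    · rintro A ⟨hA, hA'⟩ B ⟨hB, hB'⟩
      refine ⟨inferInstance, ?_⟩
      intro q hq hd
      rcases (hq.dvd_mul).mp (hd.trans (card_sup_dvd A B)) with h | h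
      · exact hA' q hq h
      · exact hB' q hq h
    · intro i _
      exact ⟨hn i, hf i⟩
  exact key.2

theorem PiFree.of_normal {X : Type*} [Group X] [Finite X] {π : ℕ → Prop} (h : PiFree π X)
    (N : Subgroup X) [N.Normal] : PiFree π N := by
  intro Y hY hπ
  set f : X → Subgroup N := fun x => Y.map (MulAut.conjNormal x : MulAut N).toMonoidHom with hf
  have hn : ∀ x, (f x).Normal := fun x =>
    Subgroup.Normal.map hY _ (MulEquiv.surjective _)
  have hc : ∀ x, Nat.card (f x) = Nat.card Y := fun x =>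
    Subgroup.card_map_of_injective (MulEquiv.injective _)
  have hZ := iSup_pi π f hn (fun x q hq hd => hπ q hq (by rwa [hc x] at hd))
  have hZn : ((⨆ x, f x).map N.subtype).Normal := by
    constructor
    rintro _ ⟨z, hz, rfl⟩ g
    refine ⟨MulAut.conjNormal g z, ?_, by simp⟩
    have h1 : MulAut.conjNormal g z ∈ (⨆ x, f x).map (MulAut.conjNormal g : MulAut N).toMonoidHom :=
      ⟨z, hz, rfl⟩
    rw [Subgroup.map_iSup] at h1
    have h3 : (⨆ i, Subgroup.map (MulAut.conjNormal g : MulAut N).toMonoidHom (f i)) ≤ ⨆ x, f x := by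
      refine iSup_le fun x => ?_
      refine le_trans (le_of_eq ?_) (le_iSup f (g * x))
      simp only [hf, Subgroup.map_map]
      congr 1
      ext n
      simp [mul_assoc]
    exact h3 h1
  have h2 := h _ hZn (by
    rw [Subgroup.card_map_of_injective N.subtype_injective]; exact hZ)
  rw [Subgroup.map_eq_bot_iff_of_injective _ N.subtype_injective] at h2
  rw [eq_bot_iff, ← h2]
  refine le_trans (le_of_eq ?_) (le_iSup f 1)
  simp only [hf, map_one]
  exact (Subgroup.map_id Y).symm

section main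
variable {H : Type*} [Group H] [Finite H] {p : ℕ} [Fact p.Prime]

/-- every Sylow `p`-subgroup is a TI set. -/
def TI (p : ℕ) (H : Type*) [Group H] : Prop :=
  ∀ (P : Sylow p H) (g : H), g ∉ Subgroup.normalizer ((P : Subgroup H) : Set H) →
    (P : Subgroup H) ⊓ (MulAut.conj g • (P : Subgroup H)) = ⊥

theorem lemC {X : Type*} [Group X] [Finite X] (h1 : PiFree (· = p) X) (h2 : PiFree (· ≠ p) X)
    (ι : X →* H) (hι : Function.Injective ι) (P : Sylow p H)
    (hr : ∀ x, ι x ∈ Subgroup.normalizer ((P : Subgroup H) : Set H)) : ∀ x : X, x = 1 := by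
  have hp : p.Prime := Fact.out
  have hYn : ((P : Subgroup H).comap ι).Normal := by
    constructor
    intro y hy x
    rw [Subgroup.mem_comap] at hy ⊢
    rw [map_mul, map_mul, map_inv]
    exact (Subgroup.mem_normalizer_iff.mp (hr x) _).mp hy
  have hYp : IsPGroup p ((P : Subgroup H).comap ι) := P.2.comap_of_injective ι hι
  have hY : (P : Subgroup H).comap ι = ⊥ := by
    apply h1 _ hYn
    intro q hq hd
    obtain ⟨n, hn⟩ := IsPGroup.iff_card.mp hYp
    rw [hn] at hd
    exact (Nat.prime_dvd_prime_iff_eq hq hp).mp (hq.dvd_of_dvd_pow hd)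
  have hnd : ¬ p ∣ Nat.card X := by
    intro hd
    obtain ⟨x, hx⟩ := exists_prime_orderOf_dvd_card' p hd
    have hz : IsPGroup p (Subgroup.zpowers (ι x)) := by
      apply IsPGroup.of_card (n := 1)
      rw [Nat.card_zpowers, orderOf_injective ι hι, hx, pow_one]
    have h3 := hz.inf_normalizer_sylow P
    have h4 := h3.le (show ι x ∈ _ from ⟨Subgroup.mem_zpowers _, hr x⟩)
    have h5 : x ∈ (P : Subgroup H).comap ι := h4.2
    rw [hY, Subgroup.mem_bot] at h5
    rw [h5, orderOf_one] at hx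
    exact hp.one_lt.ne hx
  have hT : (⊤ : Subgroup X) = ⊥ := by
    apply h2 _ inferInstance
    intro q _ hd hqp
    rw [Subgroup.card_top, hqp] at hd
    exact hnd hd
  intro x
  have : x ∈ (⊤ : Subgroup X) := Subgroup.mem_top x
  rwa [hT, Subgroup.mem_bot] at this

theorem lemU' (hTI : TI p H) {X : Type*} [Group X] [Finite X] (h1 : PiFree (· = p) X)
    (h2 : PiFree (· ≠ p) X) (ι : X →* H) (hι : Function.Injective ι)
    (T : Subgroup X) [T.Normal] (x : X) (hx : orderOf x = p) (hc : ∀ t ∈ T, t * x = x * t) :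
    T = ⊥ := by
  have hp : p.Prime := Fact.out
  have hz : IsPGroup p (Subgroup.zpowers (ι x)) := by
    apply IsPGroup.of_card (n := 1)
    rw [Nat.card_zpowers, orderOf_injective ι hι, hx, pow_one]
  obtain ⟨P, hP⟩ := hz.exists_le_sylow
  have hxP : ι x ∈ (P : Subgroup H) := hP (Subgroup.mem_zpowers _)
  have hr : ∀ t : T, (ι.comp T.subtype) t ∈ Subgroup.normalizer ((P : Subgroup H) : Set H) := by
    intro t
    by_contra hcon
    have h3 := hTI P _ hcon
    have h4 : ι x ∈ (P : Subgroup H) ⊓ (MulAut.conj ((ι.comp T.subtype) t) • (P : Subgroup H)) := by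
      refine ⟨hxP, ?_⟩
      have h5 := Subgroup.smul_mem_pointwise_smul (ι x) (MulAut.conj ((ι.comp T.subtype) t)) _ hxP
      have h6 : MulAut.conj ((ι.comp T.subtype) t) • ι x = ι x := by
        rw [MulAut.smul_def, MulAut.conj_apply]
        simp only [MonoidHom.comp_apply, Subgroup.coe_subtype]
        rw [← map_mul, hc t t.2, map_mul, mul_inv_cancel_right]
      rwa [h6] at h5
    rw [h3, Subgroup.mem_bot] at h4
    have h7 : x = 1 := hι (by rw [h4, map_one])
    rw [h7, orderOf_one] at hx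
    exact hp.one_lt.ne hx
  have h8 := lemC (h1.of_normal T) (h2.of_normal T) (ι.comp T.subtype)
    (hι.comp T.subtype_injective) P hr
  rw [eq_bot_iff]
  intro t ht
  have := h8 ⟨t, ht⟩
  rw [Subgroup.mem_bot]
  exact congrArg Subtype.val this

theorem exists_order_p {X : Type*} [Group X] [Finite X] (h2 : PiFree (· ≠ p) X)
    (S : Subgroup X) [S.Normal] (hS : S ≠ ⊥) : ∃ x ∈ S, orderOf x = p := by
  have hd : p ∣ Nat.card S := by
    by_contra hnd
    apply hS
    apply h2 _ inferInstance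
    intro q _ hd hqp
    rw [hqp] at hd
    exact hnd hd
  obtain ⟨x, hx⟩ := exists_prime_orderOf_dvd_card' p hd
  exact ⟨x, x.2, by rwa [Subgroup.orderOf_coe]⟩

theorem lemU (hTI : TI p H) {X : Type*} [Group X] [Finite X] (h1 : PiFree (· = p) X)
    (h2 : PiFree (· ≠ p) X) (ι : X →* H) (hι : Function.Injective ι)
    (S T : Subgroup X) (hSn : S.Normal) (hTn : T.Normal) (hS : S ≠ ⊥) (hT : T ≠ ⊥) : S ⊓ T ≠ ⊥ := by
  intro hST
  obtain ⟨x, hxS, hx⟩ := exists_order_p h2 S hS
  apply hT
  apply lemU' hTI h1 h2 ι hι T x hx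
  intro t ht
  exact (Subgroup.commute_of_normal_of_disjoint S T hSn hTn (disjoint_iff.mpr hST) x t hxS ht).symm

theorem iInf_ne_bot (hTI : TI p H) {X : Type*} [Group X] [Finite X] [Nontrivial X]
    (h1 : PiFree (· = p) X)
    (h2 : PiFree (· ≠ p) X) (ι : X →* H) (hι : Function.Injective ι)
    {κ : Type*} [Finite κ] (f : κ → Subgroup X) (hn : ∀ i, (f i).Normal) (hf : ∀ i, f i ≠ ⊥) :
    (⨅ i, f i) ≠ ⊥ := by
  cases nonempty_fintype κ
  rw [← Finset.inf_univ_eq_iInf]
  have key : (Finset.univ.inf f).Normal ∧ Finset.univ.inf f ≠ ⊥ := by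
    refine Finset.inf_induction (p := fun A : Subgroup X => A.Normal ∧ A ≠ ⊥) ?_ ?_ ?_
    · exact ⟨inferInstance, top_ne_bot⟩
    · rintro A ⟨hA, hA'⟩ B ⟨hB, hB'⟩
      exact ⟨inferInstance, lemU hTI h1 h2 ι hι A B hA hB hA' hB'⟩
    · intro i _
      exact ⟨hn i, hf i⟩
  exact key.2

end main

/-- Let H be a finite group with no nontrivial normal p-subgroup and no nontrivial normal subgroup of order prime to p, whose Sylow p-subgroup P is nontrivial and a trivial-intersection set (P meets its conjugates by elements outside N_H(P) trivially). Then H has a unique minimal normal subgroup N; N is non-abelian simple with trivial centralizer in H (so H embeds in Aut(N)), and a Sylow p-subgroup of N is again a nontrivial trivial-intersection set in N. -/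
theorem result {H : Type*} [Group H] [Finite H] (p : ℕ) [Fact p.Prime] (hOp : Cfsg.pCore p H = ⊥) (hOp' : Cfsg.pPrimeCore p H = ⊥) (P : Sylow p H) (hP1 : (P : Subgroup H) ≠ ⊥)
    (hTI : ∀ g : H, g ∉ Subgroup.normalizer ((P : Subgroup H) : Set H) → (P : Subgroup H) ⊓ (MulAut.conj g • (P : Subgroup H)) = ⊥) :
    ∃ N : Subgroup H, N.Normal ∧ N ≠ ⊥ ∧ (∀ K : Subgroup H, K.Normal → K ≠ ⊥ → N ≤ K) ∧
      IsSimpleGroup N ∧ ¬ IsMulCommutative N ∧ Subgroup.centralizer (N : Set H) = ⊥ ∧
      ∀ Q : Sylow p N, (Q : Subgroup N) ≠ ⊥ ∧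
        ∀ n : N, n ∉ Subgroup.normalizer ((Q : Subgroup N) : Set N) → (Q : Subgroup N) ⊓ (MulAut.conj n • (Q : Subgroup N)) = ⊥ := by
  have hp : p.Prime := Fact.out
  have h1 : PiFree (· = p) H := by
    intro Y hY hπ
    rw [eq_bot_iff, ← hOp]
    apply le_sSup
    refine ⟨hY, ?_⟩
    apply IsPGroup.of_card (n := (Nat.card Y).primeFactorsList.length)
    exact Nat.eq_prime_pow_of_unique_prime_dvd Nat.card_pos.ne' (fun {q} hq hd => hπ q hq hd)
  have h2 : PiFree (· ≠ p) H := by
    intro Y hY hπ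
    rw [eq_bot_iff, ← hOp']
    apply le_sSup
    refine ⟨hY, ?_⟩
    rw [Nat.coprime_comm, hp.coprime_iff_not_dvd]
    intro hd
    exact hπ p hp hd rfl
  -- TI for every Sylow subgroup
  have hTI' : TI p H := by
    intro P' g hg
    obtain ⟨c, rfl⟩ := MulAction.exists_smul_eq H P P'
    have hg' : c⁻¹ * g * c ∉ Subgroup.normalizer ((P : Subgroup H) : Set H) := by
      intro hcon
      apply hg
      rw [Subgroup.mem_normalizer_iff] at hcon ⊢
      intro x
      rw [Sylow.coe_subgroup_smul, Subgroup.mem_pointwise_smul_iff_inv_smul_mem,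
        Subgroup.mem_pointwise_smul_iff_inv_smul_mem]
      have := hcon (c⁻¹ * x * c)
      simp only [MulAut.smul_def, ← map_inv, MulAut.conj_apply, inv_inv]
      convert this using 2
      group
    have h3 := hTI _ hg'
    rw [eq_bot_iff] at h3 ⊢
    intro x hx
    have h4 : c⁻¹ * x * c ∈ (P : Subgroup H) ⊓ (MulAut.conj (c⁻¹ * g * c) • (P : Subgroup H)) := by
      obtain ⟨hx1, hx2⟩ := Subgroup.mem_inf.mp hx
      rw [Sylow.coe_subgroup_smul] at hx1 hx2
      rw [Subgroup.mem_pointwise_smul_iff_inv_smul_mem] at hx1 hx2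
      rw [Subgroup.mem_pointwise_smul_iff_inv_smul_mem] at hx2
      refine Subgroup.mem_inf.mpr ⟨?_, ?_⟩
      · simp only [MulAut.smul_def, ← map_inv, MulAut.conj_apply, inv_inv] at hx1
        exact hx1
      · rw [Subgroup.mem_pointwise_smul_iff_inv_smul_mem]
        simp only [MulAut.smul_def, ← map_inv, MulAut.conj_apply, inv_inv] at hx2 ⊢
        convert hx2 using 1
        group
    have h5 := h3 h4
    rw [Subgroup.mem_bot] at h5 ⊢
    have : x = c * (c⁻¹ * x * c) * c⁻¹ := by group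
    rw [this, h5]; group
  haveI hnt : Nontrivial H := by
    by_contra hcon
    rw [not_nontrivial_iff_subsingleton] at hcon
    exact hP1 (Subsingleton.elim _ _)
  set N : Subgroup H := ⨅ K : {K : Subgroup H // K.Normal ∧ K ≠ ⊥}, K.1 with hN
  haveI hNn : N.Normal := Subgroup.normal_iInf_normal (fun K => K.2.1)
  have hN0 : N ≠ ⊥ := iInf_ne_bot hTI' h1 h2 (MonoidHom.id H) (fun _ _ h => h)
    (fun K : {K : Subgroup H // K.Normal ∧ K ≠ ⊥} => K.1) (fun K => K.2.1) (fun K => K.2.2)
  have hNmin : ∀ K : Subgroup H, K.Normal → K ≠ ⊥ → N ≤ K := fun K hK hK0 =>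
    iInf_le (fun K : {K : Subgroup H // K.Normal ∧ K ≠ ⊥} => K.1) ⟨K, hK, hK0⟩
  obtain ⟨x, hxN, hx⟩ := exists_order_p h2 N hN0
  have hcent : Subgroup.centralizer (N : Set H) = ⊥ := by
    apply lemU' hTI' h1 h2 (MonoidHom.id H) (fun _ _ h => h) _ x hx
    intro t ht
    exact (Subgroup.mem_centralizer_iff.mp ht x hxN).symm
  have h1N := h1.of_normal N
  have h2N := h2.of_normal N
  haveI hNnt : Nontrivial N := (Subgroup.nontrivial_iff_ne_bot N).mpr hN0
  refine ⟨N, hNn, hN0, hNmin, ?_, ?_, hcent, ?_⟩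
  · refine ⟨fun S hS => ?_⟩
    by_cases hS0 : S = ⊥
    · exact Or.inl hS0
    right
    set f : H → Subgroup N := fun x => S.map (MulAut.conjNormal x : MulAut N).toMonoidHom with hf
    have hI := iInf_ne_bot hTI' h1N h2N N.subtype N.subtype_injective f
      (fun x => Subgroup.Normal.map hS _ (MulEquiv.surjective _))
      (fun x => by
        simp only [hf]
        rwa [Ne, Subgroup.map_eq_bot_iff_of_injective _ (MulEquiv.injective _)])
    have hIn : ((⨅ x, f x).map N.subtype).Normal := by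
      constructor
      rintro _ ⟨z, hz, rfl⟩ g
      refine ⟨MulAut.conjNormal g z, ?_, by simp⟩
      rw [SetLike.mem_coe, Subgroup.mem_iInf] at hz ⊢
      intro y
      obtain ⟨s, hs, hsz⟩ := hz (g⁻¹ * y)
      refine ⟨s, hs, ?_⟩
      rw [← hsz]
      ext
      simp [mul_assoc]
    have h3 := hNmin _ hIn (by rwa [Ne, Subgroup.map_eq_bot_iff_of_injective _ N.subtype_injective])
    rw [eq_top_iff]
    intro n _
    obtain ⟨z, hz, hzn⟩ := h3 n.2
    have hzn' : z = n := Subtype.ext hzn
    rw [SetLike.mem_coe, Subgroup.mem_iInf] at hz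
    obtain ⟨s, hs, hsz⟩ := hz 1
    rw [← hzn', ← hsz]
    simpa using hs
  · intro hcomm
    apply hN0
    rw [eq_bot_iff, ← hcent]
    intro a ha
    rw [Subgroup.mem_centralizer_iff]
    intro b hb
    have := mul_comm' (⟨b, hb⟩ : N) ⟨a, ha⟩
    exact congrArg Subtype.val this
  · intro Q
    obtain ⟨P', hP'⟩ := Sylow.exists_comap_subtype_eq Q
    refine ⟨?_, ?_⟩
    · apply Sylow.ne_bot_of_dvd_card
      have := orderOf_dvd_natCard (⟨x, hxN⟩ : N)
      rwa [Subgroup.orderOf_mk, hx] at this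
    · intro n hn
      have hn' : (n : H) ∉ Subgroup.normalizer ((P' : Subgroup H) : Set H) := by
        intro hcon
        apply hn
        rw [Subgroup.mem_normalizer_iff] at hcon ⊢
        intro y
        rw [← hP', Subgroup.mem_comap, Subgroup.mem_comap]
        exact hcon y
      have h3 := hTI' P' _ hn'
      rw [eq_bot_iff]
      intro y hy
      obtain ⟨hy1, hy2⟩ := Subgroup.mem_inf.mp hy
      rw [Subgroup.mem_pointwise_smul_iff_inv_smul_mem] at hy2
      rw [← hP', Subgroup.mem_comap] at hy1 hy2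
      have h4 : (y : H) ∈ (P' : Subgroup H) ⊓ (MulAut.conj (n : H) • (P' : Subgroup H)) := by
        refine Subgroup.mem_inf.mpr ⟨hy1, ?_⟩
        rw [Subgroup.mem_pointwise_smul_iff_inv_smul_mem]
        simpa [MulAut.smul_def, ← map_inv, MulAut.conj_apply] using hy2
      rw [h3, Subgroup.mem_bot] at h4
      rw [Subgroup.mem_bot]
      exact Subtype.ext h4

end Cfsg.Agent.S4620
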