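import Cfsg.Statements.S4742
import Cfsg.Agent.Lib.Helper24.ClassCount

set_option autoImplicit false
open scoped Pointwise
open Cfsg

namespace Cfsg.Agent.S4742

/-- Let p ≠ q be primes dividing the order of the finite group G, and suppose the centralizer of every non-identity p-element of G has order prime to q. Then either G has an irreducible character of p-defect zero, or for every non-identity q-element z of G there are conjugates g, h of z such that g h⁻¹ is a non-identity p-element. -/
theorem result {G : Type*} [Group G] [Finite G] (p q : ℕ) [Fact p.Prime] [Fact q.Prime] (hppq : p ≠ q) (hpG : p ∣ Nat.card G) (hqG : q ∣ Nat.card G) (hC : ∀ g : G, g ≠ 1 → (∃ k : ℕ, orderOf g = p ^ k) → ¬ q ∣ Nat.card ↥(Subgroup.centralizer ({g} : Set G))) : (∃ χ : Cfsg.IrrCharacter G, (Cfsg.charDegree (χ : G → ℂ)).factorization p = (Nat.card G).factorization p) ∨ ∀ z : G, z ≠ 1 → (∃ k : ℕ, orderOf z = q ^ k) → ∃ g h : G, IsConj z g ∧ IsConj z h ∧ g * h⁻¹ ≠ 1 ∧ ∃ k : ℕ, orderOf (g * h⁻¹) = p ^ k := by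
  have hp : p.Prime := Fact.out
  have hq : q.Prime := Fact.out
  by_contra hcon
  push Not at hcon
  obtain ⟨hno, z, hz1, ⟨k, hzk⟩, hz⟩ := hcon
  have hzC : ¬ p ∣ Nat.card (Subgroup.centralizer ({z} : Set G)) := by
    intro hd
    obtain ⟨u, hu⟩ := exists_prime_orderOf_dvd_card' p hd
    have hu' : orderOf (u : G) = p := by rwa [Subgroup.orderOf_coe]
    have hu1 : (u : G) ≠ 1 := by
      intro h
      rw [h, orderOf_one] at hu'
      exact hp.one_lt.ne hu'
    apply hC (u : G) hu1 ⟨1, by rw [hu', pow_one]⟩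
    have hcomm : z ∈ Subgroup.centralizer ({(u : G)} : Set G) := by
      rw [Subgroup.mem_centralizer_singleton_iff]
      exact (Subgroup.mem_centralizer_singleton_iff.mp u.2).symm
    have h1 := orderOf_dvd_natCard (⟨z, hcomm⟩ : Subgroup.centralizer ({(u : G)} : Set G))
    rw [Subgroup.orderOf_mk, hzk] at h1
    have hk : k ≠ 0 := by
      intro h0
      rw [h0, pow_zero, orderOf_eq_one_iff] at hzk
      exact hz1 hzk
    exact (dvd_pow_self q hk).trans h1
  obtain ⟨χ, hχ⟩ := Cfsg.Agent.Lib.Helper24.exists_defect_zero p z hzC (by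
    intro g h hg hh ⟨j, hj⟩
    by_contra hne
    exact hz g h hg hh hne j hj)
  exact hno χ hχ

end Cfsg.Agent.S4742
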