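import Cfsg.Statements.S4743
import Cfsg.Agent.S4742

set_option autoImplicit false
open Cfsg

namespace Cfsg.Agent.S4743

theorem chain_step {G : Type*} [Group G] [Finite G] (p q : ℕ) [hp : Fact p.Prime] [hq : Fact q.Prime] (hpq : p ≠ q)
    (hP : ∀ N : Subgroup G, N.Normal → (p ∣ Nat.card N ↔ q ∣ Nat.card N))
    (hsolv : Cfsg.IsPSolvable p G) : ¬ p ∣ Nat.card G := by
  obtain ⟨n, H, h0, hlast, hmono, hnorm, hstep⟩ := hsolv
  have key : ∀ i : ℕ, ∀ hi : i < n + 1, ¬ p ∣ Nat.card (H ⟨i, hi⟩) := by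
    intro i
    induction i with
    | zero =>
      intro hi
      have : H ⟨0, hi⟩ = ⊥ := h0
      rw [this, Subgroup.card_bot]
      exact hp.out.one_lt.ne' ∘ Nat.dvd_one.1
    | succ i ih =>
      intro hi
      have hi' : i < n := by omega
      have h1 := ih (by omega)
      have h1q : ¬ q ∣ Nat.card (H ⟨i, by omega⟩) := fun h => h1 ((hP _ (hnorm _)).2 h)
      have hle : H ⟨i, by omega⟩ ≤ H ⟨i + 1, hi⟩ := hmono (by
        rw [Fin.le_def]; simp)
      have hcard : Nat.card (H ⟨i, by omega⟩) * (H ⟨i, by omega⟩).relIndex (H ⟨i + 1, hi⟩) = Nat.card (H ⟨i + 1, hi⟩) := by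
        have := Subgroup.relIndex_mul_relIndex ⊥ (H ⟨i, by omega⟩) (H ⟨i + 1, hi⟩) bot_le hle
        rwa [Subgroup.relIndex_bot_left, Subgroup.relIndex_bot_left] at this
      have hs := hstep ⟨i, hi'⟩
      have e1 : (⟨i, hi'⟩ : Fin n).castSucc = ⟨i, by omega⟩ := rfl
      have e2 : (⟨i, hi'⟩ : Fin n).succ = ⟨i + 1, hi⟩ := rfl
      rw [e1, e2] at hs
      rcases hs with ⟨m, hm⟩ | hs
      · intro hpd
        have hqd := (hP _ (hnorm _)).1 hpd
        rw [← hcard, hm] at hqd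
        rcases (Nat.Prime.dvd_mul hq.out).1 hqd with h | h
        · exact h1q h
        · exact hpq ((Nat.prime_dvd_prime_iff_eq hq.out hp.out).1 (hq.out.dvd_of_dvd_pow h)).symm
      · intro hpd
        rw [← hcard] at hpd
        rcases (Nat.Prime.dvd_mul hp.out).1 hpd with h | h
        · exact h1 h
        · have := Nat.dvd_gcd h (dvd_refl p)
          rw [hs.gcd_eq_one] at this
          exact hp.out.one_lt.ne' (Nat.dvd_one.1 this)
  have := key n (by omega)
  have e : H ⟨n, by omega⟩ = ⊤ := hlast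
  rw [e, Subgroup.card_top] at this
  exact this

theorem dvd_of_conj {G : Type*} [Group G] [Finite G] (p q : ℕ) [hp : Fact p.Prime] [hq : Fact q.Prime]
    (h : ∀ z : G, z ≠ 1 → (∃ k : ℕ, orderOf z = q ^ k) → ∃ g h : G, IsConj z g ∧ IsConj z h ∧ g * h⁻¹ ≠ 1 ∧ ∃ k : ℕ, orderOf (g * h⁻¹) = p ^ k)
    (N : Subgroup G) (hN : N.Normal) (hq' : q ∣ Nat.card N) : p ∣ Nat.card N := by
  obtain ⟨z, hz⟩ := exists_prime_orderOf_dvd_card' q hq'
  have hz1 : (z : G) ≠ 1 := by
    intro h1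
    have : z = 1 := Subtype.ext h1
    rw [this, orderOf_one] at hz
    exact hq.out.one_lt.ne hz
  obtain ⟨g, h', hg, hh, hne, k, hk⟩ := h z hz1 ⟨1, by rw [pow_one, Subgroup.orderOf_coe]; exact hz⟩
  have hgN : g ∈ N := by
    obtain ⟨c, hc⟩ := isConj_iff.1 hg
    rw [← hc]; exact hN.conj_mem _ z.2 c
  have hhN : h' ∈ N := by
    obtain ⟨c, hc⟩ := isConj_iff.1 hh
    rw [← hc]; exact hN.conj_mem _ z.2 c
  have hmem : g * h'⁻¹ ∈ N := N.mul_mem hgN (N.inv_mem hhN)
  have hk0 : k ≠ 0 := by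
    rintro rfl
    rw [pow_zero, orderOf_eq_one_iff] at hk
    exact hne hk
  have h1 : orderOf (g * h'⁻¹) ∣ Nat.card N := by
    have := orderOf_dvd_natCard (⟨g * h'⁻¹, hmem⟩ : N)
    rwa [← Subgroup.orderOf_coe] at this
  rw [hk] at h1
  exact (dvd_pow_self p hk0).trans h1

theorem swap_hyp {G : Type*} [Group G] [Finite G] (p q : ℕ) [hp : Fact p.Prime] [hq : Fact q.Prime]
    (hC : ∀ g : G, g ≠ 1 → (∃ k : ℕ, orderOf g = p ^ k) → ¬ q ∣ Nat.card ↥(Subgroup.centralizer ({g} : Set G))) :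
    ∀ g : G, g ≠ 1 → (∃ k : ℕ, orderOf g = q ^ k) → ¬ p ∣ Nat.card ↥(Subgroup.centralizer ({g} : Set G)) := by
  intro g hg1 ⟨k, hk⟩ hpd
  obtain ⟨x, hx⟩ := exists_prime_orderOf_dvd_card' p hpd
  have hx1 : (x : G) ≠ 1 := by
    intro h1
    have : x = 1 := Subtype.ext h1
    rw [this, orderOf_one] at hx
    exact hp.out.one_lt.ne hx
  apply hC x hx1 ⟨1, by rw [pow_one, Subgroup.orderOf_coe]; exact hx⟩
  have hmem : g ∈ Subgroup.centralizer ({(x : G)} : Set G) := by
    rw [Subgroup.mem_centralizer_singleton_iff]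
    have := Subgroup.mem_centralizer_singleton_iff.1 x.2
    exact this.symm
  have hk0 : k ≠ 0 := by
    rintro rfl
    rw [pow_zero, orderOf_eq_one_iff] at hk
    exact hg1 hk
  have h1 : orderOf g ∣ Nat.card (Subgroup.centralizer ({(x : G)} : Set G)) := by
    have := orderOf_dvd_natCard (⟨g, hmem⟩ : Subgroup.centralizer ({(x : G)} : Set G))
    rwa [← Subgroup.orderOf_coe] at this
  rw [hk] at h1
  exact (dvd_pow_self q hk0).trans h1


/-- Let p ≠ q be primes dividing the order of the finite group G, suppose the centralizer of every non-identity p-element has order prime to q, and suppose G is p-solvable or q-solvable. Then G has an irreducible character of p-defect zero or an irreducible character of q-defect zero. -/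
theorem result {G : Type*} [Group G] [Finite G] (p q : ℕ) [Fact p.Prime] [Fact q.Prime] (hppq : p ≠ q) (hpG : p ∣ Nat.card G) (hqG : q ∣ Nat.card G) (hC : ∀ g : G, g ≠ 1 → (∃ k : ℕ, orderOf g = p ^ k) → ¬ q ∣ Nat.card ↥(Subgroup.centralizer ({g} : Set G))) (hsolv : Cfsg.IsPSolvable p G ∨ Cfsg.IsPSolvable q G) : (∃ χ : Cfsg.IrrCharacter G, (Cfsg.charDegree (χ : G → ℂ)).factorization p = (Nat.card G).factorization p) ∨ (∃ χ : Cfsg.IrrCharacter G, (Cfsg.charDegree (χ : G → ℂ)).factorization q = (Nat.card G).factorization q) := by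
  by_contra hcon
  push Not at hcon
  obtain ⟨hnp, hnq⟩ := hcon
  have h1 := (Cfsg.Agent.S4742.result p q hppq hpG hqG hC).resolve_left (by
    rintro ⟨χ, hχ⟩; exact hnp χ hχ)
  have h2 := (Cfsg.Agent.S4742.result q p hppq.symm hqG hpG (swap_hyp p q hC)).resolve_left (by
    rintro ⟨χ, hχ⟩; exact hnq χ hχ)
  have hP : ∀ N : Subgroup G, N.Normal → (p ∣ Nat.card N ↔ q ∣ Nat.card N) := fun N hN =>
    ⟨dvd_of_conj q p h2 N hN, dvd_of_conj p q h1 N hN⟩
  rcases hsolv with hs | hs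
  · exact chain_step p q hppq hP hs hpG
  · exact chain_step q p hppq.symm (fun N hN => (hP N hN).symm) hs hqG

end Cfsg.Agent.S4743
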