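import Cfsg.Statements.S4744
import Cfsg.Agent.Lib.Helper24.DefectZeroInv

set_option autoImplicit false
open scoped Pointwise
open Cfsg

namespace Cfsg.Agent.S4744

/-- Let p be an odd prime and G a finite group of even order divisible by p in which the centralizer of every non-identity p-element has odd order. Then either G has an irreducible character of p-defect zero, or the normalizer of every Sylow p-subgroup P of G has even order and P is abelian. -/
theorem result {G : Type*} [Group G] [Finite G] (p : ℕ) [Fact p.Prime] (hp2 : p ≠ 2) (hpG : p ∣ Nat.card G) (h2G : 2 ∣ Nat.card G) (hC : ∀ g : G, g ≠ 1 → (∃ k : ℕ, orderOf g = p ^ k) → Odd (Nat.card ↥(Subgroup.centralizer ({g} : Set G)))) : (∃ χ : Cfsg.IrrCharacter G, (Cfsg.charDegree (χ : G → ℂ)).factorization p = (Nat.card G).factorization p) ∨ ∀ P : Sylow p G, Even (Nat.card ↥(Subgroup.normalizer ((P : Subgroup G) : Set G))) ∧ IsMulCommutative ↥(P : Subgroup G) := by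
  by_cases hno : ∃ χ : Cfsg.IrrCharacter G,
      (Cfsg.charDegree (χ : G → ℂ)).factorization p = (Nat.card G).factorization p
  · exact Or.inl hno
  right
  intro P
  obtain ⟨t, ht⟩ := exists_prime_orderOf_dvd_card' 2 h2G
  obtain ⟨g, hg, hinv⟩ := Cfsg.Agent.Lib.Helper24.exists_conj_inverting p hC hno t ht P
  have hg2 : orderOf g = 2 := by rw [Cfsg.Agent.Lib.Helper24.orderOf_of_isConj hg, ht]
  constructor
  · have hgN : g ∈ Subgroup.normalizer ((P : Subgroup G) : Set G) := by
      apply Cfsg.Agent.Lib.Helper1.mem_normalizer_of_conj_mem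
      intro r hr
      rw [hinv r hr]
      exact (P : Subgroup G).inv_mem hr
    have h1 := orderOf_dvd_natCard (⟨g, hgN⟩ : Subgroup.normalizer ((P : Subgroup G) : Set G))
    rw [Subgroup.orderOf_mk, hg2] at h1
    exact even_iff_two_dvd.mpr h1
  · exact ⟨⟨fun a b => Subtype.ext
      (Cfsg.Agent.Lib.Helper24.commute_of_inverted (P : Subgroup G) hinv a a.2 b b.2)⟩⟩

end Cfsg.Agent.S4744
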