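import Cfsg.Statements.S4746
import Cfsg.Agent.Lib.Helper24.DefectZeroInv
import Cfsg.Agent.Lib.Helper24.CharInt

set_option autoImplicit false
open Cfsg
open scoped Pointwise

namespace Cfsg.Agent.S4746

open scoped ComplexConjugate
open Cfsg.Agent.Lib

theorem sq_sum_mod_two {ι : Type*} (s : Finset ι) (a : ι → ℂ)
    (ha : ∀ i ∈ s, IsIntegral ℤ (a i)) :
    ∃ β : ℂ, IsIntegral ℤ β ∧ (∑ i ∈ s, a i) ^ 2 = ∑ i ∈ s, (a i) ^ 2 + 2 * β := by
  classical
  induction s using Finset.induction_on with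
  | empty => exact ⟨0, isIntegral_zero, by simp⟩
  | insert i s hi ih =>
    obtain ⟨β, hβ, h⟩ := ih (fun j hj => ha j (Finset.mem_insert_of_mem hj))
    refine ⟨β + a i * ∑ j ∈ s, a j, ?_, ?_⟩
    · exact hβ.add ((ha i (Finset.mem_insert_self _ _)).mul
        (IsIntegral.sum _ (fun j hj => ha j (Finset.mem_insert_of_mem hj))))
    · rw [Finset.sum_insert hi, Finset.sum_insert hi, add_sq, h]; ring

theorem exists_even_degree {G : Type*} [Group G] [Finite G] (x g : G) (hx : x ≠ 1)
    (hinv : g * x * g⁻¹ = x⁻¹)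
    (hodd : Odd (Nat.card (Subgroup.centralizer ({x} : Set G)))) :
    ∃ χ : Cfsg.IrrCharacter G, Even (Cfsg.charDegree (χ : G → ℂ)) := by
  classical
  by_contra hne
  push Not at hne
  cases nonempty_fintype G
  have := Helper2.finite_irr (G := G)
  cases nonempty_fintype (Cfsg.IrrCharacter G)
  have hchar : ∀ χ : IrrCharacter G, IsCharacter G (χ : G → ℂ) :=
    fun χ => Helper2.IsIrrCharacter.isCharacter χ.2
  have hint : ∀ χ : IrrCharacter G, IsIntegral ℤ ((χ : G → ℂ) x) :=
    fun χ => Helper24.char_isIntegral (hchar χ) x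
  have hreal : ∀ χ : IrrCharacter G, conj ((χ : G → ℂ) x) = (χ : G → ℂ) x := by
    intro χ
    rw [← Helper2.IsCharacter.apply_inv (hchar χ) x, ← hinv]
    exact (Helper2.IsCharacter.isClassFunction (hchar χ)) x g
  have h1 := Helper2.column_orthogonality x x
  have h2 := Helper2.column_orthogonality x 1
  rw [if_pos (IsConj.refl x)] at h1
  have hx1 : ¬ IsConj x 1 := by
    intro h
    exact hx (isConj_one_left.mp h)
  rw [if_neg hx1] at h2
  have hm : ∀ χ : IrrCharacter G, ∃ m : ℕ, Cfsg.charDegree (χ : G → ℂ) = 2 * m + 1 := by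
    intro χ
    exact Nat.not_even_iff_odd.mp (hne χ)
  choose m hm using hm
  have hdeg : ∀ χ : IrrCharacter G, conj ((χ : G → ℂ) 1) = 2 * (m χ : ℂ) + 1 := by
    intro χ
    rw [← Helper24.charDegree_cast (hchar χ), hm χ, Complex.conj_natCast]
    push_cast
    ring
  simp_rw [hdeg] at h2
  simp_rw [hreal] at h1
  set α : ℂ := ∑ χ : IrrCharacter G, (m χ : ℂ) * (χ : G → ℂ) x with hα
  have hαint : IsIntegral ℤ α := by
    apply IsIntegral.sum
    intro χ _
    exact (isIntegral_natCast (R := ℤ) (B := ℂ) (m χ)).mul (hint χ)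
  have hsum : ∑ χ : IrrCharacter G, (χ : G → ℂ) x = -2 * α := by
    have : ∑ χ : IrrCharacter G, (χ : G → ℂ) x * (2 * (m χ : ℂ) + 1)
        = 2 * α + ∑ χ : IrrCharacter G, (χ : G → ℂ) x := by
      rw [hα, Finset.mul_sum, ← Finset.sum_add_distrib]
      apply Finset.sum_congr rfl
      intro χ _
      ring
    rw [this] at h2
    linear_combination h2
  obtain ⟨β, hβ, hsq⟩ := sq_sum_mod_two Finset.univ (fun χ : IrrCharacter G => (χ : G → ℂ) x)
    (fun χ _ => hint χ)
  have h1' : ∑ χ : IrrCharacter G, ((χ : G → ℂ) x) ^ 2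
      = (Nat.card (Subgroup.centralizer ({x} : Set G)) : ℂ) := by
    rw [← h1]
    apply Finset.sum_congr rfl
    intro χ _
    ring
  rw [hsum, h1'] at hsq
  have hfin : ((Nat.card (Subgroup.centralizer ({x} : Set G)) : ℕ) : ℂ) / ((2 : ℕ) : ℂ)
      = 2 * α ^ 2 - β := by
    push_cast
    field_simp
    linear_combination (-1 : ℂ) * hsq
  have hI : IsIntegral ℤ (((Nat.card (Subgroup.centralizer ({x} : Set G)) : ℕ) : ℂ) / ((2 : ℕ) : ℂ)) := by
    rw [hfin]
    have h2i : IsIntegral ℤ (2 : ℂ) := by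
      have := isIntegral_natCast (R := ℤ) (B := ℂ) 2
      simpa using this
    exact (h2i.mul (hαint.pow 2)).sub hβ
  have hdvd := Helper24.nat_dvd_of_isIntegral_div (by norm_num) hI
  exact (Nat.not_even_iff_odd.mpr hodd) (even_iff_two_dvd.mpr hdvd)


/-- Let p be an odd prime and G a finite group of even order divisible by p in which the centralizer of every non-identity p-element has odd order. Then G has an irreducible character of p-defect zero or an irreducible character of even degree. -/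
theorem result {G : Type*} [Group G] [Finite G] (p : ℕ) [Fact p.Prime] (hp2 : p ≠ 2) (hpG : p ∣ Nat.card G) (h2G : 2 ∣ Nat.card G) (hC : ∀ g : G, g ≠ 1 → (∃ k : ℕ, orderOf g = p ^ k) → Odd (Nat.card ↥(Subgroup.centralizer ({g} : Set G)))) : (∃ χ : Cfsg.IrrCharacter G, (Cfsg.charDegree (χ : G → ℂ)).factorization p = (Nat.card G).factorization p) ∨ ∃ χ : Cfsg.IrrCharacter G, Even (Cfsg.charDegree (χ : G → ℂ)) := by
  by_cases hno : ∃ χ : Cfsg.IrrCharacter G,
      (Cfsg.charDegree (χ : G → ℂ)).factorization p = (Nat.card G).factorization p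
  · exact Or.inl hno
  right
  obtain ⟨t, ht⟩ := exists_prime_orderOf_dvd_card' 2 h2G
  obtain ⟨x, hxo⟩ := exists_prime_orderOf_dvd_card' p hpG
  have hx1 : x ≠ 1 := by
    rintro rfl
    rw [orderOf_one] at hxo
    exact (Fact.out : p.Prime).one_lt.ne hxo
  obtain ⟨P, hP⟩ := (IsPGroup.of_card (p := p) (n := 1)
    (by rw [Nat.card_zpowers, hxo, pow_one]) : IsPGroup p (Subgroup.zpowers x)).exists_le_sylow
  obtain ⟨g, hg, hinv⟩ := Cfsg.Agent.Lib.Helper24.exists_conj_inverting p hC hno t ht P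
  exact exists_even_degree x g hx1 (hinv x (hP (Subgroup.mem_zpowers x)))
    (hC x hx1 ⟨1, by rw [hxo, pow_one]⟩)

end Cfsg.Agent.S4746
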