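import Cfsg.Statements.S4748
import Mathlib
import Cfsg.Agent.Lib.Helper25.TIFaith2
import Cfsg.Agent.Lib.Helper17.SylGraph3

set_option autoImplicit false
open scoped Pointwise
open Cfsg

namespace Cfsg.Agent.S4748

open Cfsg.Agent.Lib.Helper2 Cfsg.Agent.Lib.Helper6 Cfsg.Agent.Lib.Helper24
open Cfsg.Agent.Lib.Helper25.TIFaith

section
variable {G : Type*} [Group G] [Finite G] {p : ℕ} [Fact p.Prime] (P : Sylow p G)

theorem mem_conj_smul {H : Subgroup G} {g x : G} (hx : g⁻¹ * x * g ∈ H) :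
    x ∈ MulAut.conj g • H := by
  have h1 := Subgroup.smul_mem_pointwise_smul _ (MulAut.conj g) H hx
  rw [MulAut.smul_def, MulAut.conj_apply] at h1
  have h2 : g * (g⁻¹ * x * g) * g⁻¹ = x := by group
  rwa [h2] at h1

/-- consequence of the trivial intersection property -/
theorem mem_normalizer_of_TI
    (hTI : ∀ g : G, g ∉ Subgroup.normalizer ((P : Subgroup G) : Set G) →
      (P : Subgroup G) ⊓ (MulAut.conj g • (P : Subgroup G)) = ⊥)
    {g x : G} (hx : x ∈ (P : Subgroup G)) (hx1 : x ≠ 1) (hgx : g⁻¹ * x * g ∈ (P : Subgroup G)) :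
    g ∈ Subgroup.normalizer ((P : Subgroup G) : Set G) := by
  by_contra hg
  have h1 := hTI g hg
  have h2 : x ∈ (P : Subgroup G) ⊓ (MulAut.conj g • (P : Subgroup G)) :=
    Subgroup.mem_inf.mpr ⟨hx, mem_conj_smul hgx⟩
  rw [h1, Subgroup.mem_bot] at h2
  exact hx1 h2

theorem normal_le_sylow {N : Subgroup G} (hN : N.Normal) (hNp : IsPGroup p N) :
    N ≤ (P : Subgroup G) := by
  obtain ⟨Q, hQ⟩ := hNp.exists_le_sylow
  obtain ⟨g, hg⟩ := MulAction.exists_smul_eq G Q P
  intro n hn
  rw [← hg, Sylow.coe_subgroup_smul]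
  apply mem_conj_smul
  apply hQ
  have := hN.conj_mem n hn g⁻¹
  rwa [inv_inv] at this

theorem no_normal_pSubgroup
    (hTI : ∀ g : G, g ∉ Subgroup.normalizer ((P : Subgroup G) : Set G) →
      (P : Subgroup G) ⊓ (MulAut.conj g • (P : Subgroup G)) = ⊥)
    (hnn : ¬ (P : Subgroup G).Normal) {N : Subgroup G} (hN : N.Normal) (hNp : IsPGroup p N) :
    N = ⊥ := by
  by_contra hne
  obtain ⟨⟨n, hn⟩, hn1'⟩ := Subgroup.ne_bot_iff_exists_ne_one.mp hne
  have hn1 : n ≠ 1 := fun he => hn1' (Subtype.ext he)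
  apply hnn
  rw [← Subgroup.normalizer_eq_top_iff, eq_top_iff]
  intro g _
  have hle := normal_le_sylow P hN hNp
  apply mem_normalizer_of_TI P hTI (hle hn) hn1
  apply hle
  have := hN.conj_mem n hn g⁻¹
  rwa [inv_inv] at this

theorem of_mem_conj_smul {H : Subgroup G} {g x : G} (hx : x ∈ MulAut.conj g • H) :
    g⁻¹ * x * g ∈ H := by
  rw [Subgroup.mem_pointwise_smul_iff_inv_smul_mem, MulAut.smul_def, MulAut.conj_inv_apply] at hx
  exact hx

theorem not_centralizes
    (hTI : ∀ g : G, g ∉ Subgroup.normalizer ((P : Subgroup G) : Set G) →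
      (P : Subgroup G) ⊓ (MulAut.conj g • (P : Subgroup G)) = ⊥)
    (hnn : ¬ (P : Subgroup G).Normal) {K L : Subgroup G} (hK : K.Normal) (hL : L.Normal)
    (hKL : K ≤ L) (hKp : (Nat.card K).Coprime p) (hLp : p ∣ Nat.card L) {m : ℕ}
    (hm : K.relIndex L = p ^ m) :
    ¬ ∀ x ∈ (P : Subgroup G), ∀ y ∈ K, x * y = y * x := by
  intro hcen
  have hp : p.Prime := Fact.out
  haveI := hL
  obtain ⟨S⟩ : Nonempty (Sylow p L) := inferInstance
  obtain ⟨S', hS'⟩ : ∃ S' : Subgroup G, S' = (S : Subgroup L).map L.subtype := ⟨_, rfl⟩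
  have hS'p : IsPGroup p S' := by rw [hS']; exact S.isPGroup'.map L.subtype
  have hS'L : S' ≤ L := by rw [hS']; exact Subgroup.map_subtype_le _
  have hS'card : Nat.card S' = p ^ (Nat.card L).factorization p := by
    rw [hS', Subgroup.card_map_of_injective L.subtype_injective]
    exact S.card_eq_multiplicity
  obtain ⟨Q, hQ⟩ := hS'p.exists_le_sylow
  obtain ⟨g, hg⟩ := MulAction.exists_smul_eq G P Q
  have hS'cen : ∀ s ∈ S', ∀ k ∈ K, s * k = k * s := by
    intro s hs k hk
    have h1 : s ∈ (Q : Subgroup G) := hQ hs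
    rw [← hg, Sylow.coe_subgroup_smul] at h1
    have h2 := of_mem_conj_smul h1
    have h3 : g⁻¹ * k * g ∈ K := by
      have := hK.conj_mem k hk g⁻¹
      rwa [inv_inv] at this
    have h4 := hcen _ h2 _ h3
    calc s * k = g * ((g⁻¹ * s * g) * (g⁻¹ * k * g)) * g⁻¹ := by group
      _ = g * ((g⁻¹ * k * g) * (g⁻¹ * s * g)) * g⁻¹ := by rw [h4]
      _ = k * s := by group
  have hcardL := Cfsg.Agent.Lib.Helper17.relIndex_mul_card_of_le hKL
  have hsup : K ⊔ S' = L := by
    apply Subgroup.eq_of_le_of_card_ge (sup_le hKL hS'L)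
    apply Nat.le_of_dvd Nat.card_pos
    have h1 : Nat.card K ∣ Nat.card (K ⊔ S' : Subgroup G) := Subgroup.card_dvd_of_le le_sup_left
    have h2 : Nat.card S' ∣ Nat.card (K ⊔ S' : Subgroup G) := Subgroup.card_dvd_of_le le_sup_right
    have h3 : (Nat.card K).Coprime (Nat.card S') := by
      rw [hS'card]; exact Nat.Coprime.pow_right _ hKp
    have h4 := Nat.Coprime.mul_dvd_of_dvd_of_dvd h3 h1 h2
    refine Dvd.dvd.trans ?_ h4
    rw [← hcardL, hm, mul_comm, hS'card]
    apply Nat.mul_dvd_mul_left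
    apply pow_dvd_pow
    apply (Nat.Prime.pow_dvd_iff_le_factorization hp Nat.card_pos.ne').mp
    rw [← hcardL, hm]
    exact Dvd.intro _ rfl
  have hfr := Sylow.normalizer_sup_eq_top S
  rw [← hS'] at hfr
  have hLn : L ≤ Subgroup.normalizer (S' : Set G) := by
    rw [← hsup]
    apply sup_le
    · apply le_normalizer_of_forall
      intro k hk s hs
      rw [← hS'cen s hs k hk]
      simpa using hs
    · exact Subgroup.le_normalizer
  have htop : Subgroup.normalizer (S' : Set G) = ⊤ := by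
    rw [← hfr]; exact (sup_eq_left.mpr hLn).symm
  have hS'n : S'.Normal := Subgroup.normalizer_eq_top_iff.mp htop
  have hbot := no_normal_pSubgroup P hTI hnn hS'n hS'p
  rw [hbot, Subgroup.card_bot] at hS'card
  have h1 : 1 ≤ (Nat.card L).factorization p :=
    (Nat.Prime.dvd_iff_one_le_factorization hp Nat.card_pos.ne').mp hLp
  have h2 : p ∣ p ^ (Nat.card L).factorization p := dvd_pow_self p (by omega)
  rw [← hS'card] at h2
  exact hp.one_lt.ne' (Nat.dvd_one.mp h2)

end

/-- Let G be a finite p-solvable group whose Sylow p-subgroup P meets each conjugate g P g⁻¹ with g outside N_G(P) trivially, and let χ be a faithful character of G (χ g = χ 1 only for g = 1) whose degree d satisfies d² ≤ |P|. Then P is normal in G. -/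
theorem result {G : Type*} [Group G] [Finite G] (p : ℕ) [Fact p.Prime] (hsolv : Cfsg.IsPSolvable p G) (P : Sylow p G) (hTI : ∀ g : G, g ∉ Subgroup.normalizer ((P : Subgroup G) : Set G) → (P : Subgroup G) ⊓ (MulAut.conj g • (P : Subgroup G)) = ⊥) (χ : G → ℂ) (hχ : Cfsg.IsCharacter G χ) (hfaith : ∀ g : G, χ g = χ 1 → g = 1) (hdeg : Cfsg.charDegree χ ^ 2 ≤ Nat.card ↥(P : Subgroup G)) : (P : Subgroup G).Normal := by
  classical
  have hp : p.Prime := Fact.out
  by_contra hnn
  have hdiv : p ∣ Nat.card G := by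
    by_contra hnd
    apply hnn
    have h1 := P.card_eq_multiplicity
    rw [Nat.factorization_eq_zero_of_not_dvd hnd, pow_zero] at h1
    rw [Subgroup.eq_bot_of_card_eq _ h1]
    infer_instance
  obtain ⟨K, L, hK, hL, hKL, hKp, hLp, m, hm⟩ :=
    Cfsg.Agent.Lib.Helper17.exists_pair_of_isPSolvable hsolv hdiv
  have hnc := not_centralizes P hTI hnn hK hL hKL hKp hLp hm
  -- a minimal invariant subgroup which is not centralized
  obtain ⟨X, hX, hmin⟩ := WellFounded.has_min (wellFounded_lt (α := Subgroup G))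
    {X : Subgroup G | X ≤ K ∧ (∀ x ∈ (P : Subgroup G), ∀ y ∈ X, x * y * x⁻¹ ∈ X) ∧
      ¬ ∀ x ∈ (P : Subgroup G), ∀ y ∈ X, x * y = y * x}
    ⟨K, le_rfl, fun x _ y hy => hK.conj_mem y hy x, hnc⟩
  obtain ⟨hXK, hXinv, hXnc⟩ := hX
  have hXcop : (Nat.card X).Coprime p :=
    Nat.Coprime.of_dvd_left (Subgroup.card_dvd_of_le hXK) hKp
  have hPX : (P : Subgroup G) ⊓ X = ⊥ := by
    apply Subgroup.inf_eq_bot_of_coprime
    obtain ⟨n, hn⟩ := IsPGroup.iff_card.mp P.isPGroup'
    rw [hn]
    exact (Nat.Coprime.pow_right n hXcop).symm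
  have hcfg : Cfg p (P : Subgroup G) X :=
    { pgrp := P.isPGroup'
      inv := hXinv
      cop := hXcop
      nc := hXnc
      min := by
        intro Y hYX hne hYinv
        by_contra hYnc
        exact hmin Y ⟨hYX.trans hXK, hYinv, hYnc⟩ (lt_of_le_of_ne hYX hne)
      fix := by
        intro x hx hx1 c hc hxc y hy
        have hcn : c ∈ Subgroup.normalizer ((P : Subgroup G) : Set G) := by
          apply mem_normalizer_of_TI P hTI hx hx1
          have : c⁻¹ * x * c = x := by
            rw [mul_assoc, hxc]; group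
          rw [this]; exact hx
        have h1 : c * y * c⁻¹ * y⁻¹ ∈ (P : Subgroup G) :=
          mul_mem ((Subgroup.mem_normalizer_iff.mp hcn y).mp hy) (inv_mem hy)
        have h2 : c * y * c⁻¹ * y⁻¹ ∈ X := by
          have h3 := hXinv y hy c⁻¹ (inv_mem hc)
          have h4 : c * y * c⁻¹ * y⁻¹ = c * (y * c⁻¹ * y⁻¹) := by group
          rw [h4]
          exact mul_mem hc h3
        have h5 : c * y * c⁻¹ * y⁻¹ ∈ (P : Subgroup G) ⊓ X := Subgroup.mem_inf.mpr ⟨h1, h2⟩
        rw [hPX, Subgroup.mem_bot] at h5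
        calc y * c = (c * y * c⁻¹ * y⁻¹)⁻¹ * (c * y) := by group
          _ = c * y := by rw [h5]; group }
  have hlt := hcfg.card_lt (Ψ := fun y : X => χ y) (IsCharacter.restrict X hχ)
    (fun y hy => Subtype.ext (hfaith y hy))
    (fun x y => IsCharacter.isClassFunction hχ y x)
  have hd : charDegree (fun y : X => χ y) = charDegree χ := rfl
  rw [hd] at hlt
  omega

end Cfsg.Agent.S4748
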