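import Cfsg.Statements.S4750
import Mathlib
import Cfsg.Agent.Lib.Helper2.TINorm4
import Cfsg.Agent.Lib.Helper2.CharBase
import Cfsg.Agent.Lib.Helper24.CharInt

set_option autoImplicit false
open scoped Pointwise
open Cfsg

namespace Cfsg.Agent.S4750

/-- Let P be a Sylow p-subgroup of the finite group G that meets each conjugate g P g⁻¹ with g outside N_G(P) trivially, χ a character of G with χ(1)² ≤ |P|, and H a subgroup of G containing N_G(P). Then the inner product of χ with itself over G equals the inner product over H of the restriction of χ to H. -/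
theorem result {G : Type*} [Group G] [Fintype G] [DecidableEq G] (p : ℕ) [Fact p.Prime] (P : Sylow p G) (hTI : ∀ g : G, g ∉ Subgroup.normalizer ((P : Subgroup G) : Set G) → (P : Subgroup G) ⊓ (MulAut.conj g • (P : Subgroup G)) = ⊥) (χ : G → ℂ) (hχ : Cfsg.IsCharacter G χ) (hdeg : Cfsg.charDegree χ ^ 2 ≤ Nat.card ↥(P : Subgroup G)) (H : Subgroup G) [Fintype ↥H] (hH : Subgroup.normalizer ((P : Subgroup G) : Set G) ≤ H) : Cfsg.classInner χ χ = Cfsg.classInner (fun h : ↥H => χ h) (fun h : ↥H => χ h) := by
  have hdc := Cfsg.Agent.Lib.Helper24.charDegree_cast hχ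
  obtain ⟨n, ρ, rfl⟩ := hχ
  have hn : Cfsg.charDegree ρ.character = Module.finrank ℂ (Fin n → ℂ) := by
    rw [Representation.char_one] at hdc
    exact_mod_cast hdc
  rw [hn] at hdeg
  let ρH : Representation ℂ ↥H (Fin n → ℂ) := ρ.comp H.subtype
  have hρH : (fun h : ↥H => ρ.character h) = ρH.character := rfl
  rw [hρH, Cfsg.Agent.Lib.Helper2.classInner_char_eq_finrank,
    Cfsg.Agent.Lib.Helper2.classInner_char_eq_finrank]
  let res : Representation.IntertwiningMap ρ ρ →ₗ[ℂ] Representation.IntertwiningMap ρH ρH :=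
    { toFun := fun f => ⟨f.toLinearMap, fun h => f.isIntertwining' h⟩
      map_add' := fun _ _ => rfl
      map_smul' := fun _ _ => rfl }
  have hinj : Function.Injective res := by
    intro f g hfg
    apply Representation.IntertwiningMap.ext
    exact congrArg (fun z : Representation.IntertwiningMap ρH ρH => z.toLinearMap) hfg
  have hsurj : Function.Surjective res := by
    intro f
    refine ⟨⟨f.toLinearMap, Cfsg.Agent.Lib.Helper2.TINorm.invariant_of_H ρ p P hTI H hH hdeg
      f.toLinearMap (fun h hh => f.isIntertwining' ⟨h, hh⟩)⟩, ?_⟩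
    exact Representation.IntertwiningMap.ext rfl
  exact_mod_cast (LinearEquiv.ofBijective res ⟨hinj, hsurj⟩).finrank_eq

end Cfsg.Agent.S4750
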