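import Cfsg.Statements.S4754
import Cfsg.Agent.Lib.Helper24.ClassCount

set_option autoImplicit false
open scoped Pointwise
open Cfsg

namespace Cfsg.Agent.S4754

open Cfsg.Agent.Lib.Helper24 Cfsg.Agent.Lib.Helper2 Cfsg.Agent.Lib.Helper6 in
/-- For elements x, y of a finite group G, the conjugacy class of x y equals the set of all products of a conjugate of x with a conjugate of y if and only if χ(1) χ(a x a⁻¹ b y b⁻¹) = χ(x) χ(y) for all a, b ∈ G and every irreducible character χ. -/
theorem result {G : Type*} [Group G] [Finite G] (x y : G) : (∀ z : G, IsConj (x * y) z ↔ ∃ a b : G, z = a * x * a⁻¹ * (b * y * b⁻¹)) ↔ ∀ (a b : G) (χ : Cfsg.IrrCharacter G), (χ : G → ℂ) 1 * (χ : G → ℂ) (a * x * a⁻¹ * (b * y * b⁻¹)) = (χ : G → ℂ) x * (χ : G → ℂ) y := by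
  cases nonempty_fintype G
  constructor
  · intro H a b χ
    have hcl := irr_isClassFunction χ.2
    have h1 : (χ : G → ℂ) 1 ≠ 0 := irr_one_ne_zero χ.2
    have hG0 : (Nat.card G : ℂ) ≠ 0 := card_ne_zero_complex
    have hconst : ∀ c : G, (χ : G → ℂ) (c * x * c⁻¹ * (b * y * b⁻¹)) = (χ : G → ℂ) (x * y) := by
      intro c
      exact (Cfsg.Agent.Lib.Helper2.IsClassFunction.eq_of_isConj hcl ((H _).mpr ⟨c, b, rfl⟩)).symm
    have havg := schur_average χ.2 x (b * y * b⁻¹)
    simp only [hconst, Finset.sum_const, Finset.card_univ, nsmul_eq_mul, hcl y b] at havg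
    rw [← Nat.card_eq_fintype_card] at havg
    rw [hconst a]
    field_simp at havg
    linear_combination havg
  · intro H z
    constructor
    · intro hz
      obtain ⟨c, rfl⟩ := isConj_iff.mp hz
      exact ⟨c, c, by group⟩
    · rintro ⟨a, b, rfl⟩
      apply isConj_of_forall_irr_eq
      intro χ
      have h1 : (χ : G → ℂ) 1 ≠ 0 := irr_one_ne_zero χ.2
      have e1 := H a b χ
      have e2 := H 1 1 χ
      simp only [one_mul, inv_one, mul_one] at e2
      exact mul_left_cancel₀ h1 (e2.trans e1.symm)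

end Cfsg.Agent.S4754
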