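import Cfsg.Statements.S4755
import Cfsg.Agent.Lib.Helper24.ClassCount
import Cfsg.Agent.Lib.Helper2.Linear

set_option autoImplicit false
open scoped Pointwise
open Cfsg

namespace Cfsg.Agent.S4755

open Cfsg.Agent.Lib.Helper24 Cfsg.Agent.Lib.Helper2 Cfsg.Agent.Lib.Helper6
open scoped ComplexConjugate

attribute [local instance] irrFintype

/-- If every non-linear irreducible character vanishes at `g`, the class of `g` is `g G'`. -/
theorem class_eq_coset {G : Type*} [Group G] [Finite G] (g : G)
    (hg : ∀ χ : Cfsg.IrrCharacter G, (χ : G → ℂ) 1 ≠ 1 → (χ : G → ℂ) g = 0) :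
    ∀ z : G, IsConj g z ↔ g⁻¹ * z ∈ commutator G := by
  classical
  cases nonempty_fintype G
  have hsub : ∀ z : G, IsConj g z → g⁻¹ * z ∈ commutator G := by
    intro z hz
    obtain ⟨c, rfl⟩ := isConj_iff.mp hz
    rw [commutator_def]
    have := Subgroup.commutator_mem_commutator (Subgroup.mem_top g⁻¹) (Subgroup.mem_top c)
    rw [commutatorElement_def, inv_inv] at this
    convert this using 1
    group
  have hcol := column_orthogonality g g
  rw [if_pos (IsConj.refl g)] at hcol
  have hterm : ∀ χ : IrrCharacter G, (χ : G → ℂ) g * conj ((χ : G → ℂ) g) =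
      if (χ : G → ℂ) 1 = 1 then 1 else 0 := by
    intro χ
    split_ifs with h1
    · obtain ⟨lam, hlam⟩ := exists_hom_of_degree_one (IsIrrCharacter.isCharacter χ.2) h1
      rw [hlam, Complex.mul_conj]
      have h2 : ((lam g : ℂˣ) : ℂ) ^ orderOf g = 1 := by
        rw [← Units.val_pow_eq_pow_val, ← map_pow, pow_orderOf_eq_one, map_one, Units.val_one]
      have h3 := Complex.norm_eq_one_of_pow_eq_one h2 (orderOf_pos g).ne'
      rw [Complex.normSq_eq_norm_sq, h3]
      simp
    · rw [hg χ h1, zero_mul]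
  simp only [hterm] at hcol
  rw [Finset.sum_boole] at hcol
  have hcent : Nat.card (Subgroup.centralizer ({g} : Set G)) = (commutator G).index := by
    rw [← card_linear_characters, Nat.card_eq_fintype_card (α := {χ : IrrCharacter G // _}),
      Fintype.card_subtype]
    exact_mod_cast hcol.symm
  have hA : Nat.card {z : G // IsConj g z} = Nat.card (commutator G) := by
    have h1 := card_isConj_mul_card_centralizer g
    rw [hcent, ← Subgroup.card_mul_index (commutator G)] at h1
    exact Nat.eq_of_mul_eq_mul_right (Nat.pos_of_ne_zero Subgroup.index_ne_zero_of_finite) h1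
  have hB : Nat.card {z : G // g⁻¹ * z ∈ commutator G} = Nat.card (commutator G) := by
    refine Nat.card_congr ⟨fun z => ⟨g⁻¹ * z.1, z.2⟩, fun c => ⟨g * c.1, by simp⟩, ?_, ?_⟩
    · intro z; ext; simp
    · intro c; ext; simp
  have hset : {z : G | IsConj g z} = {z : G | g⁻¹ * z ∈ commutator G} := by
    have hle : ({z : G | g⁻¹ * z ∈ commutator G} : Set G).ncard ≤
        ({z : G | IsConj g z} : Set G).ncard := by
      rw [← Nat.card_coe_set_eq, ← Nat.card_coe_set_eq]
      exact le_of_eq (hB.trans hA.symm)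
    exact Set.eq_of_subset_of_ncard_le (fun z hz => hsub z hz) hle (Set.toFinite _)
  intro z
  exact ⟨hsub z, fun hz => by
    have : z ∈ {z : G | g⁻¹ * z ∈ commutator G} := hz
    rw [← hset] at this
    exact this⟩

/-- Let x, y be non-identity elements of the finite group G such that χ(x' y') = χ(x') χ(y') for all conjugates x' of x, y' of y and every irreducible character χ. Then the conjugacy class of x y is the set of all products of a conjugate of x with a conjugate of y; every irreducible character of degree greater than 1 vanishes at x y; and the conjugacy class of x y is the coset of the commutator subgroup containing x y. -/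
theorem result {G : Type*} [Group G] [Finite G] (x y : G) (hx : x ≠ 1) (hy : y ≠ 1) (h : ∀ (a b : G) (χ : Cfsg.IrrCharacter G), (χ : G → ℂ) (a * x * a⁻¹ * (b * y * b⁻¹)) = (χ : G → ℂ) (a * x * a⁻¹) * (χ : G → ℂ) (b * y * b⁻¹)) : (∀ z : G, IsConj (x * y) z ↔ ∃ a b : G, z = a * x * a⁻¹ * (b * y * b⁻¹)) ∧ (∀ χ : Cfsg.IrrCharacter G, (χ : G → ℂ) 1 ≠ 1 → (χ : G → ℂ) (x * y) = 0) ∧ (∀ z : G, IsConj (x * y) z ↔ (x * y)⁻¹ * z ∈ commutator G) := by
  cases nonempty_fintype G
  have hval : ∀ (a b : G) (χ : Cfsg.IrrCharacter G),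
      (χ : G → ℂ) (a * x * a⁻¹ * (b * y * b⁻¹)) = (χ : G → ℂ) x * (χ : G → ℂ) y := by
    intro a b χ
    have hcl := irr_isClassFunction χ.2
    rw [h a b χ, hcl x a, hcl y b]
  have hxy : ∀ χ : Cfsg.IrrCharacter G, (χ : G → ℂ) (x * y) = (χ : G → ℂ) x * (χ : G → ℂ) y := by
    intro χ
    have := hval 1 1 χ
    simpa using this
  have hvan : ∀ χ : Cfsg.IrrCharacter G, (χ : G → ℂ) 1 ≠ 1 → (χ : G → ℂ) (x * y) = 0 := by
    intro χ hχ1
    have h1 : (χ : G → ℂ) 1 ≠ 0 := irr_one_ne_zero χ.2
    have hG0 : (Nat.card G : ℂ) ≠ 0 := card_ne_zero_complex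
    have havg := schur_average χ.2 x y
    have hconst : ∀ c : G, (χ : G → ℂ) (c * x * c⁻¹ * y) = (χ : G → ℂ) x * (χ : G → ℂ) y := by
      intro c
      have := hval c 1 χ
      simpa using this
    simp only [hconst, Finset.sum_const, Finset.card_univ, nsmul_eq_mul] at havg
    rw [← Nat.card_eq_fintype_card] at havg
    rw [hxy χ]
    field_simp at havg
    have h2 : ((χ : G → ℂ) x * (χ : G → ℂ) y) * ((χ : G → ℂ) 1 - 1) = 0 := by
      linear_combination havg
    rcases mul_eq_zero.mp h2 with h3 | h3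
    · exact h3
    · exact absurd (sub_eq_zero.mp h3) hχ1
  refine ⟨?_, hvan, class_eq_coset (x * y) hvan⟩
  intro z
  constructor
  · intro hz
    obtain ⟨c, rfl⟩ := isConj_iff.mp hz
    exact ⟨c, c, by group⟩
  · rintro ⟨a, b, rfl⟩
    apply isConj_of_forall_irr_eq
    intro χ
    rw [hxy χ, hval a b χ]

end Cfsg.Agent.S4755
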