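import Cfsg.Statements.S4763
import Cfsg.Agent.S4452
import Cfsg.Agent.Lib.Helper24.OneDeg
-- import your own Cfsg.Agent.* helpers here

set_option autoImplicit false
open Cfsg

namespace Cfsg.Agent.S4763

open Cfsg.Agent.Lib.Helper24 Cfsg.Agent.Lib.Helper6 Cfsg.Agent.Lib.Helper2

/-- Let p be a prime and G a finite group that is not nilpotent and has a normal p-complement (a normal subgroup of order prime to p and index a power of p). If G has exactly one irreducible complex character of degree divisible by p, then G has exactly one conjugacy class whose size is divisible by p. -/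
theorem result {G : Type*} [Group G] [Finite G] (p : ℕ) [Fact p.Prime] (hnil : ¬ Group.IsNilpotent G) (N : Subgroup G) [N.Normal] (hN : (Nat.card N).Coprime p) (hidx : ∃ k : ℕ, N.index = p ^ k) (hone : Nat.card {χ : Cfsg.IrrCharacter G // p ∣ Cfsg.charDegree (χ : G → ℂ)} = 1) : Nat.card {C : ConjClasses G // p ∣ Nat.card C.carrier} = 1 := by
  classical
  cases nonempty_fintype G
  have hp : p.Prime := Fact.out
  obtain ⟨k, hk⟩ := hidx
  obtain ⟨hss, ⟨χ0, hχ0⟩⟩ := Nat.card_eq_one_iff_unique.mp hone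
  have huniq : ∀ χ ψ : Cfsg.IrrCharacter G, p ∣ Cfsg.charDegree (χ : G → ℂ) →
      p ∣ Cfsg.charDegree (ψ : G → ℂ) → χ = ψ := fun χ ψ h1 h2 =>
    congrArg Subtype.val (hss.elim ⟨χ, h1⟩ ⟨ψ, h2⟩)
  have hcomm := quotient_comm_of_unique_degree N hk hnil huniq
  have hNp : ¬ p ∣ Nat.card N := fun h => (Nat.Prime.coprime_iff_not_dvd hp).mp hN.symm h
  have hcardG : Nat.card G = Nat.card N * p ^ k := by
    rw [← hk, Subgroup.card_mul_index]
  have hk0 : k ≠ 0 := by
    rintro rfl
    rw [pow_zero, mul_one] at hcardG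
    exact hNp (hcardG ▸ dvd_trans hχ0 (degree_dvd_card χ0.2))
  obtain ⟨P⟩ : Nonempty (Sylow p G) := inferInstance
  have hPcard : Nat.card (P : Subgroup G) = p ^ k := by
    rw [P.card_eq_multiplicity, hcardG, Nat.factorization_mul Nat.card_pos.ne' (pow_ne_zero _ hp.ne_zero),
      Finsupp.add_apply, Nat.factorization_eq_zero_of_not_dvd hNp, zero_add,
      Nat.Prime.factorization_pow hp, Finsupp.single_eq_same]
  have hPN : (P : Subgroup G) ⊓ N = ⊥ := inf_eq_bot_of_pGroup hNp P.2
  have hcop : (Nat.card N).Coprime (Nat.card (P : Subgroup G)) := by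
    rw [hPcard]
    exact Nat.Coprime.pow_right _ hN
  have hsup : N ⊔ (P : Subgroup G) = ⊤ := by
    apply Subgroup.eq_top_of_card_eq
    rw [card_sup_of_coprime hNp P.2, hPcard, hcardG]
  have hPcomm : ∀ a ∈ (P : Subgroup G), ∀ b ∈ (P : Subgroup G), a * b = b * a := by
    intro a ha b hb
    have h1 : ((a * b : G) : G ⧸ N) = ((b * a : G) : G ⧸ N) := hcomm a b
    rw [QuotientGroup.eq] at h1
    have h2 : (a * b)⁻¹ * (b * a) ∈ (P : Subgroup G) ⊓ N :=
      ⟨(P : Subgroup G).mul_mem ((P : Subgroup G).inv_mem ((P : Subgroup G).mul_mem ha hb)) ((P : Subgroup G).mul_mem hb ha), h1⟩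
    rw [hPN, Subgroup.mem_bot] at h2
    calc a * b = a * b * ((a * b)⁻¹ * (b * a)) := by rw [h2, mul_one]
      _ = b * a := by group
  have hH : Subgroup.normalizer ((P : Subgroup G) : Set G) ≤
      Subgroup.centralizer ((P : Subgroup G) : Set G) := by
    intro h hh
    obtain ⟨n, hn, x, hx, rfl⟩ := exists_mul_of_mem_sup (K := N) (Q := (P : Subgroup G))
      (x := h) (by rw [hsup]; trivial)
    have hnn : n ∈ Subgroup.normalizer ((P : Subgroup G) : Set G) := by
      have : n = n * x * x⁻¹ := by group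
      rw [this]
      exact Subgroup.mul_mem _ hh (Subgroup.inv_mem _ (Subgroup.le_normalizer hx))
    rw [Subgroup.mem_centralizer_iff]
    intro y hy
    have h1 : n * y * n⁻¹ ∈ (P : Subgroup G) := (Subgroup.mem_normalizer_iff.mp hnn y).mp hy
    have h2 : n * y * n⁻¹ * y⁻¹ ∈ (P : Subgroup G) ⊓ N := by
      refine ⟨(P : Subgroup G).mul_mem h1 ((P : Subgroup G).inv_mem hy), ?_⟩
      have : n * y * n⁻¹ * y⁻¹ = n * (y * n⁻¹ * y⁻¹) := by group
      rw [this]
      exact N.mul_mem hn (‹N.Normal›.conj_mem _ (N.inv_mem hn) y)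
    rw [hPN, Subgroup.mem_bot] at h2
    have h3 : n * y = y * n := by
      calc n * y = n * y * n⁻¹ * y⁻¹ * (y * n) := by group
        _ = y * n := by rw [h2, one_mul]
    calc y * (n * x) = (y * n) * x := by group
      _ = n * (y * x) := by rw [← h3]; group
      _ = n * (x * y) := by rw [hPcomm y hy x hx]
      _ = n * x * y := by group
  have hsolv : Group.IsSolvable (P : Subgroup G) := by
    have := P.2.isNilpotent
    infer_instance
  have e1 := Cfsg.Agent.S4452.result N (P : Subgroup G) hsup hcop hsolv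
  have hcopiff : ∀ d : ℕ, d.Coprime (Nat.card (P : Subgroup G)) ↔ ¬ p ∣ d := by
    intro d
    rw [hPcard, Nat.coprime_pow_right_iff (Nat.pos_of_ne_zero hk0), Nat.coprime_comm,
      Nat.Prime.coprime_iff_not_dvd hp]
  have e2 : Nat.card {χ : Cfsg.IrrCharacter G //
      (Cfsg.charDegree (χ : G → ℂ)).Coprime (Nat.card (P : Subgroup G))} =
      Nat.card {χ : Cfsg.IrrCharacter G // ¬ p ∣ Cfsg.charDegree (χ : G → ℂ)} :=
    Nat.card_congr (Equiv.subtypeEquivRight fun χ => hcopiff _)
  have hall : ∀ η : Cfsg.IrrCharacter (Subgroup.normalizer ((P : Subgroup G) : Set G)),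
      (Cfsg.charDegree (η : Subgroup.normalizer ((P : Subgroup G) : Set G) → ℂ)).Coprime
        (Nat.card (P : Subgroup G)) := by
    intro η
    rw [hcopiff]
    intro hd
    have h1 := Cfsg.Agent.Lib.Helper13.ito_degree_dvd
      ((P : Subgroup G).subgroupOf (Subgroup.normalizer ((P : Subgroup G) : Set G)))
      (fun a ha b hb => Subtype.ext (hPcomm a ha b hb)) η
    have h2 : ((P : Subgroup G).subgroupOf (Subgroup.normalizer ((P : Subgroup G) : Set G))).index ∣
        (P : Subgroup G).index :=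
      Dvd.intro _ (Subgroup.relIndex_mul_index (Subgroup.le_normalizer (H := (P : Subgroup G))))
    exact P.not_dvd_index (dvd_trans hd (dvd_trans h1 h2))
  have e3 : Nat.card {η : Cfsg.IrrCharacter (Subgroup.normalizer ((P : Subgroup G) : Set G)) //
      (Cfsg.charDegree (η : Subgroup.normalizer ((P : Subgroup G) : Set G) → ℂ)).Coprime
        (Nat.card (P : Subgroup G))} =
      Nat.card (ConjClasses (Subgroup.normalizer ((P : Subgroup G) : Set G))) := by
    rw [Nat.card_congr (Equiv.subtypeUnivEquiv hall)]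
    exact card_irr_eq_card_conjClasses
  have e4 := card_classes_not_dvd P hH
  have := finite_irr (G := G)
  have e5 : Nat.card (Cfsg.IrrCharacter G) =
      Nat.card {χ : Cfsg.IrrCharacter G // p ∣ Cfsg.charDegree (χ : G → ℂ)} +
      Nat.card {χ : Cfsg.IrrCharacter G // ¬ p ∣ Cfsg.charDegree (χ : G → ℂ)} := by
    rw [← Nat.card_sum]
    exact Nat.card_congr (Equiv.sumCompl _).symm
  have e6 : Nat.card (ConjClasses G) =
      Nat.card {C : ConjClasses G // p ∣ Nat.card C.carrier} +
      Nat.card {C : ConjClasses G // ¬ p ∣ Nat.card C.carrier} := by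
    rw [← Nat.card_sum]
    exact Nat.card_congr (Equiv.sumCompl _).symm
  have e7 : Nat.card (Cfsg.IrrCharacter G) = Nat.card (ConjClasses G) :=
    card_irr_eq_card_conjClasses
  omega

end Cfsg.Agent.S4763
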