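import Cfsg.Statements.S4784
import Cfsg.Agent.Lib.Helper25.PermReal

set_option autoImplicit false
open Cfsg
open Cfsg.Agent.Lib.Helper2 Cfsg.Agent.Lib.Helper6 Cfsg.Agent.Lib.Helper24 Cfsg.Agent.Lib.Helper23 Cfsg.Agent.Lib.Helper25
open scoped ComplexConjugate

namespace Cfsg.Agent.S4784

attribute [local instance] irrFintype

theorem inner_triv {G : Type*} [Group G] [Fintype G] (H : Subgroup G) :
    classInner (indFun H (fun _ : H => (1 : ℂ))) (fun _ : G => (1 : ℂ)) = 1 := by
  classical
  haveI : Fintype H := Fintype.ofFinite H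
  rw [frobenius_reciprocity H _ _ (irr_isClassFunction isIrrCharacter_one), classInner]
  simp only [map_one, mul_one, Finset.sum_const, Finset.card_univ, nsmul_eq_mul]
  rw [← Nat.card_eq_fintype_card, inv_mul_cancel₀ (by exact_mod_cast (Nat.card_pos (α := H)).ne')]

/-- Let H be a subgroup of the finite group G and consider the permutation character of G on the cosets of H (the function induced from the principal character of H). Then exactly one irreducible constituent of it is real-valued with Frobenius–Schur indicator +1 (namely the principal character) if and only if the normal core of H has odd index in G. -/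
theorem result {G : Type*} [Group G] [Fintype G] (H : Subgroup G) : Nat.card {χ : Cfsg.IrrCharacter G // Cfsg.classInner (Cfsg.indFun H (fun _ : H => (1 : ℂ))) (χ : G → ℂ) ≠ 0 ∧ (∀ g : G, (starRingEnd ℂ) ((χ : G → ℂ) g) = (χ : G → ℂ) g) ∧ (Nat.card G : ℂ)⁻¹ * ∑ g : G, (χ : G → ℂ) (g * g) = 1} = 1 ↔ Odd H.normalCore.index := by
  classical
  have htriv : Cfsg.classInner (Cfsg.indFun H (fun _ : H => (1 : ℂ))) ((trivIrr : IrrCharacter G) : G → ℂ) ≠ 0 ∧
      (∀ g : G, (starRingEnd ℂ) (((trivIrr : IrrCharacter G) : G → ℂ) g) = ((trivIrr : IrrCharacter G) : G → ℂ) g) ∧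
      (Nat.card G : ℂ)⁻¹ * ∑ g : G, ((trivIrr : IrrCharacter G) : G → ℂ) (g * g) = 1 := by
    refine ⟨?_, ?_, ?_⟩
    · change classInner _ (fun _ : G => (1 : ℂ)) ≠ 0
      rw [inner_triv]; exact one_ne_zero
    · intro g
      change (starRingEnd ℂ) (1 : ℂ) = 1
      simp
    · exact fsInd_one
  have hπ : IsCharacter G (indFun H (fun _ : H => (1 : ℂ))) :=
    IsCharacter.indFun H (IsIrrCharacter.isCharacter isIrrCharacter_one)
  constructor
  · intro hcard
    obtain ⟨hsub, _⟩ := Nat.card_eq_one_iff_unique.mp hcard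
    have huniq : ∀ χ : IrrCharacter G, Cfsg.classInner (Cfsg.indFun H (fun _ : H => (1 : ℂ))) (χ : G → ℂ) ≠ 0 →
        fsInd (χ : G → ℂ) = 1 → χ = trivIrr := by
      intro χ h1 h2
      have hreal : ∀ g : G, (starRingEnd ℂ) ((χ : G → ℂ) g) = (χ : G → ℂ) g := by
        intro g
        rcases fsInd_cases χ.2 with ⟨h, _⟩ | ⟨_, h⟩
        · rw [h2] at h; exact absurd h one_ne_zero
        · exact Complex.conj_eq_iff_im.mpr (h g)
      have := hsub.elim ⟨χ, h1, hreal, h2⟩ ⟨trivIrr, htriv⟩
      exact congrArg Subtype.val this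
    choose n hn using fun χ : IrrCharacter G => IsCharacter.classInner_nat hπ (IsIrrCharacter.isCharacter χ.2)
    have hkey := PermReal.card_sq_mem H
    have hkeyZ : (Nat.card {x : G // x * x ∈ H} : ℤ) = (Nat.card H : ℤ) *
        ∑ χ : IrrCharacter G, (n χ : ℤ) * fsIndZ (χ : G → ℂ) := by
      have : ((Nat.card {x : G // x * x ∈ H} : ℤ) : ℂ) = (((Nat.card H : ℤ) *
        ∑ χ : IrrCharacter G, (n χ : ℤ) * fsIndZ (χ : G → ℂ) : ℤ) : ℂ) := by
        push_cast
        rw [hkey]
        congr 1
        refine Finset.sum_congr rfl fun χ _ => ?_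
        rw [hn χ, fsIndZ_cast χ.2]
      exact_mod_cast this
    have hn1 : n trivIrr = 1 := by
      have := hn trivIrr
      change classInner _ (fun _ : G => (1 : ℂ)) = _ at this
      rw [inner_triv] at this
      exact_mod_cast this.symm
    have hle : ∑ χ : IrrCharacter G, (n χ : ℤ) * fsIndZ (χ : G → ℂ) ≤ 1 := by
      rw [← Finset.add_sum_erase _ _ (Finset.mem_univ (trivIrr : IrrCharacter G)), hn1, fsIndZ_trivIrr]
      have : ∑ χ ∈ Finset.univ.erase (trivIrr : IrrCharacter G), (n χ : ℤ) * fsIndZ (χ : G → ℂ) ≤ 0 := by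
        apply Finset.sum_nonpos
        intro χ hχ
        have hne := (Finset.mem_erase.mp hχ).1
        by_cases h0 : n χ = 0
        · rw [h0]; simp
        · have h1 : fsIndZ (χ : G → ℂ) ≠ 1 := by
            intro h
            apply hne
            apply huniq χ
            · rw [hn χ]; exact_mod_cast h0
            · rw [← fsIndZ_cast χ.2, h]; simp
          have h2 : fsIndZ (χ : G → ℂ) ≤ 0 := by
            rcases fsIndZ_cases (χ : G → ℂ) with h | h | h
            · rw [h]
            · exact absurd h h1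
            · rw [h]; norm_num
          exact mul_nonpos_of_nonneg_of_nonpos (by positivity) h2
      simp only [Nat.cast_one, mul_one]
      linarith
    have hcle : Nat.card {x : G // x * x ∈ H} ≤ Nat.card H := by
      have h1 : (Nat.card {x : G // x * x ∈ H} : ℤ) ≤ (Nat.card H : ℤ) := by
        rw [hkeyZ]
        have : (0 : ℤ) ≤ (Nat.card H : ℤ) := by positivity
        nlinarith
      exact_mod_cast h1
    have hinj : Function.Injective (fun h : H => (⟨(h : G), H.mul_mem h.2 h.2⟩ : {x : G // x * x ∈ H})) := by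
      intro a b hab
      exact Subtype.ext (congrArg (fun z : {x : G // x * x ∈ H} => (z : G)) hab)
    have hbij := Function.Injective.bijective_of_nat_card_le hinj hcle
    have hmem : ∀ y : G, y * y ∈ H → y ∈ H := by
      intro y hy
      obtain ⟨h, hh⟩ := hbij.2 ⟨y, hy⟩
      have : (h : G) = y := congrArg (fun z : {x : G // x * x ∈ H} => (z : G)) hh
      rw [← this]; exact h.2
    by_contra hodd
    rw [Nat.not_odd_iff_even, even_iff_two_dvd, Subgroup.index_eq_card] at hodd
    haveI : Fact (Nat.Prime 2) := ⟨Nat.prime_two⟩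
    obtain ⟨x', hx'⟩ := exists_prime_orderOf_dvd_card' 2 hodd
    obtain ⟨x, rfl⟩ := QuotientGroup.mk_surjective x'
    have hx2 : x * x ∈ H.normalCore := by
      rw [← QuotientGroup.eq_one_iff, QuotientGroup.mk_mul, ← sq, ← hx', pow_orderOf_eq_one]
    have hxK : x ∈ H.normalCore := by
      intro b
      apply hmem
      have := hx2 b
      have h2 : b * (x * x) * b⁻¹ = b * x * b⁻¹ * (b * x * b⁻¹) := by group
      rwa [h2] at this
    rw [(QuotientGroup.eq_one_iff x).mpr hxK, orderOf_one] at hx'
    omega
  · intro hodd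
    rw [Nat.card_eq_one_iff_unique]
    refine ⟨⟨?_⟩, ⟨⟨trivIrr, htriv⟩⟩⟩
    have hall : ∀ χ : IrrCharacter G, Cfsg.classInner (Cfsg.indFun H (fun _ : H => (1 : ℂ))) (χ : G → ℂ) ≠ 0 →
        (∀ g : G, (starRingEnd ℂ) ((χ : G → ℂ) g) = (χ : G → ℂ) g) → χ = trivIrr := by
      intro χ h1 h2
      haveI : Fintype H.normalCore := Fintype.ofFinite _
      have hker : ∀ k ∈ H.normalCore, (χ : G → ℂ) k = (χ : G → ℂ) 1 := by
        rcases Cfsg.Agent.Lib.Helper13.ker_or_sum_eq_zero H.normalCore χ.2 with h | h
        · exact h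
        · exfalso
          apply h1
          apply Cfsg.Agent.Lib.Helper13.classInner_eq_zero_of_coset_const H.normalCore _
            (IsIrrCharacter.isCharacter χ.2) h
          intro k hk g
          unfold indFun
          congr 1
          refine Finset.sum_congr rfl fun x _ => ?_
          have hk' : x⁻¹ * k * x ∈ H := by
            have := hk x⁻¹
            rwa [inv_inv] at this
          have h3 : x⁻¹ * (g * k) * x = x⁻¹ * g * x * (x⁻¹ * k * x) := by group
          by_cases hg : x⁻¹ * g * x ∈ H
          · rw [extendByZero_mem H _ hg, extendByZero_mem H _ (h3 ▸ H.mul_mem hg hk')]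
          · rw [extendByZero_not_mem H _ hg, extendByZero_not_mem H _]
            rw [h3]
            intro h4
            exact hg ((H.mul_mem_cancel_right hk').mp h4)
      obtain ⟨ψ, hψ, hψ'⟩ := IsIrrCharacter.deflate H.normalCore χ.2 hker
      have hψ1 := Cfsg.Agent.S0161.result (G := G ⧸ H.normalCore)
        (by rw [← Subgroup.index_eq_card]; exact hodd) ⟨ψ, hψ⟩ (by
          intro q
          obtain ⟨g, rfl⟩ := QuotientGroup.mk_surjective q
          change (ψ (QuotientGroup.mk g)).im = 0
          rw [hψ' g]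
          exact Complex.conj_eq_iff_im.mp (h2 g))
      apply Subtype.ext
      funext g
      rw [← hψ' g]
      exact congrFun hψ1 _
    intro a b
    apply Subtype.ext
    rw [hall a.1 a.2.1 a.2.2.1, hall b.1 b.2.1 b.2.2.1]

end Cfsg.Agent.S4784
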