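import Cfsg.Statements.S4796
import Cfsg.Agent.Lib.Helper24.CodPrime
-- import your own Cfsg.Agent.* helpers here

set_option autoImplicit false
open Cfsg

namespace Cfsg.Agent.S4796

open Cfsg.Agent.Lib.Helper24 Cfsg.Agent.Lib.Helper2 Cfsg.Agent.Lib.Helper6
open scoped Pointwise

section frob

variable {G : Type*} [Group G] [Finite G] {p : ℕ} (hp : p.Prime) (P H : Subgroup G)
  (hn : P.Normal) (hP : Nat.card P = p) (hC : Subgroup.centralizer (P : Set G) = P)
  (hPH : Subgroup.IsComplement' P H)

include hp hP hC hPH in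
theorem eq_one_of_commute {x u : G} (hx : x ∈ H) (hu : u ∈ P) (hu1 : u ≠ 1)
    (hcomm : x * u = u * x) : x = 1 := by
  have : Fact p.Prime := ⟨hp⟩
  have hxC : x ∈ Subgroup.centralizer (P : Set G) := by
    rw [Subgroup.mem_centralizer_iff]
    intro w hw
    have hne : (⟨u, hu⟩ : P) ≠ 1 := fun h => hu1 (congrArg Subtype.val h)
    have hmem : (⟨w, hw⟩ : P) ∈ Subgroup.zpowers (⟨u, hu⟩ : P) := mem_zpowers_of_prime_card hP hne
    obtain ⟨k, hk⟩ := Subgroup.mem_zpowers_iff.mp hmem
    have hk' : u ^ k = w := by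
      have := congrArg Subtype.val hk
      simpa using this
    rw [← hk']
    have hc : Commute x u := hcomm
    exact (hc.zpow_right k).eq.symm
  rw [hC] at hxC
  have : x ∈ P ⊓ H := ⟨hxC, hx⟩
  rw [hPH.disjoint.eq_bot] at this
  exact Subgroup.mem_bot.mp this

include hPH in
theorem exists_decomp (g : G) : ∃ u ∈ P, ∃ h ∈ H, g = u * h := by
  have h1 : g ∈ (P : Set G) * (H : Set G) := by
    rw [hPH.mul_eq]; trivial
  obtain ⟨u, hu, h, hh, rfl⟩ := Set.mem_mul.mp h1
  exact ⟨u, hu, h, hh, rfl⟩

theorem mem_conj_smul {g x : G} : x ∈ MulAut.conj g • H ↔ ∃ y ∈ H, x = g * y * g⁻¹ := by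
  rw [Subgroup.mem_smul_pointwise_iff_exists]
  constructor
  · rintro ⟨y, hy, rfl⟩
    exact ⟨y, hy, by simp [MulAut.smul_def]⟩
  · rintro ⟨y, hy, rfl⟩
    exact ⟨y, hy, by simp [MulAut.smul_def]⟩

include hp hn hP hC hPH in
theorem frob_cond (g : G) (hg : g ∉ H) : H ⊓ (MulAut.conj g • H) = ⊥ := by
  rw [eq_bot_iff]
  rintro x ⟨hx1, hx2⟩
  rw [Subgroup.mem_bot]
  obtain ⟨u, hu, h, hh, rfl⟩ := exists_decomp P H hPH g
  have hu1 : u ≠ 1 := by
    rintro rfl
    apply hg
    simpa using hh
  obtain ⟨y, hy, hxy⟩ := (mem_conj_smul H).mp hx2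
  set y' := h * y * h⁻¹ with hy'
  have hy'H : y' ∈ H := H.mul_mem (H.mul_mem hh hy) (H.inv_mem hh)
  have hxy' : x = u * y' * u⁻¹ := by
    rw [hxy, hy']; group
  have h1 : x * y'⁻¹ ∈ P := by
    have : x * y'⁻¹ = u * (y' * u⁻¹ * y'⁻¹) := by rw [hxy']; group
    rw [this]
    exact P.mul_mem hu (hn.conj_mem _ (P.inv_mem hu) _)
  have h2 : x * y'⁻¹ ∈ P ⊓ H := ⟨h1, H.mul_mem hx1 (H.inv_mem hy'H)⟩
  rw [hPH.disjoint.eq_bot, Subgroup.mem_bot] at h2
  have h3 : x = y' := mul_inv_eq_one.mp h2
  apply eq_one_of_commute hp P H hP hC hPH hx1 hu hu1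
  rw [← h3] at hxy'
  calc x * u = u * x * u⁻¹ * u := by rw [← hxy']
    _ = u * x := by group

include hp hn hP hC hPH in
theorem frob_kernel : Cfsg.frobeniusKernel H = (P : Set G) := by
  ext x
  constructor
  · intro hx
    by_contra hxP
    have hxP' : x ∉ P := hxP
    rcases hx with rfl | hx
    · exact hxP' P.one_mem
    · obtain ⟨u, hu, h, hh, rfl⟩ := exists_decomp P H hPH x
      have hh1 : h ≠ 1 := by
        rintro rfl
        apply hxP'
        simpa using hu
      let φ : P → P := fun v => ⟨v * (h * (v : G)⁻¹ * h⁻¹),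
        P.mul_mem v.2 (hn.conj_mem _ (P.inv_mem v.2) _)⟩
      have hinj : Function.Injective φ := by
        intro v w hvw
        have h1 : (v : G) * (h * (v : G)⁻¹ * h⁻¹) = w * (h * (w : G)⁻¹ * h⁻¹) :=
          congrArg Subtype.val hvw
        by_contra hne
        apply hh1
        have hne' : (w : G)⁻¹ * v ≠ 1 := by
          intro h2
          apply hne
          ext
          exact (inv_mul_eq_one.mp h2).symm
        apply eq_one_of_commute hp P H hP hC hPH hh (P.mul_mem (P.inv_mem w.2) v.2) hne'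
        have h3 : (v : G) * h * (v : G)⁻¹ = w * h * (w : G)⁻¹ := by
          calc (v : G) * h * (v : G)⁻¹ = (v : G) * (h * (v : G)⁻¹ * h⁻¹) * h := by group
            _ = w * (h * (w : G)⁻¹ * h⁻¹) * h := by rw [h1]
            _ = w * h * (w : G)⁻¹ := by group
        calc h * ((w : G)⁻¹ * v) = (w : G)⁻¹ * (w * h * (w : G)⁻¹) * v := by group
          _ = (w : G)⁻¹ * ((v : G) * h * (v : G)⁻¹) * v := by rw [h3]
          _ = (w : G)⁻¹ * v * h := by group
      obtain ⟨v, hv⟩ := (Finite.injective_iff_surjective.mp hinj) ⟨u, hu⟩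
      have hv' : (v : G) * (h * (v : G)⁻¹ * h⁻¹) = u := congrArg Subtype.val hv
      apply hx v
      rw [mem_conj_smul]
      refine ⟨h, hh, ?_⟩
      rw [← hv']; group
  · intro hx
    have hxP : x ∈ P := hx
    by_cases hx1 : x = 1
    · exact Or.inl hx1
    · right
      intro g hg
      obtain ⟨y, hy, rfl⟩ := (mem_conj_smul H).mp hg
      have h1 : y ∈ P := by
        have := hn.conj_mem _ hxP g⁻¹
        simpa [mul_assoc] using this
      have h2 : y ∈ P ⊓ H := ⟨h1, hy⟩
      rw [hPH.disjoint.eq_bot, Subgroup.mem_bot] at h2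
      apply hx1
      rw [h2]; group

end frob

/-- Let G be a finite group with a faithful irreducible complex character χ whose codegree #G / χ(1) is a prime p (for a faithful character the kernel is trivial, so the codegree is #G / χ(1)). Then either G is cyclic of order p, or G is a Frobenius group whose Frobenius kernel has order p: some proper non-trivial subgroup H satisfies H ∩ gHg⁻¹ = 1 for every element g outside H, and the set of elements lying in no conjugate of H, together with the identity, has exactly p elements. -/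
theorem result {G : Type*} [Group G] [Finite G] (χ : Cfsg.IrrCharacter G) (hfaith : ∀ g : G, (χ : G → ℂ) g = (χ : G → ℂ) 1 → g = 1) (p : ℕ) (hp : p.Prime) (hcod : Nat.card G = p * Cfsg.charDegree (χ : G → ℂ)) : (IsCyclic G ∧ Nat.card G = p) ∨ ∃ H : Subgroup G, Cfsg.IsFrobeniusComplement H ∧ Nat.card ↥(Cfsg.frobeniusKernel H) = p := by
  have : Fact p.Prime := ⟨hp⟩
  by_cases h1 : charDegree (χ : G → ℂ) = 1
  · left
    rw [h1, mul_one] at hcod
    exact ⟨isCyclic_of_prime_card hcod, hcod⟩
  · right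
    obtain ⟨P⟩ : Nonempty (Sylow p G) := inferInstance
    have hP := sylow_card_of_card_eq χ hcod P
    have hn := sylow_normal_of_card_eq χ hcod P
    have hC := centralizer_eq_of_card_eq χ hcod P
    have hlt := degree_lt_of_card_eq χ hp hcod
    have hpos := charDegree_pos χ.2
    obtain ⟨H, hPH⟩ := Subgroup.exists_right_complement'_of_coprime (N := (P : Subgroup G))
      P.card_coprime_index
    have hcardH : Nat.card H = charDegree (χ : G → ℂ) := by
      have := hPH.card_mul_card
      rw [hP, hcod] at this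
      exact Nat.eq_of_mul_eq_mul_left hp.pos this
    refine ⟨H, ⟨?_, ?_, frob_cond hp P H hn hP hC hPH⟩, ?_⟩
    · rintro rfl
      rw [Subgroup.card_bot] at hcardH
      exact h1 hcardH.symm
    · rintro rfl
      rw [Subgroup.card_top, hcod] at hcardH
      have : 1 * charDegree (χ : G → ℂ) < p * charDegree (χ : G → ℂ) :=
        Nat.mul_lt_mul_of_pos_right hp.one_lt hpos
      omega
    · rw [frob_kernel hp P H hn hP hC hPH]
      exact hP

end Cfsg.Agent.S4796
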