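import Cfsg.Statements.S4797
import Cfsg.Agent.Lib.Helper24.CodPrime
-- import your own Cfsg.Agent.* helpers here

set_option autoImplicit false
open Cfsg

namespace Cfsg.Agent.S4797

open Cfsg.Agent.Lib.Helper24 Cfsg.Agent.Lib.Helper2 Cfsg.Agent.Lib.Helper6

/-- A perfect group has no irreducible character `ψ` with `|X| = p ψ(1)`. -/
theorem not_perfect_of_card_eq {X : Type*} [Group X] [Finite X] (ψ : IrrCharacter X) {p : ℕ}
    (hp : p.Prime) (h : Nat.card X = p * charDegree (ψ : X → ℂ)) : commutator X ≠ ⊤ := by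
  intro hperf
  have : Fact p.Prime := ⟨hp⟩
  obtain ⟨P⟩ : Nonempty (Sylow p X) := inferInstance
  have hP := sylow_card_of_card_eq ψ h P
  have hn := sylow_normal_of_card_eq ψ h P
  have hcyc : IsCyclic (P : Subgroup X) := isCyclic_of_prime_card hP
  have h1 := commutator_le_centralizer_of_cyclic (P : Subgroup X)
  have h2 := centralizer_eq_of_card_eq ψ h P
  have hPtop : (P : Subgroup X) = ⊤ := by
    rw [h2, hperf] at h1
    exact top_le_iff.mp h1
  have h3 : Subgroup.center X = ⊤ := by
    rw [hPtop, Subgroup.coe_top, Subgroup.centralizer_univ] at h2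
    exact h2
  have h4 : commutator X = ⊥ := (commutator_eq_bot_iff_center_eq_top X).mpr h3
  rw [hperf] at h4
  rw [hPtop, h4, Subgroup.card_bot] at hP
  exact hp.one_lt.ne hP

/-- A homomorphism to `ℂˣ` of prime order `p` has kernel of index `p`. -/
theorem index_ker_of_orderOf {G : Type*} [Group G] [Finite G] (μ : G →* ℂˣ) {p : ℕ}
    (hp : p.Prime) (hμ : orderOf μ = p) : μ.ker.index = p := by
  have : NeZero p := ⟨hp.ne_zero⟩
  rw [Subgroup.index_ker]
  have h1 : μ.range ≤ rootsOfUnity p ℂ := by
    rintro _ ⟨g, rfl⟩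
    rw [mem_rootsOfUnity]
    have h2 : μ ^ p = 1 := by rw [← hμ]; exact pow_orderOf_eq_one μ
    have := congrArg (fun f : G →* ℂˣ => f g) h2
    simpa using this
  have h3 : Nat.card μ.range ∣ p := by
    rw [← Complex.card_rootsOfUnity p]
    exact Subgroup.card_dvd_of_le h1
  rcases (Nat.dvd_prime hp).mp h3 with h4 | h4
  · exfalso
    rw [Subgroup.card_eq_one, MonoidHom.range_eq_bot_iff] at h4
    rw [h4, orderOf_one] at hμ
    exact hp.one_lt.ne hμ
  · exact h4

/-- The codegree of an irreducible complex character χ of a finite group G is [G : ker χ] / χ(1), where ker χ is the set of elements at which χ takes the value χ(1). A non-trivial finite group is perfect if and only if no irreducible complex character of it has prime codegree. -/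
theorem result {G : Type*} [Group G] [Finite G] [Nontrivial G] : commutator G = ⊤ ↔ ∀ χ : Cfsg.IrrCharacter G, ¬ ((Nat.card G / (Nat.card {g : G // (χ : G → ℂ) g = (χ : G → ℂ) 1} * Cfsg.charDegree (χ : G → ℂ)))).Prime := by
  constructor
  · intro hperf χ hprime
    have hc := IsIrrCharacter.isCharacter χ.2
    have hn := kerOf_normal hc
    obtain ⟨ψ, hψ, hval⟩ := IsIrrCharacter.deflate (kerOf hc) χ.2
      (fun n hn => (mem_kerOf hc n).mp hn)
    have h1 := cod_mul_degree χ.2 (kerOf hc) (mem_kerOf hc)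
    have hdeg : charDegree ψ = charDegree (χ : G → ℂ) := by
      unfold charDegree
      rw [← hval 1]
      rfl
    have h2 : Nat.card (G ⧸ kerOf hc) = (Nat.card G / (Nat.card {g : G // (χ : G → ℂ) g = (χ : G → ℂ) 1} * Cfsg.charDegree (χ : G → ℂ))) * charDegree ((⟨ψ, hψ⟩ : IrrCharacter (G ⧸ kerOf hc)) : G ⧸ kerOf hc → ℂ) := by
      rw [← Subgroup.index_eq_card, ← h1]
      show _ = _ * charDegree ψ
      rw [hdeg]
    apply not_perfect_of_card_eq ⟨ψ, hψ⟩ hprime h2
    have h3 : Subgroup.map (QuotientGroup.mk' (kerOf hc)) (commutator G) =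
        commutator (G ⧸ kerOf hc) := by
      rw [commutator_def, commutator_def, Subgroup.map_commutator,
        Subgroup.map_top_of_surjective _ (QuotientGroup.mk'_surjective _)]
    rw [← h3, hperf, Subgroup.map_top_of_surjective _ (QuotientGroup.mk'_surjective _)]
  · intro hall
    by_contra hnp
    have hidx : (commutator G).index ≠ 1 := fun h => hnp (Subgroup.index_eq_one.mp h)
    rw [← card_linear_characters, ← Nat.card_congr (linearCharEquiv G)] at hidx
    obtain ⟨p, hp, hdvd⟩ := Nat.exists_prime_and_dvd hidx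
    have : Fact p.Prime := ⟨hp⟩
    have hfin : Finite (G →* ℂˣ) := by
      apply Nat.finite_of_card_ne_zero
      rw [Nat.card_congr (linearCharEquiv G), card_linear_characters]
      exact Subgroup.index_ne_zero_of_finite
    obtain ⟨μ, hμ⟩ := exists_prime_orderOf_dvd_card' p hdvd
    have hirr := isIrrCharacter_of_hom μ
    apply hall ⟨_, hirr⟩
    have hker : ∀ g, g ∈ μ.ker ↔ (fun g => ((μ g : ℂˣ) : ℂ)) g = (fun g => ((μ g : ℂˣ) : ℂ)) 1 := by
      intro g
      simp [MonoidHom.mem_ker]
    have h1 := cod_mul_degree hirr μ.ker hker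
    have hdeg : charDegree (fun g => ((μ g : ℂˣ) : ℂ)) = 1 := by
      simp [charDegree]
    rw [hdeg, mul_one, index_ker_of_orderOf μ hp hμ] at h1
    show Nat.Prime (Nat.card G / (Nat.card {g : G // (fun g => ((μ g : ℂˣ) : ℂ)) g = (fun g => ((μ g : ℂˣ) : ℂ)) 1} * Cfsg.charDegree (fun g => ((μ g : ℂˣ) : ℂ))))
    rw [hdeg, h1]
    exact hp

end Cfsg.Agent.S4797
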