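import Cfsg.Statements.S4798
import Cfsg.Agent.Lib.Helper24.Constituent
-- import your own Cfsg.Agent.* helpers here

set_option autoImplicit false
open Cfsg

namespace Cfsg.Agent.S4798

open Cfsg.Agent.Lib.Helper24 Cfsg.Agent.Lib.Helper2 Cfsg.Agent.Lib.Helper6
open scoped ComplexConjugate

attribute [local instance] irrFintype

/-- Let p be a prime and χ a faithful irreducible complex character of the finite group G (χ(g) = χ(1) only for g = 1), so that its codegree is #G / χ(1). Then #G / χ(1) is a power of p if and only if χ is induced from a character of a Sylow p-subgroup of G. -/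
theorem result {G : Type*} [Group G] [Fintype G] (p : ℕ) [Fact p.Prime] (χ : Cfsg.IrrCharacter G) (hfaith : ∀ g : G, (χ : G → ℂ) g = (χ : G → ℂ) 1 → g = 1) : (∃ k : ℕ, Nat.card G = p ^ k * Cfsg.charDegree (χ : G → ℂ)) ↔ ∃ (P : Sylow p G) (θ : ↥(P : Subgroup G) → ℂ), Cfsg.IsCharacter ↥(P : Subgroup G) θ ∧ (χ : G → ℂ) = Cfsg.indFun (P : Subgroup G) θ := by
  classical
  have hp : p.Prime := Fact.out
  have hdpos := charDegree_pos χ.2
  constructor
  · rintro ⟨k, hk⟩
    obtain ⟨P⟩ : Nonempty (Sylow p G) := inferInstance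
    obtain ⟨a, ha⟩ := P.2.exists_card_eq
    have hm : ¬ p ∣ (P : Subgroup G).index := P.not_dvd_index
    have hcard := Subgroup.card_mul_index (P : Subgroup G)
    rw [ha, hk] at hcard
    set m := (P : Subgroup G).index with hmdef
    set d := charDegree (χ : G → ℂ) with hd
    have hka : k ≤ a := by
      have h1 : p ^ k ∣ p ^ a * m := ⟨d, hcard⟩
      have hcop : Nat.Coprime (p ^ k) m :=
        Nat.Coprime.pow_left k ((Nat.Prime.coprime_iff_not_dvd hp).mpr hm)
      exact (Nat.pow_dvd_pow_iff_le_right hp.one_lt).mp (hcop.dvd_of_dvd_mul_right h1)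
    have hdm : d = p ^ (a - k) * m := by
      have h1 : p ^ k * (p ^ (a - k) * m) = p ^ k * d := by
        rw [← hcard, ← mul_assoc, ← pow_add, Nat.add_sub_cancel' hka]
      exact (Nat.eq_of_mul_eq_mul_left (pow_pos hp.pos k) h1).symm
    have hres : IsCharacter (P : Subgroup G) (fun c : (P : Subgroup G) => (χ : G → ℂ) c) :=
      IsCharacter.restrict _ (IsIrrCharacter.isCharacter χ.2)
    obtain ⟨n, hn⟩ := IsCharacter.exists_eq_sum hres
    have hdeg := degree_eq_sum n hn
    have hdeg' : charDegree (fun c : (P : Subgroup G) => (χ : G → ℂ) c) = d := rfl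
    rw [hdeg'] at hdeg
    have hex : ∃ θ : IrrCharacter (P : Subgroup G), n θ ≠ 0 ∧
        charDegree (θ : ↥(P : Subgroup G) → ℂ) ∣ p ^ (a - k) := by
      by_contra hcon
      push Not at hcon
      apply hm
      have h1 : p ^ (a - k + 1) ∣ d := by
        rw [hdeg]
        refine Finset.dvd_sum fun θ _ => ?_
        by_cases hθ : n θ = 0
        · rw [hθ, zero_mul]; exact dvd_zero _
        · have h2 := hcon θ hθ
          have h3 : charDegree (θ : ↥(P : Subgroup G) → ℂ) ∣ p ^ a := by
            rw [← ha]; exact degree_dvd_card θ.2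
          obtain ⟨j, -, hj⟩ := (Nat.dvd_prime_pow hp).mp h3
          rw [hj] at h2 ⊢
          have h4 : ¬ j ≤ a - k := fun h => h2 (pow_dvd_pow p h)
          exact Dvd.dvd.mul_left (pow_dvd_pow p (by omega)) _
      rw [hdm, pow_succ] at h1
      exact Nat.dvd_of_mul_dvd_mul_left (pow_pos hp.pos _) h1
    obtain ⟨θ, hθ0, hθd⟩ := hex
    have hinner : classInner (fun c : (P : Subgroup G) => (χ : G → ℂ) c)
        (θ : ↥(P : Subgroup G) → ℂ) ≠ 0 := by
      rw [hn, classInner_sum_irr_left]
      exact_mod_cast hθ0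
    have h1 := degree_le_index_mul (P : Subgroup G) χ θ hinner
    have h2 : charDegree (θ : ↥(P : Subgroup G) → ℂ) ≤ p ^ (a - k) :=
      Nat.le_of_dvd (pow_pos hp.pos _) hθd
    have h3 : charDegree (indFun (P : Subgroup G) (θ : ↥(P : Subgroup G) → ℂ)) = d := by
      rw [charDegree_indFun _ (IsIrrCharacter.isCharacter θ.2)]
      apply le_antisymm
      · rw [hdm, mul_comm]
        exact Nat.mul_le_mul_right _ h2
      · exact h1
    refine ⟨P, θ, IsIrrCharacter.isCharacter θ.2, ?_⟩
    symm
    apply eq_of_constituent_of_degree_eq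
      (IsCharacter.indFun _ (IsIrrCharacter.isCharacter θ.2)) χ _ h3
    rw [frobenius_reciprocity _ _ _ (irr_isClassFunction χ.2), ← classInner_conj_symm]
    exact (map_ne_zero _).mpr hinner
  · rintro ⟨P, θ, hθ, hχθ⟩
    obtain ⟨a, ha⟩ := P.2.exists_card_eq
    have hcard := Subgroup.card_mul_index (P : Subgroup G)
    have hdeg : charDegree (χ : G → ℂ) = (P : Subgroup G).index * charDegree θ := by
      rw [hχθ, charDegree_indFun _ hθ]
    obtain ⟨n, hn⟩ := IsCharacter.exists_eq_sum hθ
    have h1 : classInner θ (fun c : (P : Subgroup G) => (χ : G → ℂ) c) = 1 := by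
      rw [← frobenius_reciprocity _ _ _ (irr_isClassFunction χ.2), ← hχθ,
        classInner_irr χ.2 χ.2, if_pos rfl]
    have hex : ∃ φ : IrrCharacter (P : Subgroup G), n φ ≠ 0 ∧
        classInner (φ : ↥(P : Subgroup G) → ℂ) (fun c : (P : Subgroup G) => (χ : G → ℂ) c) ≠ 0 := by
      by_contra hcon
      push Not at hcon
      rw [hn, classInner_sum_left] at h1
      have : ∑ i : IrrCharacter (P : Subgroup G), classInner ((n i : ℂ) • (i : ↥(P : Subgroup G) → ℂ))
          (fun c : (P : Subgroup G) => (χ : G → ℂ) c) = 0 := by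
        refine Finset.sum_eq_zero fun φ _ => ?_
        rw [classInner_smul_left]
        by_cases hφ : n φ = 0
        · rw [hφ]; simp
        · rw [hcon φ hφ, mul_zero]
      rw [this] at h1
      exact zero_ne_one h1
    obtain ⟨φ, hφ0, hφ⟩ := hex
    have h2 : classInner (fun c : (P : Subgroup G) => (χ : G → ℂ) c)
        (φ : ↥(P : Subgroup G) → ℂ) ≠ 0 := by
      rw [← classInner_conj_symm]
      exact (map_ne_zero _).mpr hφ
    have h3 := degree_le_index_mul (P : Subgroup G) χ φ h2
    have h4 : charDegree (φ : ↥(P : Subgroup G) → ℂ) ≤ charDegree θ := by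
      apply degree_le_of_constituent hθ
      rw [hn, classInner_sum_irr_left]
      exact_mod_cast hφ0
    have hidx : 0 < (P : Subgroup G).index := Nat.pos_of_ne_zero Subgroup.index_ne_zero_of_finite
    have h5 : charDegree θ = charDegree (φ : ↥(P : Subgroup G) → ℂ) := by
      rw [hdeg] at h3
      exact le_antisymm (Nat.le_of_mul_le_mul_left h3 hidx) h4
    have h6 : charDegree θ ∣ p ^ a := by
      rw [h5, ← ha]; exact degree_dvd_card φ.2
    obtain ⟨j, hj, hj'⟩ := (Nat.dvd_prime_pow hp).mp h6
    refine ⟨a - j, ?_⟩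
    rw [hdeg, hj', ← hcard, ha]
    have : p ^ a = p ^ (a - j) * p ^ j := by rw [← pow_add, Nat.sub_add_cancel hj]
    rw [this]
    ring

end Cfsg.Agent.S4798
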