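import Cfsg.Statements.S4801
import Cfsg.Agent.Lib.Helper24.Codegree
-- import your own Cfsg.Agent.* helpers here

set_option autoImplicit false
open Cfsg

namespace Cfsg.Agent.S4801

open Cfsg.Agent.Lib.Helper24 Cfsg.Agent.Lib.Helper2 Cfsg.Agent.Lib.Helper6

/-- The codegree of an irreducible complex character χ of a finite group G is [G : ker χ] / χ(1), where ker χ is the set of elements at which χ takes the value χ(1). Let S be a finite simple group and G a finite group such that every codegree of an irreducible character of S is a codegree of an irreducible character of G. Then the order of S divides the order of G. -/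
theorem result {S : Type*} [Group S] [Finite S] (hS : IsSimpleGroup S) {G : Type*} [Group G] [Finite G] (hsub : ∀ χ : Cfsg.IrrCharacter S, ∃ ψ : Cfsg.IrrCharacter G, (Nat.card S / (Nat.card {g : S // (χ : S → ℂ) g = (χ : S → ℂ) 1} * Cfsg.charDegree (χ : S → ℂ))) = (Nat.card G / (Nat.card {g : G // (ψ : G → ℂ) g = (ψ : G → ℂ) 1} * Cfsg.charDegree (ψ : G → ℂ)))) : Nat.card S ∣ Nat.card G := by
  rw [Nat.dvd_iff_prime_pow_dvd_dvd]
  intro p k hp hk
  by_cases hpS : p ∣ Nat.card S
  · have h1 : p ∣ (⊥ : Subgroup S).index := by rwa [Subgroup.index_bot]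
    have h2 : ¬ p ∣ (⊤ : Subgroup S).index := by
      rw [Subgroup.index_top]
      exact hp.one_lt.ne' ∘ Nat.dvd_one.mp
    obtain ⟨χ, -, hχ2, hχ3⟩ := exists_degree_coprime_between (⊥ : Subgroup S) ⊤ bot_le h1 h2
    have hc := IsIrrCharacter.isCharacter χ.2
    have hker : kerOf hc = ⊥ := by
      rcases (kerOf_normal hc).eq_bot_or_eq_top with h | h
      · exact h
      · exfalso
        apply hχ2
        intro n _
        rw [← mem_kerOf hc, h]
        trivial
    have h3 := cod_mul_degree χ.2 (kerOf hc) (mem_kerOf hc)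
    rw [hker, Subgroup.index_bot] at h3
    obtain ⟨ψ, hψ⟩ := hsub χ
    rw [← h3] at hk
    have hcop : Nat.Coprime (p ^ k) (charDegree (χ : S → ℂ)) :=
      Nat.Coprime.pow_left k ((Nat.Prime.coprime_iff_not_dvd hp).mpr hχ3)
    have h4 := hcop.dvd_of_dvd_mul_right hk
    rw [hψ] at h4
    exact h4.trans (cod_dvd_card ψ.2)
  · have hk0 : k = 0 := by
      by_contra hk0
      exact hpS ((dvd_pow_self p hk0).trans hk)
    rw [hk0, pow_zero]
    exact one_dvd _

end Cfsg.Agent.S4801
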