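import Cfsg.Statements.S4802
import Cfsg.Agent.Lib.Helper24.ClassCount
-- import your own Cfsg.Agent.* helpers here

set_option autoImplicit false
open Cfsg

namespace Cfsg.Agent.S4802

open Cfsg.Agent.Lib.Helper24 Cfsg.Agent.Lib.Helper2 Cfsg.Agent.Lib.Helper6
open scoped ComplexConjugate

attribute [local instance] irrFintype

/-- Let N < M be normal subgroups of the finite group G and g ∈ M ∖ N. Then the conjugacy class of g is exactly M ∖ N if and only if every irreducible complex character of G whose kernel contains N takes the same value at all elements of M ∖ N, and every irreducible complex character of G whose kernel does not contain N vanishes at g. -/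
theorem result {G : Type*} [Group G] [Finite G] (N M : Subgroup G) [N.Normal] [M.Normal] (hNM : N < M) (g : G) (hgM : g ∈ M) (hgN : g ∉ N) : {h : G | IsConj g h} = (M : Set G) \ (N : Set G) ↔ ((∀ χ : Cfsg.IrrCharacter G, (∀ x ∈ N, (χ : G → ℂ) x = (χ : G → ℂ) 1) → ∀ x ∈ M, x ∉ N → ∀ y ∈ M, y ∉ N → (χ : G → ℂ) x = (χ : G → ℂ) y) ∧ (∀ χ : Cfsg.IrrCharacter G, (∃ x ∈ N, (χ : G → ℂ) x ≠ (χ : G → ℂ) 1) → (χ : G → ℂ) g = 0)) := by
  classical
  cases nonempty_fintype G
  constructor
  · intro hcl
    have hconj : ∀ x ∈ M, x ∉ N → IsConj g x := by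
      intro x hxM hxN
      have : x ∈ (M : Set G) \ (N : Set G) := ⟨hxM, hxN⟩
      rw [← hcl] at this
      exact this
    have hval : ∀ χ : Cfsg.IrrCharacter G, ∀ x ∈ M, x ∉ N → (χ : G → ℂ) x = (χ : G → ℂ) g := by
      intro χ x hxM hxN
      obtain ⟨c, rfl⟩ := isConj_iff.mp (hconj x hxM hxN)
      exact irr_isClassFunction χ.2 g c
    refine ⟨fun χ _ x hxM hxN y hyM hyN => (hval χ x hxM hxN).trans (hval χ y hyM hyN).symm, ?_⟩
    rintro χ ⟨x, hxN, hx⟩
    have h1 : ∑ a : G, (if a ∈ N then (χ : G → ℂ) a else 0) = 0 := by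
      rcases sum_normal_eq_zero_or N χ.2 with h | h
      · exact absurd (h x hxN) hx
      · exact h
    have h2 : ∑ a : G, (if a ∈ M then (χ : G → ℂ) a else 0) = 0 := by
      rcases sum_normal_eq_zero_or M χ.2 with h | h
      · exact absurd (h x (hNM.le hxN)) hx
      · exact h
    have h3 : ∑ a : G, (if a ∈ M ∧ a ∉ N then (χ : G → ℂ) g else 0) = 0 := by
      have : ∀ a : G, (if a ∈ M ∧ a ∉ N then (χ : G → ℂ) g else 0) =
          (if a ∈ M then (χ : G → ℂ) a else 0) - (if a ∈ N then (χ : G → ℂ) a else 0) := by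
        intro a
        by_cases haN : a ∈ N
        · simp [haN, hNM.le haN]
        · by_cases haM : a ∈ M
          · simp [haN, haM, hval χ a haM haN]
          · simp [haN, haM]
      simp only [this, Finset.sum_sub_distrib, h1, h2, sub_zero]
    rw [← Finset.sum_filter, Finset.sum_const, nsmul_eq_mul] at h3
    rcases mul_eq_zero.mp h3 with h4 | h4
    · exfalso
      have : (Finset.univ.filter fun a : G => a ∈ M ∧ a ∉ N).card ≠ 0 := by
        apply Finset.card_ne_zero_of_mem (a := g)
        simp [hgM, hgN]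
      exact this (by exact_mod_cast h4)
    · exact h4
  · rintro ⟨h1, h2⟩
    ext x
    constructor
    · intro hx
      obtain ⟨c, rfl⟩ := isConj_iff.mp hx
      refine ⟨?_, ?_⟩
      · exact ‹M.Normal›.conj_mem g hgM c
      · intro hc
        apply hgN
        have := ‹N.Normal›.conj_mem _ hc c⁻¹
        simpa [mul_assoc] using this
    · rintro ⟨hxM, hxN⟩
      show IsConj g x
      by_contra hnc
      have hcol := column_orthogonality g x
      rw [if_neg hnc] at hcol
      have hcol2 := column_orthogonality g g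
      rw [if_pos (IsConj.refl g)] at hcol2
      have hterm : ∀ χ : Cfsg.IrrCharacter G, (χ : G → ℂ) g * conj ((χ : G → ℂ) x) =
          (χ : G → ℂ) g * conj ((χ : G → ℂ) g) := by
        intro χ
        by_cases hk : ∀ n ∈ N, (χ : G → ℂ) n = (χ : G → ℂ) 1
        · rw [h1 χ hk x hxM hxN g hgM hgN]
        · push Not at hk
          obtain ⟨n, hn, hne⟩ := hk
          rw [h2 χ ⟨n, hn, hne⟩, zero_mul, zero_mul]
      simp only [hterm] at hcol
      rw [hcol] at hcol2
      have : Nat.card (Subgroup.centralizer ({g} : Set G)) ≠ 0 := Nat.card_pos.ne'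
      exact this (by exact_mod_cast hcol2.symm)

end Cfsg.Agent.S4802
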