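import Cfsg.Statements.S4808
import Cfsg.Agent.Lib.Helper24.Codegree
-- import your own Cfsg.Agent.* helpers here

set_option autoImplicit false
open Cfsg

namespace Cfsg.Agent.S4808

open Cfsg.Agent.Lib.Helper24 Cfsg.Agent.Lib.Helper2 Cfsg.Agent.Lib.Helper6

/-- A normal subgroup of index prime to `p` contains every `p`-subgroup. -/
theorem pgroup_le_of_not_dvd_index {G : Type*} [Group G] [Finite G] {p : ℕ} (hp : p.Prime)
    (P K : Subgroup G) [K.Normal] (hP : IsPGroup p P) (hK : ¬ p ∣ K.index) : P ≤ K := by
  intro x hx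
  obtain ⟨j, hj⟩ := hP ⟨x, hx⟩
  have hj' : x ^ p ^ j = 1 := by
    have := congrArg Subtype.val hj
    simpa using this
  rw [← QuotientGroup.eq_one_iff]
  have h1 : orderOf (x : G ⧸ K) ∣ p ^ j := by
    apply orderOf_dvd_of_pow_eq_one
    rw [← QuotientGroup.mk_pow, hj']
    rfl
  have h2 : orderOf (x : G ⧸ K) ∣ K.index := by
    rw [Subgroup.index_eq_card]
    exact orderOf_dvd_natCard _
  have hcop : Nat.Coprime (p ^ j) K.index :=
    Nat.Coprime.pow_left j ((Nat.Prime.coprime_iff_not_dvd hp).mpr hK)
  have h3 : orderOf (x : G ⧸ K) = 1 := Nat.eq_one_of_dvd_coprimes hcop h1 h2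
  exact orderOf_eq_one_iff.mp h3

/-- The codegree of an irreducible complex character χ of a finite group G is [G : ker χ] / χ(1), where ker χ is the set of elements at which χ takes the value χ(1). A prime divides the order of G if and only if it divides the codegree of some irreducible complex character of G. -/
theorem result {G : Type*} [Group G] [Finite G] (p : ℕ) (hp : p.Prime) : p ∣ Nat.card G ↔ ∃ χ : Cfsg.IrrCharacter G, p ∣ (Nat.card G / (Nat.card {g : G // (χ : G → ℂ) g = (χ : G → ℂ) 1} * Cfsg.charDegree (χ : G → ℂ))) := by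
  constructor
  · intro hpG
    have : Fact p.Prime := ⟨hp⟩
    obtain ⟨P⟩ : Nonempty (Sylow p G) := inferInstance
    have h1 : p ∣ (⊥ : Subgroup G).index := by rwa [Subgroup.index_bot]
    have h2 : ¬ p ∣ (Subgroup.normalClosure ((P : Subgroup G) : Set G)).index := by
      intro h
      exact P.not_dvd_index (h.trans (Subgroup.index_dvd_of_le Subgroup.subset_normalClosure))
    obtain ⟨χ, -, hχ2, hχ3⟩ := exists_degree_coprime_between (⊥ : Subgroup G)
      (Subgroup.normalClosure ((P : Subgroup G) : Set G)) bot_le h1 h2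
    refine ⟨χ, ?_⟩
    have hc := IsIrrCharacter.isCharacter χ.2
    have hn := kerOf_normal hc
    have h3 := cod_mul_degree χ.2 (kerOf hc) (mem_kerOf hc)
    have h4 : p ∣ (kerOf hc).index := by
      by_contra h4
      apply hχ2
      have h5 : (P : Subgroup G) ≤ kerOf hc := pgroup_le_of_not_dvd_index hp _ _ P.2 h4
      have h6 : Subgroup.normalClosure ((P : Subgroup G) : Set G) ≤ kerOf hc :=
        Subgroup.normalClosure_le_normal h5
      intro n hn
      exact (mem_kerOf hc n).mp (h6 hn)
    rw [← h3] at h4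
    rcases (Nat.Prime.dvd_mul hp).mp h4 with h | h
    · exact h
    · exact absurd h hχ3
  · rintro ⟨χ, hχ⟩
    exact hχ.trans (cod_dvd_card χ.2)

end Cfsg.Agent.S4808
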