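import Cfsg.Statements.S4835
import Cfsg.Agent.Lib.Helper25.Gagola

set_option autoImplicit false
open Cfsg
open Cfsg.Agent.Lib.Helper2 Cfsg.Agent.Lib.Helper6 Cfsg.Agent.Lib.Helper24 Cfsg.Agent.Lib.Helper25

namespace Cfsg.Agent.S4835

/-- Let G be a finite group of order greater than 2 with an irreducible character χ that is nonzero on exactly two conjugacy classes. Then G has a unique minimal normal subgroup N; N is an elementary abelian p-group for some prime p; χ is nonzero exactly at the elements of N; and any two nonidentity elements of N are conjugate in G. -/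
theorem result {G : Type*} [Group G] [Finite G] (hG : 2 < Nat.card G) (χ : Cfsg.IrrCharacter G) (hχ : Nat.card {C : ConjClasses G // ∃ g ∈ C.carrier, (χ : G → ℂ) g ≠ 0} = 2) :
    ∃ N : Subgroup G, N.Normal ∧ N ≠ ⊥ ∧ (∀ K : Subgroup G, K.Normal → K ≠ ⊥ → N ≤ K) ∧
      (∃ p : ℕ, p.Prime ∧ Cfsg.IsElementaryAbelian p N) ∧
      (∀ g : G, (χ : G → ℂ) g ≠ 0 ↔ g ∈ N) ∧
      (∀ x ∈ N, ∀ y ∈ N, x ≠ 1 → y ≠ 1 → ∃ g : G, g * x * g⁻¹ = y) := by
  classical
  haveI := Fintype.ofFinite G
  obtain ⟨a, D⟩ := Gagola.exists_data χ hχ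
  obtain ⟨N, hN, hmem⟩ := Gagola.exists_subgroup hG D
  have haN : a ∈ N := (hmem a).mpr D.ne_zero
  have hN1 : N ≠ ⊥ := by
    intro h
    rw [h, Subgroup.mem_bot] at haN
    exact D.ne_one haN
  have hconj : ∀ x ∈ N, ∀ y ∈ N, x ≠ 1 → y ≠ 1 → ∃ g : G, g * x * g⁻¹ = y := by
    intro x hx y hy hx1 hy1
    have h1 := (D.cases x ((hmem x).mp hx)).resolve_left hx1
    have h2 := (D.cases y ((hmem y).mp hy)).resolve_left hy1
    exact isConj_iff.mp (h1.symm.trans h2)
  refine ⟨N, hN, hN1, ?_, Gagola.elementaryAbelian_of_conj hN hN1 hconj, fun g => (hmem g).symm, hconj⟩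
  intro K hK hK1
  by_cases haK : a ∈ K
  · intro x hx
    by_cases hx1 : x = 1
    · rw [hx1]; exact K.one_mem
    · obtain ⟨g, rfl⟩ := hconj a haN x hx D.ne_one hx1
      exact hK.conj_mem a haK g
  · exfalso
    have hKN : ∀ k ∈ K, k ≠ 1 → (χ : G → ℂ) k = 0 := by
      intro k hk hk1
      by_contra h0
      obtain ⟨g, hg⟩ := hconj k ((hmem k).mpr h0) a haN hk1 D.ne_one
      apply haK
      rw [← hg]
      exact hK.conj_mem k hk g
    haveI := hK
    rcases sum_normal_eq_zero_or K χ.2 with h | h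
    · apply hK1
      rw [eq_bot_iff]
      intro k hk
      rw [Subgroup.mem_bot]
      exact Gagola.faithful hG D k (h k hk)
    · have h2 : ∑ g : G, (if g ∈ K then (χ : G → ℂ) g else 0) = (χ : G → ℂ) 1 := by
        rw [Finset.sum_eq_single (1 : G)]
        · rw [if_pos K.one_mem]
        · intro g _ hg1
          split_ifs with hgK
          · exact hKN g hgK hg1
          · rfl
        · intro h; exact absurd (Finset.mem_univ _) h
      rw [h2] at h
      exact irr_one_ne_zero χ.2 h

end Cfsg.Agent.S4835
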