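import Cfsg.Statements.S4837
import Cfsg.Agent.Lib.Helper25.Gagola4

set_option autoImplicit false
open Cfsg
open Cfsg.Agent.Lib.Helper2 Cfsg.Agent.Lib.Helper6 Cfsg.Agent.Lib.Helper24 Cfsg.Agent.Lib.Helper25

namespace Cfsg.Agent.S4837

/-- Let G be a finite group of order greater than 2 with an irreducible character χ nonzero on exactly two conjugacy classes, and let N be the set of elements where χ is nonzero, given as a nontrivial normal p-subgroup of G for the prime p. Then for every nonidentity x in N the centralizer C_G(x) is a Sylow p-subgroup of G, and for every irreducible character λ ≠ 1 of N the stabilizer of λ in G (its inertia group) is a Sylow p-subgroup of G. -/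
theorem result {G : Type*} [Group G] [Finite G] (hG : 2 < Nat.card G) (χ : Cfsg.IrrCharacter G) (hχ : Nat.card {C : ConjClasses G // ∃ g ∈ C.carrier, (χ : G → ℂ) g ≠ 0} = 2) (p : ℕ) [Fact p.Prime] (N : Subgroup G) [N.Normal] (hN : ∀ g : G, g ∈ N ↔ (χ : G → ℂ) g ≠ 0) (hNp : IsPGroup p N) (hN1 : N ≠ ⊥) :
    (∀ x ∈ N, x ≠ 1 → ∃ P : Sylow p G, Subgroup.centralizer ({x} : Set G) = P) ∧
      (∀ μ : Cfsg.IrrCharacter N, (μ : N → ℂ) ≠ (fun _ => (1 : ℂ)) → ∃ P : Sylow p G, ∀ g : G, g ∈ (P : Subgroup G) ↔ ∀ n n' : N, (n' : G) = g * n * g⁻¹ → (μ : N → ℂ) n' = (μ : N → ℂ) n) := by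
  classical
  haveI := Fintype.ofFinite G
  obtain ⟨a, D⟩ := Gagola.exists_data χ hχ
  constructor
  · intro x hx hx1
    have D' := D.of_ne hx1 ((hN x).mp hx)
    obtain ⟨h1, h2⟩ := Gagola.centralizer_sylow hG D' hN hNp
    exact ⟨h1.toSylow h2, rfl⟩
  · intro μ hμ
    obtain ⟨h1, h2⟩ := Gagola.stab_sylow hG D hN hNp μ.2 hμ
    refine ⟨h1.toSylow h2, fun g => ?_⟩
    rw [IsPGroup.toSylow_coe]
    exact Gagola.mem_stab_iff' N μ g

end Cfsg.Agent.S4837
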