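import Cfsg.Statements.S4838
import Cfsg.Agent.Lib.Helper25.Gagola5

set_option autoImplicit false
open Cfsg
open scoped commutatorElement
open Cfsg.Agent.Lib.Helper2 Cfsg.Agent.Lib.Helper6 Cfsg.Agent.Lib.Helper24 Cfsg.Agent.Lib.Helper25

namespace Cfsg.Agent.S4838

/-- Let G be a finite group of order greater than 2 with an irreducible character χ nonzero on exactly two conjugacy classes, N the normal p-subgroup of elements where χ is nonzero, and P a Sylow p-subgroup of G. Then (a) for every x outside N the centralizer of x in G has the same order as the centralizer of xN in G/N; (b) the centre of P lies in N, and equals N exactly when P is normal in G; (c) N, viewed inside P, is a term of the upper central series of P. -/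
theorem result {G : Type*} [Group G] [Finite G] (hG : 2 < Nat.card G) (χ : Cfsg.IrrCharacter G) (hχ : Nat.card {C : ConjClasses G // ∃ g ∈ C.carrier, (χ : G → ℂ) g ≠ 0} = 2) (p : ℕ) [Fact p.Prime] (N : Subgroup G) [N.Normal] (hN : ∀ g : G, g ∈ N ↔ (χ : G → ℂ) g ≠ 0) (hNp : IsPGroup p N) (hN1 : N ≠ ⊥) (P : Sylow p G) :
    (∀ x : G, x ∉ N → Nat.card (Subgroup.centralizer ({x} : Set G)) = Nat.card (Subgroup.centralizer ({(x : G ⧸ N)} : Set (G ⧸ N)))) ∧
      ((Subgroup.center ↥(P : Subgroup G)).map (P : Subgroup G).subtype ≤ N ∧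
        ((Subgroup.center ↥(P : Subgroup G)).map (P : Subgroup G).subtype = N ↔ (P : Subgroup G).Normal)) ∧
      (∃ i : ℕ, Subgroup.upperCentralSeries ↥(P : Subgroup G) i = N.subgroupOf (P : Subgroup G)) := by
  classical
  haveI := Fintype.ofFinite G
  obtain ⟨a, D⟩ := Gagola.exists_data χ hχ
  have hA : ∀ x : G, x ∉ N → Nat.card (Subgroup.centralizer ({x} : Set G))
      = Nat.card (Subgroup.centralizer ({(x : G ⧸ N)} : Set (G ⧸ N))) :=
    fun x hx => Gagola.card_centralizer_quotient hG D hN hx
  have hNP : N ≤ P := hNp.le_sylow_of_normal P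
  have haN := Gagola.mem_N D hN
  obtain ⟨j, hj⟩ := hNp.exists_card_eq
  have hj0 : j ≠ 0 := by
    rintro rfl
    rw [pow_zero] at hj
    exact hN1 (Subgroup.card_eq_one.mp hj)
  have hB1 : (Subgroup.center ↥(P : Subgroup G)).map (P : Subgroup G).subtype ≤ N := by
    rintro _ ⟨z, hz, rfl⟩
    by_contra hzN
    have h1 : (P : Subgroup G) ≤ Subgroup.centralizer ({((P : Subgroup G).subtype z)} : Set G) := by
      intro y hy
      rw [Subgroup.mem_centralizer_singleton_iff]
      exact congrArg Subtype.val (Subgroup.mem_center_iff.mp hz ⟨y, hy⟩)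
    have h2 := Subgroup.card_dvd_of_le h1
    rw [hA _ hzN] at h2
    have h3 : Nat.card (P : Subgroup G) ∣ Nat.card (G ⧸ N) := h2.trans (Subgroup.card_subgroup_dvd_card _)
    have h4 : Nat.card (P : Subgroup G) * Nat.card N ∣ Nat.card (P : Subgroup G) * (P : Subgroup G).index := by
      rw [Subgroup.card_mul_index, ← Subgroup.card_mul_index N, mul_comm, Subgroup.index_eq_card]
      exact Nat.mul_dvd_mul_left _ h3
    have h5 : Nat.card N ∣ (P : Subgroup G).index := Nat.dvd_of_mul_dvd_mul_left Nat.card_pos h4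
    apply P.not_dvd_index
    refine dvd_trans ?_ h5
    rw [hj]
    exact dvd_pow_self p hj0
  refine ⟨hA, ⟨hB1, ?_⟩, ?_⟩
  · constructor
    · intro hZ
      have hPC : ∀ x ∈ N, x ≠ 1 → Subgroup.centralizer ({x} : Set G) = (P : Subgroup G) := by
        intro x hx hx1
        have D' := D.of_ne hx1 ((hN x).mp hx)
        obtain ⟨h1, _⟩ := Gagola.centralizer_sylow hG D' hN hNp
        apply P.is_maximal' h1
        intro y hy
        rw [Subgroup.mem_centralizer_singleton_iff]
        rw [← hZ] at hx
        obtain ⟨z, hz, rfl⟩ := hx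
        exact congrArg Subtype.val (Subgroup.mem_center_iff.mp hz ⟨y, hy⟩)
      constructor
      intro y hy g
      have hx : g⁻¹ * a * g ∈ N := by
        have := (inferInstance : N.Normal).conj_mem a haN g⁻¹
        rwa [inv_inv] at this
      have hx1 : g⁻¹ * a * g ≠ 1 := by
        intro h
        apply D.ne_one
        have : a = g * (g⁻¹ * a * g) * g⁻¹ := by group
        rw [this, h]; group
      rw [← hPC _ hx hx1, Subgroup.mem_centralizer_singleton_iff] at hy
      rw [← hPC a haN D.ne_one, Subgroup.mem_centralizer_singleton_iff]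
      calc g * y * g⁻¹ * a = g * (y * (g⁻¹ * a * g)) * g⁻¹ := by group
        _ = g * (g⁻¹ * a * g * y) * g⁻¹ := by rw [hy]
        _ = a * (g * y * g⁻¹) := by group
    · intro hPn
      apply le_antisymm hB1
      apply Gagola.le_of_normal hG D hN
      · constructor
        rintro _ ⟨z, hz, rfl⟩ g
        refine ⟨⟨g * z * g⁻¹, hPn.conj_mem z z.2 g⟩, ?_, rfl⟩
        apply Subgroup.mem_center_iff.mpr
        intro y
        apply Subtype.ext
        have hy' : g⁻¹ * y * g ∈ (P : Subgroup G) := by
          have := hPn.conj_mem y y.2 g⁻¹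
          rwa [inv_inv] at this
        have h1 : g⁻¹ * (y : G) * g * (z : G) = (z : G) * (g⁻¹ * y * g) :=
          congrArg Subtype.val (Subgroup.mem_center_iff.mp hz ⟨_, hy'⟩)
        change (y : G) * (g * z * g⁻¹) = g * z * g⁻¹ * y
        calc (y : G) * (g * z * g⁻¹) = g * (g⁻¹ * y * g * z) * g⁻¹ := by group
          _ = g * ((z : G) * (g⁻¹ * y * g)) * g⁻¹ := by rw [h1]
          _ = g * z * g⁻¹ * y := by group
      · intro hbot
        haveI : Nontrivial ↥(P : Subgroup G) := ⟨⟨⟨a, hNP haN⟩, 1, fun h => D.ne_one (congrArg Subtype.val h)⟩⟩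
        haveI := P.isPGroup'.center_nontrivial
        obtain ⟨w, hw⟩ := exists_ne (1 : Subgroup.center ↥(P : Subgroup G))
        apply hw
        have h1 : ((w : ↥(P : Subgroup G)) : G) ∈ (Subgroup.center ↥(P : Subgroup G)).map (P : Subgroup G).subtype :=
          ⟨w, w.2, rfl⟩
        rw [hbot, Subgroup.mem_bot] at h1
        exact Subtype.ext (Subtype.ext h1)
  · by_contra hcon
    push Not at hcon
    have hle : ∀ i : ℕ, Subgroup.upperCentralSeries ↥(P : Subgroup G) i ≤ N.subgroupOf (P : Subgroup G) := by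
      intro i
      induction i with
      | zero => rw [Subgroup.upperCentralSeries_zero]; exact bot_le
      | succ i ih =>
        intro z hz
        by_contra hzN
        have hzN' : (z : G) ∉ N := hzN
        rw [Subgroup.mem_upperCentralSeries_succ_iff] at hz
        apply hcon i
        apply le_antisymm ih
        intro n hn
        have h2 : ∀ u ∈ (P : Subgroup G), u * (z : G) * u⁻¹ * (z : G)⁻¹ ∈ N := by
          intro u hu
          have h3 := ih ((Subgroup.upperCentralSeries ↥(P : Subgroup G) i).inv_mem (hz ⟨u, hu⟩))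
          have h4 : ((⁅z, (⟨u, hu⟩ : ↥(P : Subgroup G))⁆⁻¹ : ↥(P : Subgroup G)) : G) ∈ N := h3
          have h5 : ((⁅z, (⟨u, hu⟩ : ↥(P : Subgroup G))⁆⁻¹ : ↥(P : Subgroup G)) : G)
              = u * (z : G) * u⁻¹ * (z : G)⁻¹ := by
            rw [commutatorElement_def]
            simp [mul_assoc]
          rwa [h5] at h4
        obtain ⟨u, hu, hun⟩ := Gagola.exists_commutator_eq hNp P (hA _ hzN') h2 n hn
        have h6 := (Subgroup.upperCentralSeries ↥(P : Subgroup G) i).inv_mem (hz ⟨u, hu⟩)
        have h7 : (⁅z, (⟨u, hu⟩ : ↥(P : Subgroup G))⁆⁻¹ : ↥(P : Subgroup G)) = n := by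
          apply Subtype.ext
          rw [← hun, commutatorElement_def]
          simp [mul_assoc]
        rwa [h7] at h6
    haveI : Group.IsNilpotent ↥(P : Subgroup G) := P.isPGroup'.isNilpotent
    obtain ⟨n, hn⟩ := Group.IsNilpotent.nilpotent ↥(P : Subgroup G)
    apply hcon n
    apply le_antisymm (hle n)
    rw [hn]
    exact le_top

end Cfsg.Agent.S4838
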