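import Cfsg.Statements.S4839
import Cfsg.Agent.Lib.Helper25.Gagola6

set_option autoImplicit false
open Cfsg
open Cfsg.Agent.Lib.Helper2 Cfsg.Agent.Lib.Helper6 Cfsg.Agent.Lib.Helper24 Cfsg.Agent.Lib.Helper25

namespace Cfsg.Agent.S4839

/-- Let G be a finite group of order greater than 2 with an irreducible character χ nonzero on exactly two conjugacy classes, and let N be the normal p-subgroup of elements where χ is nonzero. Then N is the whole p-core O_p(G) if and only if G is a doubly transitive Frobenius group with kernel N: G has a Frobenius complement H whose Frobenius kernel is N and whose order is one less than that of N. -/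
theorem result {G : Type*} [Group G] [Finite G] (hG : 2 < Nat.card G) (χ : Cfsg.IrrCharacter G) (hχ : Nat.card {C : ConjClasses G // ∃ g ∈ C.carrier, (χ : G → ℂ) g ≠ 0} = 2) (p : ℕ) [Fact p.Prime] (N : Subgroup G) [N.Normal] (hN : ∀ g : G, g ∈ N ↔ (χ : G → ℂ) g ≠ 0) (hNp : IsPGroup p N) (hN1 : N ≠ ⊥) :
    N = Cfsg.pCore p G ↔ ∃ H : Subgroup G, Cfsg.IsFrobeniusComplement H ∧ Cfsg.frobeniusKernel H = (N : Set G) ∧ Nat.card H + 1 = Nat.card N := by
  classical
  haveI := Fintype.ofFinite G
  have hp : p.Prime := Fact.out
  obtain ⟨a, D⟩ := Gagola.exists_data χ hχ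
  have haN := Gagola.mem_N D hN
  have hcomm := Gagola.comm_of_mem D inferInstance hN
  have hcN := Gagola.card_eq D hN
  constructor
  · intro hcore
    obtain ⟨C, hdisj, hgen⟩ := Gagola.exists_complement hG D hN hNp hcore
    have hfree := Gagola.free_of_complement hG D hN hdisj hgen
    have hcent : Subgroup.centralizer ({a} : Set G) = N := by
      apply le_antisymm
      · intro g hg
        rw [Subgroup.mem_centralizer_singleton_iff] at hg
        obtain ⟨n, hn, c, hc, rfl⟩ := hgen g
        have h1 : c * a = a * c := by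
          calc c * a = n⁻¹ * (n * c * a) := by group
            _ = n⁻¹ * (a * (n * c)) := by rw [hg]
            _ = (n⁻¹ * a) * n * c := by group
            _ = (a * n⁻¹) * n * c := by rw [hcomm _ (N.inv_mem hn) _ haN]
            _ = a * c := by group
        rcases hfree c hc a haN h1 with h | h
        · rw [h, mul_one]; exact hn
        · exact absurd h D.ne_one
      · intro n hn
        rw [Subgroup.mem_centralizer_singleton_iff]
        exact hcomm _ hn _ haN
    have hcompl : Subgroup.IsComplement' N C := by
      apply Subgroup.isComplement'_of_disjoint_and_mul_eq_univ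
      · rw [disjoint_iff, eq_bot_iff]
        intro x hx
        exact Subgroup.mem_bot.mpr (hdisj x hx.1 hx.2)
      · apply Set.eq_univ_of_forall
        intro g
        obtain ⟨n, hn, c, hc, rfl⟩ := hgen g
        exact Set.mul_mem_mul hn hc
    have h1 := hcompl.card_mul_card
    have h2 := card_isConj_mul_card_centralizer a
    rw [hcent, ← h1, mul_comm] at h2
    have h3 : Nat.card {x : G // IsConj a x} = Nat.card C :=
      Nat.eq_of_mul_eq_mul_left (Nat.card_pos (α := N)) h2
    have hC1 : C ≠ ⊥ := by
      rintro rfl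
      rw [Subgroup.card_bot] at h3 h1
      omega
    obtain ⟨hF, hK⟩ := Gagola.frobenius_of_free inferInstance hN1 hC1 hdisj hgen hfree
    exact ⟨C, hF, hK, by omega⟩
  · rintro ⟨H, hF, hK, hcard⟩
    have h1 := Cfsg.Agent.Lib.Lead.frob_card_kernel hF
    rw [hK] at h1
    have h1' : Nat.card N = H.index := h1
    have h2 := H.card_mul_index
    rw [← h1'] at h2
    have hle : N ≤ pCore p G := Cfsg.Agent.Lib.Helper12.le_pCore inferInstance hNp
    apply Subgroup.eq_of_le_of_card_ge hle
    obtain ⟨k, hk⟩ := (Cfsg.Agent.Lib.Helper12.pCore_isPGroup p G).exists_card_eq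
    obtain ⟨j, hj⟩ := hNp.exists_card_eq
    have hj0 : j ≠ 0 := by
      rintro rfl
      rw [pow_zero] at hj
      exact hN1 (Subgroup.card_eq_one.mp hj)
    have h3 : Nat.card (pCore p G) ∣ Nat.card H * Nat.card N := by
      rw [h2]
      exact Subgroup.card_subgroup_dvd_card _
    have h4 : (Nat.card (pCore p G)).Coprime (Nat.card H) := by
      rw [hk]
      apply Nat.Coprime.pow_left
      rw [Nat.Prime.coprime_iff_not_dvd hp]
      intro hd
      have h5 : p ∣ Nat.card N := by rw [hj]; exact dvd_pow_self p hj0
      rw [← hcard] at h5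
      have h6 : p ∣ 1 := (Nat.dvd_add_right hd).mp h5
      exact hp.one_lt.ne' (Nat.dvd_one.mp h6)
    exact Nat.le_of_dvd Nat.card_pos (h4.dvd_of_dvd_mul_left h3)

end Cfsg.Agent.S4839
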