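import Cfsg.Statements.S4870
import Cfsg.Agent.Lib.Helper13.LinCount
import Cfsg.Agent.Lib.Helper13.Dade2

set_option autoImplicit false
open Cfsg

namespace Cfsg.Agent.S4870

open Cfsg.Agent.Lib.Helper2 Cfsg.Agent.Lib.Helper13 Cfsg.Agent.Lib.Helper13.LinCount
open scoped commutatorElement

/-- Let G be a finite group with a non-abelian minimal normal subgroup N, and let φ be an irreducible complex character of N with stabilizer I in G (the elements g with φ(g n g⁻¹) = φ(n) for all n ∈ N) such that φ extends to an irreducible character of I. Put d = φ(1)·[G : I]. Then the number of linear characters of G is at most [G : I] times the number of irreducible characters of G of degree d. -/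
theorem result {G : Type*} [Group G] [Finite G] (N : Subgroup G) (hN : N.Normal) (hN1 : N ≠ ⊥) (hmin : ∀ M : Subgroup G, M.Normal → M ≤ N → M = ⊥ ∨ M = N) (hna : ¬ IsMulCommutative ↥N) (φ : Cfsg.IrrCharacter ↥N) (I : Subgroup G) (hI : ∀ g : G, g ∈ I ↔ ∀ n n' : ↥N, (n' : G) = g * (n : G) * g⁻¹ → (φ : ↥N → ℂ) n' = (φ : ↥N → ℂ) n) (hNI : N ≤ I) (hext : ∃ ψ : Cfsg.IrrCharacter ↥I, ∀ n : ↥N, (ψ : ↥I → ℂ) (Subgroup.inclusion hNI n) = (φ : ↥N → ℂ) n) : Nat.card {χ : Cfsg.IrrCharacter G // Cfsg.charDegree (χ : G → ℂ) = 1} ≤ I.index * Nat.card {χ : Cfsg.IrrCharacter G // Cfsg.charDegree (χ : G → ℂ) = Cfsg.charDegree (φ : ↥N → ℂ) * I.index} := by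
  classical
  cases nonempty_fintype G
  haveI := hN
  have hI' : ∀ g, g ∈ I ↔ conjFun N g (φ : ↥N → ℂ) = φ := by
    intro g
    rw [hI g, ← stmtInv_iff]
    constructor
    · intro h n
      exact h n ⟨g * n * g⁻¹, hN.conj_mem n n.2 g⟩ rfl
    · intro h n n' hn
      rw [← h n]
      have : n' = ⟨g * n * g⁻¹, hN.conj_mem n n.2 g⟩ := Subtype.ext hn
      rw [this]
  obtain ⟨ψ, hψ⟩ := hext
  have hcomm : (⁅N, N⁆ : Subgroup G) = N := by
    rcases hmin ⁅N, N⁆ inferInstance (Subgroup.commutator_le_self N) with h | h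
    · exfalso
      apply hna
      rw [isMulCommutative_iff]
      intro a b
      have h1 : ⁅(a : G), (b : G)⁆ ∈ (⁅N, N⁆ : Subgroup G) :=
        Subgroup.commutator_mem_commutator a.2 b.2
      rw [h, Subgroup.mem_bot, commutatorElement_eq_one_iff_mul_comm] at h1
      exact Subtype.ext h1
    · exact h
  have hperf : ∀ lam : G → ℂ, Cfsg.IsCharacter G lam → lam 1 = 1 → ∀ n ∈ N, lam n = 1 := by
    intro lam hl hl1 n hn
    obtain ⟨f, rfl⟩ := exists_hom_of_degree_one hl hl1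
    have h1 := Cfsg.Agent.Lib.Helper13.Dade2.hom_commutator_eq_one N (f.comp N.subtype)
      (x := n) (by rw [hcomm]; exact hn) hn
    have h2 : f n = 1 := h1
    show ((f n : ℂˣ) : ℂ) = 1
    rw [h2]; rfl
  have key := card_linear_le N φ.2 I hI' hNI ψ.2 hψ hperf
  obtain ⟨d, hd⟩ := IsCharacter.apply_one (IsIrrCharacter.isCharacter φ.2)
  have e1 : ∀ χ : Cfsg.IrrCharacter G, Cfsg.charDegree (χ : G → ℂ) = 1 ↔ (χ : G → ℂ) 1 = 1 := by
    intro χ
    obtain ⟨e, he⟩ := IsCharacter.apply_one (IsIrrCharacter.isCharacter χ.2)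
    rw [charDegree_eq_of_cast he, he]
    exact_mod_cast Iff.rfl
  have e2 : ∀ χ : Cfsg.IrrCharacter G, Cfsg.charDegree (χ : G → ℂ) =
      Cfsg.charDegree (φ : ↥N → ℂ) * I.index ↔ (χ : G → ℂ) 1 = (I.index : ℂ) * (φ : ↥N → ℂ) 1 := by
    intro χ
    obtain ⟨e, he⟩ := IsCharacter.apply_one (IsIrrCharacter.isCharacter χ.2)
    rw [charDegree_eq_of_cast he, charDegree_eq_of_cast hd, he, hd, mul_comm]
    exact_mod_cast Iff.rfl
  rw [Nat.card_congr (Equiv.subtypeEquivRight e1), Nat.card_congr (Equiv.subtypeEquivRight e2)]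
  exact key


end Cfsg.Agent.S4870
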