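import Cfsg.Statements.S4912
import Cfsg.Agent.Lib.Helper13.LinCount
import Cfsg.Agent.Lib.Helper13.Dade2
import Cfsg.Agent.Lib.Helper6.ConvAlg
import Cfsg.Agent.Lib.Helper23.FSCount

set_option autoImplicit false
open Cfsg

namespace Cfsg.Agent.S4912

open Cfsg.Agent.Lib.Helper2 Cfsg.Agent.Lib.Helper13 Cfsg.Agent.Lib.Helper13.LinCount Cfsg.Agent.Lib.Helper6 Cfsg.Agent.Lib.Helper23
open scoped commutatorElement ComplexConjugate

theorem sum_shift_eq_zero {H : Type*} [Group H] [Fintype H] {α β : H → ℂ} (hα : Cfsg.IsIrrCharacter H α)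
    (hβ : Cfsg.IsIrrCharacter H β) (hne : α ≠ fun h => conj (β h)) (x y : H) :
    ∑ n, β (n * x) * α (n * y) = 0 := by
  classical
  have h1 : ∑ n, β (n * x) * α (n * y) = ∑ n, β n * α (n * (x⁻¹ * y)) := by
    refine Fintype.sum_equiv (Equiv.mulRight x) _ _ fun n => ?_
    simp [mul_assoc]
  rw [h1, sum_class_mul_irr hα (IsCharacter.isClassFunction (IsIrrCharacter.isCharacter hβ))]
  have h2 := classInner_irr hα (IsIrrCharacter.conj hβ)
  rw [if_neg hne, Cfsg.classInner] at h2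
  simp only [Complex.conj_conj] at h2
  have h3 : ∑ g, α g * β g = 0 := by
    rcases mul_eq_zero.1 h2 with h | h
    · exfalso
      rw [inv_eq_zero] at h
      exact_mod_cast (Nat.card_pos (α := H)).ne' (by exact_mod_cast h)
    · exact h
  rw [om]
  have h4 : ∑ g, β g * α g = 0 := by
    rw [← h3]; exact Finset.sum_congr rfl fun g _ => mul_comm _ _
  rw [h4, zero_div, zero_mul]

theorem star {I N : Type*} [Group I] [Fintype I] [Group N] [Fintype N] (ι : N →* I)
    (hι : Function.Injective ι) (hnorm : ι.range.Normal) {ψ : I → ℂ} (hψ : Cfsg.IsIrrCharacter I ψ)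
    (hφ : Cfsg.IsIrrCharacter N (fun n => ψ (ι n))) :
    ∃ c : ℂ, c ≠ 0 ∧ ∀ b, ∑ m, ψ (ι m)⁻¹ * ψ (ι m * b) = c * ψ b := by
  classical
  have hcf := IsCharacter.isClassFunction (IsIrrCharacter.isCharacter hψ)
  let z : I → ℂ := fun u => if u ∈ ι.range then ψ u⁻¹ else 0
  have hz : Cfsg.IsClassFunction I z := by
    intro g h
    have h1 : h * g * h⁻¹ ∈ ι.range ↔ g ∈ ι.range := by
      constructor
      · intro hh
        have := hnorm.conj_mem _ hh h⁻¹
        simpa [mul_assoc] using this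
      · intro hh
        exact hnorm.conj_mem _ hh h
    show (if h * g * h⁻¹ ∈ ι.range then ψ (h * g * h⁻¹)⁻¹ else 0) = if g ∈ ι.range then ψ g⁻¹ else 0
    have h2 : ψ (h * g * h⁻¹)⁻¹ = ψ g⁻¹ := by
      have : (h * g * h⁻¹)⁻¹ = h * g⁻¹ * h⁻¹ := by group
      rw [this, hcf]
    simp only [h1, h2]
  have hsum : ∀ F : I → ℂ, ∑ u, (if u ∈ ι.range then F u else 0) = ∑ m, F (ι m) := by
    intro F
    rw [← Finset.sum_filter]
    symm
    refine Finset.sum_bij (fun m _ => ι m) ?_ ?_ ?_ ?_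
    · intro m _
      simp
    · intro m _ m' _ h
      exact hι h
    · intro u hu
      rw [Finset.mem_filter] at hu
      obtain ⟨m, rfl⟩ := hu.2
      exact ⟨m, Finset.mem_univ _, rfl⟩
    · intro m _
      rfl
  have key : ∀ b, ∑ m, ψ (ι m)⁻¹ * ψ (ι m * b) = om ψ z * ψ b := by
    intro b
    rw [← sum_class_mul_irr hψ hz b, ← hsum (fun u => ψ u⁻¹ * ψ (u * b))]
    refine Finset.sum_congr rfl fun u _ => ?_
    show _ = (if u ∈ ι.range then ψ u⁻¹ else 0) * ψ (u * b)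
    split_ifs <;> simp
  refine ⟨om ψ z, ?_, key⟩
  intro h0
  have h1 := key 1
  rw [h0, zero_mul] at h1
  have h2 := classInner_irr hφ hφ
  rw [if_pos rfl, Cfsg.classInner] at h2
  have h3 : ∑ m, ψ (ι m)⁻¹ * ψ (ι m * 1) = ∑ g, ψ (ι g) * conj (ψ (ι g)) := by
    refine Finset.sum_congr rfl fun m _ => ?_
    rw [mul_one, IsCharacter.apply_inv (IsIrrCharacter.isCharacter hψ), mul_comm]
  rw [← h3, h1, mul_zero] at h2
  exact zero_ne_one h2

theorem vanish {I N : Type*} [Group I] [Fintype I] [Group N] [Fintype N] (ι : N →* I)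
    (hι : Function.Injective ι) (hnorm : ι.range.Normal) {ψ : I → ℂ} (hψ : Cfsg.IsIrrCharacter I ψ)
    (hφ : Cfsg.IsIrrCharacter N (fun n => ψ (ι n))) (σ : N ≃* N)
    (hσ : Cfsg.IsIrrCharacter N (fun n => ψ (ι (σ n))))
    (hne : (fun n => ψ (ι (σ n))) ≠ fun n => conj (ψ (ι n))) (a : I) :
    ∑ n, ψ (a * ι (σ n) * ι n) = 0 := by
  classical
  obtain ⟨c, hc0, hstar⟩ := star ι hι hnorm hψ hφ
  have hcf := IsCharacter.isClassFunction (IsIrrCharacter.isCharacter hψ)
  have hcl : ∀ x y, ψ (x * y) = ψ (y * x) := by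
    intro x y
    have := hcf (x * y) y
    rw [← this]
    congr 1
    group
  have e1 : ∀ u v : N, c * ψ (a * ι u * ι v) = ∑ m, ψ (ι (v * m⁻¹)) * ψ (a * ι u * ι m) := by
    intro u v
    rw [hcl (a * ι u) (ι v), ← hstar]
    refine Fintype.sum_equiv (Equiv.mulRight v) _ _ fun m => ?_
    have h1 : v * (Equiv.mulRight v m)⁻¹ = m⁻¹ := by simp
    rw [h1, map_inv]
    congr 1
    show _ = ψ (a * ι u * ι (m * v))
    rw [map_mul, hcl (a * ι u), mul_assoc]
  have e2 : ∀ u w : N, c * ψ (a * ι u * ι w) = ∑ k, ψ (ι (u * k⁻¹)) * ψ (a * ι k * ι w) := by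
    intro u w
    rw [mul_assoc a, hcl a, mul_assoc, ← hstar]
    refine Fintype.sum_equiv (Equiv.mulRight u) _ _ fun k => ?_
    have h1 : u * (Equiv.mulRight u k)⁻¹ = k⁻¹ := by simp
    rw [h1, map_inv]
    congr 1
    show _ = ψ (a * ι (k * u) * ι w)
    rw [map_mul, mul_assoc a, hcl a]
    simp only [mul_assoc]
  have h1 : c * c * ∑ n, ψ (a * ι (σ n) * ι n) =
      ∑ m, ∑ k, ψ (a * ι k * ι m) * ∑ n, ψ (ι (n * m⁻¹)) * ψ (ι (σ (n * σ.symm k⁻¹))) := by
    rw [Finset.mul_sum]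
    have : ∀ n, c * c * ψ (a * ι (σ n) * ι n) =
        ∑ m, ∑ k, ψ (a * ι k * ι m) * (ψ (ι (n * m⁻¹)) * ψ (ι (σ (n * σ.symm k⁻¹)))) := by
      intro n
      rw [mul_assoc, e1, Finset.mul_sum]
      refine Finset.sum_congr rfl fun m _ => ?_
      rw [mul_left_comm, e2, Finset.mul_sum]
      refine Finset.sum_congr rfl fun k _ => ?_
      rw [map_mul σ, MulEquiv.apply_symm_apply]
      ring
    simp_rw [this]
    rw [Finset.sum_comm]
    refine Finset.sum_congr rfl fun m _ => ?_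
    rw [Finset.sum_comm]
    refine Finset.sum_congr rfl fun k _ => ?_
    rw [Finset.mul_sum]
  have h2 : ∀ m k : N, ∑ n, ψ (ι (n * m⁻¹)) * ψ (ι (σ (n * σ.symm k⁻¹))) = 0 := by
    intro m k
    exact sum_shift_eq_zero (α := fun n => ψ (ι (σ n))) (β := fun n => ψ (ι n)) hσ hφ hne m⁻¹ (σ.symm k⁻¹)
  simp only [h2, mul_zero, Finset.sum_const_zero] at h1
  rcases mul_eq_zero.1 h1 with h | h
  · exact absurd (mul_self_eq_zero.1 h) hc0
  · exact h

theorem sum_ite_mem {G : Type*} [Group G] [Fintype G] (I : Subgroup G) [Fintype I] (F : G → ℂ) [DecidablePred (· ∈ I)] :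
    ∑ g, (if g ∈ I then F g else 0) = ∑ u : I, F u := by
  classical
  rw [← Finset.sum_filter]
  symm
  refine Finset.sum_bij (fun m _ => (m : G)) ?_ ?_ ?_ ?_
  · intro m _
    simp
  · intro m _ m' _ h
    exact Subtype.ext h
  · intro u hu
    rw [Finset.mem_filter] at hu
    exact ⟨⟨u, hu.2⟩, Finset.mem_univ _, rfl⟩
  · intro m _
    rfl

theorem sum_ind_sq {G : Type*} [Group G] [Fintype G] (I : Subgroup G) (ψ : I → ℂ) :
    ∑ g, Cfsg.indFun I ψ (g * g) = (Nat.card I : ℂ)⁻¹ * ((Nat.card G : ℂ) * ∑ g, Cfsg.extendByZero I ψ (g * g)) := by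
  classical
  unfold Cfsg.indFun
  rw [← Finset.mul_sum, Finset.sum_comm]
  congr 1
  have : ∀ x : G, ∑ g, Cfsg.extendByZero I ψ (x⁻¹ * (g * g) * x) = ∑ g, Cfsg.extendByZero I ψ (g * g) := by
    intro x
    refine Fintype.sum_equiv (MulAut.conj x⁻¹).toEquiv _ _ fun g => ?_
    congr 1
    simp [mul_assoc]
  simp_rw [this]
  rw [Finset.sum_const, Finset.card_univ, nsmul_eq_mul, Nat.card_eq_fintype_card]

theorem fsInd_ind {G : Type*} [Group G] [Fintype G] (N : Subgroup G) [hN : N.Normal] [Fintype N] {φ : N → ℂ}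
    (hφ : Cfsg.IsIrrCharacter N φ) (I : Subgroup G) [Fintype I]
    (hI : ∀ g, g ∈ I ↔ conjFun N g φ = φ) (hNI : N ≤ I)
    {ψ : I → ℂ} (hψ : Cfsg.IsIrrCharacter I ψ) (hext : ∀ n : N, ψ ⟨n, hNI n.2⟩ = φ n)
    (hreal : ∀ x, (ψ x).im = 0) :
    fsInd (Cfsg.indFun I ψ) = fsInd ψ := by
  classical
  set ext := Cfsg.extendByZero I ψ with hextdef
  let F : G → ℂ := fun g => if g ∈ I then 0 else ext (g * g)
  have hsplit : ∑ g, ext (g * g) = ∑ u : I, ψ (u * u) + ∑ g, F g := by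
    rw [← sum_ite_mem I (fun g => ext (g * g)) |>.trans (Finset.sum_congr rfl fun u _ => by
      show ext ((u : G) * (u : G)) = ψ (u * u)
      exact extendByZero_coe I ψ (u * u)), ← Finset.sum_add_distrib]
    refine Finset.sum_congr rfl fun g _ => ?_
    show _ = _ + (if g ∈ I then 0 else ext (g * g))
    split_ifs <;> simp
  have hinner : ∀ g : G, ∑ n : N, F (g * n) = 0 := by
    intro g
    by_cases hg : g ∈ I
    · refine Finset.sum_eq_zero fun n _ => ?_
      show (if g * n ∈ I then 0 else ext (g * n * (g * n))) = 0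
      rw [if_pos (I.mul_mem hg (hNI n.2))]
    · have hgn : ∀ n : N, g * n ∉ I := fun n h => hg (by
        have := I.mul_mem h (I.inv_mem (hNI n.2))
        simpa using this)
      have e0 : ∀ n : N, g * n * (g * n) = g * g * (g⁻¹ * n * g) * n := by
        intro n; group
      have hF : ∀ n : N, F (g * n) = ext (g * g * (g⁻¹ * n * g) * n) := by
        intro n
        show (if g * n ∈ I then 0 else ext (g * n * (g * n))) = _
        rw [if_neg (hgn n), e0]
      simp_rw [hF]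
      have hmemN : ∀ n : N, g⁻¹ * n * g ∈ N := fun n => by
        simpa using hN.conj_mem n n.2 g⁻¹
      by_cases hgg : g * g ∈ I
      · let σ : N ≃* N := MulAut.conjNormal g⁻¹
        have hσv : ∀ n : N, ((σ n : N) : G) = g⁻¹ * n * g := by
          intro n
          show ((MulAut.conjNormal g⁻¹ n : N) : G) = _
          rw [MulAut.conjNormal_apply, inv_inv]
        have hφ' : (fun n : N => ψ (Subgroup.inclusion hNI n)) = φ := funext hext
        have hσ' : (fun n : N => ψ (Subgroup.inclusion hNI (σ n))) = conjFun N g φ := by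
          funext n
          rw [conjFun_apply, ← hext]
          congr 1
          exact Subtype.ext (hσv n)
        have hv := vanish (Subgroup.inclusion hNI) (Subgroup.inclusion_injective hNI)
          (by rw [Subgroup.inclusion_range]; infer_instance) hψ (by rw [hφ']; exact hφ) σ
          (by rw [hσ']; exact IsIrrCharacter.conjFun N hφ g)
          (by
            rw [hσ']
            intro h
            apply hg
            rw [hI, h]
            funext n
            rw [← hext]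
            exact Complex.conj_eq_iff_im.2 (hreal _)) ⟨g * g, hgg⟩
        rw [← hv]
        refine Finset.sum_congr rfl fun n _ => ?_
        have : g * g * (g⁻¹ * n * g) * n = ((⟨g * g, hgg⟩ * Subgroup.inclusion hNI (σ n) * Subgroup.inclusion hNI n : I) : G) := by
          simp [hσv]
        rw [this]
        exact extendByZero_coe I ψ _
      · refine Finset.sum_eq_zero fun n _ => ?_
        apply extendByZero_not_mem
        intro h
        apply hgg
        have h1 := I.mul_mem (I.mul_mem h (I.inv_mem (hNI n.2))) (I.inv_mem (hNI (hmemN n)))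
        simpa [mul_assoc] using h1
  have hT : ∑ g, F g = 0 := by
    have h1 : ∀ n : N, ∑ g, F (g * n) = ∑ g, F g := fun n =>
      Fintype.sum_equiv (Equiv.mulRight (n : G)) _ _ fun g => rfl
    have h2 : ∑ n : N, ∑ g, F (g * n) = 0 := by
      rw [Finset.sum_comm]
      exact Finset.sum_eq_zero fun g _ => hinner g
    simp_rw [h1] at h2
    rw [Finset.sum_const, Finset.card_univ, nsmul_eq_mul] at h2
    rcases mul_eq_zero.1 h2 with h | h
    · exfalso
      have : Fintype.card N ≠ 0 := Fintype.card_ne_zero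
      exact this (by exact_mod_cast h)
    · exact h
  unfold fsInd
  rw [sum_ind_sq, hsplit, hT, add_zero]
  have hG : (Nat.card G : ℂ) ≠ 0 := by exact_mod_cast (Nat.card_pos (α := G)).ne'
  field_simp


theorem lin_sq {G : Type*} [Group G] [Fintype G] {l : G → ℂ} (hl : Cfsg.IsCharacter G l) (hl1 : l 1 = 1)
    (hfs : fsInd l = 1) (g : G) : l (g * g) = 1 := by
  classical
  obtain ⟨f, rfl⟩ := exists_hom_of_degree_one hl hl1
  let h : G →* ℂ := (Units.coeHom ℂ).comp (f * f)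
  have hh : ∀ x, h x = ((f (x * x) : ℂˣ) : ℂ) := by
    intro x
    show (((f * f) x : ℂˣ) : ℂ) = _
    rw [MonoidHom.mul_apply, map_mul]
  by_cases h1 : h = 1
  · show ((f (g * g) : ℂˣ) : ℂ) = 1
    rw [← hh, h1]; rfl
  · exfalso
    have h2 := sum_hom_units_eq_zero h h1
    have h3 : fsInd (fun g => ((f g : ℂˣ) : ℂ)) = (Nat.card G : ℂ)⁻¹ * ∑ x, h x := by
      unfold fsInd
      congr 1
      exact Finset.sum_congr rfl fun x _ => (hh x).symm
    rw [h3, h2, mul_zero] at hfs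
    exact zero_ne_one hfs

theorem card_linear_le_fs {G : Type*} [Group G] [Fintype G] (N : Subgroup G) [hN : N.Normal] [Fintype N] {φ : N → ℂ}
    (hφ : Cfsg.IsIrrCharacter N φ) (I : Subgroup G) [Fintype I]
    (hI : ∀ g, g ∈ I ↔ conjFun N g φ = φ) (hNI : N ≤ I)
    {ψ : I → ℂ} (hψ : Cfsg.IsIrrCharacter I ψ) (hext : ∀ n : N, ψ ⟨n, hNI n.2⟩ = φ n)
    (hperf : ∀ lam : G → ℂ, Cfsg.IsCharacter G lam → lam 1 = 1 → ∀ n ∈ N, lam n = 1)
    (hfs : fsInd ψ = 1) :
    Nat.card {χ : Cfsg.IrrCharacter G // (χ : G → ℂ) 1 = 1 ∧ fsInd (χ : G → ℂ) = 1} ≤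
      I.index * Nat.card {χ : Cfsg.IrrCharacter G // (χ : G → ℂ) 1 = (I.index : ℂ) * φ 1 ∧ fsInd (χ : G → ℂ) = 1} := by
  classical
  haveI := finite_irr (G := G)
  have hΨ := indFun_irr_of_ext N hφ I hI hNI hψ hext
  have hreal : ∀ x, (ψ x).im = 0 := by
    rcases fsInd_cases hψ with ⟨h, _⟩ | ⟨_, h⟩
    · rw [hfs] at h; exact absurd h one_ne_zero
    · exact h
  have hΨfs : fsInd (Cfsg.indFun I ψ) = 1 := by
    rw [fsInd_ind N hφ I hI hNI hψ hext hreal, hfs]
  have hΨ1 : Cfsg.indFun I ψ 1 = (I.index : ℂ) * φ 1 := by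
    have h1 : φ 1 = ψ 1 := (hext 1).symm
    rw [Cfsg.Agent.S0175.indFun_one, h1]
    have hIc : (Nat.card I : ℂ) ≠ 0 := card_subgroup_ne_zero _
    rw [← Subgroup.index_mul_card I]
    push_cast
    field_simp
  let F : {χ : Cfsg.IrrCharacter G // (χ : G → ℂ) 1 = 1 ∧ fsInd (χ : G → ℂ) = 1} →
      {χ : Cfsg.IrrCharacter G // (χ : G → ℂ) 1 = (I.index : ℂ) * φ 1 ∧ fsInd (χ : G → ℂ) = 1} := fun l =>
    ⟨⟨(l.1 : G → ℂ) * Cfsg.indFun I ψ,
      IsIrrCharacter.linear_mul (IsIrrCharacter.isCharacter l.1.2) l.2.1 hΨ⟩, by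
      show (l.1 : G → ℂ) 1 * Cfsg.indFun I ψ 1 = _
      rw [l.2.1, one_mul, hΨ1], by
      show fsInd ((l.1 : G → ℂ) * Cfsg.indFun I ψ) = 1
      refine Eq.trans ?_ hΨfs
      unfold fsInd
      congr 1
      refine Finset.sum_congr rfl fun g _ => ?_
      rw [Pi.mul_apply, lin_sq (IsIrrCharacter.isCharacter l.1.2) l.2.1 l.2.2, one_mul]⟩
  apply card_le_mul_of_fibres F
  intro b
  by_cases hb : Nonempty {a // F a = b}
  · obtain ⟨⟨l₀, hl₀⟩⟩ := hb
    refine le_trans ?_ (card_extensions_le I (θ := fun x : I => (l₀.1 : G → ℂ) x)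
      (isIrr_of_linear (IsCharacter.restrict I (IsIrrCharacter.isCharacter l₀.1.2)) l₀.2.1))
    apply Nat.card_le_card_of_injective
      (fun a : {a // F a = b} => (⟨a.1.1, by
        have h1 : F a.1 = F l₀ := a.2.trans hl₀.symm
        have h2 : (a.1.1 : G → ℂ) * Cfsg.indFun I ψ = (l₀.1 : G → ℂ) * Cfsg.indFun I ψ :=
          congrArg (fun x => (x.1 : G → ℂ)) h1
        rw [mul_comm, mul_comm (l₀.1 : G → ℂ)] at h2
        exact restrict_eq_of_mul_eq N hφ I hI hNI hψ hext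
          (IsIrrCharacter.isCharacter a.1.1.2) a.1.2.1
          (hperf _ (IsIrrCharacter.isCharacter a.1.1.2) a.1.2.1)
          (IsIrrCharacter.isCharacter l₀.1.2) l₀.2.1
          (hperf _ (IsIrrCharacter.isCharacter l₀.1.2) l₀.2.1) h2⟩ :
        {χ : Cfsg.IrrCharacter G // (fun x : I => (χ : G → ℂ) x) =
          fun x : I => (l₀.1 : G → ℂ) x}))
    intro a a' h
    apply Subtype.ext
    apply Subtype.ext
    exact congrArg (fun x => x.1) h
  · rw [not_nonempty_iff] at hb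
    rw [Nat.card_of_isEmpty]
    exact Nat.zero_le _


/-- Let G be a finite group with a non-abelian minimal normal subgroup N, and let φ be an irreducible complex character of N with stabilizer I in G such that φ extends to an irreducible character of I with Frobenius–Schur indicator +1. Put d = φ(1)·[G : I]. Then the number of linear characters of G with Frobenius–Schur indicator +1 is at most [G : I] times the number of irreducible characters of G of degree d with Frobenius–Schur indicator +1. -/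
theorem result {G : Type*} [Group G] [Finite G] (N : Subgroup G) (hN : N.Normal) (hN1 : N ≠ ⊥) (hmin : ∀ M : Subgroup G, M.Normal → M ≤ N → M = ⊥ ∨ M = N) (hna : ¬ IsMulCommutative ↥N) (φ : Cfsg.IrrCharacter ↥N) (I : Subgroup G) (hI : ∀ g : G, g ∈ I ↔ ∀ n n' : ↥N, (n' : G) = g * (n : G) * g⁻¹ → (φ : ↥N → ℂ) n' = (φ : ↥N → ℂ) n) (hNI : N ≤ I) (hext : ∃ ψ : Cfsg.IrrCharacter ↥I, (Nat.card ↥I : ℂ)⁻¹ * ∑ᶠ g : ↥I, (ψ : ↥I → ℂ) (g * g) = 1 ∧ ∀ n : ↥N, (ψ : ↥I → ℂ) (Subgroup.inclusion hNI n) = (φ : ↥N → ℂ) n) : Nat.card {χ : Cfsg.IrrCharacter G // Cfsg.charDegree (χ : G → ℂ) = 1 ∧ (Nat.card G : ℂ)⁻¹ * ∑ᶠ g : G, (χ : G → ℂ) (g * g) = 1} ≤ I.index * Nat.card {χ : Cfsg.IrrCharacter G // Cfsg.charDegree (χ : G → ℂ) = Cfsg.charDegree (φ : ↥N → ℂ) * I.index ∧ (Nat.card G : ℂ)⁻¹ * ∑ᶠ g : G, (χ : G → ℂ) (g * g) = 1} := by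
  classical
  cases nonempty_fintype G
  haveI := hN
  have hI' : ∀ g, g ∈ I ↔ conjFun N g (φ : ↥N → ℂ) = φ := by
    intro g
    rw [hI g, ← stmtInv_iff]
    constructor
    · intro h n
      exact h n ⟨g * n * g⁻¹, hN.conj_mem n n.2 g⟩ rfl
    · intro h n n' hn
      rw [← h n]
      have : n' = ⟨g * n * g⁻¹, hN.conj_mem n n.2 g⟩ := Subtype.ext hn
      rw [this]
  obtain ⟨ψ, hψfs, hψ⟩ := hext
  have hcomm : (⁅N, N⁆ : Subgroup G) = N := by
    rcases hmin ⁅N, N⁆ inferInstance (Subgroup.commutator_le_self N) with h | h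
    · exfalso
      apply hna
      rw [isMulCommutative_iff]
      intro a b
      have h1 : ⁅(a : G), (b : G)⁆ ∈ (⁅N, N⁆ : Subgroup G) :=
        Subgroup.commutator_mem_commutator a.2 b.2
      rw [h, Subgroup.mem_bot, commutatorElement_eq_one_iff_mul_comm] at h1
      exact Subtype.ext h1
    · exact h
  have hperf : ∀ lam : G → ℂ, Cfsg.IsCharacter G lam → lam 1 = 1 → ∀ n ∈ N, lam n = 1 := by
    intro lam hl hl1 n hn
    obtain ⟨f, rfl⟩ := exists_hom_of_degree_one hl hl1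
    have h1 := Cfsg.Agent.Lib.Helper13.Dade2.hom_commutator_eq_one N (f.comp N.subtype)
      (x := n) (by rw [hcomm]; exact hn) hn
    have h2 : f n = 1 := h1
    show ((f n : ℂˣ) : ℂ) = 1
    rw [h2]; rfl
  have hψfs' : fsInd (ψ : ↥I → ℂ) = 1 := by
    rw [finsum_eq_sum_of_fintype] at hψfs
    exact hψfs
  have key := card_linear_le_fs N φ.2 I hI' hNI ψ.2 hψ hperf hψfs'
  obtain ⟨d, hd⟩ := IsCharacter.apply_one (IsIrrCharacter.isCharacter φ.2)
  have e0 : ∀ χ : Cfsg.IrrCharacter G, ((Nat.card G : ℂ)⁻¹ * ∑ᶠ g : G, (χ : G → ℂ) (g * g) = 1) ↔ fsInd (χ : G → ℂ) = 1 := by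
    intro χ
    rw [finsum_eq_sum_of_fintype]
    rfl
  have e1 : ∀ χ : Cfsg.IrrCharacter G, (Cfsg.charDegree (χ : G → ℂ) = 1 ∧ (Nat.card G : ℂ)⁻¹ * ∑ᶠ g : G, (χ : G → ℂ) (g * g) = 1) ↔ ((χ : G → ℂ) 1 = 1 ∧ fsInd (χ : G → ℂ) = 1) := by
    intro χ
    obtain ⟨e, he⟩ := IsCharacter.apply_one (IsIrrCharacter.isCharacter χ.2)
    rw [charDegree_eq_of_cast he, he, e0]
    exact_mod_cast Iff.rfl
  have e2 : ∀ χ : Cfsg.IrrCharacter G, (Cfsg.charDegree (χ : G → ℂ) =
      Cfsg.charDegree (φ : ↥N → ℂ) * I.index ∧ (Nat.card G : ℂ)⁻¹ * ∑ᶠ g : G, (χ : G → ℂ) (g * g) = 1) ↔ ((χ : G → ℂ) 1 = (I.index : ℂ) * (φ : ↥N → ℂ) 1 ∧ fsInd (χ : G → ℂ) = 1) := by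
    intro χ
    obtain ⟨e, he⟩ := IsCharacter.apply_one (IsIrrCharacter.isCharacter χ.2)
    rw [charDegree_eq_of_cast he, charDegree_eq_of_cast hd, he, hd, mul_comm, e0]
    exact_mod_cast Iff.rfl
  rw [Nat.card_congr (Equiv.subtypeEquivRight e1), Nat.card_congr (Equiv.subtypeEquivRight e2)]
  exact key

end Cfsg.Agent.S4912
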