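import Cfsg.Statements.S4871
import Cfsg.Agent.S4912

set_option autoImplicit false
open Cfsg

namespace Cfsg.Agent.S4871

open Cfsg.Agent.Lib.Helper2 Cfsg.Agent.Lib.Helper13 Cfsg.Agent.Lib.Helper13.LinCount Cfsg.Agent.Lib.Helper6 Cfsg.Agent.Lib.Helper23 Cfsg.Agent.S4912
open scoped commutatorElement ComplexConjugate

theorem fsInd_ind_inv {G : Type*} [Group G] [Fintype G] (N : Subgroup G) [hN : N.Normal] [Fintype N] {φ : N → ℂ}
    (hφ : Cfsg.IsIrrCharacter N φ) (I : Subgroup G) [Fintype I]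
    (hI : ∀ g, g ∈ I ↔ conjFun N g φ = φ) (hNI : N ≤ I)
    {ψ : I → ℂ} (hψ : Cfsg.IsIrrCharacter I ψ) (hext : ∀ n : N, ψ ⟨n, hNI n.2⟩ = φ n)
    (z : G) (hz : conjFun N z φ = fun n => conj (φ n))
    (hone : ∀ u : I, Cfsg.extendByZero I ψ (z * u * (z * u)) = 1) :
    fsInd (Cfsg.indFun I ψ) = 1 := by
  classical
  set ext := Cfsg.extendByZero I ψ with hextdef
  let F : G → ℂ := fun g => if z⁻¹ * g ∈ I then 0 else ext (g * g)
  have hsplit : ∑ g, ext (g * g) = ∑ u : I, ext (z * u * (z * u)) + ∑ g, F g := by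
    rw [← sum_ite_mem I (fun g => ext (z * g * (z * g)))]
    have e1 : ∑ g, (if g ∈ I then ext (z * g * (z * g)) else 0) =
        ∑ g, (if z⁻¹ * g ∈ I then ext (g * g) else 0) := by
      refine Fintype.sum_equiv (Equiv.mulLeft z) _ _ fun g => ?_
      show _ = if z⁻¹ * (z * g) ∈ I then ext (z * g * (z * g)) else 0
      rw [inv_mul_cancel_left]
    rw [e1, ← Finset.sum_add_distrib]
    refine Finset.sum_congr rfl fun g _ => ?_
    show _ = _ + (if z⁻¹ * g ∈ I then 0 else ext (g * g))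
    split_ifs <;> simp
  have hinner : ∀ g : G, ∑ n : N, F (g * n) = 0 := by
    intro g
    by_cases hg : z⁻¹ * g ∈ I
    · refine Finset.sum_eq_zero fun n _ => ?_
      show (if z⁻¹ * (g * n) ∈ I then 0 else ext (g * n * (g * n))) = 0
      rw [if_pos (by rw [← mul_assoc]; exact I.mul_mem hg (hNI n.2))]
    · have hgn : ∀ n : N, z⁻¹ * (g * n) ∉ I := fun n h => hg (by
        have := I.mul_mem h (I.inv_mem (hNI n.2))
        simpa [mul_assoc] using this)
      have e0 : ∀ n : N, g * n * (g * n) = g * g * (g⁻¹ * n * g) * n := by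
        intro n; group
      have hF : ∀ n : N, F (g * n) = ext (g * g * (g⁻¹ * n * g) * n) := by
        intro n
        show (if z⁻¹ * (g * n) ∈ I then 0 else ext (g * n * (g * n))) = _
        rw [if_neg (hgn n), e0]
      simp_rw [hF]
      have hmemN : ∀ n : N, g⁻¹ * n * g ∈ N := fun n => by
        simpa using hN.conj_mem n n.2 g⁻¹
      by_cases hgg : g * g ∈ I
      · let σ : N ≃* N := MulAut.conjNormal g⁻¹
        have hσv : ∀ n : N, ((σ n : N) : G) = g⁻¹ * n * g := by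
          intro n
          show ((MulAut.conjNormal g⁻¹ n : N) : G) = _
          rw [MulAut.conjNormal_apply, inv_inv]
        have hφ' : (fun n : N => ψ (Subgroup.inclusion hNI n)) = φ := funext hext
        have hσ' : (fun n : N => ψ (Subgroup.inclusion hNI (σ n))) = conjFun N g φ := by
          funext n
          rw [conjFun_apply, ← hext]
          congr 1
          exact Subtype.ext (hσv n)
        have hv := vanish (Subgroup.inclusion hNI) (Subgroup.inclusion_injective hNI)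
          (by rw [Subgroup.inclusion_range]; infer_instance) hψ (by rw [hφ']; exact hφ) σ
          (by rw [hσ']; exact IsIrrCharacter.conjFun N hφ g)
          (by
            rw [hσ']
            intro h
            apply hg
            rw [hI, ← conjFun_eq_conjFun_iff, h, hz]
            funext n
            rw [← hext]
            rfl) ⟨g * g, hgg⟩
        rw [← hv]
        refine Finset.sum_congr rfl fun n _ => ?_
        have : g * g * (g⁻¹ * n * g) * n = ((⟨g * g, hgg⟩ * Subgroup.inclusion hNI (σ n) * Subgroup.inclusion hNI n : I) : G) := by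
          simp [hσv]
        rw [this]
        exact extendByZero_coe I ψ _
      · refine Finset.sum_eq_zero fun n _ => ?_
        apply extendByZero_not_mem
        intro h
        apply hgg
        have h1 := I.mul_mem (I.mul_mem h (I.inv_mem (hNI n.2))) (I.inv_mem (hNI (hmemN n)))
        simpa [mul_assoc] using h1
  have hT : ∑ g, F g = 0 := by
    have h1 : ∀ n : N, ∑ g, F (g * n) = ∑ g, F g := fun n =>
      Fintype.sum_equiv (Equiv.mulRight (n : G)) _ _ fun g => rfl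
    have h2 : ∑ n : N, ∑ g, F (g * n) = 0 := by
      rw [Finset.sum_comm]
      exact Finset.sum_eq_zero fun g _ => hinner g
    simp_rw [h1] at h2
    rw [Finset.sum_const, Finset.card_univ, nsmul_eq_mul] at h2
    rcases mul_eq_zero.1 h2 with h | h
    · exfalso
      have : Fintype.card N ≠ 0 := Fintype.card_ne_zero
      exact this (by exact_mod_cast h)
    · exact h
  unfold fsInd
  rw [sum_ind_sq, hsplit, hT, add_zero]
  simp_rw [hone]
  rw [Finset.sum_const, Finset.card_univ, nsmul_eq_mul, mul_one, ← Nat.card_eq_fintype_card]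
  have hG : (Nat.card G : ℂ) ≠ 0 := by exact_mod_cast (Nat.card_pos (α := G)).ne'
  have hIc : (Nat.card I : ℂ) ≠ 0 := by exact_mod_cast (Nat.card_pos (α := I)).ne'
  field_simp

theorem card_linear_le_fs' {G : Type*} [Group G] [Fintype G] (N : Subgroup G) [hN : N.Normal] [Fintype N] {φ : N → ℂ}
    (hφ : Cfsg.IsIrrCharacter N φ) (I : Subgroup G) [Fintype I]
    (hI : ∀ g, g ∈ I ↔ conjFun N g φ = φ) (hNI : N ≤ I)
    {ψ : I → ℂ} (hψ : Cfsg.IsIrrCharacter I ψ) (hext : ∀ n : N, ψ ⟨n, hNI n.2⟩ = φ n)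
    (hperf : ∀ lam : G → ℂ, Cfsg.IsCharacter G lam → lam 1 = 1 → ∀ n ∈ N, lam n = 1)
    (hΨfs : fsInd (Cfsg.indFun I ψ) = 1) :
    Nat.card {χ : Cfsg.IrrCharacter G // (χ : G → ℂ) 1 = 1 ∧ fsInd (χ : G → ℂ) = 1} ≤
      I.index * Nat.card {χ : Cfsg.IrrCharacter G // (χ : G → ℂ) 1 = (I.index : ℂ) * φ 1 ∧ fsInd (χ : G → ℂ) = 1} := by
  classical
  haveI := finite_irr (G := G)
  have hΨ := indFun_irr_of_ext N hφ I hI hNI hψ hext
  have hΨ1 : Cfsg.indFun I ψ 1 = (I.index : ℂ) * φ 1 := by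
    have h1 : φ 1 = ψ 1 := (hext 1).symm
    rw [Cfsg.Agent.S0175.indFun_one, h1]
    have hIc : (Nat.card I : ℂ) ≠ 0 := card_subgroup_ne_zero _
    rw [← Subgroup.index_mul_card I]
    push_cast
    field_simp
  let F : {χ : Cfsg.IrrCharacter G // (χ : G → ℂ) 1 = 1 ∧ fsInd (χ : G → ℂ) = 1} →
      {χ : Cfsg.IrrCharacter G // (χ : G → ℂ) 1 = (I.index : ℂ) * φ 1 ∧ fsInd (χ : G → ℂ) = 1} := fun l =>
    ⟨⟨(l.1 : G → ℂ) * Cfsg.indFun I ψ,
      IsIrrCharacter.linear_mul (IsIrrCharacter.isCharacter l.1.2) l.2.1 hΨ⟩, by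
      show (l.1 : G → ℂ) 1 * Cfsg.indFun I ψ 1 = _
      rw [l.2.1, one_mul, hΨ1], by
      show fsInd ((l.1 : G → ℂ) * Cfsg.indFun I ψ) = 1
      refine Eq.trans ?_ hΨfs
      unfold fsInd
      congr 1
      refine Finset.sum_congr rfl fun g _ => ?_
      rw [Pi.mul_apply, lin_sq (IsIrrCharacter.isCharacter l.1.2) l.2.1 l.2.2, one_mul]⟩
  apply card_le_mul_of_fibres F
  intro b
  by_cases hb : Nonempty {a // F a = b}
  · obtain ⟨⟨l₀, hl₀⟩⟩ := hb
    refine le_trans ?_ (card_extensions_le I (θ := fun x : I => (l₀.1 : G → ℂ) x)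
      (isIrr_of_linear (IsCharacter.restrict I (IsIrrCharacter.isCharacter l₀.1.2)) l₀.2.1))
    apply Nat.card_le_card_of_injective
      (fun a : {a // F a = b} => (⟨a.1.1, by
        have h1 : F a.1 = F l₀ := a.2.trans hl₀.symm
        have h2 : (a.1.1 : G → ℂ) * Cfsg.indFun I ψ = (l₀.1 : G → ℂ) * Cfsg.indFun I ψ :=
          congrArg (fun x => (x.1 : G → ℂ)) h1
        rw [mul_comm, mul_comm (l₀.1 : G → ℂ)] at h2
        exact restrict_eq_of_mul_eq N hφ I hI hNI hψ hext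
          (IsIrrCharacter.isCharacter a.1.1.2) a.1.2.1
          (hperf _ (IsIrrCharacter.isCharacter a.1.1.2) a.1.2.1)
          (IsIrrCharacter.isCharacter l₀.1.2) l₀.2.1
          (hperf _ (IsIrrCharacter.isCharacter l₀.1.2) l₀.2.1) h2⟩ :
        {χ : Cfsg.IrrCharacter G // (fun x : I => (χ : G → ℂ) x) =
          fun x : I => (l₀.1 : G → ℂ) x}))
    intro a a' h
    apply Subtype.ext
    apply Subtype.ext
    exact congrArg (fun x => x.1) h
  · rw [not_nonempty_iff] at hb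
    rw [Nat.card_of_isEmpty]
    exact Nat.zero_le _

theorem pow_two_q {M : Type*} [Monoid M] (q : ℕ) [hqp : Fact q.Prime] (hq : q ≠ 2) (x : M) (h2 : x ^ 2 = 1)
    (hqx : x ^ q = 1) : x = 1 := by
  have h := pow_gcd_eq_one.mpr ⟨h2, hqx⟩
  have hc : Nat.gcd 2 q = 1 := (Nat.coprime_primes Nat.prime_two hqp.out).mpr (Ne.symm hq)
  rwa [hc, pow_one] at h

theorem key {G : Type*} [Group G] [Fintype G] (N P : Subgroup G) [hN : N.Normal] (q : ℕ) [hqp : Fact q.Prime]
    (hq : q ≠ 2) (hNel : Cfsg.IsElementaryAbelian q N) (hP : IsPGroup 2 P) (hP1 : P ≠ ⊥)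
    (hdisj : N ⊓ P = ⊥) (hprod : N ⊔ P = ⊤)
    (hmin : N ≠ ⊥ ∧ ∀ M : Subgroup G, M.Normal → M ≠ ⊥ → N ≤ M) :
    ∃ m : ℕ, 2 ∣ m ∧ m ≠ 0 ∧
      Nat.card {χ : Cfsg.IrrCharacter G // (χ : G → ℂ) 1 = 1 ∧ fsInd (χ : G → ℂ) = 1} ≤
      m * Nat.card {χ : Cfsg.IrrCharacter G // (χ : G → ℂ) 1 = (m : ℂ) ∧ fsInd (χ : G → ℂ) = 1} := by
  classical
  have hcomm : ∀ a ∈ N, ∀ b ∈ N, a * b = b * a := by
    intro a ha b hb
    have h := hNel.1
    rw [isMulCommutative_iff] at h
    exact congrArg Subtype.val (h ⟨a, ha⟩ ⟨b, hb⟩)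
  have hdec : ∀ g : G, ∃ n ∈ N, ∃ u ∈ P, n * u = g := by
    intro g
    have h : g ∈ ((N ⊔ P : Subgroup G) : Set G) := by rw [hprod]; trivial
    rw [Subgroup.normal_mul] at h
    exact Set.mem_mul.mp h
  -- a central involution of `P`
  obtain ⟨z, hzP, hz2, hz1, hzc⟩ : ∃ z : G, z ∈ P ∧ z * z = 1 ∧ z ≠ 1 ∧ ∀ u ∈ P, u * z = z * u := by
    haveI : Nontrivial P := (Subgroup.nontrivial_iff_ne_bot P).mpr hP1
    haveI := hP.center_nontrivial
    have h2 : 2 ∣ Nat.card (Subgroup.center P) := by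
      obtain ⟨k, hk⟩ := IsPGroup.iff_card.mp (hP.to_subgroup (Subgroup.center P))
      rw [hk]
      have hk0 : k ≠ 0 := by
        rintro rfl
        have := Finite.one_lt_card (α := Subgroup.center P)
        rw [hk] at this
        simp at this
      exact dvd_pow_self 2 hk0
    obtain ⟨x, hx⟩ := exists_prime_orderOf_dvd_card' 2 h2
    refine ⟨((x : P) : G), (x : P).2, ?_, ?_, ?_⟩
    · have h3 : x ^ 2 = 1 := by rw [← hx]; exact pow_orderOf_eq_one x
      have h4 : (((x ^ 2 : Subgroup.center P) : P) : G) = 1 := by rw [h3]; rfl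
      simpa [pow_two] using h4
    · intro h
      have h3 : x = 1 := Subtype.ext (Subtype.ext h)
      rw [h3, orderOf_one] at hx
      omega
    · intro u hu
      have h3 := Subgroup.mem_center_iff.mp x.2 ⟨u, hu⟩
      exact congrArg Subtype.val h3
  have hzinv : z⁻¹ = z := inv_eq_of_mul_eq_one_right hz2
  have hinv : ∀ n ∈ N, z * n * z⁻¹ = n⁻¹ := by
    let C : Subgroup G := N ⊓ Subgroup.centralizer {z}
    have hmemC : ∀ c, c ∈ C ↔ c ∈ N ∧ z * c = c * z := by
      intro c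
      show c ∈ N ∧ c ∈ Subgroup.centralizer {z} ↔ _
      rw [Subgroup.mem_centralizer_iff]
      simp
    have hCn : C.Normal := by
      refine ⟨fun c hc g => ?_⟩
      rw [hmemC] at hc ⊢
      obtain ⟨n, hn, u, hu, rfl⟩ := hdec g
      have h1 : u * c * u⁻¹ ∈ N := hN.conj_mem c hc.1 u
      have h2 : n * u * c * (n * u)⁻¹ = u * c * u⁻¹ := by
        have h3 : n * u * c * (n * u)⁻¹ = n * (u * c * u⁻¹) * n⁻¹ := by group
        rw [h3, hcomm n hn _ h1, mul_inv_cancel_right]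
      rw [h2]
      refine ⟨h1, ?_⟩
      have h4 : u⁻¹ * z = z * u⁻¹ := hzc _ (P.inv_mem hu)
      calc z * (u * c * u⁻¹) = (z * u) * c * u⁻¹ := by group
        _ = u * (z * c) * u⁻¹ := by rw [← hzc u hu]; group
        _ = u * c * (z * u⁻¹) := by rw [hc.2]; group
        _ = u * c * u⁻¹ * z := by rw [← h4]; group
    have hC : C = ⊥ := by
      by_contra hne
      have h1 := hmin.2 C hCn hne
      have hzcen : ∀ g, g * z = z * g := by
        intro g
        obtain ⟨n, hn, u, hu, rfl⟩ := hdec g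
        have h2 : z * n = n * z := ((hmemC n).mp (h1 hn)).2
        rw [mul_assoc, hzc u hu, ← mul_assoc, ← h2, mul_assoc]
      have hZn : (Subgroup.zpowers z).Normal := by
        refine ⟨fun x hx g => ?_⟩
        obtain ⟨k, rfl⟩ := Subgroup.mem_zpowers_iff.mp hx
        have h5 : Commute g (z ^ k) := Commute.zpow_right (hzcen g) k
        rw [h5.eq, mul_inv_cancel_right]
        exact Subgroup.zpow_mem_zpowers z k
      have h3 := hmin.2 (Subgroup.zpowers z) hZn (by rwa [Ne, Subgroup.zpowers_eq_bot])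
      have h4 : N ≤ N ⊓ P := le_inf le_rfl (h3.trans (by rw [Subgroup.zpowers_le]; exact hzP))
      rw [hdisj] at h4
      exact hmin.1 (le_bot_iff.mp h4)
    intro n hn
    have hm : z * n * z⁻¹ ∈ N := hN.conj_mem n hn z
    have h1 : n * (z * n * z⁻¹) ∈ C := by
      rw [hmemC]
      refine ⟨N.mul_mem hn hm, ?_⟩
      have h2 : z * (n * (z * n * z⁻¹)) * z⁻¹ = n * (z * n * z⁻¹) := by
        have h3 : z * (n * (z * n * z⁻¹)) * z⁻¹ = (z * n * z⁻¹) * ((z * z) * n * (z * z)⁻¹) := by group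
        rw [h3, hz2]
        simp only [one_mul, inv_one, mul_one]
        exact hcomm _ hm _ hn
      rw [mul_inv_eq_iff_eq_mul] at h2
      exact h2
    rw [hC, Subgroup.mem_bot] at h1
    exact eq_inv_of_mul_eq_one_right h1
  -- a nontrivial linear character of `N`
  obtain ⟨f, n₀, hf⟩ : ∃ (f : N →* ℂˣ) (n₀ : N), f n₀ ≠ 1 := by
    letI : CommGroup N := { (inferInstance : Group N) with
      mul_comm := fun x y => Subtype.ext (hcomm x x.2 y y.2) }
    obtain ⟨a, ha⟩ : ∃ a : N, a ≠ 1 := by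
      haveI : Nontrivial N := (Subgroup.nontrivial_iff_ne_bot N).mpr hmin.1
      exact exists_ne 1
    haveI : NeZero ((Monoid.exponent N : ℕ) : ℂ) :=
      ⟨by exact_mod_cast Monoid.exponent_ne_zero_of_finite⟩
    obtain ⟨φ, hφ⟩ := CommGroup.exists_apply_ne_one_of_hasEnoughRootsOfUnity N ℂ ha
    exact ⟨φ, a, hφ⟩
  set φ : N → ℂ := fun n => ((f n : ℂˣ) : ℂ) with hφdef
  have hφ : Cfsg.IsIrrCharacter N φ := isIrrCharacter_of_hom f
  have hfq : ∀ n : N, f n ^ q = 1 := by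
    intro n
    rw [← map_pow]
    have : n ^ q = 1 := Subtype.ext (by simpa using hNel.2 n n.2)
    rw [this, map_one]
  set I : Subgroup G := inertia N φ with hIdef
  have hI : ∀ g, g ∈ I ↔ conjFun N g φ = φ := fun g => Iff.rfl
  have hNI : N ≤ I := by
    intro a ha
    rw [hI]
    funext n
    rw [conjFun_apply]
    congr 1
    apply Subtype.ext
    show a⁻¹ * n * a = n
    rw [mul_assoc, hcomm n n.2 a ha, inv_mul_cancel_left]
  have hIf : ∀ v ∈ I, ∀ (m : N), f ⟨v * m * v⁻¹, hN.conj_mem m m.2 v⟩ = f m := by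
    intro v hv m
    have h1 := (stmtInv_iff N φ v).mpr ((hI v).mp hv) m
    exact Units.ext h1
  -- the retraction onto `P`
  have hc : Subgroup.IsComplement' P N := by
    refine (Subgroup.isComplement'_of_disjoint_and_mul_eq_univ (disjoint_iff.mpr hdisj) ?_).symm
    rw [← Subgroup.normal_mul, hprod]
    rfl
  let e : G ⧸ N ≃* P := hc.QuotientMulEquiv
  let r : G →* P := e.toMonoidHom.comp (QuotientGroup.mk' N)
  have hes : ∀ p : P, e.symm p = ((p : G) : G ⧸ N) := fun p => rfl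
  have hrP : ∀ p : P, r (p : G) = p := by
    intro p
    show e ((p : G) : G ⧸ N) = p
    rw [← hes, MulEquiv.apply_symm_apply]
  have hrmk : ∀ g : G, (((r g : P) : G) : G ⧸ N) = (g : G ⧸ N) := by
    intro g
    rw [← hes]
    show e.symm (e (g : G ⧸ N)) = _
    rw [MulEquiv.symm_apply_apply]
  have hν : ∀ g : G, g * ((r g : P) : G)⁻¹ ∈ N := by
    intro g
    have h1 := QuotientGroup.eq.mp (hrmk g)
    have h2 := hN.conj_mem _ h1 (r g : G)
    have h3 : ((r g : P) : G) * (((r g : P) : G)⁻¹ * g) * ((r g : P) : G)⁻¹ = g * ((r g : P) : G)⁻¹ := by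
      group
    rwa [h3] at h2
  have hrI : ∀ x ∈ I, ((r x : P) : G) ∈ I := by
    intro x hx
    have h1 := I.mul_mem (I.inv_mem (hNI (hν x))) hx
    have h2 : (x * ((r x : P) : G)⁻¹)⁻¹ * x = ((r x : P) : G) := by group
    rwa [h2] at h1
  let ψ₀ : I →* ℂˣ := MonoidHom.mk' (fun x => f ⟨(x : G) * ((r (x : G) : P) : G)⁻¹, hν x⟩) (by
    intro x y
    have h1 := hIf _ (hrI x x.2) ⟨(y : G) * ((r (y : G) : P) : G)⁻¹, hν y⟩
    rw [← h1, ← map_mul]
    congr 1
    apply Subtype.ext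
    show ((x * y : I) : G) * ((r ((x * y : I) : G) : P) : G)⁻¹ =
      ((x : G) * ((r (x : G) : P) : G)⁻¹) * (((r (x : G) : P) : G) * ((y : G) * ((r (y : G) : P) : G)⁻¹) *
        ((r (x : G) : P) : G)⁻¹)
    rw [Subgroup.coe_mul, map_mul, Subgroup.coe_mul]
    group)
  have hψ₀ : ∀ x : I, ψ₀ x = f ⟨(x : G) * ((r (x : G) : P) : G)⁻¹, hν x⟩ := fun x => rfl
  set ψ : I → ℂ := fun x => ((ψ₀ x : ℂˣ) : ℂ) with hψdef
  have hψ : Cfsg.IsIrrCharacter I ψ := isIrrCharacter_of_hom ψ₀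
  have hrN : ∀ n ∈ N, r n = 1 := by
    intro n hn
    show e ((n : G) : G ⧸ N) = 1
    rw [(QuotientGroup.eq_one_iff n).mpr hn, map_one]
  have hext : ∀ n : N, ψ ⟨n, hNI n.2⟩ = φ n := by
    intro n
    show ((ψ₀ ⟨n, hNI n.2⟩ : ℂˣ) : ℂ) = ((f n : ℂˣ) : ℂ)
    rw [hψ₀]
    congr 2
    apply Subtype.ext
    show (n : G) * ((r (n : G) : P) : G)⁻¹ = n
    rw [hrN n n.2]
    simp
  have hz : conjFun N z φ = fun n => conj (φ n) := by
    funext n
    rw [conjFun_apply, ← IsCharacter.apply_inv (IsIrrCharacter.isCharacter hφ)]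
    congr 1
    apply Subtype.ext
    show z⁻¹ * n * z = ((n⁻¹ : N) : G)
    have := hinv n n.2
    rw [hzinv] at this ⊢
    rw [this]
    rfl
  have hzI : z ∉ I := by
    intro h
    apply hf
    have h1 := (hI z).mp h
    rw [hz] at h1
    have h2 := congrFun h1 n₀
    have h3 : φ n₀⁻¹ = φ n₀ := by
      rw [IsCharacter.apply_inv (IsIrrCharacter.isCharacter hφ)]
      exact h2
    have h4 : f n₀⁻¹ = f n₀ := Units.ext h3
    apply pow_two_q q hq _ _ (hfq n₀)
    rw [pow_two]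
    nth_rewrite 1 [← h4]
    rw [← map_mul, inv_mul_cancel, map_one]
  have hone : ∀ u : I, Cfsg.extendByZero I ψ (z * u * (z * u)) = 1 := by
    intro u
    set v : G := ((r (u : G) : P) : G) with hv
    set n : G := (u : G) * v⁻¹ with hn
    have hnN : n ∈ N := hν u
    have hvP : v ∈ P := (r (u : G)).2
    have hvI : v ∈ I := hrI u u.2
    have hu : (u : G) = n * v := by rw [hn]; group
    have hzn : z * n = n⁻¹ * z := by
      have := hinv n hnN
      rw [mul_inv_eq_iff_eq_mul] at this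
      exact this
    have hzv : v * z = z * v := hzc v hvP
    have hx : z * u * (z * u) = n⁻¹ * (v * n * v⁻¹) * (v * v) := by
      rw [hu]
      calc z * (n * v) * (z * (n * v)) = (z * n) * (v * z) * (n * v) := by group
        _ = n⁻¹ * (z * z) * v * (n * v) := by rw [hzn, hzv]; group
        _ = n⁻¹ * (v * n * v⁻¹) * (v * v) := by rw [hz2]; group
    have hmem : z * u * (z * u) ∈ I := by
      rw [hx]
      exact I.mul_mem (I.mul_mem (I.inv_mem (hNI hnN)) (hNI (hN.conj_mem n hnN v))) (I.mul_mem hvI hvI)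
    have h1 : Cfsg.extendByZero I ψ (z * u * (z * u)) = ψ ⟨z * u * (z * u), hmem⟩ :=
      extendByZero_coe I ψ ⟨z * u * (z * u), hmem⟩
    rw [h1]
    show ((ψ₀ ⟨z * u * (z * u), hmem⟩ : ℂˣ) : ℂ) = 1
    rw [hψ₀]
    have hr : ((r (z * u * (z * u)) : P) : G) = v * v := by
      rw [map_mul, map_mul, Subgroup.coe_mul, Subgroup.coe_mul, ← hv]
      have hrz : ((r z : P) : G) = z := by
        have := hrP ⟨z, hzP⟩
        exact congrArg Subtype.val this
      rw [hrz]
      calc z * v * (z * v) = z * (v * z) * v := by group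
        _ = z * (z * v) * v := by rw [hzv]
        _ = v * v := by rw [← mul_assoc, hz2, one_mul]
    have h2 : (⟨(z * u * (z * u)) * ((r (z * u * (z * u)) : P) : G)⁻¹, hν _⟩ : N) =
        (⟨n, hnN⟩ : N)⁻¹ * ⟨v * n * v⁻¹, hN.conj_mem n hnN v⟩ := by
      apply Subtype.ext
      show (z * u * (z * u)) * ((r (z * u * (z * u)) : P) : G)⁻¹ = n⁻¹ * (v * n * v⁻¹)
      rw [hr, hx]
      group
    have h3 : f (⟨(z * u * (z * u)) * ((r (z * u * (z * u)) : P) : G)⁻¹, hν _⟩ : N) = 1 := by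
      rw [h2, map_mul, map_inv, hIf v hvI ⟨n, hnN⟩, inv_mul_cancel]
    show ((f (⟨(z * u * (z * u)) * ((r (z * u * (z * u)) : P) : G)⁻¹, hν _⟩ : N) : ℂˣ) : ℂ) = 1
    rw [h3]
    rfl
  have hΨfs := fsInd_ind_inv N hφ I hI hNI hψ hext z hz hone
  have hperf : ∀ lam : G → ℂ, Cfsg.IsCharacter G lam → lam 1 = 1 → ∀ n ∈ N, lam n = 1 := by
    intro lam hl hl1 n hn
    obtain ⟨g, rfl⟩ := exists_hom_of_degree_one hl hl1
    have h1 : g (z * n * z⁻¹) = g n := by
      rw [map_mul, map_mul, map_inv, mul_comm (g z), mul_inv_cancel_right]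
    rw [hinv n hn, map_inv] at h1
    have h2 : g n = 1 := by
      apply pow_two_q q hq
      · rw [pow_two]
        nth_rewrite 1 [← h1]
        rw [inv_mul_cancel]
      · rw [← map_pow, hNel.2 n hn, map_one]
    show ((g n : ℂˣ) : ℂ) = 1
    rw [h2]
    rfl
  have hkey := card_linear_le_fs' N hφ I hI hNI hψ hext hperf hΨfs
  have hφ1 : φ 1 = 1 := by
    show ((f 1 : ℂˣ) : ℂ) = 1
    rw [map_one]
    rfl
  rw [hφ1, mul_one] at hkey
  refine ⟨I.index, ?_, Subgroup.index_ne_zero_of_finite, hkey⟩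
  have h1 : I.index ∣ N.index := Subgroup.index_dvd_of_le hNI
  rw [hc.index_eq_card] at h1
  obtain ⟨k, hk⟩ := IsPGroup.iff_card.mp hP
  rw [hk] at h1
  obtain ⟨j, -, hj⟩ := (Nat.dvd_prime_pow Nat.prime_two).mp h1
  rw [hj]
  have hj0 : j ≠ 0 := by
    rintro rfl
    rw [pow_zero, Subgroup.index_eq_one] at hj
    apply hzI
    rw [hj]
    trivial
  exact dvd_pow_self 2 hj0

/-- Let G be a finite group that is the semidirect product of a normal elementary abelian subgroup N of odd order by a non-trivial 2-subgroup P, with N the unique minimal normal subgroup of G. Consider the strongly real irreducible complex characters of G (Frobenius–Schur indicator +1) whose degree is 1 or even. Then their average degree is at least 4/3: four times their number is at most three times the sum of their degrees. -/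
theorem result {G : Type*} [Group G] [Finite G] (N P : Subgroup G) (hN : N.Normal) (q : ℕ) [Fact q.Prime] (hq : q ≠ 2) (hNel : Cfsg.IsElementaryAbelian q N) (hP : IsPGroup 2 ↥P) (hP1 : P ≠ ⊥) (hdisj : N ⊓ P = ⊥) (hprod : N ⊔ P = ⊤) (hmin : N ≠ ⊥ ∧ ∀ M : Subgroup G, M.Normal → M ≠ ⊥ → N ≤ M) : 4 * Nat.card {χ : Cfsg.IrrCharacter G // (Cfsg.charDegree (χ : G → ℂ) = 1 ∨ 2 ∣ Cfsg.charDegree (χ : G → ℂ)) ∧ (Nat.card G : ℂ)⁻¹ * ∑ᶠ g : G, (χ : G → ℂ) (g * g) = 1} ≤ 3 * (∑ᶠ χ : {χ : Cfsg.IrrCharacter G // (Cfsg.charDegree (χ : G → ℂ) = 1 ∨ 2 ∣ Cfsg.charDegree (χ : G → ℂ)) ∧ (Nat.card G : ℂ)⁻¹ * ∑ᶠ g : G, (χ : G → ℂ) (g * g) = 1}, Cfsg.charDegree (χ.1 : G → ℂ)) := by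
  classical
  cases nonempty_fintype G
  haveI := hN
  haveI := finite_irr (G := G)
  obtain ⟨m, hm2, hm0, hkey⟩ := key N P q hq hNel hP hP1 hdisj hprod hmin
  have e0 : ∀ χ : Cfsg.IrrCharacter G, ((Nat.card G : ℂ)⁻¹ * ∑ᶠ g : G, (χ : G → ℂ) (g * g) = 1) ↔ fsInd (χ : G → ℂ) = 1 := by
    intro χ
    rw [finsum_eq_sum_of_fintype]
    rfl
  have e1 : ∀ χ : Cfsg.IrrCharacter G, (((Cfsg.charDegree (χ : G → ℂ) = 1 ∨ 2 ∣ Cfsg.charDegree (χ : G → ℂ)) ∧ (Nat.card G : ℂ)⁻¹ * ∑ᶠ g : G, (χ : G → ℂ) (g * g) = 1) ∧ Cfsg.charDegree (χ : G → ℂ) = 1) ↔ ((χ : G → ℂ) 1 = 1 ∧ fsInd (χ : G → ℂ) = 1) := by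
    intro χ
    obtain ⟨e, he⟩ := IsCharacter.apply_one (IsIrrCharacter.isCharacter χ.2)
    rw [charDegree_eq_of_cast he, he, e0]
    constructor
    · rintro ⟨⟨-, h2⟩, h3⟩
      exact ⟨by exact_mod_cast h3, h2⟩
    · rintro ⟨h1, h2⟩
      have h3 : e = 1 := by exact_mod_cast h1
      exact ⟨⟨Or.inl h3, h2⟩, h3⟩
  have e2 : ∀ χ : Cfsg.IrrCharacter G, (((Cfsg.charDegree (χ : G → ℂ) = 1 ∨ 2 ∣ Cfsg.charDegree (χ : G → ℂ)) ∧ (Nat.card G : ℂ)⁻¹ * ∑ᶠ g : G, (χ : G → ℂ) (g * g) = 1) ∧ Cfsg.charDegree (χ : G → ℂ) = m) ↔ ((χ : G → ℂ) 1 = (m : ℂ) ∧ fsInd (χ : G → ℂ) = 1) := by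
    intro χ
    obtain ⟨e, he⟩ := IsCharacter.apply_one (IsIrrCharacter.isCharacter χ.2)
    rw [charDegree_eq_of_cast he, he, e0]
    constructor
    · rintro ⟨⟨-, h2⟩, h3⟩
      exact ⟨by exact_mod_cast h3, h2⟩
    · rintro ⟨h1, h2⟩
      have h3 : e = m := by exact_mod_cast h1
      exact ⟨⟨Or.inr (h3 ▸ hm2), h2⟩, h3⟩
  set X := {χ : Cfsg.IrrCharacter G // (Cfsg.charDegree (χ : G → ℂ) = 1 ∨ 2 ∣ Cfsg.charDegree (χ : G → ℂ)) ∧ (Nat.card G : ℂ)⁻¹ * ∑ᶠ g : G, (χ : G → ℂ) (g * g) = 1} with hX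
  letI : Fintype X := Fintype.ofFinite _
  rw [finsum_eq_sum_of_fintype, Nat.card_eq_fintype_card]
  let d : X → ℕ := fun χ => Cfsg.charDegree (χ.1 : G → ℂ)
  have hA : (Finset.univ.filter fun χ : X => d χ = 1).card =
      Nat.card {χ : Cfsg.IrrCharacter G // (χ : G → ℂ) 1 = 1 ∧ fsInd (χ : G → ℂ) = 1} := by
    rw [← Fintype.card_subtype, ← Nat.card_eq_fintype_card]
    exact Nat.card_congr ((Equiv.subtypeSubtypeEquivSubtypeInter _ _).trans (Equiv.subtypeEquivRight e1))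
  have hB : (Finset.univ.filter fun χ : X => d χ = m).card =
      Nat.card {χ : Cfsg.IrrCharacter G // (χ : G → ℂ) 1 = (m : ℂ) ∧ fsInd (χ : G → ℂ) = 1} := by
    rw [← Fintype.card_subtype, ← Nat.card_eq_fintype_card]
    exact Nat.card_congr ((Equiv.subtypeSubtypeEquivSubtypeInter _ _).trans (Equiv.subtypeEquivRight e2))
  rw [← hA, ← hB] at hkey
  have hpt : ∀ χ : X, 4 + (if d χ = m then m else 0) ≤ 3 * d χ + (if d χ = 1 then 1 else 0) := by
    intro χ
    have hpos : 0 < d χ := Cfsg.Agent.Lib.Helper24.charDegree_pos χ.1.2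
    have hm2' : 2 ≤ m := Nat.le_of_dvd (Nat.pos_of_ne_zero hm0) hm2
    rcases χ.2.1 with h | h
    · have h' : d χ = 1 := h
      rw [if_pos h', if_neg (by omega), h']
    · have h' : 2 ∣ d χ := h
      have h2 : 2 ≤ d χ := Nat.le_of_dvd hpos h'
      rw [if_neg (show d χ ≠ 1 by omega)]
      split_ifs with h3
      · omega
      · omega
  have hsum := Finset.sum_le_sum (s := (Finset.univ : Finset X)) fun χ _ => hpt χ
  rw [Finset.sum_add_distrib, Finset.sum_add_distrib, ← Finset.sum_filter, ← Finset.sum_filter,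
    Finset.sum_const, Finset.sum_const, Finset.sum_const, ← Finset.mul_sum, Finset.card_univ] at hsum
  simp only [smul_eq_mul, mul_one] at hsum
  show 4 * Fintype.card X ≤ 3 * ∑ χ : X, d χ
  nlinarith [hsum, hkey]

end Cfsg.Agent.S4871
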