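import Cfsg.Statements.S4873
import Cfsg.Agent.Lib.Helper25.OddIndexReal

set_option autoImplicit false
open Cfsg
open Cfsg.Agent.Lib.Helper2 Cfsg.Agent.Lib.Helper6 Cfsg.Agent.Lib.Helper24 Cfsg.Agent.Lib.Helper23 Cfsg.Agent.Lib.Helper25
open scoped ComplexConjugate

namespace Cfsg.Agent.S4873

attribute [local instance] irrFintype

/-- Let N be a normal subgroup of odd index in the finite group G. Then every irreducible complex character of N with Frobenius–Schur indicator +1 lies under exactly one irreducible character of G with Frobenius–Schur indicator +1. -/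
theorem result {G : Type*} [Group G] [Finite G] (N : Subgroup G) [N.Normal] (hodd : Odd N.index) (φ : Cfsg.IrrCharacter ↥N) (hφ : (Nat.card ↥N : ℂ)⁻¹ * ∑ᶠ g : ↥N, (φ : ↥N → ℂ) (g * g) = 1) : ∃! χ : Cfsg.IrrCharacter G, (Nat.card G : ℂ)⁻¹ * ∑ᶠ g : G, (χ : G → ℂ) (g * g) = 1 ∧ (∑ᶠ n : ↥N, (χ : G → ℂ) n * (starRingEnd ℂ) ((φ : ↥N → ℂ) n)) ≠ 0 := by
  classical
  haveI := Fintype.ofFinite G
  haveI : Fintype N := Fintype.ofFinite N
  rw [finsum_eq_sum_of_fintype] at hφ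
  have hφ1 : fsInd (φ : N → ℂ) = 1 := hφ
  have hN0 : (Nat.card N : ℂ)⁻¹ ≠ 0 := inv_ne_zero (by exact_mod_cast (Nat.card_pos (α := N)).ne')
  have hconv : ∀ χ : IrrCharacter G, ((Nat.card G : ℂ)⁻¹ * ∑ᶠ g : G, (χ : G → ℂ) (g * g) = 1 ∧
      (∑ᶠ n : ↥N, (χ : G → ℂ) n * (starRingEnd ℂ) ((φ : ↥N → ℂ) n)) ≠ 0) ↔
      (fsInd (χ : G → ℂ) = 1 ∧ classInner (fun n : N => (χ : G → ℂ) n) (φ : N → ℂ) ≠ 0) := by
    intro χ
    rw [finsum_eq_sum_of_fintype, finsum_eq_sum_of_fintype]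
    apply and_congr Iff.rfl
    unfold classInner
    constructor
    · intro h
      exact mul_ne_zero hN0 h
    · intro h h0
      apply h
      rw [h0, mul_zero]
  simp only [hconv]
  have hreal : ∀ χ : IrrCharacter G, fsInd (χ : G → ℂ) ≠ 0 → OddIndexReal.cj χ = χ := by
    intro χ h
    apply Subtype.ext
    funext g
    rcases fsInd_cases χ.2 with ⟨h', _⟩ | ⟨_, h'⟩
    · exact absurd h' h
    · exact Complex.conj_eq_iff_im.mpr (h' g)
  have hsum := OddIndexReal.sum_fsInd N hodd φ.2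
  rw [hφ1] at hsum
  obtain ⟨χ₀, _, hχ₀⟩ := Finset.exists_ne_zero_of_sum_ne_zero (by rw [hsum]; exact one_ne_zero)
  have hν₀ : fsInd (χ₀ : G → ℂ) ≠ 0 := left_ne_zero_of_mul hχ₀
  have ha₀ : classInner (fun n : N => (χ₀ : G → ℂ) n) (φ : N → ℂ) ≠ 0 := right_ne_zero_of_mul hχ₀
  have huniq : ∀ χ : IrrCharacter G, fsInd (χ : G → ℂ) ≠ 0 →
      classInner (fun n : N => (χ : G → ℂ) n) (φ : N → ℂ) ≠ 0 → χ = χ₀ := by
    intro χ h1 h2
    exact OddIndexReal.unique_real N hodd χ χ₀ (hreal χ h1) (hreal χ₀ hν₀) φ.2 h2 ha₀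
  rw [Finset.sum_eq_single χ₀] at hsum
  · obtain ⟨a, ha⟩ := IsCharacter.classInner_nat
      (IsCharacter.restrict N (IsIrrCharacter.isCharacter χ₀.2)) (IsIrrCharacter.isCharacter φ.2)
    have hν1 : fsInd (χ₀ : G → ℂ) = 1 := by
      rcases fsInd_trichotomy χ₀.2 with h | h | h
      · exact absurd h hν₀
      · exact h
      · exfalso
        rw [h, ha] at hsum
        have h2 : ((a : ℤ) : ℂ) = ((-1 : ℤ) : ℂ) := by
          push_cast
          linear_combination -hsum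
        have h3 : (a : ℤ) = -1 := by exact_mod_cast h2
        omega
    refine ⟨χ₀, ⟨hν1, ha₀⟩, ?_⟩
    rintro χ ⟨h1, h2⟩
    exact huniq χ (by rw [h1]; exact one_ne_zero) h2
  · intro χ _ hne
    by_contra h
    exact hne (huniq χ (left_ne_zero_of_mul h) (right_ne_zero_of_mul h))
  · intro h
    exact absurd (Finset.mem_univ _) h

end Cfsg.Agent.S4873
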