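import Cfsg.Statements.S4911
import Mathlib
import Cfsg.Agent.Lib.Helper25.OddIndexReal
import Cfsg.Agent.Lib.Helper22.Basic
import Cfsg.Agent.S4444
import Cfsg.Agent.S0160

set_option autoImplicit false
open Cfsg

namespace Cfsg.Agent.S4911

open Cfsg.Agent.Lib.Helper2 Cfsg.Agent.Lib.Helper6 Cfsg.Agent.Lib.Helper24
open Cfsg.Agent.Lib.Helper25.OddIndexReal
open scoped ComplexConjugate

attribute [local instance] irrFintype

theorem exists_fixed {G : Type*} [Group G] (p : ℕ) [Fact p.Prime] (P : Subgroup G)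
    (hP : IsPGroup p P) (T : Set G) (hT : ∀ x ∈ P, ∀ t ∈ T, x * t * x⁻¹ ∈ T)
    (hc : ¬ p ∣ Nat.card T) : ∃ t ∈ T, ∀ x ∈ P, x * t * x⁻¹ = t := by
  letI : MulAction P T :=
    { smul := fun x t => ⟨x * t * (x : G)⁻¹, hT x x.2 t t.2⟩
      one_smul := fun t => Subtype.ext (by
        show ((1 : P) : G) * t * ((1 : P) : G)⁻¹ = t
        simp)
      mul_smul := fun x y t => Subtype.ext (by
        show ((x * y : P) : G) * t * ((x * y : P) : G)⁻¹
          = (x : G) * ((y : G) * t * (y : G)⁻¹) * (x : G)⁻¹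
        rw [Subgroup.coe_mul]
        group) }
  obtain ⟨t, ht⟩ := hP.nonempty_fixed_point_of_prime_not_dvd_card T hc
  exact ⟨t, t.2, fun x hx => congrArg Subtype.val (ht ⟨x, hx⟩)⟩

section
variable {G : Type*} [Group G] [Finite G] (p : ℕ) [Fact p.Prime] (P K : Subgroup G)

/-- fusion of fixed points is controlled by the fixed points. -/
theorem fusion (hP : IsPGroup p ↥P) (hK : ¬ p ∣ Nat.card ↥K)
    (hPK : ∀ x ∈ P, ∀ k ∈ K, x * k * x⁻¹ ∈ K) {c c' : G}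
    (hc : ∀ x ∈ P, x * c * x⁻¹ = c) (hc' : ∀ x ∈ P, x * c' * x⁻¹ = c')
    {k : G} (hk : k ∈ K) (hkc : k * c * k⁻¹ = c') :
    ∃ t ∈ K, (∀ x ∈ P, x * t * x⁻¹ = t) ∧ t * c * t⁻¹ = c' := by
  set T : Set G := {t | t ∈ K ∧ t * c * t⁻¹ = c'} with hT
  have hcard : Nat.card T = Nat.card ↥(K ⊓ Subgroup.centralizer ({c} : Set G)) := by
    apply Nat.card_congr
    refine ⟨fun t => ⟨k⁻¹ * t, ?_⟩, fun y => ⟨k * y, ?_⟩, ?_, ?_⟩
    · refine Subgroup.mem_inf.mpr ⟨K.mul_mem (K.inv_mem hk) t.2.1, ?_⟩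
      rw [Subgroup.mem_centralizer_singleton_iff]
      have h1 := t.2.2
      rw [← hkc] at h1
      calc k⁻¹ * (t : G) * c = k⁻¹ * ((t : G) * c * (t : G)⁻¹) * (t : G) := by group
        _ = k⁻¹ * (k * c * k⁻¹) * (t : G) := by rw [h1]
        _ = c * (k⁻¹ * (t : G)) := by group
    · have hy := Subgroup.mem_inf.mp y.2
      refine ⟨K.mul_mem hk hy.1, ?_⟩
      have h1 := Subgroup.mem_centralizer_singleton_iff.mp hy.2
      calc k * (y : G) * c * (k * (y : G))⁻¹ = k * ((y : G) * c) * (y : G)⁻¹ * k⁻¹ := by group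
        _ = k * (c * (y : G)) * (y : G)⁻¹ * k⁻¹ := by rw [h1]
        _ = k * c * k⁻¹ := by group
        _ = c' := hkc
    · intro t
      apply Subtype.ext
      show k * (k⁻¹ * (t : G)) = t
      group
    · intro y
      apply Subtype.ext
      show k⁻¹ * (k * (y : G)) = y
      group
  have hnd : ¬ p ∣ Nat.card T := by
    rw [hcard]
    intro h
    exact hK (h.trans (Subgroup.card_dvd_of_le inf_le_left))
  obtain ⟨t, ht, hfix⟩ := exists_fixed p P hP T (by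
    intro x hx t ht
    refine ⟨hPK x hx t ht.1, ?_⟩
    calc x * t * x⁻¹ * c * (x * t * x⁻¹)⁻¹
        = x * (t * (x⁻¹ * c * (x⁻¹)⁻¹) * t⁻¹) * x⁻¹ := by group
      _ = x * (t * c * t⁻¹) * x⁻¹ := by rw [hc x⁻¹ (P.inv_mem hx)]
      _ = x * c' * x⁻¹ := by rw [ht.2]
      _ = c' := hc' x hx) hnd
  exact ⟨t, ht.1, hfix, ht.2⟩

/-- an invariant class contains a fixed point. -/
theorem class_fixed (hP : IsPGroup p ↥P) (hK : ¬ p ∣ Nat.card ↥K) (k : ↥K)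
    (hinv : ∀ y : ↥K, IsConj k y → ∀ x ∈ P, ∀ y' : ↥K, (y' : G) = x * (y : G) * x⁻¹ → IsConj k y')
    (hPK : ∀ x ∈ P, ∀ k ∈ K, x * k * x⁻¹ ∈ K) :
    ∃ k' : ↥K, IsConj k k' ∧ ∀ x ∈ P, x * (k' : G) * x⁻¹ = (k' : G) := by
  set T : Set G := {t | ∃ y : ↥K, (y : G) = t ∧ IsConj k y} with hT
  have hcard : Nat.card T = Nat.card {y : ↥K // IsConj k y} := by
    apply Nat.card_congr
    refine (Equiv.ofBijective (fun y : {y : ↥K // IsConj k y} =>
      (⟨(y.1 : G), ⟨y.1, rfl, y.2⟩⟩ : T)) ⟨?_, ?_⟩).symm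
    · intro a b hab
      apply Subtype.ext
      apply Subtype.ext
      exact congrArg (fun z : T => (z : G)) hab
    · rintro ⟨t, y, rfl, hy⟩
      exact ⟨⟨y, hy⟩, rfl⟩
  have hnd : ¬ p ∣ Nat.card T := by
    rw [hcard, ← Cfsg.Agent.Lib.Helper22.index_centralizer_eq_card_isConj]
    intro h
    exact hK (h.trans (Subgroup.index_dvd_card _))
  obtain ⟨t, ⟨y, rfl, hy⟩, hfix⟩ := exists_fixed p P hP T (by
    rintro x hx t ⟨y, rfl, hy⟩
    exact ⟨⟨x * y * x⁻¹, hPK x hx y y.2⟩, rfl, hinv y hy x hx _ rfl⟩) hnd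
  exact ⟨y, hy, hfix⟩

theorem isConj_inv_of {H : Type*} [Group H] {a b : H} (h : IsConj a b) : IsConj a⁻¹ b⁻¹ := by
  rw [isConj_iff] at h ⊢
  obtain ⟨c, hc⟩ := h
  exact ⟨c, by rw [← hc]; group⟩

theorem real_class_iff {H : Type*} [Group H] (k₀ : H) :
    (∀ k : H, ConjClasses.mk k = ConjClasses.mk k₀ → IsConj k k⁻¹) ↔ IsConj k₀ k₀⁻¹ := by
  constructor
  · intro h; exact h k₀ rfl
  · intro h k hk
    rw [ConjClasses.mk_eq_mk_iff_isConj] at hk
    exact hk.trans (h.trans (isConj_inv_of hk).symm)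

theorem mem_C_iff (C : Subgroup G) (hC : C = K ⊓ Subgroup.centralizer (P : Set G)) (g : G) :
    g ∈ C ↔ g ∈ K ∧ ∀ x ∈ P, x * g * x⁻¹ = g := by
  rw [hC, Subgroup.mem_inf, Subgroup.mem_centralizer_iff]
  constructor
  · rintro ⟨h1, h2⟩
    exact ⟨h1, fun x hx => by rw [h2 x hx]; group⟩
  · rintro ⟨h1, h2⟩
    exact ⟨h1, fun x hx => by
      have := h2 x hx
      calc x * g = x * g * x⁻¹ * x := by group
        _ = g * x := by rw [this]⟩

theorem fusionC (hP : IsPGroup p ↥P) (hK : ¬ p ∣ Nat.card ↥K)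
    (hPK : ∀ x ∈ P, ∀ k ∈ K, x * k * x⁻¹ ∈ K) (C : Subgroup G)
    (hC : C = K ⊓ Subgroup.centralizer (P : Set G)) (hCK : C ≤ K) (c c' : ↥C)
    (h : IsConj (Subgroup.inclusion hCK c) (Subgroup.inclusion hCK c')) : IsConj c c' := by
  rw [isConj_iff] at h
  obtain ⟨k, hk⟩ := h
  have hk' : (k : G) * (c : G) * (k : G)⁻¹ = (c' : G) := by
    have := congrArg (fun z : ↥K => (z : G)) hk
    simpa using this
  obtain ⟨t, ht, hfix, htc⟩ := fusion p P K hP hK hPK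
    ((mem_C_iff P K C hC _).mp c.2).2 ((mem_C_iff P K C hC _).mp c'.2).2 k.2 hk'
  rw [isConj_iff]
  exact ⟨⟨t, (mem_C_iff P K C hC _).mpr ⟨ht, hfix⟩⟩, Subtype.ext htc⟩

theorem card_classes (hP : IsPGroup p ↥P) (hK : ¬ p ∣ Nat.card ↥K)
    (hPK : ∀ x ∈ P, ∀ k ∈ K, x * k * x⁻¹ ∈ K) (C : Subgroup G)
    (hC : C = K ⊓ Subgroup.centralizer (P : Set G)) (hCK : C ≤ K) :
    Nat.card {D : ConjClasses ↥C // ∀ g : ↥C, ConjClasses.mk g = D → IsConj g g⁻¹} =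
    Nat.card {c : ConjClasses ↥K // (∀ k : ↥K, ConjClasses.mk k = c → IsConj k k⁻¹) ∧
      ∀ k : ↥K, ConjClasses.mk k = c → ∀ x ∈ P, ∀ k' : ↥K, (k' : G) = x * (k : G) * x⁻¹ →
        ConjClasses.mk k' = c} := by
  have hmap : ∀ D : ConjClasses ↥C, (∀ g : ↥C, ConjClasses.mk g = D → IsConj g g⁻¹) →
      ((∀ k : ↥K, ConjClasses.mk k = ConjClasses.map (Subgroup.inclusion hCK) D →
        IsConj k k⁻¹) ∧
      ∀ k : ↥K, ConjClasses.mk k = ConjClasses.map (Subgroup.inclusion hCK) D →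
        ∀ x ∈ P, ∀ k' : ↥K, (k' : G) = x * (k : G) * x⁻¹ →
        ConjClasses.mk k' = ConjClasses.map (Subgroup.inclusion hCK) D) := by
    intro D hD
    obtain ⟨c₀, rfl⟩ := ConjClasses.mk_surjective D
    have hr : IsConj c₀ c₀⁻¹ := hD c₀ rfl
    have e : ConjClasses.map (Subgroup.inclusion hCK) (ConjClasses.mk c₀)
        = ConjClasses.mk (Subgroup.inclusion hCK c₀) := rfl
    rw [e]
    refine ⟨(real_class_iff _).mpr ?_, ?_⟩
    · have := (Subgroup.inclusion hCK).map_isConj hr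
      rwa [map_inv] at this
    · intro k hk x hx k' hk'
      rw [ConjClasses.mk_eq_mk_iff_isConj, isConj_iff] at hk ⊢
      obtain ⟨y, hy⟩ := hk
      have hy' : (y : G) * (k : G) * (y : G)⁻¹ = (c₀ : G) := by
        have := congrArg (fun z : ↥K => (z : G)) hy
        simpa using this
      refine ⟨⟨x * y * x⁻¹, hPK x hx y y.2⟩, Subtype.ext ?_⟩
      show x * (y : G) * x⁻¹ * (k' : G) * (x * (y : G) * x⁻¹)⁻¹ = (c₀ : G)
      rw [hk']
      calc x * (y : G) * x⁻¹ * (x * (k : G) * x⁻¹) * (x * (y : G) * x⁻¹)⁻¹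
          = x * ((y : G) * (k : G) * (y : G)⁻¹) * x⁻¹ := by group
        _ = x * (c₀ : G) * x⁻¹ := by rw [hy']
        _ = (c₀ : G) := ((mem_C_iff P K C hC _).mp c₀.2).2 x hx
  apply Nat.card_congr
  refine Equiv.ofBijective (fun D => ⟨ConjClasses.map (Subgroup.inclusion hCK) D.1,
    hmap D.1 D.2⟩) ⟨?_, ?_⟩
  · rintro ⟨D, hD⟩ ⟨D', hD'⟩ h
    have h1 : ConjClasses.map (Subgroup.inclusion hCK) D
        = ConjClasses.map (Subgroup.inclusion hCK) D' := congrArg Subtype.val h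
    obtain ⟨c, rfl⟩ := ConjClasses.mk_surjective D
    obtain ⟨c', rfl⟩ := ConjClasses.mk_surjective D'
    apply Subtype.ext
    show ConjClasses.mk c = ConjClasses.mk c'
    rw [ConjClasses.mk_eq_mk_iff_isConj]
    apply fusionC p P K hP hK hPK C hC hCK
    rw [← ConjClasses.mk_eq_mk_iff_isConj]
    exact h1
  · rintro ⟨D, hD1, hD2⟩
    obtain ⟨k, rfl⟩ := ConjClasses.mk_surjective D
    obtain ⟨k', hk', hfix⟩ := class_fixed p P K hP hK k (by
      intro y hy x hx y' hy'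
      have := hD2 y (ConjClasses.mk_eq_mk_iff_isConj.mpr hy.symm) x hx y' hy'
      exact (ConjClasses.mk_eq_mk_iff_isConj.mp this).symm) hPK
    have hk'C : (k' : G) ∈ C := (mem_C_iff P K C hC _).mpr ⟨k'.2, hfix⟩
    have hinc : Subgroup.inclusion hCK ⟨k', hk'C⟩ = k' := rfl
    refine ⟨⟨ConjClasses.mk ⟨k', hk'C⟩, (real_class_iff _).mpr ?_⟩, ?_⟩
    · apply fusionC p P K hP hK hPK C hC hCK
      rw [map_inv, hinc]
      exact hD1 k' (ConjClasses.mk_eq_mk_iff_isConj.mpr hk'.symm)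
    · apply Subtype.ext
      show ConjClasses.mk (Subgroup.inclusion hCK ⟨k', hk'C⟩) = ConjClasses.mk k
      rw [hinc]
      exact ConjClasses.mk_eq_mk_iff_isConj.mpr hk'.symm

theorem cj_eq_iff {H : Type*} [Group H] [Fintype H] (γ : IrrCharacter H) :
    cj γ = γ ↔ ∀ g, ((γ : H → ℂ) g).im = 0 := by
  constructor
  · intro h g
    have := congrFun (congrArg Subtype.val h) g
    exact Complex.conj_eq_iff_im.mp this
  · intro h
    apply Subtype.ext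
    funext g
    exact Complex.conj_eq_iff_im.mpr (h g)

theorem classInner_conj {H : Type*} [Group H] [Fintype H] (f g : H → ℂ) :
    classInner (fun h => conj (f h)) (fun h => conj (g h)) = conj (classInner f g) := by
  unfold classInner
  rw [map_mul, map_inv₀, map_natCast, map_sum]
  congr 1
  refine Finset.sum_congr rfl fun h _ => ?_
  rw [map_mul]

theorem card_chars (hP : IsPGroup p ↥P) (hK : ¬ p ∣ Nat.card ↥K)
    (hPK : ∀ x ∈ P, ∀ k ∈ K, x * k * x⁻¹ ∈ K) (C : Subgroup G)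
    (hC : C = K ⊓ Subgroup.centralizer (P : Set G)) (hCK : C ≤ K) :
    Nat.card {θ : IrrCharacter ↥K // (∀ k : ↥K, ((θ : ↥K → ℂ) k).im = 0) ∧
      (∀ x ∈ P, ∀ k k' : ↥K, (k' : G) = x * (k : G) * x⁻¹ →
        (θ : ↥K → ℂ) k' = (θ : ↥K → ℂ) k)} =
    Nat.card {β : IrrCharacter ↥C // ∀ g : ↥C, ((β : ↥C → ℂ) g).im = 0} := by
  classical
  cases nonempty_fintype G
  have hp : p.Prime := Fact.out
  have hcop : (Nat.card K).Coprime (Nat.card P) := by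
    obtain ⟨n, hn⟩ := hP.exists_card_eq
    rw [hn]
    exact Nat.Coprime.pow_right n ((Nat.Prime.coprime_iff_not_dvd hp).mpr hK).symm
  obtain ⟨h1, _, h3, h4⟩ := Cfsg.Agent.S4444.result K P hPK hcop p hp hP C hC hCK
  have hcjinv : ∀ χ : IrrCharacter ↥K, (∀ x ∈ P, ∀ k k' : ↥K, (k' : G) = x * (k : G) * x⁻¹ →
        (χ : ↥K → ℂ) k' = (χ : ↥K → ℂ) k) → (∀ x ∈ P, ∀ k k' : ↥K, (k' : G) = x * (k : G) * x⁻¹ →
        (cj χ : ↥K → ℂ) k' = (cj χ : ↥K → ℂ) k) := by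
    intro χ h x hx k k' hk
    show conj ((χ : ↥K → ℂ) k') = conj ((χ : ↥K → ℂ) k)
    rw [h x hx k k' hk]
  have hcc : ∀ (χ : IrrCharacter ↥K) (β : IrrCharacter ↥C) (m : ℕ),
      classInner (fun c : C => (χ : K → ℂ) ⟨c, hCK c.2⟩) (β : C → ℂ) = (m : ℂ) →
      classInner (fun c : C => (cj χ : K → ℂ) ⟨c, hCK c.2⟩) (cj β : C → ℂ) = (m : ℂ) := by
    intro χ β m h
    have := classInner_conj (fun c : C => (χ : K → ℂ) ⟨c, hCK c.2⟩) (β : C → ℂ)
    rw [h, map_natCast] at this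
    exact this
  have hreal : ∀ θ : {θ : IrrCharacter ↥K // (∀ k : ↥K, ((θ : ↥K → ℂ) k).im = 0) ∧
      (∀ x ∈ P, ∀ k k' : ↥K, (k' : G) = x * (k : G) * x⁻¹ →
        (θ : ↥K → ℂ) k' = (θ : ↥K → ℂ) k)},
      ∀ g : ↥C, (((h1 θ.1 θ.2.2).choose : ↥C → ℂ) g).im = 0 := by
    intro θ
    rw [← cj_eq_iff]
    obtain ⟨⟨m, hm1, hm2⟩, huniq⟩ := (h1 θ.1 θ.2.2).choose_spec
    apply huniq
    refine ⟨m, ?_, hm2⟩
    have := hcc _ _ m hm1
    rwa [(cj_eq_iff θ.1).mpr θ.2.1] at this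
  apply Nat.card_congr
  refine Equiv.ofBijective (fun θ => ⟨(h1 θ.1 θ.2.2).choose, hreal θ⟩) ⟨?_, ?_⟩
  · intro θ η h
    have h' : (h1 θ.1 θ.2.2).choose = (h1 η.1 η.2.2).choose := congrArg Subtype.val h
    obtain ⟨⟨m, hm1, hm2⟩, _⟩ := (h1 θ.1 θ.2.2).choose_spec
    obtain ⟨⟨m', hm1', hm2'⟩, _⟩ := (h1 η.1 η.2.2).choose_spec
    rw [← h'] at hm1'
    exact Subtype.ext (h3 θ.1 η.1 θ.2.2 η.2.2 _ m m' hm1 hm2 hm1' hm2')
  · rintro ⟨β, hβ⟩
    obtain ⟨χ, hχ, m, hm1, hm2⟩ := h4 β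
    have hχr : cj χ = χ := by
      have := hcc _ _ m hm1
      rw [(cj_eq_iff β).mpr hβ] at this
      exact h3 (cj χ) χ (hcjinv χ hχ) hχ β m m this hm2 hm1 hm2
    refine ⟨⟨χ, (cj_eq_iff χ).mp hχr, hχ⟩, ?_⟩
    apply Subtype.ext
    obtain ⟨_, huniq⟩ := (h1 χ hχ).choose_spec
    exact (huniq β ⟨m, hm1, hm2⟩).symm

end

/-- Let P and K be subgroups of a finite group with P a p-group normalizing K and K of order prime to p. Then the number of P-invariant real-valued irreducible complex characters of K equals the number of conjugacy classes of K that are real (closed under inversion) and P-invariant. Moreover, if every real-valued irreducible character of K is P-invariant, then every real element of K (one conjugate in K to its inverse) is conjugate in K to an element centralized by P. -/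
theorem result {G : Type*} [Group G] [Finite G] (p : ℕ) [Fact p.Prime] (P K : Subgroup G) (hP : IsPGroup p ↥P) (hK : ¬ p ∣ Nat.card ↥K) (hPK : P ≤ Subgroup.normalizer (K : Set G)) : Nat.card {θ : Cfsg.IrrCharacter ↥K // (∀ k : ↥K, ((θ : ↥K → ℂ) k).im = 0) ∧ (∀ x ∈ P, ∀ k k' : ↥K, (k' : G) = x * (k : G) * x⁻¹ → (θ : ↥K → ℂ) k' = (θ : ↥K → ℂ) k)} = Nat.card {c : ConjClasses ↥K // (∀ k : ↥K, ConjClasses.mk k = c → IsConj k k⁻¹) ∧ ∀ k : ↥K, ConjClasses.mk k = c → ∀ x ∈ P, ∀ k' : ↥K, (k' : G) = x * (k : G) * x⁻¹ → ConjClasses.mk k' = c} ∧ ((∀ θ : Cfsg.IrrCharacter ↥K, (∀ k : ↥K, ((θ : ↥K → ℂ) k).im = 0) → (∀ x ∈ P, ∀ k k' : ↥K, (k' : G) = x * (k : G) * x⁻¹ → (θ : ↥K → ℂ) k' = (θ : ↥K → ℂ) k)) → ∀ k : ↥K, IsConj k k⁻¹ → ∃ k' : ↥K, IsConj k k' ∧ ∀ x ∈ P, x * (k' : G) * x⁻¹ = (k' : G)) := by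
  have hPK' : ∀ x ∈ P, ∀ k ∈ K, x * k * x⁻¹ ∈ K := by
    intro x hx k hk
    exact (Subgroup.mem_normalizer_iff.mp (hPK hx) k).mp hk
  have hmain := (card_chars p P K hP hK hPK' _ rfl inf_le_left).trans
    ((Cfsg.Agent.S0160.result (G := ↥(K ⊓ Subgroup.centralizer (P : Set G)))).trans
      (card_classes p P K hP hK hPK' _ rfl inf_le_left))
  refine ⟨hmain, ?_⟩
  intro hall k hk
  have h1 : Nat.card {θ : Cfsg.IrrCharacter ↥K // (∀ k : ↥K, ((θ : ↥K → ℂ) k).im = 0) ∧ (∀ x ∈ P, ∀ k k' : ↥K, (k' : G) = x * (k : G) * x⁻¹ → (θ : ↥K → ℂ) k' = (θ : ↥K → ℂ) k)}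
      = Nat.card {θ : Cfsg.IrrCharacter ↥K // (∀ k : ↥K, ((θ : ↥K → ℂ) k).im = 0)} := by
    apply Nat.card_congr
    apply Equiv.subtypeEquivRight
    intro θ
    exact ⟨fun h => h.1, fun h => ⟨h, hall θ h⟩⟩
  have h2 := Cfsg.Agent.S0160.result (G := ↥K)
  have h3 := hmain.symm.trans (h1.trans h2)
  have hinj : Function.Injective (fun c : {c : ConjClasses ↥K // (∀ k : ↥K, ConjClasses.mk k = c → IsConj k k⁻¹) ∧ ∀ k : ↥K, ConjClasses.mk k = c → ∀ x ∈ P, ∀ k' : ↥K, (k' : G) = x * (k : G) * x⁻¹ → ConjClasses.mk k' = c} =>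
      (⟨c.1, c.2.1⟩ : {C : ConjClasses ↥K // ∀ g : ↥K, ConjClasses.mk g = C → IsConj g g⁻¹})) := by
    intro a b hab
    have hab' : a.1 = b.1 := congrArg (fun z : {C : ConjClasses ↥K // ∀ g : ↥K, ConjClasses.mk g = C → IsConj g g⁻¹} => z.1) hab
    exact Subtype.ext hab'
  have hbij := (Nat.bijective_iff_injective_and_card _).mpr ⟨hinj, h3⟩
  obtain ⟨⟨c, hc1, hc2⟩, hc⟩ := hbij.2 ⟨ConjClasses.mk k, (real_class_iff k).mpr hk⟩
  have hck : c = ConjClasses.mk k := congrArg Subtype.val hc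
  subst hck
  apply class_fixed p P K hP hK k _ hPK'
  intro y hy x hx y' hy'
  have := hc2 y (ConjClasses.mk_eq_mk_iff_isConj.mpr hy.symm) x hx y' hy'
  exact (ConjClasses.mk_eq_mk_iff_isConj.mp this).symm

end Cfsg.Agent.S4911
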