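import Mathlib
import Cfsg.Statements.S4916
import Cfsg.Agent.Lib.Helper6.DimBlock
import Cfsg.Agent.Lib.Helper6.Cover3

set_option autoImplicit false
open Cfsg
open Cfsg.Agent.Lib.Helper6 Cfsg.Agent.Lib.Helper2
open scoped ComplexConjugate Classical

attribute [local instance] irrFintype

namespace Cfsg.Agent.S4916

/-- Let G be a finite group, p a prime and M a maximal ideal of the algebraic integers containing p. Then the principal character is the only irreducible character of degree prime to p in the principal p-block of G if and only if p does not divide the order of G. -/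
theorem result {G : Type*} [Group G] [Finite G] (p : ℕ) [Fact p.Prime] (M : Ideal Cfsg.AlgInt) (hM : Cfsg.IsPModular p M) : (∀ χ : Cfsg.IrrCharacter G, χ ∈ Cfsg.principalBlock M G → ¬ p ∣ Cfsg.charDegree (χ : G → ℂ) → (χ : G → ℂ) = fun _ => (1 : ℂ)) ↔ ¬ p ∣ Nat.card G := by
  let _ := Fintype.ofFinite G
  have hp : p.Prime := hM.1
  have := IsPModular.isPrime hM
  let triv : IrrCharacter G := ⟨fun _ => 1, isIrrCharacter_one⟩
  have hB : IsPBlock M (principalBlock M G) := isPBlock_principalBlock
  have htB : triv ∈ principalBlock M G := mem_blockOf_self triv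
  have hdtriv : charDegree (triv : G → ℂ) = 1 := by
    have h1 := Cfsg.Agent.Lib.Helper24.charDegree_cast (IsIrrCharacter.isCharacter triv.2)
    have : ((charDegree (triv : G → ℂ) : ℕ) : ℂ) = ((1 : ℕ) : ℂ) := by
      rw [h1]; simp [triv]
    exact_mod_cast this
  constructor
  · intro h hd
    have h0 : blockHeight p (principalBlock M G) (triv : G → ℂ) = 0 := by
      unfold blockHeight
      rw [hdtriv]; simp
    have h1 := factorization_sum_degree_sq hM hB htB h0
    rw [hdtriv] at h1
    simp only [Nat.factorization_one, Finsupp.coe_zero, Pi.zero_apply, add_zero] at h1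
    have h2 : 1 ≤ (Nat.card G).factorization p :=
      (Nat.Prime.dvd_iff_one_le_factorization hp (Nat.card_pos).ne').mp hd
    have h3 : p ∣ ∑ χ ∈ Finset.univ.filter (· ∈ principalBlock M G), charDegree (χ : G → ℂ) ^ 2 := by
      apply Nat.dvd_of_factorization_pos
      omega
    have htm : triv ∈ Finset.univ.filter (· ∈ principalBlock M G) := by simp [htB]
    rw [← Finset.add_sum_erase _ _ htm, hdtriv] at h3
    have h4 : p ∣ ∑ χ ∈ (Finset.univ.filter (· ∈ principalBlock M G)).erase triv,
        charDegree (χ : G → ℂ) ^ 2 := by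
      apply Finset.dvd_sum
      intro χ hχ
      obtain ⟨hne, hmem⟩ := Finset.mem_erase.mp hχ
      have hχB : χ ∈ principalBlock M G := by simpa using hmem
      have : p ∣ charDegree (χ : G → ℂ) := by
        by_contra hnd
        exact hne (Subtype.ext (h χ hχB hnd))
      exact dvd_pow this (by norm_num)
    have h5 : p ∣ 1 ^ 2 := (Nat.dvd_add_left h4).mp h3
    rw [one_pow] at h5
    exact hp.one_lt.ne' (Nat.dvd_one.mp h5)
  · intro hnd χ hχ _
    have h1 : triv = χ := eq_of_sameBlock_of_not_dvd hM hnd hχ
    rw [← h1]

end Cfsg.Agent.S4916
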