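import Cfsg.Statements.S4989
import Cfsg.Agent.Lib.Helper25.PowClosed

set_option autoImplicit false
open Cfsg
open Cfsg.Agent.Lib.Helper2 Cfsg.Agent.Lib.Helper6 Cfsg.Agent.Lib.Helper24 Cfsg.Agent.Lib.Helper25

namespace Cfsg.Agent.S4989

/-- Let H be a subgroup of the finite group G and χ an irreducible complex character of G. Then the inner product of the restriction of χ to H with itself, (1/#H)·Σ_{h ∈ H} |χ(h)|², is at most 1 + #(Z ∖ H)/#H, where Z is the set of zeros of χ in G. -/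
theorem result {G : Type*} [Group G] [Finite G] (H : Subgroup G) (χ : Cfsg.IrrCharacter G) : (Nat.card ↥H : ℝ)⁻¹ * ∑ᶠ h : ↥H, ‖(χ : G → ℂ) h‖ ^ 2 ≤ 1 + (Set.ncard ({x : G | (χ : G → ℂ) x = 0} \ (H : Set G)) : ℝ) / (Nat.card ↥H : ℝ) := by
  classical
  haveI := Fintype.ofFinite G
  rw [finsum_eq_sum_of_fintype]
  have hHpos : (0 : ℝ) < (Nat.card ↥H : ℝ) := by exact_mod_cast Nat.card_pos
  have h1 := card_nonzero_le_sum (IsIrrCharacter.isCharacter χ.2) (fun x => x ∉ H)
    (fun x k hx => pow_unit_not_mem H x k hx)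
  have h2 := sum_norm_sq χ.2
  have h3 : ∑ x : G, ‖(χ : G → ℂ) x‖ ^ 2 = (∑ x : G, if x ∈ H then ‖(χ : G → ℂ) x‖ ^ 2 else 0)
      + ∑ x : G, if x ∉ H then ‖(χ : G → ℂ) x‖ ^ 2 else 0 := by
    rw [← Finset.sum_add_distrib]
    refine Finset.sum_congr rfl fun x _ => ?_
    by_cases hx : x ∈ H <;> simp [hx]
  have h4 : ∑ h : ↥H, ‖(χ : G → ℂ) h‖ ^ 2 = ∑ x : G, if x ∈ H then ‖(χ : G → ℂ) x‖ ^ 2 else 0 := by
    rw [← Finset.sum_filter]
    exact (Finset.sum_subtype (Finset.univ.filter (· ∈ H)) (by simp) (fun x => ‖(χ : G → ℂ) x‖ ^ 2)).symm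
  have h5 : Set.ncard ({x : G | (χ : G → ℂ) x = 0} \ (H : Set G))
      = (Finset.univ.filter (fun x : G => x ∉ H ∧ (χ : G → ℂ) x = 0)).card := by
    rw [← Set.ncard_coe_finset]
    congr 1
    ext x
    simp [and_comm]
  have h6 : (Finset.univ.filter (fun x : G => x ∉ H ∧ ¬ (χ : G → ℂ) x = 0)).card
      + (Finset.univ.filter (fun x : G => x ∉ H ∧ (χ : G → ℂ) x = 0)).card + Nat.card H = Nat.card G := by
    have e1 : Nat.card H = (Finset.univ.filter (fun x : G => x ∈ H)).card := by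
      rw [Nat.card_eq_fintype_card, Fintype.card_subtype]
    rw [e1, Nat.card_eq_fintype_card, ← Finset.card_univ, ← Finset.card_union_of_disjoint,
      ← Finset.card_union_of_disjoint]
    · congr 1
      ext g
      simp only [Finset.mem_union, Finset.mem_filter, Finset.mem_univ, true_and, iff_true]
      tauto
    · rw [Finset.disjoint_left]
      intro g hg hg'
      simp only [Finset.mem_union, Finset.mem_filter, Finset.mem_univ, true_and] at hg hg'
      tauto
    · rw [Finset.disjoint_left]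
      intro g hg hg'
      simp only [Finset.mem_filter, Finset.mem_univ, true_and] at hg hg'
      tauto
  have h6' : ((Finset.univ.filter (fun x : G => x ∉ H ∧ ¬ (χ : G → ℂ) x = 0)).card : ℝ)
      + ((Finset.univ.filter (fun x : G => x ∉ H ∧ (χ : G → ℂ) x = 0)).card : ℝ) + (Nat.card H : ℝ)
      = (Nat.card G : ℝ) := by exact_mod_cast h6
  rw [h4, h5, inv_mul_le_iff₀ hHpos, mul_add, mul_one, mul_div_cancel₀ _ hHpos.ne']
  linarith

end Cfsg.Agent.S4989
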