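import Cfsg.Statements.S5001
import Mathlib
import Cfsg.Agent.Lib.Helper23.LinConst

set_option autoImplicit false
open Cfsg

namespace Cfsg.Agent.S5001

open Cfsg.Agent.Lib.Helper2 Cfsg.Agent.Lib.Helper6 Cfsg.Agent.Lib.Helper24 Cfsg.Agent.Lib.Helper23.LinConst
open scoped ComplexConjugate Classical

/-- Let p be a prime, G a finite group and B a p-block of G (relative to a maximal ideal M of the algebraic integers containing p) with defect group D. Let Z be a central p-subgroup of G contained in D and λ a linear character of Z (a homomorphism to the nonzero complex numbers). Say an irreducible character χ of G lies over λ when χ(z) = χ(1)λ(z) for all z ∈ Z. If some irreducible character in B lying over λ has height zero, then λ extends to a linear character of D. -/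
theorem result {G : Type*} [Group G] [Finite G] (p : ℕ) [Fact p.Prime] (M : Ideal Cfsg.AlgInt) (hM : Cfsg.IsPModular p M) (B : Set (Cfsg.IrrCharacter G)) (hB : Cfsg.IsPBlock M B) (D : Subgroup G) (hD : Cfsg.IsDefectGroup p M B D) (Z : Subgroup G) (hZc : Z ≤ Subgroup.center G) (hZp : IsPGroup p ↥Z) (hZD : Z ≤ D) (lam : ↥Z →* ℂˣ) (χ : Cfsg.IrrCharacter G) (hχ : χ ∈ B) (hover : (∀ z : ↥Z, (χ : G → ℂ) z = (χ : G → ℂ) 1 * (lam z : ℂ))) (h0 : Cfsg.blockHeight p B (χ : G → ℂ) = 0) : (∃ μ : ↥D →* ℂˣ, ∀ z : ↥Z, μ ⟨(z : G), hZD z.2⟩ = lam z) := by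
  cases nonempty_fintype G
  have := IsPModular.isPrime hM
  obtain ⟨g, hg, hDg⟩ := isDefectGroup_iff.mp hD
  have hu : ¬ MemLocalIdeal M ((χ : G → ℂ) g) := by
    intro h
    apply hg.2.2 χ hχ
    rw [centralChar_eq_div]
    refine MemLocalIdeal.mul_left (memLocalRing_natCast_div hM (index_cen_ne_zero g)
      (charDegree_pos χ.2).ne' ?_) h
    obtain ⟨χ₁, hχ₁, h₁⟩ := exists_factorization_degree_eq hM hB hg
    rw [← h₁]
    have h2 : sInf ((fun ψ : IrrCharacter G => (charDegree (ψ : G → ℂ)).factorization p) '' B) ≤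
        (charDegree (χ₁ : G → ℂ)).factorization p := Nat.sInf_le ⟨χ₁, hχ₁, rfl⟩
    rw [blockHeight] at h0
    omega
  have hle : D ≤ cen g := hDg.le
  have hgm : g ∈ cen g := Subgroup.mem_centralizer_singleton_iff.mpr rfl
  have hgc : (⟨g, hgm⟩ : cen g) ∈ Subgroup.center (cen g) := by
    rw [Subgroup.mem_center_iff]
    intro c
    apply Subtype.ext
    exact Subgroup.mem_centralizer_singleton_iff.mp c.2
  have hDp : IsPGroup p (D.subgroupOf (cen g)) :=
    hDg.isPGroup.of_equiv (Subgroup.subgroupOfEquivOfLe hle).symm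
  obtain ⟨μ', hμ'⟩ := exists_linear_of_unit hM
    (IsCharacter.restrict (cen g) (IsIrrCharacter.isCharacter χ.2)) hgc
    (D.subgroupOf (cen g)) hDp hu
  refine ⟨μ'.comp (Subgroup.subgroupOfEquivOfLe hle).symm.toMonoidHom, fun z => ?_⟩
  set z' : D.subgroupOf (cen g) :=
    (Subgroup.subgroupOfEquivOfLe hle).symm ⟨(z : G), hZD z.2⟩ with hz'
  have hz'c : (((z' : cen g)) : G) = z := rfl
  show μ' z' = lam z
  have hmul : ∀ w : G, (χ : G → ℂ) ((z : G) * w) = (lam z : ℂ) * (χ : G → ℂ) w := by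
    intro w
    have hzc : (z : G) ∈ Subgroup.center G := hZc z.2
    have h1 := irr_central_mul χ.2 hzc 1
    have h2 := irr_central_mul χ.2 hzc w
    rw [mul_one, hover z] at h1
    have h3 : (χ : G → ℂ) 1 ≠ 0 := by
      rw [← charDegree_cast (IsIrrCharacter.isCharacter χ.2)]
      exact_mod_cast (charDegree_pos χ.2).ne'
    have h4 : centralChar (χ : G → ℂ) (z : G) = (lam z : ℂ) := by
      apply mul_right_cancel₀ h3
      rw [← h1]; ring
    rw [h2, h4]
  have hS : ∑ v : D.subgroupOf (cen g), (χ : G → ℂ) (((⟨g, hgm⟩ : cen g) * (v : cen g) : cen g) : G) *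
      conj ((μ' v : ℂˣ) : ℂ) = ((lam z : ℂ) * conj ((μ' z' : ℂˣ) : ℂ)) *
      ∑ v : D.subgroupOf (cen g), (χ : G → ℂ) (((⟨g, hgm⟩ : cen g) * (v : cen g) : cen g) : G) *
      conj ((μ' v : ℂˣ) : ℂ) := by
    conv_lhs => rw [← Equiv.sum_comp (Equiv.mulLeft z')]
    rw [Finset.mul_sum]
    refine Finset.sum_congr rfl fun v _ => ?_
    have h5 : ((((⟨g, hgm⟩ : cen g) * (((Equiv.mulLeft z') v : D.subgroupOf (cen g)) : cen g) : cen g)) : G) =
        (z : G) * (((⟨g, hgm⟩ : cen g) * (v : cen g) : cen g) : G) := by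
      have hzc := Subgroup.mem_center_iff.mp (hZc z.2) g
      simp only [Equiv.coe_mulLeft, Subgroup.coe_mul, hz'c]
      rw [← mul_assoc, hzc, mul_assoc]
    rw [h5, hmul]
    simp only [Equiv.coe_mulLeft, map_mul, Units.val_mul]
    ring
  have h6 : (lam z : ℂ) * conj ((μ' z' : ℂˣ) : ℂ) = 1 := by
    have h7 := mul_right_cancel₀ hμ' ((one_mul _).trans hS)
    exact h7.symm
  have h8 : ((μ' z' : ℂˣ) : ℂ) * conj ((μ' z' : ℂˣ) : ℂ) = 1 := by
    have h9 : ((μ' z' : ℂˣ) : ℂ) ^ (Nat.card (D.subgroupOf (cen g))) = 1 := by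
      rw [← Units.val_pow_eq_pow_val, ← map_pow, pow_card_eq_one', map_one, Units.val_one]
    have h10 := Complex.norm_eq_one_of_pow_eq_one h9 Nat.card_pos.ne'
    rw [Complex.mul_conj, Complex.normSq_eq_norm_sq, h10]
    simp
  apply Units.ext
  have h11 : conj ((μ' z' : ℂˣ) : ℂ) ≠ 0 := by
    intro h; rw [h, mul_zero] at h8; exact zero_ne_one h8
  exact mul_right_cancel₀ h11 (h8.trans h6.symm)

end Cfsg.Agent.S5001
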