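import Cfsg.Statements.S5011

set_option autoImplicit false
open Cfsg

namespace Cfsg.Agent.S5011

/-- Let G be a finite non-abelian simple group and ρ an irreducible complex representation of G on a space of dimension greater than one (irreducible in the sense that the only subspaces invariant under every ρ(x) are 0 and the whole space). Then for every non-identity element g of G, the centralizer of g does not act irreducibly: there is a non-zero proper subspace invariant under ρ(c) for every c commuting with g. -/
theorem result {G : Type*} [Group G] [Finite G] [IsSimpleGroup G]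
    (hG : ¬ IsMulCommutative G) {V : Type*} [AddCommGroup V] [Module ℂ V] [FiniteDimensional ℂ V]
    (ρ : Representation ℂ G V)
    (hirr : ∀ W : Submodule ℂ V, (∀ x : G, ∀ v ∈ W, ρ x v ∈ W) → W = ⊥ ∨ W = ⊤)
    (hdim : 1 < Module.finrank ℂ V) (g : G) (hg : g ≠ 1) :
    ∃ W : Submodule ℂ V, W ≠ ⊥ ∧ W ≠ ⊤ ∧ ∀ c ∈ Subgroup.centralizer ({g} : Set G), ∀ v ∈ W, ρ c v ∈ W := by
  haveI : Nontrivial V := Module.nontrivial_of_finrank_pos (R := ℂ) (by omega)
  obtain ⟨μ, hμ⟩ := Module.End.exists_eigenvalue (ρ g)
  refine ⟨Module.End.eigenspace (ρ g) μ, hμ, ?_, ?_⟩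
  · intro htop
    -- ρ g is the scalar μ
    have hscal : ∀ v : V, ρ g v = μ • v := by
      intro v
      have : v ∈ Module.End.eigenspace (ρ g) μ := by rw [htop]; trivial
      exact Module.End.mem_eigenspace_iff.mp this
    -- the subgroup of elements acting as scalars
    let N : Subgroup G :=
      { carrier := {x | ∃ c : ℂ, ∀ v : V, ρ x v = c • v}
        one_mem' := ⟨1, fun v => by simp⟩
        mul_mem' := by
          rintro x y ⟨c, hc⟩ ⟨d, hd⟩
          refine ⟨c * d, fun v => ?_⟩
          rw [map_mul, Module.End.mul_apply, hd, map_smul, hc, smul_smul, mul_comm]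
        inv_mem' := by
          rintro x ⟨c, hc⟩
          refine ⟨c⁻¹, fun v => ?_⟩
          have hc0 : c ≠ 0 := by
            intro h0
            obtain ⟨w, hw⟩ := exists_ne (0 : V)
            have h1 : ρ x⁻¹ (ρ x w) = w := by
              rw [← Module.End.mul_apply, ← map_mul]; simp
            rw [hc, h0, zero_smul, map_zero] at h1
            exact hw h1.symm
          have h1 : ρ x⁻¹ (ρ x (c⁻¹ • v)) = c⁻¹ • v := by
            rw [← Module.End.mul_apply, ← map_mul]; simp
          rw [hc, smul_smul, mul_inv_cancel₀ hc0, one_smul] at h1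
          exact h1 }
    have hNn : N.Normal := by
      constructor
      rintro x ⟨c, hc⟩ y
      refine ⟨c, fun v => ?_⟩
      rw [map_mul, map_mul, Module.End.mul_apply, Module.End.mul_apply, hc, map_smul,
        ← Module.End.mul_apply, ← map_mul]
      simp
    have hgN : g ∈ N := ⟨μ, hscal⟩
    have hNtop : N = ⊤ := by
      rcases hNn.eq_bot_or_eq_top with h | h
      · exfalso
        rw [h, Subgroup.mem_bot] at hgN
        exact hg hgN
      · exact h
    obtain ⟨w, hw⟩ := exists_ne (0 : V)
    have hspan := hirr (Submodule.span ℂ {w}) (by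
      intro x v hv
      have hx : x ∈ N := by rw [hNtop]; trivial
      obtain ⟨c, hc⟩ := hx
      rw [hc]
      exact Submodule.smul_mem _ _ hv)
    rcases hspan with h | h
    · rw [Submodule.span_singleton_eq_bot] at h
      exact hw h
    · have h1 : Module.finrank ℂ (Submodule.span ℂ {w}) = 1 := finrank_span_singleton hw
      rw [h, finrank_top] at h1
      omega
  · intro c hc v hv
    rw [Module.End.mem_eigenspace_iff] at hv ⊢
    have hcomm : g * c = c * g := by
      have := Subgroup.mem_centralizer_iff.mp hc g (Set.mem_singleton g)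
      exact this
    rw [← Module.End.mul_apply, ← map_mul, hcomm, map_mul, Module.End.mul_apply, hv, map_smul]

end Cfsg.Agent.S5011
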