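import Cfsg.Statements.S5107
import Cfsg.Agent.Lib.Helper26.FusGroupFactor
import Cfsg.Agent.Lib.Helper26.FusSolv

set_option autoImplicit false
open Cfsg

namespace Cfsg.Agent.S5107

open Cfsg.Agent.Lib.Helper26 Cfsg.FusionSystem

/-- If a Sylow p-subgroup S of a finite group G has nilpotency class at most two and its centre is strongly closed in S with respect to G, then every map of the fusion system of G on S is conjugation by an element of N_G(S), and S is the largest subgroup normal in that fusion system. -/
theorem result {G : Type*} [Group G] [Finite G] (p : ℕ) [Fact p.Prime] (S : Sylow p G) (hcl : ⁅(S : Subgroup G), (S : Subgroup G)⁆ ≤ (S : Subgroup G) ⊓ Subgroup.centralizer ((S : Subgroup G) : Set G)) (hZ : Cfsg.IsStronglyClosed ((S : Subgroup G) ⊓ Subgroup.centralizer ((S : Subgroup G) : Set G)) (S : Subgroup G)) : (∀ (P : Subgroup G) (φ : P →* G), φ ∈ (Cfsg.groupFusionSystem (S : Subgroup G)).Hom P → ∃ g ∈ Subgroup.normalizer ((S : Subgroup G) : Set G), ∀ x : P, φ x = g * (x : G) * g⁻¹) ∧ (Cfsg.groupFusionSystem (S : Subgroup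 G)).core = S := by
  have hSp : IsPGroup p (S : Subgroup G) := S.2
  have hF := isSaturated_group S
  set F := Cfsg.groupFusionSystem (S : Subgroup G) with hFdef
  set Z := (S : Subgroup G) ⊓ Subgroup.centralizer ((S : Subgroup G) : Set G) with hZdef
  have hSn : F.IsNormal (S : Subgroup G) := by
    refine isNormal_of_chain hSp hF stronglyClosed_S 2
      (fun i => if i = 0 then ⊥ else if i = 1 then Z else (S : Subgroup G)) rfl rfl ?_ ?_ ?_
    · intro i hi
      rcases (by omega : i = 0 ∨ i = 1) with rfl | rfl
      · exact bot_le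
      · exact (inf_le_left : Z ≤ (S : Subgroup G))
    · intro i hi
      rcases (by omega : i = 0 ∨ i = 1) with rfl | rfl
      · show ⁅Z, (S : Subgroup G)⁆ ≤ ⊥
        rw [Subgroup.commutator_le]
        intro a ha b hb
        rw [Subgroup.mem_bot, commutatorElement_eq_one_iff_mul_comm]
        exact (Subgroup.mem_centralizer_iff.1 ha.2 b hb).symm
      · exact hcl
    · intro i hi
      rcases (by omega : i = 0 ∨ i = 1) with rfl | rfl
      · exact weaklyClosed_bot
      · show F.WeaklyClosed Z
        apply StronglyClosed.weaklyClosed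
        rw [stronglyClosed_iff]
        refine ⟨inf_le_left, fun R hR f hf x hx => ?_⟩
        obtain ⟨-, g, hg⟩ := map_group_iff.1 hf
        rw [(hg x hx).1]
        exact hZ.2 x (hR hx) g (hg x hx).2
  constructor
  · intro P φ hφ
    have hm := Map.of_hom hφ
    obtain ⟨f', hf', h1, h2⟩ := (isNormal_iff.1 hSn).2 P _ hm
    rw [sup_eq_right.2 hm.le] at hf'
    obtain ⟨-, g, hg⟩ := map_group_iff.1 hf'
    refine ⟨g, ?_, fun x => ?_⟩
    · apply mem_normalizer_of_conj_finite
      intro y hy
      exact (hg y hy).2
    · rw [← ev_coe, ← h1 x x.2, (hg x (hm.le x.2)).1]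
  · exact le_antisymm (isNormal_core F).1 (le_sSup hSn)

end Cfsg.Agent.S5107
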