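import Cfsg.Statements.S5136

set_option autoImplicit false
open Cfsg

namespace Cfsg.Agent.S5136

theorem hom_transport {Ω : Type*} [Group Ω] {S : Subgroup Ω} (F : Cfsg.FusionSystem S)
    {A B : Subgroup Ω} (h : A = B) {ψ : A →* Ω} (hψ : ψ ∈ F.Hom A) :
    ∃ ψ' ∈ F.Hom B, ∀ (z : Ω) (hA : z ∈ A) (hB : z ∈ B), ψ' ⟨z, hB⟩ = ψ ⟨z, hA⟩ := by
  subst h
  exact ⟨ψ, hψ, fun _ _ _ => rfl⟩

section
variable {Ω₁ Ω₂ : Type*} [Group Ω₁] [Group Ω₂] {S₁ : Subgroup Ω₁} {S₂ : Subgroup Ω₂}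

theorem fst_mem {P : Subgroup (Ω₁ × Ω₂)} (x : P) :
    (x : Ω₁ × Ω₂).1 ∈ P.map (MonoidHom.fst Ω₁ Ω₂) := ⟨x, x.2, rfl⟩

theorem snd_mem {P : Subgroup (Ω₁ × Ω₂)} (x : P) :
    (x : Ω₁ × Ω₂).2 ∈ P.map (MonoidHom.snd Ω₁ Ω₂) := ⟨x, x.2, rfl⟩

/-- The maps of the product system. -/
def prodHom (F₁ : Cfsg.FusionSystem S₁) (F₂ : Cfsg.FusionSystem S₂) (P : Subgroup (Ω₁ × Ω₂)) :
    Set (P →* Ω₁ × Ω₂) :=
  {φ | P ≤ S₁.prod S₂ ∧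
      ∃ φ₁ ∈ F₁.Hom (P.map (MonoidHom.fst Ω₁ Ω₂)), ∃ φ₂ ∈ F₂.Hom (P.map (MonoidHom.snd Ω₁ Ω₂)),
        ∀ (x : P) (h₁ : (x : Ω₁ × Ω₂).1 ∈ P.map (MonoidHom.fst Ω₁ Ω₂))
          (h₂ : (x : Ω₁ × Ω₂).2 ∈ P.map (MonoidHom.snd Ω₁ Ω₂)),
          φ x = (φ₁ ⟨(x : Ω₁ × Ω₂).1, h₁⟩, φ₂ ⟨(x : Ω₁ × Ω₂).2, h₂⟩)}

/-- The product fusion system. -/
def prodSystem (F₁ : Cfsg.FusionSystem S₁) (F₂ : Cfsg.FusionSystem S₂) :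
    Cfsg.FusionSystem (S₁.prod S₂) where
  Hom := prodHom F₁ F₂
  le_of_mem := by
    rintro P φ ⟨hP, φ₁, h1, φ₂, h2, hφ⟩
    refine ⟨hP, fun x => ?_⟩
    rw [hφ x (fst_mem x) (snd_mem x)]
    exact Subgroup.mem_prod.2 ⟨(F₁.le_of_mem h1).2 _, (F₂.le_of_mem h2).2 _⟩
  injective_of_mem := by
    rintro P φ ⟨hP, φ₁, h1, φ₂, h2, hφ⟩ x y hxy
    rw [hφ x (fst_mem x) (snd_mem x), hφ y (fst_mem y) (snd_mem y)] at hxy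
    have e1 := F₁.injective_of_mem h1 (congrArg Prod.fst hxy)
    have e2 := F₂.injective_of_mem h2 (congrArg Prod.snd hxy)
    exact Subtype.ext (Prod.ext (congrArg Subtype.val e1) (congrArg Subtype.val e2))
  conj_mem := by
    rintro P g hP hg
    refine ⟨hP, Cfsg.conjHom _ g.1, F₁.conj_mem ?_ (Subgroup.mem_prod.1 hg).1,
      Cfsg.conjHom _ g.2, F₂.conj_mem ?_ (Subgroup.mem_prod.1 hg).2, fun x h₁ h₂ => rfl⟩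
    · rintro _ ⟨x, hx, rfl⟩
      exact (Subgroup.mem_prod.1 (hP hx)).1
    · rintro _ ⟨x, hx, rfl⟩
      exact (Subgroup.mem_prod.1 (hP hx)).2
  comp_mem := by
    rintro P Q φ ψ ⟨hP, φ₁, h1, φ₂, h2, hφ⟩ ⟨hQ, ψ₁, g1, ψ₂, g2, hψ⟩ h
    have k₁ : ∀ y : P.map (MonoidHom.fst Ω₁ Ω₂), φ₁ y ∈ Q.map (MonoidHom.fst Ω₁ Ω₂) := by
      rintro ⟨_, x, hx, rfl⟩
      have h3 := h ⟨x, hx⟩
      rw [hφ ⟨x, hx⟩ (fst_mem _) (snd_mem _)] at h3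
      exact ⟨_, h3, rfl⟩
    have k₂ : ∀ y : P.map (MonoidHom.snd Ω₁ Ω₂), φ₂ y ∈ Q.map (MonoidHom.snd Ω₁ Ω₂) := by
      rintro ⟨_, x, hx, rfl⟩
      have h3 := h ⟨x, hx⟩
      rw [hφ ⟨x, hx⟩ (fst_mem _) (snd_mem _)] at h3
      exact ⟨_, h3, rfl⟩
    refine ⟨hP, ψ₁.comp (φ₁.codRestrict _ k₁), F₁.comp_mem h1 g1 k₁,
      ψ₂.comp (φ₂.codRestrict _ k₂), F₂.comp_mem h2 g2 k₂, ?_⟩
    intro x h₁ h₂
    have e := hφ x h₁ h₂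
    have e1 : (φ x).1 = φ₁ ⟨(x : Ω₁ × Ω₂).1, h₁⟩ := by rw [e]
    have e2 : (φ x).2 = φ₂ ⟨(x : Ω₁ × Ω₂).2, h₂⟩ := by rw [e]
    show ψ ⟨φ x, h x⟩ = _
    rw [hψ ⟨φ x, h x⟩ (fst_mem _) (snd_mem _)]
    exact Prod.ext (congrArg ψ₁ (Subtype.ext e1)) (congrArg ψ₂ (Subtype.ext e2))
  inv_mem := by
    rintro P φ ⟨hP, φ₁, h1, φ₂, h2, hφ⟩
    obtain ⟨ψ₁, g1, hψ₁⟩ := F₁.inv_mem h1
    obtain ⟨ψ₂, g2, hψ₂⟩ := F₂.inv_mem h2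
    have r1 : φ₁.range = φ.range.map (MonoidHom.fst Ω₁ Ω₂) := by
      ext z
      constructor
      · rintro ⟨⟨_, x, hx, rfl⟩, rfl⟩
        refine ⟨φ ⟨x, hx⟩, ⟨_, rfl⟩, ?_⟩
        rw [hφ ⟨x, hx⟩ (fst_mem _) (snd_mem _)]
        rfl
      · rintro ⟨_, ⟨x, rfl⟩, rfl⟩
        refine ⟨⟨_, fst_mem x⟩, ?_⟩
        rw [hφ x (fst_mem _) (snd_mem _)]
        rfl
    have r2 : φ₂.range = φ.range.map (MonoidHom.snd Ω₁ Ω₂) := by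
      ext z
      constructor
      · rintro ⟨⟨_, x, hx, rfl⟩, rfl⟩
        refine ⟨φ ⟨x, hx⟩, ⟨_, rfl⟩, ?_⟩
        rw [hφ ⟨x, hx⟩ (fst_mem _) (snd_mem _)]
        rfl
      · rintro ⟨_, ⟨x, rfl⟩, rfl⟩
        refine ⟨⟨_, snd_mem x⟩, ?_⟩
        rw [hφ x (fst_mem _) (snd_mem _)]
        rfl
    obtain ⟨ψ₁', g1', t1⟩ := hom_transport F₁ r1 g1
    obtain ⟨ψ₂', g2', t2⟩ := hom_transport F₂ r2 g2
    refine ⟨(ψ₁'.comp ((MonoidHom.fst Ω₁ Ω₂).subgroupMap φ.range)).prod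
      (ψ₂'.comp ((MonoidHom.snd Ω₁ Ω₂).subgroupMap φ.range)), ⟨?_, ψ₁', g1', ψ₂', g2', ?_⟩, ?_⟩
    · rintro _ ⟨x, rfl⟩
      rw [hφ x (fst_mem x) (snd_mem x)]
      exact Subgroup.mem_prod.2 ⟨(F₁.le_of_mem h1).2 _, (F₂.le_of_mem h2).2 _⟩
    · intro x h₁ h₂
      rfl
    · intro x
      have e := hφ x (fst_mem x) (snd_mem x)
      have e1 : (φ x).1 = φ₁ ⟨(x : Ω₁ × Ω₂).1, fst_mem x⟩ := by rw [e]
      have e2 : (φ x).2 = φ₂ ⟨(x : Ω₁ × Ω₂).2, snd_mem x⟩ := by rw [e]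
      have m1 : (φ x).1 ∈ φ₁.range := ⟨_, e1.symm⟩
      have m2 : (φ x).2 ∈ φ₂.range := ⟨_, e2.symm⟩
      have a1 : ψ₁' ⟨(φ x).1, r1 ▸ m1⟩ = (x : Ω₁ × Ω₂).1 := by
        rw [t1 _ m1]
        have := hψ₁ ⟨(x : Ω₁ × Ω₂).1, fst_mem x⟩
        exact (congrArg ψ₁ (Subtype.ext e1)).trans this
      have a2 : ψ₂' ⟨(φ x).2, r2 ▸ m2⟩ = (x : Ω₁ × Ω₂).2 := by
        rw [t2 _ m2]
        have := hψ₂ ⟨(x : Ω₁ × Ω₂).2, snd_mem x⟩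
        exact (congrArg ψ₂ (Subtype.ext e2)).trans this
      exact Prod.ext a1 a2

end


/-- Let F₁ and F₂ be fusion systems over finite p-groups S₁ and S₂ (inside ambient groups Ω₁ and Ω₂). Then their direct product exists: there is a fusion system over S₁ × S₂ inside Ω₁ × Ω₂ whose maps with source P ≤ S₁ × S₂ are exactly the restrictions to P of the homomorphisms (x₁, x₂) ↦ (φ₁ x₁, φ₂ x₂) with φ₁ a map of F₁ on the first projection of P and φ₂ a map of F₂ on the second projection. -/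
theorem result {Ω₁ Ω₂ : Type*} [Group Ω₁] [Group Ω₂] {S₁ : Subgroup Ω₁} {S₂ : Subgroup Ω₂} [Finite S₁] [Finite S₂] (p : ℕ) [Fact p.Prime] (h₁ : IsPGroup p S₁) (h₂ : IsPGroup p S₂) (F₁ : Cfsg.FusionSystem S₁) (F₂ : Cfsg.FusionSystem S₂) : ∃ E : Cfsg.FusionSystem (S₁.prod S₂), Cfsg.FusionSystem.IsProductSystem F₁ F₂ E := by
  exact ⟨prodSystem F₁ F₂, fun P φ => Iff.rfl⟩

end Cfsg.Agent.S5136
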