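import Cfsg.Statements.S5164
import Mathlib
import Cfsg.Agent.Lib.Helper5.AltP

set_option autoImplicit false
open Cfsg

namespace Cfsg.Agent.S5164

open Cfsg.Agent.Lib.Helper5.Dk Cfsg.Agent.Lib.Helper5.AltP Cfsg.Agent.S2231 Cfsg.Agent.Lib.Helper1

/-- For n ≥ 6 and a prime p, a nontrivial Sylow p-subgroup of the alternating group of degree n is abelian if and only if n < p². -/
theorem result (n p : ℕ) (hn : 6 ≤ n) [Fact p.Prime] (S : Sylow p (alternatingGroup (Fin n))) (hS : (S : Subgroup (alternatingGroup (Fin n))) ≠ ⊥) : IsMulCommutative S ↔ n < p ^ 2 := by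
  constructor
  · intro hS'
    by_contra hnlt
    have hn' : p ^ 2 ≤ n := not_lt.mp hnlt
    have hab : AbP p (alternatingGroup (Fin n)) := by
      apply abP_of_sylow S
      intro x hx y hy
      exact congrArg Subtype.val (hS'.is_comm.comm ⟨x, hx⟩ ⟨y, hy⟩)
    by_cases hp : p = 2
    · subst hp
      exact not_abP_alt_two hn hab
    · have hfin : Finite ↥(Cfsg.qd p) := inferInstance
      obtain ⟨ψ, hψ⟩ := exists_embedding (QdC.ofEquiv (MulEquiv.refl ↥(Cfsg.qd p))) hp hn'
      exact not_abP_qd (abP_of_injective ψ hψ hab)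
  · intro hnlt
    refine ⟨⟨fun x y => ?_⟩⟩
    exact Subtype.ext (abP_alt (p := p) hnlt S S.2 x x.2 y y.2)

end Cfsg.Agent.S5164
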