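import Cfsg.Statements.S5199
import Cfsg.Agent.Lib.Helper26.FusSub

set_option autoImplicit false
open Cfsg

namespace Cfsg.Agent.S5199

open Cfsg.Agent.Lib.Helper26 Cfsg.FusionSystem

/-- Let F be a saturated fusion system over a finite p-group S, E a normal subsystem of F over T, and F₀ a normal subsystem of F over a subgroup U containing both T and the hyperfocal subgroup of F, such that F₀ has p-power index in F. Then E is a subsystem of F₀. -/
theorem result {Ω : Type*} [Group Ω] {S : Subgroup Ω} [Finite S] (p : ℕ) [Fact p.Prime] (hS : IsPGroup p S) (F : Cfsg.FusionSystem S) (hF : F.IsSaturated p) {T U : Subgroup Ω} (E : Cfsg.FusionSystem T) (hE : E.IsNormalIn F p) (F₀ : Cfsg.FusionSystem U) (hF₀ : F₀.IsNormalIn F p) (hU : T ⊔ F.hyperfocalSubgroup p ≤ U) (hidx : F₀.HasPPowerIndexIn F p) : E.IsSubsystemOf F₀ := by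
  obtain ⟨hEs, -, hEi, -⟩ := isNormalIn_iff.1 hE
  have hEF := isSubsystemOf_iff.1 hEi.1
  have hTS : T ≤ S := hEi.2.1.1
  have hfinT : Finite T := finite_of_le hTS
  have hTp : IsPGroup p T := hS.to_le hTS
  have hTU : T ≤ U := le_sup_left.trans hU
  obtain ⟨-, -, hres⟩ := hidx
  rw [isSubsystemOf_iff]
  refine alperin_induction hTp hEs (fun P f => Map F₀ P f) ?_ ?_ ?_ ?_ ?_
  · intro P f g h1 h2
    exact h1.congr h2
  · intro P a hP ha
    exact Map.conj (hP.trans hTU) (hTU ha)
  · intro P Q f g _ _ h1 h2 h3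
    exact h1.comp h2 h3
  · intro P f _ h1
    exact h1.symm
  · intro P hP α hα
    have hPT := le_S_of_top_or_essential hP
    have hPU := hPT.trans hTU
    have hPS := hPT.trans hTS
    obtain ⟨β, hβ, a, ha, haN, h⟩ := exists_decomp_aut
      (sat_fa_of_fn hTp hEs (isFullyNormalized_of_top_or_essential hP)) hα
    have key : ∀ β : E.autGroup P, β ∈ Cfsg.pResidual p (E.autGroup P) → Map F₀ P (aev β.1) := by
      refine pRes_induction ?_ ?_ ?_
      · exact (Map.refl hPU).congr (fun x hx => (aev_one hx).symm)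
      · intro β₁ β₂ h1 h2
        exact (h2.comp h1 (fun x hx => aev_mem_self _ hx)).congr (fun x hx => (aev_mul _ _ hx).symm)
      · intro β hβ
        have hβF : β.1 ∈ F.autGroup P := (mem_autGroup_iff hPS).2 (hEF P _ ((mem_autGroup_iff hPT).1 β.2))
        have hord : orderOf (⟨β.1, hβF⟩ : F.autGroup P) = orderOf β := by
          rw [← Subgroup.orderOf_coe, ← Subgroup.orderOf_coe β]
        have h1 : β.1 ∈ F₀.autGroup P := hres P hPU
          ⟨⟨β.1, hβF⟩, mem_pRes_of_coprime (by rw [hord]; exact hβ), rfl⟩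
        exact (mem_autGroup_iff hPU).1 h1
    exact ((Map.conj hPU (hTU ha)).comp (key β hβ) (fun x hx => conj_mem_of_normalizer haN hx)).congr
      (fun x hx => (h x hx).symm)

end Cfsg.Agent.S5199
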