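import Cfsg.Statements.S5226
import Cfsg.Agent.Lib.Helper26.FusNormal3

set_option autoImplicit false
open Cfsg

namespace Cfsg.Agent.S5226

open Cfsg.Agent.Lib.Helper26 Cfsg.FusionSystem

/-- Let F be a saturated fusion system over a finite p-group S and Q a subgroup of S. Then Q is normal in F (F equals the normalizer system of Q) if and only if Q is strongly closed in F and admits a central series 1 = Q₀ ≤ Q₁ ≤ ⋯ ≤ Qₙ = Q ([Qᵢ₊₁, Q] ≤ Qᵢ) all of whose proper terms are weakly closed in F. -/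
theorem result {Ω : Type*} [Group Ω] {S : Subgroup Ω} [Finite S] (p : ℕ) [Fact p.Prime] (hS : IsPGroup p S) (F : Cfsg.FusionSystem S) (hF : F.IsSaturated p) (Q : Subgroup Ω) : F.IsNormal Q ↔ F.StronglyClosed Q ∧ ∃ (n : ℕ) (C : Fin (n + 1) → Subgroup Ω), C 0 = ⊥ ∧ C (Fin.last n) = Q ∧ Monotone C ∧ (∀ i : Fin n, ⁅C i.succ, Q⁆ ≤ C i.castSucc) ∧ ∀ i : Fin n, F.WeaklyClosed (C i.castSucc) := by
  constructor
  · intro hQ
    refine ⟨IsNormal.stronglyClosed hQ, ?_⟩
    obtain ⟨n, hn⟩ := exists_ucs_eq hS hQ.1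
    refine ⟨n, fun i => ucs Q i, ucs_zero Q, hn, fun i j hij => ucs_mono' Q hij, fun i => ucs_comm Q i, fun i => ?_⟩
    exact StronglyClosed.weaklyClosed (IsNormal.stronglyClosed (IsNormal.ucs hQ _))
  · rintro ⟨hQ, n, C, h0, hn, hmono, hcomm, hw⟩
    exact isNormal_of_finChain hS hF hQ n C h0 hn hmono hcomm hw

end Cfsg.Agent.S5226
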