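import Cfsg.Statements.S5246
import Cfsg.Agent.Lib.Helper26.FusGroup
import Cfsg.Agent.Lib.Helper12.Cores

set_option autoImplicit false
open Cfsg

namespace Cfsg.Agent.S5246

open Cfsg.Agent.Lib.Helper26 Cfsg.FusionSystem
open scoped commutatorElement

theorem L1 {N X : Type*} [Group N] [Group X] (p : ℕ) (π : N →* X) (hπ : Function.Surjective π)
    (n : N) :
    π n ∈ pCore p X ↔ ∃ K : Subgroup N, K.Normal ∧ n ∈ K ∧ ∀ k ∈ K, ∃ m : ℕ, π (k ^ p ^ m) = 1 := by
  constructor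
  · intro h
    refine ⟨(pCore p X).comap π, ?_, h, ?_⟩
    · have := Lib.Helper12.pCore_normal p X
      exact Subgroup.Normal.comap this π
    · intro k hk
      obtain ⟨m, hm⟩ := (Lib.Helper12.pCore_isPGroup p X) ⟨π k, hk⟩
      refine ⟨m, ?_⟩
      rw [map_pow]
      exact congrArg Subtype.val hm
  · rintro ⟨K, hK, hn, hp⟩
    have h1 : (K.map π).Normal := hK.map π hπ
    have h2 : IsPGroup p (K.map π) := by
      rintro ⟨_, k, hk, rfl⟩
      obtain ⟨m, hm⟩ := hp k hk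
      refine ⟨m, ?_⟩
      apply Subtype.ext
      simpa [map_pow] using hm
    exact Lib.Helper12.le_pCore h1 h2 ⟨n, hn, rfl⟩

theorem L2 {N X Y : Type*} [Group N] [Group X] [Group Y] (p : ℕ) (π₁ : N →* X) (π₂ : N →* Y)
    (h₁ : Function.Surjective π₁) (h₂ : Function.Surjective π₂)
    (hk : ∀ k, π₁ k = 1 ↔ π₂ k = 1) (n : N) : π₁ n ∈ pCore p X ↔ π₂ n ∈ pCore p Y := by
  rw [L1 p π₁ h₁, L1 p π₂ h₂]
  simp only [hk]

theorem quad_iff {G : Type*} [Group G] (Q : Subgroup G) (x : G) :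
    ⁅⁅Q, Subgroup.zpowers x⁆, Subgroup.zpowers x⁆ = ⊥ ↔
      ∀ a ∈ Q, (x * a⁻¹ * x⁻¹) * a * (x * a⁻¹ * x⁻¹) * (x * (x * a * x⁻¹) * x⁻¹) = 1 := by
  constructor
  · intro h a ha
    have h1 : ⁅a⁻¹, x⁆ ∈ ⁅Q, Subgroup.zpowers x⁆ :=
      Subgroup.commutator_mem_commutator (Q.inv_mem ha) (Subgroup.mem_zpowers x)
    have h2 : ⁅⁅a⁻¹, x⁆, x⁆ ∈ ⁅⁅Q, Subgroup.zpowers x⁆, Subgroup.zpowers x⁆ :=
      Subgroup.commutator_mem_commutator h1 (Subgroup.mem_zpowers x)
    rw [h, Subgroup.mem_bot] at h2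
    simp only [commutatorElement_def] at h2
    have h3 : x * (a⁻¹ * x * a⁻¹⁻¹ * x⁻¹) * x⁻¹ = a⁻¹ * x * a⁻¹⁻¹ * x⁻¹ := by
      have h4 : (a⁻¹ * x * a⁻¹⁻¹ * x⁻¹) * x = x * (a⁻¹ * x * a⁻¹⁻¹ * x⁻¹) := by
        have := congrArg (fun t => t * (x * (a⁻¹ * x * a⁻¹⁻¹ * x⁻¹))) h2
        simpa [mul_assoc] using this
      rw [← h4]
      group
    calc (x * a⁻¹ * x⁻¹) * a * (x * a⁻¹ * x⁻¹) * (x * (x * a * x⁻¹) * x⁻¹)
        = (x * a⁻¹ * x⁻¹ * a) * (x * (a⁻¹ * x * a⁻¹⁻¹ * x⁻¹) * x⁻¹) := by group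
      _ = 1 := by rw [h3]; group
  · intro H
    set Z := Subgroup.centralizer ((Subgroup.zpowers x : Subgroup G) : Set G) with hZdef
    have memZ : ∀ y : G, x * y = y * x → y ∈ Z := by
      intro y hy
      rw [hZdef, Subgroup.mem_centralizer_iff]
      rintro _ ⟨k, rfl⟩
      exact ((show Commute x y from hy).zpow_left k).eq
    have hZ : ∀ k : ℤ, x ^ k ∈ Z := fun k => memZ _ ((Commute.refl x).zpow_right k).eq
    have h1 : ∀ a ∈ Q, ⁅a, x⁆ ∈ Z := by
      intro a ha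
      apply memZ
      have h2 := H a⁻¹ (Q.inv_mem ha)
      rw [commutatorElement_def]
      have h3 : (a * x * a⁻¹ * x⁻¹)⁻¹ * (x * (a * x * a⁻¹ * x⁻¹) * x⁻¹) = 1 := by
        rw [← h2]
        group
      have h4 : x * (a * x * a⁻¹ * x⁻¹) * x⁻¹ = a * x * a⁻¹ * x⁻¹ := by
        have := inv_mul_eq_one.mp h3
        exact this.symm
      calc x * (a * x * a⁻¹ * x⁻¹) = (x * (a * x * a⁻¹ * x⁻¹) * x⁻¹) * x := by group
        _ = a * x * a⁻¹ * x⁻¹ * x := by rw [h4]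
    have key : ∀ k : ℤ, ∀ a ∈ Q, ⁅a, x ^ k⁆ ∈ Z := by
      intro k
      induction k using Int.induction_on with
      | zero =>
        intro a _
        simp [commutatorElement_def]
      | succ k ih =>
        intro a ha
        have : ⁅a, x ^ ((k:ℤ) + 1)⁆ = ⁅a, x ^ (k:ℤ)⁆ * (x ^ (k:ℤ) * ⁅a, x⁆ * (x ^ (k:ℤ))⁻¹) := by
          rw [zpow_add_one]
          simp only [commutatorElement_def]
          group
        rw [this]
        exact Z.mul_mem (ih a ha) (Z.mul_mem (Z.mul_mem (hZ _) (h1 a ha)) (Z.inv_mem (hZ _)))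
      | pred k ih =>
        intro a ha
        have : ⁅a, x ^ (-(k:ℤ) - 1)⁆ =
            ⁅a, x ^ (-(k:ℤ))⁆ * (x ^ (-(k:ℤ)) * (x⁻¹ * ⁅a, x⁆⁻¹ * x) * (x ^ (-(k:ℤ)))⁻¹) := by
          rw [zpow_sub_one]
          simp only [commutatorElement_def]
          group
        rw [this]
        have hx1 : x ∈ Z := by simpa using hZ 1
        exact Z.mul_mem (ih a ha) (Z.mul_mem (Z.mul_mem (hZ _)
          (Z.mul_mem (Z.mul_mem (Z.inv_mem hx1) (Z.inv_mem (h1 a ha))) hx1)) (Z.inv_mem (hZ _)))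
    rw [Subgroup.commutator_eq_bot_iff_le_centralizer, Subgroup.commutator_le]
    rintro a ha _ ⟨k, rfl⟩
    exact key k a ha

section
variable {Ω : Type*} [Group Ω]

theorem autGroup_eq_range {S Q : Subgroup Ω} (hQ : Q ≤ S) :
    (groupFusionSystem S).autGroup Q = (conjAut Q).range := by
  rw [groupFusionSystem_eq, autGroup_sub hQ, autInducedBy_eq_normalizerIn, normalizerIn_top,
    ← map_conjAut le_rfl, MonoidHom.range_eq_map]
  congr 1
  ext y
  simp

theorem conjAut_eq_one_iff {Q : Subgroup Ω} (k : Subgroup.normalizer (Q : Set Ω)) :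
    conjAut Q k = 1 ↔ (k : Ω) ∈ Subgroup.centralizer (Q : Set Ω) := by
  rw [Subgroup.mem_centralizer_iff]
  constructor
  · intro h y hy
    have h1 := aev_conjAut k hy
    rw [h, aev_one hy] at h1
    have h2 : (k : Ω) * y * (k : Ω)⁻¹ = y := h1.symm
    calc y * (k : Ω) = ((k : Ω) * y * (k : Ω)⁻¹) * k := by rw [h2]
      _ = k * y := by group
  · intro h
    apply aut_ext
    intro y hy
    rw [aev_conjAut k hy, aev_one hy, ← h y hy]
    group

theorem lemE (p : ℕ) (Q : Subgroup Ω) (x : Subgroup.normalizer (Q : Set Ω)) :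
    (QuotientGroup.mk (s := (Subgroup.centralizer (Q : Set Ω)).subgroupOf
        (Subgroup.normalizer (Q : Set Ω))) x) ∈
      pCore p (↥(Subgroup.normalizer (Q : Set Ω)) ⧸
        (Subgroup.centralizer (Q : Set Ω)).subgroupOf (Subgroup.normalizer (Q : Set Ω))) ↔
    conjAut Q x ∈ (pCore p ↥(conjAut Q).range).map (conjAut Q).range.subtype := by
  have h := L2 p (QuotientGroup.mk' ((Subgroup.centralizer (Q : Set Ω)).subgroupOf
        (Subgroup.normalizer (Q : Set Ω)))) (conjAut Q).rangeRestrict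
    (QuotientGroup.mk'_surjective _) (conjAut Q).rangeRestrict_surjective (by
      intro k
      rw [QuotientGroup.mk'_apply, QuotientGroup.eq_one_iff, Subgroup.mem_subgroupOf,
        ← conjAut_eq_one_iff]
      constructor
      · intro h
        exact Subtype.ext h
      · intro h
        exact congrArg Subtype.val h) x
  rw [QuotientGroup.mk'_apply] at h
  rw [h]
  constructor
  · intro h1
    exact ⟨_, h1, rfl⟩
  · rintro ⟨y, hy, hyx⟩
    have : y = (conjAut Q).rangeRestrict x := Subtype.ext hyx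
    rwa [← this]

theorem conj_mem_normalizer (g : Ω) {Q : Subgroup Ω} {x : Ω}
    (hx : x ∈ Subgroup.normalizer (Q : Set Ω)) :
    g * x * g⁻¹ ∈ Subgroup.normalizer ((cjs g Q : Subgroup Ω) : Set Ω) := by
  rw [normalizer_cjs]
  exact conj_mem_cjs hx

theorem lemF (p : ℕ) (g : Ω) (Q : Subgroup Ω) (x : Subgroup.normalizer (Q : Set Ω)) :
    (QuotientGroup.mk (s := (Subgroup.centralizer (Q : Set Ω)).subgroupOf
        (Subgroup.normalizer (Q : Set Ω))) x) ∈
      pCore p (↥(Subgroup.normalizer (Q : Set Ω)) ⧸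
        (Subgroup.centralizer (Q : Set Ω)).subgroupOf (Subgroup.normalizer (Q : Set Ω))) ↔
    (QuotientGroup.mk (s := (Subgroup.centralizer ((cjs g Q : Subgroup Ω) : Set Ω)).subgroupOf
        (Subgroup.normalizer ((cjs g Q : Subgroup Ω) : Set Ω)))
        (⟨g * x * g⁻¹, conj_mem_normalizer g x.2⟩ :
          Subgroup.normalizer ((cjs g Q : Subgroup Ω) : Set Ω))) ∈
      pCore p (↥(Subgroup.normalizer ((cjs g Q : Subgroup Ω) : Set Ω)) ⧸
        (Subgroup.centralizer ((cjs g Q : Subgroup Ω) : Set Ω)).subgroupOf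
          (Subgroup.normalizer ((cjs g Q : Subgroup Ω) : Set Ω))) := by
  let e : Subgroup.normalizer (Q : Set Ω) →*
      Subgroup.normalizer ((cjs g Q : Subgroup Ω) : Set Ω) :=
    ((MulAut.conj g).toMonoidHom.comp (Subgroup.normalizer (Q : Set Ω)).subtype).codRestrict _
      (fun y => conj_mem_normalizer g y.2)
  have he : Function.Surjective e := by
    rintro ⟨m, hm⟩
    have hm' := hm
    rw [normalizer_cjs, mem_cjs] at hm'
    refine ⟨⟨_, hm'⟩, ?_⟩
    apply Subtype.ext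
    show g * (g⁻¹ * m * g) * g⁻¹ = m
    group
  have h := L2 p (QuotientGroup.mk' ((Subgroup.centralizer (Q : Set Ω)).subgroupOf
        (Subgroup.normalizer (Q : Set Ω))))
    ((QuotientGroup.mk' ((Subgroup.centralizer ((cjs g Q : Subgroup Ω) : Set Ω)).subgroupOf
        (Subgroup.normalizer ((cjs g Q : Subgroup Ω) : Set Ω)))).comp e)
    (QuotientGroup.mk'_surjective _) ((QuotientGroup.mk'_surjective _).comp he) (by
      intro k
      rw [MonoidHom.comp_apply, QuotientGroup.mk'_apply, QuotientGroup.mk'_apply,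
        QuotientGroup.eq_one_iff, QuotientGroup.eq_one_iff, Subgroup.mem_subgroupOf,
        Subgroup.mem_subgroupOf, centralizer_cjs]
      exact (conj_mem_cjs_iff (g := g) (x := (k : Ω))).symm) x
  exact h

theorem coe_conjAut {Q : Subgroup Ω} (n : Subgroup.normalizer (Q : Set Ω)) (a : Q) :
    ((conjAut Q n a : Q) : Ω) = n * a * (n : Ω)⁻¹ := by
  rw [← aev_coe, aev_conjAut n a.2]

theorem quad_aut {Q : Subgroup Ω} (n : Subgroup.normalizer (Q : Set Ω)) :
    (∀ a : Q, (conjAut Q n a⁻¹) * a * (conjAut Q n a⁻¹) * (conjAut Q n (conjAut Q n a)) = 1) ↔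
      ⁅⁅Q, Subgroup.zpowers (n : Ω)⁆, Subgroup.zpowers (n : Ω)⁆ = ⊥ := by
  rw [quad_iff]
  constructor
  · intro h a ha
    have h1 := congrArg (Subtype.val) (h ⟨a, ha⟩)
    simpa only [Subgroup.coe_mul, coe_conjAut, Subgroup.coe_inv, Subgroup.coe_one] using h1
  · intro h a
    apply Subtype.ext
    simpa only [Subgroup.coe_mul, coe_conjAut, Subgroup.coe_inv, Subgroup.coe_one] using h a a.2

end

theorem result {Ω : Type*} [Group Ω] [Finite Ω] {p : ℕ} [Fact p.Prime] (hp : p ≠ 2) (P : Sylow p Ω) : Cfsg.IsNormalizerPStable p Ω ↔ (∀ Q : Subgroup Ω, (Cfsg.groupFusionSystem (P : Subgroup Ω)).IsFullyNormalized Q → ∀ χ : MulAut ↥Q, χ ∈ (Cfsg.groupFusionSystem (P : Subgroup Ω)).autGroup Q → (∀ a : ↥Q, (χ a⁻¹) * a * (χ a⁻¹) * (χ (χ a)) = 1) → χ ∈ ((Cfsg.pCore p ↥((Cfsg.groupFusionSystem (P : Subgroup Ω)).autGroup Q)).map ((Cfsg.groupFusionSystem (P : Subgroup Ω)).autGroup Q).subtype : Subgroup (MulAut ↥Q))) := by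
  constructor
  · intro hst Q hQ χ hχ hquad
    have hQP : Q ≤ (P : Subgroup Ω) := hQ.1
    rw [autGroup_eq_range hQP] at hχ ⊢
    obtain ⟨n, rfl⟩ := hχ
    rw [← lemE]
    exact hst Q (P.2.to_le hQP) n n.2 ((quad_aut n).mp hquad)
  · intro hfus Q₀ hQ₀ x hx hquad
    obtain ⟨P', hP'⟩ := hQ₀.exists_le_sylow
    obtain ⟨g₁, hg₁⟩ := MulAction.exists_smul_eq Ω P' P
    have h1 : cjs g₁ Q₀ ≤ (P : Subgroup Ω) := by
      rw [← hg₁]
      exact cjs_mono hP'
    obtain ⟨Q₂, hconj, hfn⟩ := exists_isFullyNormalized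
      (F := Cfsg.groupFusionSystem (P : Subgroup Ω)) h1
    rw [groupFusionSystem_eq, isConj_sub_iff] at hconj
    obtain ⟨-, hQ₂P, g₂, -, hg₂⟩ := hconj
    rw [← cjs_mul] at hg₂
    subst hg₂
    set g := g₂ * g₁ with hg
    have hx' := conj_mem_normalizer g hx
    have hq : ⁅⁅cjs g Q₀, Subgroup.zpowers (g * x * g⁻¹)⁆, Subgroup.zpowers (g * x * g⁻¹)⁆ = ⊥ := by
      rw [quad_iff] at hquad ⊢
      intro a ha
      have h2 := hquad _ (mem_cjs.mp ha)
      have h3 := congrArg (fun t => g * t * g⁻¹) h2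
      simp only [mul_one, mul_inv_cancel] at h3
      rw [← h3]
      group
    have h4 := hfus _ hfn (conjAut _ ⟨g * x * g⁻¹, hx'⟩)
      (by rw [autGroup_eq_range hQ₂P]; exact ⟨_, rfl⟩)
      ((quad_aut (⟨g * x * g⁻¹, hx'⟩ : Subgroup.normalizer ((cjs g Q₀ : Subgroup Ω) : Set Ω))).mpr hq)
    rw [autGroup_eq_range hQ₂P, ← lemE] at h4
    exact (lemF p g Q₀ ⟨x, hx⟩).mpr h4

end Cfsg.Agent.S5246
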