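import Cfsg.Statements.S5251
import Cfsg.Agent.Lib.Helper26.FusRad

set_option autoImplicit false
open Cfsg

namespace Cfsg.Agent.S5251

open Cfsg.Agent.Lib.Helper26 Cfsg.FusionSystem

/-- Let F be a saturated fusion system over a finite p-group S, E a normal subsystem of F over T, and P an F-centric subgroup of S such that P ∩ T is not E-centric. Then some F-conjugate P* of P satisfies Out_S(P*) ∩ O_p(Out_F(P*)) ≠ 1: there is an element of N_S(P*) outside P* whose conjugation action on P* lies in O_p(Aut_F(P*)). In particular P is not both centric and radical in F. -/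
theorem result {Ω : Type*} [Group Ω] {S : Subgroup Ω} [Finite S] (p : ℕ) [Fact p.Prime] (hS : IsPGroup p S) (F : Cfsg.FusionSystem S) (hF : F.IsSaturated p) {T : Subgroup Ω} (E : Cfsg.FusionSystem T) (hE : E.IsNormalIn F p) (P : Subgroup Ω) (hP : F.IsCentric P) (hPT : ¬ E.IsCentric (P ⊓ T)) : (∃ φ ∈ F.Hom P, ∃ x ∈ S ⊓ Subgroup.normalizer (φ.range : Set Ω), x ∉ φ.range ∧ ∃ α ∈ ((Cfsg.pCore p ↥(F.autGroup φ.range)).map (F.autGroup φ.range).subtype : Subgroup (MulAut ↥φ.range)), ∀ y : ↥φ.range, ((α y : ↥φ.range) : Ω) = x * (y : Ω) * x⁻¹) ∧ ¬ F.IsRadical p P := by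
  obtain ⟨hEsat, -, hinv, -⟩ := isNormalIn_iff.1 hE
  obtain ⟨hEF, hT, -, -⟩ := isInvariantIn_iff.1 hinv
  have hTS := hT.1
  have hPS := hP.1
  have hTn : S ≤ Subgroup.normalizer (T : Set Ω) := StronglyClosed.le_normalizer hT
  -- a conjugate of `P ⊓ T` with non-contained centralizer
  have hex : ∃ Q, E.IsConj (P ⊓ T) Q ∧ ¬ Cfsg.FusionSystem.centralizerIn T Q ≤ Q := by
    by_contra hcon
    push Not at hcon
    exact hPT ⟨inf_le_right, hcon⟩
  obtain ⟨Q, hQc, hQ⟩ := hex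
  have hQF : F.IsConj (P ⊓ T) Q := by
    obtain ⟨f, hf, hfQ⟩ := isConj_iff.1 hQc
    exact isConj_iff.2 ⟨f, hEF _ _ hf, hfQ⟩
  obtain ⟨P0, hP0c, hP0n⟩ := exists_isFullyNormalized (F := F) (P := P ⊓ T) (inf_le_left.trans hPS)
  have hfa := sat_fa_of_fn hS hF hP0n
  have hrec := sat_rec_of_fc hS hF (sat_fc_of_fn hS hF hP0n)
  obtain ⟨f₁, hf₁, hf₁P, -⟩ := exists_map_normalizerIn hS hfa hrec hP0c
  obtain ⟨f₂, hf₂, hf₂Q, -⟩ := exists_map_normalizerIn hS hfa hrec (isConj_trans (isConj_symm hQF) hP0c)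
  have hPN : P ≤ Cfsg.FusionSystem.normalizerIn S (P ⊓ T) := by
    intro a ha
    refine mem_normalizerIn.2 ⟨hPS ha, mem_normalizer_of_conj ?_ ?_⟩
    · rintro y ⟨hy1, hy2⟩
      exact ⟨P.mul_mem (P.mul_mem ha hy1) (P.inv_mem ha), conj_mem_of_normalizer (hTn (hPS ha)) hy2⟩
    · rintro y ⟨hy1, hy2⟩
      exact ⟨P.mul_mem (P.mul_mem (P.inv_mem ha) hy1) ha, conj_inv_mem_of_normalizer (hTn (hPS ha)) hy2⟩
  have hfP : Map F P f₁ := hf₁.restrict hPN
  have hPs : im f₁ P ≤ S := hfP.im_le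
  have hP0 : im f₁ P ⊓ T = P0 := by
    rw [← hf₁P]
    ext y
    constructor
    · rintro ⟨hy1, hy2⟩
      obtain ⟨x, hx, rfl⟩ := (mem_im hfP).1 hy1
      exact mem_im_of_mem ⟨hx, StronglyClosed.mem_of_map_mem hT hfP hx hy2⟩
    · intro hy
      obtain ⟨x, hx, rfl⟩ := (mem_im (hfP.restrict inf_le_left)).1 hy
      exact ⟨mem_im_of_mem hx.1, StronglyClosed.map_mem hT hfP hx.1 hx.2⟩
  -- the centralizer of `P0` in `T` is not contained in `P0`
  have hV : ¬ Cfsg.FusionSystem.centralizerIn T P0 ≤ im f₁ P := by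
    intro hle
    apply hQ
    intro c hc
    obtain ⟨hc1, hc2⟩ := mem_centralizerIn.1 hc
    have hQS : Q ≤ S := IsConj.le_right hQF
    have hcN : c ∈ Cfsg.FusionSystem.normalizerIn S Q :=
      centralizerIn_le_normalizerIn (mem_centralizerIn.2 ⟨hTS hc1, hc2⟩)
    have h1 := hf₂.map_centralizerIn (le_normalizerIn hQS) hcN hc2
    rw [hf₂Q] at h1
    have h2 : f₂ c ∈ T := StronglyClosed.map_mem hT hf₂ hcN hc1
    have h3 : f₂ c ∈ P0 := by
      rw [← hP0]
      exact ⟨hle (mem_centralizerIn.2 ⟨h2, (mem_centralizerIn.1 h1).2⟩), h2⟩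
    rw [← hf₂Q] at h3
    obtain ⟨x, hx, hxc⟩ := (mem_im (hf₂.restrict (le_normalizerIn hQS))).1 h3
    rw [← hf₂.inj (le_normalizerIn hQS hx) hcN hxc]
    exact hx
  have hex2 : ∃ x ∈ Cfsg.FusionSystem.centralizerIn T P0, x ∈ Subgroup.normalizer (im f₁ P : Set Ω) ∧ x ∉ im f₁ P := by
    by_contra hcon
    push Not at hcon
    refine hV (le_of_normalizer_inf_le hS hPs (centralizerIn_le.trans hTS) ?_ hcon)
    intro a ha
    have haS := hPs ha
    have key : ∀ b ∈ im f₁ P, ∀ y ∈ Cfsg.FusionSystem.centralizerIn T P0,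
        b * y * b⁻¹ ∈ Cfsg.FusionSystem.centralizerIn T P0 := by
      intro b hb y hy
      obtain ⟨hy1, hy2⟩ := mem_centralizerIn.1 hy
      refine mem_centralizerIn.2 ⟨conj_mem_of_normalizer (hTn (hPs hb)) hy1, fun w hw => ?_⟩
      have hw' : b⁻¹ * w * b ∈ P0 := by
        rw [← hP0] at hw ⊢
        exact ⟨Subgroup.mul_mem _ (Subgroup.mul_mem _ (Subgroup.inv_mem _ hb) hw.1) hb,
          conj_inv_mem_of_normalizer (hTn (hPs hb)) hw.2⟩
      have h4 := hy2 _ hw'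
      have e1 : w * (b * y * b⁻¹) = b * ((b⁻¹ * w * b) * y) * b⁻¹ := by group
      rw [e1, h4]
      group
    refine mem_normalizer_of_conj (key a ha) fun y hy => ?_
    have := key a⁻¹ (Subgroup.inv_mem _ ha) y hy
    rwa [inv_inv] at this
  obtain ⟨x, hxV, hxN, hxP⟩ := hex2
  obtain ⟨hxT, hxc⟩ := mem_centralizerIn.1 hxV
  obtain ⟨α, hα⟩ := exists_aut_of_normalizer hxN
  have hαF : α ∈ F.autGroup (im f₁ P) :=
    autInducedBy_le_autGroup hPs (mem_autInducedBy_iff.2 ⟨x, hTS hxT, hα⟩)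
  have hαp : α ∈ (Cfsg.pCore p ↥(F.autGroup (im f₁ P))).map (F.autGroup (im f₁ P)).subtype := by
    refine mem_pCore_of_chain hS hPs 2 (fun j => if j = 0 then ⊥ else if j = 1 then T else ⊤) rfl
      (by simp) ?_ hαF ?_
    · intro γ hγ j y hy hyj
      by_cases h0 : j = 0
      · subst h0
        simp only [if_true, Subgroup.mem_bot] at hyj ⊢
        rw [hyj]
        exact ((mem_autGroup_iff hPs).1 hγ).map_one
      by_cases h1 : j = 1
      · subst h1
        simp only [one_ne_zero, if_false, if_true] at hyj ⊢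
        exact StronglyClosed.aev_mem hT hPs hγ hy hyj
      · simp [h0, h1]
    · intro j hj y hy hyj
      have hj' : j = 0 ∨ j = 1 := by omega
      rcases hj' with rfl | rfl
      · simp only [zero_add, one_ne_zero, if_false, if_true, Subgroup.mem_bot] at hyj ⊢
        rw [hα y hy]
        have h5 := hxc y (hP0 ▸ ⟨hy, hyj⟩)
        have e2 : y⁻¹ * (x * y * x⁻¹) = y⁻¹ * (y * x)⁻¹⁻¹ * x⁻¹ * 1 := by rw [h5]; group
        rw [e2]
        group
      · simp only [one_ne_zero, if_false, if_true]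
        rw [hα y hy]
        have e3 : y⁻¹ * (x * y * x⁻¹) = (y⁻¹ * x * y) * x⁻¹ := by group
        rw [e3]
        exact T.mul_mem (conj_inv_mem_of_normalizer (hTn (hPs hy)) hxT) (T.inv_mem hxT)
  constructor
  · obtain ⟨φ, hφ, hφf, hφr⟩ := hfP.exists_hom
    refine ⟨φ, hφ, ?_⟩
    rw [hφr]
    exact ⟨x, ⟨hTS hxT, hxN⟩, hxP, α, hαp, fun y => by rw [← aev_coe, hα y y.2]⟩
  · intro hr
    have hr' := IsRadical.im hS hfP hr
    rw [hr'.2] at hαp
    exact hxP (mem_of_conj_mem_Inn (IsCentric.im_centralizer_le hP hfP) (hTS hxT) hPs hα hαp)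

end Cfsg.Agent.S5251
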