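import Cfsg.Statements.S5290
import Cfsg.Agent.Lib.Helper27.FusInner
import Cfsg.Agent.Lib.Helper26.FusNormal3

set_option autoImplicit false
open Cfsg

namespace Cfsg.Agent.S5290

open Cfsg.FusionSystem Cfsg.Agent.Lib.Helper26

/-- Let F be a saturated fusion system over a finite p-group S and Q a subgroup of S. Then Q is normal in F (F = N_F(Q)) if and only if the inner fusion system of Q, consisting of the conjugations by elements of Q on subgroups of Q, is a weakly normal subsystem of F (both saturated, Q strongly closed, invariant under F-conjugation, with the Frattini property). -/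
theorem result {Ω : Type*} [Group Ω] {S : Subgroup Ω} [Finite S] (p : ℕ) [Fact p.Prime] (hS : IsPGroup p S)
    (F : Cfsg.FusionSystem S) (hF : F.IsSaturated p)
    (Q : Subgroup Ω) (hQ : Q ≤ S) :
    F.IsNormal Q ↔ (Cfsg.innerFusionSystem Q).IsWeaklyNormalIn F p := by
  constructor
  · exact Cfsg.Agent.Lib.Helper27.inner_isWeaklyNormalIn_of_isNormal hS hF
  · rintro ⟨-, -, -, -, -, hfr⟩
    rw [isNormal_iff_restrict hS hF hQ]
    rintro P hPQ f ⟨φ, hφ, h⟩
    obtain ⟨α, hα, φ₀, ⟨-, a, ha, h0⟩, h1⟩ := hfr P hPQ φ hφ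
    obtain ⟨γ, hγ⟩ := exists_aut_of_normalizer (P := Q) (Subgroup.le_normalizer ha)
    have hγm : γ ∈ F.autGroup Q := by
      rw [mem_autGroup_iff hQ]
      exact (Map.conj hQ (hQ ha)).congr (fun x hx => (hγ x hx).symm)
    refine ⟨α * γ, (F.autGroup Q).mul_mem hα hγm, fun x hx => ?_⟩
    have hmem : φ₀ ⟨x, hx⟩ ∈ Q := by
      rw [h0]
      exact Q.mul_mem (Q.mul_mem ha (hPQ hx)) (Q.inv_mem ha)
    rw [aev_mul _ _ (hPQ hx), hγ x (hPQ hx), ← h ⟨x, hx⟩, h1 ⟨x, hx⟩ hmem, ← aev_coe]
    simp only [h0]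

end Cfsg.Agent.S5290
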