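import Cfsg.Statements.S5291
import Cfsg.Agent.Lib.Helper27.FusInner
import Cfsg.Agent.Lib.Helper26.FusNormal3

set_option autoImplicit false
open Cfsg

namespace Cfsg.Agent.S5291

open Cfsg.FusionSystem Cfsg.Agent.Lib.Helper26

theorem isNormal_sSup {Ω : Type*} [Group Ω] {S : Subgroup Ω} [Finite S] (F : FusionSystem S)
    (𝒜 : Set (Subgroup Ω)) (h : ∀ Q ∈ 𝒜, F.IsNormal Q) : F.IsNormal (sSup 𝒜) := by
  obtain ⟨M, hM, hmax⟩ := exists_max_of_bdd (fun Q => F.IsNormal Q ∧ Q ≤ sSup 𝒜) (fun Q => Nat.card Q)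
    (Nat.card S) (fun Q hQ => Subgroup.card_le_of_le hQ.1.1) ⟨⊥, isNormal_bot, bot_le⟩
  have : sSup 𝒜 = M := by
    apply le_antisymm
    · apply sSup_le
      intro Q hQ
      have h1 := isNormal_sup hM.1 (h Q hQ)
      have : Finite (M ⊔ Q : Subgroup Ω) := finite_of_le h1.1
      have h2 : M = M ⊔ Q := Subgroup.eq_of_le_of_card_ge le_sup_left
        (hmax _ ⟨h1, sup_le hM.2 (le_sSup hQ)⟩)
      rw [h2]
      exact le_sup_right
    · exact hM.2
  rw [this]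
  exact hM.1

/-- Let F be a saturated fusion system over a finite p-group S and E a weakly normal subsystem of F over a subgroup T. Suppose a subgroup R of T is normal in E (E = N_E(R)), and let R* be the subgroup of T generated by the images of R under all maps of F with source R. Then R* is normal in F (F = N_F(R*)). -/
theorem result {Ω : Type*} [Group Ω] {S : Subgroup Ω} [Finite S] (p : ℕ) [Fact p.Prime] (hS : IsPGroup p S)
    (F : Cfsg.FusionSystem S) (hF : F.IsSaturated p)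
    {T : Subgroup Ω} (E : Cfsg.FusionSystem T) (hE : E.IsWeaklyNormalIn F p)
    (R : Subgroup Ω) (hR : E.IsNormal R) :
    F.IsNormal (Subgroup.closure {x : Ω | ∃ φ ∈ F.Hom R, ∃ r : R, x = φ r}) := by
  obtain ⟨-, -, hsub, hTsc, hinv, hfr⟩ := hE
  have hTS : T ≤ S := hTsc.1
  have hRT : R ≤ T := hR.1
  have : Finite T := finite_of_le hTS
  have hEF : ∀ P f, Map E P f → Map F P f := fun P f hf => Cfsg.Agent.Lib.Helper27.Map.mono hsub hf
  have hαT : ∀ α ∈ F.autGroup T, Map F T (aev α) := fun α hα => (mem_autGroup_iff hTS).1 hα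
  -- map forms of the invariance conditions
  have hinv' : ∀ P ≤ T, ∀ f, Map E P f → ∀ α ∈ F.autGroup T,
      ∃ h, Map E (im (aev α) P) h ∧ ∀ x ∈ P, h (aev α x) = aev α (f x) := by
    rintro P hPT f ⟨φ, hφ, h1⟩ α hα
    obtain ⟨χ, hχ, h2⟩ := hinv P hPT φ hφ α hα
    have e : (P.subgroupOf T).map (T.subtype.comp α.toMonoidHom) = im (aev α) P :=
      map_subgroupOf_eq_im (f := aev α) (fun x => (aev_coe α x).symm) hPT
    refine ⟨ev χ, e ▸ Map.of_hom hχ, fun x hx => ?_⟩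
    have hφx : φ ⟨x, hx⟩ ∈ T := (E.le_of_mem hφ).2 _
    have hαx : ((α ⟨x, hPT hx⟩ : T) : Ω) ∈ (P.subgroupOf T).map (T.subtype.comp α.toMonoidHom) :=
      ⟨⟨x, hPT hx⟩, hx, rfl⟩
    have h3 := h2 ⟨x, hx⟩ hφx hαx
    rw [aev_mem α (hPT hx), ev_mem χ hαx, h3, ← aev_coe]
    simp only [h1]
  have hfr' : ∀ P ≤ T, ∀ f, Map F P f → ∃ α ∈ F.autGroup T, ∃ f₀, Map E P f₀ ∧
      ∀ x ∈ P, f x = aev α (f₀ x) := by
    rintro P hPT f ⟨φ, hφ, h1⟩
    obtain ⟨α, hα, φ₀, hφ₀, h2⟩ := hfr P hPT φ hφ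
    refine ⟨α, hα, ev φ₀, Map.of_hom hφ₀, fun x hx => ?_⟩
    have hx0 : φ₀ ⟨x, hx⟩ ∈ T := (E.le_of_mem hφ₀).2 _
    rw [← h1 ⟨x, hx⟩, h2 ⟨x, hx⟩ hx0, ev_mem φ₀ hx, aev_mem α hx0]
  -- conjugates of `R` are normal in `E`
  have hconjN : ∀ α ∈ F.autGroup T, E.IsNormal (im (aev α) R) := by
    intro α hα
    have hαi : α⁻¹ ∈ F.autGroup T := (F.autGroup T).inv_mem hα
    rw [isNormal_iff]
    refine ⟨im_le_iff.2 (fun x hx => aev_mem_self α (hRT hx)), fun P f hf => ?_⟩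
    have hPT : P ≤ T := hf.le
    obtain ⟨h₁, hh₁, e₁⟩ := hinv' P hPT f hf α⁻¹ hαi
    obtain ⟨h₂, hh₂, e₂, e₂'⟩ := (isNormal_iff.1 hR).2 _ h₁ hh₁
    have hP₁T : im (aev α⁻¹) P ⊔ R ≤ T := hh₂.le
    obtain ⟨h₃, hh₃, e₃⟩ := hinv' _ hP₁T h₂ hh₂ α hα
    have e4 : im (aev α) (im (aev α⁻¹) P ⊔ R) = P ⊔ im (aev α) R := by
      rw [((hαT α hα).restrict hP₁T).im_sup, ← im_comp ((hαT _ hαi).restrict hPT)]
      congr 1
      rw [im_congr (f := aev α ∘ aev α⁻¹) (g := id) (fun x hx => aev_apply_inv α (hPT hx)), im_id]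
    rw [e4] at hh₃
    refine ⟨h₃, hh₃, fun x hx => ?_, ?_⟩
    · have hx1 : aev α⁻¹ x ∈ im (aev α⁻¹) P := mem_im_of_mem hx
      have h5 := e₃ _ ((le_sup_left : _ ≤ im (aev α⁻¹) P ⊔ R) hx1)
      rw [aev_apply_inv α (hPT hx), e₂ _ hx1, e₁ x hx, aev_apply_inv α (hf.mem_S hx)] at h5
      exact h5
    · have : Finite (im (aev α) R) := finite_of_le (im_le_iff.2 (fun x hx => aev_mem_self α (hRT hx)))
      apply Subgroup.eq_of_le_of_card_ge _ (hh₃.restrict le_sup_right).card_im.ge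
      rw [im_le_iff]
      intro y hy
      obtain ⟨r, hr, rfl⟩ := (mem_im ((hαT α hα).restrict hRT)).1 hy
      rw [e₃ r ((le_sup_right : R ≤ im (aev α⁻¹) P ⊔ R) hr)]
      exact mem_im_of_mem (e₂' ▸ mem_im_of_mem hr)
  -- identification of `R*`
  set Rs := Subgroup.closure {x : Ω | ∃ φ ∈ F.Hom R, ∃ r : R, x = φ r} with hRs
  have hRsc := IsNormal.stronglyClosed hR
  have hRs_eq : Rs = sSup {Q | ∃ α ∈ F.autGroup T, Q = im (aev α) R} := by
    apply le_antisymm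
    · rw [hRs, Subgroup.closure_le]
      rintro _ ⟨φ, hφ, r, rfl⟩
      obtain ⟨α, hα, f₀, hf₀, h1⟩ := hfr' R hRT (ev φ) (Map.of_hom hφ)
      have h2 : f₀ r ∈ R := (stronglyClosed_iff.1 hRsc).2 R le_rfl f₀ hf₀ r r.2
      have h3 : im (aev α) R ≤ sSup {Q | ∃ α ∈ F.autGroup T, Q = im (aev α) R} := le_sSup ⟨α, hα, rfl⟩
      apply h3
      rw [← ev_coe, h1 r r.2]
      exact mem_im_of_mem h2
    · apply sSup_le
      rintro _ ⟨α, hα, rfl⟩
      rw [im_le_iff]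
      intro r hr
      obtain ⟨φ, hφ, h1⟩ := (hαT α hα).restrict hRT
      exact Subgroup.subset_closure ⟨φ, hφ, ⟨r, hr⟩, (h1 ⟨r, hr⟩).symm⟩
  have hRsN : E.IsNormal Rs := by
    rw [hRs_eq]
    apply isNormal_sSup
    rintro _ ⟨α, hα, rfl⟩
    exact hconjN α hα
  have hRsT : Rs ≤ T := hRsN.1
  have : Finite Rs := finite_of_le hRsT
  have hRsinv : ∀ α ∈ F.autGroup T, im (aev α) Rs = Rs := by
    intro α hα
    apply Subgroup.eq_of_le_of_card_ge _ ((hαT α hα).restrict hRsT).card_im.ge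
    rw [im_le_iff]
    intro x hx
    have key : x ∈ T ∧ aev α x ∈ Rs := by
      rw [hRs] at hx
      induction hx using Subgroup.closure_induction with
      | mem x hx =>
        obtain ⟨φ, hφ, r, rfl⟩ := hx
        have hφT : ∀ r : R, φ r ∈ T := fun r => hTsc.2 R hRT φ hφ r
        refine ⟨hφT r, ?_⟩
        have h1 : Map F R (aev α ∘ ev φ) := (Map.of_hom hφ).comp (hαT α hα)
          (fun x hx => by rw [ev_mem φ hx]; exact hφT _)
        obtain ⟨φ', hφ', h2⟩ := h1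
        refine Subgroup.subset_closure ⟨φ', hφ', r, ?_⟩
        rw [h2]
        simp only [Function.comp]
        rw [ev_coe]
      | one => exact ⟨T.one_mem, by rw [(hαT α hα).map_one]; exact Subgroup.one_mem _⟩
      | mul a b _ _ ha hb =>
        exact ⟨T.mul_mem ha.1 hb.1, by rw [(hαT α hα).map_mul ha.1 hb.1]; exact Subgroup.mul_mem _ ha.2 hb.2⟩
      | inv a _ ha => exact ⟨T.inv_mem ha.1, by rw [(hαT α hα).map_inv ha.1]; exact Subgroup.inv_mem _ ha.2⟩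
    exact key.2
  rw [isNormal_iff_restrict hS hF (hRsT.trans hTS)]
  intro P hP f hf
  obtain ⟨α, hα, f₀, hf₀, h1⟩ := hfr' P (hP.trans hRsT) f hf
  obtain ⟨f₀', hf₀', h2, h3⟩ := (isNormal_iff.1 hRsN).2 P f₀ hf₀
  rw [sup_eq_right.2 hP] at hf₀'
  have hg : Map F Rs (aev α ∘ f₀') := (hEF _ _ hf₀').comp (hαT α hα) (fun x hx => hf₀'.mem_S hx)
  have hgim : im (aev α ∘ f₀') Rs = Rs := by rw [im_comp hf₀', h3, hRsinv α hα]
  obtain ⟨γ, hγ, h4⟩ := hg.exists_aut hgim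
  refine ⟨γ, hγ, fun x hx => ?_⟩
  rw [h4 x (hP hx), h1 x hx]
  simp only [Function.comp]
  rw [h2 x hx]

end Cfsg.Agent.S5291
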