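import Cfsg.Statements.S5294
import Cfsg.Agent.Lib.Helper27.FusInner
import Cfsg.Agent.Lib.Helper26.FusChain

set_option autoImplicit false
universe u
open Cfsg

namespace Cfsg.Agent.S5294

open Cfsg.FusionSystem Cfsg.Agent.Lib.Helper26

/-- Let F be a saturated fusion system over a finite p-group S whose centre Z(S) lies in the largest subgroup O_p(F) normal in F. Then the centre Z(F) of F is a direct factor of Z(S): there is a subgroup K of Z(S) with Z(F) ∩ K = 1 and Z(F)K = Z(S). -/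
theorem result {Ω : Type u} [Group Ω] {S : Subgroup Ω} [Finite S] (p : ℕ) [Fact p.Prime] (hS : IsPGroup p S)
    (F : Cfsg.FusionSystem S) (hF : F.IsSaturated p) (hZ : (S ⊓ Subgroup.centralizer (S : Set Ω)) ≤ F.core) :
    ∃ K : Subgroup Ω, K ≤ (S ⊓ Subgroup.centralizer (S : Set Ω)) ∧ F.center ⊓ K = ⊥ ∧ F.center ⊔ K = (S ⊓ Subgroup.centralizer (S : Set Ω)) := by
  have hp : p.Prime := Fact.out
  have hQ : F.IsNormal F.core := isNormal_core F
  set V := ucs F.core 1 with hV
  have hVN : F.IsNormal V := IsNormal.ucs hQ 1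
  have hVS : V ≤ S := hVN.1
  have hmemV : ∀ x, x ∈ V ↔ x ∈ F.core ∧ ∀ y ∈ F.core, y * x = x * y := by
    intro x
    rw [hV]
    unfold ucs
    rw [Subgroup.upperCentralSeries_one]
    constructor
    · rintro ⟨z, hz, rfl⟩
      refine ⟨z.2, fun y hy => ?_⟩
      exact congrArg Subtype.val (Subgroup.mem_center_iff.1 hz ⟨y, hy⟩)
    · rintro ⟨hx, h⟩
      exact ⟨⟨x, hx⟩, Subgroup.mem_center_iff.2 (fun y => Subtype.ext (h y y.2)), rfl⟩
  have : Finite V := finite_of_le hVS
  have hVc : ∀ a b : V, a * b = b * a := by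
    intro a b
    apply Subtype.ext
    exact ((hmemV b).1 b.2).2 a ((hmemV a).1 a.2).1
  have hfn : F.IsFullyNormalized V :=
    WeaklyClosed.isFullyNormalized (StronglyClosed.weaklyClosed (IsNormal.stronglyClosed hVN))
  obtain ⟨-, hTA, R, hR⟩ := isFullyAutomized_iff.1 (sat_fa_of_fn hS hF hfn)
  have hfin : Finite (F.autGroup V) := finite_autGroup hVS
  have hcop : ((autInducedBy S V).subgroupOf (F.autGroup V)).index.Coprime (Nat.card V) := by
    obtain ⟨n, hn⟩ := (hS.to_le hVS).exists_card_eq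
    rw [hn, ← hR]
    exact Nat.Coprime.pow_right n ((Nat.Prime.coprime_iff_not_dvd hp).2 R.not_dvd_index).symm
  obtain ⟨K₀, ha, hb, hc⟩ := Cfsg.Agent.Lib.Helper27.fixed_direct_factor hVc (F.autGroup V)
    (autInducedBy S V) hcop
  have hSN : S ≤ Subgroup.normalizer (V : Set Ω) := IsNormal.le_normalizer hVN
  -- (i)
  have hi : ∀ v : V, (∀ t ∈ autInducedBy S V, t ∈ F.autGroup V → t v = v) ↔
      (v : Ω) ∈ S ⊓ Subgroup.centralizer (S : Set Ω) := by
    intro v
    constructor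
    · intro h
      refine Subgroup.mem_inf.2 ⟨hVS v.2, ?_⟩
      rw [Subgroup.mem_centralizer_iff]
      intro a ha
      obtain ⟨t, ht⟩ := exists_aut_of_normalizer (hSN ha)
      have htm : t ∈ autInducedBy S V := mem_autInducedBy_iff.2 ⟨a, ha, ht⟩
      have h1 := h t htm (hTA htm)
      have h2 := ht v v.2
      rw [aev_coe, h1] at h2
      calc a * (v : Ω) = (a * v * a⁻¹) * a := by group
        _ = v * a := by rw [← h2]
    · rintro ⟨-, h⟩ t ht -
      obtain ⟨a, ha, h1⟩ := mem_autInducedBy_iff.1 ht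
      apply Subtype.ext
      rw [← aev_coe, h1 v v.2, Subgroup.mem_centralizer_iff.1 h a ha]
      group
  -- (ii)
  have hii : S ⊓ Subgroup.centralizer (S : Set Ω) ≤ V := by
    intro z hz
    rw [hmemV]
    exact ⟨hZ hz, fun y hy => Subgroup.mem_centralizer_iff.1 hz.2 y (hQ.1 hy)⟩
  -- (iii)
  have hiii : ∀ v : V, (∀ α ∈ F.autGroup V, α v = v) ↔ (v : Ω) ∈ F.center := by
    intro v
    constructor
    · intro h
      have hz : Subgroup.zpowers (v : Ω) ≤ V := by rw [Subgroup.zpowers_le]; exact v.2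
      have hcen : F.IsCentral (Subgroup.zpowers (v : Ω)) := by
        rw [isCentral_iff]
        refine ⟨hz.trans hVS, fun P f hf => ?_⟩
        obtain ⟨f', hf', h1, h2⟩ := (isNormal_iff.1 hVN).2 P f hf
        refine ⟨f', hf'.restrict (sup_le_sup_left hz P), h1, fun y hy => ?_⟩
        obtain ⟨α, hα, h3⟩ := (hf'.restrict (le_sup_right : V ≤ P ⊔ V)).exists_aut h2
        have h4 : f' v = v := by rw [← h3 v v.2, aev_coe, h α hα]
        obtain ⟨n, rfl⟩ := Subgroup.mem_zpowers_iff.1 hy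
        obtain ⟨φ, -, hφ⟩ := hf'
        have hvm : (v : Ω) ∈ P ⊔ V := (le_sup_right : V ≤ P ⊔ V) v.2
        have h5 : f' ((v : Ω) ^ n) = φ (⟨v, hvm⟩ ^ n) := (hφ (⟨v, hvm⟩ ^ n)).symm
        rw [h5, map_zpow, hφ]
        show (f' v) ^ n = _
        rw [h4]
      exact (le_sSup hcen : Subgroup.zpowers (v : Ω) ≤ F.center) (Subgroup.mem_zpowers _)
    · intro h α hα
      obtain ⟨f', -, h3, h4⟩ := (isCentral_iff.1 (isCentral_center F)).2 V (aev α)
        ((mem_autGroup_iff hVS).1 hα)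
      apply Subtype.ext
      rw [← aev_coe, ← h3 v v.2, h4 v h]
  -- (iv)
  have hiv : F.center ≤ S ⊓ Subgroup.centralizer (S : Set Ω) := by
    intro v hv
    obtain ⟨h1, h2⟩ := isCentral_iff.1 (isCentral_center F)
    refine Subgroup.mem_inf.2 ⟨h1 hv, ?_⟩
    rw [Subgroup.mem_centralizer_iff]
    intro a ha
    obtain ⟨f', -, h3, h4⟩ := h2 S (cj a) (Map.conj le_rfl ha)
    have h5 : a * v * a⁻¹ = v := by
      have := h3 v (h1 hv)
      rw [h4 v hv] at this
      exact this.symm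
    calc a * v = (a * v * a⁻¹) * a := by group
      _ = v * a := by rw [h5]
  have hK : K₀.map V.subtype ≤ S ⊓ Subgroup.centralizer (S : Set Ω) := by
    rintro _ ⟨v, hv, rfl⟩
    exact (hi v).1 (ha v hv)
  refine ⟨K₀.map V.subtype, hK, ?_, ?_⟩
  · rw [eq_bot_iff]
    rintro _ ⟨hx1, ⟨v, hv, rfl⟩⟩
    have := hb v hv ((hiii v).2 hx1)
    rw [this]
    exact Subgroup.one_mem _
  · apply le_antisymm (sup_le hiv hK)
    intro z hz
    obtain ⟨c, d, h1, h2, h3⟩ := hc ⟨z, hii hz⟩ ((hi ⟨z, hii hz⟩).2 hz)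
    have hz' : z = (c : Ω) * (d : Ω) := congrArg Subtype.val h3
    rw [hz']
    exact Subgroup.mul_mem_sup ((hiii c).1 h1) ⟨d, h2, rfl⟩

end Cfsg.Agent.S5294
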