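import Cfsg.Statements.S5301
import Cfsg.Agent.Lib.Helper27.Fus2

set_option autoImplicit false
universe u
open Cfsg

namespace Cfsg.Agent.S5301

open Cfsg.FusionSystem Cfsg.Agent.Lib.Helper26 Cfsg.Agent.Lib.Helper27

/-- Let F be a saturated fusion system over a finite p-group S. If for every subgroup P of S that is fully normalized, centric and radical in F the automorphism group that F induces on P has a normal Sylow p-subgroup, then S is normal in F. -/
theorem result {Ω : Type u} [Group Ω] {S : Subgroup Ω} [Finite S] (p : ℕ) [Fact p.Prime] (hS : IsPGroup p S)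
    (F : Cfsg.FusionSystem S) (hF : F.IsSaturated p)
    (hcl : ∀ P : Subgroup Ω, F.IsFullyNormalized P → F.IsCentric P → F.IsRadical p P →
      ∃ R : Sylow p ↥(F.autGroup P), (R : Subgroup ↥(F.autGroup P)).Normal) :
    F.IsNormal S := by
  apply isNormal_S_of_no_essential hS hF
  intro P hP
  have hrad := isRadical_of_isEssential hS hP
  obtain ⟨hc, hfn, hnorm, E, hdvd, -, -⟩ := hP
  obtain ⟨R, hR⟩ := hcl P hfn hc hrad
  have hfin : Finite (F.autGroup P) := finite_autGroup hc.1
  have h1 : (R : Subgroup (F.autGroup P)) ≤ pCore p (F.autGroup P) := le_pCore hR R.2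
  have h2 : (R : Subgroup (F.autGroup P)) ≤ (Inn P).subgroupOf (F.autGroup P) := by
    intro x hx
    rw [Subgroup.mem_subgroupOf, ← hrad.2]
    exact ⟨x, h1 hx, rfl⟩
  have h3 : ((Inn P).subgroupOf (F.autGroup P)).index ∣ (R : Subgroup (F.autGroup P)).index :=
    Subgroup.index_dvd_of_le h2
  have h4 : ¬ p ∣ (R : Subgroup (F.autGroup P)).index := R.not_dvd_index
  apply h4
  refine dvd_trans ?_ h3
  rw [Subgroup.index_eq_card]
  exact hdvd

end Cfsg.Agent.S5301
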