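import Cfsg.Statements.S5330
import Cfsg.Agent.Lib.Helper27.FusAb

set_option autoImplicit false
open Cfsg

namespace Cfsg.Agent.S5330

open Cfsg.FusionSystem Cfsg.Agent.Lib.Helper26 Cfsg.Agent.Lib.Helper27

/-- Let F be a saturated fusion system over a finite abelian p-group S. Then S is the internal direct product of the centre of the system and the focal subgroup: Z(F) ∩ foc(F) = 1 and Z(F)·foc(F) = S. -/
theorem result {Ω : Type*} [Group Ω] {S : Subgroup Ω} [Finite S] (p : ℕ) [Fact p.Prime] (hS : IsPGroup p S) (F : Cfsg.FusionSystem S) (hF : F.IsSaturated p) (hab : ∀ x ∈ S, ∀ y ∈ S, x * y = y * x) : F.center ⊓ F.focalSubgroup = ⊥ ∧ F.center ⊔ F.focalSubgroup = S := by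
  have hN : TopNormal F := topNormal_of_isNormal (isNormal_S_of_abelian hS hF hab)
  have hcop := card_autGroup_coprime_of_abelian hS hF hab
  obtain ⟨h1, h2⟩ := coprime_abelian_decomp (V := S) (fun a b => Subtype.ext (hab a a.2 b b.2))
    (F.autGroup S) hcop
  have hfoc : F.focalSubgroup =
      (Subgroup.closure {y : S | ∃ α ∈ F.autGroup S, ∃ w : S, y = w⁻¹ * α w}).map S.subtype := by
    rw [focalSubgroup_eq_of_topNormal hN, MonoidHom.map_closure]
    congr 1
    ext y
    constructor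
    · rintro ⟨α, hα, x, hx, rfl⟩
      refine ⟨⟨x, hx⟩⁻¹ * α ⟨x, hx⟩, ⟨α, hα, ⟨x, hx⟩, rfl⟩, ?_⟩
      rw [aev_mem α hx]
      rfl
    · rintro ⟨_, ⟨α, hα, w, rfl⟩, rfl⟩
      refine ⟨α, hα, w, w.2, ?_⟩
      rw [aev_coe]
      rfl
  have hcen : ∀ v : S, (v : Ω) ∈ F.center ↔ ∀ α ∈ F.autGroup S, α v = v := by
    intro v
    rw [mem_center_iff_of_topNormal hN]
    constructor
    · rintro ⟨-, h⟩ α hα
      apply Subtype.ext
      rw [← aev_coe]
      exact h α hα
    · intro h
      refine ⟨v.2, fun α hα => ?_⟩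
      rw [aev_coe, h α hα]
  constructor
  · rw [eq_bot_iff]
    rintro x ⟨hx1, hx2⟩
    rw [SetLike.mem_coe, hfoc] at hx2
    obtain ⟨d, hd, rfl⟩ := hx2
    have := h1 d ((hcen d).1 hx1) hd
    rw [this]
    exact Subgroup.one_mem _
  · apply le_antisymm
    · refine sup_le (fun x hx => ((mem_center_iff_of_topNormal hN).1 hx).1) ?_
      rw [hfoc]
      rintro _ ⟨d, -, rfl⟩
      exact d.2
    · intro x hx
      obtain ⟨c, d, hc, hd, h⟩ := h2 ⟨x, hx⟩
      have hx' : x = (c : Ω) * (d : Ω) := congrArg Subtype.val h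
      rw [hx']
      refine Subgroup.mul_mem_sup ((hcen c).2 hc) ?_
      rw [hfoc]
      exact ⟨d, hd, rfl⟩

end Cfsg.Agent.S5330
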