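import Cfsg.Statements.S5342
import Cfsg.Agent.Lib.Helper27.FusConstr
import Cfsg.Agent.Lib.Helper26.FusExtM

set_option autoImplicit false
open Cfsg

namespace Cfsg.Agent.S5342

open Cfsg.FusionSystem Cfsg.Agent.Lib.Helper26 Cfsg.Agent.Lib.Helper27

variable {Ω : Type*} [Group Ω]

theorem stronglyClosed_inf {S : Subgroup Ω} {F : FusionSystem S} {Q T : Subgroup Ω} (hQ : F.StronglyClosed Q)
    (hT : F.StronglyClosed T) : F.StronglyClosed (Q ⊓ T) := by
  rw [Cfsg.Agent.Lib.Helper26.stronglyClosed_iff] at hQ hT ⊢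
  exact ⟨inf_le_left.trans hQ.1, fun R hR f hf x hx =>
    ⟨hQ.2 R (hR.trans inf_le_left) f hf x hx, hT.2 R (hR.trans inf_le_right) f hf x hx⟩⟩

/-- a weakly normal subsystem of a constrained system is constrained -/
theorem constrained_of_weaklyNormal {S T : Subgroup Ω} [Finite S] {p : ℕ} [Fact p.Prime] (hS : IsPGroup p S)
    {F : FusionSystem S} (hF : F.IsConstrained p) {E : FusionSystem T} (hE : E.IsWeaklyNormalIn F p) :
    E.IsConstrained p := by
  obtain ⟨hEsat, hFsat, hsub, hTsc, -, -⟩ := hE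
  obtain ⟨hQ, hQc, hQr⟩ := core_props_of_constrained hS hF
  set Q := F.core with hQdef
  have hTS : T ≤ S := hTsc.1
  have hQS : Q ≤ S := hQ.1
  have hQsc := IsNormal.stronglyClosed hQ
  have hRsc : F.StronglyClosed (Q ⊓ T) := stronglyClosed_inf hQsc hTsc
  have hRN : F.IsNormal (Q ⊓ T) := by
    apply isNormal_of_sc_of_le hS hFsat hRsc
    intro P hPc hPr
    exact inf_le_left.trans (le_of_isNormal_of_centric_radical hS hQ hPc hPr)
  have hRE : E.IsNormal (Q ⊓ T) := isNormal_of_isNormal_of_subsystem hS hEsat hsub hTS hRN inf_le_right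
  have : Finite T := finite_of_le hTS
  refine ⟨hEsat, Q ⊓ T, hRE, inf_le_right, fun R' hR' => ?_⟩
  obtain ⟨f, hf, rfl⟩ := isConj_iff.1 hR'
  rw [(weaklyClosed_iff.1 (StronglyClosed.weaklyClosed (IsNormal.stronglyClosed hRE))).2 f hf]
  -- `C_T(R) ≤ R`
  intro x hx
  obtain ⟨hxT, hxc⟩ := mem_centralizerIn.1 hx
  have hxS : x ∈ S := hTS hxT
  have hSNQ : S ≤ Subgroup.normalizer (Q : Set Ω) := IsNormal.le_normalizer hQ
  have hSNT : S ≤ Subgroup.normalizer (T : Set Ω) := StronglyClosed.le_normalizer hTsc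
  obtain ⟨γ, hγ⟩ := exists_aut_of_normalizer (hSNQ hxS)
  have hcQ := hQc.2 Q (isConj_refl hQS)
  refine ⟨mem_of_conj_mem_Inn hcQ hxS hQS hγ ?_, hxT⟩
  rw [← hQr.2]
  -- the stability group
  let K : Subgroup (MulAut Q) :=
    { carrier := {β | β ∈ F.autGroup Q ∧ (∀ r ∈ Q ⊓ T, aev β r = r) ∧ ∀ y ∈ Q, y⁻¹ * aev β y ∈ Q ⊓ T}
      one_mem' := ⟨Subgroup.one_mem _, fun r hr => aev_one hr.1, fun y hy => by
        rw [aev_one hy, inv_mul_cancel]; exact Subgroup.one_mem _⟩
      mul_mem' := by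
        rintro a b ⟨a1, a2, a3⟩ ⟨b1, b2, b3⟩
        refine ⟨Subgroup.mul_mem _ a1 b1, fun r hr => ?_, fun y hy => ?_⟩
        · rw [aev_mul _ _ hr.1, b2 r hr, a2 r hr]
        · rw [aev_mul _ _ hy]
          have e : y⁻¹ * aev a (aev b y) = (y⁻¹ * aev b y) * ((aev b y)⁻¹ * aev a (aev b y)) := by group
          rw [e]
          exact Subgroup.mul_mem _ (b3 y hy) (a3 _ (aev_mem_self b hy))
      inv_mem' := by
        rintro a ⟨a1, a2, a3⟩
        refine ⟨Subgroup.inv_mem _ a1, fun r hr => ?_, fun y hy => ?_⟩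
        · conv_lhs => rw [← a2 r hr]
          exact aev_inv_apply a hr.1
        · have h1 := a3 _ (aev_mem_self a⁻¹ hy)
          rw [aev_apply_inv a hy] at h1
          have e : y⁻¹ * aev a⁻¹ y = ((aev a⁻¹ y)⁻¹ * y)⁻¹ := by group
          rw [e]
          exact Subgroup.inv_mem _ h1 }
  have hKp : IsPGroup p K := by
    have hRp : IsPGroup p (Q ⊓ T : Subgroup Ω) := hS.to_le (inf_le_left.trans hQS)
    have : Finite (Q ⊓ T : Subgroup Ω) := finite_of_le (inf_le_left.trans hQS)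
    obtain ⟨n, hn⟩ := hRp.exists_card_eq
    rintro ⟨β, b1, b2, b3⟩
    refine ⟨n, Subtype.ext ?_⟩
    show β ^ p ^ n = 1
    have hpow : ∀ (k : ℕ), ∀ y ∈ Q, aev (β ^ k) y = y * (y⁻¹ * aev β y) ^ k := by
      intro k
      induction k with
      | zero => intro y hy; rw [pow_zero, aev_one hy]; simp
      | succ k ih =>
        intro y hy
        have hc := Subgroup.pow_mem _ (b3 y hy) k
        rw [pow_succ', aev_mul _ _ hy, ih y hy, aev_map_mul β hy hc.1, b2 _ hc, pow_succ',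
          ← mul_assoc, ← mul_assoc, mul_inv_cancel, one_mul]
    apply aut_ext
    intro y hy
    rw [hpow _ y hy, aev_one hy]
    have : (y⁻¹ * aev β y) ^ p ^ n = 1 := by
      have h1 := pow_card_eq_one' (G := (Q ⊓ T : Subgroup Ω)) (x := ⟨_, b3 y hy⟩)
      rw [hn] at h1
      exact congrArg Subtype.val h1
    rw [this, mul_one]
  have hinv : ∀ α ∈ F.autGroup Q, ∀ r ∈ Q ⊓ T, aev α r ∈ Q ⊓ T := fun α hα r hr =>
    StronglyClosed.aev_mem hRsc hQS hα hr.1 hr
  refine le_pCore_map (N := K) (fun β hβ => hβ.1) ?_ hKp ?_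
  · rintro α hα β ⟨b1, b2, b3⟩
    have hαi := (F.autGroup Q).inv_mem hα
    refine ⟨Subgroup.mul_mem _ (Subgroup.mul_mem _ hα b1) hαi, fun r hr => ?_, fun y hy => ?_⟩
    · rw [aev_mul _ _ hr.1, aev_mul _ _ (aev_mem_self _ hr.1), b2 _ (hinv _ hαi r hr), aev_apply_inv α hr.1]
    · have hy0 := aev_mem_self α⁻¹ hy
      rw [aev_mul _ _ hy, aev_mul _ _ hy0]
      have e : y⁻¹ * aev α (aev β (aev α⁻¹ y)) = aev α ((aev α⁻¹ y)⁻¹ * aev β (aev α⁻¹ y)) := by
        rw [aev_map_mul α (Q.inv_mem hy0) (aev_mem_self β hy0), aev_map_inv α hy0, aev_apply_inv α hy]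
      rw [e]
      exact hinv α hα _ (b3 _ hy0)
  · refine ⟨autInducedBy_le_autGroup hQS (mem_autInducedBy_iff.2 ⟨x, hxS, hγ⟩), fun r hr => ?_, fun y hy => ?_⟩
    · rw [hγ r hr.1, ← hxc r hr]
      group
    · rw [hγ y hy]
      refine ⟨Q.mul_mem (Q.inv_mem hy) (conj_mem_of_normalizer (hSNQ hxS) hy), ?_⟩
      have e : y⁻¹ * (x * y * x⁻¹) = (y⁻¹ * x * y⁻¹⁻¹) * x⁻¹ := by group
      rw [e]
      exact T.mul_mem (conj_mem_of_normalizer (hSNT (S.inv_mem (hQS hy))) hxT) (T.inv_mem hxT)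

theorem aux {T : Subgroup Ω} {E : FusionSystem T} {S : Subgroup Ω} {F : FusionSystem S} {p : ℕ}
    (hE : E.IsSubnormalIn F p) : p.Prime → Finite S → IsPGroup p S → F.IsConstrained p → E.IsConstrained p := by
  induction hE with
  | refl F p => exact fun _ _ _ h => h
  | step _ h2 ih =>
    intro hp hfin hS hF
    have := Fact.mk hp
    have hUS := h2.1.2.2.2.1.1
    exact ih hp (finite_of_le hUS) (hS.to_le hUS) (constrained_of_weaklyNormal hS hF h2.1)

/-- Let F be a constrained saturated fusion system over a finite p-group S. Then every subsystem of F that is subnormal in F (reached from F by a finite chain of successive normal subsystems) is constrained. -/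
theorem result {Ω : Type*} [Group Ω] {S : Subgroup Ω} [Finite S] (p : ℕ) [Fact p.Prime] (hS : IsPGroup p S) (F : Cfsg.FusionSystem S) (hF : F.IsConstrained p) {T : Subgroup Ω} (E : Cfsg.FusionSystem T) (hE : E.IsSubnormalIn F p) : E.IsConstrained p :=
  aux hE Fact.out inferInstance hS hF

end Cfsg.Agent.S5342
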