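import Cfsg.Statements.S5521
import Cfsg.Agent.Lib.Helper28.GolayDodecad2
import Cfsg.Agent.Lib.Helper10.M24Six

set_option autoImplicit false
open Cfsg

namespace Cfsg.Agent.S5521

open Cfsg.Agent.Lib.Helper28 Cfsg.Agent.Lib.Helper10 in
theorem exists_list6 {B : Finset GolayPt} (h : B.card = 6) :
    ∃ a b c d e f, B.toList = [a, b, c, d, e, f] := by
  have := Finset.length_toList B
  rw [h] at this
  match B.toList, this with
  | [a, b, c, d, e, f], _ => exact ⟨a, b, c, d, e, f, rfl⟩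

def tblU5 : List ℕ := [0, 1, 2, 3, 6, 5, 4, 22, 20, 12, 11, 10, 9, 19, 14, 18, 21, 17, 15, 13, 8, 16, 7, 23]
def tblU4 : List ℕ := [0, 1, 2, 3, 4, 14, 15, 10, 21, 8, 12, 19, 7, 22, 17, 18, 13, 5, 6, 20, 11, 9, 16, 23]

open Cfsg.Agent.Lib.Helper28 Cfsg.Agent.Lib.Helper10 in
theorem tbl_fix {T : List ℕ} (hT : inM24 T = true) (F : List ℕ) (hF : F.all (fun f => f < 24 && T.getD f 0 == f) = true)
    (k : ℕ) (hk : (k < 24 && T.getD k 0 != k) = true) :
    permOf T ∈ M24 ∧ permOf T ≠ 1 ∧ ∀ f ∈ F, permOf T (pt f) = pt f := by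
  have hv : validTbl T = true := by
    simp only [inM24, Bool.and_eq_true] at hT
    exact hT.1
  simp only [List.all_eq_true, Bool.and_eq_true, decide_eq_true_eq, beq_iff_eq, bne_iff_ne] at hF hk
  refine ⟨permOf_mem_M24 hT, ?_, ?_⟩
  · intro h
    have h1 := idx_permOf hv (pt k)
    rw [h, idx_pt k hk.1] at h1
    simp only [Equiv.Perm.coe_one, id_eq] at h1
    rw [idx_pt k hk.1] at h1
    exact hk.2 h1.symm
  · intro f hf
    rw [permOf_apply hv, idx_pt f (hF f hf).1, (hF f hf).2]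



/-- The Mathieu group M₂₄ in its natural action on the 24 coordinate positions of the binary Golay code has minimal base size exactly 7: every set of at most 6 positions is fixed pointwise by some non-identity element of M₂₄, while some set of 7 positions is fixed pointwise only by the identity. -/
theorem result :
    (∀ B : Finset Cfsg.GolayPt, B.card ≤ 6 → ∃ g ∈ Cfsg.M24, g ≠ 1 ∧ ∀ b ∈ B, g b = b) ∧
    (∃ B : Finset Cfsg.GolayPt, B.card = 7 ∧ ∀ g ∈ Cfsg.M24, (∀ b ∈ B, g b = b) → g = 1) := by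
  open Cfsg.Agent.Lib.Helper28 Cfsg.Agent.Lib.Helper10 in
  constructor
  · intro B hB
    obtain ⟨B', hBB', hB'⟩ := Finset.exists_superset_card_eq hB (show 6 ≤ Fintype.card GolayPt by decide)
    obtain ⟨a, b, c, d, e, f, hl⟩ := exists_list6 hB'
    have hnd : [a, b, c, d, e, f].Nodup := hl ▸ Finset.nodup_toList B'
    have hmem : ∀ x ∈ B, x ∈ [a, b, c, d, e, f] := fun x hx => hl ▸ Finset.mem_toList.2 (hBB' hx)
    obtain ⟨g, hg, ga, gb, gc, gd, ge, gf⟩ := six_normal hnd
    have key : ∀ (u : Equiv.Perm GolayPt) (z : ℕ), u ∈ M24 → u ≠ 1 → (∀ f ∈ [23, 0, 1, 2, 3, z], u (pt f) = pt f) →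
        g f = pt z → ∃ g ∈ Cfsg.M24, g ≠ 1 ∧ ∀ b ∈ B, g b = b := by
      intro u z hu hu1 hfix hgf
      refine ⟨g⁻¹ * u * g, M24.mul_mem (M24.mul_mem (M24.inv_mem hg) hu) hg, ?_, ?_⟩
      · intro h
        apply hu1
        have : u = g * (g⁻¹ * u * g) * g⁻¹ := by group
        rw [this, h]; group
      · intro x hx
        have hx' := hmem x hx
        show g⁻¹ (u (g x)) = x
        rw [Equiv.Perm.inv_eq_iff_eq]
        simp only [List.mem_cons, List.not_mem_nil, or_false] at hx'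
        rcases hx' with rfl | rfl | rfl | rfl | rfl | rfl
        · rw [ga]; exact hfix 23 (by simp)
        · rw [gb]; exact hfix 0 (by simp)
        · rw [gc]; exact hfix 1 (by simp)
        · rw [gd]; exact hfix 2 (by simp)
        · rw [ge]; exact hfix 3 (by simp)
        · rw [hgf]; exact hfix z (by simp)
    rcases gf with ⟨gf, -⟩ | ⟨gf, -⟩
    · obtain ⟨h1, h2, h3⟩ := tbl_fix (T := tblU5) (by decide +kernel) [23, 0, 1, 2, 3, 5] (by decide +kernel) 4
        (by decide +kernel)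
      exact key _ 5 h1 h2 h3 gf
    · obtain ⟨h1, h2, h3⟩ := tbl_fix (T := tblU4) (by decide +kernel) [23, 0, 1, 2, 3, 4] (by decide +kernel) 5
        (by decide +kernel)
      exact key _ 4 h1 h2 h3 gf
  · refine ⟨{pt 23, pt 0, pt 1, pt 2, pt 3, pt 5, pt 4}, by decide +kernel, ?_⟩
    intro g hg h
    apply eq_one_of_fixes_base hg
    intro f hf
    apply h
    revert f
    decide +kernel

end Cfsg.Agent.S5521
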