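import Cfsg.Statements.S5561
import Cfsg.Agent.Lib.Helper17.ZCor

set_option autoImplicit false
open Cfsg

namespace Cfsg.Agent.S5561

open Cfsg.Agent.Lib.Helper17 in

/-- The case p = 3 of the Z*-type result for involution classes. Let G be a finite group and d an involution of G such that the product of any two conjugates of d has order a power of 3. Then the product of any two conjugates of d lies in O₃(G); so the conjugacy class of d lies in the coset O₃(G)d. -/
theorem result {G : Type*} [Group G] [Finite G] (d : G) (hd : orderOf d = 2)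
    (hprod : ∀ a ∈ conjugatesOf d, ∀ b ∈ conjugatesOf d, ∃ k : ℕ, orderOf (a * b) = 3 ^ k) :
    ∀ a ∈ conjugatesOf d, ∀ b ∈ conjugatesOf d, a * b ∈ Cfsg.pCore 3 G := by
  haveI : Fact (Nat.Prime 3) := ⟨Nat.prime_three⟩
  have hdi := zc_inv_eq hd
  have hd2 : d * d = 1 := by
    have h : d ^ 2 = 1 := by rw [← hd]; exact pow_orderOf_eq_one d
    rw [← sq, h]
  have hdd : d ∈ conjugatesOf d := mem_conjugatesOf_self
  have hconj : ∀ g : G, g * d * g⁻¹ ∈ conjugatesOf d := fun g =>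
    (show IsConj d (g * d * g⁻¹) from isConj_iff.mpr ⟨g, rfl⟩)
  have hiso : Cfsg.IsIsolatedInvolution d := by
    refine ⟨hd, fun g hc => ?_⟩
    obtain ⟨k, hk⟩ := hprod d hdd _ (hconj g)
    have hb2 : (g * d * g⁻¹) * (g * d * g⁻¹) = 1 := by
      calc g * d * g⁻¹ * (g * d * g⁻¹) = g * (d * d) * g⁻¹ := by group
        _ = 1 := by rw [hd2]; group
    have h2 : (d * (g * d * g⁻¹)) ^ 2 = 1 := by
      rw [hc.mul_pow, sq, sq, hd2, hb2, one_mul]
    have h3 : orderOf (d * (g * d * g⁻¹)) ∣ 2 := orderOf_dvd_of_pow_eq_one h2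
    have h4 : orderOf (d * (g * d * g⁻¹)) = 1 := by
      have hc' : (3 ^ k).Coprime 2 := Nat.Coprime.pow_left _ (by norm_num)
      rw [← hk] at hc'
      exact Nat.eq_one_of_dvd_coprimes hc' dvd_rfl h3
    rw [orderOf_eq_one_iff] at h4
    have := eq_inv_of_mul_eq_one_right h4
    rw [this, hdi]
  have hOn : (Cfsg.oddCore G).Normal := Cfsg.pPrimeCore_normal 2 G
  have hdK : d ∈ Subgroup.normalizer ((Cfsg.oddCore G : Subgroup G) : Set G) := by
    rw [Subgroup.normalizer_eq_top]; trivial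
  obtain ⟨P, -, hPp, hP⟩ := zc_commutators_in_pgroup hd (Cfsg.oddCore G) hdK
    Cfsg.Agent.Lib.Helper2.odd_card_oddCore 3 (by
      intro y _
      have := hprod _ (hconj y⁻¹) d hdd
      rw [inv_inv] at this
      rw [hdi]; exact this)
  have hab : ∀ a ∈ conjugatesOf d, ∀ b ∈ conjugatesOf d, a * b ∈ P := by
    intro a ha b hb
    obtain ⟨g, rfl⟩ := isConj_iff.mp (show IsConj d a from ha)
    obtain ⟨h, rfl⟩ := isConj_iff.mp (show IsConj d b from hb)
    obtain ⟨v, hv, hv'⟩ := zc_conj_by_oddCore hiso g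
    obtain ⟨u, hu, hu'⟩ := zc_conj_by_oddCore hiso h
    rw [hv', hu']
    have h1 := hP v⁻¹ (Subgroup.inv_mem _ hv)
    have h2 := Subgroup.inv_mem _ (hP u⁻¹ (Subgroup.inv_mem _ hu))
    have h3 := Subgroup.mul_mem _ h1 h2
    have e : v⁻¹⁻¹ * d * v⁻¹ * d⁻¹ * (u⁻¹⁻¹ * d * u⁻¹ * d⁻¹)⁻¹ = v * d * v⁻¹ * (d⁻¹ * d) * (u * d⁻¹ * u⁻¹) := by
      group
    rw [e, hdi, hd2, mul_one] at h3
    exact h3
  obtain ⟨S, hS⟩ : ∃ S : Set G, S = {x | ∃ a ∈ conjugatesOf d, ∃ b ∈ conjugatesOf d, x = a * b} := ⟨_, rfl⟩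
  have hNP : Subgroup.normalClosure S ≤ P := by
    rw [Subgroup.normalClosure, Subgroup.closure_le]
    intro x hx
    obtain ⟨y, hy, hyx⟩ := Group.mem_conjugatesOfSet_iff.mp hx
    rw [hS] at hy
    obtain ⟨a, ha, b, hb, rfl⟩ := hy
    obtain ⟨c, rfl⟩ := isConj_iff.mp hyx
    obtain ⟨g, rfl⟩ := isConj_iff.mp (show IsConj d a from ha)
    obtain ⟨h, rfl⟩ := isConj_iff.mp (show IsConj d b from hb)
    have := hab _ (hconj (c * g)) _ (hconj (c * h))
    have e : c * g * d * (c * g)⁻¹ * (c * h * d * (c * h)⁻¹) = c * (g * d * g⁻¹ * (h * d * h⁻¹)) * c⁻¹ := by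
      group
    rw [e] at this
    exact this
  have hN : Subgroup.normalClosure S ≤ Cfsg.pCore 3 G :=
    le_pCore Subgroup.normalClosure_normal (hPp.to_le hNP)
  intro a ha b hb
  apply hN
  apply Subgroup.subset_normalClosure
  rw [hS]
  exact ⟨a, ha, b, hb, rfl⟩

end Cfsg.Agent.S5561
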