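import Mathlib
import Cfsg.Statements.S5562

set_option autoImplicit false
open Cfsg

namespace Cfsg.Agent.S5562

theorem sqrt_unique {G : Type*} [Group G] {u v : G} {j : ℕ} (hu : u ^ (2 * j + 1) = 1)
    (hv : v ^ (2 * j + 1) = 1) (h : u * u = v * v) : u = v := by
  have key : ∀ w : G, w ^ (2 * j + 1) = 1 → w = (w * w) ^ (j + 1) := by
    intro w hw
    rw [← sq, ← pow_mul]
    have : 2 * (j + 1) = (2 * j + 1) + 1 := by ring
    rw [this, pow_succ, hw, one_mul]
  rw [key u hu, key v hv, h]

/-- Let G be a finite group, d an involution of G whose conjugates pairwise have products of odd order, and x any involution of G. Then the conjugacy class of d is the disjoint union, over the conjugates a of d commuting with x, of the sets of conjugates of d commuting with ax: every conjugate of d commutes with ax for exactly one conjugate a of d that commutes with x. -/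
theorem result {G : Type*} [Group G] [Finite G] (d : G) (hd : orderOf d = 2)
    (hodd : ∀ a ∈ conjugatesOf d, ∀ b ∈ conjugatesOf d, Odd (orderOf (a * b)))
    (x : G) (hx : orderOf x = 2) :
    ∀ e ∈ conjugatesOf d,
      ∃! a : G, a ∈ conjugatesOf d ∧ Commute a x ∧ Commute e (a * x) := by
  intro e he
  have hdd : d * d = 1 := by rw [← sq, ← hd]; exact pow_orderOf_eq_one d
  have hxx : x * x = 1 := by rw [← sq, ← hx]; exact pow_orderOf_eq_one x
  have hxi : x⁻¹ = x := inv_eq_of_mul_eq_one_left hxx
  have hinv : ∀ a ∈ conjugatesOf d, a * a = 1 := by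
    intro a ha
    have ha' : IsConj d a := ha
    rw [isConj_iff] at ha'
    obtain ⟨c, rfl⟩ := ha'
    calc c * d * c⁻¹ * (c * d * c⁻¹) = c * (d * d) * c⁻¹ := by group
      _ = 1 := by rw [hdd]; group
  have hconj : ∀ a ∈ conjugatesOf d, ∀ c : G, c * a * c⁻¹ ∈ conjugatesOf d := by
    intro a ha c
    have ha' : IsConj d a := ha
    exact (ha'.trans (isConj_iff.2 ⟨c, rfl⟩) : IsConj d (c * a * c⁻¹))
  have hee : e * e = 1 := hinv e he
  have hei : e⁻¹ = e := inv_eq_of_mul_eq_one_left hee
  set f : G := x * e * x with hf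
  have hfm : f ∈ conjugatesOf d := by
    have := hconj e he x
    rwa [hxi] at this
  have hff : f * f = 1 := hinv f hfm
  set s : G := e * f with hs
  obtain ⟨j, hj⟩ := hodd e he f hfm
  have hsn : s ^ (2 * j + 1) = 1 := by rw [← hj]; exact pow_orderOf_eq_one _
  have hsi : s⁻¹ = f * e := by
    apply inv_eq_of_mul_eq_one_left
    calc f * e * (e * f) = f * (e * e) * f := by group
      _ = 1 := by rw [hee, mul_one, hff]
  have hes : e * s * e⁻¹ = s⁻¹ := by
    rw [hsi, hei, hs]
    calc e * (e * f) * e = (e * e) * f * e := by group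
      _ = f * e := by rw [hee, one_mul]
  have hxs : x * s * x⁻¹ = s⁻¹ := by
    rw [hsi, hxi, hs, hf]
    calc x * (e * (x * e * x)) * x = x * e * x * e * (x * x) := by group
      _ = x * e * x * e := by rw [hxx, mul_one]
  set r : G := s ^ (j + 1) with hr
  have hrr : r * r = s := by
    rw [hr, ← pow_add]
    have : j + 1 + (j + 1) = (2 * j + 1) + 1 := by ring
    rw [this, pow_succ, hsn, one_mul]
  have hrn : r ^ (2 * j + 1) = 1 := by
    rw [hr, ← pow_mul, mul_comm, pow_mul, hsn, one_pow]
  have her : e * r * e⁻¹ = r⁻¹ := by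
    rw [hr, ← conj_pow, hes, inv_pow]
  have hxr : x * r * x⁻¹ = r⁻¹ := by
    rw [hr, ← conj_pow, hxs, inv_pow]
  set q : G := r ^ (j + 1) with hq
  have hqq : q * q = r := by
    rw [hq, ← pow_add]
    have : j + 1 + (j + 1) = (2 * j + 1) + 1 := by ring
    rw [this, pow_succ, hrn, one_mul]
  have heq : e * q * e⁻¹ = q⁻¹ := by
    rw [hq, ← conj_pow, her, inv_pow]
  have hfes : f = e * s := by
    rw [hs, ← mul_assoc, hee, one_mul]
  refine ⟨e * r, ⟨?_, ?_, ?_⟩, ?_⟩
  · have h1 : e * r = q⁻¹ * e * q⁻¹⁻¹ := by
      rw [inv_inv, ← heq, hei]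
      calc e * r = e * (q * q) := by rw [hqq]
        _ = e * q * (e * e) * q := by rw [hee]; group
        _ = e * q * e * e * q := by group
    rw [h1]
    exact hconj e he _
  · have h1 : x * (e * r) * x = e * r := by
      calc x * (e * r) * x = (x * e * x) * (x * r * x⁻¹) := by
            rw [hxi]
            calc x * (e * r) * x = x * e * 1 * r * x := by group
              _ = x * e * (x * x) * r * x := by rw [hxx]
              _ = _ := by group
        _ = f * r⁻¹ := by rw [hxr]
        _ = e * (r * r) * r⁻¹ := by rw [hfes, hrr]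
        _ = e * r := by group
    change e * r * x = x * (e * r)
    calc e * r * x = x * (e * r) * x * x := by rw [h1]
      _ = x * (e * r) * (x * x) := by group
      _ = x * (e * r) := by rw [hxx, mul_one]
  · change e * (e * r * x) = e * r * x * e
    have h1 : e * r * x * e = r * x := by
      calc e * r * x * e = e * r * (x * e * x) * x⁻¹ := by group
        _ = e * r * (e * s) * x := by rw [← hf, hfes, hxi]
        _ = (e * r * e⁻¹) * s * x := by rw [hei]; group
        _ = r⁻¹ * (r * r) * x := by rw [her, hrr]
        _ = r * x := by group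
    rw [h1]
    calc e * (e * r * x) = (e * e) * r * x := by group
      _ = r * x := by rw [hee, one_mul]
  · rintro a' ⟨ha', hax, hea⟩
    have haa : a' * a' = 1 := hinv a' ha'
    obtain ⟨i, hi⟩ := hodd e he a' ha'
    have h1 : a' * e * a' = f := by
      have h2 : e * (a' * x) = a' * x * e := hea
      calc a' * e * a' = a' * (e * (a' * x)) * x⁻¹ := by group
        _ = a' * (a' * x * e) * x⁻¹ := by rw [h2]
        _ = (a' * a') * x * e * x := by rw [hxi]; group
        _ = f := by rw [haa, one_mul]
    have h3 : (e * a') * (e * a') = s := by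
      calc (e * a') * (e * a') = e * (a' * e * a') := by group
        _ = s := by rw [h1]
    have h4 : (e * a') ^ (2 * i + 1) = 1 := by rw [← hi]; exact pow_orderOf_eq_one _
    have h5 : e * a' = s ^ (i + 1) := by
      rw [← h3, ← sq, ← pow_mul]
      have : 2 * (i + 1) = (2 * i + 1) + 1 := by ring
      rw [this, pow_succ, h4, one_mul]
    have h6 : (e * a') ^ (2 * j + 1) = 1 := by
      rw [h5, ← pow_mul, mul_comm, pow_mul, hsn, one_pow]
    have h7 : e * a' = r := sqrt_unique h6 hrn (by rw [h3, hrr])
    rw [← h7, ← mul_assoc, hee, one_mul]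

end Cfsg.Agent.S5562
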