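import Cfsg.Statements.S5595
import Mathlib
import Cfsg.Agent.Lib.Helper10.Singular3

set_option autoImplicit false
open Cfsg

namespace Cfsg.Agent.S5595

open Cfsg.Agent.Lib.Helper27 Cfsg.Agent.Lib.Helper10

/-- Setting: `z` is an involution of the finite group `G`; for each element `x`, `Q x` denotes the largest normal 2-subgroup of the centralizer of `x`; `Q z` is extraspecial and contains its own centralizer in `G` (a large extraspecial 2-subgroup in this sense). Call the conjugates of `z` singular, and say that singular `x` is orthogonal to singular `y` when `x ∈ Q y`. Then orthogonality is symmetric: if a conjugate `x` of `z` lies in `Q z`, then `z` lies in `Q x`. -/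
theorem result {G : Type*} [Group G] [Finite G]
    (Q : G → Subgroup G)
    (hQ : ∀ x : G, Q x = (Cfsg.pCore 2 ↥(Subgroup.centralizer ({x} : Set G))).map (Subgroup.centralizer ({x} : Set G)).subtype)
    (z : G) (hz : orderOf z = 2) (hE : Cfsg.IsExtraspecial 2 ↥(Q z))
    (hC : Subgroup.centralizer ((Q z : Subgroup G) : Set G) ≤ Q z)
    (g : G) (hx : g * z * g⁻¹ ∈ Q z) : z ∈ Q (g * z * g⁻¹) := by
  have : Fact (Nat.Prime 2) := ⟨Nat.prime_two⟩
  have hES := sing_ES Q hQ z hz hE hC
  by_cases hne : g * z * g⁻¹ = z
  · rw [hne]; exact hES.mem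
  by_cases hbig : 8 < Nat.card (Q z)
  · have hP := Pair.of_conj hES g hx hne hbig
    rw [sing_conj Q hQ]; exact hP.zP
  · push Not at hbig
    have hESy := hES.conj g
    have h16 := ES_small hES hx hESy.sq hESy.ne hne hbig
    have hle : Subgroup.centralizer ({z} : Set G) ≤ Q z := by
      rw [hQ z]
      apply Cfsg.Agent.Lib.Helper16.le_pCoreOf le_rfl Subgroup.le_normalizer
      rintro ⟨c, hc⟩
      refine ⟨4, Subtype.ext ?_⟩
      have := h16 c (Subgroup.mem_centralizer_singleton_iff.1 hc)
      simpa using this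
    rw [sing_conj Q hQ, mem_map_conj_iff]
    apply hle
    rw [Subgroup.mem_centralizer_singleton_iff]
    have hc : (g * z * g⁻¹) * z = z * (g * z * g⁻¹) := hES.cen _ hx
    calc g⁻¹ * z * g * z = g⁻¹ * (z * (g * z * g⁻¹)) * g := by group
      _ = g⁻¹ * ((g * z * g⁻¹) * z) * g := by rw [hc]
      _ = z * (g⁻¹ * z * g) := by group

end Cfsg.Agent.S5595
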