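import Cfsg.Statements.S5596
import Mathlib
import Cfsg.Agent.Lib.Helper10.Singular2

set_option autoImplicit false
open Cfsg

namespace Cfsg.Agent.S5596

open Cfsg.Agent.Lib.Helper27 Cfsg.Agent.Lib.Helper10

theorem key {G : Type*} [Group G] [Finite G] (Q : G → Subgroup G) (U LU : Subgroup G)
    (hU2 : ∀ u ∈ U, u * u = 1)
    (hES : ∀ u ∈ U, u ≠ 1 → ES (Q u) u)
    (hUQ : ∀ u ∈ U, u ≠ 1 → U ≤ Q u)
    (hLUge : ∀ u ∈ U, u ≠ 1 → Q u ≤ LU)
    (hN : LU ≤ Subgroup.normalizer (U : Set G)) (n : ℕ) :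
    ∀ φ : G → G, (∀ u ∈ U, φ u ∈ U) → (∀ u ∈ U, ∀ v ∈ U, φ (u * v) = φ u * φ v) →
      (∀ u ∈ U, ∀ v ∈ U, φ u = φ v → u = v) →
      Set.ncard {u | u ∈ U ∧ φ u ≠ u} ≤ n → ∃ g ∈ LU, ∀ u ∈ U, g * u * g⁻¹ = φ u := by
  induction n with
  | zero =>
    intro φ h1 h2 h3 h4
    refine ⟨1, LU.one_mem, fun u hu => ?_⟩
    by_contra hne
    have hpos : 0 < Set.ncard {u | u ∈ U ∧ φ u ≠ u} :=
      (Set.ncard_pos (Set.toFinite _)).2 ⟨u, hu, fun e => hne (by rw [e]; group)⟩
    omega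
  | succ n ih =>
    intro φ h1 h2 h3 h4
    by_cases hex : ∃ v ∈ U, φ v ≠ v
    swap
    · push Not at hex
      exact ⟨1, LU.one_mem, fun u hu => by rw [hex u hu]; group⟩
    obtain ⟨v, hv, hvne⟩ := hex
    classical
    have hcomm : ∀ a ∈ U, ∀ b ∈ U, a * b = b * a := by
      intro a ha b hb
      have h5 := hU2 (a * b) (U.mul_mem ha hb)
      calc a * b = a * (a * b * (a * b)) * b := by rw [h5, mul_one]
        _ = (a * a) * b * a * (b * b) := by group
        _ = b * a := by rw [hU2 a ha, hU2 b hb]; group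
    have hφ1 : φ 1 = 1 := by
      have := h2 1 U.one_mem 1 U.one_mem
      rw [mul_one] at this
      exact mul_eq_left.1 this.symm
    obtain ⟨w, hw⟩ : ∃ w, w = φ v * v := ⟨_, rfl⟩
    have hwU : w ∈ U := hw ▸ U.mul_mem (h1 v hv) hv
    have hw1 : w ≠ 1 := by
      intro e
      apply hvne
      have : φ v = v⁻¹ := eq_inv_of_mul_eq_one_left (hw ▸ e)
      rw [this]; exact inv_eq_of_mul_eq_one_left (hU2 v hv)
    have hes := hES w hwU hw1
    obtain ⟨S, hSmem⟩ : ∃ S : Finset G, ∀ s, s ∈ S ↔ s ∈ U ∧ φ s = s :=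
      ⟨(Set.toFinite {u | u ∈ U ∧ φ u = u}).toFinset, fun s => by simp⟩
    have hvn : v ∉ Subgroup.closure ((S : Set G) ∪ {w}) := by
      intro hvc
      have hP : ∀ x ∈ Subgroup.closure ((S : Set G) ∪ {w}),
          x ∈ U ∧ (φ x * x = 1 ∨ φ x * x = φ w * w) := by
        intro x hx
        induction hx using Subgroup.closure_induction with
        | mem x hx =>
          rcases hx with hx | hx
          · have := (hSmem x).1 hx
            exact ⟨this.1, Or.inl (by rw [this.2]; exact hU2 x this.1)⟩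
          · rw [Set.mem_singleton_iff.1 hx]; exact ⟨hwU, Or.inr rfl⟩
        | one => exact ⟨U.one_mem, Or.inl (by rw [hφ1, one_mul])⟩
        | mul x y _ _ ihx ihy =>
          obtain ⟨hxU, hx⟩ := ihx
          obtain ⟨hyU, hy⟩ := ihy
          refine ⟨U.mul_mem hxU hyU, ?_⟩
          have e : φ (x * y) * (x * y) = (φ x * x) * (φ y * y) := by
            rw [h2 x hxU y hyU]
            calc φ x * φ y * (x * y) = φ x * (φ y * x) * y := by group
              _ = φ x * (x * φ y) * y := by rw [hcomm _ (h1 y hyU) x hxU]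
              _ = _ := by group
          rw [e]
          rcases hx with hx | hx <;> rcases hy with hy | hy <;> rw [hx, hy]
          · left; simp
          · right; simp
          · right; simp
          · left; exact hU2 _ (U.mul_mem (h1 w hwU) hwU)
        | inv x _ ih =>
          have : x⁻¹ = x := inv_eq_of_mul_eq_one_left (hU2 x ih.1)
          rw [this]; exact ih
      rcases (hP v hvc).2 with h | h
      · exact hw1 (hw.trans h)
      · rw [← hw] at h
        have h6 : φ w = 1 := mul_eq_right.1 h.symm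
        exact hw1 (h3 w hwU 1 U.one_mem (h6.trans hφ1.symm))
    obtain ⟨g, hg, hgS, hgv⟩ := ES_exists_perp hes S
      (fun s hs => hUQ w hwU hw1 ((hSmem s).1 hs).1) v (hUQ w hwU hw1 hv) hvn
    have hgv' : g * v * g⁻¹ = φ v := by
      rw [hgv, hw, mul_assoc, hU2 v hv, mul_one]
    have hgL : g ∈ LU := hLUge w hwU hw1 hg
    have hgN : ∀ u ∈ U, g⁻¹ * u * g ∈ U := by
      intro u hu
      have := (Subgroup.mem_normalizer_iff.1 (Subgroup.inv_mem _ (hN hgL)) u).1 hu
      simpa using this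
    have hlt : Set.ncard {u | u ∈ U ∧ g⁻¹ * φ u * g ≠ u} < Set.ncard {u | u ∈ U ∧ φ u ≠ u} := by
      apply Set.ncard_lt_ncard _ (Set.toFinite _)
      rw [Set.ssubset_iff_of_subset]
      · refine ⟨v, ⟨hv, hvne⟩, fun hc => hc.2 ?_⟩
        rw [← hgv']; group
      · rintro u ⟨hu, hne⟩
        refine ⟨hu, fun e => hne ?_⟩
        rw [e, mul_assoc, ← hgS u ((hSmem u).2 ⟨hu, e⟩)]; group
    obtain ⟨g', hg', hg'U⟩ := ih (fun u => g⁻¹ * φ u * g) (fun u hu => hgN _ (h1 u hu))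
      (fun u hu v hv => by
        show g⁻¹ * φ (u * v) * g = g⁻¹ * φ u * g * (g⁻¹ * φ v * g)
        rw [h2 u hu v hv]; group)
      (fun u hu v hv e => h3 u hu v hv (by
        have e' : g⁻¹ * φ u * g = g⁻¹ * φ v * g := e
        calc φ u = g * (g⁻¹ * φ u * g) * g⁻¹ := by group
          _ = g * (g⁻¹ * φ v * g) * g⁻¹ := by rw [e']
          _ = φ v := by group))
      (by
        show Set.ncard {u | u ∈ U ∧ g⁻¹ * φ u * g ≠ u} ≤ n
        omega)
    refine ⟨g * g', LU.mul_mem hgL hg', fun u hu => ?_⟩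
    calc g * g' * u * (g * g')⁻¹ = g * (g' * u * g'⁻¹) * g⁻¹ := by group
      _ = g * (g⁻¹ * φ u * g) * g⁻¹ := by rw [hg'U u hu]
      _ = φ u := by group

/-- Setting: `z` is an involution of the finite group `G`; for each element `x`, `Q x` is the largest normal 2-subgroup of the centralizer of `x`; `Q z` is extraspecial and contains its own centralizer in `G`. A subgroup `U` is singular when it is elementary abelian, every non-identity element of `U` is conjugate to `z`, and any two non-identity elements `u`, `v` of `U` are orthogonal (`v ∈ Q u`). Write `QU` for the intersection of the `Q u` and `LU` for the join of the `Q u` over the non-identity `u` in `U`. If `U` is singular of order `2 ^ n` with `n ≥ 2`, then `U ≤ QU ≤ LU`, `LU` normalizes `U`, and `LU` induces on `U` its full automorphism group (the general linear group of dimension `n` over the field with two elements): every automorphism of `U` is conjugation by some element of `LU`.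 -/
theorem result {G : Type*} [Group G] [Finite G]
    (Q : G → Subgroup G)
    (hQ : ∀ x : G, Q x = (Cfsg.pCore 2 ↥(Subgroup.centralizer ({x} : Set G))).map (Subgroup.centralizer ({x} : Set G)).subtype)
    (z : G) (hz : orderOf z = 2) (hE : Cfsg.IsExtraspecial 2 ↥(Q z))
    (hC : Subgroup.centralizer ((Q z : Subgroup G) : Set G) ≤ Q z)
    (U : Subgroup G) (hU2 : ∀ u ∈ U, u * u = 1)
    (hS : ∀ u ∈ U, u ≠ 1 → ∃ g : G, g * z * g⁻¹ = u)
    (hO : ∀ u ∈ U, ∀ v ∈ U, u ≠ 1 → v ≠ 1 → v ∈ Q u)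
    (QU LU : Subgroup G) (hQU : QU = ⨅ u ∈ ((U : Set G) \ {1}), Q u) (hLU : LU = ⨆ u ∈ ((U : Set G) \ {1}), Q u)
    (n : ℕ) (hn : 2 ≤ n) (hcard : Nat.card ↥U = 2 ^ n) :
    U ≤ QU ∧ QU ≤ LU ∧ LU ≤ Subgroup.normalizer (U : Set G) ∧
      ∀ φ : ↥U ≃* ↥U, ∃ g ∈ LU, ∀ u : ↥U, g * (u : G) * g⁻¹ = ((φ u : ↥U) : G) := by
  have hESu : ∀ u ∈ U, u ≠ 1 → ES (Q u) u := by
    intro u hu hu1
    obtain ⟨g, rfl⟩ := hS u hu hu1
    exact sing_ES_conj Q hQ z hz hE hC g
  have hUQ : ∀ u ∈ U, u ≠ 1 → U ≤ Q u := by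
    intro u hu hu1 v hv
    by_cases hv1 : v = 1
    · rw [hv1]; exact (Q u).one_mem
    · exact hO u hu v hv hu1 hv1
  have hQUle : ∀ u ∈ U, u ≠ 1 → QU ≤ Q u := by
    intro u hu hu1
    rw [hQU]; exact iInf₂_le u ⟨hu, hu1⟩
  have hLUge : ∀ u ∈ U, u ≠ 1 → Q u ≤ LU := by
    intro u hu hu1
    rw [hLU]; exact le_iSup₂ (f := fun u (_ : u ∈ (U : Set G) \ {1}) => Q u) u ⟨hu, hu1⟩
  have hN : LU ≤ Subgroup.normalizer (U : Set G) := by
    rw [hLU]
    refine iSup₂_le fun u hu q hq => ?_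
    have hes := hESu u hu.1 hu.2
    refine mem_normalizer_of_conj_mem_finite fun v hv => ?_
    have e : q * v * q⁻¹ = (q * v * q⁻¹ * v⁻¹) * v := by group
    rw [e]
    refine U.mul_mem ?_ hv
    rcases hes.comm q hq v (hUQ u hu.1 hu.2 hv) with h | h
    · rw [h]; exact U.one_mem
    · rw [h]; exact hu.1
  obtain ⟨u₀, hu₀, hu₀1⟩ : ∃ u₀ ∈ U, u₀ ≠ 1 := by
    by_contra hcon
    push Not at hcon
    have hbot : U = ⊥ := (Subgroup.eq_bot_iff_forall U).2 hcon
    rw [hbot, Subgroup.card_bot] at hcard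
    have : 2 ^ 2 ≤ 2 ^ n := Nat.pow_le_pow_right (by norm_num) hn
    omega
  refine ⟨?_, (hQUle u₀ hu₀ hu₀1).trans (hLUge u₀ hu₀ hu₀1), hN, ?_⟩
  · rw [hQU]
    exact le_iInf₂ fun u hu => hUQ u hu.1 hu.2
  intro φ
  classical
  obtain ⟨g, hg, hgU⟩ := key Q U LU hU2 hESu hUQ hLUge hN _
    (fun x => if h : x ∈ U then ((φ ⟨x, h⟩ : ↥U) : G) else 1)
    (fun u hu => by simp only [dif_pos hu]; exact (φ ⟨u, hu⟩).2)
    (fun u hu v hv => by
      simp only [dif_pos hu, dif_pos hv, dif_pos (U.mul_mem hu hv)]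
      have : (⟨u * v, U.mul_mem hu hv⟩ : ↥U) = ⟨u, hu⟩ * ⟨v, hv⟩ := rfl
      rw [this, map_mul]; rfl)
    (fun u hu v hv e => by
      simp only [dif_pos hu, dif_pos hv] at e
      have := φ.injective (Subtype.ext e)
      exact congrArg Subtype.val this)
    le_rfl
  refine ⟨g, hg, fun u => ?_⟩
  rw [hgU u u.2]
  simp only [dif_pos u.2]

end Cfsg.Agent.S5596
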