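import Cfsg.Statements.S5597
import Mathlib
import Cfsg.Agent.Lib.Helper10.Singular2

set_option autoImplicit false
open Cfsg

namespace Cfsg.Agent.S5597

open Cfsg.Agent.Lib.Helper27 Cfsg.Agent.Lib.Helper10

/-- Setting: `z` is an involution of the finite group `G`; for each element `x`, `Q x` is the largest normal 2-subgroup of the centralizer of `x`; `Q z` is extraspecial and contains its own centralizer in `G`. A subgroup `U` is singular when it is elementary abelian, every non-identity element of `U` is conjugate to `z`, and any two non-identity elements `u`, `v` of `U` are orthogonal (`v ∈ Q u`). Write `QU` for the intersection of the `Q u` and `LU` for the join of the `Q u` over the non-identity `u` in `U`. If `U` is a non-trivial singular subgroup, then `LU` acts trivially on `QU / U` (every commutator of an element of `LU` with an element of `QU` lies in `U`), and for every `x` in `QU` outside `U` the centralizer of `U` in `LU` permutes the coset `x U` transitively: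 each `x u` with `u ∈ U` is a conjugate of `x` by an element of `LU` centralizing `U`. -/
theorem result {G : Type*} [Group G] [Finite G]
    (Q : G → Subgroup G)
    (hQ : ∀ x : G, Q x = (Cfsg.pCore 2 ↥(Subgroup.centralizer ({x} : Set G))).map (Subgroup.centralizer ({x} : Set G)).subtype)
    (z : G) (hz : orderOf z = 2) (hE : Cfsg.IsExtraspecial 2 ↥(Q z))
    (hC : Subgroup.centralizer ((Q z : Subgroup G) : Set G) ≤ Q z)
    (U : Subgroup G) (hU2 : ∀ u ∈ U, u * u = 1)
    (hS : ∀ u ∈ U, u ≠ 1 → ∃ g : G, g * z * g⁻¹ = u)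
    (hO : ∀ u ∈ U, ∀ v ∈ U, u ≠ 1 → v ≠ 1 → v ∈ Q u)
    (QU LU : Subgroup G) (hQU : QU = ⨅ u ∈ ((U : Set G) \ {1}), Q u) (hLU : LU = ⨆ u ∈ ((U : Set G) \ {1}), Q u)
    (hU : U ≠ ⊥) :
    (∀ g ∈ LU, ∀ x ∈ QU, g * x * g⁻¹ * x⁻¹ ∈ U) ∧
      ∀ x ∈ QU, x ∉ U → ∀ u ∈ U, ∃ g ∈ LU ⊓ Subgroup.centralizer (U : Set G), g * x * g⁻¹ = x * u := by
  have hESu : ∀ u ∈ U, u ≠ 1 → ES (Q u) u := by
    intro u hu hu1
    obtain ⟨g, rfl⟩ := hS u hu hu1
    exact sing_ES_conj Q hQ z hz hE hC g
  have hUQ : ∀ u ∈ U, u ≠ 1 → U ≤ Q u := by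
    intro u hu hu1 v hv
    by_cases hv1 : v = 1
    · rw [hv1]; exact (Q u).one_mem
    · exact hO u hu v hv hu1 hv1
  have hQUle : ∀ u ∈ U, u ≠ 1 → QU ≤ Q u := by
    intro u hu hu1
    rw [hQU]; exact iInf₂_le u ⟨hu, hu1⟩
  have hLUge : ∀ u ∈ U, u ≠ 1 → Q u ≤ LU := by
    intro u hu hu1
    rw [hLU]; exact le_iSup₂ (f := fun u (_ : u ∈ (U : Set G) \ {1}) => Q u) u ⟨hu, hu1⟩
  have h1 : LU ≤ relCent U (QU : Set G) := by
    rw [hLU]
    refine iSup₂_le fun u hu q hq => ?_
    have hes := hESu u hu.1 hu.2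
    refine ⟨mem_normalizer_of_conj_mem_finite fun v hv => ?_, fun x hx => ?_⟩
    · have e : q * v * q⁻¹ = (q * v * q⁻¹ * v⁻¹) * v := by group
      rw [e]
      refine U.mul_mem ?_ hv
      rcases hes.comm q hq v (hUQ u hu.1 hu.2 hv) with h | h
      · rw [h]; exact U.one_mem
      · rw [h]; exact hu.1
    · rcases hes.comm q hq x (hQUle u hu.1 hu.2 hx) with h | h
      · rw [h]; exact U.one_mem
      · rw [h]; exact hu.1
  refine ⟨fun g hg x hx => (h1 hg).2 x hx, ?_⟩
  intro x hx hxU u hu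
  by_cases hu1 : u = 1
  · exact ⟨1, Subgroup.one_mem _, by simp [hu1]⟩
  classical
  have hes := hESu u hu hu1
  have hcl : Subgroup.closure ((((Set.toFinite (U : Set G)).toFinset : Finset G) : Set G) ∪ {u}) ≤ U := by
    rw [Subgroup.closure_le]
    rintro y (hy | hy)
    · simpa using hy
    · rw [Set.mem_singleton_iff.1 hy]; exact hu
  obtain ⟨g, hg, hgS, hgx⟩ := ES_exists_perp hes (Set.toFinite (U : Set G)).toFinset
    (fun s hs => hUQ u hu hu1 (by simpa using hs)) x (hQUle u hu hu1 hx) (fun e => hxU (hcl e))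
  refine ⟨g, Subgroup.mem_inf.2 ⟨hLUge u hu hu1 hg, ?_⟩, ?_⟩
  · rw [Subgroup.mem_centralizer_iff]
    intro v hv
    exact (hgS v (by simpa using hv)).symm
  · rw [hgx]; exact (hes.cen x (hQUle u hu hu1 hx)).symm

end Cfsg.Agent.S5597
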