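import Cfsg.Statements.S5598
import Mathlib
import Cfsg.Agent.Lib.Helper10.Singular

set_option autoImplicit false
open Cfsg

namespace Cfsg.Agent.S5598

open Cfsg.Agent.Lib.Helper27 Cfsg.Agent.Lib.Helper10

/-- Setting: `z` is an involution of the finite group `G`; for each element `x`, `Q x` is the largest normal 2-subgroup of the centralizer of `x`; `Q z` is extraspecial and contains its own centralizer in `G`. A subgroup `U` is singular when it is elementary abelian, every non-identity element of `U` is conjugate to `z`, and any two non-identity elements `u`, `v` of `U` are orthogonal (`v ∈ Q u`). Write `QU` for the intersection of the `Q u` and `LU` for the join of the `Q u` over the non-identity `u` in `U`. If the singular subgroup `U` is generated by a set `T` of non-identity elements, then `QU` is already the intersection of the `Q t` over `t ∈ T`. -/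
theorem result {G : Type*} [Group G] [Finite G]
    (Q : G → Subgroup G)
    (hQ : ∀ x : G, Q x = (Cfsg.pCore 2 ↥(Subgroup.centralizer ({x} : Set G))).map (Subgroup.centralizer ({x} : Set G)).subtype)
    (z : G) (hz : orderOf z = 2) (hE : Cfsg.IsExtraspecial 2 ↥(Q z))
    (hC : Subgroup.centralizer ((Q z : Subgroup G) : Set G) ≤ Q z)
    (U : Subgroup G) (hU2 : ∀ u ∈ U, u * u = 1)
    (hS : ∀ u ∈ U, u ≠ 1 → ∃ g : G, g * z * g⁻¹ = u)
    (hO : ∀ u ∈ U, ∀ v ∈ U, u ≠ 1 → v ≠ 1 → v ∈ Q u)
    (QU LU : Subgroup G) (hQU : QU = ⨅ u ∈ ((U : Set G) \ {1}), Q u) (hLU : LU = ⨆ u ∈ ((U : Set G) \ {1}), Q u)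
    (T : Set G) (hT : Subgroup.closure T = U) (hT1 : (1 : G) ∉ T) :
    QU = ⨅ t ∈ T, Q t := by
  have hESu : ∀ u ∈ U, u ≠ 1 → ES (Q u) u := by
    intro u hu hu1
    obtain ⟨g, rfl⟩ := hS u hu hu1
    exact sing_ES_conj Q hQ z hz hE hC g
  rw [hQU]
  apply le_antisymm
  · refine le_iInf₂ fun t ht => iInf₂_le t ⟨hT ▸ Subgroup.subset_closure ht, fun h => hT1 (h ▸ ht)⟩
  · refine le_iInf₂ fun u hu => ?_
    have key : ∀ u ∈ Subgroup.closure T, u = 1 ∨ (⨅ t ∈ T, Q t) ≤ Q u := by
      intro u hu
      induction hu using Subgroup.closure_induction with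
      | mem x hx => right; exact iInf₂_le x hx
      | one => left; rfl
      | mul x y hx hy ihx ihy =>
        rw [hT] at hx hy
        by_cases hx1 : x = 1
        · rw [hx1, one_mul]; exact ihy
        by_cases hy1 : y = 1
        · rw [hy1, mul_one]; exact ihx
        by_cases hxy : x * y = 1
        · left; exact hxy
        right
        have hne : y ≠ x := by
          intro h; apply hxy; rw [h]; exact hU2 x hx
        have h1 := ihx.resolve_left hx1
        have h2 := ihy.resolve_left hy1
        exact (le_inf h1 h2).trans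
          (sing_inf_le Q hQ (hESu x hx hx1) (hO x hx y hy hx1 hy1) (hO y hy x hx hy1 hx1) hy1 hne)
      | inv x hx ih =>
        rw [hT] at hx
        have : x⁻¹ = x := inv_eq_of_mul_eq_one_left (hU2 x hx)
        rw [this]; exact ih
    exact (key u (hT ▸ hu.1)).resolve_left hu.2

end Cfsg.Agent.S5598
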