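import Cfsg.Statements.S5729
-- import your own Cfsg.Agent.* helpers here

set_option autoImplicit false
open Cfsg

namespace Cfsg.Agent.S5729

/-- Let a finite group G act faithfully and transitively on a set with n ≥ 3 points. Then either G is a Frobenius permutation group (Frobenius as a permutation group: transitive, some non-identity element fixes a point, and no non-identity element fixes two points) of order n(n − 1) and exactly |G|/n of its elements are derangements (fix no point), or the number of derangements is greater than |G|/n. -/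
theorem result {G Ω : Type*} [Group G] [Finite G] [MulAction G Ω] [FaithfulSMul G Ω] [Fintype Ω] (htr : MulAction.IsPretransitive G Ω) (hn : 3 ≤ Fintype.card Ω) :
    ((MulAction.IsPretransitive G Ω ∧ (∃ g : G, g ≠ 1 ∧ ∃ ω : Ω, g • ω = ω) ∧ ∀ g : G, g ≠ 1 → Nat.card (MulAction.fixedBy Ω g) ≤ 1) ∧ Nat.card G = Fintype.card Ω * (Fintype.card Ω - 1) ∧ Fintype.card Ω * Nat.card {g : G // ∀ ω : Ω, g • ω ≠ ω} = Nat.card G) ∨
    Nat.card G < Fintype.card Ω * Nat.card {g : G // ∀ ω : Ω, g • ω ≠ ω} := by
  classical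
  have : Fintype G := Fintype.ofFinite G
  obtain ⟨n, hn_def⟩ : ∃ n, n = Fintype.card Ω := ⟨_, rfl⟩
  obtain ⟨N, hN_def⟩ : ∃ N, N = Fintype.card G := ⟨_, rfl⟩
  rw [Nat.card_eq_fintype_card (α := G), ← hn_def, ← hN_def]
  rw [← hn_def] at hn
  let f : G → ℕ := fun g => Fintype.card (MulAction.fixedBy Ω g)
  have hf_le : ∀ g, f g ≤ n := fun g => hn_def ▸ Fintype.card_subtype_le _
  have hf_zero : ∀ g, f g = 0 ↔ ∀ ω : Ω, g • ω ≠ ω := by
    intro g
    rw [Fintype.card_eq_zero_iff]
    constructor
    · intro h ω hω; exact h.elim ⟨ω, hω⟩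
    · intro h; exact ⟨fun x => h x.1 x.2⟩
  have hf_n : ∀ g, f g = n → g = 1 := by
    intro g hg
    have h1 : (MulAction.fixedBy Ω g).toFinset = Finset.univ :=
      Finset.eq_univ_of_card _ (by rw [Set.toFinset_card]; exact hg.trans hn_def)
    have h2 := Set.toFinset_eq_univ.mp h1
    apply FaithfulSMul.eq_of_smul_eq_smul (α := Ω)
    intro ω
    rw [one_smul]
    have : ω ∈ MulAction.fixedBy Ω g := h2 ▸ Set.mem_univ ω
    exact this
  have hf_one : f 1 = n := by
    have : MulAction.fixedBy Ω (1 : G) = Set.univ := by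
      ext ω; simp
    show Fintype.card (MulAction.fixedBy Ω (1 : G)) = n
    rw [hn_def, ← Set.toFinset_card, Set.toFinset_eq_univ.mpr this, Finset.card_univ]
  have hne : Nonempty Ω := Fintype.card_pos_iff.mp (by omega)
  have hS1 : ∑ g : G, f g = N := by
    have h := MulAction.sum_card_fixedBy_eq_card_orbits_mul_card_group G Ω
    have h1 : Fintype.card (Quotient (MulAction.orbitRel G Ω)) = 1 := by
      have : Subsingleton (Quotient (MulAction.orbitRel G Ω)) :=
        (MulAction.pretransitive_iff_subsingleton_quotient G Ω).mp htr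
      have : Nonempty (Quotient (MulAction.orbitRel G Ω)) := hne.map (Quotient.mk _)
      exact le_antisymm (Fintype.card_le_one_iff_subsingleton.mpr inferInstance) Fintype.card_pos
    rw [h1, one_mul] at h
    rw [hN_def, ← h]
  have hS2 : 2 * N ≤ ∑ g : G, f g ^ 2 := by
    have h := MulAction.sum_card_fixedBy_eq_card_orbits_mul_card_group G (Ω × Ω)
    have hfix : ∀ g : G, Fintype.card (MulAction.fixedBy (Ω × Ω) g) = f g ^ 2 := by
      intro g
      rw [sq, ← Fintype.card_prod]
      apply Fintype.card_congr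
      exact
        { toFun := fun x => (⟨x.1.1, congrArg Prod.fst x.2⟩, ⟨x.1.2, congrArg Prod.snd x.2⟩)
          invFun := fun y => ⟨(y.1.1, y.2.1), Prod.ext y.1.2 y.2.2⟩
          left_inv := fun x => rfl
          right_inv := fun y => rfl }
    have h2 : 2 ≤ Fintype.card (Quotient (MulAction.orbitRel G (Ω × Ω))) := by
      obtain ⟨a, b, hab⟩ := Fintype.exists_pair_of_one_lt_card (by omega : 1 < Fintype.card Ω)
      refine Fintype.one_lt_card_iff.mpr ⟨Quotient.mk _ (a, a), Quotient.mk _ (a, b), ?_⟩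
      intro h
      obtain ⟨g, hg⟩ := Quotient.exact h
      have h1 : g • a = a := congrArg Prod.fst hg
      have h2 : g • b = a := congrArg Prod.snd hg
      exact hab (MulAction.injective g (h1.trans h2.symm))
    simp only [hfix] at h
    rw [h, hN_def]
    exact Nat.mul_le_mul_right _ h2
  let d : G → ℤ := fun g => if f g = 0 then 1 else 0
  have hD : (Nat.card {g : G // ∀ ω : Ω, g • ω ≠ ω} : ℤ) = ∑ g, d g := by
    rw [Nat.card_eq_fintype_card, Fintype.card_subtype]
    simp only [d, Finset.sum_boole, hf_zero]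
  obtain ⟨D, hD_def⟩ : ∃ D, D = Nat.card {g : G // ∀ ω : Ω, g • ω ≠ ω} := ⟨_, rfl⟩
  rw [← hD_def] at hD ⊢
  have hterm : ∀ g, ((f g : ℤ) - 1) * ((f g : ℤ) - n) ≤ n * d g := by
    intro g
    by_cases h0 : f g = 0
    · simp [d, h0]
    · have h1 : (1 : ℤ) ≤ f g := by exact_mod_cast Nat.one_le_iff_ne_zero.mpr h0
      have h2 : (f g : ℤ) ≤ n := by exact_mod_cast hf_le g
      simp only [d, h0, if_false, mul_zero]
      exact mul_nonpos_of_nonneg_of_nonpos (by linarith) (by linarith)
  have hsum : ∑ g : G, ((f g : ℤ) - 1) * ((f g : ℤ) - n)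
      = (∑ g : G, (f g : ℤ) ^ 2) - (n + 1) * (∑ g : G, (f g : ℤ)) + n * N := by
    have : ∀ g : G, ((f g : ℤ) - 1) * ((f g : ℤ) - n) = (f g : ℤ) ^ 2 - (n + 1) * (f g : ℤ) + n := by
      intro g; ring
    simp only [this]
    rw [Finset.sum_add_distrib, Finset.sum_sub_distrib, ← Finset.mul_sum, Finset.sum_const,
      Finset.card_univ, ← hN_def]
    simp [mul_comm]
  have hS1' : ∑ g : G, (f g : ℤ) = N := by exact_mod_cast hS1
  have hS2' : 2 * (N : ℤ) ≤ ∑ g : G, (f g : ℤ) ^ 2 := by exact_mod_cast hS2
  have hle : ∑ g : G, ((f g : ℤ) - 1) * ((f g : ℤ) - n) ≤ ∑ g : G, (n : ℤ) * d g :=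
    Finset.sum_le_sum fun g _ => hterm g
  have hnD : ∑ g : G, (n : ℤ) * d g = n * D := by rw [← Finset.mul_sum, hD]
  have hmain : (N : ℤ) ≤ n * D := by
    rw [← hnD]; refine le_trans ?_ hle; rw [hsum, hS1']; nlinarith
  rcases lt_or_eq_of_le hmain with hlt | heq
  · right; exact_mod_cast hlt
  left
  have heq_sum : ∑ g : G, ((f g : ℤ) - 1) * ((f g : ℤ) - n) = ∑ g : G, (n : ℤ) * d g := by
    apply le_antisymm hle
    rw [hnD, ← heq, hsum, hS1']; nlinarith
  have hall := (Finset.sum_eq_sum_iff_of_le fun g _ => hterm g).mp heq_sum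
  have hfix1 : ∀ g : G, g ≠ 1 → f g ≤ 1 := by
    intro g hg
    by_contra hcon
    have h0 : f g ≠ 0 := by omega
    have := hall g (Finset.mem_univ g)
    simp only [d, h0, if_false, mul_zero] at this
    rcases mul_eq_zero.mp this with h | h
    · have : (f g : ℤ) = 1 := by linarith
      have : f g = 1 := by exact_mod_cast this
      omega
    · have : (f g : ℤ) = n := by linarith
      exact hg (hf_n g (by exact_mod_cast this))
  have hDn : (D : ℤ) = n - 1 := by
    have hpt : ∀ g : G, (f g : ℤ) = (if g = 1 then ((n : ℤ) - 1) else 0) + 1 - d g := by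
      intro g
      by_cases hg : g = 1
      · subst hg
        have hn0 : n ≠ 0 := by omega
        simp [d, hf_one, hn0]
      · have h1 := hfix1 g hg
        by_cases h0 : f g = 0
        · simp [d, h0, hg]
        · have : f g = 1 := by omega
          simp [d, this, hg]
    have h := hS1'
    simp only [hpt] at h
    rw [Finset.sum_sub_distrib, Finset.sum_add_distrib, Finset.sum_ite_eq' Finset.univ (1 : G), ← hD] at h
    simp [← hN_def] at h
    linarith
  have hDn' : D = n - 1 := by omega
  have hNn : N = n * (n - 1) := by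
    have : (N : ℤ) = n * D := heq
    rw [← hDn']; exact_mod_cast this
  refine ⟨⟨htr, ?_, ?_⟩, hNn, ?_⟩
  · by_contra hcon
    push Not at hcon
    have hd : ∀ g : G, d g = 1 - (if g = 1 then 1 else 0) := by
      intro g
      by_cases hg : g = 1
      · subst hg
        have hn0 : n ≠ 0 := by omega
        simp [d, hf_one, hn0]
      · have : f g = 0 := (hf_zero g).mpr (hcon g hg)
        simp [d, this, hg]
    simp only [hd] at hD
    rw [Finset.sum_sub_distrib, Finset.sum_ite_eq' Finset.univ (1 : G)] at hD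
    simp [← hN_def] at hD
    have h3 : (3 : ℤ) ≤ n := by exact_mod_cast hn
    rw [heq, hDn] at hD
    nlinarith
  · intro g hg
    rw [Nat.card_eq_fintype_card]
    exact hfix1 g hg
  · rw [hNn, hDn']

end Cfsg.Agent.S5729
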