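import Cfsg.Statements.S5738
import Cfsg.Agent.Lib.Helper14.Singer

set_option autoImplicit false
open Cfsg

namespace Cfsg.Agent.S5738

/-- Let F ⊆ K be finite fields with |F| = q and [K : F] = n ≥ 2, so |K| = q^n. Regard K as an n-dimensional F-vector space; the multiplications by non-zero elements of K form a cyclic subgroup of GL_F(K) of order q^n − 1 acting regularly on the non-zero vectors (a Singer group). Its normaliser in GL_F(K) has order n·(q^n − 1). -/
theorem result {F K : Type*} [Field F] [Fintype F] [Field K] [Fintype K] [Algebra F K] (n : ℕ) (hn : 2 ≤ n) (hdim : Module.finrank F K = n) :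
    Nat.card (Subgroup.normalizer (((Units.map ((Algebra.lmul F K : K →ₐ[F] Module.End F K) : K →* Module.End F K)).range : Subgroup (Module.End F K)ˣ) : Set (Module.End F K)ˣ)) = n * (Fintype.card K - 1) := by
  classical
  have hfd : FiniteDimensional F K := inferInstance
  have hfinE : Finite (Module.End F K) := Finite.of_injective (fun f => (f : K → K)) DFunLike.coe_injective
  obtain ⟨M, hM⟩ : ∃ M : Subgroup (Module.End F K)ˣ, M = Cfsg.Agent.Lib.Helper14.Singer.singer F K := ⟨_, rfl⟩
  show Nat.card (Subgroup.normalizer ((Cfsg.Agent.Lib.Helper14.Singer.singer F K : Subgroup (Module.End F K)ˣ) :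
    Set (Module.End F K)ˣ)) = _
  rw [← hM]
  have hmem : ∀ {u : (Module.End F K)ˣ}, u ∈ M ↔ ∃ x : K, x ≠ 0 ∧ (u : Module.End F K) = Algebra.lmul F K x := by
    intro u; rw [hM]; exact Cfsg.Agent.Lib.Helper14.Singer.mem_singer
  have hnorm : ∀ g : (Module.End F K)ˣ, (∀ h ∈ M, g * h * g⁻¹ ∈ M) → g ∈ Subgroup.normalizer (M : Set (Module.End F K)ˣ) := by
    intro g hg
    rw [Subgroup.mem_normalizer_iff_map_conj_eq]
    apply Subgroup.eq_of_le_of_card_ge
    · rintro _ ⟨h, hh, rfl⟩
      exact hg h hh
    · exact (Subgroup.card_map_of_injective (MulAut.conj g).injective).ge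
  let S : (K ≃ₐ[F] K) → (Module.End F K)ˣ := fun σ => LinearMap.GeneralLinearGroup.ofLinearEquiv σ.toLinearEquiv
  let Lu : Kˣ →* (Module.End F K)ˣ := Units.map ((Algebra.lmul F K : K →ₐ[F] Module.End F K) : K →* Module.End F K)
  have hS : ∀ σ, S σ ∈ Subgroup.normalizer (M : Set (Module.End F K)ˣ) := by
    intro σ
    apply hnorm
    intro h hh
    obtain ⟨x, hx, hx'⟩ := hmem.mp hh
    refine hmem.mpr ⟨σ x, by simpa using hx, ?_⟩
    rw [Units.val_mul, Units.val_mul, hx']
    ext v
    show σ (x * σ.symm v) = σ x * v
    simp
  have hLu : ∀ a, Lu a ∈ Subgroup.normalizer (M : Set (Module.End F K)ˣ) := by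
    intro a
    apply Subgroup.le_normalizer
    rw [hM]; exact ⟨a, rfl⟩
  have e : Kˣ × (K ≃ₐ[F] K) ≃ Subgroup.normalizer (M : Set (Module.End F K)ˣ) := by
    refine Equiv.ofBijective (fun p => ⟨Lu p.1 * S p.2, mul_mem (hLu _) (hS _)⟩) ⟨?_, ?_⟩
    · rintro ⟨a, σ⟩ ⟨b, τ⟩ h
      have h1 : ∀ v : K, (a : K) * σ v = (b : K) * τ v := by
        intro v
        have := congrArg (fun u : (Module.End F K)ˣ => (u : Module.End F K) v) (congrArg Subtype.val h)
        exact this
      have hab : a = b := by
        apply Units.ext
        simpa using h1 1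
      subst hab
      have : σ = τ := by
        ext v
        exact mul_left_cancel₀ a.ne_zero (h1 v)
      rw [this]
    · rintro ⟨g, hg⟩
      have hex : ∀ x : K, ∃ y : K, (g : Module.End F K) * Algebra.lmul F K x * ((g⁻¹ : (Module.End F K)ˣ) : Module.End F K)
          = Algebra.lmul F K y := by
        intro x
        by_cases hx : x = 0
        · exact ⟨0, by simp [hx]⟩
        · have h1 : Lu (Units.mk0 x hx) ∈ M := by rw [hM]; exact ⟨_, rfl⟩
          have h2 := (Subgroup.mem_set_normalizer_iff.mp hg _).mp h1
          obtain ⟨y, -, hy⟩ := hmem.mp h2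
          exact ⟨y, hy⟩
      choose τ hτ using hex
      have hinj := Cfsg.Agent.Lib.Helper14.Singer.lmul_injective (F := F) (K := K)
      let τh : K →ₐ[F] K :=
        { toFun := τ
          map_one' := by
            apply hinj; rw [← hτ, map_one, mul_one, Units.mul_inv]
          map_mul' := by
            intro x y
            apply hinj
            rw [← hτ, map_mul, map_mul, ← hτ, ← hτ]
            simp only [mul_assoc]
            rw [← mul_assoc (((g⁻¹ : (Module.End F K)ˣ) : Module.End F K)) (g : Module.End F K) _, Units.inv_mul, one_mul]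
          map_zero' := by
            apply hinj; rw [← hτ]; simp
          map_add' := by
            intro x y
            apply hinj
            rw [← hτ, map_add, map_add, ← hτ, ← hτ, mul_add, add_mul]
          commutes' := by
            intro r
            apply hinj
            rw [← hτ, AlgHom.commutes, ← Algebra.commutes, mul_assoc, Units.mul_inv, mul_one] }
      let σ : K ≃ₐ[F] K := AlgEquiv.ofBijective τh (Algebra.IsAlgebraic.algHom_bijective τh)
      have hg1 : (g : Module.End F K) 1 ≠ 0 := by
        intro h0
        have : ((g⁻¹ : (Module.End F K)ˣ) : Module.End F K) ((g : Module.End F K) 1) = 1 := by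
          rw [← Module.End.mul_apply, Units.inv_mul]; rfl
        rw [h0, map_zero] at this
        exact zero_ne_one this
      refine ⟨(Units.mk0 _ hg1, σ), ?_⟩
      apply Subtype.ext
      apply Units.ext
      ext v
      show (g : Module.End F K) 1 * τ v = (g : Module.End F K) v
      have h3 := congrArg (fun f : Module.End F K => f ((g : Module.End F K) 1)) (hτ v)
      simp only [Module.End.mul_apply] at h3
      have h4 : ((g⁻¹ : (Module.End F K)ˣ) : Module.End F K) ((g : Module.End F K) 1) = 1 := by
        rw [← Module.End.mul_apply, Units.inv_mul]; rfl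
      rw [h4] at h3
      have h5 : (g : Module.End F K) (v * 1) = τ v * (g : Module.End F K) 1 := h3
      rw [mul_one] at h5
      rw [mul_comm]
      exact h5.symm
  rw [← Nat.card_congr e, Nat.card_prod, IsGalois.card_aut_eq_finrank, hdim, Nat.card_eq_fintype_card,
    Fintype.card_units, mul_comm]

end Cfsg.Agent.S5738
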