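import Cfsg.Statements.S5739
import Cfsg.Agent.Lib.Helper14.Singer

set_option autoImplicit false
open Cfsg

namespace Cfsg.Agent.S5739

/-- Let F ⊆ K be finite fields with |F| = q and [K : F] = n ≥ 2, and let M ≤ GL_F(K) be the Singer group of multiplications by non-zero elements of K. If g ∈ GL_F(K) does not normalise M, then the order of M ∩ gMg⁻¹ divides q^r − 1 for some proper divisor r of n. In particular, when n is prime, that order divides q − 1. -/
theorem result {F K : Type*} [Field F] [Fintype F] [Field K] [Fintype K] [Algebra F K] (n : ℕ) (hn : 2 ≤ n) (hdim : Module.finrank F K = n)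
    (g : (Module.End F K)ˣ) (hg : ((Units.map ((Algebra.lmul F K : K →ₐ[F] Module.End F K) : K →* Module.End F K)).range).map (MulAut.conj g).toMonoidHom ≠ (Units.map ((Algebra.lmul F K : K →ₐ[F] Module.End F K) : K →* Module.End F K)).range) :
    ∃ r : ℕ, 1 ≤ r ∧ r ∣ n ∧ r < n ∧ Nat.card ↥(((Units.map ((Algebra.lmul F K : K →ₐ[F] Module.End F K) : K →* Module.End F K)).range).map (MulAut.conj g).toMonoidHom ⊓ (Units.map ((Algebra.lmul F K : K →ₐ[F] Module.End F K) : K →* Module.End F K)).range) ∣ Fintype.card F ^ r - 1 := by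
  classical
  have hfd : FiniteDimensional F K := inferInstance
  have hfinE : Finite (Module.End F K) := Finite.of_injective (fun f => (f : K → K)) DFunLike.coe_injective
  set A := Cfsg.Agent.Lib.Helper14.Singer.conjAlg g with hA
  have hcard := Cfsg.Agent.Lib.Helper14.Singer.card_inf g
  have hA1 : Nat.card A = Fintype.card F ^ Module.finrank F A := by
    have : Fintype A := Fintype.ofFinite _
    rw [Nat.card_eq_fintype_card, Module.card_eq_pow_finrank (K := F)]
  have hdvd : Module.finrank F A ∣ n := hdim ▸ Cfsg.Agent.Lib.Helper14.Singer.finrank_subalgebra_dvd A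
  have hpos : 0 < Module.finrank F A := Module.finrank_pos
  refine ⟨Module.finrank F A, hpos, hdvd, ?_, ?_⟩
  · apply lt_of_le_of_ne (Nat.le_of_dvd (by omega) hdvd)
    intro heq
    apply hg
    have htop : Subalgebra.toSubmodule A = ⊤ := Submodule.eq_top_of_finrank_eq (by rw [hdim]; exact heq)
    have hall : ∀ x : K, x ∈ A := fun x => by
      have : x ∈ Subalgebra.toSubmodule A := htop ▸ Submodule.mem_top
      exact this
    symm
    apply Subgroup.eq_of_le_of_card_ge
    · intro u hu
      obtain ⟨x, hx, h⟩ := Cfsg.Agent.Lib.Helper14.Singer.mem_singer.mp hu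
      obtain ⟨y, hy⟩ := hall x
      refine Cfsg.Agent.Lib.Helper14.Singer.mem_map_conj.mpr ⟨y, ?_, by rw [h]; exact hy⟩
      rintro rfl
      rw [map_zero] at hy
      have h1 : Algebra.lmul F K x = 0 := by
        have := congrArg (fun f => (g : Module.End F K) * f * ((g⁻¹ : (Module.End F K)ˣ) : Module.End F K)) hy
        simpa [mul_assoc] using this
      exact hx (Cfsg.Agent.Lib.Helper14.Singer.lmul_injective (h1.trans (map_zero _).symm))
    · rw [Subgroup.card_map_of_injective (MulAut.conj g).injective]
  · rw [← hA1, ← hcard, Nat.add_sub_cancel]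

end Cfsg.Agent.S5739
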