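import Cfsg.Statements.S5747
import Cfsg.Agent.Lib.Helper14.IBIS

set_option autoImplicit false
open Cfsg

namespace Cfsg.Agent.S5747

/-- Let a finite group G act on a finite set Ω. An irredundant base is a sequence of points ω₁, …, ω_t whose pointwise stabiliser is trivial and in which each ω_i is moved by some element fixing ω₁, …, ω_{i−1}. Then all irredundant bases have the same length if and only if every reordering of an irredundant base is again an irredundant base. -/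
theorem result {G Ω : Type*} [Group G] [Finite G] [MulAction G Ω] [Fintype Ω] :
    (∀ (t t' : ℕ) (f : Fin t → Ω) (f' : Fin t' → Ω), ((∀ g : G, (∀ i : Fin t, g • f i = f i) → g = 1) ∧ ∀ i : Fin t, ∃ g : G, (∀ j : Fin t, j < i → g • f j = f j) ∧ g • f i ≠ f i) → ((∀ g : G, (∀ i : Fin t', g • f' i = f' i) → g = 1) ∧ ∀ i : Fin t', ∃ g : G, (∀ j : Fin t', j < i → g • f' j = f' j) ∧ g • f' i ≠ f' i) → t = t') ↔
    (∀ (t : ℕ) (f : Fin t → Ω) (σ : Equiv.Perm (Fin t)), ((∀ g : G, (∀ i : Fin t, g • f i = f i) → g = 1) ∧ ∀ i : Fin t, ∃ g : G, (∀ j : Fin t, j < i → g • f j = f j) ∧ g • f i ≠ f i) → ((∀ g : G, (∀ i : Fin t, g • (f ∘ σ) i = (f ∘ σ) i) → g = 1) ∧ ∀ i : Fin t, ∃ g : G, (∀ j : Fin t, j < i → g • (f ∘ σ) j = (f ∘ σ) j) ∧ g • (f ∘ σ) i ≠ (f ∘ σ) i)) := by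
  constructor
  · intro ha t f σ hf
    have hb : Cfsg.Agent.Lib.Helper14.IBIS.Base G (f ∘ σ) :=
      Cfsg.Agent.Lib.Helper14.IBIS.base_comp (G := G) hf.1 σ
    refine ⟨hb, ?_⟩
    by_contra hirr
    obtain ⟨t', f', h1, -, h3⟩ := Cfsg.Agent.Lib.Helper14.IBIS.exists_le (G := G) t (f ∘ σ) hb
    have h4 := h3 hirr
    have h5 := ha t t' f f' hf h1
    omega
  · intro hb t t' f f' hf hf'
    exact Cfsg.Agent.Lib.Helper14.IBIS.same_length (G := G) hb hf' _ t f hf rfl

end Cfsg.Agent.S5747
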