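import Cfsg.Statements.S5754

set_option autoImplicit false
open Cfsg

namespace Cfsg.Agent.S5754

section aux
variable {F V : Type*} [Field F] [AddCommGroup V] [Module F V]

/-- The linear functional `y ↦ (Q a)⁻¹ * polar Q a y`. -/
noncomputable def fnl (Q : QuadraticForm F V) (a : V) : Module.Dual F V :=
  (Q a)⁻¹ • (QuadraticMap.polarBilin Q a)

theorem fnl_apply (Q : QuadraticForm F V) (a y : V) :
    fnl Q a y = (Q a)⁻¹ * QuadraticMap.polar Q a y := by
  simp [fnl]

theorem fnl_self (Q : QuadraticForm F V) (a : V) (ha : Q a ≠ 0) : fnl Q a a = 2 := by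
  rw [fnl_apply, QuadraticMap.polar_self]
  simp only [nsmul_eq_mul, Nat.cast_ofNat]
  field_simp

/-- The reflection along an anisotropic vector, as an isometry. -/
noncomputable def rfl' (Q : QuadraticForm F V) (a : V) (ha : Q a ≠ 0) : Q.IsometryEquiv Q :=
  { Module.reflection (fnl_self Q a ha) with
    map_app' := by
      intro y
      change Q (Module.reflection (fnl_self Q a ha) y) = Q y
      rw [Module.reflection_apply, sub_eq_add_neg, ← neg_smul, QuadraticMap.map_add Q,
        QuadraticMap.map_smul, QuadraticMap.polar_smul_right, fnl_apply,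
        QuadraticMap.polar_comm Q y a]
      simp only [smul_eq_mul]
      field_simp
      ring }

theorem rfl'_apply (Q : QuadraticForm F V) (a : V) (ha : Q a ≠ 0) (y : V) :
    rfl' Q a ha y = y - ((Q a)⁻¹ * QuadraticMap.polar Q a y) • a := by
  change Module.reflection (fnl_self Q a ha) y = _
  rw [Module.reflection_apply, fnl_apply]

theorem main (Q : QuadraticForm F V) (hQ : Q.Anisotropic) :
    ∀ (n : ℕ) (u u' : Fin n → V), (∀ i j, Q (u i - u j) = Q (u' i - u' j)) →
      ∃ (φ : Q.IsometryEquiv Q) (c : V), ∀ i, φ (u i) + c = u' i := by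
  intro n
  induction n with
  | zero => intro u u' _; exact ⟨QuadraticMap.IsometryEquiv.refl Q, 0, fun i => i.elim0⟩
  | succ n ih =>
    intro u u' h
    obtain ⟨φ, c, hφ⟩ := ih (fun i => u i.castSucc) (fun i => u' i.castSucc)
      (fun i j => h i.castSucc j.castSucc)
    by_cases hw : φ (u (Fin.last n)) + c = u' (Fin.last n)
    · refine ⟨φ, c, fun i => ?_⟩
      induction i using Fin.lastCases with
      | last => exact hw
      | cast i => exact hφ i
    · set w := φ (u (Fin.last n)) + c with hwdef
      set w' := u' (Fin.last n) with hw'def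
      have ha0 : w - w' ≠ 0 := sub_ne_zero.mpr hw
      have ha : Q (w - w') ≠ 0 := fun h0 => ha0 (hQ _ h0)
      refine ⟨φ.trans (rfl' Q (w - w') ha), rfl' Q (w - w') ha (c - w) + w', fun i => ?_⟩
      have key : ∀ x : V, (φ.trans (rfl' Q (w - w') ha)) x + (rfl' Q (w - w') ha (c - w) + w')
          = rfl' Q (w - w') ha (φ x + c - w) + w' := by
        intro x
        have : (φ.trans (rfl' Q (w - w') ha)) x = rfl' Q (w - w') ha (φ x) := rfl
        rw [this, ← add_assoc, ← map_add]
        congr 2
        abel
      rw [key]
      induction i using Fin.lastCases with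
      | last =>
        rw [← hwdef, sub_self, map_zero, zero_add]
      | cast i =>
        rw [hφ i]
        set y := u' i.castSucc with hy
        have h1 : Q (y - w) = Q (y - w') := by
          have e1 : y - w = φ (u i.castSucc - u (Fin.last n)) := by
            rw [map_sub, hwdef, hy, ← hφ i]; abel
          rw [e1, QuadraticMap.IsometryEquiv.map_app, h]
        have h2 : y - w' = (y - w) + (w - w') := by abel
        rw [h2, QuadraticMap.map_add Q] at h1
        have h3 : QuadraticMap.polar Q (w - w') (y - w) = - Q (w - w') := by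
          rw [QuadraticMap.polar_comm]
          have : Q (w - w') + QuadraticMap.polar Q (y - w) (w - w') = 0 := by
            have := h1
            rw [add_assoc] at this
            exact (left_eq_add.mp this)
          exact eq_neg_of_add_eq_zero_right this
        rw [rfl'_apply, h3]
        have : (Q (w - w'))⁻¹ * - Q (w - w') = -1 := by field_simp
        rw [this]
        simp
end aux

theorem result {F V : Type*} [Field F] [Finite F] [AddCommGroup V] [Module F V] [Module.Finite F V]
    (Q : QuadraticForm F V) (hQ : Q.Anisotropic) (n : ℕ) (hn : 2 ≤ n) (u u' : Fin n → V)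
    (h2 : ∀ i j : Fin n, i ≠ j → ∃ (φ : Q.IsometryEquiv Q) (c : V), φ (u i) + c = u' i ∧ φ (u j) + c = u' j) :
    ∃ (φ : Q.IsometryEquiv Q) (c : V), ∀ i, φ (u i) + c = u' i := by
  apply main Q hQ n u u'
  intro i j
  by_cases hij : i = j
  · subst hij; simp
  · obtain ⟨φ, c, h1, h2⟩ := h2 i j hij
    rw [← h1, ← h2, add_sub_add_right_eq_sub, ← map_sub, QuadraticMap.IsometryEquiv.map_app]

end Cfsg.Agent.S5754
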