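import Cfsg.Statements.S5763
import Cfsg.Agent.Lib.Helper29.Wreath

set_option autoImplicit false
open Cfsg

namespace Cfsg.Agent.S5763

open Cfsg.Agent.Lib.Helper29 Equiv

def z8 : Fin 8 → Fin 8 := ![1,0,3,2,5,4,7,6]
def f1 : Fin 8 → Fin 4 := ![0,0,1,1,2,2,3,3]
def f2 : Fin 8 → Fin 2 := ![0,0,0,0,1,1,1,1]

abbrev G8 (j k vj vk : Fin 8) : Prop := vj ≠ vk ∧ (vj = k ↔ vk = j)

section
variable (C : (Fin 8 → Fin 8) → Prop)

def A7 (v0 v1 v2 v3 v4 v5 v6 : Fin 8) : Prop :=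
  ∀ v7 : Fin 8, v7 ≠ 7 ∧ G8 0 7 v0 v7 ∧ G8 1 7 v1 v7 ∧ G8 2 7 v2 v7 ∧ G8 3 7 v3 v7 ∧ G8 4 7 v4 v7 ∧ G8 5 7 v5 v7 ∧ G8 6 7 v6 v7 →
  C ![v0, v1, v2, v3, v4, v5, v6, v7]
def A6 (v0 v1 v2 v3 v4 v5 : Fin 8) : Prop :=
  ∀ v6 : Fin 8, v6 ≠ 6 ∧ G8 0 6 v0 v6 ∧ G8 1 6 v1 v6 ∧ G8 2 6 v2 v6 ∧ G8 3 6 v3 v6 ∧ G8 4 6 v4 v6 ∧ G8 5 6 v5 v6 →
  A7 C v0 v1 v2 v3 v4 v5 v6
def A5 (v0 v1 v2 v3 v4 : Fin 8) : Prop :=
  ∀ v5 : Fin 8, v5 ≠ 5 ∧ G8 0 5 v0 v5 ∧ G8 1 5 v1 v5 ∧ G8 2 5 v2 v5 ∧ G8 3 5 v3 v5 ∧ G8 4 5 v4 v5 →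
  A6 C v0 v1 v2 v3 v4 v5
def A4 (v0 v1 v2 v3 : Fin 8) : Prop :=
  ∀ v4 : Fin 8, v4 ≠ 4 ∧ G8 0 4 v0 v4 ∧ G8 1 4 v1 v4 ∧ G8 2 4 v2 v4 ∧ G8 3 4 v3 v4 →
  A5 C v0 v1 v2 v3 v4
def A3 (v0 v1 v2 : Fin 8) : Prop :=
  ∀ v3 : Fin 8, v3 ≠ 3 ∧ G8 0 3 v0 v3 ∧ G8 1 3 v1 v3 ∧ G8 2 3 v2 v3 →
  A4 C v0 v1 v2 v3
def A2 (v0 v1 : Fin 8) : Prop :=
  ∀ v2 : Fin 8, v2 ≠ 2 ∧ G8 0 2 v0 v2 ∧ G8 1 2 v1 v2 →
  A3 C v0 v1 v2
def A1 (v0 : Fin 8) : Prop :=
  ∀ v1 : Fin 8, v1 ≠ 1 ∧ G8 0 1 v0 v1 →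
  A2 C v0 v1
def AllInv : Prop :=
  ∀ v0 : Fin 8, v0 ≠ 0 → A1 C v0

variable [DecidablePred C]
instance (v0 v1 v2 v3 v4 v5 v6 : Fin 8) : Decidable (A7 C v0 v1 v2 v3 v4 v5 v6) := by
  unfold A7; infer_instance
instance (v0 v1 v2 v3 v4 v5 : Fin 8) : Decidable (A6 C v0 v1 v2 v3 v4 v5) := by
  unfold A6; infer_instance
instance (v0 v1 v2 v3 v4 : Fin 8) : Decidable (A5 C v0 v1 v2 v3 v4) := by
  unfold A5; infer_instance
instance (v0 v1 v2 v3 : Fin 8) : Decidable (A4 C v0 v1 v2 v3) := by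
  unfold A4; infer_instance
instance (v0 v1 v2 : Fin 8) : Decidable (A3 C v0 v1 v2) := by
  unfold A3; infer_instance
instance (v0 v1 : Fin 8) : Decidable (A2 C v0 v1) := by
  unfold A2; infer_instance
instance (v0 : Fin 8) : Decidable (A1 C v0) := by
  unfold A1; infer_instance
instance : Decidable (AllInv C) := by
  unfold AllInv; infer_instance
end

theorem allInv_apply {C : (Fin 8 → Fin 8) → Prop} (h : AllInv C) (σ : Perm (Fin 8))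
    (hinv : ∀ a, σ (σ a) = a) (hfp : ∀ a, σ a ≠ a) : C ⇑σ := by
  have hG : ∀ j k : Fin 8, j ≠ k → G8 j k (σ j) (σ k) := fun j k hjk =>
    ⟨σ.injective.ne hjk, fun h => by rw [← h, hinv], fun h => by rw [← h, hinv]⟩
  have key := h (σ 0) (hfp 0) (σ 1) ⟨hfp 1, hG 0 1 (by decide)⟩
    (σ 2) ⟨hfp 2, hG 0 2 (by decide), hG 1 2 (by decide)⟩
    (σ 3) ⟨hfp 3, hG 0 3 (by decide), hG 1 3 (by decide), hG 2 3 (by decide)⟩
    (σ 4) ⟨hfp 4, hG 0 4 (by decide), hG 1 4 (by decide), hG 2 4 (by decide), hG 3 4 (by decide)⟩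
    (σ 5) ⟨hfp 5, hG 0 5 (by decide), hG 1 5 (by decide), hG 2 5 (by decide), hG 3 5 (by decide),
      hG 4 5 (by decide)⟩
    (σ 6) ⟨hfp 6, hG 0 6 (by decide), hG 1 6 (by decide), hG 2 6 (by decide), hG 3 6 (by decide),
      hG 4 6 (by decide), hG 5 6 (by decide)⟩
    (σ 7) ⟨hfp 7, hG 0 7 (by decide), hG 1 7 (by decide), hG 2 7 (by decide), hG 3 7 (by decide),
      hG 4 7 (by decide), hG 5 7 (by decide), hG 6 7 (by decide)⟩
  have e : ![σ 0, σ 1, σ 2, σ 3, σ 4, σ 5, σ 6, σ 7] = ⇑σ := by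
    funext a; fin_cases a <;> rfl
  rwa [e] at key

def K8 (v w : Fin 8 → Fin 8) : Prop :=
  ∀ a, w (w a) = a ∧ w a ≠ a ∧ w a ≠ z8 a ∧ w a ≠ v a ∧ w (z8 a) = z8 (w a) ∧ w (v a) = v (w a)

instance (v w : Fin 8 → Fin 8) : Decidable (K8 v w) := by unfold K8; infer_instance

def C1 (v : Fin 8 → Fin 8) : Prop :=
  (∀ a, v a ≠ z8 a) → (K8 v (fun a => z8 (v a)) ∨ K8 v (fun a => z8 (v (z8 (v a)))))

instance : DecidablePred C1 := fun v => by unfold C1; infer_instance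

set_option maxRecDepth 100000 in
theorem allInv_C1 : AllInv C1 := by decide +kernel

def C2 (w : Fin 8 → Fin 8) : Prop :=
  (∀ a, w (z8 a) = z8 (w a)) → (∀ a, w a ≠ z8 a) →
    ∀ a b, (f1 a = f1 b ↔ f1 (w a) = f1 (w b)) ∧ (f2 a = f2 b ↔ f2 (w a) = f2 (w b))

instance : DecidablePred C2 := fun v => by unfold C2; infer_instance

set_option maxRecDepth 100000 in
theorem allInv_C2 : AllInv C2 := by decide +kernel

def P : Subgroup (Perm (Fin 8)) := partSub f1 ⊓ partSub f2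

theorem step {Ω α β : Type*} (F : Ω → α) (E : Ω → β) (g : Perm Ω)
    (hg : ∀ x y, F x = F y ↔ F (g x) = F (g y)) (hE : ∀ x, E (g x) = E x)
    (h3 : ∀ a b c, E a = E b → E b = E c → F a ≠ F b → F b ≠ F c → F a = F c) (x : Ω) :
    F (g (g x)) = F x := by
  by_cases h : F x = F (g x)
  · rw [← (hg _ _).1 h, ← h]
  · exact (h3 x (g x) (g (g x)) (hE x).symm (hE _).symm h (fun h' => h ((hg _ _).2 h'))).symm

theorem isPGroup_P : IsPGroup 2 P := by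
  rintro ⟨g, hg⟩
  refine ⟨3, Subtype.ext ?_⟩
  have hg2 : g * g ∈ P := P.mul_mem hg hg
  have hg4 : (g * g) * (g * g) ∈ P := P.mul_mem hg2 hg2
  have s1 : ∀ x, f2 ((g * g) x) = f2 x :=
    step f2 (fun _ => ()) g hg.2 (fun _ => rfl) (by decide)
  have s2 : ∀ x, f1 (((g * g) * (g * g)) x) = f1 x :=
    step f1 f2 (g * g) hg2.1 s1 (by decide)
  have s3 : ∀ x, (((g * g) * (g * g)) * ((g * g) * (g * g))) x = x :=
    step id f1 ((g * g) * (g * g)) (fun x y => (Equiv.injective _).eq_iff.symm) s2 (by decide)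
  have : g ^ 8 = 1 := by
    ext x
    have := s3 x
    rw [show g ^ 8 = (((g * g) * (g * g)) * ((g * g) * (g * g))) by
      simp only [pow_succ, pow_zero, one_mul, mul_assoc], this, Perm.one_apply]
  simpa using this

def zP : Perm (Fin 8) := ⟨z8, z8, by decide, by decide⟩

theorem zP_apply (a : Fin 8) : zP a = z8 a := rfl

theorem mem_P_of {w : Perm (Fin 8)} (hinv : ∀ a, w (w a) = a) (hfp : ∀ a, w a ≠ a)
    (hc : ∀ a, w (z8 a) = z8 (w a)) (hz : ∀ a, w a ≠ z8 a) : w ∈ P := by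
  have := allInv_apply allInv_C2 w hinv hfp hc hz
  exact ⟨fun a b => (this a b).1, fun a b => (this a b).2⟩

theorem swap_mem_P (a : Fin 8) : swap a (z8 a) ∈ P :=
  ⟨swap_mem_partSub f1 (by revert a; decide), swap_mem_partSub f2 (by revert a; decide)⟩

theorem aux (y w : Perm (Fin 8)) (hK : K8 (⇑(y * zP * y⁻¹)) ⇑w) :
    w ≠ 1 ∧ w ∈ P ∧ y⁻¹ * w * y ∈ P := by
  have hyy : ∀ a, y (y⁻¹ a) = a := fun a => by rw [Perm.coe_inv, Equiv.apply_symm_apply]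
  have hyy' : ∀ a, y⁻¹ (y a) = a := fun a => by rw [Perm.coe_inv, Equiv.symm_apply_apply]
  refine ⟨?_, mem_P_of (fun a => (hK a).1) (fun a => (hK a).2.1) (fun a => (hK a).2.2.2.2.1)
    (fun a => (hK a).2.2.1), mem_P_of ?_ ?_ ?_ ?_⟩
  · intro h
    exact (hK 0).2.1 (by rw [h, Perm.one_apply])
  · intro a
    simp only [Perm.mul_apply]
    rw [hyy, (hK _).1, hyy']
  · intro a h
    simp only [Perm.mul_apply] at h
    apply (hK (y a)).2.1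
    have := congrArg y h
    rwa [hyy] at this
  · intro a
    have := (hK (y a)).2.2.2.2.2
    simp only [Perm.mul_apply, hyy', zP_apply] at this ⊢
    rw [this, hyy']
  · intro a h
    have := (hK (y a)).2.2.2.1
    simp only [Perm.mul_apply, hyy', zP_apply] at this h
    apply this
    rw [← h, hyy]

theorem main (y : Perm (Fin 8)) : ∃ w : Perm (Fin 8), w ≠ 1 ∧ w ∈ P ∧ y⁻¹ * w * y ∈ P := by
  have hyy : ∀ a, y (y⁻¹ a) = a := fun a => by rw [Perm.coe_inv, Equiv.apply_symm_apply]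
  have hyy' : ∀ a, y⁻¹ (y a) = a := fun a => by rw [Perm.coe_inv, Equiv.symm_apply_apply]
  have hzz : ∀ a, z8 (z8 a) = a := by decide
  have hzne : ∀ a, z8 a ≠ a := by decide
  by_cases h : ∃ a, (y * zP * y⁻¹) a = z8 a
  · obtain ⟨a, ha⟩ := h
    refine ⟨swap a (z8 a), ?_, swap_mem_P a, ?_⟩
    · intro h1
      have := congrArg (fun f : Perm (Fin 8) => f a) h1
      simp only [swap_apply_left, Perm.one_apply] at this
      exact hzne a this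
    · have e : y⁻¹ * swap a (z8 a) * y = swap (y⁻¹ a) (z8 (y⁻¹ a)) := by
        have h2 : z8 (y⁻¹ a) = y⁻¹ (z8 a) := by
          rw [← ha]
          simp only [Perm.mul_apply, hyy', zP_apply]
        rw [h2]
        have := Equiv.swap_apply_apply y⁻¹ a (z8 a)
        rw [this, inv_inv]
      rw [e]
      exact swap_mem_P _
  · push Not at h
    have hinv : ∀ a, (y * zP * y⁻¹) ((y * zP * y⁻¹) a) = a := by
      intro a
      simp only [Perm.mul_apply, hyy', zP_apply, hzz, hyy]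
    have hfp : ∀ a, (y * zP * y⁻¹) a ≠ a := by
      intro a h1
      simp only [Perm.mul_apply, zP_apply] at h1
      apply hzne (y⁻¹ a)
      have := congrArg (⇑y⁻¹) h1
      rwa [hyy'] at this
    rcases allInv_apply allInv_C1 _ hinv hfp h with hK | hK
    · exact ⟨zP * (y * zP * y⁻¹), aux y _ hK⟩
    · exact ⟨zP * (y * zP * y⁻¹) * (zP * (y * zP * y⁻¹)), aux y _ hK⟩

/-- In the symmetric group on 8 letters any two Sylow 2-subgroups have non-trivial intersection: for a Sylow 2-subgroup H and every element x, H ∩ xHx⁻¹ ≠ 1. -/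
theorem result (H : Sylow 2 (Equiv.Perm (Fin 8))) (x : Equiv.Perm (Fin 8)) :
    (H : Subgroup (Equiv.Perm (Fin 8))) ⊓ (H : Subgroup (Equiv.Perm (Fin 8))).map (MulAut.conj x).toMonoidHom ≠ ⊥ := by
  obtain ⟨Q, hQ⟩ := isPGroup_P.exists_le_sylow
  obtain ⟨g, hg⟩ := MulAction.exists_smul_eq (Perm (Fin 8)) Q H
  obtain ⟨w, hw1, hwP, hwP'⟩ := main (g⁻¹ * x * g)
  have hmem : ∀ u ∈ P, g * u * g⁻¹ ∈ (H : Subgroup (Perm (Fin 8))) := by
    intro u hu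
    rw [← hg, Sylow.coe_subgroup_smul]
    exact ⟨u, hQ hu, rfl⟩
  intro hbot
  have h1 : g * w * g⁻¹ ∈ (H : Subgroup (Equiv.Perm (Fin 8))) ⊓
      (H : Subgroup (Equiv.Perm (Fin 8))).map (MulAut.conj x).toMonoidHom := by
    refine ⟨hmem w hwP, ?_⟩
    refine ⟨_, hmem _ hwP', ?_⟩
    simp only [MulEquiv.coe_toMonoidHom, MulAut.conj_apply]
    group
  rw [hbot, Subgroup.mem_bot] at h1
  apply hw1
  have : w = g⁻¹ * (g * w * g⁻¹) * g := by group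
  rw [this, h1]; group

end Cfsg.Agent.S5763
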