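import Cfsg.Statements.S5885
import Mathlib

set_option autoImplicit false
open Cfsg

namespace Cfsg.Agent.S5885

open Equiv Equiv.Perm MulAction

lemma coatom_iff {G : Type*} [Group G] (H K : Subgroup G) (hHK : H ≤ K) :
    IsCoatom (H.subgroupOf K) ↔ H ≠ K ∧ ∀ L : Subgroup G, H ≤ L → L ≤ K → L = H ∨ L = K := by
  constructor
  · intro h
    refine ⟨?_, ?_⟩
    · intro e
      apply h.1
      rw [Subgroup.subgroupOf_eq_top, e]
    · intro L hHL hLK
      have hle : H.subgroupOf K ≤ L.subgroupOf K := fun x hx => hHL hx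
      rcases h.le_iff.1 hle with e | e
      · right
        exact le_antisymm hLK (Subgroup.subgroupOf_eq_top.1 e)
      · left
        apply le_antisymm _ hHL
        intro l hl
        have : (⟨l, hLK hl⟩ : K) ∈ L.subgroupOf K := hl
        rw [e] at this
        exact this
  · rintro ⟨hne, hmax⟩
    refine ⟨?_, ?_⟩
    · intro e
      exact hne (le_antisymm hHK (Subgroup.subgroupOf_eq_top.1 e))
    · intro b hb
      have hHL : H ≤ b.map K.subtype := by
        intro h hh
        exact ⟨⟨h, hHK hh⟩, hb.le (show (⟨h, hHK hh⟩ : K) ∈ H.subgroupOf K from hh), rfl⟩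
      rcases hmax (b.map K.subtype) hHL (Subgroup.map_subtype_le b) with e | e
      · exfalso
        apply hb.not_ge
        intro x hx
        have : (x : G) ∈ b.map K.subtype := ⟨x, hx, rfl⟩
        rw [e] at this
        exact this
      · rw [eq_top_iff]
        intro x _
        have : (x : G) ∈ b.map K.subtype := by rw [e]; exact x.2
        obtain ⟨y, hy, hyx⟩ := this
        have : y = x := Subtype.ext hyx
        rw [← this]; exact hy

lemma even_induced {G : Type*} [Group G] [Finite G] (n : ℕ)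
    (hA : ∀ P : Subgroup (Equiv.Perm (Fin n)), MulAction.IsPreprimitive P (Fin n) →
      alternatingGroup (Fin n) ≤ P)
    (M : Subgroup G) (hM : IsCoatom M) (hn : M.index = n) [Fintype (G ⧸ M)] [DecidableEq (G ⧸ M)]
    (c : Perm (G ⧸ M)) (hc : sign c = 1) : ∃ g : G, ∀ w : G ⧸ M, g • w = c w := by
  have hcard : Nat.card (G ⧸ M) = n := hn
  have hnt : Nontrivial (G ⧸ M) := by
    rw [← Finite.one_lt_card_iff_nontrivial, hcard, ← hn]
    have h1 : M.index ≠ 1 := fun h => hM.1 (Subgroup.index_eq_one.1 h)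
    have h0 : M.index ≠ 0 := Subgroup.index_ne_zero_of_finite
    omega
  have hprim : IsPreprimitive G (G ⧸ M) := by
    rw [← isCoatom_stabilizer_iff_preprimitive (G := G) (a := ((1 : G) : G ⧸ M)), stabilizer_quotient]
    exact hM
  have e : (G ⧸ M) ≃ Fin n := by
    apply Fintype.equivFinOfCardEq
    rw [← Nat.card_eq_fintype_card, hcard]
  let ψ : G →* Perm (Fin n) := (e.permCongrHom).toMonoidHom.comp (toPermHom G (G ⧸ M))
  have hψ : ∀ g i, ψ g i = e (g • e.symm i) := fun g i => rfl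
  let f : (G ⧸ M) →ₑ[(ψ.rangeRestrict : G → ψ.range)] Fin n :=
    { toFun := e
      map_smul' := by
        intro g x
        change e (g • x) = ψ g (e x)
        rw [hψ, e.symm_apply_apply] }
  have hP : IsPreprimitive ψ.range (Fin n) :=
    IsPreprimitive.of_surjective (f := f) e.surjective
  have hmem : e.permCongr c ∈ ψ.range := by
    apply hA _ hP
    rw [mem_alternatingGroup, sign_permCongr, hc]
  obtain ⟨g, hg⟩ := hmem
  refine ⟨g, fun w => ?_⟩
  have := congrArg (fun p : Perm (Fin n) => p (e w)) hg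
  simp only [hψ, e.symm_apply_apply, Equiv.permCongr_apply] at this
  exact e.injective this

/-- Let n be an odd positive integer such that every primitive permutation group of degree n contains the alternating group (so the symmetric and alternating groups are the only primitive groups of degree n). Let G be a finite group, M a maximal subgroup of G of index n, and H a maximal subgroup of M. Then H is a second maximal subgroup of G: H is maximal in every maximal subgroup K of G containing H. -/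
theorem result {G : Type*} [Group G]
    [Finite G] (n : ℕ) (hodd : Odd n)
    (hA : ∀ P : Subgroup (Equiv.Perm (Fin n)), MulAction.IsPreprimitive P (Fin n) → alternatingGroup (Fin n) ≤ P)
    (M : Subgroup G) (hM : IsCoatom M) (hn : M.index = n) (H : Subgroup G) (hHM : H ≤ M)
    (hmax : IsCoatom (H.subgroupOf M)) (K : Subgroup G) (hK : IsCoatom K) (hHK : H ≤ K) :
    IsCoatom (H.subgroupOf K) := by
  classical
  haveI : Fintype (G ⧸ M) := Fintype.ofFinite _
  rw [coatom_iff H K hHK]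
  obtain ⟨hHM_ne, hHM_max⟩ := (coatom_iff H M hHM).1 hmax
  by_cases hKM : K = M
  · subst hKM; exact ⟨hHM_ne, hHM_max⟩
  have hKMH : K ⊓ M = H := by
    rcases hHM_max (K ⊓ M) (le_inf hHK hHM) inf_le_right with h | h
    · exact h
    · exfalso
      have hle : M ≤ K := h ▸ inf_le_left
      exact hK.1 (hM.2 K (lt_of_le_of_ne hle (Ne.symm hKM)))
  refine ⟨?_, ?_⟩
  · intro e
    have hle : K ≤ M := e ▸ hHM
    exact hM.1 (hK.2 M (lt_of_le_of_ne hle hKM))
  intro L hHL hLK
  by_contra hcon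
  push Not at hcon
  obtain ⟨hLH, hLKne⟩ := hcon
  have T := even_induced n hA M hM hn
  set a : G ⧸ M := ((1 : G) : G ⧸ M) with ha
  have hstab : ∀ g : G, g • a = a ↔ g ∈ M := by
    intro g
    rw [← mem_stabilizer_iff, ha, stabilizer_quotient]
  obtain ⟨l, hlL, hlH⟩ := SetLike.exists_of_lt (lt_of_le_of_ne hHL (Ne.symm hLH))
  obtain ⟨k0, hk0K, hk0L⟩ := SetLike.exists_of_lt (lt_of_le_of_ne hLK hLKne)
  have hlM : l ∉ M := fun h => hlH (hKMH ▸ ⟨hLK hlL, h⟩)
  set B : Set (G ⧸ M) := {w | ∃ l ∈ L, l • a = w} with hB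
  have haB : a ∈ B := ⟨1, L.one_mem, one_smul _ _⟩
  have hLB : ∀ l ∈ L, ∀ w ∈ B, l • w ∈ B := by
    rintro l1 hl1 _ ⟨l2, hl2, rfl⟩
    exact ⟨l1 * l2, L.mul_mem hl1 hl2, mul_smul _ _ _⟩
  have hblock : ∀ k ∈ K, ∀ w ∈ B, k • w ∈ B → k ∈ L := by
    rintro k hk _ ⟨l1, hl1, rfl⟩ ⟨l2, hl2, h⟩
    have h1 : (l2⁻¹ * k * l1) • a = a := by
      rw [mul_smul, mul_smul, ← h, inv_smul_smul]
    have h2 : l2⁻¹ * k * l1 ∈ H := by
      rw [← hKMH]
      exact ⟨K.mul_mem (K.mul_mem (K.inv_mem (hLK hl2)) hk) (hLK hl1), (hstab _).1 h1⟩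
    have h3 : k = l2 * (l2⁻¹ * k * l1) * l1⁻¹ := by group
    rw [h3]
    exact L.mul_mem (L.mul_mem hl2 (hHL h2)) (L.inv_mem hl1)
  have hdisj : ∀ v ∈ B, k0 • v ∉ B := fun v hv h => hk0L (hblock k0 hk0K v hv h)
  set b : G ⧸ M := l • a with hb
  have hbB : b ∈ B := ⟨l, hlL, rfl⟩
  have hba : b ≠ a := fun h => hlM ((hstab l).1 h)
  set c : G ⧸ M := k0 • a with hc
  set d : G ⧸ M := k0 • b with hd
  have hcB : c ∉ B := hdisj a haB
  have hdB : d ∉ B := hdisj b hbB
  have hcd : c ≠ d := fun h => hba ((smul_left_cancel k0 h).symm)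
  let J : Subgroup G :=
    { carrier := {g | g ∈ M ∧ ∀ w, g • w ∈ B ↔ w ∈ B}
      one_mem' := ⟨M.one_mem, fun w => by rw [one_smul]⟩
      mul_mem' := by
        rintro g h ⟨hg, hg'⟩ ⟨hh, hh'⟩
        exact ⟨M.mul_mem hg hh, fun w => by rw [mul_smul, hg', hh']⟩
      inv_mem' := by
        rintro g ⟨hg, hg'⟩
        exact ⟨M.inv_mem hg, fun w => by rw [← hg', smul_inv_smul]⟩ }
  have hJmem : ∀ g, g ∈ J ↔ g ∈ M ∧ ∀ w, g • w ∈ B ↔ w ∈ B := fun g => Iff.rfl
  have hHJ : H ≤ J := by
    intro h hh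
    refine ⟨hHM hh, fun w => ⟨fun hw => ?_, fun hw => hLB h (hHL hh) w hw⟩⟩
    have := hLB h⁻¹ (L.inv_mem (hHL hh)) _ hw
    rwa [inv_smul_smul] at this
  have hJM : J ≤ M := fun g hg => hg.1
  have three : ∀ x y z : G ⧸ M, x ≠ y → y ≠ z → x ≠ z → ∃ g : G, g • x = y ∧ g • y = z ∧
      g • z = x ∧ ∀ w, w ≠ x → w ≠ y → w ≠ z → g • w = w := by
    intro x y z hxy hyz hxz
    obtain ⟨g, hg⟩ := T (swap x y * swap y z) (by
      rw [map_mul, sign_swap hxy, sign_swap hyz]; rfl)
    refine ⟨g, ?_, ?_, ?_, ?_⟩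
    · rw [hg, Perm.mul_apply, swap_apply_of_ne_of_ne hxy hxz, swap_apply_left]
    · rw [hg, Perm.mul_apply, swap_apply_left, swap_apply_of_ne_of_ne hxz.symm hyz.symm]
    · rw [hg, Perm.mul_apply, swap_apply_right, swap_apply_right]
    · intro w h1 h2 h3
      rw [hg, Perm.mul_apply, swap_apply_of_ne_of_ne h2 h3, swap_apply_of_ne_of_ne h1 h2]
  have hbc : b ≠ c := fun h => hcB (h ▸ hbB)
  have hbd : b ≠ d := fun h => hdB (h ▸ hbB)
  have hac : a ≠ c := fun h => hcB (h ▸ haB)
  have had : a ≠ d := fun h => hdB (h ▸ haB)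
  rcases hHM_max J hHJ hJM with hJ | hJ
  · -- J = H
    have hz : ∃ z, z ∉ B ∧ ∀ v ∈ B, k0 • v ≠ z := by
      by_contra hno
      push Not at hno
      have hU : B ∪ (fun v => k0 • v) '' B = Set.univ := by
        ext z
        simp only [Set.mem_union, Set.mem_image, Set.mem_univ, iff_true]
        by_cases hzB : z ∈ B
        · exact Or.inl hzB
        · exact Or.inr (hno z hzB)
      have hD : Disjoint B ((fun v => k0 • v) '' B) := by
        rw [Set.disjoint_left]
        rintro _ hw ⟨v, hv, rfl⟩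
        exact hdisj v hv hw
      have h1 := Set.ncard_union_eq hD (Set.toFinite _) (Set.toFinite _)
      rw [hU, Set.ncard_univ, Set.ncard_image_of_injective _ (MulAction.injective k0)] at h1
      have h2 : Nat.card (G ⧸ M) = n := hn
      rw [h2] at h1
      obtain ⟨m, hm⟩ := hodd
      omega
    obtain ⟨z, hzB, hzB'⟩ := hz
    have hcz : c ≠ z := hzB' a haB
    have hdz : d ≠ z := hzB' b hbB
    obtain ⟨g, g1, g2, g3, g4⟩ := three c d z hcd hdz hcz
    have hgJ : g ∈ J := by
      rw [hJmem]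
      refine ⟨(hstab g).1 (g4 a hac had (fun h => hzB (h ▸ haB))), fun w => ?_⟩
      by_cases h1 : w = c
      · subst h1; rw [g1]; exact ⟨fun h => absurd h hdB, fun h => absurd h hcB⟩
      by_cases h2 : w = d
      · subst h2; rw [g2]; exact ⟨fun h => absurd h hzB, fun h => absurd h hdB⟩
      by_cases h3 : w = z
      · subst h3; rw [g3]; exact ⟨fun h => absurd h hcB, fun h => absurd h hzB⟩
      rw [g4 w h1 h2 h3]
    have hgK : g ∈ K := hHK (hJ ▸ hgJ)
    have hk1K : k0⁻¹ * g * k0 ∈ K := K.mul_mem (K.mul_mem (K.inv_mem hk0K) hgK) hk0K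
    have hk1a : (k0⁻¹ * g * k0) • a = b := by
      rw [mul_smul, mul_smul, ← hc, g1, hd, inv_smul_smul]
    have hk1L : k0⁻¹ * g * k0 ∈ L := hblock _ hk1K a haB (hk1a ▸ hbB)
    have hk1b := hLB _ hk1L b hbB
    rw [mul_smul, mul_smul, ← hd, g2] at hk1b
    exact hzB' _ hk1b (smul_inv_smul _ _)
  · -- J = M
    obtain ⟨g, g1, g2, g3, g4⟩ := three b c d hbc hcd hbd
    have hgM : g ∈ M := (hstab g).1 (g4 a hba.symm hac had)
    have hgJ : g ∈ J := hJ ▸ hgM
    have := ((hJmem g).1 hgJ).2 b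
    rw [g1] at this
    exact hcB (this.2 hbB)

end Cfsg.Agent.S5885
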