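import Cfsg.Statements.S5894
import Cfsg.Agent.Lib.Helper29.Wreath
import Cfsg.Agent.Lib.Helper29.Basic

set_option autoImplicit false
open Cfsg

namespace Cfsg.Agent.S5894

open Cfsg.Agent.Lib.Helper29 Equiv MulAction
open scoped Pointwise

theorem fin2 : ∀ a b c : Fin 2, a ≠ c → b ≠ c → a = b := by decide

theorem aux {Ω : Type*} [Fintype Ω] [DecidableEq Ω] (m : ℕ) (hm : 2 ≤ m) (f : Ω → Fin 2)
    (hf : ∀ i : Fin 2, Nat.card {x : Ω // f x = i} = m) :
    ∃ M H K : Subgroup (Perm Ω), IsCoatom M ∧ M.index = Nat.card Ω ∧ H ≤ M ∧ IsCoatom (H.subgroupOf M) ∧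
      IsCoatom K ∧ H ≤ K ∧ ¬ IsCoatom (H.subgroupOf K) := by
  obtain ⟨⟨x0, hx0⟩, ⟨x1, hx1⟩, hx01⟩ : ∃ p q : {x : Ω // f x = 0}, p ≠ q := by
    have : 1 < Nat.card {x : Ω // f x = 0} := by rw [hf]; omega
    rw [Finite.one_lt_card_iff_nontrivial] at this
    exact exists_pair_ne _
  have hx01' : x0 ≠ x1 := fun h => hx01 (Subtype.ext h)
  obtain ⟨z, hz⟩ : Nonempty {x : Ω // f x = 1} := by
    have : 0 < Nat.card {x : Ω // f x = 1} := by rw [hf]; omega
    exact (Nat.card_pos_iff.mp this).1
  have hzx0 : z ≠ x0 := fun h => by rw [h, hx0] at hz; exact absurd hz (by decide)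
  have hzx1 : z ≠ x1 := fun h => by rw [h, hx1] at hz; exact absurd hz (by decide)
  have hcard : Nat.card Ω = 2 * m := by
    obtain ⟨φ, -⟩ := exists_coords hf
    rw [Nat.card_congr φ, Nat.card_prod]; simp
  have : Nontrivial Ω := ⟨x0, x1, hx01'⟩
  set O : Set Ω := {x | f x = 0} with hO
  set M := stabilizer (Perm Ω) x0 with hM
  set S := stabilizer (Perm Ω) O with hS
  have hSK : S ≤ partSub f := by
    intro g hg
    rw [hS, mem_stabilizer_set] at hg
    apply mem_partSub_of_perm f 1
    intro x
    rw [Perm.one_apply]
    have h := hg x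
    change f (g x) = 0 ↔ f x = 0 at h
    by_cases hx : f x = 0
    · rw [hx, h.mpr hx]
    · exact fin2 _ _ 0 (fun h' => hx (h.mp h')) hx
  refine ⟨M, M ⊓ S, partSub f, IsPreprimitive.isCoatom_stabilizer_of_isPreprimitive _ x0,
    index_stabilizer_of_transitive _ _, inf_le_left, ?_,
    isCoatom_partSub hm ⟨0, 1, by decide⟩ hf, inf_le_right.trans hSK, ?_⟩
  · rw [isCoatom_subgroupOf_iff inf_le_left]
    constructor
    · intro heq
      have h1 : swap x1 z ∈ M := by
        rw [hM, mem_stabilizer_iff]
        exact swap_apply_of_ne_of_ne hx01' hzx0.symm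
      rw [← heq] at h1
      have h2 : swap x1 z ∈ S := h1.2
      rw [hS, mem_stabilizer_set] at h2
      have h3 := (h2 x1).mpr hx1
      change f (swap x1 z x1) = 0 at h3
      rw [swap_apply_left, hz] at h3
      exact absurd h3 (by decide)
    · intro L hHL hLM
      let φ : Perm {x : Ω // x ≠ x0} →* Perm Ω := Perm.ofSubtype
      have hrange : φ.range = M := by
        ext g
        rw [Perm.mem_range_ofSubtype_iff, hM, mem_stabilizer_iff]
        constructor
        · intro h
          by_contra hne
          have : x0 ∈ (g.support : Set Ω) := by simpa using hne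
          exact (h this) rfl
        · intro h x hx
          intro hxx
          rw [hxx] at hx
          simp at hx
          exact hx h
      let O' : Set {x : Ω // x ≠ x0} := {x | f x.1 = 0}
      have hco : IsCoatom (stabilizer (Perm {x : Ω // x ≠ x0}) O') := by
        apply Equiv.Perm.isCoatom_stabilizer
        · exact ⟨⟨x1, hx01'.symm⟩, hx1⟩
        · refine ⟨⟨z, hzx0⟩, ?_⟩
          intro h
          change f z = 0 at h
          rw [hz] at h
          exact absurd h (by decide)
        · have : Nat.card {x : Ω // x ≠ x0} = Nat.card Ω - 1 := by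
            rw [Nat.card_eq_fintype_card, Nat.card_eq_fintype_card]
            exact Set.card_ne_eq x0
          rw [this, hcard]
          omega
      have hcomap : (M ⊓ S).comap φ = stabilizer (Perm {x : Ω // x ≠ x0}) O' := by
        ext g
        rw [Subgroup.mem_comap, Subgroup.mem_inf, mem_stabilizer_set (s := O')]
        constructor
        · rintro ⟨-, h⟩
          intro x
          rw [hS, mem_stabilizer_set] at h
          have := h x.1
          change f (Perm.ofSubtype g x.1) = 0 ↔ f x.1 = 0 at this
          rw [Perm.ofSubtype_apply_coe] at this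
          exact this
        · intro h
          refine ⟨hrange ▸ ⟨g, rfl⟩, ?_⟩
          rw [hS, mem_stabilizer_set]
          intro x
          by_cases hx : x = x0
          · subst hx
            change f (Perm.ofSubtype g x) = 0 ↔ f x = 0
            rw [Perm.ofSubtype_apply_of_not_mem g (by simp)]
          · have := h ⟨x, hx⟩
            change f (Perm.ofSubtype g x) = 0 ↔ f x = 0
            rw [Perm.ofSubtype_apply_of_mem g hx]
            exact this
      have hLeq : (L.comap φ).map φ = L := Subgroup.map_comap_eq_self (hrange ▸ hLM)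
      have hHeq : ((M ⊓ S).comap φ).map φ = M ⊓ S :=
        Subgroup.map_comap_eq_self (hrange ▸ inf_le_left)
      have hle : stabilizer (Perm {x : Ω // x ≠ x0}) O' ≤ L.comap φ := by
        rw [← hcomap]; exact Subgroup.comap_mono hHL
      rcases hco.le_iff.mp hle with h | h
      · right
        rw [← hLeq, h, ← MonoidHom.range_eq_map, hrange]
      · left
        rw [← hLeq, h, ← hcomap, hHeq]
  · intro hco
    rw [isCoatom_subgroupOf_iff (inf_le_right.trans hSK)] at hco
    rcases hco.2 S inf_le_right hSK with h | h
    · have h1 : swap x0 x1 ∈ S := by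
        rw [hS, mem_stabilizer_set]
        intro x
        have := (swap_mem_partSub f (hx0.trans hx1.symm)) x x0
        change f (swap x0 x1 x) = 0 ↔ f x = 0
        rw [swap_apply_left, hx0, hx1] at this
        exact this.symm
      rw [h] at h1
      have h2 : swap x0 x1 ∈ M := h1.1
      rw [hM, mem_stabilizer_iff] at h2
      change swap x0 x1 x0 = x0 at h2
      rw [swap_apply_left] at h2
      exact hx01' h2.symm
    · obtain ⟨g, hg1, -⟩ := exists_lift hf (swap 0 1)
      have hg : g ∈ partSub f := mem_partSub_of_perm f _ hg1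
      rw [← h, hS, mem_stabilizer_set] at hg
      have h2 := (hg x0).mpr hx0
      change f (g x0) = 0 at h2
      rw [hg1, hx0, swap_apply_left] at h2
      exact absurd h2 (by decide)

theorem result (m : ℕ) (hm : 2 ≤ m) :
    ∃ M H K : Subgroup (Equiv.Perm (Fin (2 * m))), IsCoatom M ∧ M.index = 2 * m ∧ H ≤ M ∧ IsCoatom (H.subgroupOf M) ∧
      IsCoatom K ∧ H ≤ K ∧ ¬ IsCoatom (H.subgroupOf K) := by
  have h := aux m hm (fun x : Fin (2 * m) => (finProdFinEquiv.symm x).1) (by
    intro i
    have e : {x : Fin (2 * m) // (finProdFinEquiv.symm x).1 = i} ≃ Fin m :=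
      { toFun := fun x => (finProdFinEquiv.symm x.1).2
        invFun := fun k => ⟨finProdFinEquiv (i, k), by simp⟩
        left_inv := by
          rintro ⟨x, hx⟩
          apply Subtype.ext
          simp only
          rw [← hx, Prod.mk.eta, Equiv.apply_symm_apply]
        right_inv := by
          intro k
          simp }
    rw [Nat.card_congr e]; simp)
  simpa using h

end Cfsg.Agent.S5894
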