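import Cfsg.Statements.S5895
import Cfsg.Agent.Lib.Helper29.Basic

set_option autoImplicit false
open Cfsg

namespace Cfsg.Agent.S5895

open Cfsg.Agent.Lib.Helper29 SemidirectProduct

section abstract1
variable {N Q : Type} [Group N] [Group Q] [Finite N] [Finite Q] (φ : Q →* MulAut N)

theorem isCoatom_range_inr (hN : Nontrivial N)
    (hirr : ∀ W : Subgroup N, (∀ q : Q, ∀ n ∈ W, φ q n ∈ W) → W = ⊥ ∨ W = ⊤) :
    IsCoatom (inr : Q →* N ⋊[φ] Q).range := by
  constructor
  · intro htop
    obtain ⟨n, hn⟩ := exists_ne (1 : N)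
    have : (inl n : N ⋊[φ] Q) ∈ (inr : Q →* N ⋊[φ] Q).range := by rw [htop]; trivial
    obtain ⟨q, hq⟩ := this
    have := congrArg SemidirectProduct.left hq
    simp at this
    exact hn this.symm
  · intro X hX
    obtain ⟨x, hxX, hx⟩ := SetLike.exists_of_lt hX
    have hinr : ∀ q : Q, (inr q : N ⋊[φ] Q) ∈ X := fun q => hX.le ⟨q, rfl⟩
    have hW := hirr (X.comap inl) (by
      intro q n hn
      rw [Subgroup.mem_comap] at hn ⊢
      rw [inl_aut]
      exact X.mul_mem (X.mul_mem (hinr q) hn) (hinr _))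
    have hxl : x.left ∈ X.comap (inl : N →* N ⋊[φ] Q) := by
      rw [Subgroup.mem_comap]
      have : (inl x.left : N ⋊[φ] Q) = x * (inr x.right)⁻¹ := by
        rw [eq_mul_inv_iff_mul_eq, inl_left_mul_inr_right]
      rw [this]
      exact X.mul_mem hxX (X.inv_mem (hinr _))
    rcases hW with h | h
    · exfalso
      rw [h, Subgroup.mem_bot] at hxl
      apply hx
      refine ⟨x.right, ?_⟩
      rw [← inl_left_mul_inr_right x, hxl]
      simp
    · rw [eq_top_iff]
      intro y _
      rw [← inl_left_mul_inr_right y]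
      refine X.mul_mem ?_ (hinr _)
      have : y.left ∈ X.comap (inl : N →* N ⋊[φ] Q) := by rw [h]; trivial
      exact this

theorem index_range_inr : (inr : Q →* N ⋊[φ] Q).range.index = Nat.card N := by
  have h1 := Subgroup.index_mul_card (inr : Q →* N ⋊[φ] Q).range
  rw [SemidirectProduct.card, Nat.card_congr (MonoidHom.ofInjective (inr_injective (φ := φ))).symm.toEquiv] at h1
  exact Nat.eq_of_mul_eq_mul_right Nat.card_pos h1

/-- The subgroup `W ⋊ H₀`. -/
def subSemi (W : Subgroup N) (H0 : Subgroup Q) (hinv : ∀ q ∈ H0, ∀ n ∈ W, φ q n ∈ W) :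
    Subgroup (N ⋊[φ] Q) where
  carrier := {x | x.left ∈ W ∧ x.right ∈ H0}
  one_mem' := ⟨W.one_mem, H0.one_mem⟩
  mul_mem' := by
    rintro x y ⟨hx1, hx2⟩ ⟨hy1, hy2⟩
    exact ⟨W.mul_mem hx1 (hinv _ hx2 _ hy1), H0.mul_mem hx2 hy2⟩
  inv_mem' := by
    rintro x ⟨hx1, hx2⟩
    exact ⟨hinv _ (H0.inv_mem hx2) _ (W.inv_mem hx1), H0.inv_mem hx2⟩

theorem abstract1 (hN : Nontrivial N)
    (hirr : ∀ W : Subgroup N, (∀ q : Q, ∀ n ∈ W, φ q n ∈ W) → W = ⊥ ∨ W = ⊤)
    (H0 : Subgroup Q) (hH0 : IsCoatom H0) (W : Subgroup N) (hinv : ∀ q ∈ H0, ∀ n ∈ W, φ q n ∈ W)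
    (hWb : W ≠ ⊥) (hWt : W ≠ ⊤) :
    ∃ (G : Type) (_ : Group G) (_ : Finite G) (M H K : Subgroup G), IsCoatom M ∧ M.index = Nat.card N ∧ H ≤ M ∧
      IsCoatom (H.subgroupOf M) ∧ IsCoatom K ∧ H ≤ K ∧ ¬ IsCoatom (H.subgroupOf K) := by
  have hfin : Finite (N ⋊[φ] Q) := Finite.of_equiv _ (equivProd (φ := φ)).symm
  have hHK : H0.map (inr : Q →* N ⋊[φ] Q) ≤ H0.comap rightHom := by
    rintro _ ⟨h, hh, rfl⟩
    rw [Subgroup.mem_comap, rightHom_inr]
    exact hh
  refine ⟨N ⋊[φ] Q, inferInstance, hfin, (inr : Q →* N ⋊[φ] Q).range, H0.map inr, H0.comap rightHom,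
    isCoatom_range_inr φ hN hirr, index_range_inr φ, ?_, ?_,
    Subgroup.isCoatom_comap_of_surjective rightHom_surjective hH0, hHK, ?_⟩
  · rintro _ ⟨h, -, rfl⟩
    exact ⟨h, rfl⟩
  · have hle : H0.map (inr : Q →* N ⋊[φ] Q) ≤ (inr : Q →* N ⋊[φ] Q).range := by
      rintro _ ⟨h, -, rfl⟩
      exact ⟨h, rfl⟩
    rw [isCoatom_subgroupOf_iff hle]
    have hcm : (H0.map (inr : Q →* N ⋊[φ] Q)).comap inr = H0 :=
      Subgroup.comap_map_eq_self_of_injective inr_injective H0
    constructor
    · intro heq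
      apply hH0.1
      rw [← hcm, heq, eq_top_iff]
      intro q _
      exact ⟨q, rfl⟩
    · intro L hHL hLM
      have hLeq : (L.comap inr).map (inr : Q →* N ⋊[φ] Q) = L := Subgroup.map_comap_eq_self hLM
      have hle2 : H0 ≤ L.comap inr := by rw [← hcm]; exact Subgroup.comap_mono hHL
      rcases hH0.le_iff.mp hle2 with h | h
      · right; rw [← hLeq, h, ← MonoidHom.range_eq_map]
      · left; rw [← hLeq, h]
  · intro hco
    rw [isCoatom_subgroupOf_iff hHK] at hco
    have h1 : H0.map (inr : Q →* N ⋊[φ] Q) ≤ subSemi φ W H0 hinv := by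
      rintro _ ⟨h, hh, rfl⟩
      exact ⟨W.one_mem, hh⟩
    have h2 : subSemi φ W H0 hinv ≤ H0.comap rightHom := by
      rintro x ⟨-, hx⟩
      exact hx
    rcases hco.2 _ h1 h2 with h | h
    · apply hWb
      rw [eq_bot_iff]
      intro n hn
      have : (inl n : N ⋊[φ] Q) ∈ subSemi φ W H0 hinv := ⟨hn, H0.one_mem⟩
      rw [h] at this
      obtain ⟨q, -, hq⟩ := this
      have := congrArg SemidirectProduct.left hq
      simp at this
      rw [Subgroup.mem_bot]; exact this.symm
    · apply hWt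
      rw [eq_top_iff]
      intro n _
      have : (inl n : N ⋊[φ] Q) ∈ H0.comap rightHom := by
        rw [Subgroup.mem_comap, rightHom_inl]; exact H0.one_mem
      rw [← h] at this
      exact this.1

end abstract1

section abstract2
variable {N A : Type} [Group N] [Group A] [Finite N] [Finite A] (ψ : A →* MulAut N)

theorem abstract2
    (htop : ∀ W : Subgroup N, (∀ q : A, ∀ n ∈ W, ψ q n ∈ W) → W = ⊥ ∨ W = ⊤)
    (W0 : Subgroup N) (hW0b : W0 ≠ ⊥) (hW0t : W0 ≠ ⊤) :
    ∃ (G : Type) (_ : Group G) (_ : Finite G) (M H K : Subgroup G), IsCoatom M ∧ M.index = Nat.card N ∧ H ≤ M ∧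
      IsCoatom (H.subgroupOf M) ∧ IsCoatom K ∧ H ≤ K ∧ ¬ IsCoatom (H.subgroupOf K) := by
  have hN : Nontrivial N := by
    by_contra hcon
    rw [not_nontrivial_iff_subsingleton] at hcon
    exact hW0b (Subsingleton.elim _ _)
  obtain ⟨L, hL⟩ := exists_minimal_of_wellFoundedLT
    (fun L : Subgroup A => ∀ W : Subgroup N, (∀ q ∈ L, ∀ n ∈ W, ψ q n ∈ W) → W = ⊥ ∨ W = ⊤)
    ⟨⊤, fun W hW => htop W (fun q n hn => hW q trivial n hn)⟩
  have hLb : L ≠ ⊥ := by
    intro h
    have := hL.1 W0 (by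
      intro q hq n hn
      rw [h, Subgroup.mem_bot] at hq
      rw [hq, map_one]; exact hn)
    rcases this with h | h
    · exact hW0b h
    · exact hW0t h
  have hLnt : Nontrivial L := (Subgroup.nontrivial_iff_ne_bot L).mpr hLb
  obtain ⟨H0, hH0⟩ : ∃ H0 : Subgroup L, IsCoatom H0 := by
    rcases eq_top_or_exists_le_coatom (⊥ : Subgroup L) with h | ⟨H0, hH0, -⟩
    · exact absurd h bot_ne_top
    · exact ⟨H0, hH0⟩
  have hlt : H0.map L.subtype < L := by
    refine lt_of_le_of_ne (Subgroup.map_subtype_le H0) ?_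
    intro heq
    apply hH0.1
    rw [eq_top_iff]
    intro x _
    have : (x : A) ∈ H0.map L.subtype := by rw [heq]; exact x.2
    obtain ⟨y, hy, hyx⟩ := this
    have : y = x := Subtype.ext hyx
    rwa [← this]
  have hnot : ¬ (∀ W : Subgroup N, (∀ q ∈ H0.map L.subtype, ∀ n ∈ W, ψ q n ∈ W) → W = ⊥ ∨ W = ⊤) := by
    intro hP
    exact absurd (hL.2 hP hlt.le) (not_le_of_gt hlt)
  push Not at hnot
  obtain ⟨W, hWinv, hWb, hWt⟩ := hnot
  exact abstract1 (ψ.comp L.subtype) hN
    (fun W hW => hL.1 W (fun q hq n hn => hW ⟨q, hq⟩ n hn)) H0 hH0 W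
    (fun q hq n hn => hWinv q ⟨q, hq, rfl⟩ n hn) hWb hWt

end abstract2

section field
variable (E : Type) [Field E]

/-- Multiplication by a unit as an automorphism of the additive group (written multiplicatively). -/
def act : Eˣ →* MulAut (Multiplicative E) where
  toFun a :=
    { toFun := fun x => Multiplicative.ofAdd ((a : E) * Multiplicative.toAdd x)
      invFun := fun x => Multiplicative.ofAdd (((a⁻¹ : Eˣ) : E) * Multiplicative.toAdd x)
      left_inv := fun x => by simp
      right_inv := fun x => by simp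
      map_mul' := fun x y => by simp [mul_add] }
  map_one' := by ext x; simp
  map_mul' a b := by ext x; simp [mul_assoc]

theorem act_apply (a : Eˣ) (x : Multiplicative E) :
    act E a x = Multiplicative.ofAdd ((a : E) * Multiplicative.toAdd x) := rfl

end field

theorem result (p d : ℕ) (hp : p.Prime)
    (hd : 2 ≤ d) :
    ∃ (G : Type) (_ : Group G) (_ : Finite G) (M H K : Subgroup G), IsCoatom M ∧ M.index = p ^ d ∧ H ≤ M ∧
      IsCoatom (H.subgroupOf M) ∧ IsCoatom K ∧ H ≤ K ∧ ¬ IsCoatom (H.subgroupOf K) := by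
  have : Fact p.Prime := ⟨hp⟩
  have hcard : Nat.card (Multiplicative (GaloisField p d)) = p ^ d := GaloisField.card p d (by omega)
  have : Finite (GaloisField p d) := Nat.finite_of_card_ne_zero (by
    rw [GaloisField.card p d (by omega)]; exact pow_ne_zero _ hp.ne_zero)
  have : Finite (Multiplicative (GaloisField p d)) := ‹Finite (GaloisField p d)›
  rw [← hcard]
  have hord : orderOf (Multiplicative.ofAdd (1 : GaloisField p d)) = p := by
    rw [orderOf_ofAdd_eq_addOrderOf]
    have h2 : CharP (GaloisField p d) p := inferInstance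
    exact CharP.eq (GaloisField p d) (CharP.addOrderOf_one (GaloisField p d)) h2
  apply abstract2 (act (GaloisField p d)) ?_ (Subgroup.zpowers (Multiplicative.ofAdd (1 : GaloisField p d)))
  · intro h
    rw [Subgroup.zpowers_eq_bot] at h
    have : (1 : GaloisField p d) = 0 := h
    exact one_ne_zero this
  · intro h
    have h1 : Nat.card (Subgroup.zpowers (Multiplicative.ofAdd (1 : GaloisField p d))) = p := by
      rw [Nat.card_zpowers, hord]
    rw [h, Subgroup.card_top, hcard] at h1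
    have : p ^ 1 < p ^ d := Nat.pow_lt_pow_right hp.one_lt (by omega)
    rw [pow_one] at this
    omega
  · intro W hW
    by_cases hWb : W = ⊥
    · exact Or.inl hWb
    · right
      obtain ⟨⟨w, hw⟩, hw1'⟩ := Subgroup.ne_bot_iff_exists_ne_one.mp hWb
      have hw1 : w ≠ 1 := fun h => hw1' (Subtype.ext h)
      have hw0 : Multiplicative.toAdd w ≠ 0 := fun h => hw1 h
      rw [eq_top_iff]
      intro x _
      by_cases hx : Multiplicative.toAdd x = 0
      · have : x = 1 := hx
        rw [this]; exact W.one_mem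
      · have := hW (Units.mk0 (Multiplicative.toAdd x / Multiplicative.toAdd w) (div_ne_zero hx hw0)) w hw
        rw [act_apply, Units.val_mk0, div_mul_cancel₀ _ hw0] at this
        exact this

end Cfsg.Agent.S5895
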