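import Cfsg.Statements.S5902
import Cfsg.Agent.S5901

set_option autoImplicit false
open Cfsg

namespace Cfsg.Agent.S5902

theorem interval_of_complemented {G : Type*} [Group G] (X : Subgroup G)
    (hK : ComplementedLattice (Subgroup X)) (Y : Subgroup G) (hY : Y ≤ X) :
    ∃ C : Subgroup G, ⊥ ≤ C ∧ C ≤ X ∧ Y ⊔ C = X ∧ Y ⊓ C = ⊥ := by
  obtain ⟨C0, hC0⟩ := hK.exists_isCompl (Y.subgroupOf X)
  refine ⟨C0.map X.subtype, bot_le, Subgroup.map_subtype_le C0, ?_, ?_⟩
  · have h1 : (Y.subgroupOf X ⊔ C0).map X.subtype = X := by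
      rw [hC0.sup_eq_top, ← MonoidHom.range_eq_map, Subgroup.range_subtype]
    rw [Subgroup.map_sup, Subgroup.subgroupOf_map_subtype, inf_eq_left.mpr hY] at h1
    exact h1
  · rw [eq_bot_iff]
    intro x hx
    obtain ⟨hxY, c, hc, rfl⟩ := hx
    have : c ∈ Y.subgroupOf X ⊓ C0 := ⟨hxY, hc⟩
    rw [hC0.inf_eq_bot, Subgroup.mem_bot] at this
    rw [this]; simp

theorem part1 {G : Type*} [Group G] [Finite G] (X M : Subgroup G)
    (hK : ComplementedLattice (Subgroup X))
    (hM : IsCoatom M) (hXM : X ≤ M) (huniq : ∀ M' : Subgroup G, IsCoatom M' → X ≤ M' → M' = M)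
    (H : Subgroup G) (hH : ¬ H ≤ M.normalCore) : ∃ C : Subgroup G, H ⊔ C = ⊤ ∧ H ⊓ C = ⊥ := by
  have hX : X ≠ ⊤ := fun h => hM.1 (top_le_iff.mp (h ▸ hXM))
  rw [SetLike.not_le_iff_exists] at hH
  obtain ⟨h, hhH, hh⟩ := hH
  have : ∃ b : G, b * h * b⁻¹ ∉ M := by
    by_contra hcon
    push Not at hcon
    exact hh hcon
  obtain ⟨b, hb⟩ := this
  let e : Subgroup G ≃o Subgroup G := (MulAut.conj b).mapSubgroup
  have hH' : ¬ e H ≤ M := by
    intro hle
    apply hb
    apply hle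
    exact ⟨h, hhH, rfl⟩
  obtain ⟨C', h1, h2⟩ := Cfsg.Agent.S5901.result ⊥ X M bot_le hX
    (fun Y _ hY => interval_of_complemented X hK Y hY) hM hXM huniq (e H) hH' (by simp)
  refine ⟨e.symm C', ?_, ?_⟩
  · apply e.injective
    rw [map_sup, OrderIso.apply_symm_apply, h1, map_top]
  · apply e.injective
    rw [map_inf, OrderIso.apply_symm_apply, h2, map_bot]

theorem result {G : Type*} [Group G] [Finite G] (X M : Subgroup G)
    (hK : ComplementedLattice (Subgroup X))
    (hM : IsCoatom M) (hXM : X ≤ M) (huniq : ∀ M' : Subgroup G, IsCoatom M' → X ≤ M' → M' = M) :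
    (∀ H : Subgroup G, ¬ H ≤ M.normalCore → ∃ C : Subgroup G, H ⊔ C = ⊤ ∧ H ⊓ C = ⊥) ∧
    ComplementedLattice (Subgroup (G ⧸ M.normalCore)) := by
  refine ⟨part1 X M hK hM hXM huniq, ⟨fun Hb => ?_⟩⟩
  by_cases hHb : Hb = ⊥
  · subst hHb
    exact ⟨⊤, isCompl_bot_top⟩
  · have hsurj : Function.Surjective (QuotientGroup.mk' M.normalCore) := QuotientGroup.mk'_surjective _
    have hH : ¬ Hb.comap (QuotientGroup.mk' M.normalCore) ≤ M.normalCore := by
      intro hle
      apply hHb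
      rw [eq_bot_iff]
      intro x hx
      obtain ⟨g, rfl⟩ := hsurj x
      have : g ∈ M.normalCore := hle hx
      rw [Subgroup.mem_bot]
      exact (QuotientGroup.eq_one_iff g).mpr this
    obtain ⟨C, h1, h2⟩ := part1 X M hK hM hXM huniq _ hH
    refine ⟨C.map (QuotientGroup.mk' M.normalCore), ?_⟩
    rw [isCompl_iff, disjoint_iff, codisjoint_iff]
    constructor
    · rw [eq_bot_iff]
      rintro x ⟨hxH, c, hc, rfl⟩
      have : c ∈ Hb.comap (QuotientGroup.mk' M.normalCore) ⊓ C := ⟨hxH, hc⟩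
      rw [h2, Subgroup.mem_bot] at this
      rw [this]; simp
    · have := congrArg (Subgroup.map (QuotientGroup.mk' M.normalCore)) h1
      rw [Subgroup.map_sup, Subgroup.map_comap_eq_self_of_surjective hsurj,
        Subgroup.map_top_of_surjective _ hsurj] at this
      exact this

end Cfsg.Agent.S5902
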