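import Cfsg.Statements.S5903
import Cfsg.Agent.S5901

set_option autoImplicit false
open Cfsg

namespace Cfsg.Agent.S5903

theorem interval_of_quotient {G : Type*} [Group G] (X N : Subgroup G) (hNX : N ≤ X)
    [(N.subgroupOf X).Normal] (hK : ComplementedLattice (Subgroup (X ⧸ N.subgroupOf X)))
    (Y : Subgroup G) (hNY : N ≤ Y) (hY : Y ≤ X) :
    ∃ C : Subgroup G, N ≤ C ∧ C ≤ X ∧ Y ⊔ C = X ∧ Y ⊓ C = N := by
  set π := QuotientGroup.mk' (N.subgroupOf X) with hπ
  have hsurj : Function.Surjective π := QuotientGroup.mk'_surjective _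
  have hker : π.ker = N.subgroupOf X := QuotientGroup.ker_mk' _
  obtain ⟨Cb, hCb⟩ := hK.exists_isCompl ((Y.subgroupOf X).map π)
  have hY' : ((Y.subgroupOf X).map π).comap π = Y.subgroupOf X := by
    apply Subgroup.comap_map_eq_self
    rw [hker]
    exact Subgroup.subgroupOf_mono X hNY
  have hsup : Y.subgroupOf X ⊔ Cb.comap π = ⊤ := by
    rw [← hY', Subgroup.comap_sup_eq π _ _ hsurj, hCb.sup_eq_top, Subgroup.comap_top]
  have hinf : Y.subgroupOf X ⊓ Cb.comap π = N.subgroupOf X := by
    rw [← hY', ← Subgroup.comap_inf, hCb.inf_eq_bot]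
    exact hker
  have hinj : Function.Injective X.subtype := Subgroup.subtype_injective X
  have hmapY : (Y.subgroupOf X).map X.subtype = Y := by
    rw [Subgroup.subgroupOf_map_subtype, inf_eq_left.mpr hY]
  have hmapN : (N.subgroupOf X).map X.subtype = N := by
    rw [Subgroup.subgroupOf_map_subtype, inf_eq_left.mpr hNX]
  refine ⟨(Cb.comap π).map X.subtype, ?_, Subgroup.map_subtype_le _, ?_, ?_⟩
  · refine le_trans (le_of_eq hmapN.symm) ?_
    apply Subgroup.map_mono
    exact le_trans (le_of_eq hinf.symm) inf_le_right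
  · have := congrArg (Subgroup.map X.subtype) hsup
    rw [Subgroup.map_sup, hmapY, ← MonoidHom.range_eq_map, Subgroup.range_subtype] at this
    exact this
  · have := congrArg (Subgroup.map X.subtype) hinf
    rw [Subgroup.map_inf _ _ _ hinj, hmapY, hmapN] at this
    exact this

theorem result {G : Type*} [Group G] [Finite G] [IsSimpleGroup G] (X M N : Subgroup G)
    (hM : IsCoatom M) (hXM : X ≤ M) (huniq : ∀ M' : Subgroup G, IsCoatom M' → X ≤ M' → M' = M)
    (hNX : N ≤ X) (hN : (Nat.card N).Prime) (hcen : ∀ n ∈ N, ∀ m ∈ M, m * n = n * m)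
    [(N.subgroupOf X).Normal] (hK : ComplementedLattice (Subgroup (X ⧸ N.subgroupOf X))) :
    ComplementedLattice (Subgroup G) := by
  have hX : X ≠ ⊤ := fun h => hM.1 (top_le_iff.mp (h ▸ hXM))
  have hNbot : N ≠ ⊥ := by
    intro h
    rw [h] at hN
    simp at hN
    exact Nat.not_prime_one hN
  refine ⟨fun H => ?_⟩
  by_cases hHb : H = ⊥
  · subst hHb; exact ⟨⊤, isCompl_bot_top⟩
  by_cases hHt : H = ⊤
  · subst hHt; exact ⟨⊥, isCompl_top_bot⟩
  -- key claim
  have claim : ∃ g : G, ¬ ((MulAut.conj g).mapSubgroup H ≤ M) ∧ (MulAut.conj g).mapSubgroup H ⊓ N = ⊥ := by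
    by_contra hcon
    push Not at hcon
    have hnorm : ∀ g : G, ∀ n ∈ N, g⁻¹ * n * g ∈ Subgroup.normalizer (H : Set G) := by
      intro g n hn
      by_cases hle : (MulAut.conj g).mapSubgroup H ≤ M
      · -- centralizes
        have hc : ∀ h ∈ H, (g⁻¹ * n * g) * h = h * (g⁻¹ * n * g) := by
          intro h hh
          have hm : g * h * g⁻¹ ∈ M := hle ⟨h, hh, rfl⟩
          have := hcen n hn _ hm
          calc (g⁻¹ * n * g) * h = g⁻¹ * (n * (g * h * g⁻¹)) * g := by group
            _ = g⁻¹ * ((g * h * g⁻¹) * n) * g := by rw [this]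
            _ = h * (g⁻¹ * n * g) := by group
        rw [Subgroup.mem_normalizer_iff]
        intro h
        constructor
        · intro hh
          rw [hc h hh, mul_inv_cancel_right]; exact hh
        · intro hh
          have h3 := hc _ hh
          rw [inv_mul_cancel_right] at h3
          have h4 : (g⁻¹ * n * g) * h * (g⁻¹ * n * g)⁻¹ = h := mul_left_cancel h3
          rw [h4] at hh
          exact hh
      · have hne := hcon g hle
        -- N ≤ conj H
        have hNle : N ≤ (MulAut.conj g).mapSubgroup H := by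
          have : Fact (Nat.card N).Prime := ⟨hN⟩
          have h1 := Subgroup.eq_bot_or_eq_top_of_prime_card (((MulAut.conj g).mapSubgroup H).subgroupOf N)
          rcases h1 with h1 | h1
          · exfalso
            apply hne
            rw [Subgroup.subgroupOf_eq_bot] at h1
            exact disjoint_iff.mp h1
          · exact Subgroup.subgroupOf_eq_top.mp h1
        obtain ⟨h, hh, hhn⟩ := hNle hn
        have : g⁻¹ * n * g = h := by
          rw [← hhn]
          simp [MulAut.conj_apply]
          group
        rw [this]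
        exact Subgroup.le_normalizer hh
    have htop : Subgroup.normalClosure (N : Set G) = ⊤ := by
      rcases IsSimpleGroup.eq_bot_or_eq_top_of_normal (Subgroup.normalClosure (N : Set G))
        Subgroup.normalClosure_normal with h | h
      · exfalso
        apply hNbot
        rw [eq_bot_iff, ← h]
        exact Subgroup.le_normalClosure
      · exact h
    have hle : Subgroup.normalClosure (N : Set G) ≤ Subgroup.normalizer (H : Set G) := by
      rw [Subgroup.normalClosure, Subgroup.closure_le]
      intro x hx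
      rw [Group.mem_conjugatesOfSet_iff] at hx
      obtain ⟨n, hn, hc⟩ := hx
      rw [isConj_iff] at hc
      obtain ⟨c, rfl⟩ := hc
      have := hnorm c⁻¹ n hn
      simpa using this
    rw [htop, top_le_iff, Subgroup.normalizer_eq_top_iff] at hle
    rcases IsSimpleGroup.eq_bot_or_eq_top_of_normal H hle with h | h
    · exact hHb h
    · exact hHt h
  obtain ⟨g, hg1, hg2⟩ := claim
  obtain ⟨C', h1, h2⟩ := Cfsg.Agent.S5901.result N X M hNX hX
    (fun Y hNY hY => interval_of_quotient X N hNX hK Y hNY hY) hM hXM huniq _ hg1 hg2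
  refine ⟨(MulAut.conj g).mapSubgroup.symm C', ?_⟩
  rw [isCompl_iff, disjoint_iff, codisjoint_iff]
  constructor
  · apply (MulAut.conj g).mapSubgroup.injective
    rw [map_inf, OrderIso.apply_symm_apply, h2, map_bot]
  · apply (MulAut.conj g).mapSubgroup.injective
    rw [map_sup, OrderIso.apply_symm_apply, h1, map_top]

end Cfsg.Agent.S5903
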