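import Cfsg.Statements.S5904

set_option autoImplicit false
open scoped Pointwise
open Cfsg

namespace Cfsg.Agent.S5904

/-- The stabilizer of the partition `{O, Oᶜ}`. -/
def partStab {Ω : Type*} (O : Set Ω) : Subgroup (Equiv.Perm Ω) where
  carrier := {g | (∀ x, g x ∈ O ↔ x ∈ O) ∨ (∀ x, g x ∈ O ↔ x ∉ O)}
  one_mem' := Or.inl fun x => Iff.rfl
  mul_mem' := by
    rintro g h (hg | hg) (hh | hh)
    · left; intro x; rw [Equiv.Perm.mul_apply, hg, hh]
    · right; intro x; rw [Equiv.Perm.mul_apply, hg, hh]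
    · right; intro x; rw [Equiv.Perm.mul_apply, hg, hh]
    · left; intro x; rw [Equiv.Perm.mul_apply, hg, hh, not_not]
  inv_mem' := by
    rintro g (hg | hg)
    · left; intro x
      have := hg (g⁻¹ x)
      rw [Equiv.Perm.coe_inv, Equiv.apply_symm_apply] at this
      exact this.symm
    · right; intro x
      have := hg (g⁻¹ x)
      rw [Equiv.Perm.coe_inv, Equiv.apply_symm_apply] at this
      rw [this, not_not]; rfl

theorem result {Ω : Type*} [Fintype Ω] [DecidableEq Ω] (hΩ : 2 < Fintype.card Ω)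
    (O : Set Ω) (hO : Nat.card O = Nat.card ↥Oᶜ) :
    ¬ IsCoatom (MulAction.stabilizer (Equiv.Perm Ω) O) := by
  classical
  intro hco
  have hle : MulAction.stabilizer (Equiv.Perm Ω) O ≤ partStab O := by
    intro g hg
    rw [MulAction.mem_stabilizer_set] at hg
    exact Or.inl hg
  -- cardinalities
  have hsum : Nat.card O + Nat.card ↥Oᶜ = Fintype.card Ω := by
    rw [← Nat.card_eq_fintype_card, ← Nat.card_sum]
    exact Nat.card_congr (Equiv.Set.sumCompl O)
  have hO2 : 2 ≤ Nat.card O := by omega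
  have hOc : 1 ≤ Nat.card ↥Oᶜ := by omega
  -- the swapping permutation
  obtain ⟨e⟩ : Nonempty (O ≃ ↥Oᶜ) := Finite.card_eq.mp hO
  let σ : Equiv.Perm Ω := (Equiv.Set.sumCompl O).symm.trans
    ((Equiv.sumCongr e e.symm).trans ((Equiv.sumComm _ _).trans (Equiv.Set.sumCompl O)))
  have hσ : ∀ x, σ x ∈ O ↔ x ∉ O := by
    intro x
    by_cases hx : x ∈ O
    · have : σ x = (e ⟨x, hx⟩ : Ω) := by
        simp [σ, Equiv.Set.sumCompl_symm_apply_of_mem hx]
      rw [this]
      have h2 : (e ⟨x, hx⟩ : Ω) ∉ O := (e ⟨x, hx⟩).2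
      tauto
    · have : σ x = (e.symm ⟨x, hx⟩ : Ω) := by
        simp [σ, Equiv.Set.sumCompl_symm_apply_of_notMem hx]
      rw [this]
      have h2 : (e.symm ⟨x, hx⟩ : Ω) ∈ O := (e.symm ⟨x, hx⟩).2
      tauto
  obtain ⟨⟨a, ha⟩, ⟨b, hb⟩, hab⟩ : ∃ a b : O, a ≠ b := by
    have : 1 < Nat.card O := hO2
    rw [Finite.one_lt_card_iff_nontrivial] at this
    exact exists_pair_ne O
  obtain ⟨c, hc⟩ : Nonempty ↥Oᶜ := by
    have : 0 < Nat.card ↥Oᶜ := hOc
    exact (Nat.card_pos_iff.mp this).1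
  have hab' : a ≠ b := fun h => hab (Subtype.ext h)
  have hlt : MulAction.stabilizer (Equiv.Perm Ω) O < partStab O := by
    refine lt_of_le_of_ne hle ?_
    intro heq
    have hσmem : σ ∈ partStab O := Or.inr hσ
    rw [← heq, MulAction.mem_stabilizer_set] at hσmem
    have h1 := hσmem a
    have h2 := hσ a
    change σ a ∈ O ↔ a ∈ O at h1
    tauto
  have htop := hco.2 _ hlt
  have hsw : Equiv.swap a c ∈ partStab O := by rw [htop]; trivial
  have hca : c ≠ a := fun h => hc (h ▸ ha)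
  have hcb : c ≠ b := fun h => hc (h ▸ hb)
  rcases hsw with h | h
  · have := h a
    rw [Equiv.swap_apply_left] at this
    exact hc (this.mpr ha)
  · have := h b
    rw [Equiv.swap_apply_of_ne_of_ne hab'.symm hcb.symm] at this
    exact (this.mp hb) hb

end Cfsg.Agent.S5904
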