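import Cfsg.Statements.S5905
import Cfsg.Agent.Lib.Helper29.Wreath

set_option autoImplicit false
open Cfsg

namespace Cfsg.Agent.S5905

theorem result {Ω : Type*} [Fintype Ω] [DecidableEq Ω] (a b : ℕ) (ha : 2 ≤ a) (hb : 2 ≤ b)
    (f : Ω → Fin b) (hf : ∀ i : Fin b, Nat.card {x : Ω // f x = i} = a) :
    IsCoatom (Subgroup.closure {g : Equiv.Perm Ω | ∀ x y : Ω, f x = f y ↔ f (g x) = f (g y)}) := by
  rw [Cfsg.Agent.Lib.Helper29.closure_eq_partSub]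
  refine Cfsg.Agent.Lib.Helper29.isCoatom_partSub ha ⟨⟨0, by omega⟩, ⟨1, by omega⟩, ?_⟩ hf
  intro h
  simp [Fin.ext_iff] at h

end Cfsg.Agent.S5905
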