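import Cfsg.Statements.S5908
import Cfsg.Agent.S0827

set_option autoImplicit false
open Cfsg

namespace Cfsg.Agent.S5908

/-- The subgroup lattice of PSU₃(2) (the solvable group of order 72, realised over the field with 4 elements) is not complemented: some subgroup H has no subgroup X with H ⊔ X = ⊤ and H ⊓ X = ⊥. -/
theorem result {F : Type*} [Field F] [Fintype F] (hF : Fintype.card F = 4) :
    ¬ ComplementedLattice (Subgroup (Cfsg.PSU 3 F 2)) := by
  classical
  obtain ⟨N, hN, -, -, ⟨e⟩⟩ := Cfsg.Agent.S0827.result hF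
  intro hcomp
  let π : Cfsg.PSU 3 F 2 →* QuaternionGroup 2 := e.toMonoidHom.comp (QuotientGroup.mk' N)
  have hπ : Function.Surjective π := e.surjective.comp (QuotientGroup.mk'_surjective N)
  let Z : Subgroup (QuaternionGroup 2) := Subgroup.zpowers (QuaternionGroup.a 2)
  obtain ⟨X, hX⟩ := hcomp.exists_isCompl (Z.comap π)
  have h1 : (Z.comap π ⊔ X).map π = ⊤ := by
    rw [hX.sup_eq_top, ← MonoidHom.range_eq_map, MonoidHom.range_eq_top]
    exact hπ
  rw [Subgroup.map_sup, Subgroup.map_comap_eq_self_of_surjective hπ] at h1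
  -- a subgroup Y of Q8 with Z ⊔ Y = ⊤ contains the central involution
  have key : ∀ Y : Subgroup (QuaternionGroup 2), Z ⊔ Y = ⊤ → QuaternionGroup.a 2 ∈ Y := by
    intro Y hY
    by_contra hcon
    have h3 : ∀ y : QuaternionGroup 2, y = 1 ∨ y = QuaternionGroup.a 2 ∨ y ^ 2 = QuaternionGroup.a 2 := by
      decide
    have hYbot : Y = ⊥ := by
      rw [Subgroup.eq_bot_iff_forall]
      intro y hy
      rcases h3 y with h | h | h
      · exact h
      · exact absurd (h ▸ hy) hcon
      · exact absurd (h ▸ Y.pow_mem hy 2) hcon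
    rw [hYbot, sup_bot_eq] at hY
    have h4 : Nat.card Z = 2 := by
      rw [Nat.card_zpowers]
      have : Fact (Nat.Prime 2) := ⟨Nat.prime_two⟩
      exact orderOf_eq_prime (by decide) (by decide)
    rw [hY, Subgroup.card_top, Nat.card_eq_fintype_card, QuaternionGroup.card] at h4
    omega
  obtain ⟨x, hx, hxa⟩ := key _ h1
  have h2 : x ∈ Z.comap π ⊓ X := by
    refine ⟨?_, hx⟩
    change π x ∈ Z
    rw [hxa]
    exact Subgroup.mem_zpowers _
  rw [hX.inf_eq_bot, Subgroup.mem_bot] at h2
  rw [h2, map_one] at hxa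
  exact absurd hxa (by decide)

end Cfsg.Agent.S5908
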