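import Cfsg.Statements.S5910
import Cfsg.Agent.Lib.Helper29.Wreath
import Cfsg.Agent.Lib.Helper29.Basic

set_option autoImplicit false
open Cfsg

namespace Cfsg.Agent.S5910

open Cfsg.Agent.Lib.Helper29 Equiv

def f1 : Fin 8 → Fin 4 := ![0,0,1,1,2,2,3,3]

def sg (v : Fin 8 → Fin 8) : ℤˣ := ∏ i, ∏ j ∈ Finset.Ioi i, (if v i < v j then 1 else -1)

section
variable (C : (Fin 8 → Fin 8) → Prop)

def A7 (v0 v1 v2 v3 v4 v5 v6 : Fin 8) : Prop :=
  ∀ v7 : Fin 8, v7 ≠ v6 ∧ f1 v7 = f1 v6 → C ![v0, v1, v2, v3, v4, v5, v6, v7]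
def A6 (v0 v1 v2 v3 v4 v5 : Fin 8) : Prop :=
  ∀ v6 : Fin 8, f1 v6 ≠ f1 v0 ∧ f1 v6 ≠ f1 v2 ∧ f1 v6 ≠ f1 v4 → A7 C v0 v1 v2 v3 v4 v5 v6
def A5 (v0 v1 v2 v3 v4 : Fin 8) : Prop :=
  ∀ v5 : Fin 8, v5 ≠ v4 ∧ f1 v5 = f1 v4 → A6 C v0 v1 v2 v3 v4 v5
def A4 (v0 v1 v2 v3 : Fin 8) : Prop :=
  ∀ v4 : Fin 8, f1 v4 ≠ f1 v0 ∧ f1 v4 ≠ f1 v2 → A5 C v0 v1 v2 v3 v4
def A3 (v0 v1 v2 : Fin 8) : Prop :=
  ∀ v3 : Fin 8, v3 ≠ v2 ∧ f1 v3 = f1 v2 → A4 C v0 v1 v2 v3
def A2 (v0 v1 : Fin 8) : Prop :=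
  ∀ v2 : Fin 8, f1 v2 ≠ f1 v0 → A3 C v0 v1 v2
def A1 (v0 : Fin 8) : Prop :=
  ∀ v1 : Fin 8, v1 ≠ v0 ∧ f1 v1 = f1 v0 → A2 C v0 v1
def AllW : Prop := ∀ v0 : Fin 8, A1 C v0

variable [DecidablePred C]
instance (v0 v1 v2 v3 v4 v5 v6 : Fin 8) : Decidable (A7 C v0 v1 v2 v3 v4 v5 v6) := by
  unfold A7; infer_instance
instance (v0 v1 v2 v3 v4 v5 : Fin 8) : Decidable (A6 C v0 v1 v2 v3 v4 v5) := by
  unfold A6; infer_instance
instance (v0 v1 v2 v3 v4 : Fin 8) : Decidable (A5 C v0 v1 v2 v3 v4) := by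
  unfold A5; infer_instance
instance (v0 v1 v2 v3 : Fin 8) : Decidable (A4 C v0 v1 v2 v3) := by
  unfold A4; infer_instance
instance (v0 v1 v2 : Fin 8) : Decidable (A3 C v0 v1 v2) := by
  unfold A3; infer_instance
instance (v0 v1 : Fin 8) : Decidable (A2 C v0 v1) := by
  unfold A2; infer_instance
instance (v0 : Fin 8) : Decidable (A1 C v0) := by
  unfold A1; infer_instance
instance : Decidable (AllW C) := by
  unfold AllW; infer_instance
end

theorem allW_apply {C : (Fin 8 → Fin 8) → Prop} (h : AllW C) (σ : Perm (Fin 8))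
    (hσ : σ ∈ partSub f1) : C ⇑σ := by
  have hne : ∀ j k : Fin 8, j ≠ k → σ j ≠ σ k := fun j k hjk => σ.injective.ne hjk
  have h1 : ∀ j k : Fin 8, f1 j = f1 k → f1 (σ j) = f1 (σ k) := fun j k hjk => (hσ j k).1 hjk
  have h2 : ∀ j k : Fin 8, f1 j ≠ f1 k → f1 (σ j) ≠ f1 (σ k) := fun j k hjk h => hjk ((hσ j k).2 h)
  have key := h (σ 0) (σ 1) ⟨hne _ _ (by decide), h1 _ _ (by decide)⟩
    (σ 2) (h2 _ _ (by decide))
    (σ 3) ⟨hne _ _ (by decide), h1 _ _ (by decide)⟩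
    (σ 4) ⟨h2 _ _ (by decide), h2 _ _ (by decide)⟩
    (σ 5) ⟨hne _ _ (by decide), h1 _ _ (by decide)⟩
    (σ 6) ⟨h2 _ _ (by decide), h2 _ _ (by decide), h2 _ _ (by decide)⟩
    (σ 7) ⟨hne _ _ (by decide), h1 _ _ (by decide)⟩
  have e : ![σ 0, σ 1, σ 2, σ 3, σ 4, σ 5, σ 6, σ 7] = ⇑σ := by
    funext a; fin_cases a <;> rfl
  rwa [e] at key

def C1 (v : Fin 8 → Fin 8) : Prop :=
  sg v = 1 → ∀ a b, v (a ^^^ b) ^^^ v 0 = v a ^^^ v b

instance : DecidablePred C1 := fun v => by unfold C1; infer_instance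

set_option maxRecDepth 100000 in
theorem allW_C1 : AllW C1 := by decide +kernel

theorem tri (v : Fin 8 → Fin 8) (h : ∀ a b, v (a ^^^ b) ^^^ v 0 = v a ^^^ v b) (a b c : Fin 8) :
    v (a ^^^ b ^^^ c) = v a ^^^ v b ^^^ v c := by
  have X : ∀ x y z : Fin 8, x ^^^ y = z → x = z ^^^ y := by decide
  have Y : ∀ m q s : Fin 8, ((m ^^^ q) ^^^ s) ^^^ q = m ^^^ s := by decide
  rw [X _ _ _ (h (a ^^^ b) c), X _ _ _ (h a b), Y]

/-- The affine group of `𝔽₂³`, acting on `Fin 8`. -/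
def Aff : Subgroup (Perm (Fin 8)) where
  carrier := {g | ∀ a b c, g (a ^^^ b ^^^ c) = g a ^^^ g b ^^^ g c}
  one_mem' := fun _ _ _ => rfl
  mul_mem' := by
    intro g h hg hh a b c
    simp only [Perm.mul_apply]
    rw [hh, hg]
  inv_mem' := by
    intro g hg a b c
    have := hg (g⁻¹ a) (g⁻¹ b) (g⁻¹ c)
    simp only [Perm.coe_inv, Equiv.apply_symm_apply] at this ⊢
    rw [← this, Equiv.symm_apply_apply]

theorem mem_Aff_of {g : Perm (Fin 8)} (h1 : g ∈ partSub f1) (h2 : Perm.sign g = 1) : g ∈ Aff := by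
  have := allW_apply allW_C1 g h1 (by rw [← h2, Perm.sign_eq_prod_prod_Ioi]; rfl)
  exact tri _ this

def e1 : Perm (Fin 8) := swap 1 2 * swap 5 6
def e2 : Perm (Fin 8) := swap 0 1 * swap 1 2

theorem e1_mem : e1 ∈ Aff := by
  show ∀ a b c, e1 (a ^^^ b ^^^ c) = e1 a ^^^ e1 b ^^^ e1 c
  decide

theorem e1_sign : Perm.sign e1 = 1 := by
  rw [e1, Perm.sign_mul, Perm.sign_swap (by decide), Perm.sign_swap (by decide)]; rfl

theorem e1_not_mem : e1 ∉ partSub f1 := by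
  intro h
  have := (h 0 1).1 (by decide)
  revert this
  decide

theorem e2_sign : Perm.sign e2 = 1 := by
  rw [e2, Perm.sign_mul, Perm.sign_swap (by decide), Perm.sign_swap (by decide)]; rfl

theorem e2_not_mem : e2 ∉ Aff := by
  intro h
  have := h 0 1 4
  revert this
  decide

/-- Let Ω be a set with 8 elements and f : Ω → Fin 4 a labelling whose four fibres all have size 2 (a partition of the 8 points into 4 pairs). Then the group of even permutations preserving this partition, (S₂ ≀ S₄) ∩ A₈, is not a maximal subgroup of the alternating group A₈ (it lies in a subgroup isomorphic to the affine group AGL₃(2)). -/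
theorem result {Ω : Type*} [Fintype Ω] [DecidableEq Ω] (h8 : Fintype.card Ω = 8)
    (f : Ω → Fin 4) (hf : ∀ i : Fin 4, Nat.card {x : Ω // f x = i} = 2) :
    ¬ IsCoatom ((Subgroup.closure {g : Equiv.Perm Ω | ∀ x y : Ω, f x = f y ↔ f (g x) = f (g y)} ⊓ alternatingGroup Ω).subgroupOf (alternatingGroup Ω)) := by
  rw [closure_eq_partSub, isCoatom_subgroupOf_iff inf_le_right]
  rintro ⟨-, hmax⟩
  obtain ⟨φ, hφ⟩ := exists_coords hf
  let ψ : Ω ≃ Fin 8 := φ.trans finProdFinEquiv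
  have hψ : ∀ x, f1 (ψ x) = f x := by
    intro x
    rw [← hφ x]
    show f1 (finProdFinEquiv (φ x)) = (φ x).1
    generalize φ x = p
    revert p
    decide
  have hψ' : ∀ a, f (ψ.symm a) = f1 a := fun a => by rw [← hψ, Equiv.apply_symm_apply]
  let Φ : Perm Ω ≃* Perm (Fin 8) := ψ.permCongrHom
  have hΦ : ∀ g a, Φ g a = ψ (g (ψ.symm a)) := fun g a => rfl
  have hsign : ∀ g, Perm.sign (Φ g) = Perm.sign g := fun g => Perm.sign_permCongr ψ g
  have hpart : ∀ g, Φ g ∈ partSub f1 ↔ g ∈ partSub f := by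
    intro g
    constructor
    · intro h x y
      have := h (ψ x) (ψ y)
      simpa only [hΦ, hψ, Equiv.symm_apply_apply] using this
    · intro h a b
      have := h (ψ.symm a) (ψ.symm b)
      simpa only [hΦ, hψ, hψ'] using this
  let L : Subgroup (Perm Ω) := Aff.comap Φ.toMonoidHom ⊓ alternatingGroup Ω
  have hHL : partSub f ⊓ alternatingGroup Ω ≤ L := by
    rintro g ⟨hg1, hg2⟩
    refine ⟨?_, hg2⟩
    show Φ g ∈ Aff
    exact mem_Aff_of ((hpart g).2 hg1) (by rw [hsign]; exact hg2)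
  rcases hmax L hHL inf_le_right with h | h
  · have h1 : Φ.symm e1 ∈ L := by
      refine ⟨?_, ?_⟩
      · show Φ (Φ.symm e1) ∈ Aff
        rw [MulEquiv.apply_symm_apply]; exact e1_mem
      · show Φ.symm e1 ∈ alternatingGroup Ω
        rw [Perm.mem_alternatingGroup, ← hsign, MulEquiv.apply_symm_apply]; exact e1_sign
    rw [h] at h1
    apply e1_not_mem
    have := (hpart _).2 h1.1
    rwa [MulEquiv.apply_symm_apply] at this
  · have h1 : Φ.symm e2 ∈ alternatingGroup Ω := by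
      rw [Perm.mem_alternatingGroup, ← hsign, MulEquiv.apply_symm_apply]; exact e2_sign
    rw [← h] at h1
    apply e2_not_mem
    have : Φ (Φ.symm e2) ∈ Aff := h1.1
    rwa [MulEquiv.apply_symm_apply] at this

end Cfsg.Agent.S5910
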