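import Cfsg.Statements.S5913

set_option autoImplicit false
open Cfsg

namespace Cfsg.Agent.S5913

theorem factor_le {S : Type*} [Group S] [IsSimpleGroup S] (hS : ¬ IsMulCommutative S) {ι : Type*}
    [DecidableEq ι] (N : Subgroup (ι → S)) [N.Normal] (i : ι) (x : ι → S) (hx : x ∈ N) (hxi : x i ≠ 1)
    (s : S) : Pi.mulSingle i s ∈ N := by
  have hnorm : (N.comap (MonoidHom.mulSingle (fun _ : ι => S) i)).Normal := Subgroup.Normal.comap inferInstance _
  rcases IsSimpleGroup.eq_bot_or_eq_top_of_normal _ hnorm with h | h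
  · exfalso
    -- x i is central
    have hcomm : ∀ t : S, x i * t = t * x i := by
      intro t
      have hm : x * (Pi.mulSingle i t * x⁻¹ * (Pi.mulSingle i t)⁻¹) ∈ N :=
        N.mul_mem hx (Subgroup.Normal.conj_mem inferInstance _ (N.inv_mem hx) _)
      have he : x * (Pi.mulSingle i t * x⁻¹ * (Pi.mulSingle i t)⁻¹)
          = Pi.mulSingle i (x i * (t * (x i)⁻¹ * t⁻¹)) := by
        funext j
        by_cases hj : j = i
        · subst hj; simp
        · simp [Pi.mulSingle_eq_of_ne hj]
      rw [he] at hm
      have hm' : x i * (t * (x i)⁻¹ * t⁻¹) ∈ N.comap (MonoidHom.mulSingle (fun _ : ι => S) i) := hm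
      rw [h, Subgroup.mem_bot] at hm'
      have : x i * t = (x i * (t * (x i)⁻¹ * t⁻¹)) * (t * x i) := by group
      rw [this, hm', one_mul]
    have hcen : x i ∈ Subgroup.center S := by
      rw [Subgroup.mem_center_iff]
      intro t; exact (hcomm t).symm
    rcases IsSimpleGroup.eq_bot_or_eq_top_of_normal (Subgroup.center S) inferInstance with hc | hc
    · rw [hc, Subgroup.mem_bot] at hcen
      exact hxi hcen
    · apply hS
      rw [isMulCommutative_iff]
      intro a b
      have : a ∈ Subgroup.center S := by rw [hc]; trivial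
      rw [Subgroup.mem_center_iff] at this
      exact (this b).symm
  · have : s ∈ N.comap (MonoidHom.mulSingle (fun _ : ι => S) i) := by rw [h]; trivial
    exact this

theorem result {S : Type*} [Group S] [IsSimpleGroup S] (hS : ¬ IsMulCommutative S) (n : ℕ)
    (N : Subgroup (Fin n → S)) [N.Normal] :
    ∃ T : Finset (Fin n), ∀ x : Fin n → S, x ∈ N ↔ ∀ i, i ∉ T → x i = 1 := by
  classical
  refine ⟨Finset.univ.filter (fun i => ∃ x ∈ N, x i ≠ 1), fun x => ⟨?_, ?_⟩⟩
  · intro hx i hi
    by_contra hne
    apply hi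
    simp only [Finset.mem_filter, Finset.mem_univ, true_and]
    exact ⟨x, hx, hne⟩
  · intro hx
    have hle : Subgroup.pi Set.univ (fun i : Fin n => if (∃ x ∈ N, x i ≠ 1) then (⊤ : Subgroup S) else ⊥) ≤ N := by
      rw [Subgroup.pi_le_iff]
      intro i
      rintro _ ⟨s, hs, rfl⟩
      by_cases hi : ∃ x ∈ N, x i ≠ 1
      · obtain ⟨y, hy, hyi⟩ := hi
        exact factor_le hS N i y hy hyi s
      · simp only [hi, if_false] at hs
        have : s = 1 := hs
        subst this
        simp
    apply hle
    rw [Subgroup.mem_pi]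
    intro i _
    by_cases hi : ∃ x ∈ N, x i ≠ 1
    · simp only [hi, if_true]; trivial
    · simp only [hi, if_false]
      rw [Subgroup.mem_bot]
      apply hx
      simp only [Finset.mem_filter, Finset.mem_univ, true_and]
      exact hi

end Cfsg.Agent.S5913
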