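import Cfsg.Statements.S5914
import Cfsg.Agent.S5913

set_option autoImplicit false
open Cfsg

namespace Cfsg.Agent.S5914

section backward

variable {S : Type*} [Group S]

/-- the "transvection" `x ↦ x * mulSingle j (x i)` of an abelian power. -/
def transv (hS : ∀ a b : S, a * b = b * a) {ι : Type*} [DecidableEq ι] (i j : ι) (hij : i ≠ j) :
    (ι → S) ≃* (ι → S) where
  toFun x := x * Pi.mulSingle j (x i)
  invFun x := x * Pi.mulSingle j (x i)⁻¹
  left_inv x := by
    funext k
    simp only [Pi.mul_apply, Pi.mulSingle_eq_of_ne hij, mul_one]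
    by_cases hk : k = j
    · subst hk; simp
    · simp [Pi.mulSingle_eq_of_ne hk]
  right_inv x := by
    funext k
    simp only [Pi.mul_apply, Pi.mulSingle_eq_of_ne hij, mul_one]
    by_cases hk : k = j
    · subst hk; simp
    · simp [Pi.mulSingle_eq_of_ne hk]
  map_mul' x y := by
    funext k
    simp only [Pi.mul_apply]
    by_cases hk : k = j
    · subst hk
      simp only [Pi.mulSingle_eq_same]
      rw [mul_assoc, mul_assoc, ← mul_assoc (y k), hS (y k) (x i), mul_assoc]
    · simp [Pi.mulSingle_eq_of_ne hk]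

theorem char_apply {G : Type*} [Group G] {H : Subgroup G} (hH : H.Characteristic) (ϕ : G ≃* G) {x : G}
    (hx : x ∈ H) : ϕ x ∈ H :=
  (Subgroup.characteristic_iff_le_comap.mp hH ϕ) hx

theorem backward_pi [IsSimpleGroup S] (n : ℕ) (H : Subgroup (Fin n → S)) (hH : H.Characteristic) :
    H = ⊥ ∨ H = ⊤ := by
  by_cases hHb : H = ⊥
  · exact Or.inl hHb
  right
  obtain ⟨⟨x, hx⟩, hx1'⟩ := Subgroup.ne_bot_iff_exists_ne_one.mp hHb
  have hx1 : x ≠ 1 := fun h => hx1' (Subtype.ext h)
  obtain ⟨i, hi⟩ : ∃ i, x i ≠ 1 := by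
    by_contra hcon
    push Not at hcon
    exact hx1 (funext hcon)
  have hHn : H.Normal := Subgroup.normal_of_characteristic H
  have claimA : ∀ s, Pi.mulSingle i s ∈ H := by
    by_cases hS : IsMulCommutative S
    · have hcomm : ∀ a b : S, a * b = b * a := isMulCommutative_iff.mp hS
      have hfull : ∀ (j : Fin n) (t : S), t ≠ 1 → Pi.mulSingle j t ∈ H → ∀ s, Pi.mulSingle j s ∈ H := by
        intro j t ht htH s
        have hnorm : (H.comap (MonoidHom.mulSingle (fun _ : Fin n => S) j)).Normal :=
          Subgroup.Normal.comap hHn _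
        rcases IsSimpleGroup.eq_bot_or_eq_top_of_normal _ hnorm with h | h
        · exfalso
          have : t ∈ H.comap (MonoidHom.mulSingle (fun _ : Fin n => S) j) := htH
          rw [h, Subgroup.mem_bot] at this
          exact ht this
        · have : s ∈ H.comap (MonoidHom.mulSingle (fun _ : Fin n => S) j) := by rw [h]; trivial
          exact this
      have hother : ∀ j, j ≠ i → ∀ s, Pi.mulSingle j s ∈ H := by
        intro j hj
        apply hfull j (x i) hi
        have h1 := char_apply hH (transv hcomm i j hj.symm) hx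
        have h2 : x⁻¹ * (transv hcomm i j hj.symm) x = Pi.mulSingle j (x i) := by
          change x⁻¹ * (x * Pi.mulSingle j (x i)) = _
          rw [inv_mul_cancel_left]
        rw [← h2]
        exact H.mul_mem (H.inv_mem hx) h1
      have hle : Subgroup.pi Set.univ (fun j : Fin n => if j = i then (⊥ : Subgroup S) else ⊤) ≤ H := by
        rw [Subgroup.pi_le_iff]
        intro j
        rintro _ ⟨s, hs, rfl⟩
        by_cases hj : j = i
        · simp only [hj, if_true] at hs
          have : s = 1 := hs
          subst this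
          simp
        · exact hother j hj s
      have hx' : Function.update x i 1 ∈ H := by
        apply hle
        rw [Subgroup.mem_pi]
        intro j _
        by_cases hj : j = i
        · subst hj; simp
        · simp [hj]
      apply hfull i (x i) hi
      have : x * (Function.update x i 1)⁻¹ = Pi.mulSingle i (x i) := by
        funext k
        by_cases hk : k = i
        · subst hk; simp
        · simp [hk, Pi.mulSingle_eq_of_ne hk]
      rw [← this]
      exact H.mul_mem hx (H.inv_mem hx')
    · intro s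
      exact Cfsg.Agent.S5913.factor_le hS H i x hx hi s
  have claimB : ∀ j s, Pi.mulSingle j s ∈ H := by
    intro j s
    have h1 := char_apply hH (MulEquiv.arrowCongr (Equiv.swap i j) (MulEquiv.refl S)) (claimA s)
    have h2 : (MulEquiv.arrowCongr (Equiv.swap i j) (MulEquiv.refl S)) (Pi.mulSingle i s) = Pi.mulSingle j s := by
      funext k
      simp only [MulEquiv.arrowCongr_apply, MulEquiv.refl_apply, Equiv.symm_swap]
      by_cases hk : k = j
      · subst hk; simp
      · rw [Pi.mulSingle_eq_of_ne hk, Pi.mulSingle_eq_of_ne]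
        intro h
        apply hk
        have := congrArg (Equiv.swap i j) h
        rwa [Equiv.swap_apply_self, Equiv.swap_apply_left] at this
    rw [← h2]; exact h1
  rw [eq_top_iff, ← Subgroup.pi_top Set.univ, Subgroup.pi_le_iff]
  intro j
  rintro _ ⟨s, -, rfl⟩
  exact claimB j s

theorem backward {G : Type*} [Group G] {S : Type*} [Group S] [IsSimpleGroup S] (n : ℕ)
    (e : G ≃* (Fin n → S)) (H : Subgroup G) (hH : H.Characteristic) : H = ⊥ ∨ H = ⊤ := by
  have hchar : (H.map e.toMonoidHom).Characteristic := by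
    rw [Subgroup.characteristic_iff_map_le]
    intro ϕ
    rintro _ ⟨_, ⟨h, hh, rfl⟩, rfl⟩
    refine ⟨((e.trans ϕ).trans e.symm) h, char_apply hH _ hh, ?_⟩
    simp
  rcases backward_pi n _ hchar with h | h
  · left
    rwa [Subgroup.map_eq_bot_iff_of_injective _ e.injective] at h
  · right
    rw [eq_top_iff]
    intro g _
    have : e g ∈ H.map e.toMonoidHom := by rw [h]; trivial
    obtain ⟨g', hg', hgg⟩ := this
    have : g' = g := e.injective hgg
    rwa [← this]

end backward

section forward

/-- `S × S^k ≃* S^(k+1)`. -/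
def consMulEquiv (k : ℕ) (S : Type*) [Group S] : (S × (Fin k → S)) ≃* (Fin (k + 1) → S) :=
  { (Fin.consEquiv (fun _ : Fin (k + 1) => S)) with
    map_mul' := by
      rintro ⟨a, f⟩ ⟨b, g⟩
      funext i
      refine Fin.cases ?_ (fun j => ?_) i
      · simp [Fin.consEquiv]
      · simp [Fin.consEquiv] }

theorem prod_equiv_sup {G : Type*} [Group G] (M N' : Subgroup G) (hM : M.Normal) (hN' : N'.Normal)
    (hdisj : Disjoint M N') : Nonempty ((N' × M) ≃* (M ⊔ N' : Subgroup G)) := by
  have comm : ∀ (m : N') (n : M), Commute (N'.subtype m) (M.subtype n) := fun m n =>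
    Subgroup.commute_of_normal_of_disjoint N' M hN' hM hdisj.symm m n m.2 n.2
  have hinj : Function.Injective (MonoidHom.noncommCoprod N'.subtype M.subtype comm) := by
    rw [MonoidHom.noncommCoprod_injective]
    refine ⟨Subgroup.subtype_injective _, Subgroup.subtype_injective _, ?_⟩
    rw [Subgroup.range_subtype, Subgroup.range_subtype]
    exact hdisj.symm
  have hrange : (MonoidHom.noncommCoprod N'.subtype M.subtype comm).range = M ⊔ N' := by
    rw [MonoidHom.noncommCoprod_range, Subgroup.range_subtype, Subgroup.range_subtype, sup_comm]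
  exact ⟨(MonoidHom.ofInjective hinj).trans (MulEquiv.subgroupCongr hrange)⟩

theorem forward {G : Type*} [Group G] [Finite G] [Nontrivial G]
    (h : ∀ H : Subgroup G, H.Characteristic → H = ⊥ ∨ H = ⊤) :
    ∃ (S : Type) (_ : Group S) (_ : IsSimpleGroup S) (n : ℕ), 1 ≤ n ∧ Nonempty (G ≃* (Fin n → S)) := by
  obtain ⟨N, ⟨hNn, hNb⟩, hNmin⟩ := Set.exists_min_image {N : Subgroup G | N.Normal ∧ N ≠ ⊥}
    (fun N => Nat.card N) (Set.toFinite _) ⟨⊤, inferInstance, top_ne_bot⟩
  obtain ⟨M, hM⟩ := exists_maximal_of_wellFoundedGT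
    (fun M : Subgroup G => M.Normal ∧ ∃ k : ℕ, Nonempty (M ≃* (Fin k → N)))
    ⟨⊥, inferInstance, 0, ⟨MulEquiv.ofUnique⟩⟩
  obtain ⟨hMn, k, ⟨e0⟩⟩ := hM.1
  have hMtop : M = ⊤ := by
    by_contra hMt
    have hC : (⨆ γ : MulAut G, N.map γ.toMonoidHom).Characteristic := by
      rw [Subgroup.characteristic_iff_map_le]
      intro ϕ
      rw [Subgroup.map_iSup]
      apply iSup_le
      intro γ
      rw [Subgroup.map_map]
      exact le_iSup (fun γ : MulAut G => N.map γ.toMonoidHom) (γ.trans ϕ)
    have hCtop : (⨆ γ : MulAut G, N.map γ.toMonoidHom) = ⊤ := by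
      rcases h _ hC with h1 | h1
      · exfalso
        apply hNb
        rw [eq_bot_iff, ← h1]
        refine le_trans ?_ (le_iSup (fun γ : MulAut G => N.map γ.toMonoidHom) 1)
        intro x hx
        exact ⟨x, hx, rfl⟩
      · exact h1
    obtain ⟨γ, hγ⟩ : ∃ γ : MulAut G, ¬ N.map γ.toMonoidHom ≤ M := by
      by_contra hcon
      push Not at hcon
      apply hMt
      rw [eq_top_iff, ← hCtop]
      exact iSup_le hcon
    have hN'n : (N.map γ.toMonoidHom).Normal := Subgroup.Normal.map hNn _ γ.surjective
    have hcard : Nat.card (N.map γ.toMonoidHom) = Nat.card N :=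
      Subgroup.card_map_of_injective γ.injective
    have hdisj : Disjoint M (N.map γ.toMonoidHom) := by
      rw [disjoint_iff]
      by_contra hne
      have h1 := hNmin (M ⊓ N.map γ.toMonoidHom) ⟨Subgroup.normal_inf_normal _ _, hne⟩
      have h2 : M ⊓ N.map γ.toMonoidHom = N.map γ.toMonoidHom :=
        Subgroup.eq_of_le_of_card_ge inf_le_right (by rw [hcard]; exact h1)
      exact hγ (h2 ▸ inf_le_left)
    obtain ⟨e1⟩ := prod_equiv_sup M _ hMn hN'n hdisj
    have hP : (M ⊔ N.map γ.toMonoidHom).Normal ∧ ∃ k : ℕ, Nonempty ((M ⊔ N.map γ.toMonoidHom : Subgroup G) ≃* (Fin k → N)) :=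
      ⟨Subgroup.sup_normal _ _, k + 1,
        ⟨(e1.symm.trans (MulEquiv.prodCongr (γ.subgroupMap N).symm e0)).trans (consMulEquiv k N)⟩⟩
    exact hγ (le_trans le_sup_right (hM.2 hP le_sup_left))
  subst hMtop
  have e : G ≃* (Fin k → N) := Subgroup.topEquiv.symm.trans e0
  have hk : 1 ≤ k := by
    by_contra hk
    have hk0 : k = 0 := by omega
    subst hk0
    have : Subsingleton G := e.toEquiv.subsingleton
    exact not_subsingleton G this
  have hNnt : Nontrivial N := (Subgroup.nontrivial_iff_ne_bot N).mpr hNb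
  have hsimple : IsSimpleGroup N := by
    refine ⟨fun K hK => ?_⟩
    by_cases hKb : K = ⊥
    · exact Or.inl hKb
    right
    let i0 : Fin k := ⟨0, hk⟩
    have hinj : Function.Injective (MonoidHom.mulSingle (fun _ : Fin k => N) i0) := Pi.mulSingle_injective (M := fun _ : Fin k => N) i0
    have hK0n : (K.map (MonoidHom.mulSingle (fun _ : Fin k => N) i0)).Normal := by
      refine ⟨?_⟩
      rintro _ ⟨t, ht, rfl⟩ x
      refine ⟨x i0 * t * (x i0)⁻¹, hK.conj_mem t ht _, ?_⟩
      funext j
      by_cases hj : j = i0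
      · subst hj; simp
      · simp [Pi.mulSingle_eq_of_ne hj]
    have hK1n : ((K.map (MonoidHom.mulSingle (fun _ : Fin k => N) i0)).map e.symm.toMonoidHom).Normal :=
      Subgroup.Normal.map hK0n _ e.symm.surjective
    have hK1card : Nat.card ((K.map (MonoidHom.mulSingle (fun _ : Fin k => N) i0)).map e.symm.toMonoidHom) = Nat.card K := by
      rw [Subgroup.card_map_of_injective e.symm.injective, Subgroup.card_map_of_injective hinj]
    have hK1b : ((K.map (MonoidHom.mulSingle (fun _ : Fin k => N) i0)).map e.symm.toMonoidHom) ≠ ⊥ := by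
      rw [Ne, Subgroup.map_eq_bot_iff_of_injective _ e.symm.injective,
        Subgroup.map_eq_bot_iff_of_injective _ hinj]
      exact hKb
    have h1 := hNmin _ ⟨hK1n, hK1b⟩
    simp only [hK1card] at h1
    exact Subgroup.eq_top_of_le_card K h1
  -- transport to `Type`
  have eN' : Shrink.{0} N ≃* N := Shrink.mulEquiv
  exact ⟨Shrink.{0} N, inferInstance, eN'.isSimpleGroup, k, hk,
    ⟨e.trans (MulEquiv.piCongrRight (fun _ => eN'.symm))⟩⟩

end forward

theorem result {G : Type*} [Group G] [Finite G] [Nontrivial G] :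
    (∀ H : Subgroup G, H.Characteristic → H = ⊥ ∨ H = ⊤) ↔
    ∃ (S : Type) (_ : Group S) (_ : IsSimpleGroup S) (n : ℕ), 1 ≤ n ∧ Nonempty (G ≃* (Fin n → S)) := by
  constructor
  · exact forward
  · rintro ⟨S, _, _, n, -, ⟨e⟩⟩ H hH
    exact backward n e H hH

end Cfsg.Agent.S5914
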