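import Cfsg.Statements.S5946

set_option autoImplicit false
open Cfsg

namespace Cfsg.Agent.S5946

theorem result {F K : Type*} [Field F] [Fintype F] [Field K] [Fintype K] [Algebra F K] (n : ℕ) (hn : 2 ≤ n) (hdim : Module.finrank F K = n) :
    Subgroup.centralizer (((Units.map ((Algebra.lmul F K : K →ₐ[F] Module.End F K) : K →* Module.End F K)).range : Subgroup (Module.End F K)ˣ) : Set (Module.End F K)ˣ) = (Units.map ((Algebra.lmul F K : K →ₐ[F] Module.End F K) : K →* Module.End F K)).range := by
  apply le_antisymm
  · intro g hg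
    rw [Subgroup.mem_centralizer_iff] at hg
    have hg1 : (g : Module.End F K) 1 ≠ 0 := by
      intro h0
      have : ((g⁻¹ * g : (Module.End F K)ˣ) : Module.End F K) 1 = 0 := by
        rw [Units.val_mul, Module.End.mul_apply, h0, map_zero]
      rw [inv_mul_cancel] at this
      simp at this
    refine ⟨Units.mk0 _ hg1, ?_⟩
    apply Units.ext
    apply LinearMap.ext
    intro a
    by_cases ha : a = 0
    · subst ha; simp
    · have h := hg (Units.map ((Algebra.lmul F K : K →ₐ[F] Module.End F K) : K →* Module.End F K) (Units.mk0 a ha)) ⟨_, rfl⟩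
      have h2 := congrArg (fun u : (Module.End F K)ˣ => (u : Module.End F K) 1) h
      simp only [Units.val_mul, Module.End.mul_apply, Units.coe_map, Units.val_mk0] at h2
      simp only [Units.coe_map, Units.val_mk0]
      have e1 : ∀ x y : K, ((Algebra.lmul F K : K →ₐ[F] Module.End F K) : K →* Module.End F K) x y = x * y := fun x y => rfl
      rw [e1] at h2 ⊢
      rw [e1, mul_one] at h2
      rw [← h2, mul_comm]
  · rintro _ ⟨a, rfl⟩
    rw [Subgroup.mem_centralizer_iff]
    rintro _ ⟨b, rfl⟩
    rw [← map_mul, ← map_mul, mul_comm]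

end Cfsg.Agent.S5946
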